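import Groth.Agent.Lib.H16_FunFldJ

set_option autoImplicit false
open FunFld

namespace Groth.Agent.H16

variable {k K : Type*} [Field k] [IsAlgClosed k] [Field K] [Algebra k K]

theorem deg_sub_single (hK : IsFunctionField k K) (D : Divisor k K) (P : Place k K) (n : ℤ) :
    (D - Finsupp.single P n).deg = D.deg - n := by
  rw [deg_sub, deg_single, deg_eq_one_of_algClosed hK P]; simp

/-- members vanishing on both -/
theorem L_inf (D : Divisor k K) {P Q : Place k K} (hPQ : P ≠ Q) {m n : ℤ} (hm : 0 ≤ m) (hn : 0 ≤ n) :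
    L (D - Finsupp.single P m) ⊓ L (D - Finsupp.single Q n) ≤
      L (D - Finsupp.single P m - Finsupp.single Q n) := by
  classical
  rintro x ⟨h1, h2⟩ R
  have h1 := h1 R
  have h2 := h2 R
  simp only [Finsupp.coe_sub, Pi.sub_apply, Finsupp.single_apply] at h1 h2 ⊢
  by_cases hR : P = R
  · subst hR
    rw [if_neg (Ne.symm hPQ), sub_zero]
    exact h1
  · rw [if_neg hR, sub_zero] at h1 ⊢
    exact h2

theorem gr_inf_bot (hK : IsFunctionField k K) (D : Divisor k K) (V : Submodule k K)
    {P Q : Place k K} (hPQ : P ≠ Q) {m n : ℤ} (hm : 0 ≤ m) (hn : 0 ≤ n) (h : D.deg < m + n) :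
    (V ⊓ L (D - Finsupp.single P m)) ⊓ (V ⊓ L (D - Finsupp.single Q n)) = ⊥ := by
  rw [eq_bot_iff]
  have h1 : (V ⊓ L (D - Finsupp.single P m)) ⊓ (V ⊓ L (D - Finsupp.single Q n)) ≤
      L (D - Finsupp.single P m - Finsupp.single Q n) :=
    le_trans (inf_le_inf inf_le_right inf_le_right) (L_inf D hPQ hm hn)
  refine le_trans h1 ?_
  rw [L_eq_bot_of_neg hK]
  rw [deg_sub_single hK, deg_sub_single hK]; omega

theorem gr_le (hK : IsFunctionField k K) (D : Divisor k K) (V : Submodule k K) (hV : V ≤ L D)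
    {P Q : Place k K} (hPQ : P ≠ Q) {m n : ℤ} (hm : 0 ≤ m) (hn : 0 ≤ n) (h : D.deg < m + n) :
    Module.finrank k ↥(V ⊓ L (D - Finsupp.single P m)) +
      Module.finrank k ↥(V ⊓ L (D - Finsupp.single Q n)) ≤ Module.finrank k V := by
  haveI := finite_L hK D
  haveI : FiniteDimensional k V := Submodule.finiteDimensional_of_le hV
  haveI : FiniteDimensional k ↥(V ⊓ L (D - Finsupp.single P m)) :=
    Submodule.finiteDimensional_of_le inf_le_left
  haveI : FiniteDimensional k ↥(V ⊓ L (D - Finsupp.single Q n)) :=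
    Submodule.finiteDimensional_of_le inf_le_left
  rw [← Submodule.finrank_sup_add_finrank_inf_eq, gr_inf_bot hK D V hPQ hm hn h, finrank_bot, add_zero]
  exact Submodule.finrank_mono (sup_le inf_le_left inf_le_left)

/-- deg-0 member -/
theorem gr_exists (hK : IsFunctionField k K) (D : Divisor k K) (V : Submodule k K) (hV : V ≤ L D)
    {P Q : Place k K} (hPQ : P ≠ Q) {m n : ℤ} (hm : 0 ≤ m) (hn : 0 ≤ n) (h : D.deg = m + n) :
    Module.finrank k ↥(V ⊓ L (D - Finsupp.single P m)) +
      Module.finrank k ↥(V ⊓ L (D - Finsupp.single Q n)) ≤ Module.finrank k V + 1 ∧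
    (Module.finrank k V < Module.finrank k ↥(V ⊓ L (D - Finsupp.single P m)) +
      Module.finrank k ↥(V ⊓ L (D - Finsupp.single Q n)) →
      ∃ f ∈ V, f ≠ 0 ∧ D + div k f = Finsupp.single P m + Finsupp.single Q n) := by
  haveI := finite_L hK D
  haveI : FiniteDimensional k V := Submodule.finiteDimensional_of_le hV
  haveI : FiniteDimensional k ↥(V ⊓ L (D - Finsupp.single P m)) :=
    Submodule.finiteDimensional_of_le inf_le_left
  haveI : FiniteDimensional k ↥(V ⊓ L (D - Finsupp.single Q n)) :=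
    Submodule.finiteDimensional_of_le inf_le_left
  have h1 : (V ⊓ L (D - Finsupp.single P m)) ⊓ (V ⊓ L (D - Finsupp.single Q n)) ≤
      L (D - Finsupp.single P m - Finsupp.single Q n) :=
    le_trans (inf_le_inf inf_le_right inf_le_right) (L_inf D hPQ hm hn)
  have hdeg : (D - Finsupp.single P m - Finsupp.single Q n).deg = 0 := by
    rw [deg_sub_single hK, deg_sub_single hK]; omega
  -- key: nonzero member
  have key : ∀ f ∈ (V ⊓ L (D - Finsupp.single P m)) ⊓ (V ⊓ L (D - Finsupp.single Q n)), f ≠ 0 →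
      D + div k f = Finsupp.single P m + Finsupp.single Q n := by
    intro f hf hf0
    have hfL := h1 hf
    have hnn : 0 ≤ (D - Finsupp.single P m - Finsupp.single Q n) + div k f := by
      intro R
      have := hfL R
      rw [val_eq_exp_div hK hf0, WithZero.exp_le_exp] at this
      simp only [Finsupp.coe_add, Pi.add_apply, Finsupp.coe_zero, Pi.zero_apply]
      linarith
    have := eff_deg_zero hK hnn (by rw [deg_add, hdeg, deg_div hK]; rfl)
    have h3 : D + div k f = (D - Finsupp.single P m - Finsupp.single Q n) + div k f +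
      (Finsupp.single P m + Finsupp.single Q n) := by abel
    rw [h3, this, zero_add]
  have hsum := Submodule.finrank_sup_add_finrank_inf_eq (V ⊓ L (D - Finsupp.single P m))
    (V ⊓ L (D - Finsupp.single Q n))
  have hle := Submodule.finrank_mono (R := k) (sup_le inf_le_left inf_le_left :
    (V ⊓ L (D - Finsupp.single P m)) ⊔ (V ⊓ L (D - Finsupp.single Q n)) ≤ V)
  have hone : Module.finrank k ↥((V ⊓ L (D - Finsupp.single P m)) ⊓ (V ⊓ L (D - Finsupp.single Q n))) ≤ 1 := by
    by_cases hb : ∃ f ∈ (V ⊓ L (D - Finsupp.single P m)) ⊓ (V ⊓ L (D - Finsupp.single Q n)), f ≠ 0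
    · obtain ⟨f, hf, hf0⟩ := hb
      apply finrank_le_one (⟨f, hf⟩ : ↥((V ⊓ L (D - Finsupp.single P m)) ⊓ (V ⊓ L (D - Finsupp.single Q n))))
      rintro ⟨g, hg⟩
      by_cases hg0 : g = 0
      · exact ⟨0, by ext; simp [hg0]⟩
      have e1 := key f hf hf0
      have e2 := key g hg hg0
      have e3 : div k g = div k f := by
        have : D + div k g = D + div k f := by rw [e1, e2]
        exact add_left_cancel this
      have hL : g * f⁻¹ ∈ L (0 : Divisor k K) := by
        intro R
        have hgR := val_eq_exp_div hK hg0 R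
        have hfR := val_eq_exp_div hK hf0 R
        rw [map_mul, map_inv₀, hgR, hfR, e3]
        simp
      rw [L_zero_eq hK] at hL
      obtain ⟨c, hc⟩ := Submodule.mem_one.mp hL
      refine ⟨c, ?_⟩
      ext
      simp only [Submodule.coe_smul]
      rw [Algebra.smul_def, hc]; field_simp
    · push Not at hb
      have : (V ⊓ L (D - Finsupp.single P m)) ⊓ (V ⊓ L (D - Finsupp.single Q n)) = ⊥ := by
        rw [eq_bot_iff]; intro x hx; exact (Submodule.mem_bot k).mpr (hb x hx)
      rw [this, finrank_bot]; omega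
  refine ⟨by omega, fun hlt => ?_⟩
  have hpos : 0 < Module.finrank k ↥((V ⊓ L (D - Finsupp.single P m)) ⊓ (V ⊓ L (D - Finsupp.single Q n))) := by
    omega
  haveI : Nontrivial ↥((V ⊓ L (D - Finsupp.single P m)) ⊓ (V ⊓ L (D - Finsupp.single Q n))) :=
    Module.nontrivial_of_finrank_pos hpos
  obtain ⟨⟨f, hf⟩, hf0⟩ := exists_ne (0 : ↥((V ⊓ L (D - Finsupp.single P m)) ⊓ (V ⊓ L (D - Finsupp.single Q n))))
  have hf0' : f ≠ 0 := fun h => hf0 (by ext; exact h)
  exact ⟨f, hf.1.1, hf0', key f hf hf0'⟩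

end Groth.Agent.H16
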