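import Mathlib
set_option autoImplicit false
open CategoryTheory CategoryTheory.Limits AlgebraicGeometry Opposite
universe u
namespace Groth.Agent.H1.Descent

theorem S0079 :
    MorphismProperty.DescendsAlong @QuasiCompact (@Surjective ⊓ @Flat ⊓ @QuasiCompact : MorphismProperty Scheme.{u}) := by
  apply IsZariskiLocalAtTarget.descendsAlong
  intro R X Y f g hf h
  have h2 : QuasiCompact f := hf.2
  have h3 : CompactSpace X := by simpa [← quasiCompact_iff_compactSpace f] using hf.2
  have h4 : CompactSpace ↥(pullback f g) := QuasiCompact.compactSpace_of_compactSpace (pullback.fst f g)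
  have h5 : Surjective f := hf.1.1
  have h6 : CompactSpace Y := by
    have hs : Function.Surjective (pullback.snd f g) := (pullback.snd f g).surjective
    constructor
    rw [← hs.range_eq]
    exact isCompact_range (pullback.snd f g).continuous
  rwa [quasiCompact_iff_compactSpace]

theorem S0080 :
    MorphismProperty.DescendsAlong @QuasiSeparated (@Surjective ⊓ @Flat ⊓ @QuasiCompact : MorphismProperty Scheme.{u}) := by
  have := S0079.{u}
  rw [quasiSeparated_eq_diagonal_is_quasiCompact]
  infer_instance

theorem S0081 :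
    MorphismProperty.DescendsAlong @IsSeparated (@Surjective ⊓ @Flat ⊓ @QuasiCompact : MorphismProperty Scheme.{u}) := by
  have e : @IsSeparated = MorphismProperty.diagonal @UniversallyClosed := by
    ext X Y f
    rw [isSeparated_iff]
    constructor
    · intro h
      exact (inferInstance : UniversallyClosed (pullback.diagonal f))
    · intro h
      have h' : UniversallyClosed (pullback.diagonal f) := h
      exact .of_isPreimmersion _ (pullback.diagonal f).isClosedMap.isClosed_range
  rw [e]
  infer_instance

theorem aff {Y : Scheme.{u}} {R S : CommRingCat.{u}} (φ : R ⟶ S) (g : Y ⟶ Spec R) [Surjective (Spec.map φ)] [Flat (Spec.map φ)]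
    [IsAffine (pullback (Spec.map φ) g)] [CompactSpace Y] [QuasiSeparatedSpace Y] : IsAffine Y := by
  have H : IsPullback (pullback.snd (Spec.map φ) g) (pullback.fst (Spec.map φ) g) g (Spec.map φ) :=
    (IsPullback.of_hasPullback _ _).flip
  have h1 : IsIso (pushoutSection (US := ⊤) (UT := ⊤) (UX := ⊤) (UY := ⊤) H le_top le_top (by simp)) :=
    isIso_pushoutSection_of_isQuasiSeparated_of_flat_right _ _ _ _ (isAffineOpen_top _) (isAffineOpen_top _)
      isCompact_univ isQuasiSeparated_univ
  rw [isIso_pushoutSection_iff] at h1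
  have h2 := h1.op.map Scheme.Spec
  have hbot : IsPullback (Spec.map (pullback.fst (Spec.map φ) g).appTop) (Spec.map ((pullback.snd (Spec.map φ) g).appTop))
      (Spec.map (Spec.map φ).appTop) (Spec.map g.appTop) := by
    simpa [Scheme.Hom.appTop, Scheme.Hom.app_eq_appLE] using h2
  have h3 : IsPullback (pullback (Spec.map φ) g).toSpecΓ (pullback.snd (Spec.map φ) g)
      (Spec.map ((pullback.snd (Spec.map φ) g).appTop)) Y.toSpecΓ := by
    refine IsPullback.of_right (h₁₂ := Spec.map (pullback.fst (Spec.map φ) g).appTop) (h₂₂ := Spec.map g.appTop) (v₁₃ := Spec.map (Spec.map φ).appTop) ?_ ?_ hbot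
    · rw [← Scheme.toSpecΓ_naturality, ← Scheme.toSpecΓ_naturality]
      exact (IsPullback.of_hasPullback _ _).paste_horiz (IsPullback.of_horiz_isIso ⟨(Scheme.toSpecΓ_naturality _).symm⟩)
    · exact (Scheme.toSpecΓ_naturality _).symm
  have h4 : Surjective (Spec.map (Spec.map φ).appTop) := by
    have : Spec.map (Spec.map φ).appTop = (Spec S).isoSpec.inv ≫ Spec.map φ ≫ (Spec R).isoSpec.hom := by
      rw [Iso.eq_inv_comp]; simp [Scheme.isoSpec, Scheme.toSpecΓ_naturality]
    rw [this]; infer_instance
  have h5 : Flat (Spec.map (Spec.map φ).appTop) := by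
    have : Spec.map (Spec.map φ).appTop = (Spec S).isoSpec.inv ≫ Spec.map φ ≫ (Spec R).isoSpec.hom := by
      rw [Iso.eq_inv_comp]; simp [Scheme.isoSpec, Scheme.toSpecΓ_naturality]
    rw [this]; infer_instance
  have h6 : Surjective (Spec.map ((pullback.snd (Spec.map φ) g).appTop)) :=
    MorphismProperty.of_isPullback (P := @Surjective) hbot h4
  have h7 : Flat (Spec.map ((pullback.snd (Spec.map φ) g).appTop)) :=
    MorphismProperty.of_isPullback (P := @Flat) hbot h5
  have h8 : IsIso Y.toSpecΓ :=
    MorphismProperty.of_isPullback_of_descendsAlong (P := MorphismProperty.isomorphisms Scheme) (Q := @Surjective ⊓ @Flat ⊓ @QuasiCompact) h3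
      ⟨⟨h6, h7⟩, inferInstance⟩ (inferInstanceAs (IsIso _))
  exact ⟨h8⟩

theorem S0082 :
    MorphismProperty.DescendsAlong @IsAffineHom (@Surjective ⊓ @Flat ⊓ @QuasiCompact : MorphismProperty Scheme.{u}) := by
  have i1 := S0079.{u}
  have i2 := S0080.{u}
  have H₁ : (@IsLocalIso ⊓ @Surjective : MorphismProperty Scheme.{u}) ≤ (@Surjective ⊓ @Flat : MorphismProperty Scheme.{u}) := by
    rw [inf_comm]
    gcongr
    exact IsLocalIso.le_of_isZariskiLocalAtSource @Flat
  refine IsZariskiLocalAtTarget.descendsAlong_inf_quasiCompact @IsAffineHom (@Surjective ⊓ @Flat : MorphismProperty Scheme.{u}) H₁ ?_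
  intro R S Y φ g h hf
  have h1 : Surjective (Spec.map φ) := h.1
  have h2 : Flat (Spec.map φ) := h.2
  have h0 : (@Surjective ⊓ @Flat ⊓ @QuasiCompact : MorphismProperty Scheme.{u}) (Spec.map φ) := ⟨h, inferInstance⟩
  have h3 : IsAffine (pullback (Spec.map φ) g) := isAffine_of_isAffineHom (pullback.fst (Spec.map φ) g)
  have h4 : QuasiCompact g := MorphismProperty.of_pullback_fst_of_descendsAlong (P := @QuasiCompact)
    (f := Spec.map φ) h0 inferInstance
  have h5 : QuasiSeparated g := MorphismProperty.of_pullback_fst_of_descendsAlong (P := @QuasiSeparated)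
    (f := Spec.map φ) h0 inferInstance
  have h6 : CompactSpace Y := by rwa [← quasiCompact_iff_compactSpace g]
  have h7 : QuasiSeparatedSpace Y := by rwa [← quasiSeparated_iff_quasiSeparatedSpace g]
  have h8 := aff φ g
  infer_instance

theorem S0085 :
    MorphismProperty.DescendsAlong @IsIntegralHom (@Surjective ⊓ @Flat ⊓ @QuasiCompact : MorphismProperty Scheme.{u}) := by
  have := S0082.{u}
  have e : @IsIntegralHom = (@UniversallyClosed ⊓ @IsAffineHom : MorphismProperty Scheme.{u}) := by
    ext X Y f
    exact IsIntegralHom.iff_universallyClosed_and_isAffineHom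
  rw [e]
  infer_instance

theorem S0084 :
    MorphismProperty.DescendsAlong @IsFinite (@Surjective ⊓ @Flat ⊓ @QuasiCompact : MorphismProperty Scheme.{u}) := by
  have := S0085.{u}
  have e : @IsFinite = (@IsIntegralHom ⊓ @LocallyOfFiniteType : MorphismProperty Scheme.{u}) := by
    ext X Y f
    exact IsFinite.iff_isIntegralHom_and_locallyOfFiniteType _
  rw [e]
  infer_instance

theorem S0083 :
    MorphismProperty.DescendsAlong @IsClosedImmersion (@Surjective ⊓ @Flat ⊓ @QuasiCompact : MorphismProperty Scheme.{u}) := by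
  have := S0084.{u}
  have e : @IsClosedImmersion = (@IsFinite ⊓ MorphismProperty.diagonal (MorphismProperty.isomorphisms Scheme) : MorphismProperty Scheme.{u}) := by
    ext X Y f
    refine (IsClosedImmersion.iff_isFinite_and_mono _).trans ?_
    refine and_congr Iff.rfl ?_
    exact (MorphismProperty.diagonal_isomorphisms (C := Scheme.{u}) ▸ Iff.rfl)
  rw [e]
  infer_instance

theorem S0086 :
    MorphismProperty.DescendsAlong @IsProper (@Surjective ⊓ @Flat ⊓ @QuasiCompact : MorphismProperty Scheme.{u}) := by
  have := S0081.{u}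
  rw [isProper_eq]
  infer_instance


end Groth.Agent.H1.Descent
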