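import Mathlib
set_option autoImplicit false
open AlgebraicGeometry CategoryTheory
universe u
namespace Groth.Agent.H1.EtStalk

lemma dim_eq {A B : Type*} [CommRing A] [CommRing B] [IsLocalRing A] [IsLocalRing B] [Algebra A B]
    [IsLocalHom (algebraMap A B)] [Module.Flat A B] [IsNoetherianRing A] [IsNoetherianRing B]
    (h : (IsLocalRing.maximalIdeal A).map (algebraMap A B) = IsLocalRing.maximalIdeal B) :
    ringKrullDim B = ringKrullDim A := by
  have h0 : (IsLocalRing.maximalIdeal B).comap (algebraMap A B) = IsLocalRing.maximalIdeal A :=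
    by
      ext a
      rw [Ideal.mem_comap, IsLocalRing.mem_maximalIdeal, IsLocalRing.mem_maximalIdeal, mem_nonunits_iff,
        mem_nonunits_iff, isUnit_map_iff]
  have hl : (IsLocalRing.maximalIdeal B).LiesOver (IsLocalRing.maximalIdeal A) := ⟨h0.symm⟩
  have h1 := Ideal.height_eq_height_add_of_liesOver_of_hasGoingDown (IsLocalRing.maximalIdeal A) (IsLocalRing.maximalIdeal B)
  have h2 : ((IsLocalRing.maximalIdeal B).map (Ideal.Quotient.mk ((IsLocalRing.maximalIdeal A).map (algebraMap A B)))) = ⊥ := by
    rw [h, Ideal.map_quotient_self]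
  have hnt : Nontrivial (B ⧸ (IsLocalRing.maximalIdeal A).map (algebraMap A B)) := by
    rw [h]; exact Ideal.Quotient.nontrivial_iff.2 (IsLocalRing.maximalIdeal.isMaximal B).ne_top
  rw [h2, Ideal.height_bot, add_zero] at h1
  rw [← IsLocalRing.maximalIdeal_height_eq_ringKrullDim, ← IsLocalRing.maximalIdeal_height_eq_ringKrullDim, h1]

theorem S0120 {X Y : Scheme.{u}} (f : X ⟶ Y) [AlgebraicGeometry.Etale f]
    [IsLocallyNoetherian Y] (x : X) :
    ringKrullDim (X.presheaf.stalk x) = ringKrullDim (Y.presheaf.stalk (f.base x)) := by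
  algebraize [(f.stalkMap x).hom]
  have h1 : IsLocalHom (algebraMap (Y.presheaf.stalk (f.base x)) (X.presheaf.stalk x)) :=
    inferInstanceAs <| IsLocalHom (f.stalkMap x).hom
  have h2 : Module.Flat (Y.presheaf.stalk (f.base x)) (X.presheaf.stalk x) := Flat.stalkMap f x
  have h3 : Algebra.EssFiniteType (Y.presheaf.stalk (f.base x)) (X.presheaf.stalk x) := LocallyOfFiniteType.stalkMap f x
  have h4 : Algebra.FormallyUnramified (Y.presheaf.stalk (f.base x)) (X.presheaf.stalk x) := FormallyUnramified.stalkMap f x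
  have h5 : IsNoetherianRing (Y.presheaf.stalk (f.base x)) := inferInstance
  have h6 : IsNoetherianRing (X.presheaf.stalk x) := Algebra.EssFiniteType.isNoetherianRing (Y.presheaf.stalk (f.base x)) _
  exact dim_eq Algebra.FormallyUnramified.map_maximalIdeal

end Groth.Agent.H1.EtStalk
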