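import Groth.Agent.Lib.H1_EtStalk
set_option autoImplicit false
open AlgebraicGeometry CategoryTheory
universe u
namespace Groth.Agent.H1.EtStalk

lemma spanFinrank_eq {A B : Type*} [CommRing A] [CommRing B] [IsLocalRing A] [IsLocalRing B] [Algebra A B]
    [IsLocalHom (algebraMap A B)] [Module.Flat A B] [IsNoetherianRing A] [IsNoetherianRing B]
    (h : (IsLocalRing.maximalIdeal A).map (algebraMap A B) = IsLocalRing.maximalIdeal B) :
    (IsLocalRing.maximalIdeal B).spanFinrank = (IsLocalRing.maximalIdeal A).spanFinrank := by
  classical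
  have hff : Module.FaithfullyFlat A B := Module.FaithfullyFlat.of_flat_of_isLocalHom
  apply le_antisymm
  · rw [← h]
    exact Ideal.spanFinrank_map_le_of_fg _ (IsNoetherian.noetherian _)
  · let mB := IsLocalRing.maximalIdeal B
    let mA := IsLocalRing.maximalIdeal A
    have hmem : ∀ a : mA, algebraMap A B a ∈ mB := fun a => by
      change _ ∈ IsLocalRing.maximalIdeal B
      rw [← h]; exact Ideal.mem_map_of_mem _ a.2
    let ι : mA → mB := fun a => ⟨algebraMap A B a, hmem a⟩
    let κ := IsLocalRing.ResidueField B
    have hspan : ∀ s : Set mA, Submodule.span B (ι '' s) = ⊤ ↔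
        (Ideal.span ((fun a : mA => (a : A)) '' s)).map (algebraMap A B) = mB := by
      intro s
      have h1 : (Submodule.span B (ι '' s)).map mB.subtype = (Ideal.span ((fun a : mA => (a : A)) '' s)).map (algebraMap A B) := by
        rw [Submodule.map_span, Ideal.map_span, ← Set.image_comp, ← Set.image_comp]
        rfl
      rw [← h1]
      constructor
      · intro h2
        rw [h2, Submodule.map_top, Submodule.range_subtype]
      · intro h2
        apply Submodule.map_injective_of_injective mB.injective_subtype
        rw [h2, Submodule.map_top, Submodule.range_subtype]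
    have htop : Submodule.span B (ι '' Set.univ) = ⊤ := by
      rw [hspan]
      have : ((fun a : mA => (a : A)) '' Set.univ) = (mA : Set A) := by
        ext a; simp
      rw [this, Ideal.span_eq]
      exact h
    rw [← IsLocalRing.CotangentSpace.span_image_eq_top_iff] at htop
    obtain ⟨b, hb1, hb2, hb3⟩ := exists_linearIndependent κ (mB.toCotangent '' (ι '' Set.univ))
    rw [htop] at hb2
    have hfin : b.Finite := hb3.setFinite
    have hcard : b.ncard = mB.spanFinrank := by
      rw [IsLocalRing.spanFinrank_maximalIdeal_eq_finrank_cotangentSpace]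
      have := hfin.fintype
      rw [Set.ncard_eq_toFinset_card', ← finrank_span_set_eq_card hb3, hb2, finrank_top]
    have hch : ∀ y ∈ b, ∃ a : mA, mB.toCotangent (ι a) = y := by
      intro y hy
      obtain ⟨_, ⟨a, -, rfl⟩, hx⟩ := hb1 hy
      exact ⟨a, hx⟩
    choose g hg using hch
    let t : Set mA := Set.range (fun y : b => g y.1 y.2)
    have htfin : t.Finite := by
      have := hfin.to_subtype
      exact Set.finite_range _
    have himg : mB.toCotangent '' (ι '' t) = b := by
      ext y
      constructor
      · rintro ⟨_, ⟨_, ⟨z, rfl⟩, rfl⟩, rfl⟩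
        rw [hg]; exact z.2
      · intro hy
        exact ⟨_, ⟨_, ⟨⟨y, hy⟩, rfl⟩, rfl⟩, hg y hy⟩
    have h2 : Submodule.span B (ι '' t) = ⊤ := by
      rw [← IsLocalRing.CotangentSpace.span_image_eq_top_iff, himg, hb2]
    rw [hspan] at h2
    have h3 : Ideal.span ((fun a : mA => (a : A)) '' t) = mA := by
      rw [← Ideal.comap_map_eq_self_of_faithfullyFlat (A := A) (B := B) (Ideal.span ((fun a : mA => (a : A)) '' t)), h2]
      change (IsLocalRing.maximalIdeal B).comap _ = _
      rw [← h, Ideal.comap_map_eq_self_of_faithfullyFlat]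
    calc mA.spanFinrank = (Ideal.span ((fun a : mA => (a : A)) '' t)).spanFinrank := by rw [h3]
      _ ≤ ((fun a : mA => (a : A)) '' t).ncard := Submodule.spanFinrank_span_le_ncard_of_finite (htfin.image _)
      _ ≤ t.ncard := Set.ncard_image_le htfin
      _ ≤ b.ncard := by
        have := hfin.fintype
        change (Set.range (fun y : b => g y.1 y.2)).ncard ≤ _
        rw [← Set.image_univ, Set.ncard_eq_toFinset_card' b]
        refine (Set.ncard_image_le (Set.toFinite _)).trans ?_
        rw [Set.ncard_univ, Nat.card_eq_fintype_card, Set.toFinset_card]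
      _ = mB.spanFinrank := hcard

theorem S0065 {X Y : Scheme.{u}} (f : X ⟶ Y) [AlgebraicGeometry.Etale f]
    [IsLocallyNoetherian Y] (x : X) :
    IsRegularLocalRing (X.presheaf.stalk x) ↔ IsRegularLocalRing (Y.presheaf.stalk (f.base x)) := by
  algebraize [(f.stalkMap x).hom]
  have h1 : IsLocalHom (algebraMap (Y.presheaf.stalk (f.base x)) (X.presheaf.stalk x)) :=
    inferInstanceAs <| IsLocalHom (f.stalkMap x).hom
  have h2 : Module.Flat (Y.presheaf.stalk (f.base x)) (X.presheaf.stalk x) := Flat.stalkMap f x
  have h3 : Algebra.EssFiniteType (Y.presheaf.stalk (f.base x)) (X.presheaf.stalk x) := LocallyOfFiniteType.stalkMap f x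
  have h4 : Algebra.FormallyUnramified (Y.presheaf.stalk (f.base x)) (X.presheaf.stalk x) := FormallyUnramified.stalkMap f x
  have h5 : IsNoetherianRing (Y.presheaf.stalk (f.base x)) := inferInstance
  have h6 : IsNoetherianRing (X.presheaf.stalk x) := Algebra.EssFiniteType.isNoetherianRing (Y.presheaf.stalk (f.base x)) _
  rw [isRegularLocalRing_iff, isRegularLocalRing_iff,
    dim_eq (A := Y.presheaf.stalk (f.base x)) (B := X.presheaf.stalk x) Algebra.FormallyUnramified.map_maximalIdeal,
    spanFinrank_eq (A := Y.presheaf.stalk (f.base x)) (B := X.presheaf.stalk x) Algebra.FormallyUnramified.map_maximalIdeal]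

end Groth.Agent.H1.EtStalk
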