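import Groth.Agent.Lib.H1_EtStalk
set_option autoImplicit false
open AlgebraicGeometry CategoryTheory TensorProduct
universe u
namespace Groth.Agent.H1.EtStalk

lemma reduced_of {A B : Type u} [CommRing A] [CommRing B] [Algebra A B] [IsNoetherianRing A] [_root_.IsReduced A]
    [Module.Flat A B] [Algebra.FormallyUnramified A B] [Algebra.EssFiniteType A B] : _root_.IsReduced B := by
  classical
  let ι := {p : Ideal A // p ∈ minimalPrimes A}
  have hfin : Finite ι := (minimalPrimes.finite_of_isNoetherianRing A).to_subtype
  have : Fintype ι := Fintype.ofFinite ι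
  have hp : ∀ p : ι, p.1.IsPrime := fun p => p.2.1.1
  let J : A →ₗ[A] (∀ p : ι, p.1.ResidueField) := LinearMap.pi (fun p => Algebra.linearMap A p.1.ResidueField)
  have hJ : Function.Injective J := by
    rw [injective_iff_map_eq_zero]
    intro a ha
    have h1 : a ∈ nilradical A := by
      rw [nilradical, ← Ideal.sInf_minimalPrimes, Ideal.mem_sInf]
      intro p hpm
      have h2 : algebraMap A (Ideal.ResidueField (⟨p, hpm⟩ : ι).1) a = 0 := congrFun ha ⟨p, hpm⟩
      rwa [Ideal.algebraMap_residueField_eq_zero] at h2
    rwa [nilradical_eq_zero] at h1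
  have hB := Module.Flat.lTensor_preserves_injective_linearMap (M := B) J hJ
  constructor
  intro b hb
  have key : ∀ p : ι, (b ⊗ₜ[A] (1 : p.1.ResidueField)) = 0 := by
    intro p
    have hred : _root_.IsReduced (p.1.ResidueField ⊗[A] B) :=
      Algebra.FormallyUnramified.isReduced_of_field p.1.ResidueField _
    have h1 : IsNilpotent ((Algebra.TensorProduct.includeRight : B →ₐ[A] p.1.ResidueField ⊗[A] B) b) := hb.map _
    have h2 : (1 : p.1.ResidueField) ⊗ₜ[A] b = 0 := h1.eq_zero
    have h3 := congrArg (TensorProduct.comm A p.1.ResidueField B) h2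
    simpa using h3
  have h1 : (J.lTensor B) (b ⊗ₜ[A] (1 : A)) = 0 := by
    apply (TensorProduct.piRight A A B (fun p : ι => p.1.ResidueField)).injective
    rw [map_zero]
    funext p
    rw [LinearMap.lTensor_tmul]
    simp only [TensorProduct.piRight_apply, TensorProduct.piRightHom_tmul]
    have : J 1 p = 1 := by simp [J]
    rw [this, key p]
    rfl
  have h2 : b ⊗ₜ[A] (1 : A) = 0 := by
    apply hB
    rw [h1, map_zero]
  have h3 := congrArg (TensorProduct.rid A B) h2
  simpa using h3

theorem S0119 {X Y : Scheme.{u}} (f : X ⟶ Y) [AlgebraicGeometry.Etale f]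
    [IsLocallyNoetherian Y] (x : X) :
    _root_.IsReduced (X.presheaf.stalk x) ↔ _root_.IsReduced (Y.presheaf.stalk (f.base x)) := by
  algebraize [(f.stalkMap x).hom]
  have h1 : IsLocalHom (algebraMap (Y.presheaf.stalk (f.base x)) (X.presheaf.stalk x)) :=
    inferInstanceAs <| IsLocalHom (f.stalkMap x).hom
  have h2 : Module.Flat (Y.presheaf.stalk (f.base x)) (X.presheaf.stalk x) := Flat.stalkMap f x
  have h3 : Algebra.EssFiniteType (Y.presheaf.stalk (f.base x)) (X.presheaf.stalk x) := LocallyOfFiniteType.stalkMap f x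
  have h4 : Algebra.FormallyUnramified (Y.presheaf.stalk (f.base x)) (X.presheaf.stalk x) := FormallyUnramified.stalkMap f x
  have h5 : IsNoetherianRing (Y.presheaf.stalk (f.base x)) := inferInstance
  have h7 : Module.FaithfullyFlat (Y.presheaf.stalk (f.base x)) (X.presheaf.stalk x) :=
    Module.FaithfullyFlat.of_flat_of_isLocalHom
  constructor
  · intro h
    exact isReduced_of_injective (algebraMap (Y.presheaf.stalk (f.base x)) (X.presheaf.stalk x))
      (FaithfulSMul.algebraMap_injective _ _)
  · intro h
    exact reduced_of (A := Y.presheaf.stalk (f.base x))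

end Groth.Agent.H1.EtStalk
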