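import Groth.Agent.Lib.H1_HenselB
set_option autoImplicit false
open Polynomial
universe u v
namespace Groth.Agent.H1.Hensel

/-- idempotents lift along henselian pairs -/
lemma lift_idempotent {A : Type*} [CommRing A] (I : Ideal A) [HenselianRing A I] (e : A)
    (he : e * e - e ∈ I) : ∃ b : A, b * b = b ∧ b - e ∈ I := by
  nontriviality A
  have hmon : (X ^ 2 - X : A[X]).Monic := by
    apply monic_X_pow_sub
    exact lt_of_le_of_lt degree_X_le (by norm_num)
  obtain ⟨b, hb, hb'⟩ := HenselianRing.is_henselian (I := I) (X ^ 2 - X : A[X]) hmon e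
    (by simpa [sq] using he) (by
      have h1 : (X ^ 2 - X : A[X]).derivative.eval e = 2 * e - 1 := by simp; ring
      rw [h1]
      refine IsUnit.of_mul_eq_one (Ideal.Quotient.mk I (2 * e - 1)) ?_
      rw [← map_mul, ← map_one (Ideal.Quotient.mk I), Ideal.Quotient.eq]
      have : (2 * e - 1) * (2 * e - 1) - 1 = 4 * (e * e - e) := by ring
      rw [this]
      exact I.mul_mem_left _ he)
  refine ⟨b, ?_, hb'⟩
  have : b ^ 2 - b = 0 := by simpa [IsRoot] using hb
  linear_combination this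

theorem S0530 (A : Type u) [CommRing A] (I : Ideal A) [HenselianRing A I]
    (p : Ideal A) [p.IsPrime] : ConnectedSpace (PrimeSpectrum (A ⧸ p ⊔ I)) := by
  have h1 := henselian_of_surjective I (Ideal.Quotient.mk p) Ideal.Quotient.mk_surjective
  have hne : p ⊔ I ≠ ⊤ := by
    intro h
    obtain ⟨m, hm, hpm⟩ := Ideal.exists_le_maximal p (Ideal.IsPrime.ne_top')
    have hIm : I ≤ m := by
      refine (HenselianRing.jac (I := I)).trans ?_
      rw [Ideal.jacobson]
      exact sInf_le ⟨bot_le, hm⟩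
    exact hm.ne_top (top_le_iff.1 (h ▸ sup_le hpm hIm))
  have hnt : Nontrivial (A ⧸ p ⊔ I) := Ideal.Quotient.nontrivial_iff.2 hne
  have E : (A ⧸ p) ⧸ (I.map (Ideal.Quotient.mk p)) ≃+* A ⧸ p ⊔ I := DoubleQuot.quotQuotEquivQuotSup p I
  have : PreconnectedSpace (PrimeSpectrum (A ⧸ p ⊔ I)) := by
    rw [preconnectedSpace_iff_clopen]
    intro s hs
    obtain ⟨e, he, rfl⟩ := PrimeSpectrum.exists_idempotent_basicOpen_eq_of_isClopen hs
    obtain ⟨x, hx⟩ := Ideal.Quotient.mk_surjective (E.symm e)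
    have hx2 : x * x - x ∈ I.map (Ideal.Quotient.mk p) := by
      rw [← Ideal.Quotient.eq, map_mul, hx, ← map_mul, he.eq]
    obtain ⟨b, hb, hb'⟩ := lift_idempotent _ x hx2
    have hb2 : e = E (Ideal.Quotient.mk _ b) := by
      rw [Ideal.Quotient.eq.2 hb', hx]; simp
    have hb3 : b = 0 ∨ b = 1 := by
      have : b * (b - 1) = 0 := by linear_combination hb
      rcases mul_eq_zero.1 this with h | h
      · exact Or.inl h
      · exact Or.inr (sub_eq_zero.1 h)
    rcases hb3 with rfl | rfl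
    · left; rw [hb2]; simp
    · right; rw [hb2]; simp
  have : Nonempty (PrimeSpectrum (A ⧸ p ⊔ I)) := inferInstance
  constructor
  exact this

theorem S0531 (A : Type u) [CommRing A] :
    ∃ I : Ideal A, HenselianRing A I ∧ ∀ J : Ideal A, HenselianRing A J → J ≤ I := by
  classical
  have hbot : HenselianRing A (⊥ : Ideal A) := henselian_of_nil _ (by
    intro x hx; rw [Ideal.mem_bot.1 hx]; exact IsNilpotent.zero)
  have hsup : ∀ I J : Ideal A, HenselianRing A I → HenselianRing A J → HenselianRing A (I ⊔ J) := by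
    intro I J hI hJ
    rw [henselian_iff_of_le I (I ⊔ J) le_sup_left]
    refine ⟨hI, ?_⟩
    have := henselian_of_surjective J (Ideal.Quotient.mk I) Ideal.Quotient.mk_surjective
    have e : Ideal.map (Ideal.Quotient.mk I) (I ⊔ J) = Ideal.map (Ideal.Quotient.mk I) J := by
      rw [Ideal.map_sup, Ideal.map_quotient_self, bot_sup_eq]
    rw [e]; exact this
  have hdir : DirectedOn (· ≤ ·) {J : Ideal A | HenselianRing A J} := by
    intro I hI J hJ
    exact ⟨I ⊔ J, hsup I J hI hJ, le_sup_left, le_sup_right⟩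
  have hmem : ∀ x, x ∈ sSup {J : Ideal A | HenselianRing A J} ↔ ∃ J : Ideal A, HenselianRing A J ∧ x ∈ J := by
    intro x
    exact Submodule.mem_sSup_of_directed ⟨⊥, hbot⟩ hdir
  refine ⟨sSup {J : Ideal A | HenselianRing A J}, ?_, fun J hJ => le_sSup hJ⟩
  have hjac : sSup {J : Ideal A | HenselianRing A J} ≤ Ideal.jacobson ⊥ := sSup_le fun J hJ => HenselianRing.jac (self := hJ)
  refine ⟨hjac, fun f _ a₀ h0 hu => lift_of_gabber _ hjac ?_ f a₀ h0 hu⟩
  intro n hn p hp hpI
  have : ∃ J : Ideal A, HenselianRing A J ∧ ∀ i, p.coeff i ∈ J := by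
    have key : ∀ s : Finset ℕ, ∃ J : Ideal A, HenselianRing A J ∧ ∀ i ∈ s, p.coeff i ∈ J := by
      intro s
      induction s using Finset.induction_on with
      | empty => exact ⟨⊥, hbot, by simp⟩
      | insert a s _ ih =>
        obtain ⟨J, hJ, hJs⟩ := ih
        obtain ⟨K, hK, hKa⟩ := (hmem _).1 (hpI a)
        refine ⟨J ⊔ K, hsup _ _ hJ hK, ?_⟩
        intro i hi
        rcases Finset.mem_insert.1 hi with rfl | hi
        · exact (le_sup_right : K ≤ J ⊔ K) hKa
        · exact (le_sup_left : J ≤ J ⊔ K) (hJs i hi)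
    obtain ⟨J, hJ, hJs⟩ := key p.support
    refine ⟨J, hJ, fun i => ?_⟩
    by_cases hi : i ∈ p.support
    · exact hJs i hi
    · rw [notMem_support_iff.1 hi]; exact J.zero_mem
  obtain ⟨J, hJ, hJp⟩ := this
  obtain ⟨α, ⟨h1, h2⟩, -⟩ := gabber_of_henselian J n hn p hp hJp
  exact ⟨α, (le_sSup (show J ∈ {J : Ideal A | HenselianRing A J} from hJ)) h1, h2⟩

theorem S0535 (R : Type u) [CommRing R] (I : Ideal R)
    [HenselianRing R I] (P₁ P₂ : Type u) [AddCommGroup P₁] [Module R P₁] [AddCommGroup P₂]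
    [Module R P₂] [Module.Finite R P₁] [Module.Projective R P₁] [Module.Finite R P₂]
    [Module.Projective R P₂]
    (e : TensorProduct R (R ⧸ I) P₁ ≃ₗ[R ⧸ I] TensorProduct R (R ⧸ I) P₂) :
    Nonempty (P₁ ≃ₗ[R] P₂) := by
  have hjac : I ≤ Ideal.jacobson ⊥ := HenselianRing.jac
  -- the reduction maps
  have key : ∀ (P Q : Type u) [AddCommGroup P] [Module R P] [AddCommGroup Q] [Module R Q] [Module.Projective R P]
      [Module.Finite R Q] (e : TensorProduct R (R ⧸ I) P ≃ₗ[R ⧸ I] TensorProduct R (R ⧸ I) Q),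
      ∃ f : P →ₗ[R] Q, Function.Surjective f := by
    intro P Q _ _ _ _ _ _ e
    have hsQ : Function.Surjective (TensorProduct.mk R (R ⧸ I) Q 1) := by
      intro x
      induction x using TensorProduct.induction_on with
      | zero => exact ⟨0, by simp⟩
      | tmul r q =>
        obtain ⟨r, rfl⟩ := Ideal.Quotient.mk_surjective r
        refine ⟨r • q, ?_⟩
        rw [TensorProduct.mk_apply, TensorProduct.tmul_smul, TensorProduct.smul_tmul']
        congr 1
        rw [Algebra.smul_def, mul_one]; rfl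
      | add x y hx hy =>
        obtain ⟨a, rfl⟩ := hx
        obtain ⟨b, rfl⟩ := hy
        exact ⟨a + b, by simp [TensorProduct.tmul_add]⟩
    have hsP : Function.Surjective (TensorProduct.mk R (R ⧸ I) P 1) := by
      intro x
      induction x using TensorProduct.induction_on with
      | zero => exact ⟨0, by simp⟩
      | tmul r q =>
        obtain ⟨r, rfl⟩ := Ideal.Quotient.mk_surjective r
        refine ⟨r • q, ?_⟩
        rw [TensorProduct.mk_apply, TensorProduct.tmul_smul, TensorProduct.smul_tmul']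
        congr 1
        rw [Algebra.smul_def, mul_one]; rfl
      | add x y hx hy =>
        obtain ⟨a, rfl⟩ := hx
        obtain ⟨b, rfl⟩ := hy
        exact ⟨a + b, by simp [TensorProduct.tmul_add]⟩
    obtain ⟨f, hf⟩ := Module.projective_lifting_property (TensorProduct.mk R (R ⧸ I) Q 1)
      ((e.restrictScalars R).toLinearMap ∘ₗ (TensorProduct.mk R (R ⧸ I) P 1)) hsQ
    refine ⟨f, ?_⟩
    rw [← LinearMap.range_eq_top]
    have hker : ∀ q : Q, TensorProduct.mk R (R ⧸ I) Q 1 q = 0 → q ∈ I • (⊤ : Submodule R Q) := by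
      intro q hq
      have := (TensorProduct.quotTensorEquivQuotSMul Q I) (1 ⊗ₜ q)
      have h2 : (TensorProduct.quotTensorEquivQuotSMul Q I) (1 ⊗ₜ[R] q) = 0 := by
        have : (1 : R ⧸ I) ⊗ₜ[R] q = 0 := hq
        rw [this, map_zero]
      have h3 : (TensorProduct.quotTensorEquivQuotSMul Q I) ((Ideal.Quotient.mk I 1) ⊗ₜ[R] q) = Submodule.Quotient.mk ((1 : R) • q) := 
        TensorProduct.quotTensorEquivQuotSMul_mk_tmul I 1 q
      rw [map_one, h2, one_smul] at h3
      exact (Submodule.Quotient.mk_eq_zero _).1 h3.symm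
    have : (⊤ : Submodule R Q) ≤ LinearMap.range f ⊔ I • (⊤ : Submodule R Q) := by
      intro q _
      obtain ⟨x, hx⟩ := hsP (e.symm (TensorProduct.mk R (R ⧸ I) Q 1 q))
      have h1 : TensorProduct.mk R (R ⧸ I) Q 1 (f x) = TensorProduct.mk R (R ⧸ I) Q 1 q := by
        have := LinearMap.congr_fun hf x
        simp only [LinearMap.comp_apply] at this
        rw [this, hx]; simp
      have h2 : q - f x ∈ I • (⊤ : Submodule R Q) := hker _ (by rw [map_sub, h1, sub_self])
      rw [Submodule.mem_sup]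
      exact ⟨f x, ⟨x, rfl⟩, q - f x, h2, by simp⟩
    exact top_le_iff.1 (Submodule.le_of_le_smul_of_le_jacobson_bot Module.Finite.fg_top hjac this)
  obtain ⟨f, hf⟩ := key P₁ P₂ e
  obtain ⟨g, hg⟩ := key P₂ P₁ e.symm
  have hinj : Function.Injective (g ∘ₗ f) := OrzechProperty.injective_of_surjective_endomorphism _ (hg.comp hf)
  exact ⟨LinearEquiv.ofBijective f ⟨fun x y h => hinj (by simp [h]), hf⟩⟩

end Groth.Agent.H1.Hensel
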