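import Groth.Agent.Lib.H1_HenselD
set_option autoImplicit false
open Polynomial TensorProduct
universe u v w
namespace Groth.Agent.H1.Hensel

/-- étale lifting over henselian local rings -/
theorem etale_lift {R : Type u} {S : Type v} {A : Type w} [CommRing R] [CommRing S] [HenselianLocalRing S] [Algebra R S]
    [CommRing A] [Algebra R A] [Algebra.Etale R A]
    (σ : A →ₐ[R] IsLocalRing.ResidueField S) :
    ∃! f : A →ₐ[R] S, ∀ a, IsLocalRing.residue S (f a) = σ a := by
  let q : Ideal A := RingHom.ker σ.toRingHom
  have hq : q.IsPrime := RingHom.ker_isPrime _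
  obtain ⟨g, hgq, hg⟩ := Algebra.IsEtaleAt.exists_isStandardEtale (R := R) q
  obtain ⟨P⟩ := hg.nonempty_standardEtalePresentation
  have hσg : IsUnit (σ g) := isUnit_iff_ne_zero.2 hgq
  let π : S →ₐ[R] IsLocalRing.ResidueField S := IsScalarTower.toAlgHom R S _
  have hπ : ∀ s, π s = IsLocalRing.residue S s := fun s => rfl
  -- extension to the localization
  have ext : ∀ {T : Type v} [CommRing T] [Algebra R T] (φ : A →ₐ[R] T) (h : IsUnit (φ g)),
      ∃ φ' : Localization.Away g →ₐ[R] T, ∀ a, φ' (algebraMap A _ a) = φ a := by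
    intro T _ _ φ h
    refine ⟨IsLocalization.liftAlgHom (M := Submonoid.powers g) (f := φ) ?_, fun a => ?_⟩
    · rintro ⟨_, n, rfl⟩
      simpa using h.pow n
    · simp
  obtain ⟨σ', hσ'⟩ := ext σ hσg
  have hmσ := P.hasMap.map σ'
  obtain ⟨b, hb⟩ := IsLocalRing.residue_surjective (σ' P.x)
  have haev : ∀ (p : R[X]) (s : S), π (aeval s p) = aeval (π s) p := fun p s => (aeval_algHom_apply π s p).symm
  have hF : ∀ (p : R[X]) (s : S), (p.map (algebraMap R S)).eval s = aeval s p := fun p s => by
    rw [eval_map_algebraMap]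
  have hbx : π b = σ' P.x := hb
  obtain ⟨a, ha, ha'⟩ := HenselianLocalRing.is_henselian (P.f.map (algebraMap R S)) (P.monic_f.map _) b
    (by
      rw [hF, ← IsLocalRing.residue_eq_zero_iff, ← hπ, haev, hbx]; exact hmσ.1)
    (by
      rw [derivative_map, hF]
      have : IsUnit (IsLocalRing.residue S (aeval b (derivative P.f))) := by
        rw [← hπ, haev, hbx]; exact hmσ.isUnit_derivative_f
      exact isUnit_of_map_unit _ _ this)
  have hab : π a = σ' P.x := by
    rw [← hbx, hπ, hπ, ← sub_eq_zero, ← map_sub, IsLocalRing.residue_eq_zero_iff]; exact ha'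
  have hmap : P.HasMap a := by
    refine ⟨by rw [← hF]; exact ha, ?_⟩
    have : IsUnit (IsLocalRing.residue S (aeval a P.g)) := by
      rw [← hπ, haev, hab]; exact hmσ.2
    exact isUnit_of_map_unit _ _ this
  let f' : Localization.Away g →ₐ[R] S := (P.lift a hmap).comp P.equivRing.toAlgHom
  have hf'x : f' P.x = a := by simp [f']
  have hf' : π.comp f' = σ' := P.hom_ext (by rw [AlgHom.comp_apply, hf'x, hab])
  refine ⟨f'.comp (IsScalarTower.toAlgHom R A _), ?_, ?_⟩
  · intro x
    have := congrArg (fun φ => φ (algebraMap A (Localization.Away g) x)) hf'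
    simp only [hσ'] at this
    rw [← this]; rfl
  · intro f1 hf1
    have hu : IsUnit (f1 g) := by
      have : IsUnit (IsLocalRing.residue S (f1 g)) := by rw [hf1]; exact hσg
      exact isUnit_of_map_unit _ _ this
    obtain ⟨f1', hf1'⟩ := ext f1 hu
    have h1 : π.comp f1' = σ' := by
      apply IsLocalization.algHom_ext (Submonoid.powers g)
      ext x
      change π (f1' (algebraMap A (Localization.Away g) x)) = σ' (algebraMap A (Localization.Away g) x)
      rw [hσ', hf1']
      exact hf1 x
    have h2 : f1' = f' := by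
      apply P.hom_ext
      rw [hf'x]
      have hm1 := P.hasMap.map f1'
      have hjac : IsLocalRing.maximalIdeal S ≤ Ideal.jacobson ⊥ := HenselianRing.jac
      refine unique_root hjac (P.f.map (algebraMap R S)) (by rw [hF]; exact hm1.1) ha ?_ ?_
      · rw [← IsLocalRing.residue_eq_zero_iff, map_sub, sub_eq_zero, ← hπ, ← hπ, hab]
        exact congrArg (fun φ => φ P.x) h1
      · rw [derivative_map, hF]
        exact hmap.isUnit_derivative_f.map _
    ext x
    rw [← hf1' x, h2]
    rfl

theorem S0501 (R : Type u) [CommRing R]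
    (S : Type u) [CommRing S] [HenselianLocalRing S] [Algebra R S]
    (A : Type u) [CommRing A] [Algebra R A] [Algebra.Etale R A] (q : Ideal A) [q.IsPrime]
    (τ : q.ResidueField →+* IsLocalRing.ResidueField S)
    (hτ : τ.comp (algebraMap R q.ResidueField) = (IsLocalRing.residue S).comp (algebraMap R S)) :
    ∃! f : A →ₐ[R] S, Ideal.comap f.toRingHom (IsLocalRing.maximalIdeal S) = q ∧
      ∀ a : A, IsLocalRing.residue S (f a) = τ (algebraMap A q.ResidueField a) := by
  let σ : A →ₐ[R] IsLocalRing.ResidueField S :=
    { toRingHom := τ.comp (algebraMap A q.ResidueField)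
      commutes' := fun r => by
        have := congrArg (fun φ => φ r) hτ
        simp only [RingHom.comp_apply] at this
        change τ (algebraMap A q.ResidueField (algebraMap R A r)) = _
        rw [← IsScalarTower.algebraMap_apply R A q.ResidueField, this]; rfl }
  obtain ⟨f, hf, huniq⟩ := etale_lift σ
  refine ⟨f, ⟨?_, hf⟩, fun g hg => huniq g hg.2⟩
  ext a
  have h1 : IsLocalRing.residue S (f a) = τ (algebraMap A q.ResidueField a) := hf a
  rw [Ideal.mem_comap]
  change f a ∈ _ ↔ _
  rw [← IsLocalRing.residue_eq_zero_iff, h1, map_eq_zero_iff τ τ.injective, Ideal.algebraMap_residueField_eq_zero]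

theorem S0502 (R : Type u) [CommRing R] [IsLocalRing R]
    (h : ∀ (S : Type u) [CommRing S] [Algebra R S] [Algebra.Etale R S] (q : Ideal S) [q.IsPrime],
      q.LiesOver (IsLocalRing.maximalIdeal R) → Function.Surjective (algebraMap R q.ResidueField) →
      Nonempty (S →ₐ[R] R)) :
    HenselianLocalRing R where
  is_henselian f hf a₀ h0 h1 := by
    let κ := IsLocalRing.ResidueField R
    have hroot : (f.map (IsLocalRing.residue R)).IsRoot (IsLocalRing.residue R a₀) := by
      rw [IsRoot, eval_map_apply, IsLocalRing.residue_eq_zero_iff]; exact h0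
    obtain ⟨hb, hhb⟩ := dvd_iff_isRoot.2 hroot
    obtain ⟨k, hk⟩ := Polynomial.map_surjective _ IsLocalRing.residue_surjective hb
    have hka : IsUnit (k.eval a₀) := by
      have e1 : (f.derivative.map (IsLocalRing.residue R)).eval (IsLocalRing.residue R a₀) = hb.eval (IsLocalRing.residue R a₀) := by
        rw [← derivative_map, hhb]; simp
      have e2 : IsUnit (IsLocalRing.residue R (k.eval a₀)) := by
        rw [← eval_map_apply, hk, ← e1, eval_map_apply]; exact h1.map _
      exact isUnit_of_map_unit _ _ e2
    let P : StandardEtalePair R := ⟨f, hf, derivative f * k, k, 0, 1, by ring⟩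
    have hmap : P.HasMap (IsLocalRing.residue R a₀) := by
      refine ⟨?_, ?_⟩
      · have : aeval (IsLocalRing.residue R a₀) f = (f.map (IsLocalRing.residue R)).eval (IsLocalRing.residue R a₀) := by
          rw [← eval_map_algebraMap]; rfl
        change aeval (IsLocalRing.residue R a₀) f = 0
        rw [this]; exact hroot
      · have : aeval (IsLocalRing.residue R a₀) (derivative f * k) = IsLocalRing.residue R ((derivative f * k).eval a₀) := by
          rw [← eval_map_apply, ← eval_map_algebraMap]; rfl
        change IsUnit (aeval (IsLocalRing.residue R a₀) (derivative f * k))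
        rw [this, eval_mul]
        exact (h1.mul hka).map _
    let ψ : P.Ring →ₐ[R] κ := P.lift _ hmap
    have hψs : Function.Surjective ψ := by
      intro x
      obtain ⟨r, rfl⟩ := IsLocalRing.residue_surjective x
      exact ⟨algebraMap R P.Ring r, ψ.commutes r⟩
    let q : Ideal P.Ring := RingHom.ker ψ.toRingHom
    have hq : q.IsMaximal := RingHom.ker_isMaximal_of_surjective ψ.toRingHom hψs
    have hlies : q.LiesOver (IsLocalRing.maximalIdeal R) := by
      constructor
      ext r
      rw [Ideal.under, Ideal.mem_comap, RingHom.mem_ker]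
      change _ ↔ ψ (algebraMap R P.Ring r) = 0
      rw [ψ.commutes]
      exact (IsLocalRing.residue_eq_zero_iff r).symm
    have hsurj : Function.Surjective (algebraMap R q.ResidueField) := by
      intro x
      obtain ⟨y, rfl⟩ := (Ideal.bijective_algebraMap_quotient_residueField q).2 x
      obtain ⟨s, rfl⟩ := Ideal.Quotient.mk_surjective y
      obtain ⟨r, hr⟩ := IsLocalRing.residue_surjective (ψ s)
      refine ⟨r, ?_⟩
      have h2 : Ideal.Quotient.mk q s = Ideal.Quotient.mk q (algebraMap R P.Ring r) := by
        rw [Ideal.Quotient.eq, RingHom.mem_ker]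
        change ψ (s - algebraMap R P.Ring r) = 0
        rw [map_sub, ψ.commutes, sub_eq_zero, ← hr]; rfl
      rw [h2]
      rfl
    obtain ⟨φ⟩ := h P.Ring q hlies hsurj
    have hm := (P.hasMap_X).map φ
    have e0 : f.eval (φ P.X) = 0 := by
      have := hm.1
      simpa [Polynomial.coe_aeval_eq_eval] using this
    have e1 : IsUnit ((derivative f * k).eval (φ P.X)) := by
      have h3 : IsUnit (aeval (φ P.X) (derivative f * k)) := hm.2
      rwa [Polynomial.coe_aeval_eq_eval] at h3
    refine ⟨φ P.X, e0, ?_⟩
    rw [← IsLocalRing.residue_eq_zero_iff, map_sub]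
    have e2 : (f.map (IsLocalRing.residue R)).eval (IsLocalRing.residue R (φ P.X)) = 0 := by
      rw [eval_map_apply, e0, map_zero]
    rw [hhb, eval_mul, ← hk, eval_map_apply] at e2
    have e3 : IsLocalRing.residue R (k.eval (φ P.X)) ≠ 0 := by
      rw [eval_mul] at e1
      exact ((isUnit_of_mul_isUnit_right e1).map (IsLocalRing.residue R)).ne_zero
    simpa using (mul_eq_zero.1 e2).resolve_right e3

end Groth.Agent.H1.Hensel
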