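import Groth.Agent.Lib.H1_HenselE
set_option autoImplicit false
open Polynomial TensorProduct
universe u v w
namespace Groth.Agent.H1.Hensel

lemma bijective_of_finite_projective_of_generated {S C : Type*} [CommRing S] [IsLocalRing S] [CommRing C] [Nontrivial C] [Algebra S C]
    [Module.Finite S C] [Module.Projective S C]
    (h : (⊤ : Submodule S C) ≤ LinearMap.range (Algebra.linearMap S C) ⊔ IsLocalRing.maximalIdeal S • ⊤) :
    Function.Bijective (algebraMap S C) := by
  have hfree : Module.Free S C := Module.free_of_flat_of_isLocalRing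
  refine ⟨FaithfulSMul.algebraMap_injective S C, ?_⟩
  have := Submodule.le_of_le_smul_of_le_jacobson_bot Module.Finite.fg_top
    (IsLocalRing.maximalIdeal_le_jacobson ⊥) h
  intro c
  exact this (Submodule.mem_top : c ∈ ⊤)

/-- root from a factor -/
lemma root_of_factor {S : Type*} [CommRing S] [IsLocalRing S] (f : S[X]) (a₀ : S) (I : Ideal (AdjoinRoot f))
    [Nontrivial (AdjoinRoot f ⧸ I)] [Module.Finite S (AdjoinRoot f ⧸ I)] [Module.Projective S (AdjoinRoot f ⧸ I)]
    (h : AdjoinRoot.root f - algebraMap S _ a₀ ∈ I ⊔ (IsLocalRing.maximalIdeal S).map (algebraMap S (AdjoinRoot f))) :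
    ∃ a : S, f.IsRoot a ∧ a - a₀ ∈ IsLocalRing.maximalIdeal S := by
  set C := AdjoinRoot f ⧸ I with hC
  set m := IsLocalRing.maximalIdeal S
  let π : AdjoinRoot f →+* C := Ideal.Quotient.mk I
  have hmem : ∀ x ∈ I ⊔ m.map (algebraMap S (AdjoinRoot f)), π x ∈ m.map (algebraMap S C) := by
    intro x hx
    have h1 : π x ∈ (I ⊔ m.map (algebraMap S (AdjoinRoot f))).map π := Ideal.mem_map_of_mem _ hx
    rw [Ideal.map_sup, Ideal.map_quotient_self, bot_sup_eq, Ideal.map_map] at h1
    exact h1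
  have hroot : ∀ p : S[X], ∃ s : S, π (AdjoinRoot.mk f p) - algebraMap S C s ∈ m.map (algebraMap S C) := by
    intro p
    refine ⟨p.eval a₀, ?_⟩
    have h1 : π (AdjoinRoot.mk f p) - algebraMap S C (p.eval a₀) = π (AdjoinRoot.mk f (p - Polynomial.C (p.eval a₀))) := by
      rw [map_sub, map_sub]; rfl
    rw [h1]
    apply hmem
    have h2 : (X - Polynomial.C a₀) ∣ p - Polynomial.C (p.eval a₀) := by
      exact X_sub_C_dvd_sub_C_eval
    obtain ⟨q, hq⟩ := h2
    rw [hq, map_mul]
    apply Ideal.mul_mem_right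
    rw [map_sub]; exact h
  have hgen : (⊤ : Submodule S C) ≤ LinearMap.range (Algebra.linearMap S C) ⊔ m • ⊤ := by
    intro c _
    obtain ⟨x, rfl⟩ := Ideal.Quotient.mk_surjective c
    obtain ⟨p, rfl⟩ := AdjoinRoot.mk_surjective x
    obtain ⟨s, hs⟩ := hroot p
    rw [Submodule.mem_sup]
    refine ⟨algebraMap S C s, ⟨s, rfl⟩, _, ?_, add_sub_cancel _ _⟩
    rw [Ideal.smul_top_eq_map]
    exact hs
  have hbij := bijective_of_finite_projective_of_generated hgen
  obtain ⟨a, ha⟩ := hbij.2 (π (AdjoinRoot.root f))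
  refine ⟨a, ?_, ?_⟩
  · apply hbij.1
    rw [map_zero, ← aeval_algebraMap_apply_eq_algebraMap_eval, ha]
    have : aeval (π (AdjoinRoot.root f)) f = π (aeval (AdjoinRoot.root f) f) := by
      have := aeval_algHom_apply (Ideal.Quotient.mkₐ S I) (AdjoinRoot.root f) f
      exact this
    rw [this, AdjoinRoot.aeval_eq, AdjoinRoot.mk_self, map_zero]
  · by_contra hn
    have hu : IsUnit (a - a₀) := by
      by_contra hn'
      exact hn hn'
    have h1 := hmem _ h
    have h2 : π (AdjoinRoot.root f - algebraMap S _ a₀) = algebraMap S C (a - a₀) := by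
      rw [map_sub, ← ha, map_sub]; rfl
    rw [h2] at h1
    have h3 : m.map (algebraMap S C) = ⊤ := Ideal.eq_top_of_isUnit_mem _ h1 (hu.map _)
    have h4 : (⊤ : Submodule S C) ≤ m • ⊤ := by
      rw [Ideal.smul_top_eq_map, h3]; intro x _; trivial
    have h5 := Submodule.eq_bot_of_le_smul_of_le_jacobson_bot m ⊤ Module.Finite.fg_top h4 (IsLocalRing.maximalIdeal_le_jacobson ⊥)
    have h6 : (1 : C) ∈ (⊥ : Submodule S C) := h5 ▸ Submodule.mem_top
    exact one_ne_zero ((Submodule.mem_bot S).1 h6)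

end Groth.Agent.H1.Hensel
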