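import Groth.Agent.Lib.H1_HenselF
set_option autoImplicit false
open Polynomial TensorProduct
universe u v w
namespace Groth.Agent.H1.Hensel

theorem exists_decomposition (R : Type u) [CommRing R] [HenselianLocalRing R] (S : Type u) [CommRing S]
    [Algebra R S] [Module.Finite R S] :
    ∃ (ι : Type u) (_ : Fintype ι) (e : ι → S), CompleteOrthogonalIdempotents e ∧
      ∀ i, IsLocalRing (S ⧸ Ideal.span {1 - e i}) := by
  classical
  obtain ⟨R', _, _, _, P, _, hPl, n, e, he, P', hP'p, hP'l, hbij, hne, H⟩ :=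
    Algebra.exists_etale_completeOrthogonalIdempotents_forall_liesOver_eq (R := R) (S := S) (IsLocalRing.maximalIdeal R)
  set m := IsLocalRing.maximalIdeal R with hm
  let E1 : m.ResidueField ≃ₐ[R] P.ResidueField := AlgEquiv.ofBijective _ hbij
  let E2 : (R ⧸ m) ≃ₐ[R] m.ResidueField := AlgEquiv.ofBijective (IsScalarTower.toAlgHom R (R ⧸ m) m.ResidueField)
    (Ideal.bijective_algebraMap_quotient_residueField m)
  let σ : R' →ₐ[R] IsLocalRing.ResidueField R :=
    E2.symm.toAlgHom.comp (E1.symm.toAlgHom.comp (IsScalarTower.toAlgHom R R' P.ResidueField))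
  have hσ0 : ∀ a : R', σ a = 0 ↔ a ∈ P := by
    intro a
    change E2.symm (E1.symm (algebraMap R' P.ResidueField a)) = (0 : R ⧸ m) ↔ _
    rw [EmbeddingLike.map_eq_zero_iff, EmbeddingLike.map_eq_zero_iff, Ideal.algebraMap_residueField_eq_zero]
  obtain ⟨ρ, hρ, -⟩ := etale_lift σ
  have hρP : ∀ a : R', ρ a ∈ m ↔ a ∈ P := by
    intro a
    rw [← hσ0, ← hρ, IsLocalRing.residue_eq_zero_iff]
  let ψ : R' ⊗[R] S →ₐ[R] S := Algebra.TensorProduct.lift ((Algebra.ofId R S).comp ρ) (AlgHom.id R S)
    (fun _ _ => Commute.all _ _)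
  have hψ1 : ∀ a : R', ψ (a ⊗ₜ 1) = algebraMap R S (ρ a) := by
    intro a; simp [ψ, Algebra.ofId_apply]
  have hψ2 : ∀ s : S, ψ (1 ⊗ₜ s) = s := by
    intro s; simp [ψ]
  have hψs : Function.Surjective ψ := fun s => ⟨1 ⊗ₜ s, hψ2 s⟩
  have hint : Algebra.IsIntegral R S := inferInstance
  have hunder : ∀ (N : Ideal S) [N.IsMaximal], N.comap (algebraMap R S) = m := by
    intro N _
    have := Ideal.isMaximal_comap_of_isIntegral_of_isMaximal (R := R) N
    exact IsLocalRing.eq_maximalIdeal this
  have hlies : ∀ (N : Ideal S) [N.IsMaximal], (N.comap ψ.toRingHom).LiesOver P := by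
    intro N _
    constructor
    ext a
    rw [Ideal.under, Ideal.mem_comap, Ideal.mem_comap]
    change _ ↔ ψ (a ⊗ₜ 1) ∈ N
    rw [hψ1, ← hρP, ← hunder N, Ideal.mem_comap]
  let ε : Fin (n + 1) → S := fun i => ψ (e i)
  have hε : CompleteOrthogonalIdempotents ε := he.map ψ.toRingHom
  have hlast : ε (Fin.last n) = 0 := by
    have h1 : ∀ (N : Ideal S) [N.IsMaximal], ε (Fin.last n) ∈ N := by
      intro N _
      have := hlies N
      exact (H (N.comap ψ.toRingHom) inferInstance this).1
    have h2 : ε (Fin.last n) ∈ Ideal.jacobson (⊥ : Ideal S) := by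
      rw [Ideal.jacobson, Ideal.mem_sInf]
      intro N hN
      have := hN.2
      exact h1 N
    have h3 := Ideal.mem_jacobson_bot.1 h2 (-1)
    have h4 : ε (Fin.last n) * (ε (Fin.last n) * -1 + 1) = 0 := by
      have := (hε.idem (Fin.last n)).eq
      linear_combination - this
    exact (h3.mul_left_eq_zero).1 h4
  have huniq : ∀ (i : Fin n) (N₁ N₂ : Ideal S), N₁.IsMaximal → N₂.IsMaximal → ε i.castSucc ∉ N₁ → ε i.castSucc ∉ N₂ → N₁ = N₂ := by
    intro i N₁ N₂ h1 h2 h3 h4
    have e1 := (H (N₁.comap ψ.toRingHom) inferInstance (hlies N₁)).2 i h3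
    have e2 := (H (N₂.comap ψ.toRingHom) inferInstance (hlies N₂)).2 i h4
    exact Ideal.comap_injective_of_surjective ψ.toRingHom hψs (e1.trans e2.symm)
  let ι := ULift.{u} {i : Fin n // ε i.castSucc ≠ 0}
  refine ⟨ι, inferInstance, fun i => ε i.down.1.castSucc, ?_, ?_⟩
  · have hsum : ∑ i : ι, ε i.down.1.castSucc = 1 := by
      have h1 := hε.complete
      rw [Fin.sum_univ_castSucc, hlast, add_zero] at h1
      rw [← h1]
      have h2 : ∑ i : ι, ε i.down.1.castSucc = ∑ i : {i : Fin n // ε i.castSucc ≠ 0}, ε i.1.castSucc :=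
        Fintype.sum_equiv Equiv.ulift _ _ (fun _ => rfl)
      rw [h2]
      rw [← Finset.sum_filter_ne_zero (s := (Finset.univ : Finset (Fin n)))]
      exact (Finset.sum_subtype (Finset.univ.filter fun i : Fin n => ε i.castSucc ≠ 0) (fun i => by simp) (fun i => ε i.castSucc)).symm
    refine { idem := fun i => hε.idem _, ortho := ?_, complete := hsum }
    intro i j hij
    refine hε.ortho ?_
    intro h
    apply hij
    apply ULift.ext
    apply Subtype.ext
    exact Fin.castSucc_injective _ h
  · rintro ⟨⟨i, hi⟩⟩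
    set x := ε i.castSucc with hx
    have hid : x * x = x := (hε.idem i.castSucc).eq
    have hnt : Nontrivial (S ⧸ Ideal.span {1 - x}) := by
      rw [Ideal.Quotient.nontrivial_iff]
      intro h
      rw [Ideal.span_singleton_eq_top] at h
      apply hi
      have : x * (1 - x) = 0 := by linear_combination -hid
      exact (h.mul_left_eq_zero).1 this
    obtain ⟨M, hM⟩ := Ideal.exists_maximal (S ⧸ Ideal.span {1 - x})
    refine IsLocalRing.of_unique_max_ideal ⟨M, hM, ?_⟩
    intro M' hM'
    have hc : ∀ (M : Ideal (S ⧸ Ideal.span {1 - x})), M.IsMaximal → (M.comap (Ideal.Quotient.mk _)).IsMaximal ∧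
        x ∉ M.comap (Ideal.Quotient.mk (Ideal.span {1 - x})) := by
      intro M hM
      have h1 := Ideal.comap_isMaximal_of_surjective (Ideal.Quotient.mk (Ideal.span {1 - x})) Ideal.Quotient.mk_surjective (K := M)
      refine ⟨h1, fun h2 => ?_⟩
      have h3 : (1 - x) ∈ M.comap (Ideal.Quotient.mk (Ideal.span {1 - x})) := by
        have h5 : Ideal.Quotient.mk (Ideal.span {1 - x}) (1 - x) = 0 :=
          Ideal.Quotient.eq_zero_iff_mem.2 (Ideal.mem_span_singleton_self _)
        rw [Ideal.mem_comap, h5]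
        exact M.zero_mem
      have h4 := Ideal.add_mem _ h3 h2
      rw [sub_add_cancel] at h4
      exact h1.ne_top ((Ideal.eq_top_iff_one _).2 h4)
    have h1 := hc M hM
    have h2 := hc M' hM'
    have h3 := huniq i _ _ h2.1 h1.1 h2.2 h1.2
    exact Ideal.comap_injective_of_surjective _ Ideal.Quotient.mk_surjective h3

theorem S0499 (R : Type u) [CommRing R]
    [HenselianLocalRing R] (S : Type u) [CommRing S] [Algebra R S] [Module.Finite R S] :
    ∃ (ι : Type u) (_ : Fintype ι) (A : ι → Type u) (_ : ∀ i, CommRing (A i)),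
      (∀ i, IsLocalRing (A i)) ∧ Nonempty (S ≃+* (∀ i, A i)) := by
  obtain ⟨ι, _, e, he, hloc⟩ := exists_decomposition R S
  exact ⟨ι, inferInstance, fun i => S ⧸ Ideal.span {1 - e i}, fun i => inferInstance, hloc,
    ⟨RingEquiv.ofBijective _ he.bijective_pi⟩⟩

/-- root from an idempotent of `S[X]/f` -/
lemma root_of_idempotent {S : Type u} [CommRing S] [IsLocalRing S] (f : S[X]) (hf : f.Monic) (a₀ : S)
    (h0 : f.eval a₀ ∈ IsLocalRing.maximalIdeal S) (h1 : IsUnit (f.derivative.eval a₀))
    (ε : AdjoinRoot f) (hε : ε * ε = ε) (hloc : IsLocalRing (AdjoinRoot f ⧸ Ideal.span {1 - ε}))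
    (φ : AdjoinRoot f →+* IsLocalRing.ResidueField S) (hφ1 : ∀ s, φ (algebraMap S _ s) = IsLocalRing.residue S s)
    (hφ2 : φ (AdjoinRoot.root f) = IsLocalRing.residue S a₀) (hφ3 : φ ε ≠ 0) :
    ∃ a : S, f.IsRoot a ∧ a - a₀ ∈ IsLocalRing.maximalIdeal S := by
  set I : Ideal (AdjoinRoot f) := Ideal.span {1 - ε} with hI
  set m := IsLocalRing.maximalIdeal S
  have : Module.Finite S (AdjoinRoot f) := hf.finite_adjoinRoot
  have : Module.Free S (AdjoinRoot f) := hf.free_adjoinRoot
  have hφε : φ ε = 1 := by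
    have : φ ε * (φ ε - 1) = 0 := by rw [mul_sub, ← map_mul, hε]; ring
    exact sub_eq_zero.1 ((mul_eq_zero.1 this).resolve_left hφ3)
  -- projectivity
  have hproj : Module.Projective S ((AdjoinRoot f) ⧸ I) := by
    let i : ((AdjoinRoot f) ⧸ I) →ₗ[S] (AdjoinRoot f) := (Submodule.liftQ (I.restrictScalars S) ((LinearMap.mulLeft S ε)) (by
      intro b hb
      rw [Submodule.restrictScalars_mem, hI, Ideal.mem_span_singleton] at hb
      obtain ⟨c, rfl⟩ := hb
      rw [LinearMap.mem_ker, LinearMap.mulLeft_apply]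
      linear_combination (-c) * hε))
    refine Module.Projective.of_split i (Ideal.Quotient.mkₐ S I).toLinearMap ?_
    ext b
    obtain ⟨b, rfl⟩ := Ideal.Quotient.mk_surjective b
    change Ideal.Quotient.mk I (ε * b) = Ideal.Quotient.mk I b
    rw [Ideal.Quotient.eq, hI, Ideal.mem_span_singleton]
    exact ⟨-b, by ring⟩
  have hroot : (f.map (IsLocalRing.residue S)).IsRoot (IsLocalRing.residue S a₀) := by
    rw [IsRoot, eval_map_apply, IsLocalRing.residue_eq_zero_iff]; exact h0
  obtain ⟨hb, hhb⟩ := dvd_iff_isRoot.2 hroot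
  obtain ⟨k, hk⟩ := Polynomial.map_surjective _ IsLocalRing.residue_surjective hb
  have hka : IsLocalRing.residue S (k.eval a₀) ≠ 0 := by
    have e1 : (f.derivative.map (IsLocalRing.residue S)).eval (IsLocalRing.residue S a₀) = hb.eval (IsLocalRing.residue S a₀) := by
      rw [← derivative_map, hhb]; simp
    rw [← eval_map_apply, hk, ← e1, eval_map_apply]; exact (h1.map (IsLocalRing.residue S)).ne_zero
  have hfk : (AdjoinRoot.root f - algebraMap S (AdjoinRoot f) a₀) * AdjoinRoot.mk f k ∈ m.map (algebraMap S (AdjoinRoot f)) := by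
    have e1 : (AdjoinRoot.root f - algebraMap S (AdjoinRoot f) a₀) * AdjoinRoot.mk f k = AdjoinRoot.mk f ((X - C a₀) * k - f) := by
      rw [map_sub, AdjoinRoot.mk_self, sub_zero, map_mul, map_sub, AdjoinRoot.mk_X]; rfl
    have e2 : ((X - C a₀) * k - f).map (IsLocalRing.residue S) = 0 := by
      rw [Polynomial.map_sub, Polynomial.map_mul, hk, hhb]; simp
    have e3 : ((X - C a₀) * k - f) ∈ Ideal.map (C : S →+* S[X]) m := by
      rw [Ideal.mem_map_C_iff]
      intro i
      have := congrArg (fun p => p.coeff i) e2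
      simp only [coeff_map, coeff_zero] at this
      exact (IsLocalRing.residue_eq_zero_iff _).1 this
    rw [e1]
    have e4 := Ideal.mem_map_of_mem (AdjoinRoot.mk f) e3
    rw [Ideal.map_map] at e4
    exact e4
  have hφk : φ (AdjoinRoot.mk f k) ≠ 0 := by
    have e1 : φ (AdjoinRoot.mk f k) = IsLocalRing.residue S (k.eval a₀) := by
      have : φ.comp (AdjoinRoot.mk f) = (IsLocalRing.residue S).comp (evalRingHom a₀) := by
        apply Polynomial.ringHom_ext
        · intro s
          simp only [RingHom.comp_apply, coe_evalRingHom, eval_C]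
          exact hφ1 s
        · simp only [RingHom.comp_apply, coe_evalRingHom, eval_X, AdjoinRoot.mk_X]
          exact hφ2
      exact congrArg (fun g => g k) this
    rw [e1]; exact hka
  -- φ descends
  let φ' : (AdjoinRoot f) ⧸ I →+* IsLocalRing.ResidueField S := Ideal.Quotient.lift I φ (by
    intro b hb
    rw [hI, Ideal.mem_span_singleton] at hb
    obtain ⟨c, rfl⟩ := hb
    rw [map_mul, map_sub, map_one, hφε, sub_self, zero_mul])
  have hφ's : Function.Surjective φ' := by
    intro x
    obtain ⟨s, rfl⟩ := IsLocalRing.residue_surjective x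
    exact ⟨Ideal.Quotient.mk I (algebraMap S (AdjoinRoot f) s), hφ1 s⟩
  have hker : RingHom.ker φ' = IsLocalRing.maximalIdeal ((AdjoinRoot f) ⧸ I) :=
    IsLocalRing.eq_maximalIdeal (RingHom.ker_isMaximal_of_surjective φ' hφ's)
  have hunit : IsUnit (Ideal.Quotient.mk I (AdjoinRoot.mk f k)) := by
    by_contra hn
    have : Ideal.Quotient.mk I (AdjoinRoot.mk f k) ∈ RingHom.ker φ' := by rw [hker]; exact hn
    exact hφk this
  obtain ⟨w, hw⟩ := hunit.exists_right_inv
  obtain ⟨w, rfl⟩ := Ideal.Quotient.mk_surjective w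
  have hw' : AdjoinRoot.mk f k * w - 1 ∈ I := by
    rw [← Ideal.Quotient.eq, map_mul, hw, map_one]
  refine root_of_factor f a₀ I ?_
  have e : AdjoinRoot.root f - algebraMap S (AdjoinRoot f) a₀ = (-(AdjoinRoot.root f - algebraMap S (AdjoinRoot f) a₀)) * (AdjoinRoot.mk f k * w - 1) +
      w * ((AdjoinRoot.root f - algebraMap S (AdjoinRoot f) a₀) * AdjoinRoot.mk f k) := by ring
  rw [e]
  exact Submodule.add_mem_sup (Ideal.mul_mem_left _ _ hw') (Ideal.mul_mem_left _ _ hfk)

theorem S0500 (R : Type u) [CommRing R] [IsLocalRing R]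
    (h : ∀ (S : Type u) [CommRing S] [Algebra R S], Module.Finite R S →
      ∃ (ι : Type u) (_ : Fintype ι) (A : ι → Type u) (_ : ∀ i, CommRing (A i)),
        (∀ i, IsLocalRing (A i)) ∧ Nonempty (S ≃+* (∀ i, A i))) :
    HenselianLocalRing R where
  is_henselian f hf a₀ h0 h1 := by
    classical
    obtain ⟨ι, _, A, _, hA, ⟨E⟩⟩ := h (AdjoinRoot f) hf.finite_adjoinRoot
    have hev : f.eval₂ (IsLocalRing.residue R) (IsLocalRing.residue R a₀) = 0 := by
      rw [eval₂_at_apply, IsLocalRing.residue_eq_zero_iff]; exact h0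
    let φ : AdjoinRoot f →+* IsLocalRing.ResidueField R := AdjoinRoot.lift (IsLocalRing.residue R) (IsLocalRing.residue R a₀) hev
    let ε : ι → AdjoinRoot f := fun i => E.symm (Pi.single i 1)
    have hsum : ∑ i, ε i = 1 := by
      rw [← map_sum]
      have : ∑ i, (Pi.single i 1 : ∀ i, A i) = 1 := by
        ext j; simp [Finset.sum_apply]
      rw [this, map_one]
    obtain ⟨i, hi⟩ : ∃ i, φ (ε i) ≠ 0 := by
      by_contra hn
      push Not at hn
      have : φ 1 = 0 := by rw [← hsum, map_sum]; exact Finset.sum_eq_zero fun i _ => hn i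
      rw [map_one] at this
      exact one_ne_zero this
    have hid : ε i * ε i = ε i := by
      rw [← map_mul, ← Pi.single_mul, one_mul]
    have hAi := hA i
    let p : AdjoinRoot f →+* A i := (Pi.evalRingHom A i).comp E.toRingHom
    have hps : Function.Surjective p := by
      intro x
      exact ⟨E.symm (Pi.single i x), by simp [p]⟩
    have hker : RingHom.ker p = Ideal.span {1 - ε i} := by
      ext b
      rw [RingHom.mem_ker, Ideal.mem_span_singleton]
      constructor
      · intro hb
        have h2 : ε i * b = 0 := by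
          apply E.injective
          rw [map_mul, map_zero]
          ext j
          by_cases hij : j = i
          · subst hij
            have : E b j = 0 := hb
            simp [this]
          · simp [ε, Pi.single_eq_of_ne hij]
        exact ⟨b, by linear_combination h2⟩
      · rintro ⟨c, rfl⟩
        simp [p, ε]
    have hloc : IsLocalRing (AdjoinRoot f ⧸ Ideal.span {1 - ε i}) := by
      rw [← hker]
      exact (RingHom.quotientKerEquivOfSurjective hps).symm.isLocalRing
    exact root_of_idempotent f hf a₀ h0 h1 (ε i) hid hloc φ (fun s => by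
      change AdjoinRoot.lift _ _ _ (AdjoinRoot.of f s) = _
      rw [AdjoinRoot.lift_of]) (AdjoinRoot.lift_root _) hi

theorem S0505 (R : Type u) [CommRing R] [HenselianLocalRing R]
    (S : Type u) [CommRing S] [IsLocalRing S] [Algebra R S] [Module.Finite R S] :
    HenselianLocalRing S := by
  apply S0500
  intro T _ _ hT
  let _ : Algebra R T := ((algebraMap S T).comp (algebraMap R S)).toAlgebra
  have : IsScalarTower R S T := IsScalarTower.of_algebraMap_eq fun _ => rfl
  have : Module.Finite R T := Module.Finite.trans S T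
  exact S0499 R T

end Groth.Agent.H1.Hensel
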