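import Groth.Agent.Lib.H1_HenselF
set_option autoImplicit false
open Polynomial TensorProduct
universe u v w
namespace Groth.Agent.H1.Hensel

lemma projective_quotient_of_idempotent {S : Type*} {B : Type*} [CommRing S] [CommRing B] [Algebra S B] [Module.Projective S B]
    (ε : B) (hε : ε * ε = ε) (I : Ideal B) (hI : I = Ideal.span {1 - ε}) : Module.Projective S (B ⧸ I) := by
  let i : (B ⧸ I) →ₗ[S] B := (Submodule.liftQ (I.restrictScalars S) ((LinearMap.mulLeft S ε)) (by
    intro b hb
    rw [Submodule.restrictScalars_mem, hI, Ideal.mem_span_singleton] at hb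
    obtain ⟨c, rfl⟩ := hb
    rw [LinearMap.mem_ker, LinearMap.mulLeft_apply]
    linear_combination (-c) * hε))
  refine Module.Projective.of_split i (Ideal.Quotient.mkₐ S I).toLinearMap ?_
  ext b
  obtain ⟨b, rfl⟩ := Ideal.Quotient.mk_surjective b
  change Ideal.Quotient.mk I (ε * b) = Ideal.Quotient.mk I b
  rw [Ideal.Quotient.eq, hI, Ideal.mem_span_singleton]
  exact ⟨-b, by ring⟩

theorem S0496 (R : Type u) [CommRing R] [IsLocalRing R]
    (h : ∀ f : Polynomial R, f.Monic →
      ∀ g₀ h₀ : Polynomial (IsLocalRing.ResidueField R), IsCoprime g₀ h₀ →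
      Polynomial.map (IsLocalRing.residue R) f = g₀ * h₀ →
      ∃ g h : Polynomial R, f = g * h ∧ Polynomial.map (IsLocalRing.residue R) g = g₀ ∧
        Polynomial.map (IsLocalRing.residue R) h = h₀) :
    HenselianLocalRing R where
  is_henselian f hf a₀ h0 h1 := by
    set m := IsLocalRing.maximalIdeal R with hm
    have hroot : (f.map (IsLocalRing.residue R)).IsRoot (IsLocalRing.residue R a₀) := by
      rw [IsRoot, eval_map_apply, IsLocalRing.residue_eq_zero_iff]; exact h0
    obtain ⟨hb, hhb⟩ := dvd_iff_isRoot.2 hroot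
    have hka : hb.eval (IsLocalRing.residue R a₀) ≠ 0 := by
      have e1 : (f.derivative.map (IsLocalRing.residue R)).eval (IsLocalRing.residue R a₀) = hb.eval (IsLocalRing.residue R a₀) := by
        rw [← derivative_map, hhb]; simp
      rw [← e1, eval_map_apply]; exact (h1.map (IsLocalRing.residue R)).ne_zero
    have hcop : IsCoprime (X - C (IsLocalRing.residue R a₀)) hb := by
      refine ((irreducible_X_sub_C _).coprime_iff_not_dvd).2 ?_
      rw [dvd_iff_isRoot]
      exact hka
    obtain ⟨g, h', hfgh, hg, hh'⟩ := h f hf _ _ hcop hhb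
    have hmemC : ∀ p : R[X], p.map (IsLocalRing.residue R) = 0 → AdjoinRoot.mk f p ∈ m.map (algebraMap R (AdjoinRoot f)) := by
      intro p hp
      have e3 : p ∈ Ideal.map (C : R →+* R[X]) m := by
        rw [Ideal.mem_map_C_iff]
        intro i
        have := congrArg (fun p => p.coeff i) hp
        simp only [coeff_map, coeff_zero] at this
        exact (IsLocalRing.residue_eq_zero_iff _).1 this
      have e4 := Ideal.mem_map_of_mem (AdjoinRoot.mk f) e3
      rw [Ideal.map_map] at e4
      exact e4
    have hfin : Module.Finite R (AdjoinRoot f) := hf.finite_adjoinRoot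
    have hfree : Module.Free R (AdjoinRoot f) := hf.free_adjoinRoot
    -- comaximality
    obtain ⟨a', b', hab⟩ := hcop
    obtain ⟨a, rfl⟩ := Polynomial.map_surjective _ IsLocalRing.residue_surjective a'
    obtain ⟨b, rfl⟩ := Polynomial.map_surjective _ IsLocalRing.residue_surjective b'
    have h2 : AdjoinRoot.mk f (a * g + b * h' - 1) ∈ m.map (algebraMap R (AdjoinRoot f)) := by
      apply hmemC
      rw [Polynomial.map_sub, Polynomial.map_add, Polynomial.map_mul, Polynomial.map_mul, hg, hh', hab, Polynomial.map_one, sub_self]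
    set J : Ideal (AdjoinRoot f) := Ideal.span {AdjoinRoot.mk f g, AdjoinRoot.mk f h'} with hJ
    have hJtop : J = ⊤ := by
      have h3 : (⊤ : Submodule R (AdjoinRoot f)) ≤ J.restrictScalars R ⊔ m • ⊤ := by
        have h4 : (1 : AdjoinRoot f) ∈ J ⊔ m.map (algebraMap R (AdjoinRoot f)) := by
          have h5 : (1 : AdjoinRoot f) = (AdjoinRoot.mk f a * AdjoinRoot.mk f g + AdjoinRoot.mk f b * AdjoinRoot.mk f h') + -AdjoinRoot.mk f (a * g + b * h' - 1) := by
            rw [map_sub, map_add, map_mul, map_mul, map_one]; ring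
          rw [h5]
          exact Submodule.add_mem_sup (Ideal.add_mem _ (Ideal.mul_mem_left _ _ (Ideal.subset_span (by simp)))
            (Ideal.mul_mem_left _ _ (Ideal.subset_span (by simp)))) (Ideal.neg_mem_iff _ |>.2 h2)
        have h6 : J ⊔ m.map (algebraMap R (AdjoinRoot f)) = ⊤ := (Ideal.eq_top_iff_one _).2 h4
        intro x _
        have h7 : x ∈ J ⊔ m.map (algebraMap R (AdjoinRoot f)) := h6 ▸ Submodule.mem_top
        obtain ⟨y, hy, z, hz, rfl⟩ := Submodule.mem_sup.1 h7
        refine Submodule.add_mem_sup hy ?_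
        rw [Ideal.smul_top_eq_map]; exact hz
      have h8 := Submodule.le_of_le_smul_of_le_jacobson_bot Module.Finite.fg_top
        (IsLocalRing.maximalIdeal_le_jacobson ⊥) h3
      rw [Ideal.eq_top_iff_one]
      exact h8 (Submodule.mem_top : (1 : AdjoinRoot f) ∈ ⊤)
    have h9 : (1 : AdjoinRoot f) ∈ J := hJtop ▸ Submodule.mem_top
    rw [hJ, Ideal.mem_span_pair] at h9
    obtain ⟨u, v, huv⟩ := h9
    have hgh : AdjoinRoot.mk f g * AdjoinRoot.mk f h' = 0 := by
      rw [← map_mul, ← hfgh, AdjoinRoot.mk_self]
    set G := AdjoinRoot.mk f g with hG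
    set H := AdjoinRoot.mk f h' with hH
    have hε : (v * H) * (v * H) = v * H := by
      linear_combination (v * H) * huv - u * v * hgh
    have hI : Ideal.span {G} = Ideal.span {1 - v * H} := by
      apply le_antisymm
      · rw [Ideal.span_singleton_le_span_singleton]
        exact ⟨G, by linear_combination (v) * hgh⟩
      · rw [Ideal.span_singleton_le_span_singleton]
        exact ⟨u, by linear_combination -huv⟩
    have hproj : Module.Projective R (AdjoinRoot f ⧸ Ideal.span {G}) := projective_quotient_of_idempotent (v * H) hε _ hI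
    have hev : f.eval₂ (IsLocalRing.residue R) (IsLocalRing.residue R a₀) = 0 := by
      rw [eval₂_at_apply, IsLocalRing.residue_eq_zero_iff]; exact h0
    let φ : AdjoinRoot f →+* IsLocalRing.ResidueField R := AdjoinRoot.lift (IsLocalRing.residue R) (IsLocalRing.residue R a₀) hev
    have hφG : φ G = 0 := by
      have : φ G = g.eval₂ (IsLocalRing.residue R) (IsLocalRing.residue R a₀) := AdjoinRoot.lift_mk _ _
      rw [this, ← eval_map, hg]; simp
    have hnt : Nontrivial (AdjoinRoot f ⧸ Ideal.span {G}) := by
      rw [Ideal.Quotient.nontrivial_iff]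
      intro h3
      have h4 : (1 : AdjoinRoot f) ∈ Ideal.span {G} := h3 ▸ Submodule.mem_top
      obtain ⟨c, hc⟩ := Ideal.mem_span_singleton.1 h4
      have := congrArg φ hc
      rw [map_one, map_mul, hφG, zero_mul] at this
      exact one_ne_zero this
    refine root_of_factor f a₀ (Ideal.span {G}) ?_
    have e1 : AdjoinRoot.root f - algebraMap R (AdjoinRoot f) a₀ = G + AdjoinRoot.mk f (X - C a₀ - g) := by
      rw [map_sub, map_sub, AdjoinRoot.mk_X, hG]
      change _ = _ + (_ - AdjoinRoot.of f a₀ - _)
      rw [add_sub_cancel]; rfl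
    rw [e1]
    refine Submodule.add_mem_sup (Ideal.mem_span_singleton_self _) (hmemC _ ?_)
    rw [Polynomial.map_sub, hg]; simp

end Groth.Agent.H1.Hensel
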