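import Groth.Agent.Lib.H1_HenselE
set_option autoImplicit false
open Polynomial TensorProduct
universe u v w
namespace Groth.Agent.H1.Hensel

lemma exists_idempotent (R : Type u) [CommRing R] [HenselianLocalRing R] (S : Type u) [CommRing S]
    [Algebra R S] [Algebra.FiniteType R S]
    (q : Ideal S) [q.IsPrime] [q.LiesOver (IsLocalRing.maximalIdeal R)] [Algebra.QuasiFiniteAt R q] :
    ∃ ε : S, ε * ε = ε ∧ ε ∉ q ∧ Module.Finite R (S ⧸ Ideal.span {1 - ε}) := by
  classical
  obtain ⟨R', _, _, _, P, _, hPl, e, he, P', hP'p, hP'l, hcomap, heP', hbij, hfin, -⟩ :=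
    Algebra.exists_etale_isIdempotentElem_forall_liesOver_eq (R := R) (S := S) (IsLocalRing.maximalIdeal R) q
  set m := IsLocalRing.maximalIdeal R with hm
  let E1 : m.ResidueField ≃ₐ[R] P.ResidueField := AlgEquiv.ofBijective _ hbij
  let E2 : (R ⧸ m) ≃ₐ[R] m.ResidueField := AlgEquiv.ofBijective (IsScalarTower.toAlgHom R (R ⧸ m) m.ResidueField)
    (Ideal.bijective_algebraMap_quotient_residueField m)
  let σ : R' →ₐ[R] IsLocalRing.ResidueField R :=
    E2.symm.toAlgHom.comp (E1.symm.toAlgHom.comp (IsScalarTower.toAlgHom R R' P.ResidueField))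
  have hσ0 : ∀ a : R', σ a = 0 ↔ a ∈ P := by
    intro a
    change E2.symm (E1.symm (algebraMap R' P.ResidueField a)) = (0 : R ⧸ m) ↔ _
    rw [EmbeddingLike.map_eq_zero_iff, EmbeddingLike.map_eq_zero_iff, Ideal.algebraMap_residueField_eq_zero]
  obtain ⟨ρ, hρ, -⟩ := etale_lift σ
  have hρP : ∀ a : R', ρ a ∈ m ↔ a ∈ P := by
    intro a
    rw [← hσ0, ← hρ, IsLocalRing.residue_eq_zero_iff]
  let ψ : R' ⊗[R] S →ₐ[R] S := Algebra.TensorProduct.lift ((Algebra.ofId R S).comp ρ) (AlgHom.id R S)
    (fun _ _ => Commute.all _ _)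
  have hψ1 : ∀ a : R', ψ (a ⊗ₜ 1) = algebraMap R S (ρ a) := by
    intro a; simp [ψ, Algebra.ofId_apply]
  have hψ2 : ∀ s : S, ψ (1 ⊗ₜ s) = s := by
    intro s; simp [ψ]
  have hψs : Function.Surjective ψ := fun s => ⟨1 ⊗ₜ s, hψ2 s⟩
  have hlies : (q.comap ψ.toRingHom).LiesOver P := by
    constructor
    ext a
    rw [Ideal.under, Ideal.mem_comap, Ideal.mem_comap]
    change _ ↔ ψ (a ⊗ₜ 1) ∈ q
    have h1 : m = q.comap (algebraMap R S) := Ideal.LiesOver.over
    rw [hψ1, ← hρP, h1, Ideal.mem_comap]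
  have hq : q.comap ψ.toRingHom = P' := by
    apply Ideal.eq_of_comap_eq_comap_of_bijective_residueFieldMap (p := m) (q := P) hbij
    rw [hcomap, Ideal.comap_comap]
    ext s
    rw [Ideal.mem_comap]
    change ψ (1 ⊗ₜ s) ∈ q ↔ _
    rw [hψ2]
  refine ⟨ψ e, ?_, ?_, ?_⟩
  · rw [← map_mul]; exact congrArg ψ he.eq
  · intro h
    apply heP'
    rw [← hq]
    exact h
  · set I : Ideal S := Ideal.span {1 - ψ e} with hI
    have hu : IsUnit (((Ideal.Quotient.mk I).comp ψ.toRingHom) e) := by
      have : Ideal.Quotient.mk I (ψ e) = 1 := by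
        rw [← (Ideal.Quotient.mk I).map_one, eq_comm, Ideal.Quotient.eq]
        exact Ideal.mem_span_singleton_self _
      change IsUnit (Ideal.Quotient.mk I (ψ e))
      rw [this]; exact isUnit_one
    let L : Localization.Away e →+* S ⧸ I := IsLocalization.Away.lift e hu
    have hL : ∀ x, L (algebraMap _ _ x) = Ideal.Quotient.mk I (ψ x) := fun x =>
      IsLocalization.Away.lift_eq e hu x
    have hLs : Function.Surjective L := by
      intro y
      obtain ⟨s, rfl⟩ := Ideal.Quotient.mk_surjective y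
      exact ⟨algebraMap (R' ⊗[R] S) _ ((1 : R') ⊗ₜ[R] s), by rw [hL, hψ2]⟩
    let _ : Algebra R' (S ⧸ I) := (L.comp (algebraMap R' (Localization.Away e))).toAlgebra
    let L' : Localization.Away e →ₐ[R'] S ⧸ I := { L with commutes' := fun _ => rfl }
    have h1 : Module.Finite R' (S ⧸ I) := Module.Finite.of_surjective L'.toLinearMap hLs
    have h2 : ∀ a : R', algebraMap R' (S ⧸ I) a = algebraMap R (S ⧸ I) (ρ a) := by
      intro a
      change L (algebraMap R' (Localization.Away e) a) = Ideal.Quotient.mk I (algebraMap R S (ρ a))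
      rw [IsScalarTower.algebraMap_apply R' (R' ⊗[R] S) (Localization.Away e), hL, ← hψ1]
      rfl
    obtain ⟨s, hs⟩ := h1.fg_top
    refine ⟨⟨s, ?_⟩⟩
    rw [eq_top_iff]
    rintro x -
    have hx : x ∈ Submodule.span R' (s : Set (S ⧸ I)) := by rw [hs]; trivial
    induction hx using Submodule.span_induction with
    | mem x hx => exact Submodule.subset_span hx
    | zero => exact zero_mem _
    | add x y _ _ hx hy => exact add_mem hx hy
    | smul a x _ hx =>
      rw [Algebra.smul_def, h2, ← Algebra.smul_def]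
      exact Submodule.smul_mem _ _ hx

lemma fg_of_finite {R S : Type*} [CommRing R] [CommRing S] [Algebra R S] (ε : S) (hε : ε * ε = ε)
    [Module.Finite R (S ⧸ Ideal.span {1 - ε})] : ((Ideal.span {ε}).restrictScalars R).FG := by
  let i : (S ⧸ Ideal.span {1 - ε}) →ₗ[R] S :=
    (Submodule.liftQ ((Ideal.span {1 - ε}).restrictScalars R) ((LinearMap.mulLeft R ε)) (by
    intro b hb
    rw [Submodule.restrictScalars_mem, Ideal.mem_span_singleton] at hb
    obtain ⟨c, rfl⟩ := hb
    rw [LinearMap.mem_ker, LinearMap.mulLeft_apply]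
    linear_combination (-c) * hε))
  have hi : ∀ s, i (Ideal.Quotient.mk _ s) = ε * s := fun s => rfl
  have : (Ideal.span {ε}).restrictScalars R = LinearMap.range i := by
    ext x
    rw [Submodule.restrictScalars_mem, Ideal.mem_span_singleton, LinearMap.mem_range]
    constructor
    · rintro ⟨c, rfl⟩
      exact ⟨Ideal.Quotient.mk _ c, hi c⟩
    · rintro ⟨y, rfl⟩
      obtain ⟨s, rfl⟩ := Ideal.Quotient.mk_surjective y
      exact ⟨s, hi s⟩
  rw [this]
  exact Module.Finite.fg_top.map i |> fun h => by rwa [Submodule.map_top] at h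

lemma finite_of_fg {R S : Type*} [CommRing R] [CommRing S] [Algebra R S] (ε : S)
    (h : ((Ideal.span {ε}).restrictScalars R).FG) : Module.Finite R (S ⧸ Ideal.span {1 - ε}) := by
  have : Module.Finite R ((Ideal.span {ε}).restrictScalars R) := Module.Finite.iff_fg.2 h
  refine Module.Finite.of_surjective
    ((Ideal.Quotient.mkₐ R (Ideal.span {1 - ε})).toLinearMap ∘ₗ ((Ideal.span {ε}).restrictScalars R).subtype) ?_
  intro y
  obtain ⟨s, rfl⟩ := Ideal.Quotient.mk_surjective y
  refine ⟨⟨ε * s, ?_⟩, ?_⟩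
  · rw [Submodule.restrictScalars_mem]; exact Ideal.mul_mem_right _ _ (Ideal.mem_span_singleton_self _)
  · change Ideal.Quotient.mk _ (ε * s) = Ideal.Quotient.mk _ s
    rw [Ideal.Quotient.eq, Ideal.mem_span_singleton]
    exact ⟨-s, by ring⟩

theorem splitGen (R : Type u) [CommRing R] [HenselianLocalRing R] (S : Type u) [CommRing S]
    [Algebra R S] [Algebra.FiniteType R S] :
    ∃ e : S, e * e = e ∧ Module.Finite R (S ⧸ Ideal.span {1 - e}) ∧
      ∀ (q : Ideal S) [q.IsPrime] [q.LiesOver (IsLocalRing.maximalIdeal R)], Algebra.QuasiFiniteAt R q → e ∉ q := by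
  classical
  let m := IsLocalRing.maximalIdeal R
  let A : Set S := {ε | ε * ε = ε ∧ ((Ideal.span {ε}).restrictScalars R).FG}
  let Fib := m.ResidueField ⊗[R] S
  have hN : IsNoetherianRing Fib := Algebra.FiniteType.isNoetherianRing m.ResidueField Fib
  let φ : S →ₐ[R] Fib := Algebra.TensorProduct.includeRight
  have hfg : (Submodule.span Fib (φ '' A)).FG := IsNoetherian.noetherian _
  obtain ⟨s', hs'1, hs'2⟩ := Submodule.fg_span_iff_fg_span_finset_subset _ |>.1 hfg
  obtain ⟨t, htA, rfl⟩ := Finset.subset_set_image_iff.1 hs'1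
  let I : Ideal S := Ideal.span (t : Set S)
  have hIfg : I.FG := ⟨t, rfl⟩
  have hIid : IsIdempotentElem I := by
    apply le_antisymm Ideal.mul_le_left
    rw [Ideal.span_le]
    intro x hx
    have := (htA hx).1
    rw [← this]
    exact Ideal.mul_mem_mul (Ideal.subset_span hx) (Ideal.subset_span hx)
  obtain ⟨e, he, hIe0⟩ := (Ideal.isIdempotentElem_iff_of_fg I hIfg).1 hIid
  have hIe : I = Ideal.span {e} := hIe0
  have hfgI : (I.restrictScalars R).FG := by
    have h1 : I = ⨆ x ∈ t, Ideal.span {x} := Submodule.span_eq_iSup_of_singleton_spans _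
    have h2 : I.restrictScalars R = ⨆ x ∈ t, (Ideal.span {x}).restrictScalars R := by
      rw [h1]
      have := map_iSup₂ (Submodule.restrictScalarsLatticeHom R S S) (fun (x : S) (_ : x ∈ t) => Ideal.span {x})
      exact this
    rw [h2]
    exact Submodule.fg_biSup t _ (fun x hx => (htA hx).2)
  refine ⟨e, he.eq, finite_of_fg e (by rw [← hIe]; exact hfgI), ?_⟩
  intro q _ _ hq heq
  obtain ⟨ε, hε1, hε2, hε3⟩ := exists_idempotent R S q
  have hεA : ε ∈ A := ⟨hε1, fg_of_finite ε hε1⟩
  let χ : Fib →ₐ[R] q.ResidueField := Algebra.TensorProduct.lift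
    (Ideal.ResidueField.mapₐ m q (Algebra.ofId R S) (q.over_def m)) (IsScalarTower.toAlgHom R S q.ResidueField)
    (fun _ _ => Commute.all _ _)
  have hχ : ∀ s, χ (φ s) = algebraMap S q.ResidueField s := by
    intro s
    change χ ((1 : m.ResidueField) ⊗ₜ[R] s) = _
    rw [Algebra.TensorProduct.lift_tmul, map_one, one_mul]; rfl
  have hk : Submodule.span Fib (φ '' A) ≤ RingHom.ker χ.toRingHom := by
    rw [hs'2, Submodule.span_le]
    intro y hy
    rw [Finset.coe_image] at hy
    obtain ⟨x, hx, rfl⟩ := hy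
    change χ (φ x) = 0
    rw [hχ, Ideal.algebraMap_residueField_eq_zero]
    have : x ∈ I := Ideal.subset_span hx
    rw [hIe, Ideal.mem_span_singleton] at this
    obtain ⟨c, rfl⟩ := this
    exact Ideal.mul_mem_right _ _ heq
  have h1 : φ ε ∈ RingHom.ker χ.toRingHom := hk (Submodule.subset_span ⟨ε, hεA, rfl⟩)
  have h2 : χ (φ ε) = 0 := h1
  rw [hχ, Ideal.algebraMap_residueField_eq_zero] at h2
  exact hε2 h2

theorem S0503 (R : Type u) [CommRing R] [HenselianLocalRing R]
    (S : Type u) [CommRing S] [Algebra R S] [Algebra.FiniteType R S] [Algebra.QuasiFinite R S] :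
    ∃ e : S, IsIdempotentElem e ∧ Module.Finite R (S ⧸ Ideal.span ({1 - e} : Set S)) ∧
      Ideal.map (algebraMap R (S ⧸ Ideal.span ({e} : Set S))) (IsLocalRing.maximalIdeal R) = ⊤ := by
  obtain ⟨e, he, hfin, H⟩ := splitGen R S
  refine ⟨e, he, hfin, ?_⟩
  by_contra hne
  obtain ⟨N, hN, hle⟩ := Ideal.exists_le_maximal _ hne
  have hN' := hN.isPrime
  have hl : (N.comap (Ideal.Quotient.mk (Ideal.span ({e} : Set S)))).LiesOver (IsLocalRing.maximalIdeal R) := by
    constructor
    refine (IsLocalRing.maximalIdeal.isMaximal R).eq_of_le ?_ ?_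
    · exact (Ideal.IsPrime.comap _).ne_top
    · intro r hr
      exact hle (Ideal.mem_map_of_mem _ hr)
  refine H (N.comap (Ideal.Quotient.mk (Ideal.span ({e} : Set S)))) inferInstance ?_
  rw [Ideal.mem_comap, Ideal.Quotient.eq_zero_iff_mem.2 (Ideal.mem_span_singleton_self _)]
  exact N.zero_mem

theorem S0504 (R : Type u) [CommRing R] [HenselianLocalRing R]
    (S : Type u) [CommRing S] [Algebra R S] [Algebra.FiniteType R S] :
    ∃ e : S, IsIdempotentElem e ∧ Module.Finite R (S ⧸ Ideal.span ({1 - e} : Set S)) ∧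
      ∀ (q : Ideal (S ⧸ Ideal.span ({e} : Set S))) [q.IsPrime],
        q.LiesOver (IsLocalRing.maximalIdeal R) → ¬ Algebra.QuasiFiniteAt R q := by
  obtain ⟨e, he, hfin, H⟩ := splitGen R S
  refine ⟨e, he, hfin, ?_⟩
  intro q _ hl hq
  let π : S →ₐ[R] S ⧸ Ideal.span ({e} : Set S) := Ideal.Quotient.mkₐ R _
  have hπs : Function.Surjective π := Ideal.Quotient.mk_surjective
  let q' : Ideal S := q.comap π.toRingHom
  have hl' : q'.LiesOver (IsLocalRing.maximalIdeal R) := by
    constructor
    rw [hl.over]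
    rfl
  have heq : e ∈ q' := by
    change π e ∈ q
    have : π e = 0 := Ideal.Quotient.eq_zero_iff_mem.2 (Ideal.mem_span_singleton_self _)
    rw [this]; exact q.zero_mem
  have he1 : 1 - e ∉ q' := by
    intro h
    have := q'.add_mem h heq
    rw [sub_add_cancel] at this
    exact (Ideal.IsPrime.comap (f := π.toRingHom) (K := q)).ne_top ((Ideal.eq_top_iff_one _).2 this)
  refine H q' ?_ heq
  have hke : algebraMap S (Localization.AtPrime q') e = 0 := by
    have hu : IsUnit (algebraMap S (Localization.AtPrime q') (1 - e)) :=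
      IsLocalization.map_units (Localization.AtPrime q') (⟨1 - e, he1⟩ : q'.primeCompl)
    have h1 : algebraMap S (Localization.AtPrime q') (1 - e) * algebraMap S (Localization.AtPrime q') e = 0 := by
      rw [← map_mul, sub_mul, one_mul, he, sub_self, map_zero]
    exact (hu.mul_right_eq_zero).1 h1
  let f0 : (S ⧸ Ideal.span ({e} : Set S)) →ₐ[R] Localization.AtPrime q' :=
    Ideal.Quotient.liftₐ _ (IsScalarTower.toAlgHom R S (Localization.AtPrime q')) (by
      intro a ha
      rw [Ideal.mem_span_singleton] at ha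
      obtain ⟨c, rfl⟩ := ha
      rw [map_mul]
      change algebraMap S _ e * _ = 0
      rw [hke, zero_mul])
  have hf0 : ∀ s, f0 (π s) = algebraMap S _ s := fun s => rfl
  let f1 : Localization.AtPrime q →ₐ[R] Localization.AtPrime q' :=
    IsLocalization.liftAlgHom (M := q.primeCompl) (f := f0) (by
      rintro ⟨y, hy⟩
      obtain ⟨s, rfl⟩ := hπs y
      rw [hf0]
      exact IsLocalization.map_units (Localization.AtPrime q') (⟨s, hy⟩ : q'.primeCompl))
  have hf1 : ∀ s, f1 (algebraMap _ _ (π s)) = algebraMap S _ s := by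
    intro s
    simp [f1, hf0]
  apply Algebra.QuasiFinite.of_forall_exists_mul_mem_range f1
  intro x
  obtain ⟨⟨a, s⟩, h⟩ := IsLocalization.surj q'.primeCompl x
  refine ⟨algebraMap _ _ (π s), ?_, ?_⟩
  · rw [hf1]; exact IsLocalization.map_units _ s
  · rw [hf1, h]
    exact ⟨algebraMap _ _ (π a), hf1 a⟩

end Groth.Agent.H1.Hensel
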