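import Groth.Agent.Lib.H1_HenselG
import Groth.Agent.Lib.H1_HenselI
set_option autoImplicit false
open Polynomial TensorProduct
universe u v w
namespace Groth.Agent.H1.Hensel

lemma mem_range_of_etale {k B L : Type u} [Field k] [IsSepClosed k] [CommRing B] [Algebra k B] [Algebra.Etale k B]
    [CommRing L] [IsDomain L] [Algebra k L] (σ : B →ₐ[k] L) (b : B) : σ b ∈ Set.range (algebraMap k L) := by
  obtain ⟨I, _, Ai, _, _, E, hE⟩ := (Algebra.Etale.iff_exists_algEquiv_prod k B).1 inferInstance
  have : Fintype I := Fintype.ofFinite I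
  have hc : ∀ i, ∃ c : k, algebraMap k (Ai i) c = E b i := by
    intro i
    have := (hE i).2
    exact IsSepClosed.algebraMap_surjective k (Ai i) (E b i)
  choose c hc using hc
  have h1 : ∏ i, (b - algebraMap k B (c i)) = 0 := by
    apply E.injective
    rw [map_prod, map_zero]
    ext j
    rw [Finset.prod_apply]
    apply Finset.prod_eq_zero (Finset.mem_univ j)
    rw [map_sub, AlgEquiv.commutes, Pi.sub_apply, ← hc j]
    simp
  have h2 := congrArg σ h1
  rw [map_prod, map_zero, Finset.prod_eq_zero_iff] at h2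
  obtain ⟨i, -, hi⟩ := h2
  rw [map_sub, AlgHom.commutes, sub_eq_zero] at hi
  exact ⟨c i, hi.symm⟩

theorem S0517 (R : Type u) [CommRing R]
    [HenselianLocalRing R] [IsSepClosed (IsLocalRing.ResidueField R)] (S : Type u) [CommRing S]
    [HenselianLocalRing S] [IsSepClosed (IsLocalRing.ResidueField S)] (φ : R →+* S) [IsLocalHom φ] (n : ℕ)
    (P : Fin n → MvPolynomial (Fin n) R)
    [Algebra.Etale R (MvPolynomial (Fin n) R ⧸ Ideal.span (Set.range P))] :
    Set.BijOn (fun r : Fin n → R => φ ∘ r)
      {r : Fin n → R | ∀ i, MvPolynomial.eval r (P i) = 0}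
      {s : Fin n → S | ∀ i, MvPolynomial.eval s (MvPolynomial.map φ (P i)) = 0} := by
  let _ : Algebra R S := φ.toAlgebra
  have halg : ∀ r, algebraMap R S r = φ r := fun _ => rfl
  set A := MvPolynomial (Fin n) R ⧸ Ideal.span (Set.range P) with hA
  let x : Fin n → A := fun i => Ideal.Quotient.mk _ (MvPolynomial.X i)
  -- homs from solutions
  have homOf : ∀ {T : Type u} [CommRing T] [Algebra R T] (s : Fin n → T)
      (_ : ∀ i, MvPolynomial.aeval s (P i) = 0), ∃ f : A →ₐ[R] T, ∀ i, f (x i) = s i := by
    intro T _ _ s hs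
    refine ⟨Ideal.Quotient.liftₐ _ (MvPolynomial.aeval s) ?_, ?_⟩
    · intro a ha
      have : Ideal.span (Set.range P) ≤ RingHom.ker (MvPolynomial.aeval s : MvPolynomial (Fin n) R →ₐ[R] T).toRingHom := by
        rw [Ideal.span_le]
        rintro _ ⟨i, rfl⟩
        exact hs i
      exact this ha
    · intro i
      change MvPolynomial.aeval s (MvPolynomial.X i) = s i
      simp
  have solOf : ∀ {T : Type u} [CommRing T] [Algebra R T] (f : A →ₐ[R] T) (i : Fin n),
      MvPolynomial.aeval (fun j => f (x j)) (P i) = 0 := by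
    intro T _ _ f i
    have h1 : (MvPolynomial.aeval (fun j => f (x j)) : MvPolynomial (Fin n) R →ₐ[R] T) =
        f.comp (Ideal.Quotient.mkₐ R _) := by
      ext j; simp [x]; rfl
    rw [h1]
    change f (Ideal.Quotient.mk _ (P i)) = 0
    rw [Ideal.Quotient.eq_zero_iff_mem.2 (Ideal.subset_span (Set.mem_range_self i)), map_zero]
  have hext : ∀ {T : Type u} [CommRing T] [Algebra R T] (f g : A →ₐ[R] T), (∀ i, f (x i) = g (x i)) → f = g := by
    intro T _ _ f g h
    apply Ideal.Quotient.algHom_ext
    ext j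
    exact h j
  have hevS : ∀ (s : Fin n → S) (i : Fin n), MvPolynomial.eval s (MvPolynomial.map φ (P i)) = MvPolynomial.aeval s (P i) := by
    intro s i
    rw [MvPolynomial.eval_map, MvPolynomial.aeval_def]; rfl
  have hevR : ∀ (s : Fin n → R) (i : Fin n), MvPolynomial.eval s (P i) = MvPolynomial.aeval s (P i) := by
    intro s i
    rw [MvPolynomial.aeval_def]; rfl
  refine ⟨?_, ?_, ?_⟩
  · intro r hr i
    have h1 := hr i
    rw [hevR] at h1
    obtain ⟨f, hf⟩ := homOf r (fun i => by rw [← hevR]; exact hr i)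
    rw [hevS]
    have h2 := solOf ((Algebra.ofId R S).comp f) i
    have h3 : (fun j => ((Algebra.ofId R S).comp f) (x j)) = φ ∘ r := by
      funext j
      change algebraMap R S (f (x j)) = φ (r j)
      rw [hf]; rfl
    rw [h3] at h2
    exact h2
  · intro r hr r' hr' h
    obtain ⟨f, hf⟩ := homOf r (fun i => by rw [← hevR]; exact hr i)
    obtain ⟨g, hg⟩ := homOf r' (fun i => by rw [← hevR]; exact hr' i)
    let π : R →ₐ[R] IsLocalRing.ResidueField R := IsScalarTower.toAlgHom R R _
    have h1 : π.comp f = π.comp g := by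
      apply hext
      intro i
      change IsLocalRing.residue R (f (x i)) = IsLocalRing.residue R (g (x i))
      rw [hf, hg, ← sub_eq_zero, ← map_sub, IsLocalRing.residue_eq_zero_iff, IsLocalRing.mem_maximalIdeal]
      intro hu
      have h2 : φ (r i - r' i) = 0 := by
        rw [map_sub, sub_eq_zero]; exact congrFun h i
      have h3 := hu.map φ
      rw [h2] at h3
      exact not_isUnit_zero h3
    have h2 : f = g := (etale_lift (S := R) (π.comp f)).unique (fun a => rfl) (fun a => by rw [h1]; rfl)
    funext i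
    rw [← hf, ← hg, h2]
  · intro s hs
    obtain ⟨g, hg⟩ := homOf s (fun i => by rw [← hevS]; exact hs i)
    let k := IsLocalRing.ResidueField R
    let L := IsLocalRing.ResidueField S
    let ι : k →+* L := IsLocalRing.ResidueField.map φ
    let _ : Algebra k L := ι.toAlgebra
    have htow : IsScalarTower R k L := IsScalarTower.of_algebraMap_eq (fun r => rfl)
    let τ : A →ₐ[R] L := (IsScalarTower.toAlgHom R S L).comp g
    have hτ : ∀ a, τ a = IsLocalRing.residue S (g a) := fun a => rfl
    let σ : k ⊗[R] A →ₐ[k] L := Algebra.TensorProduct.lift (Algebra.ofId k L) τ (fun _ _ => Commute.all _ _)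
    have hσ : ∀ a, σ (1 ⊗ₜ a) = τ a := by
      intro a
      change Algebra.TensorProduct.lift _ _ _ ((1 : k) ⊗ₜ[R] a) = _
      rw [Algebra.TensorProduct.lift_tmul, map_one, one_mul]
    have hr : ∀ a, τ a ∈ (IsScalarTower.toAlgHom R k L).range := by
      intro a
      rw [← hσ]
      exact mem_range_of_etale (k := k) (B := k ⊗[R] A) (L := L) σ _
    let E := AlgEquiv.ofInjective (IsScalarTower.toAlgHom R k L) ι.injective
    let τ0 : A →ₐ[R] k := E.symm.toAlgHom.comp (τ.codRestrict _ hr)
    have hτ0 : ∀ a, algebraMap k L (τ0 a) = τ a := by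
      intro a
      have := congrArg Subtype.val (E.apply_symm_apply (τ.codRestrict _ hr a))
      exact this
    obtain ⟨f, hf, -⟩ := etale_lift (S := R) τ0
    have h1 : ∀ a, IsLocalRing.residue S (((Algebra.ofId R S).comp f) a) = τ a := by
      intro a
      rw [← hτ0, ← hf]; rfl
    have h2 : (Algebra.ofId R S).comp f = g :=
      (etale_lift (S := S) τ).unique h1 (fun a => rfl)
    refine ⟨fun i => f (x i), ?_, ?_⟩
    · intro i
      rw [hevR]
      exact solOf f i
    · funext i
      rw [← hg, ← h2]
      rfl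

lemma surjective_of_unramified_local (R : Type u) [CommRing R]
    [HenselianLocalRing R] [IsSepClosed (IsLocalRing.ResidueField R)] (A : Type u) [CommRing A] [Algebra R A]
    [IsLocalRing A] [Module.Finite R A] [Algebra.FormallyUnramified R A] : Function.Surjective (algebraMap R A) := by
  let k := IsLocalRing.ResidueField R
  let B := k ⊗[R] A
  have hnt : Nontrivial B := by
    rw [← not_subsingleton_iff_nontrivial]
    intro h
    have := IsLocalRing.subsingleton_tensorProduct.1 h
    exact not_subsingleton A this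
  have hsurj : Function.Surjective (Algebra.TensorProduct.includeRight : A →ₐ[R] B) := by
    intro y
    induction y with
    | zero => exact ⟨0, map_zero _⟩
    | tmul c a =>
      obtain ⟨r, rfl⟩ := IsLocalRing.residue_surjective c
      refine ⟨r • a, ?_⟩
      change (1 : k) ⊗ₜ[R] (r • a) = _
      rw [← TensorProduct.smul_tmul]
      congr 1
      rw [Algebra.smul_def, mul_one]; rfl
    | add x y hx hy =>
      obtain ⟨a, rfl⟩ := hx
      obtain ⟨b, rfl⟩ := hy
      exact ⟨a + b, map_add _ _ _⟩
  have hloc : IsLocalRing B := IsLocalRing.of_surjective' (Algebra.TensorProduct.includeRight : A →ₐ[R] B).toRingHom hsurj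
  have hfin : Module.Finite k B := inferInstance
  have hunr : Algebra.FormallyUnramified k B := inferInstance
  have hft : Algebra.FiniteType k B := inferInstance
  have het : Algebra.Etale k B :=
    ⟨Algebra.FormallyEtale.of_formallyUnramified_of_field k B, Algebra.FinitePresentation.of_finiteType.1 hft⟩
  have hred : IsReduced B := Algebra.FormallyUnramified.isReduced_of_field k B
  have hart : IsArtinianRing B := isArtinian_of_tower k inferInstance
  have hf : IsField B := IsArtinianRing.isField_of_isReduced_of_isLocalRing B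
  have hdom : IsDomain B := hf.isDomain
  have hmem : ∀ b : B, b ∈ Set.range (algebraMap k B) := fun b =>
    mem_range_of_etale (k := k) (B := B) (L := B) (AlgHom.id k B) b
  have h1 : (LinearMap.range (Algebra.linearMap R A)).map (TensorProduct.mk R k A 1) = ⊤ := by
    rw [eq_top_iff]
    intro b _
    obtain ⟨c, hc⟩ := hmem b
    obtain ⟨r, rfl⟩ := IsLocalRing.residue_surjective c
    refine ⟨algebraMap R A r, ⟨r, rfl⟩, ?_⟩
    rw [← hc]
    change (1 : k) ⊗ₜ[R] (algebraMap R A r) = (IsLocalRing.residue R r) ⊗ₜ[R] (1 : A)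
    rw [Algebra.algebraMap_eq_smul_one, ← TensorProduct.smul_tmul]
    congr 1
    rw [Algebra.smul_def, mul_one]; rfl
  rw [IsLocalRing.map_tensorProduct_mk_eq_top] at h1
  exact LinearMap.range_eq_top.1 h1

theorem S0516 (R : Type u) [CommRing R]
    [HenselianLocalRing R] [IsSepClosed (IsLocalRing.ResidueField R)] (S : Type u) [CommRing S] [Algebra R S]
    [Algebra.Unramified R S] :
    ∃ (ι : Type u) (_ : Fintype ι) (A : ι → Type u) (_ : ∀ i, CommRing (A i))
      (_ : ∀ i, Algebra R (A i)) (B : Type u) (_ : CommRing B) (_ : Algebra R B),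
      (∀ i, Function.Surjective (algebraMap R (A i))) ∧
      Ideal.map (algebraMap R B) (IsLocalRing.maximalIdeal R) = ⊤ ∧
      Nonempty (S ≃ₐ[R] ((∀ i, A i) × B)) := by
  have hft : Algebra.FiniteType R S := Algebra.Unramified.finiteType
  have hunr : Algebra.FormallyUnramified R S := Algebra.Unramified.formallyUnramified
  have hqf : Algebra.QuasiFinite R S := inferInstance
  obtain ⟨e, he, hfin, hm⟩ := S0503 R S
  obtain ⟨ι, hι, ε, hε, hloc⟩ := exists_decomposition R (S ⧸ Ideal.span {1 - e})
  refine ⟨ι, hι, fun i => (S ⧸ Ideal.span {1 - e}) ⧸ Ideal.span {1 - ε i}, fun i => inferInstance, fun i => inferInstance,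
    S ⧸ Ideal.span {e}, inferInstance, inferInstance, ?_, hm, ?_⟩
  · intro i
    have h1 := hloc i
    have h2 : Algebra.FormallyUnramified R (S ⧸ Ideal.span {1 - e}) :=
      Algebra.FormallyUnramified.of_surjective (Ideal.Quotient.mkₐ R _) Ideal.Quotient.mk_surjective
    have h3 : Algebra.FormallyUnramified R ((S ⧸ Ideal.span {1 - e}) ⧸ Ideal.span {1 - ε i}) :=
      Algebra.FormallyUnramified.of_surjective (Ideal.Quotient.mkₐ R _) Ideal.Quotient.mk_surjective
    have h4 : Module.Finite R ((S ⧸ Ideal.span {1 - e}) ⧸ Ideal.span {1 - ε i}) :=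
      Module.Finite.of_surjective (Ideal.Quotient.mkₐ R (Ideal.span {1 - ε i})).toLinearMap Ideal.Quotient.mk_surjective
    exact surjective_of_unramified_local R _
  · let F1 : (S ⧸ Ideal.span {1 - e}) →ₐ[R] (∀ i, (S ⧸ Ideal.span {1 - e}) ⧸ Ideal.span {1 - ε i}) :=
      AlgHom.pi (fun i => Ideal.Quotient.mkₐ R (Ideal.span {1 - ε i}))
    have hF1 : Function.Bijective F1 := hε.bijective_pi
    let G : S →ₐ[R] (S ⧸ Ideal.span {1 - e}) × (S ⧸ Ideal.span {e}) :=
      AlgHom.prod (Ideal.Quotient.mkₐ R _) (Ideal.Quotient.mkₐ R _)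
    have he' : e * e = e := he
    have hG : Function.Bijective G := by
      constructor
      · rw [injective_iff_map_eq_zero]
        intro s hs
        have h1 : Ideal.Quotient.mk (Ideal.span {1 - e}) s = 0 := congrArg Prod.fst hs
        have h2 : Ideal.Quotient.mk (Ideal.span {e}) s = 0 := congrArg Prod.snd hs
        rw [Ideal.Quotient.eq_zero_iff_mem, Ideal.mem_span_singleton] at h1 h2
        obtain ⟨c, hc⟩ := h1
        obtain ⟨d, hd⟩ := h2
        have h3 : e * s = 0 := by rw [hc]; linear_combination (-c) * he'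
        have h4 : (1 - e) * s = 0 := by rw [hd]; linear_combination (-d) * he'
        linear_combination h3 + h4
      · rintro ⟨a, b⟩
        obtain ⟨s, rfl⟩ := Ideal.Quotient.mk_surjective a
        obtain ⟨t, rfl⟩ := Ideal.Quotient.mk_surjective b
        refine ⟨e * s + (1 - e) * t, ?_⟩
        change (Ideal.Quotient.mk _ (e * s + (1 - e) * t), Ideal.Quotient.mk _ (e * s + (1 - e) * t)) = (_, _)
        rw [Prod.mk.injEq, Ideal.Quotient.eq, Ideal.Quotient.eq, Ideal.mem_span_singleton, Ideal.mem_span_singleton]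
        exact ⟨⟨t - s, by ring⟩, ⟨s - t, by ring⟩⟩
    exact ⟨(AlgEquiv.ofBijective G hG).trans
      (AlgEquiv.prodCongr (AlgEquiv.ofBijective F1 hF1) AlgEquiv.refl)⟩

end Groth.Agent.H1.Hensel
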