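import Groth.Agent.Lib.H1_HenselG
set_option autoImplicit false
open Polynomial TensorProduct
universe u v w
namespace Groth.Agent.H1.Hensel

theorem S0519 (R : Type u) [CommRing R]
    [HenselianLocalRing R] (S₁ S₂ : Type u) [CommRing S₁] [CommRing S₂] [Algebra R S₁]
    [Algebra R S₂] [Module.Finite R S₁] [Algebra.Etale R S₁] [Module.Finite R S₂]
    [Algebra.Etale R S₂] :
    Function.Bijective (fun φ : S₁ →ₐ[R] S₂ =>
      Algebra.TensorProduct.map (AlgHom.id (IsLocalRing.ResidueField R) (IsLocalRing.ResidueField R)) φ) := by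
  let κ := IsLocalRing.ResidueField R
  let m := IsLocalRing.maximalIdeal R
  obtain ⟨ι, _, ε, hε, hloc⟩ := exists_decomposition R S₂
  let A : ι → Type u := fun i => S₂ ⧸ Ideal.span {1 - ε i}
  let pr : ∀ i, S₂ →ₐ[R] A i := fun i => Ideal.Quotient.mkₐ R _
  have hprs : ∀ i, Function.Surjective (pr i) := fun i => Ideal.Quotient.mk_surjective
  have hfin : ∀ i, Module.Finite R (A i) := fun i => Module.Finite.of_surjective (pr i).toLinearMap (hprs i)
  have hhens : ∀ i, HenselianLocalRing (A i) := fun i => by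
    have := hloc i
    exact S0505 R (A i)
  let ρ : ∀ i, S₂ →ₐ[R] IsLocalRing.ResidueField (A i) := fun i =>
    (IsScalarTower.toAlgHom R (A i) (IsLocalRing.ResidueField (A i))).comp (pr i)
  have hρ : ∀ i s, ρ i s = IsLocalRing.residue (A i) (pr i s) := fun i s => rfl
  have hm : ∀ i, ∀ r ∈ m, algebraMap R (IsLocalRing.ResidueField (A i)) r = 0 := by
    intro i r hr
    have h1 : Algebra.IsIntegral R (A i) := inferInstance
    have h2 := Ideal.isMaximal_comap_of_isIntegral_of_isMaximal (R := R) (IsLocalRing.maximalIdeal (A i))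
    have h3 := IsLocalRing.eq_maximalIdeal h2
    have h4 : r ∈ (IsLocalRing.maximalIdeal (A i)).comap (algebraMap R (A i)) := by rw [h3]; exact hr
    exact (IsLocalRing.residue_eq_zero_iff _).2 h4
  let c : ∀ i, κ →ₐ[R] IsLocalRing.ResidueField (A i) := fun i =>
    Ideal.Quotient.liftₐ m (Algebra.ofId R _) (fun r hr => hm i r hr)
  let χ : ∀ i, κ ⊗[R] S₂ →ₐ[R] IsLocalRing.ResidueField (A i) := fun i =>
    Algebra.TensorProduct.lift (c i) (ρ i) (fun _ _ => Commute.all _ _)
  have hχ : ∀ i s, χ i ((1 : κ) ⊗ₜ[R] s) = IsLocalRing.residue (A i) (pr i s) := by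
    intro i s
    rw [Algebra.TensorProduct.lift_tmul, map_one, one_mul]; rfl
  have hinj : ∀ s t : S₂, (∀ i, pr i s = pr i t) → s = t := by
    intro s t h
    apply hε.bijective_pi.1
    funext i
    exact h i
  have hsurj : ∀ y : κ ⊗[R] S₂, ∃ s, y = (1 : κ) ⊗ₜ[R] s := by
    intro y
    induction y with
    | zero => exact ⟨0, by simp⟩
    | tmul c a =>
      obtain ⟨r, rfl⟩ := IsLocalRing.residue_surjective c
      refine ⟨r • a, ?_⟩
      rw [← TensorProduct.smul_tmul]
      congr 1
      rw [Algebra.smul_def, mul_one]; rfl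
    | add x y hx hy =>
      obtain ⟨a, rfl⟩ := hx
      obtain ⟨b, rfl⟩ := hy
      exact ⟨a + b, by rw [TensorProduct.tmul_add]⟩
  have key : ∀ s : S₂, (∀ i, IsLocalRing.residue (A i) (pr i s) = 0) → ∀ N : Ideal S₂, N.IsMaximal → s ∈ N := by
    intro s hs N hN
    have h1 : ∃ i, ε i ∉ N := by
      by_contra hcon
      push Not at hcon
      apply hN.ne_top
      rw [Ideal.eq_top_iff_one, ← hε.complete]
      exact Ideal.sum_mem _ fun i _ => hcon i
    obtain ⟨i, hi⟩ := h1
    have h2 : 1 - ε i ∈ N := by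
      have h3 : (1 - ε i) * ε i = 0 := by
        have := (hε.idem i).eq
        linear_combination - this
      rcases hN.isPrime.mem_or_mem (h3 ▸ N.zero_mem : (1 - ε i) * ε i ∈ N) with h | h
      · exact h
      · exact absurd h hi
    have h4 : Ideal.span {1 - ε i} ≤ N := by
      rw [Ideal.span_singleton_le_iff_mem]; exact h2
    have h5 : N ≤ (IsLocalRing.maximalIdeal (A i)).comap (pr i).toRingHom := by
      intro x hx
      rw [Ideal.mem_comap, IsLocalRing.mem_maximalIdeal]
      intro hu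
      obtain ⟨y, hy⟩ := hu.exists_right_inv
      obtain ⟨z, rfl⟩ := hprs i y
      apply hN.ne_top
      rw [Ideal.eq_top_iff_one]
      have h6 : pr i (x * z) = pr i 1 := by rw [map_mul, map_one]; exact hy
      have h7 : x * z - 1 ∈ N := h4 (Ideal.Quotient.eq.1 h6)
      have h8 : x * z ∈ N := N.mul_mem_right _ hx
      have := N.sub_mem h8 h7
      rwa [sub_sub_cancel] at this
    have h6 := hN.eq_of_le (Ideal.IsPrime.comap (f := (pr i).toRingHom) (K := IsLocalRing.maximalIdeal (A i))).ne_top h5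
    rw [h6, Ideal.mem_comap]
    exact (IsLocalRing.residue_eq_zero_iff _).1 (hs i)
  constructor
  · intro φ1 φ2 h
    ext a
    apply hinj
    intro i
    have h1 : ∀ a, (1 : κ) ⊗ₜ[R] φ1 a = (1 : κ) ⊗ₜ[R] φ2 a := by
      intro a
      have := congrArg (fun f => f ((1 : κ) ⊗ₜ[R] a)) h
      simpa using this
    have h2 : (pr i).comp φ1 = (pr i).comp φ2 := by
      refine (etale_lift (S := A i) ((ρ i).comp φ2)).unique ?_ (fun a => rfl)
      intro a
      change IsLocalRing.residue (A i) (pr i (φ1 a)) = ρ i (φ2 a)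
      rw [hρ, ← hχ, ← hχ, h1]
    exact congrArg (fun f => f a) h2
  · intro ψ
    let σ : ∀ i, S₁ →ₐ[R] IsLocalRing.ResidueField (A i) := fun i =>
      (χ i).comp ((ψ.restrictScalars R).comp Algebra.TensorProduct.includeRight)
    have hσ : ∀ i a, σ i a = χ i (ψ ((1 : κ) ⊗ₜ[R] a)) := fun i a => rfl
    choose f hf using fun i => (etale_lift (S := A i) (σ i)).exists
    have hex : ∀ a, ∃ s, ∀ i, pr i s = f i a := by
      intro a
      obtain ⟨s, hs⟩ := hε.bijective_pi.2 (fun i => f i a)
      exact ⟨s, fun i => congrFun hs i⟩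
    choose F hF using hex
    let F' : S₁ →ₐ[R] S₂ :=
      { toFun := F
        map_one' := hinj _ _ fun i => by rw [hF, map_one, map_one]
        map_mul' := fun a b => hinj _ _ fun i => by rw [hF, map_mul, map_mul, hF, hF]
        map_zero' := hinj _ _ fun i => by rw [hF, map_zero, map_zero]
        map_add' := fun a b => hinj _ _ fun i => by rw [hF, map_add, map_add, hF, hF]
        commutes' := fun r => hinj _ _ fun i => by rw [hF, AlgHom.commutes, AlgHom.commutes] }
    have hF' : ∀ a, F' a = F a := fun _ => rfl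
    refine ⟨F', ?_⟩
    have hred : IsReduced (κ ⊗[R] S₂) := Algebra.FormallyUnramified.isReduced_of_field κ _
    have hart : IsArtinianRing (κ ⊗[R] S₂) := isArtinian_of_tower κ inferInstance
    have hzero : ∀ y : κ ⊗[R] S₂, (∀ i, χ i y = 0) → y = 0 := by
      intro y hy
      obtain ⟨s, rfl⟩ := hsurj y
      have h1 : (1 : κ) ⊗ₜ[R] s ∈ Ideal.jacobson (⊥ : Ideal (κ ⊗[R] S₂)) := by
        rw [Ideal.jacobson, Ideal.mem_sInf]
        intro N hN
        have := hN.2
        have hmax : (N.comap (Algebra.TensorProduct.includeRight : S₂ →ₐ[R] κ ⊗[R] S₂).toRingHom).IsMaximal :=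
          Ideal.comap_isMaximal_of_surjective _ (fun y => by
            obtain ⟨s, rfl⟩ := hsurj y
            exact ⟨s, rfl⟩)
        exact key s (fun i => by rw [← hχ]; exact hy i) _ hmax
      obtain ⟨n, hn⟩ := IsArtinianRing.isNilpotent_jacobson_bot (R := κ ⊗[R] S₂)
      have h2 : ((1 : κ) ⊗ₜ[R] s) ^ n = 0 := by
        have := Ideal.pow_mem_pow h1 n
        rw [hn] at this
        exact this
      exact eq_zero_of_pow_eq_zero h2
    apply Algebra.TensorProduct.ext'
    intro x a
    have h3 : (1 : κ) ⊗ₜ[R] F' a = ψ ((1 : κ) ⊗ₜ[R] a) := by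
      rw [← sub_eq_zero]
      apply hzero
      intro i
      rw [map_sub, hχ, hF', hF, hf, hσ, sub_self]
    have h4 : x ⊗ₜ[R] a = x • ((1 : κ) ⊗ₜ[R] a) := by rw [TensorProduct.smul_tmul', smul_eq_mul, mul_one]
    rw [h4, map_smul, map_smul, ← h3]
    simp

end Groth.Agent.H1.Hensel
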