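import Mathlib
set_option autoImplicit false
open Polynomial TensorProduct
universe u v w
namespace Groth.Agent.H1.Hensel

lemma etale_adjoinRoot (R : Type u) [CommRing R] [IsLocalRing R] (P : R[X]) (hP : P.Monic)
    (hsep : (P.map (IsLocalRing.residue R)).Separable) : Algebra.Etale R (AdjoinRoot P) := by
  let m := IsLocalRing.maximalIdeal R
  have hfin : Module.Finite R (AdjoinRoot P) := hP.finite_adjoinRoot
  obtain ⟨v0, u0, huv⟩ := hsep
  obtain ⟨u, rfl⟩ := Polynomial.map_surjective _ IsLocalRing.residue_surjective u0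
  obtain ⟨v, rfl⟩ := Polynomial.map_surjective _ IsLocalRing.residue_surjective v0
  have h1 : ∀ i, (v * P + u * derivative P - 1).coeff i ∈ m := by
    intro i
    have h2 : (v * P + u * derivative P - 1).map (IsLocalRing.residue R) = 0 := by
      rw [Polynomial.map_sub, Polynomial.map_add, Polynomial.map_mul, Polynomial.map_mul, ← derivative_map, huv,
        Polynomial.map_one, sub_self]
    have h3 := congrArg (fun q => q.coeff i) h2
    simp only [coeff_map, coeff_zero] at h3
    exact (IsLocalRing.residue_eq_zero_iff _).1 h3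
  have h2 : (v * P + u * derivative P - 1) ∈ m.map (C : R →+* R[X]) := Ideal.mem_map_C_iff.2 h1
  have h3 : AdjoinRoot.mk P u * AdjoinRoot.mk P (derivative P) - 1 ∈ m.map (algebraMap R (AdjoinRoot P)) := by
    have h4 := Ideal.mem_map_of_mem (AdjoinRoot.mk P) h2
    rw [Ideal.map_map] at h4
    have h5 : AdjoinRoot.mk P (v * P + u * derivative P - 1) =
        AdjoinRoot.mk P u * AdjoinRoot.mk P (derivative P) - 1 := by
      rw [map_sub, map_add, map_mul, map_mul, AdjoinRoot.mk_self, mul_zero, zero_add, map_one]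
    rw [h5] at h4
    exact h4
  have hunit : IsUnit (AdjoinRoot.mk P (derivative P)) := by
    by_contra hnu
    obtain ⟨N, hN, hmem⟩ := exists_max_ideal_of_mem_nonunits hnu
    have hc := Ideal.isMaximal_comap_of_isIntegral_of_isMaximal (R := R) N
    have hc' : N.comap (algebraMap R (AdjoinRoot P)) = m := IsLocalRing.eq_maximalIdeal hc
    have hle : m.map (algebraMap R (AdjoinRoot P)) ≤ N := by
      rw [Ideal.map_le_iff_le_comap, hc']
    have h5 := hle h3
    have h6 : AdjoinRoot.mk P u * AdjoinRoot.mk P (derivative P) ∈ N := N.mul_mem_left _ hmem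
    have h7 := N.sub_mem h6 h5
    rw [sub_sub_cancel] at h7
    exact hN.ne_top ((Ideal.eq_top_iff_one _).2 h7)
  obtain ⟨q0, hq0⟩ := hunit.exists_right_inv
  obtain ⟨q, rfl⟩ := AdjoinRoot.mk_surjective q0
  rw [← map_mul, ← map_one (AdjoinRoot.mk P), AdjoinRoot.mk_eq_mk] at hq0
  obtain ⟨c, hc⟩ := hq0
  let SP : StandardEtalePair R := ⟨P, hP, 1, q, -c, 0, by rw [pow_zero]; linear_combination hc⟩
  have e1 := SP.equivAwayAdjoinRoot
  have hone : IsUnit (AdjoinRoot.mk P 1) := by rw [map_one]; exact isUnit_one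
  have e2 : AdjoinRoot P ≃ₐ[AdjoinRoot P] Localization.Away (AdjoinRoot.mk P 1) :=
    IsLocalization.atUnit _ _ _ hone
  exact Algebra.Etale.of_equiv (e1.trans (e2.restrictScalars R).symm)

lemma lift_field (R : Type u) [CommRing R] [IsLocalRing R] (L : Type u) [Field L] [Algebra (IsLocalRing.ResidueField R) L]
    [Module.Finite (IsLocalRing.ResidueField R) L] [Algebra.IsSeparable (IsLocalRing.ResidueField R) L] :
    ∃ (S : Type u) (_ : CommRing S) (_ : Algebra R S), Module.Finite R S ∧ Algebra.Etale R S ∧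
      Nonempty (TensorProduct R (IsLocalRing.ResidueField R) S ≃ₐ[IsLocalRing.ResidueField R] L) := by
  let κ := IsLocalRing.ResidueField R
  obtain ⟨α, hα⟩ := Field.exists_primitive_element κ L
  have hint : IsIntegral κ α := IsIntegral.of_finite κ α
  have hp : (minpoly κ α).Monic := minpoly.monic hint
  have hsep : (minpoly κ α).Separable := Algebra.IsSeparable.isSeparable κ α
  obtain ⟨P, hPp, hdeg, hP⟩ := lifts_and_natDegree_eq_and_monic (f := IsLocalRing.residue R) (p := minpoly κ α)
    ((lifts_iff_coeff_lifts _).2 fun n => IsLocalRing.residue_surjective _) hp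
  have hfin : Module.Finite R (AdjoinRoot P) := hP.finite_adjoinRoot
  have hfree : Module.Free R (AdjoinRoot P) := hP.free_adjoinRoot
  refine ⟨AdjoinRoot P, inferInstance, inferInstance, hfin, etale_adjoinRoot R P hP (by rw [hPp]; exact hsep), ?_⟩
  let _ : Algebra R L := ((algebraMap κ L).comp (algebraMap R κ)).toAlgebra
  have htow : IsScalarTower R κ L := IsScalarTower.of_algebraMap_eq (fun _ => rfl)
  let θ : AdjoinRoot P →ₐ[R] L := AdjoinRoot.liftAlgHom P (Algebra.ofId R L) α (by
    have h1 : (P.map (IsLocalRing.residue R)).eval₂ (algebraMap κ L) α = 0 := by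
      rw [hPp]; exact minpoly.aeval κ α
    rw [eval₂_map] at h1
    exact h1)
  have hθ : θ (AdjoinRoot.root P) = α := AdjoinRoot.liftAlgHom_root _ _ _ _
  let Θ : κ ⊗[R] AdjoinRoot P →ₐ[κ] L := Algebra.TensorProduct.lift (Algebra.ofId κ L) θ (fun _ _ => Commute.all _ _)
  have hΘ : ∀ a, Θ ((1 : κ) ⊗ₜ[R] a) = θ a := by
    intro a
    rw [Algebra.TensorProduct.lift_tmul, map_one, one_mul]
  have hsurj : Function.Surjective Θ := by
    rw [← AlgHom.range_eq_top, eq_top_iff]
    have h1 : (⊤ : Subalgebra κ L) = Algebra.adjoin κ {α} := by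
      rw [← IntermediateField.adjoin_simple_toSubalgebra_of_isAlgebraic hint.isAlgebraic, hα]; rfl
    rw [h1, Algebra.adjoin_le_iff, Set.singleton_subset_iff]
    exact ⟨(1 : κ) ⊗ₜ[R] AdjoinRoot.root P, by
      change Θ _ = _
      rw [hΘ, hθ]⟩
  have hrank : Module.finrank κ (κ ⊗[R] AdjoinRoot P) = Module.finrank κ L := by
    rw [Module.finrank_baseChange, (AdjoinRoot.powerBasis' hP).finrank, AdjoinRoot.powerBasis'_dim, hdeg,
      (Field.primitive_element_iff_minpoly_natDegree_eq κ α).1 hα]
  have hinj : Function.Injective Θ :=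
    (LinearMap.injective_iff_surjective_of_finrank_eq_finrank (f := Θ.toLinearMap) hrank).2 hsurj
  exact ⟨AlgEquiv.ofBijective Θ ⟨hinj, hsurj⟩⟩

theorem S0518 (R : Type u) [CommRing R]
    [IsLocalRing R] (A : Type u) [CommRing A] [Algebra (IsLocalRing.ResidueField R) A]
    [Module.Finite (IsLocalRing.ResidueField R) A] [Algebra.Etale (IsLocalRing.ResidueField R) A] :
    ∃ (S : Type u) (_ : CommRing S) (_ : Algebra R S), Module.Finite R S ∧ Algebra.Etale R S ∧
      Nonempty (TensorProduct R (IsLocalRing.ResidueField R) S ≃ₐ[IsLocalRing.ResidueField R] A) := by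
  classical
  let κ := IsLocalRing.ResidueField R
  obtain ⟨I, _, Ai, _, _, E, hE⟩ := (Algebra.Etale.iff_exists_algEquiv_prod κ A).1 inferInstance
  have : Fintype I := Fintype.ofFinite I
  have h : ∀ i, ∃ (S : Type u) (_ : CommRing S) (_ : Algebra R S), Module.Finite R S ∧ Algebra.Etale R S ∧
      Nonempty (TensorProduct R κ S ≃ₐ[κ] Ai i) := fun i => by
    have h1 := (hE i).1
    have h2 := (hE i).2
    exact lift_field R (Ai i)
  choose S i1 i2 h3 h4 h5 using h
  refine ⟨∀ i, S i, inferInstance, inferInstance, inferInstance, inferInstance, ?_⟩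
  exact ⟨((Algebra.TensorProduct.piRight R κ κ S).trans
    (AlgEquiv.piCongrRight fun i => (h5 i).some)).trans E.symm⟩

end Groth.Agent.H1.Hensel
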