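import Groth.Agent.Lib.H1_HenselE
set_option autoImplicit false
open Polynomial TensorProduct
universe u v w
namespace Groth.Agent.H1.Hensel

lemma exists_section {K L T : Type u} [Field K] [Field L] [Algebra K L] [Algebra.IsSeparable K L] [CommRing T]
    [HenselianLocalRing T] [Algebra K T] (τ0 : L →+* IsLocalRing.ResidueField T)
    (hτ0 : ∀ c : K, τ0 (algebraMap K L c) = IsLocalRing.residue T (algebraMap K T c)) :
    ∃ s : L →ₐ[K] T, ∀ x, IsLocalRing.residue T (s x) = τ0 x := by
  classical
  let τ : L →ₐ[K] IsLocalRing.ResidueField T := { τ0 with commutes' := hτ0 }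
  have hex : ∀ (F : IntermediateField K L) [FiniteDimensional K F], ∃ f : F →ₐ[K] T,
      (∀ a, IsLocalRing.residue T (f a) = τ a) ∧ ∀ g : F →ₐ[K] T, (∀ a, IsLocalRing.residue T (g a) = τ a) → g = f := by
    intro F _
    have hft : Algebra.FiniteType K F := inferInstance
    have : Algebra.Etale K F := ⟨Algebra.FormallyEtale.of_isSeparable K F, Algebra.FinitePresentation.of_finiteType.1 hft⟩
    obtain ⟨f, hf, hu⟩ := etale_lift (R := K) (S := T) (A := F) (τ.comp F.val)
    exact ⟨f, hf, hu⟩
  choose ℓ hℓ hu using hex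
  have hfd : ∀ x : L, FiniteDimensional K (IntermediateField.adjoin K {x}) := fun x =>
    IntermediateField.adjoin.finiteDimensional (Algebra.IsIntegral.isIntegral x)
  let s : L → T := fun x =>
    @ℓ (IntermediateField.adjoin K {x}) (hfd x) ⟨x, IntermediateField.mem_adjoin_simple_self K x⟩
  have hs : ∀ (F : IntermediateField K L) [FiniteDimensional K F] (x : L) (hx : x ∈ F), ℓ F ⟨x, hx⟩ = s x := by
    intro F _ x hx
    have := hfd x
    have hle : IntermediateField.adjoin K {x} ≤ F := by
      rw [IntermediateField.adjoin_simple_le_iff]; exact hx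
    have h1 : (ℓ F).comp (IntermediateField.inclusion hle) = ℓ (IntermediateField.adjoin K {x}) := by
      apply hu
      intro a
      exact hℓ F _
    exact congrArg (fun f => f ⟨x, IntermediateField.mem_adjoin_simple_self K x⟩) h1
  have hmem : ∀ x y : L, ∃ F : IntermediateField K L, ∃ _ : FiniteDimensional K F, x ∈ F ∧ y ∈ F := by
    intro x y
    have := hfd x
    have := hfd y
    refine ⟨IntermediateField.adjoin K {x} ⊔ IntermediateField.adjoin K {y}, inferInstance, ?_, ?_⟩
    · exact (le_sup_left : _ ≤ IntermediateField.adjoin K {x} ⊔ IntermediateField.adjoin K {y}) (IntermediateField.mem_adjoin_simple_self K x)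
    · exact (le_sup_right : _ ≤ IntermediateField.adjoin K {x} ⊔ IntermediateField.adjoin K {y}) (IntermediateField.mem_adjoin_simple_self K y)
  refine ⟨{ toFun := s
            map_one' := ?_
            map_mul' := ?_
            map_zero' := ?_
            map_add' := ?_
            commutes' := ?_ }, ?_⟩
  · obtain ⟨F, _, h1, -⟩ := hmem 1 1
    rw [← hs F 1 h1]
    exact map_one (ℓ F)
  · intro x y
    obtain ⟨F, _, h1, h2⟩ := hmem x y
    rw [← hs F x h1, ← hs F y h2, ← hs F (x * y) (mul_mem h1 h2), ← map_mul]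
    rfl
  · change s 0 = 0
    obtain ⟨F, _, h1, -⟩ := hmem 0 0
    rw [← hs F 0 h1]
    exact map_zero (ℓ F)
  · intro x y
    change s (x + y) = s x + s y
    obtain ⟨F, _, h1, h2⟩ := hmem x y
    rw [← hs F x h1, ← hs F y h2, ← hs F (x + y) (add_mem h1 h2), ← map_add]
    rfl
  · intro c
    change s (algebraMap K L c) = algebraMap K T c
    obtain ⟨F, _, h1, -⟩ := hmem (algebraMap K L c) 0
    rw [← hs F _ h1]
    exact (ℓ F).commutes c
  · intro x
    exact @hℓ (IntermediateField.adjoin K {x}) (hfd x) ⟨x, IntermediateField.mem_adjoin_simple_self K x⟩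

theorem S0538 (R : Type u) [CommRing R] [IsLocalRing R] (S : Type u) [CommRing S] [IsLocalRing S]
    [Algebra R S] [IsLocalHom (algebraMap R S)] [h : Hensel.IsStrictHenselization R S] :
    Ideal.map (algebraMap R S) (IsLocalRing.maximalIdeal R) = IsLocalRing.maximalIdeal S := by
  let K := IsLocalRing.ResidueField R
  let L := IsLocalRing.ResidueField S
  set I := Ideal.map (algebraMap R S) (IsLocalRing.maximalIdeal R) with hI
  have hle : I ≤ IsLocalRing.maximalIdeal S := by
    rw [hI, Ideal.map_le_iff_le_comap]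
    intro r hr
    rw [Ideal.mem_comap, IsLocalRing.mem_maximalIdeal, mem_nonunits_iff]
    intro hu
    exact (IsLocalRing.mem_maximalIdeal _).1 hr (isUnit_of_map_unit (algebraMap R S) r hu)
  apply le_antisymm hle
  have hhS : HenselianLocalRing S := h.henselian
  have hnt : Nontrivial (S ⧸ I) := Ideal.Quotient.nontrivial_iff.2 (ne_top_of_le_ne_top (IsLocalRing.maximalIdeal.isMaximal S).ne_top hle)
  have hhT : HenselianLocalRing (S ⧸ I) := henselianLocal_of_surjective (Ideal.Quotient.mk I) Ideal.Quotient.mk_surjective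
  let π : S →+* S ⧸ I := Ideal.Quotient.mk I
  have hlπ : IsLocalHom π := isLocalHom_of_le_jacobson_bot I (hle.trans (IsLocalRing.maximalIdeal_le_jacobson ⊥))
  let f : R →+* S ⧸ I := π.comp (algebraMap R S)
  have hlf : IsLocalHom f := inferInstance
  let _ : Algebra K (S ⧸ I) := (Ideal.Quotient.lift (IsLocalRing.maximalIdeal R) f (by
    intro r hr
    exact Ideal.Quotient.eq_zero_iff_mem.2 (Ideal.mem_map_of_mem _ hr))).toAlgebra
  have halg : ∀ r, algebraMap K (S ⧸ I) (IsLocalRing.residue R r) = π (algebraMap R S r) := fun r => rfl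
  let τ : L →+* IsLocalRing.ResidueField (S ⧸ I) := IsLocalRing.ResidueField.map π
  have hsep : IsSepClosure K L := h.isSepClosure
  have hsep' : Algebra.IsSeparable K L := IsSepClosure.isSeparable
  obtain ⟨s, hs⟩ := exists_section (K := K) (L := L) (T := S ⧸ I) τ (fun c => by
    obtain ⟨r, rfl⟩ := IsLocalRing.residue_surjective c
    rfl)
  obtain ⟨g, -, hg⟩ := h.universal (S ⧸ I) f τ (by
    ext c
    obtain ⟨r, rfl⟩ := IsLocalRing.residue_surjective c
    rfl)
  have e1 : π = g := hg π ⟨rfl, fun x => rfl⟩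
  have e2 : s.toRingHom.comp (IsLocalRing.residue S) = g := hg _ ⟨by
    ext r
    exact s.commutes (IsLocalRing.residue R r), fun x => hs _⟩
  intro x hx
  rw [← Ideal.Quotient.eq_zero_iff_mem]
  change π x = 0
  rw [e1, ← e2, RingHom.comp_apply, (IsLocalRing.residue_eq_zero_iff x).2 hx, map_zero]

end Groth.Agent.H1.Hensel
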