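import Mathlib
import Groth.Prelude
set_option autoImplicit false
universe u
namespace Groth.Agent.H1.Inj

variable {R : Type u} [CommRing R]

lemma ext_injective {M E I : Type u} [AddCommGroup M] [Module R M] [AddCommGroup E] [Module R E] [AddCommGroup I] [Module R I]
    (f : M →ₗ[R] E) (hf : InjHull.IsEssentialInj f) (i : M →ₗ[R] I) (hi : Function.Injective i) (α : E →ₗ[R] I)
    (hα : α ∘ₗ f = i) : Function.Injective α := by
  rw [← LinearMap.ker_eq_bot]
  by_contra hne
  apply hf.essential _ hne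
  rw [eq_bot_iff]
  rintro x ⟨hx, y, rfl⟩
  have h1 : i y = 0 := by rw [← hα]; exact hx
  have h2 : y = 0 := hi (by rw [h1, map_zero])
  rw [h2, map_zero]
  exact Submodule.zero_mem _

lemma compl_of_injective {E I : Type u} [AddCommGroup E] [Module R E] [AddCommGroup I] [Module R I]
    (hE : Module.Injective R E) (α : E →ₗ[R] I) (hα : Function.Injective α) :
    ∃ I' : Submodule R I, IsCompl (LinearMap.range α) I' := by
  obtain ⟨β, hβ⟩ := hE.out α hα LinearMap.id
  refine ⟨LinearMap.ker β, ?_⟩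
  constructor
  · rw [Submodule.disjoint_def]
    rintro x ⟨y, rfl⟩ hx
    have h1 : β (α y) = 0 := hx
    rw [hβ] at h1
    have h2 : y = 0 := h1
    rw [h2, map_zero]
  · rw [codisjoint_iff, eq_top_iff]
    intro x _
    rw [Submodule.mem_sup]
    refine ⟨α (β x), ⟨β x, rfl⟩, x - α (β x), ?_, by abel⟩
    rw [LinearMap.mem_ker, map_sub, hβ]
    simp

theorem S0303 (R : Type u) [CommRing R] (M : Type u) [AddCommGroup M] [Module R M] (E : Type u) [AddCommGroup E] [Module R E] (I : Type u) [AddCommGroup I] [Module R I] (f : M →ₗ[R] E) (hf : InjHull.IsInjectiveHull f) (i : M →ₗ[R] I) (hi : Function.Injective i) (hI : Module.Injective R I) : ∃ α : E →ₗ[R] I, Function.Injective α ∧ α ∘ₗ f = i ∧ ∃ I' : Submodule R I, IsCompl (LinearMap.range α) I' := by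
  obtain ⟨α, hα⟩ := hI.out f hf.injective i
  have h1 : α ∘ₗ f = i := by ext x; exact hα x
  have h2 := ext_injective f hf.toIsEssentialInj i hi α h1
  exact ⟨α, h2, h1, compl_of_injective hf.isInjective α h2⟩

theorem S0302 (R : Type u) [CommRing R] (M : Type u) [AddCommGroup M] [Module R M] (E : Type u) [AddCommGroup E] [Module R E] (E' : Type u) [AddCommGroup E'] [Module R E'] (f : M →ₗ[R] E) (hf : InjHull.IsInjectiveHull f) (g : M →ₗ[R] E') (hg : InjHull.IsInjectiveHull g) : ∃ e : E ≃ₗ[R] E', e.toLinearMap ∘ₗ f = g := by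
  obtain ⟨α, h2, h1, I', hI'⟩ := S0303 R M E E' f hf g hg.injective hg.isInjective
  have h3 : I' = ⊥ := by
    by_contra hne
    apply hg.essential I' hne
    rw [eq_bot_iff]
    rintro x ⟨hx, y, rfl⟩
    have h4 : g y ∈ LinearMap.range α := ⟨f y, by rw [← h1]; rfl⟩
    exact (Submodule.mem_bot R).2 (Submodule.disjoint_def.1 hI'.disjoint _ h4 hx)
  have h4 : LinearMap.range α = ⊤ := by
    have := hI'.sup_eq_top
    rwa [h3, sup_bot_eq] at this
  exact ⟨LinearEquiv.ofBijective α ⟨h2, LinearMap.range_eq_top.1 h4⟩, by ext x; exact LinearMap.congr_fun h1 x⟩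

/-- an injective submodule (image) is absorbed by essentiality: direct factors of injectives are injective -/
lemma injective_of_retract {E I : Type u} [AddCommGroup E] [Module R E] [AddCommGroup I] [Module R I]
    (hI : Module.Injective R I) (s : E →ₗ[R] I) (r : I →ₗ[R] E) (h : r ∘ₗ s = LinearMap.id) : Module.Injective R E := by
  constructor
  intro X Y _ _ _ _ f hf g
  obtain ⟨γ, hγ⟩ := hI.out f hf (s ∘ₗ g)
  refine ⟨r ∘ₗ γ, fun x => ?_⟩
  rw [LinearMap.comp_apply, hγ]
  exact LinearMap.congr_fun h (g x)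

end Groth.Agent.H1.Inj
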