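import Mathlib
set_option autoImplicit false
universe u
namespace Groth.Agent.H1.Inj

theorem S0300 (R : Type u) [CommRing R] [IsNoetherianRing R] {ι : Type u} (E : ι → Type u) [∀ i, AddCommGroup (E i)] [∀ i, Module R (E i)] (hE : ∀ i, Module.Injective R (E i)) : Module.Injective R (DirectSum ι E) := by
  classical
  rw [← Module.Baer.iff_injective]
  intro I g
  have hfin : Module.Finite R I := inferInstance
  obtain ⟨t, ht⟩ := hfin.fg_top
  let s : Finset ι := t.biUnion (fun x => DFinsupp.support (g x))
  have hs : ∀ x : I, ∀ i, i ∉ s → (g x) i = 0 := by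
    intro x i hi
    have hx : x ∈ Submodule.span R (t : Set I) := by rw [ht]; trivial
    induction hx using Submodule.span_induction with
    | mem x hx =>
      by_contra hne
      apply hi
      rw [Finset.mem_biUnion]
      exact ⟨x, hx, (DFinsupp.mem_support_iff).2 hne⟩
    | zero => rw [map_zero]; rfl
    | add x y _ _ hx hy => rw [map_add, DirectSum.add_apply, hx, hy, add_zero]
    | smul a x _ hx => rw [map_smul, DirectSum.smul_apply, hx, smul_zero]
  have hex : ∀ i, ∃ h : R →ₗ[R] E i, ∀ (x : R) (mem : x ∈ I), h x = (g ⟨x, mem⟩) i := by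
    intro i
    exact (Module.Baer.of_injective (hE i)) I (DirectSum.component R ι E i ∘ₗ g)
  choose h hh using hex
  refine ⟨∑ i ∈ s, DirectSum.lof R ι E i ∘ₗ h i, ?_⟩
  intro x mem
  rw [LinearMap.sum_apply]
  apply DFinsupp.ext
  intro j
  have h1 : (∑ i ∈ s, (DirectSum.lof R ι E i ∘ₗ h i) x) j = ∑ i ∈ s, ((DirectSum.lof R ι E i ∘ₗ h i) x) j :=
    DFinsupp.finsetSum_apply s _ j
  rw [h1]
  by_cases hj : j ∈ s
  · rw [Finset.sum_eq_single j]
    · change DirectSum.lof R ι E j (h j x) j = _
      rw [DirectSum.lof_apply, hh j x mem]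
    · intro i _ hij
      change DirectSum.lof R ι E i (h i x) j = 0
      rw [DirectSum.lof_eq_of, DirectSum.of_eq_of_ne _ _ _ (by first | exact hij | exact hij.symm)]
    · intro hcon; exact absurd hj hcon
  · rw [hs _ j hj]
    apply Finset.sum_eq_zero
    intro i hi
    have hij : i ≠ j := by rintro rfl; exact hj hi
    change DirectSum.lof R ι E i (h i x) j = 0
    rw [DirectSum.lof_eq_of, DirectSum.of_eq_of_ne _ _ _ (by first | exact hij | exact hij.symm)]

end Groth.Agent.H1.Inj
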