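import Groth.Agent.Lib.H1_Inj
set_option autoImplicit false
universe u
open CategoryTheory
namespace Groth.Agent.H1.Inj

lemma exists_embedding (R : Type u) [CommRing R] (M : Type u) [AddCommGroup M] [Module R M] :
    ∃ (I : Type u) (_ : AddCommGroup I) (_ : Module R I) (i : M →ₗ[R] I), Function.Injective i ∧ Module.Injective R I := by
  let MM : ModuleCat.{u} R := ModuleCat.of R M
  let J : ModuleCat.{u} R := Injective.under MM
  let j : MM ⟶ J := Injective.ι MM
  have hj : Mono j := inferInstanceAs (Mono (Injective.ι MM))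
  have hJ : CategoryTheory.Injective J := inferInstanceAs (CategoryTheory.Injective (Injective.under MM))
  refine ⟨J, inferInstance, inferInstance, j.hom, ?_, ?_⟩
  · exact (ModuleCat.mono_iff_injective _).1 hj
  · exact (Module.injective_iff_injective_object R J).2 hJ

/-- maximal submodule with trivial intersection -/
lemma exists_max_disjoint {R : Type u} [CommRing R] {I : Type u} [AddCommGroup I] [Module R I] (N : Submodule R I) :
    ∃ C : Submodule R I, Disjoint C N ∧ ∀ D : Submodule R I, C ≤ D → Disjoint D N → D = C := by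
  obtain ⟨C, hC⟩ := zorn_le₀ {C : Submodule R I | Disjoint C N} (by
    intro c hc hch
    rcases c.eq_empty_or_nonempty with rfl | hne
    · exact ⟨⊥, disjoint_bot_left, by simp⟩
    refine ⟨sSup c, ?_, fun z hz => le_sSup hz⟩
    change Disjoint (sSup c) N
    rw [Submodule.disjoint_def]
    intro x hx hxN
    rw [Submodule.mem_sSup_of_directed hne hch.directedOn] at hx
    obtain ⟨D, hD, hxD⟩ := hx
    exact Submodule.disjoint_def.1 (hc hD) x hxD hxN)
  exact ⟨C, hC.1, fun D hCD hD => le_antisymm (hC.2 hD hCD) hCD⟩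

def Ess {R : Type u} [CommRing R] {I : Type u} [AddCommGroup I] [Module R I] (P N : Submodule R I) : Prop :=
  P ≤ N ∧ ∀ x ∈ N, x ≠ 0 → ∃ r : R, r • x ∈ P ∧ r • x ≠ 0

lemma exists_max_ess {R : Type u} [CommRing R] {I : Type u} [AddCommGroup I] [Module R I] (P : Submodule R I) :
    ∃ N : Submodule R I, Ess P N ∧ ∀ D : Submodule R I, N ≤ D → Ess P D → D = N := by
  have hP : Ess P P := ⟨le_rfl, fun x hx hx0 => ⟨1, by simpa using hx, by simpa using hx0⟩⟩
  obtain ⟨N, hN⟩ := zorn_le₀ {N : Submodule R I | Ess P N} (by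
    intro c hc hch
    rcases c.eq_empty_or_nonempty with rfl | hne
    · exact ⟨P, hP, by simp⟩
    refine ⟨sSup c, ⟨?_, ?_⟩, fun z hz => le_sSup hz⟩
    · obtain ⟨D, hD⟩ := hne
      exact (hc hD).1.trans (le_sSup hD)
    · intro x hx hx0
      rw [Submodule.mem_sSup_of_directed hne hch.directedOn] at hx
      obtain ⟨D, hD, hxD⟩ := hx
      exact (hc hD).2 x hxD hx0)
  exact ⟨N, hN.1, fun D hCD hD => le_antisymm (hN.2 hD hCD) hCD⟩

lemma injective_of_max {R : Type u} [CommRing R] {I : Type u} [AddCommGroup I] [Module R I] (hI : Module.Injective R I)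
    (P N : Submodule R I) (hN : Ess P N) (hmax : ∀ D : Submodule R I, N ≤ D → Ess P D → D = N) :
    Module.Injective R N := by
  obtain ⟨C, hC, hCmax⟩ := exists_max_disjoint N
  let q : N →ₗ[R] I ⧸ C := C.mkQ ∘ₗ N.subtype
  have hq : Function.Injective q := by
    rw [← LinearMap.ker_eq_bot, eq_bot_iff]
    intro x hx
    have h1 : (x : I) ∈ C := by
      rw [LinearMap.mem_ker] at hx
      exact (Submodule.Quotient.mk_eq_zero C).1 hx
    rw [Submodule.mem_bot]
    exact Subtype.ext (Submodule.disjoint_def.1 hC _ h1 x.2)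
  obtain ⟨θ, hθ⟩ := hI.out q hq N.subtype
  -- every nonzero element of `I ⧸ C` has a nonzero multiple in the image of `N`
  have hess : ∀ y : I ⧸ C, y ≠ 0 → ∃ (r : R) (n : N), r • y = q n ∧ n ≠ 0 := by
    intro y hy
    obtain ⟨x, rfl⟩ := C.mkQ_surjective y
    have hx : x ∉ C := fun h => hy ((Submodule.Quotient.mk_eq_zero C).2 h)
    have h1 : ¬ Disjoint (C ⊔ Submodule.span R {x}) N := by
      intro hd
      have := hCmax _ le_sup_left hd
      apply hx
      rw [← this]
      exact Submodule.mem_sup_right (Submodule.mem_span_singleton_self x)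
    rw [Submodule.disjoint_def] at h1
    push Not at h1
    obtain ⟨z, hz, hzN, hz0⟩ := h1
    rw [Submodule.mem_sup] at hz
    obtain ⟨c, hc, w, hw, rfl⟩ := hz
    rw [Submodule.mem_span_singleton] at hw
    obtain ⟨r, rfl⟩ := hw
    refine ⟨r, ⟨c + r • x, hzN⟩, ?_, fun h => hz0 (congrArg Subtype.val h)⟩
    change r • C.mkQ x = C.mkQ (c + r • x)
    rw [map_add, map_smul, (Submodule.Quotient.mk_eq_zero C).2 hc |> fun h : C.mkQ c = 0 => h, zero_add]
  have hθinj : Function.Injective θ := by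
    rw [injective_iff_map_eq_zero]
    intro y hy
    by_contra hy0
    obtain ⟨r, n, hrn, hn0⟩ := hess y hy0
    have h1 := hθ n
    rw [← hrn, map_smul, hy, smul_zero] at h1
    exact hn0 (Subtype.ext h1.symm)
  have hrange : LinearMap.range θ = N := by
    apply hmax
    · intro n hn
      exact ⟨q ⟨n, hn⟩, hθ ⟨n, hn⟩⟩
    · refine ⟨fun p hp => ⟨q ⟨p, hN.1 hp⟩, hθ ⟨p, hN.1 hp⟩⟩, ?_⟩
      rintro _ ⟨y, rfl⟩ hy0
      have hy : y ≠ 0 := by rintro rfl; exact hy0 (map_zero θ)
      obtain ⟨r, n, hrn, hn0⟩ := hess y hy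
      have hn0' : (n : I) ≠ 0 := fun h => hn0 (Subtype.ext h)
      obtain ⟨r', h1, h2⟩ := hN.2 n n.2 hn0'
      have h3 : (r' * r) • θ y = r' • (n : I) := by
        rw [mul_smul, ← map_smul, hrn, hθ]; rfl
      exact ⟨r' * r, by rw [h3]; exact h1, by rw [h3]; exact h2⟩
  -- retraction
  let r : I →ₗ[R] N := (θ ∘ₗ C.mkQ).codRestrict N (fun x => by rw [← hrange]; exact ⟨_, rfl⟩)
  refine injective_of_retract hI N.subtype r ?_
  ext n
  exact hθ n

theorem S0299 (R : Type u) [CommRing R] (M : Type u) [AddCommGroup M] [Module R M] : ∃ (E : Type u) (_ : AddCommGroup E) (_ : Module R E) (f : M →ₗ[R] E), InjHull.IsInjectiveHull f := by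
  obtain ⟨I, _, _, i, hi, hI⟩ := exists_embedding R M
  obtain ⟨N, hN, hmax⟩ := exists_max_ess (LinearMap.range i)
  have hinj := injective_of_max hI _ N hN hmax
  refine ⟨N, inferInstance, inferInstance, i.codRestrict N (fun x => hN.1 ⟨x, rfl⟩), ⟨⟨?_, ?_⟩, hinj⟩⟩
  · intro x y h
    exact hi (congrArg Subtype.val h)
  · intro K hK hbot
    obtain ⟨x, hxK, hx0⟩ := Submodule.exists_mem_ne_zero_of_ne_bot hK
    have hx0' : (x : I) ≠ 0 := fun h => hx0 (Subtype.ext h)
    obtain ⟨r, ⟨m, hm⟩, h2⟩ := hN.2 x x.2 hx0'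
    have h3 : r • x ∈ K ⊓ LinearMap.range (i.codRestrict N (fun x => hN.1 ⟨x, rfl⟩)) :=
      ⟨K.smul_mem r hxK, ⟨m, Subtype.ext hm⟩⟩
    rw [hbot, Submodule.mem_bot] at h3
    exact h2 (congrArg Subtype.val h3)

end Groth.Agent.H1.Inj
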