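import Groth.Agent.Lib.H1_InjC
set_option autoImplicit false
universe u
open CategoryTheory
namespace Groth.Agent.H1.Inj

theorem S0304 (R : Type u) [CommRing R] (E : Type u) [AddCommGroup E] [Module R E] (hE : InjHull.IsIndecomposable R E) (hinj : Module.Injective R E) : (∀ N N' : Submodule R E, N ≠ ⊥ → N' ≠ ⊥ → N ⊓ N' ≠ ⊥) ∧ ∃ p : Ideal R, p.IsPrime ∧ (p : Set R) = {r : R | ∃ x : E, x ≠ 0 ∧ r • x = 0} := by
  have key : ∀ N : Submodule R E, N ≠ ⊥ → ∀ x : E, x ≠ 0 → ∃ r : R, r • x ∈ N ∧ r • x ≠ 0 := by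
    intro N hN x hx
    obtain ⟨D, hD, hmax⟩ := exists_max_ess N
    have hDi := injective_of_max hinj N D hD hmax
    obtain ⟨I', hI'⟩ := compl_of_injective hDi D.subtype D.injective_subtype
    rw [Submodule.range_subtype] at hI'
    rcases hE.2 D I' hI' with h | h
    · exact absurd (le_bot_iff.1 (h ▸ hD.1)) hN
    · have htop : D = ⊤ := by
        have := hI'.sup_eq_top
        rwa [h, sup_bot_eq] at this
      exact hD.2 x (by rw [htop]; trivial) hx
  have h1 : ∀ N N' : Submodule R E, N ≠ ⊥ → N' ≠ ⊥ → N ⊓ N' ≠ ⊥ := by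
    intro N N' hN hN' hbot
    obtain ⟨x, hx, hx0⟩ := Submodule.exists_mem_ne_zero_of_ne_bot hN'
    obtain ⟨r, h1, h2⟩ := key N hN x hx0
    have h3 : r • x ∈ N ⊓ N' := ⟨h1, N'.smul_mem r hx⟩
    rw [hbot, Submodule.mem_bot] at h3
    exact h2 h3
  refine ⟨h1, ?_⟩
  have hnt : Nontrivial E := hE.1
  let p : Ideal R :=
    { carrier := {r : R | ∃ x : E, x ≠ 0 ∧ r • x = 0}
      zero_mem' := by
        obtain ⟨x, hx⟩ := exists_ne (0 : E)
        exact ⟨x, hx, zero_smul _ _⟩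
      add_mem' := by
        rintro r s ⟨x, hx, hrx⟩ ⟨y, hy, hsy⟩
        obtain ⟨a, ha, ha0⟩ := key (Submodule.span R {x}) (by rwa [Ne, Submodule.span_singleton_eq_bot]) y hy
        rw [Submodule.mem_span_singleton] at ha
        obtain ⟨b, hb⟩ := ha
        refine ⟨a • y, ha0, ?_⟩
        rw [add_smul, smul_comm s a y, hsy, smul_zero, add_zero, ← hb, smul_comm r b x, hrx, smul_zero]
      smul_mem' := by
        rintro c r ⟨x, hx, hrx⟩
        exact ⟨x, hx, by rw [smul_eq_mul, mul_smul, hrx, smul_zero]⟩ }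
  refine ⟨p, ?_, rfl⟩
  refine Ideal.isPrime_iff.2 ⟨?_, ?_⟩
  · rw [Ne, Ideal.eq_top_iff_one]
    rintro ⟨x, hx, h⟩
    exact hx (by rwa [one_smul] at h)
  · rintro r s ⟨x, hx, h⟩
    by_cases hs : s • x = 0
    · exact Or.inr ⟨x, hx, hs⟩
    · exact Or.inl ⟨s • x, hs, by rw [← mul_smul]; exact h⟩

end Groth.Agent.H1.Inj
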