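import Groth.Agent.Lib.H1_InjC
set_option autoImplicit false
universe u
open CategoryTheory
namespace Groth.Agent.H1.Inj

lemma torsion_mono {R : Type u} [CommRing R] {I : Type u} [AddCommGroup I] [Module R I] (J : Ideal R) :
    Monotone (fun n : ℕ => Submodule.torsionBySet R I ((J ^ n : Ideal R) : Set R)) := by
  intro a b hab
  exact Submodule.torsionBySet_le_torsionBySet_of_subset (Ideal.pow_le_pow_right hab)

lemma mem_tors {R : Type u} [CommRing R] {I : Type u} [AddCommGroup I] [Module R I] (J : Ideal R) (x : I) :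
    x ∈ (⨆ n : ℕ, Submodule.torsionBySet R I ((J ^ n : Ideal R) : Set R)) ↔ ∃ n : ℕ, ∀ r ∈ J ^ n, r • x = 0 := by
  rw [Submodule.mem_iSup_of_directed _ (torsion_mono J).directed_le]
  constructor
  · rintro ⟨n, hn⟩
    rw [Submodule.mem_torsionBySet_iff] at hn
    exact ⟨n, fun r hr => hn ⟨r, hr⟩⟩
  · rintro ⟨n, hn⟩
    refine ⟨n, ?_⟩
    rw [Submodule.mem_torsionBySet_iff]
    rintro ⟨r, hr⟩
    exact hn r hr

lemma tors_max {R : Type u} [CommRing R] [IsNoetherianRing R] {I : Type u} [AddCommGroup I] [Module R I] (J : Ideal R)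
    (D : Submodule R I) (hD : Ess (⨆ n : ℕ, Submodule.torsionBySet R I ((J ^ n : Ideal R) : Set R)) D) :
    D = (⨆ n : ℕ, Submodule.torsionBySet R I ((J ^ n : Ideal R) : Set R)) := by
  apply le_antisymm _ hD.1
  intro x hx
  set Γ := (⨆ n : ℕ, Submodule.torsionBySet R I ((J ^ n : Ideal R) : Set R)) with hΓ
  let M : Submodule R I := Submodule.span R {x}
  let N : Submodule R M := Γ.comap M.subtype
  have hMfin : Module.Finite R M := Module.Finite.span_singleton R x
  -- `N` is finitely generated so killed by a power of `J`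
  have hNfg : N.FG := IsNoetherian.noetherian N
  have hkill : ∃ k : ℕ, ∀ r ∈ J ^ k, ∀ y ∈ N, r • y = 0 := by
    obtain ⟨t, ht⟩ := hNfg
    have hch : ∀ y : M, ∃ k : ℕ, y ∈ N → ∀ r ∈ J ^ k, r • y = 0 := by
      intro y
      by_cases hy : y ∈ N
      · obtain ⟨k, hk⟩ := (mem_tors J (y : I)).1 hy
        exact ⟨k, fun _ r hr => Subtype.ext (hk r hr)⟩
      · exact ⟨0, fun h => absurd h hy⟩
    choose k hk using hch
    refine ⟨t.sup k, fun r hr y hy => ?_⟩
    rw [← ht] at hy
    induction hy using Submodule.span_induction with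
    | mem y hy =>
      exact hk y (by rw [← ht]; exact Submodule.subset_span hy) r (Ideal.pow_le_pow_right (Finset.le_sup hy) hr)
    | zero => rw [smul_zero]
    | add a b _ _ ha hb => rw [smul_add, ha, hb, add_zero]
    | smul c a _ ha => rw [smul_comm, ha, smul_zero]
  obtain ⟨k, hk⟩ := hkill
  obtain ⟨c, hc⟩ := Ideal.exists_pow_inf_eq_pow_smul J N
  have h1 : J ^ (c + k) • (⊤ : Submodule R M) ⊓ N = ⊥ := by
    rw [hc (c + k) (by omega), eq_bot_iff, show c + k - c = k by omega]
    refine Submodule.smul_le.2 ?_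
    intro r hr y hy
    rw [Submodule.mem_bot]
    exact hk r hr y hy.2
  rw [mem_tors]
  refine ⟨c + k, fun r hr => ?_⟩
  by_contra hne
  obtain ⟨s, hs1, hs2⟩ := hD.2 (r • x) (D.smul_mem r hx) hne
  have hxM : x ∈ M := Submodule.mem_span_singleton_self x
  have h2 : s • r • (⟨x, hxM⟩ : M) ∈ J ^ (c + k) • (⊤ : Submodule R M) ⊓ N := by
    refine ⟨Submodule.smul_mem _ s (Submodule.smul_mem_smul hr trivial), ?_⟩
    exact hs1
  rw [h1, Submodule.mem_bot] at h2
  exact hs2 (congrArg Subtype.val h2)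

theorem S0301 (R : Type u) [CommRing R] [IsNoetherianRing R] (I : Type u) [AddCommGroup I] [Module R I] (hI : Module.Injective R I) (J : Ideal R) : Module.Injective R ↥(⨆ n : ℕ, Submodule.torsionBySet R I ((J ^ n : Ideal R) : Set R)) := by
  have hP : Ess (⨆ n : ℕ, Submodule.torsionBySet R I ((J ^ n : Ideal R) : Set R)) (⨆ n : ℕ, Submodule.torsionBySet R I ((J ^ n : Ideal R) : Set R)) :=
    ⟨le_rfl, fun x hx hx0 => ⟨1, by simpa using hx, by simpa using hx0⟩⟩
  exact injective_of_max hI _ _ hP (fun D _ hD => tors_max J D hD)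

end Groth.Agent.H1.Inj
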