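import Groth.Agent.Lib.H1_InjE
set_option autoImplicit false
universe u
open CategoryTheory
namespace Groth.Agent.H1.Inj

theorem tors_top (R : Type u) [CommRing R] [IsLocalRing R] [IsNoetherianRing R] (E : Type u) [AddCommGroup E] [Module R E] (f : IsLocalRing.ResidueField R →ₗ[R] E) (hf : InjHull.IsInjectiveHull f) :
    ∀ x : E, ∃ n : ℕ, ∀ r ∈ IsLocalRing.maximalIdeal R ^ n, r • x = 0 := by
  have hΓ := S0301 R E hf.isInjective (IsLocalRing.maximalIdeal R)
  set Γ := (⨆ n : ℕ, Submodule.torsionBySet R E ((IsLocalRing.maximalIdeal R ^ n : Ideal R) : Set R)) with hΓd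
  obtain ⟨C, hC⟩ := compl_of_injective hΓ Γ.subtype Γ.injective_subtype
  rw [Submodule.range_subtype] at hC
  have h1 : LinearMap.range f ≤ Γ := by
    rintro _ ⟨y, rfl⟩
    rw [hΓd, mem_tors]
    refine ⟨1, fun r hr => ?_⟩
    rw [pow_one] at hr
    rw [← map_smul]
    have : r • y = 0 := by
      rw [Algebra.smul_def]
      have h2 : algebraMap R (IsLocalRing.ResidueField R) r = 0 := (IsLocalRing.residue_eq_zero_iff r).2 hr
      rw [h2, zero_mul]
    rw [this, map_zero]
  have h2 : C = ⊥ := by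
    by_contra hne
    apply hf.essential C hne
    rw [eq_bot_iff]
    rintro x ⟨hx1, hx2⟩
    exact (Submodule.mem_bot R).2 (Submodule.disjoint_def.1 hC.disjoint x (h1 hx2) hx1)
  have h3 : Γ = ⊤ := by
    have := hC.sup_eq_top
    rwa [h2, sup_bot_eq] at this
  intro x
  have hx : x ∈ Γ := by rw [h3]; trivial
  rw [hΓd, mem_tors] at hx
  exact hx

theorem S0311 (R : Type u) [CommRing R] [IsLocalRing R] [IsNoetherianRing R] (E : Type u) [AddCommGroup E] [Module R E] (f : IsLocalRing.ResidueField R →ₗ[R] E) (hf : InjHull.IsInjectiveHull f) : LocCoh.IsPowerTorsion (IsLocalRing.maximalIdeal R) E := by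
  intro x
  obtain ⟨n, hn⟩ := tors_top R E f hf x
  exact ⟨n, hn⟩

end Groth.Agent.H1.Inj
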