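import Groth.Agent.Lib.H1_Inj
set_option autoImplicit false
universe u
open CategoryTheory
namespace Groth.Agent.H1.Inj

theorem S0310 (R : Type u) [CommRing R] [IsLocalRing R] (E : Type u) [AddCommGroup E] [Module R E] (f : IsLocalRing.ResidueField R →ₗ[R] E) (hf : InjHull.IsInjectiveHull f) (M : Type u) [AddCommGroup M] [Module R M] (hM : LocCoh.IsPowerTorsion (IsLocalRing.maximalIdeal R) M) (n : ℕ) [Module.Finite (R ⧸ IsLocalRing.maximalIdeal R) ↥(LocCoh.torsionBy (IsLocalRing.maximalIdeal R) M)] (hn : Module.finrank (R ⧸ IsLocalRing.maximalIdeal R) ↥(LocCoh.torsionBy (IsLocalRing.maximalIdeal R) M) = n) : ∃ g : M →ₗ[R] (Fin n → E), Function.Injective g := by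
  classical
  let S := LocCoh.torsionBy (IsLocalRing.maximalIdeal R) M
  have hfree : Module.Free (R ⧸ IsLocalRing.maximalIdeal R) S := by
    let _ := Ideal.Quotient.field (IsLocalRing.maximalIdeal R)
    infer_instance
  let e : S ≃ₗ[R ⧸ IsLocalRing.maximalIdeal R] (Fin n → R ⧸ IsLocalRing.maximalIdeal R) :=
    (Module.finBasisOfFinrankEq (R ⧸ IsLocalRing.maximalIdeal R) S hn).equivFun
  let e' : S →ₗ[R] (Fin n → R ⧸ IsLocalRing.maximalIdeal R) := e.toLinearMap.restrictScalars R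
  let f' : (R ⧸ IsLocalRing.maximalIdeal R) →ₗ[R] E := f
  let φ : Fin n → S →ₗ[R] E := fun j => f' ∘ₗ (LinearMap.proj j) ∘ₗ e'
  have hex : ∀ j, ∃ ψ : M →ₗ[R] E, ∀ x : S, ψ x = φ j x := fun j =>
    hf.isInjective.out S.subtype S.injective_subtype (φ j)
  choose ψ hψ using hex
  refine ⟨LinearMap.pi ψ, ?_⟩
  have hS : ∀ x : M, x ∈ S → (∀ j, ψ j x = 0) → x = 0 := by
    intro x hx h
    have h1 : e' ⟨x, hx⟩ = 0 := by
      funext j
      have h2 : φ j ⟨x, hx⟩ = 0 := by rw [← hψ]; exact h j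
      exact hf.injective (h2.trans (map_zero f).symm)
    have h3 : e ⟨x, hx⟩ = 0 := h1
    have h4 : (⟨x, hx⟩ : S) = 0 := by rwa [LinearEquiv.map_eq_zero_iff] at h3
    exact congrArg Subtype.val h4
  rw [injective_iff_map_eq_zero]
  intro x hx
  have hx' : ∀ j, ψ j x = 0 := fun j => congrFun hx j
  by_contra hx0
  let P : ℕ → Prop := fun k => ∀ a ∈ IsLocalRing.maximalIdeal R ^ k, a • x = 0
  have hP : ∃ k, P k := hM x
  have h0 : Nat.find hP ≠ 0 := by
    intro h
    have := Nat.find_spec hP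
    rw [h] at this
    have h1 := this 1 (by simp)
    exact hx0 (by simpa using h1)
  obtain ⟨k, hk⟩ := Nat.exists_eq_succ_of_ne_zero h0
  have h1 : ¬ P k := Nat.find_min hP (by omega)
  have h2 : P (k + 1) := by have := Nat.find_spec hP; rwa [hk] at this
  simp only [P] at h1
  push Not at h1
  obtain ⟨a, ha, hax⟩ := h1
  apply hax
  apply hS
  · rw [Submodule.mem_torsionBySet_iff]
    rintro ⟨r, hr⟩
    change r • a • x = 0
    rw [← mul_smul]
    apply h2
    rw [pow_succ, mul_comm r a]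
    exact Ideal.mul_mem_mul ha hr
  · intro j
    rw [map_smul, hx' j, smul_zero]

end Groth.Agent.H1.Inj
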