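import Groth.Agent.Lib.H1_Inj
set_option autoImplicit false
universe u
namespace Groth.Agent.H1.Inj

theorem S0305 (R : Type u) [CommRing R] (p : Ideal R) [p.IsPrime] (E : Type u) [AddCommGroup E] [Module R E] (f : (R ⧸ p) →ₗ[R] E) (hf : InjHull.IsInjectiveHull f) : InjHull.IsIndecomposable R E ∧ ∃ g : p.ResidueField →ₗ[R] E, InjHull.IsInjectiveHull g := by
  have hmul : ∀ r s : R, f (Ideal.Quotient.mk p (r * s)) = r • f (Ideal.Quotient.mk p s) := by
    intro r s
    rw [← map_smul]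
    congr 1
  have hz : ∀ r : R, f (Ideal.Quotient.mk p r) = 0 ↔ r ∈ p := by
    intro r
    rw [← Ideal.Quotient.eq_zero_iff_mem]
    constructor
    · intro h; exact hf.injective (h.trans (map_zero f).symm)
    · intro h; rw [h, map_zero]
  refine ⟨⟨?_, ?_⟩, ?_⟩
  · have h1 : f (Ideal.Quotient.mk p 1) ≠ 0 := fun h =>
      (Ideal.IsPrime.ne_top ‹p.IsPrime›) ((Ideal.eq_top_iff_one p).2 ((hz 1).1 h))
    exact ⟨⟨_, _, h1⟩⟩
  · intro N N' hN
    by_contra hcon
    push Not at hcon
    obtain ⟨h1, h2⟩ := hcon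
    obtain ⟨x, ⟨hx1, y, rfl⟩, hx0⟩ := Submodule.exists_mem_ne_zero_of_ne_bot (hf.essential N h1)
    obtain ⟨x', ⟨hx1', y', rfl⟩, hx0'⟩ := Submodule.exists_mem_ne_zero_of_ne_bot (hf.essential N' h2)
    obtain ⟨a, rfl⟩ := Ideal.Quotient.mk_surjective y
    obtain ⟨b, rfl⟩ := Ideal.Quotient.mk_surjective y'
    have h3 : f (Ideal.Quotient.mk p (a * b)) ∈ N' := by rw [hmul]; exact N'.smul_mem a hx1'
    have h4 : f (Ideal.Quotient.mk p (a * b)) ∈ N := by rw [mul_comm, hmul]; exact N.smul_mem b hx1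
    have h5 := Submodule.disjoint_def.1 hN.disjoint _ h4 h3
    rw [hz] at h5
    rcases (inferInstance : p.IsPrime).mem_or_mem h5 with h | h
    · exact hx0 ((hz a).2 h)
    · exact hx0' ((hz b).2 h)
  · let i : (R ⧸ p) →ₗ[R] p.ResidueField := (IsScalarTower.toAlgHom R (R ⧸ p) p.ResidueField).toLinearMap
    have hi : Function.Injective i := IsFractionRing.injective (R ⧸ p) p.ResidueField
    obtain ⟨g, hg⟩ := hf.isInjective.out i hi f
    have hginj : Function.Injective g := by
      rw [injective_iff_map_eq_zero]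
      intro x hx
      obtain ⟨a, b, hb, rfl⟩ := IsFractionRing.div_surjective (A := R ⧸ p) x
      obtain ⟨a, rfl⟩ := Ideal.Quotient.mk_surjective a
      obtain ⟨b, rfl⟩ := Ideal.Quotient.mk_surjective b
      have hb0 : algebraMap (R ⧸ p) p.ResidueField (Ideal.Quotient.mk p b) ≠ 0 := by
        rw [Ne, map_eq_zero_iff _ (IsFractionRing.injective (R ⧸ p) p.ResidueField)]
        exact nonZeroDivisors.ne_zero hb
      have h1 : b • (algebraMap (R ⧸ p) p.ResidueField (Ideal.Quotient.mk p a) / algebraMap (R ⧸ p) p.ResidueField (Ideal.Quotient.mk p b)) = i (Ideal.Quotient.mk p a) := by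
        rw [Algebra.smul_def]
        have : algebraMap R p.ResidueField b = algebraMap (R ⧸ p) p.ResidueField (Ideal.Quotient.mk p b) := rfl
        rw [this, mul_div_cancel₀ _ hb0]
        rfl
      have h2 : g (i (Ideal.Quotient.mk p a)) = 0 := by
        rw [← h1, map_smul, hx, smul_zero]
      rw [hg, hz, ← Ideal.Quotient.eq_zero_iff_mem] at h2
      rw [h2, map_zero, zero_div]
    refine ⟨g, ⟨⟨hginj, ?_⟩, hf.isInjective⟩⟩
    intro N hN hbot
    apply hf.essential N hN
    rw [eq_bot_iff, ← hbot]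
    refine inf_le_inf_left N ?_
    rintro _ ⟨y, rfl⟩
    exact ⟨i y, hg y⟩

end Groth.Agent.H1.Inj
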