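import Groth.Agent.Lib.H1_InjH
import Groth.Agent.Lib.H1_InjD
set_option autoImplicit false
universe u
namespace Groth.Agent.H1.Inj

theorem S0306 (R : Type u) [CommRing R] [IsNoetherianRing R] (E : Type u) [AddCommGroup E] [Module R E] (hE : InjHull.IsIndecomposable R E) (hinj : Module.Injective R E) : ∃ (p : Ideal R) (_ : p.IsPrime) (g : p.ResidueField →ₗ[R] E), InjHull.IsInjectiveHull g := by
  have hnt : Nontrivial E := hE.1
  obtain ⟨p, hp⟩ := associatedPrimes.nonempty R E
  have hp' : IsAssociatedPrime p E := hp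
  rw [isAssociatedPrime_iff_exists_injective_linearMap] at hp'
  obtain ⟨hpp, f, hf⟩ := hp'
  have hne : LinearMap.range f ≠ ⊥ := by
    rw [Ne, LinearMap.range_eq_bot]
    rintro rfl
    have : (1 : R ⧸ p) = 0 := hf rfl
    exact hpp.ne_top ((Ideal.Quotient.zero_eq_one_iff).1 this.symm)
  have hull : InjHull.IsInjectiveHull f :=
    ⟨⟨hf, fun N hN => (S0304 R E hE hinj).1 N _ hN hne⟩, hinj⟩
  obtain ⟨-, g, hg⟩ := S0305 R p E f hull
  exact ⟨p, hpp, g, hg⟩

end Groth.Agent.H1.Inj
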