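import Mathlib
set_option autoImplicit false
universe u
namespace Groth.Agent.H1.Krull

theorem S0249 (A : Type u) [CommRing A] [IsNoetherianRing A] [IsLocalRing A]
    (h : (1 : WithBot ℕ∞) ≤ ringKrullDim A) (f : A) (hf : f ∈ IsLocalRing.maximalIdeal A) :
    ∃ p : Ideal A, p.IsPrime ∧ f ∈ p ∧ p.height = 1 := by
  have key : ∀ n : ℕ, ∀ p : Ideal A, p.IsPrime → f ∈ p → p.height = n → 1 ≤ n →
      ∃ q : Ideal A, q.IsPrime ∧ f ∈ q ∧ q.height = 1 := by
    intro n
    induction n using Nat.strong_induction_on with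
    | _ n ih =>
    intro p hp hfp hn h1
    by_cases hn1 : n = 1
    · exact ⟨p, hp, hfp, by rw [hn, hn1]; rfl⟩
    have down : ∀ q : Ideal A, q.IsPrime → q < p → f ∈ q → 1 ≤ q.height → ∃ q : Ideal A, q.IsPrime ∧ f ∈ q ∧ q.height = 1 := by
      intro q hq hlt hfq hge
      have hlt' : q.height < (n : ℕ∞) := by rw [← hn]; exact Ideal.height_strict_mono_of_isPrime_of_isPrime hlt
      obtain ⟨k, hk⟩ := ENat.ne_top_iff_exists.1 hlt'.ne_top
      rw [← hk] at hlt' hge
      exact ih k (by exact_mod_cast hlt') q hq hfq hk.symm (by exact_mod_cast hge)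
    have h2 : ¬ p.height ≤ ((1 : ℕ) : ℕ∞) := by
      rw [hn]; norm_cast; omega
    rw [Ideal.height_le_iff] at h2
    push Not at h2
    obtain ⟨q1, hq1, hlt1, hge1⟩ := h2
    have h3 : ¬ q1.height ≤ ((0 : ℕ) : ℕ∞) := by
      intro h4
      have : ((1 : ℕ) : ℕ∞) ≤ ((0 : ℕ) : ℕ∞) := hge1.trans h4
      norm_cast at this
    rw [Ideal.height_le_iff] at h3
    push Not at h3
    obtain ⟨q0, hq0, hlt0, -⟩ := h3
    by_cases hf1 : f ∈ q1
    · exact down q1 hq1 hlt1 hf1 hge1
    have hf0 : f ∉ q0 := fun h => hf1 (hlt0.le h)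
    obtain ⟨r, hr, hrp⟩ := Ideal.exists_minimalPrimes_le (I := q0 ⊔ Ideal.span {f}) (J := p)
      (sup_le (hlt0.le.trans hlt1.le) (by rwa [Ideal.span_singleton_le_iff_mem]))
    have hrpr : r.IsPrime := hr.1.1
    have hfr : f ∈ r := hr.1.2 (Ideal.mem_sup_right (Ideal.mem_span_singleton_self f))
    have hq0r : q0 < r := lt_of_le_of_ne (le_sup_left.trans hr.1.2) (by rintro rfl; exact hf0 hfr)
    have hge : 1 ≤ r.height := by
      have := Ideal.height_add_one_le_of_lt_of_isPrime hq0r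
      exact le_add_self.trans this
    refine down r hrpr (lt_of_le_of_ne hrp ?_) hfr hge
    rintro rfl
    have h4 := Ideal.map_height_le_one_of_mem_minimalPrimes hr
    have hk1 : RingHom.ker (Ideal.Quotient.mk q0) ≤ q1 := by rw [Ideal.mk_ker]; exact hlt0.le
    have hkr : RingHom.ker (Ideal.Quotient.mk q0) ≤ r := by rw [Ideal.mk_ker]; exact hq0r.le
    have i1 : (q1.map (Ideal.Quotient.mk q0)).IsPrime := Ideal.map_isPrime_of_surjective Ideal.Quotient.mk_surjective hk1
    have i2 : (r.map (Ideal.Quotient.mk q0)).IsPrime := Ideal.map_isPrime_of_surjective Ideal.Quotient.mk_surjective hkr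
    have c1 : (q1.map (Ideal.Quotient.mk q0)).comap (Ideal.Quotient.mk q0) = q1 := by
      rw [Ideal.comap_map_mk hlt0.le]
    have c2 : (r.map (Ideal.Quotient.mk q0)).comap (Ideal.Quotient.mk q0) = r := by
      rw [Ideal.comap_map_mk hq0r.le]
    have l1 : (⊥ : Ideal (A ⧸ q0)) < q1.map (Ideal.Quotient.mk q0) := by
      refine lt_of_le_of_ne bot_le ?_
      intro hbot
      rw [← hbot] at c1
      have : (⊥ : Ideal (A ⧸ q0)).comap (Ideal.Quotient.mk q0) = q0 := by
        rw [← RingHom.ker_eq_comap_bot, Ideal.mk_ker]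
      rw [this] at c1
      exact hlt0.ne c1
    have l2 : q1.map (Ideal.Quotient.mk q0) < r.map (Ideal.Quotient.mk q0) := by
      refine lt_of_le_of_ne (Ideal.map_mono hlt1.le) ?_
      intro he
      rw [he, c2] at c1
      exact hlt1.ne c1.symm
    have i0 : (⊥ : Ideal (A ⧸ q0)).IsPrime := Ideal.isPrime_bot
    have e1 := Ideal.height_add_one_le_of_lt_of_isPrime l1
    have e2 := Ideal.height_add_one_le_of_lt_of_isPrime l2
    have e3 : (1 : ℕ∞) + 1 ≤ 1 := by
      calc (1 : ℕ∞) + 1 ≤ (q1.map (Ideal.Quotient.mk q0)).height + 1 := by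
            gcongr
            exact le_add_self.trans e1
        _ ≤ _ := e2
        _ ≤ 1 := h4
    exact absurd e3 (by decide)
  have hm := IsLocalRing.maximalIdeal_height_eq_ringKrullDim (R := A)
  have hfin : (IsLocalRing.maximalIdeal A).height ≠ ⊤ := Ideal.height_ne_top (IsLocalRing.maximalIdeal.isMaximal A).ne_top
  obtain ⟨k, hk⟩ := ENat.ne_top_iff_exists.1 hfin
  refine key k _ inferInstance hf hk.symm ?_
  rw [← hm, ← hk] at h
  exact_mod_cast h

end Groth.Agent.H1.Krull
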