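import Mathlib
set_option autoImplicit false
open Polynomial IsLocalRing
namespace Groth.Agent.H1.Normal

lemma root_of_separable {A K : Type*} [CommRing A] [IsDomain A] [IsIntegrallyClosed A] [Field K]
    [Algebra A K] [IsFractionRing A K] [IsSepClosed K]
    (F : A[X]) (hF : F.Monic) (hdeg : F.natDegree ≠ 0)
    (hsep : (F.map (algebraMap A K)).Separable) : ∃ a, F.eval a = 0 := by
  have hd : (F.map (algebraMap A K)).degree ≠ 0 := by
    rw [hF.degree_map, Polynomial.degree_eq_natDegree hF.ne_zero]
    exact_mod_cast hdeg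
  obtain ⟨x, hx⟩ := IsSepClosed.exists_root _ hd hsep
  have hx' : eval₂ (algebraMap A K) x F = 0 := by
    rw [IsRoot.def, eval_map] at hx; exact hx
  have hint : IsIntegral A x := ⟨F, hF, hx'⟩
  obtain ⟨a, rfl⟩ := IsIntegrallyClosed.isIntegral_iff.1 hint
  refine ⟨a, ?_⟩
  rw [eval₂_at_apply] at hx'
  exact (map_eq_zero_iff _ (IsFractionRing.injective A K)).1 hx'

lemma natDegree_eq_one {A K : Type*} [CommRing A] [IsDomain A] [IsIntegrallyClosed A] [Field K]
    [Algebra A K] [IsFractionRing A K] [IsSepClosed K]
    (F : A[X]) (hF : F.Monic) (hirr : Irreducible F) (hd : derivative F ≠ 0) :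
    F.natDegree = 1 := by
  have h1 := (Monic.irreducible_iff_irreducible_map_fraction_map (K := K) hF).1 hirr
  have h2 : (F.map (algebraMap A K)).Separable := by
    rw [separable_iff_derivative_ne_zero h1, derivative_map]
    exact (Polynomial.map_ne_zero_iff (IsFractionRing.injective A K)).2 hd
  have h3 := IsSepClosed.degree_eq_one_of_irreducible K h1 h2
  rw [hF.degree_map] at h3
  exact natDegree_eq_of_degree_eq_some h3

lemma hens_aux {A : Type*} (K : Type*) [CommRing A] [IsDomain A] [IsIntegrallyClosed A] [IsLocalRing A] [Field K]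
    [Algebra A K] [IsFractionRing A K] [IsSepClosed K] (n : ℕ) :
    ∀ (F : A[X]) (_ : F.Monic) (_ : F.natDegree ≤ n) (a₀ : A) (_ : F.eval a₀ ∈ maximalIdeal A)
      (_ : IsUnit (F.derivative.eval a₀)), ∃ a : A, F.IsRoot a ∧ a - a₀ ∈ maximalIdeal A := by
  induction n with
  | zero =>
    intro F hF hn a₀ h1 h2
    have : F = 1 := hF.natDegree_eq_zero.1 (Nat.le_zero.1 hn)
    subst this
    simp at h2
  | succ n ih =>
    intro F hF hn a₀ h1 h2
    by_cases hirr : Irreducible F
    · have h3 := natDegree_eq_one (K := K) F hF hirr (by rintro h; rw [h] at h2; simp at h2)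
      have h4 := hF.eq_X_add_C h3
      refine ⟨-F.coeff 0, ?_, ?_⟩
      · rw [h4]; simp
      · rw [h4] at h1
        simp only [eval_add, eval_X, eval_C] at h1
        have := neg_mem h1
        rw [neg_add'] at this
        rw [neg_sub_left, add_comm] 
        simpa [sub_eq_add_neg, add_comm] using this
    · rw [hF.irreducible_iff_natDegree] at hirr
      push Not at hirr
      obtain ⟨f, g, hf, hg, hfg, hf0, hg0⟩ := hirr (by rintro rfl; simp at h2)
      have key : ∀ (f g : A[X]), f.Monic → g.Monic → f * g = F → f.natDegree ≠ 0 → g.natDegree ≠ 0 →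
          f.eval a₀ ∈ maximalIdeal A → ∃ a : A, F.IsRoot a ∧ a - a₀ ∈ maximalIdeal A := by
        intro f g hf hg hfg hf0 hg0 hm
        have hdeg : F.natDegree = f.natDegree + g.natDegree := by rw [← hfg, hf.natDegree_mul hg]
        have hu : IsUnit (f.derivative.eval a₀) := by
          by_contra hnu
          apply (mem_maximalIdeal _).1 _ h2
          rw [← hfg, derivative_mul, eval_add, eval_mul, eval_mul]
          exact add_mem (Ideal.mul_mem_right _ _ ((mem_maximalIdeal _).2 hnu)) (Ideal.mul_mem_right _ _ hm)
        obtain ⟨a, ha, ha'⟩ := ih f hf (by omega) a₀ hm hu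
        exact ⟨a, by rw [← hfg]; simp [IsRoot.def.1 ha], ha'⟩
      rw [← hfg, eval_mul] at h1
      rcases (inferInstance : (maximalIdeal A).IsPrime).mem_or_mem h1 with h | h
      · exact key f g hf hg hfg hf0 hg0 h
      · exact key g f hg hf (by rw [mul_comm, hfg]) hg0 hf0 h

theorem S0254 (A : Type*) [CommRing A] [IsDomain A] [IsLocalRing A] [IsIntegrallyClosed A]
    [IsSepClosed (FractionRing A)] :
    HenselianLocalRing A ∧ IsSepClosed (IsLocalRing.ResidueField A) := by
  refine ⟨⟨fun F hF a₀ h1 h2 => hens_aux (FractionRing A) _ F hF le_rfl a₀ h1 h2⟩, ?_⟩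
  apply IsSepClosed.of_exists_root
  intro p hp hirr hsep
  obtain ⟨F, hFp, hdeg, hF⟩ := lifts_and_natDegree_eq_and_monic (f := residue A) (p := p)
    ((lifts_iff_coeff_lifts _).2 fun n => residue_surjective _) hp
  have hirrF : Irreducible F := by
    apply Monic.irreducible_of_irreducible_map (residue A) F hF
    rwa [hFp]
  have hd : derivative F ≠ 0 := by
    intro h
    have : derivative p = 0 := by rw [← hFp, derivative_map, h, Polynomial.map_zero]
    rw [separable_iff_derivative_ne_zero hirr] at hsep
    exact hsep this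
  have h3 := natDegree_eq_one (K := FractionRing A) F hF hirrF hd
  have : p.degree = 1 := by
    rw [degree_eq_natDegree hp.ne_zero, ← hdeg, h3]; rfl
  obtain ⟨x, hx⟩ := exists_root_of_degree_eq_one this
  exact ⟨x, hx⟩

lemma residue_algClosed {A : Type*} (K : Type*) [CommRing A] [IsDomain A] [IsIntegrallyClosed A] [IsLocalRing A] [Field K]
    [Algebra A K] [IsFractionRing A K] [IsSepClosed K] (hm : maximalIdeal A ≠ ⊥) : IsAlgClosed (ResidueField A) := by
  apply IsAlgClosed.of_exists_root
  intro p hp hirr
  by_cases hp1 : p.natDegree = 1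
  · obtain ⟨x, hx⟩ := exists_root_of_degree_eq_one (p := p) (by
      rw [degree_eq_natDegree hp.ne_zero, hp1]; rfl)
    exact ⟨x, hx⟩
  have hp0 : 0 < p.natDegree := hirr.natDegree_pos
  obtain ⟨F, hFp, hdeg, hF⟩ := lifts_and_natDegree_eq_and_monic (f := residue A) (p := p)
    ((lifts_iff_coeff_lifts _).2 fun n => residue_surjective _) hp
  have hF0 : F.eval 0 ≠ 0 := by
    intro h
    have h1 : p.eval 0 = 0 := by
      rw [← hFp, ← map_zero (residue A), eval_map_apply, h]
    have := degree_eq_one_of_irreducible_of_root hirr h1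
    exact hp1 (natDegree_eq_of_degree_eq_some this)
  let Kb := AlgebraicClosure K
  have hinj : Function.Injective (algebraMap A Kb) := by
    rw [IsScalarTower.algebraMap_eq A K Kb]
    exact (algebraMap K Kb).injective.comp (IsFractionRing.injective A K)
  let H : A[X] := F - X * derivative F
  have hH : H ≠ 0 := by
    intro h
    apply hF0
    have := congrArg (eval 0) h
    simpa [H] using this
  have hfin : ((algebraMap A Kb) ⁻¹' ((fun α => - aeval α (derivative F)) '' (H.rootSet Kb))).Finite :=
    ((H.rootSet_finite Kb).image _).preimage hinj.injOn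
  obtain ⟨x, hx, hx0⟩ := Submodule.exists_mem_ne_zero_of_ne_bot hm
  have : Infinite A := by
    by_contra hni
    rw [not_infinite_iff_finite] at hni
    exact hm (IsLocalRing.isField_iff_maximalIdeal_eq.1 (Finite.isField_of_domain A))
  have hinf : (maximalIdeal A : Set A).Infinite :=
    Set.infinite_of_injective_forall_mem (f := fun a : A => a * x) (mul_left_injective₀ hx0)
      (fun a => Ideal.mul_mem_left _ _ hx)
  obtain ⟨c, hc, hc'⟩ := (hinf.sdiff hfin).nonempty
  let G : A[X] := F + C c * X
  have hlt : (C c * X : A[X]).degree < F.degree := by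
    refine lt_of_le_of_lt (degree_C_mul_X_le c) ?_
    rw [degree_eq_natDegree hF.ne_zero, hdeg]
    have : 1 < p.natDegree := by omega
    exact_mod_cast this
  have hG : G.Monic := hF.add_of_left hlt
  have hGdeg : G.natDegree ≠ 0 := by
    have : G.natDegree = F.natDegree := natDegree_add_eq_left_of_degree_lt hlt
    omega
  have hsep : (G.map (algebraMap A K)).Separable := by
    rw [separable_def]
    refine (isCoprime_iff_aeval_ne_zero_of_isAlgClosed (k := K) (AlgebraicClosure K) _ _).2 fun α => ?_
    by_contra hcon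
    push Not at hcon
    obtain ⟨h1, h2⟩ := hcon
    rw [derivative_map] at h2
    rw [aeval_map_algebraMap] at h1 h2
    simp only [G, map_add, derivative_add, derivative_mul, derivative_C, derivative_X, map_mul, aeval_C, aeval_X, zero_mul, zero_add, mul_one] at h1 h2
    apply hc'
    refine ⟨α, ?_, ?_⟩
    · rw [mem_rootSet_of_injective hinj hH]
      simp only [H, map_sub, map_mul, aeval_X]
      linear_combination h1 - α * h2
    · simp only
      linear_combination - h2
  obtain ⟨a, ha⟩ := root_of_separable G hG hGdeg hsep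
  refine ⟨residue A a, ?_⟩
  rw [← hFp, eval_map_apply]
  have h5 : F.eval a = - (c * a) := by
    simp only [G, eval_add, eval_mul, eval_C, eval_X] at ha
    linear_combination ha
  rw [h5, residue_eq_zero_iff]
  exact neg_mem (Ideal.mul_mem_right _ _ hc)

theorem S0253 (A : Type*) [CommRing A] [IsDomain A] [IsIntegrallyClosed A] [IsSepClosed (FractionRing A)]
    (p : Ideal A) [p.IsPrime] (hp : p ≠ ⊥) : IsAlgClosed p.ResidueField := by
  have : IsIntegrallyClosed (Localization.AtPrime p) :=
    isIntegrallyClosed_of_isLocalization (Localization.AtPrime p) p.primeCompl p.primeCompl_le_nonZeroDivisors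
  apply residue_algClosed (FractionRing A)
  intro h
  apply hp
  rw [eq_bot_iff]
  intro x hx
  have h1 : algebraMap A (Localization.AtPrime p) x ∈ maximalIdeal (Localization.AtPrime p) := by
    rw [← Localization.AtPrime.map_eq_maximalIdeal]
    exact Ideal.mem_map_of_mem _ hx
  rw [h, Ideal.mem_bot] at h1
  exact (map_eq_zero_iff _ (IsLocalization.injective _ p.primeCompl_le_nonZeroDivisors)).1 h1

end Groth.Agent.H1.Normal
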