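import Groth.Agent.Lib.H1_Normal
import Groth.Prelude
set_option autoImplicit false
open Polynomial IsLocalRing
namespace Groth.Agent.H1.Normal

theorem strictHensel (A K : Type*) [CommRing A] [IsDomain A] [IsLocalRing A] [IsIntegrallyClosed A]
    [Field K] [Algebra A K] [IsFractionRing A K] [IsSepClosed K] :
    HenselianLocalRing A ∧ IsSepClosed (IsLocalRing.ResidueField A) := by
  refine ⟨⟨fun F hF a₀ h1 h2 => hens_aux K _ F hF le_rfl a₀ h1 h2⟩, ?_⟩
  apply IsSepClosed.of_exists_root
  intro p hp hirr hsep
  obtain ⟨F, hFp, hdeg, hF⟩ := lifts_and_natDegree_eq_and_monic (f := residue A) (p := p)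
    ((lifts_iff_coeff_lifts _).2 fun n => residue_surjective _) hp
  have hirrF : Irreducible F := by
    apply Monic.irreducible_of_irreducible_map (residue A) F hF
    rwa [hFp]
  have hd : derivative F ≠ 0 := by
    intro h
    have : derivative p = 0 := by rw [← hFp, derivative_map, h, Polynomial.map_zero]
    rw [separable_iff_derivative_ne_zero hirr] at hsep
    exact hsep this
  have h3 := natDegree_eq_one (K := K) F hF hirrF hd
  have : p.degree = 1 := by
    rw [degree_eq_natDegree hp.ne_zero, ← hdeg, h3]; rfl
  obtain ⟨x, hx⟩ := exists_root_of_degree_eq_one this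
  exact ⟨x, hx⟩

end Groth.Agent.H1.Normal

universe u
open AlgebraicGeometry in
theorem Groth.Agent.H1.Normal.S0090 (X : Scheme.{u}) [IsIntegral X] (hN : ∀ x : X, IsIntegrallyClosed (X.presheaf.stalk x))
    [IsSepClosed X.functionField] (x : X) : EtCoh.IsStrictlyHenselianLocalRing (X.presheaf.stalk x) := by
  have := hN x
  have h := Groth.Agent.H1.Normal.strictHensel (X.presheaf.stalk x) X.functionField
  exact ⟨h.1, h.2⟩
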