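import Mathlib
import Groth.Prelude
set_option autoImplicit false
open CategoryTheory CategoryTheory.Limits AlgebraicGeometry Opposite
universe u
namespace Groth.Agent.H1.Unram

lemma eqLocus {X Y S : Scheme.{u}} (π : X ⟶ S) [IsOpenImmersion (pullback.diagonal π)]
    (f g : Y ⟶ X) (h : f ≫ π = g ≫ π) :
    ∃ (U : Y.Opens), (IsClosedImmersion (pullback.diagonal π) → IsClosed (U : Set Y)) ∧
      (∀ {T : Scheme.{u}} (t : T ⟶ Y), t ≫ f = t ≫ g ↔ Set.range t ⊆ (U : Set Y)) := by
  let s : pullback (pullback.diagonal π) (pullback.lift f g h) ⟶ Y := pullback.snd _ _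
  have hs : s ≫ f = pullback.fst _ _ ∧ s ≫ g = pullback.fst _ _ := by
    have := (pullback.condition (f := pullback.diagonal π) (g := pullback.lift f g h))
    constructor
    · have h1 := congrArg (fun t => t ≫ pullback.fst π π) this
      rw [Category.assoc, Category.assoc, pullback.lift_fst, pullback.diagonal_fst, Category.comp_id] at h1
      exact h1.symm
    · have h1 := congrArg (fun t => t ≫ pullback.snd π π) this
      rw [Category.assoc, Category.assoc, pullback.lift_snd, pullback.diagonal_snd, Category.comp_id] at h1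
      exact h1.symm
  refine ⟨s.opensRange, ?_, ?_⟩
  · intro hc
    have : IsClosedImmersion s := inferInstance
    exact s.isClosedEmbedding.isClosed_range
  · intro T t
    constructor
    · intro ht
      let l : T ⟶ pullback (pullback.diagonal π) (pullback.lift f g h) := pullback.lift (t ≫ f) t (by
        apply pullback.hom_ext
        · rw [Category.assoc, Category.assoc, Category.assoc, pullback.lift_fst, pullback.diagonal_fst, Category.comp_id]
        · rw [Category.assoc, Category.assoc, Category.assoc, pullback.lift_snd, pullback.diagonal_snd, Category.comp_id, ht])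
      have : l ≫ s = t := pullback.lift_snd _ _ _
      rintro _ ⟨x, rfl⟩
      rw [← this]
      exact ⟨l x, by simp⟩
    · intro ht
      have : IsOpenImmersion.lift s t ht ≫ s = t := IsOpenImmersion.lift_fac _ _ _
      rw [← this, Category.assoc, Category.assoc, hs.1, hs.2]

theorem S0063 {X S Y : Scheme.{u}} (π : X ⟶ S)
    [FormallyUnramified π] [LocallyOfFiniteType π] [IsSeparated π]
    (h : Y ⟶ S) [ConnectedSpace Y] (f g : Y ⟶ X) (hf : f ≫ π = h) (hg : g ≫ π = h)
    (y : Y) (hy : Y.fromSpecResidueField y ≫ f = Y.fromSpecResidueField y ≫ g) : f = g := by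
  obtain ⟨U, hU, H⟩ := eqLocus π f g (hf.trans hg.symm)
  have h1 := (H _).1 hy
  rw [Scheme.range_fromSpecResidueField, Set.singleton_subset_iff] at h1
  have h2 : (U : Set Y) = Set.univ := IsClopen.eq_univ ⟨hU inferInstance, U.2⟩ ⟨y, h1⟩
  have h3 := (H (𝟙 Y)).2 (by rw [h2]; exact Set.subset_univ _)
  simpa using h3

theorem S0445 {X Y S : Scheme.{u}} (p : Y ⟶ S) [FormallyUnramified p] [LocallyOfFiniteType p] (f g : X ⟶ Y) (hfg : f ≫ p = g ≫ p)
    (x : X) (h1 : f x = g x) (h2 : f.residueFieldMap x = (Y.residueFieldCongr h1).hom ≫ g.residueFieldMap x) :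
    ∃ U : X.Opens, x ∈ U ∧ U.ι ≫ f = U.ι ≫ g := by
  obtain ⟨U, -, H⟩ := eqLocus p f g hfg
  have h3 : X.fromSpecResidueField x ≫ f = X.fromSpecResidueField x ≫ g := by
    rw [← Scheme.Hom.SpecMap_residueFieldMap_fromSpecResidueField, ← Scheme.Hom.SpecMap_residueFieldMap_fromSpecResidueField, h2,
      Spec.map_comp, Category.assoc, Scheme.residueFieldCongr_fromSpecResidueField]
  have h4 := (H _).1 h3
  rw [Scheme.range_fromSpecResidueField, Set.singleton_subset_iff] at h4
  exact ⟨U, h4, (H _).2 (by simp)⟩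

lemma restrict_faithful {X Y : Scheme.{u}} (f : X ⟶ Y)
    (h : ∀ V : Set Y, IsOpen V → IsClosed V → V.Nonempty → (V ∩ Set.range f).Nonempty) : (FEt.restrict f).Faithful := by
  constructor
  intro A B a b hab
  have i1 : IsFinite B.hom := B.prop.1
  have i2 : Etale B.hom := B.prop.2
  have i3 : IsFinite A.hom := A.prop.1
  have i4 : Etale A.hom := A.prop.2
  have ha : a.left ≫ B.hom = A.hom := Over.w a.hom
  have hb : b.left ≫ B.hom = A.hom := Over.w b.hom
  obtain ⟨U, hU, H⟩ := eqLocus B.hom a.left b.left (ha.trans hb.symm)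
  have h1 : pullback.fst A.hom f ≫ a.left = pullback.fst A.hom f ≫ b.left := by
    have h2 := congrArg (fun t => t.left ≫ pullback.fst B.hom f) hab
    simp only [FEt.restrict] at h2
    erw [pullback.lift_fst, pullback.lift_fst] at h2
    exact h2
  have h2 := (H _).1 h1
  have hUc : IsClosed (U : Set A.left) := hU inferInstance
  have h3 : (U : Set A.left) = Set.univ := by
    by_contra hne
    have hne' : ((U : Set A.left)ᶜ).Nonempty := Set.nonempty_compl.2 hne
    obtain ⟨y, ⟨v, hv, hvy⟩, ⟨x, hx⟩⟩ := h (A.hom '' (U : Set A.left)ᶜ)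
      (A.hom.isOpenMap _ hUc.isOpen_compl) (A.hom.isClosedMap _ U.2.isClosed_compl) (hne'.image _)
    obtain ⟨z, hz1, hz2⟩ := Scheme.Pullback.exists_preimage_pullback (f := A.hom) (g := f) v x (hvy.trans hx.symm)
    apply hv
    rw [← hz1]
    exact h2 ⟨z, rfl⟩
  have h4 : a.left = b.left := by
    have h3 := (H (𝟙 A.left)).2 (by rw [h3]; exact Set.subset_univ _)
    simpa using h3
  ext
  exact h4

theorem S0237 {X Y : Scheme.{u}} (f : X ⟶ Y)
    (h : DenseRange f.base) : (FEt.restrict f).Faithful := by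
  apply restrict_faithful
  intro V hV _ hne
  obtain ⟨x, hx⟩ := h.exists_mem_open hV hne
  exact ⟨_, hx, ⟨x, rfl⟩⟩

theorem S0243 {X Y : Scheme.{u}} (i : Y ⟶ X) [IsClosedImmersion i]
    (h : ∀ x : X, (connectedComponent x ∩ Set.range i.base).Nonempty) :
    (FEt.restrict i).Faithful := by
  apply restrict_faithful
  rintro V hV hVc ⟨x, hx⟩
  obtain ⟨y, hy1, hy2⟩ := h x
  exact ⟨y, IsClopen.connectedComponent_subset ⟨hVc, hV⟩ hx hy1, hy2⟩

end Groth.Agent.H1.Unram
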