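import Groth.Agent.Lib.H21REL2
import Mathlib.Algebra.Category.Ring.FinitePresentation
import Mathlib.CategoryTheory.MorphismProperty.Ind
import Mathlib.Algebra.Category.Ring.FilteredColimits
import Mathlib.CategoryTheory.Limits.Types.Filtered

set_option autoImplicit false
set_option backward.isDefEq.respectTransparency false
set_option backward.isDefEq.respectTransparency.types false
open CategoryTheory CategoryTheory.Limits AlgebraicGeometry TensorProduct

namespace Groth.Agent.H21

universe u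

/-- elementwise form of "filtered union": `D` is covered by images of `B i`, and elements of `A` dying in
`D` die in some `B i`. -/
structure FiltCov {A D : Type u} [CommRing A] [CommRing D] (ψ : A →+* D) {J : Type u}
    (B : J → Type u) [∀ j, CommRing (B j)] (φ : ∀ j, A →+* B j) (g : ∀ j, B j →+* D) : Prop where
  comm : ∀ j, (g j).comp (φ j) = ψ
  surj : ∀ d : D, ∃ j, ∃ b : B j, g j b = d
  ker : ∀ a : A, ψ a = 0 → ∃ j, φ j a = 0

section
variable {A D : Type u} [CommRing A] [CommRing D] (ψ : A →+* D) {J : Type u}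
    (B : J → Type u) [∀ j, CommRing (B j)] (φ : ∀ j, A →+* B j) (g : ∀ j, B j →+* D)
    (h : FiltCov ψ B φ g)
include h

lemma FC_integral (hi : ∀ j, (φ j).IsIntegral) : ψ.IsIntegral := by
  intro d
  obtain ⟨j, b, rfl⟩ := h.surj d
  obtain ⟨P, hP, hP0⟩ := hi j b
  refine ⟨P, hP, ?_⟩
  rw [← h.comm j, ← Polynomial.hom_eval₂, hP0, map_zero]

lemma FC_closed (hi : ∀ j, UniversallyClosed (Spec.map (CommRingCat.ofHom (φ j)))) :
    UniversallyClosed (Spec.map (CommRingCat.ofHom ψ)) := by
  have h1 : ∀ j, (φ j).IsIntegral := by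
    intro j
    have h1 := hi j
    have h2 : IsIntegralHom (Spec.map (CommRingCat.ofHom (φ j))) :=
      IsIntegralHom.iff_universallyClosed_and_isAffineHom.2 ⟨h1, inferInstance⟩
    rwa [IsIntegralHom.SpecMap_iff] at h2
  have h2 : IsIntegralHom (Spec.map (CommRingCat.ofHom ψ)) := by
    rw [IsIntegralHom.SpecMap_iff]
    exact FC_integral ψ B φ g h h1
  infer_instance

lemma FC_inj (hi : ∀ j, UniversallyInjective (Spec.map (CommRingCat.ofHom (φ j)))) :
    UniversallyInjective (Spec.map (CommRingCat.ofHom ψ)) := by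
  algebraize [ψ]
  have : UniversallyInjective (Spec.map (CommRingCat.ofHom (algebraMap A D))) := by
    rw [univInj_iff_nilp]
    intro d
    obtain ⟨j, b, rfl⟩ := h.surj d
    let _ : Algebra A (B j) := (φ j).toAlgebra
    have hj : UniversallyInjective (Spec.map (CommRingCat.ofHom (algebraMap A (B j)))) := hi j
    rw [univInj_iff_nilp] at hj
    let G : B j →ₐ[A] D := { g j with commutes' := fun a => congrArg (fun f => f a) (h.comm j) }
    exact nilp_push G b (hj b)
  exact this

lemma FC_surj (hs : ∀ j, Function.Surjective (PrimeSpectrum.comap (φ j)))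
    (hi : ψ.IsIntegral) : Function.Surjective (PrimeSpectrum.comap ψ) := by
  have h3 : IsClosed (Set.range (PrimeSpectrum.comap ψ)) :=
    (PrimeSpectrum.isClosedMap_comap_of_isIntegral ψ hi).isClosed_range
  have h4 : DenseRange (PrimeSpectrum.comap ψ) := by
    rw [PrimeSpectrum.denseRange_comap_iff_ker_le_nilRadical]
    intro a ha
    obtain ⟨j, hj⟩ := h.ker a ha
    exact ker_le_nilradical_of_surj (φ j) (hs j) (by rw [hj]; exact IsNilpotent.zero)
  rw [← Set.range_eq_univ, ← h3.closure_eq]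
  exact h4.closure_eq

lemma FC_univHomeo (hi : ∀ j, FlatMor.IsUnivHomeo (Spec.map (CommRingCat.ofHom (φ j)))) :
    FlatMor.IsUnivHomeo (Spec.map (CommRingCat.ofHom ψ)) := by
  have h1 := FC_closed ψ B φ g h (fun j => univClosed_of_univHomeo _ (hi j))
  have h2 := FC_inj ψ B φ g h (fun j => univInj_of_univHomeo _ (hi j))
  have h3 := FC_integral ψ B φ g h (fun j => integral_of_univHomeo _ (hi j))
  have h4 : Surjective (Spec.map (CommRingCat.ofHom ψ)) :=
    ⟨FC_surj ψ B φ g h (fun j => surj_of_univHomeo _ (hi j)) h3⟩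
  exact isUnivHomeo_of _

lemma FC_res (hi : ∀ j, ResSurj (φ j)) : ResSurj ψ := by
  intro P
  apply res_surj_of_classes
  intro d
  obtain ⟨j, b, rfl⟩ := h.surj d
  obtain ⟨w, hw⟩ := hi j (PrimeSpectrum.comap (g j) P) (algebraMap (B j) _ b)
  have hp : PrimeSpectrum.comap ψ P =
      PrimeSpectrum.comap (φ j) (PrimeSpectrum.comap (g j) P) := by
    rw [← h.comm j]; rfl
  have h3 : (PrimeSpectrum.comap (φ j) (PrimeSpectrum.comap (g j) P)).asIdeal
      = P.asIdeal.comap ψ := (congrArg PrimeSpectrum.asIdeal hp).symm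
  have h1 := resmap_comp (φ j) (g j) ψ (h.comm j)
    (PrimeSpectrum.comap (φ j) (PrimeSpectrum.comap (g j) P)).asIdeal
    (PrimeSpectrum.comap (g j) P).asIdeal P.asIdeal rfl rfl h3 w
  have h2 := congrArg (Ideal.ResidueField.map (PrimeSpectrum.comap (g j) P).asIdeal
    P.asIdeal (g j) rfl) hw
  rw [Ideal.ResidueField.map_algebraMap] at h2
  have h5 : ∀ (p p' : PrimeSpectrum A) (_ : p = p') (w : p'.asIdeal.ResidueField)
      (h3 : p'.asIdeal = P.asIdeal.comap ψ) (h3' : p.asIdeal = P.asIdeal.comap ψ),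
      ∃ w' : p.asIdeal.ResidueField, Ideal.ResidueField.map p.asIdeal P.asIdeal ψ h3' w' =
        Ideal.ResidueField.map p'.asIdeal P.asIdeal ψ h3 w := by
    rintro p _ rfl w h3 h3'
    exact ⟨w, rfl⟩
  obtain ⟨w', hw'⟩ := h5 _ _ hp w h3 rfl
  exact ⟨w', hw'.trans (h1.symm.trans h2)⟩

end

lemma filtCov_of_isColimit (A : CommRingCat.{u}) {J : Type u} [SmallCategory J]
    [IsFiltered J] (F : J ⥤ Under A) (c : Limits.Cocone F) (hc : Limits.IsColimit c) :
    FiltCov c.pt.hom.hom (fun j => (F.obj j).right) (fun j => (F.obj j).hom.hom)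
      (fun j => (c.ι.app j).right.hom) := by
  have hc2 := isColimitOfPreserves (Under.forget A) hc
  have hc' := isColimitOfPreserves (forget CommRingCat) hc2
  refine ⟨?_, ?_, ?_⟩
  · intro j
    have := (c.ι.app j).w
    ext a
    exact congrArg (fun f => f.hom a) this
  · intro d
    obtain ⟨j, b, hb⟩ := Types.jointly_surjective_of_isColimit hc' d
    exact ⟨j, b, hb⟩
  · intro a ha
    obtain ⟨j⟩ : Nonempty J := IsFiltered.nonempty
    have h1 : (c.ι.app j).right.hom ((F.obj j).hom.hom a) = 0 := by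
      have := congrArg (fun f => f.hom a) (c.ι.app j).w
      exact this.trans ha
    have h2 : (c.ι.app j).right.hom ((F.obj j).hom.hom a) = (c.ι.app j).right.hom 0 := by
      rw [h1, map_zero]
    obtain ⟨k, f, g, hk⟩ := (Types.FilteredColimit.isColimit_eq_iff _ hc').1 h2
    refine ⟨k, ?_⟩
    have h3 := congrArg (fun φ => φ.hom a) (F.map f).w
    have h4 : (F.map f).right.hom ((F.obj j).hom.hom a) = (F.map g).right.hom 0 := hk
    rw [map_zero] at h4
    exact h3.symm.trans h4

theorem filtered_inherits (A : CommRingCat.{u}) {J : Type u} [SmallCategory J]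
    [IsFiltered J] (F : J ⥤ Under A) (c : Limits.Cocone F) (hc : Limits.IsColimit c) :
    ((∀ j, FlatMor.IsUnivHomeo (Spec.map (F.obj j).hom)) → FlatMor.IsUnivHomeo (Spec.map c.pt.hom)) ∧
    ((∀ j, FlatMor.IsUnivHomeo (Spec.map (F.obj j).hom) ∧
        ∀ x : Spec (F.obj j).right, Function.Surjective ((Spec.map (F.obj j).hom).residueFieldMap x)) →
      FlatMor.IsUnivHomeo (Spec.map c.pt.hom) ∧
        ∀ x : Spec c.pt.right, Function.Surjective ((Spec.map c.pt.hom).residueFieldMap x)) ∧
    ((∀ j, UniversallyClosed (Spec.map (F.obj j).hom)) → UniversallyClosed (Spec.map c.pt.hom)) ∧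
    ((∀ j, UniversallyClosed (Spec.map (F.obj j).hom) ∧ UniversallyInjective (Spec.map (F.obj j).hom)) →
      UniversallyClosed (Spec.map c.pt.hom) ∧ UniversallyInjective (Spec.map c.pt.hom)) := by
  have h := filtCov_of_isColimit A F c hc
  refine ⟨fun hi => FC_univHomeo _ _ _ _ h hi, fun hi => ⟨FC_univHomeo _ _ _ _ h (fun j => (hi j).1), ?_⟩,
    fun hi => FC_closed _ _ _ _ h hi,
    fun hi => ⟨FC_closed _ _ _ _ h (fun j => (hi j).1), FC_inj _ _ _ _ h (fun j => (hi j).2)⟩⟩
  exact (resSurj_iff c.pt.hom.hom).2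
    (FC_res _ _ _ _ h (fun j => (resSurj_iff (F.obj j).hom.hom).1 (hi j).2))

end Groth.Agent.H21
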