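import Groth.Agent.Lib.H21REL2

set_option autoImplicit false
set_option backward.isDefEq.respectTransparency false
set_option backward.isDefEq.respectTransparency.types false
open CategoryTheory CategoryTheory.Limits AlgebraicGeometry TensorProduct Polynomial

namespace Groth.Agent.H21

universe u

/-- monogenic algebras: criterion for a universal homeomorphism -/
lemma monogenic_univHomeo {A B : Type u} [CommRing A] [CommRing B] [Algebra A B] (t : B)
    (ht : Algebra.adjoin A {t} = ⊤) (hint : IsIntegral A t)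
    (hnil : ∀ q : PrimeSpectrum (B ⊗[A] B), t ⊗ₜ[A] (1 : B) - (1 : B) ⊗ₜ[A] t ∈ q.asIdeal)
    (hs : Function.Surjective (PrimeSpectrum.comap (algebraMap A B))) :
    FlatMor.IsUnivHomeo (Spec.map (CommRingCat.ofHom (algebraMap A B))) := by
  have hI : Algebra.IsIntegral A B := by
    constructor
    intro x
    have hx : x ∈ Algebra.adjoin A {t} := by rw [ht]; trivial
    exact (Algebra.adjoin_le (S := integralClosure A B) (by rintro _ rfl; exact hint)) hx
  refine univHomeo_criterion hI hs ?_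
  let π : B ⊗[A] B →ₐ[A] (B ⊗[A] B ⧸ nilradical (B ⊗[A] B)) := Ideal.Quotient.mkₐ A _
  let E : Subalgebra A B := AlgHom.equalizer (π.comp Algebra.TensorProduct.includeLeft)
    (π.comp Algebra.TensorProduct.includeRight)
  have hE : ∀ b : B, b ∈ E ↔ IsNilpotent (b ⊗ₜ[A] (1 : B) - (1 : B) ⊗ₜ[A] b) := by
    intro b
    change π (b ⊗ₜ 1) = π (1 ⊗ₜ b) ↔ _
    rw [← mem_nilradical]
    exact Ideal.Quotient.eq
  have htE : t ∈ E := by
    rw [hE, ← mem_nilradical, nilradical_eq_sInf, Submodule.mem_sInf]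
    intro q hq
    have hq' : Ideal.IsPrime q := hq
    exact hnil ⟨q, hq'⟩
  have hle : Algebra.adjoin A {t} ≤ E := Algebra.adjoin_le (by rintro _ rfl; exact htE)
  intro c
  rw [← hE]
  exact hle (by rw [ht]; trivial)

lemma monogenic_res {A B : Type u} [CommRing A] [CommRing B] [Algebra A B] (t : B)
    (ht : Algebra.adjoin A {t} = ⊤)
    (h : ∀ P : PrimeSpectrum B, ∃ w, Ideal.ResidueField.map
      (PrimeSpectrum.comap (algebraMap A B) P).asIdeal P.asIdeal (algebraMap A B) rfl w =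
        algebraMap B P.asIdeal.ResidueField t) : ResSurj (algebraMap A B) := by
  intro P
  apply res_surj_of_classes
  intro x
  have hx : x ∈ trivRes A B := by
    have hle : Algebra.adjoin A {t} ≤ trivRes A B := Algebra.adjoin_le (by
      rintro _ rfl
      exact fun P => h P)
    exact hle (by rw [ht]; trivial)
  exact hx P

lemma adjoin_quot (A : Type u) [CommRing A] (I : Ideal A[X]) :
    Algebra.adjoin A {(Ideal.Quotient.mk I X : A[X] ⧸ I)} = ⊤ := by
  rw [eq_top_iff]
  rintro x -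
  obtain ⟨f, rfl⟩ := Ideal.Quotient.mk_surjective x
  have : (Ideal.Quotient.mkₐ A I) f ∈ (Algebra.adjoin A {(X : A[X])}).map (Ideal.Quotient.mkₐ A I) :=
    ⟨f, by rw [Polynomial.adjoin_X]; trivial, rfl⟩
  rw [AlgHom.map_adjoin, Set.image_singleton] at this
  exact this

/-- a point of the base with a root gives a point upstairs -/
lemma quot_surj (A : Type u) [CommRing A] (I : Ideal A[X])
    (h : ∀ p : PrimeSpectrum A, ∃ τ : AlgebraicClosure p.asIdeal.ResidueField, ∀ f ∈ I, Polynomial.eval₂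
      ((algebraMap p.asIdeal.ResidueField (AlgebraicClosure p.asIdeal.ResidueField)).comp
        (algebraMap A p.asIdeal.ResidueField)) τ f = 0) :
    Function.Surjective (PrimeSpectrum.comap (algebraMap A (A[X] ⧸ I))) := by
  intro p
  obtain ⟨τ, hτ⟩ := h p
  let ev : (A[X] ⧸ I) →+* AlgebraicClosure p.asIdeal.ResidueField :=
    Ideal.Quotient.lift I (Polynomial.eval₂RingHom ((algebraMap p.asIdeal.ResidueField
      (AlgebraicClosure p.asIdeal.ResidueField)).comp
        (algebraMap A p.asIdeal.ResidueField)) τ) hτ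
  refine ⟨⟨RingHom.ker ev, RingHom.ker_isPrime _⟩, ?_⟩
  ext a
  change ev (Ideal.Quotient.mk I (C a)) = 0 ↔ _
  have : ev (Ideal.Quotient.mk I (C a)) = algebraMap p.asIdeal.ResidueField
    (AlgebraicClosure p.asIdeal.ResidueField) (algebraMap A _ a) := by
    change Polynomial.eval₂ _ _ (C a) = _
    rw [Polynomial.eval₂_C]; rfl
  rw [this, map_eq_zero_iff _ (RingHom.injective _), Ideal.algebraMap_residueField_eq_zero]

lemma amap_tmul {A B : Type u} [CommRing A] [CommRing B] [Algebra A B] (x : A) :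
    (algebraMap A B x) ⊗ₜ[A] (1 : B) = (1 : B) ⊗ₜ[A] (algebraMap A B x) := by
  rw [Algebra.algebraMap_eq_smul_one, TensorProduct.smul_tmul]

lemma exists_tau {K : Type u} [Field K] (a b : K) (h : a ^ 3 = b ^ 2) :
    ∃ τ : K, τ ^ 2 = a ∧ τ ^ 3 = b := by
  by_cases ha : a = 0
  · have hb : b = 0 := by
      have : b ^ 2 = 0 := by rw [← h, ha]; simp
      exact pow_eq_zero_iff (two_ne_zero) |>.1 this
    exact ⟨0, by rw [ha]; simp, by rw [hb]; simp⟩
  · have hb : b ≠ 0 := by
      rintro rfl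
      apply ha
      have : a ^ 3 = 0 := by rw [h]; simp
      exact pow_eq_zero_iff (three_ne_zero) |>.1 this
    refine ⟨b / a, ?_, ?_⟩
    · rw [div_pow, ← h]; field_simp
    · rw [div_pow, h]; field_simp

lemma tau_unique {K : Type u} [Field K] (s t : K) (h2 : s ^ 2 = t ^ 2) (h3 : s ^ 3 = t ^ 3) : s = t := by
  have e4 : (s - t) ^ 3 = 0 := by
    linear_combination 4 * h3 - 3 * t * h2 - 3 * s * h2
  exact sub_eq_zero.1 (pow_eq_zero_iff (three_ne_zero) |>.1 e4)

lemma sub_pow_eq_zero {R : Type u} [CommRing R] {p : ℕ} (hp : p.Prime) (s s' : R)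
    (e2 : s ^ p = s' ^ p) (e3 : (p : R) * s = (p : R) * s') : (s - s') ^ p = 0 := by
  obtain ⟨r, hr⟩ := exists_add_pow_prime_eq hp s' (s - s')
  rw [add_sub_cancel] at hr
  linear_combination e2 - hr - s' * r * e3

theorem s7402 (A : Type u) [CommRing A] (x y : A) (h : x ^ 3 = y ^ 2) :
    FlatMor.IsUnivHomeo (Spec.map (CommRingCat.ofHom (algebraMap A
      (A[X] ⧸ Ideal.span ({X ^ 2 - C x, X ^ 3 - C y} : Set A[X]))))) ∧
    ResSurj (algebraMap A (A[X] ⧸ Ideal.span ({X ^ 2 - C x, X ^ 3 - C y} : Set A[X]))) := by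
  set I := Ideal.span ({X ^ 2 - C x, X ^ 3 - C y} : Set A[X]) with hI
  let t : A[X] ⧸ I := Ideal.Quotient.mk I X
  have ht2 : t ^ 2 = algebraMap A _ x := by
    change Ideal.Quotient.mk I (X ^ 2) = Ideal.Quotient.mk I (C x)
    exact Ideal.Quotient.eq.2 (Ideal.subset_span (by simp))
  have ht3 : t ^ 3 = algebraMap A _ y := by
    change Ideal.Quotient.mk I (X ^ 3) = Ideal.Quotient.mk I (C y)
    exact Ideal.Quotient.eq.2 (Ideal.subset_span (by simp))
  have htop : Algebra.adjoin A {t} = ⊤ := adjoin_quot A I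
  constructor
  · refine monogenic_univHomeo t htop ?_ ?_ ?_
    · refine ⟨X ^ 2 - C x, Polynomial.monic_X_pow_sub_C x two_ne_zero, ?_⟩
      rw [Polynomial.eval₂_sub, Polynomial.eval₂_pow, Polynomial.eval₂_X, Polynomial.eval₂_C, ht2, sub_self]
    · intro q
      have e2 : (t ⊗ₜ[A] (1 : A[X] ⧸ I)) ^ 2 = ((1 : A[X] ⧸ I) ⊗ₜ[A] t) ^ 2 := by
        rw [Algebra.TensorProduct.tmul_pow, Algebra.TensorProduct.tmul_pow, one_pow, ht2,
          amap_tmul]
      have e3 : (t ⊗ₜ[A] (1 : A[X] ⧸ I)) ^ 3 = ((1 : A[X] ⧸ I) ⊗ₜ[A] t) ^ 3 := by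
        rw [Algebra.TensorProduct.tmul_pow, Algebra.TensorProduct.tmul_pow, one_pow, ht3,
          amap_tmul]
      have e4 : (t ⊗ₜ[A] (1 : A[X] ⧸ I) - (1 : A[X] ⧸ I) ⊗ₜ[A] t) ^ 3 = 0 := by
        linear_combination (4 : (A[X] ⧸ I) ⊗[A] (A[X] ⧸ I)) * e3 + (0) * e2 - 3 * ((1 : A[X] ⧸ I) ⊗ₜ[A] t) * e2 - 3 * (t ⊗ₜ[A] (1 : A[X] ⧸ I)) * e2
      exact q.isPrime.mem_of_pow_mem 3 (by rw [e4]; exact q.asIdeal.zero_mem)
    · apply quot_surj
      intro p
      obtain ⟨τ, h1, h2⟩ := exists_tau (algebraMap A p.asIdeal.ResidueField x)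
        (algebraMap A p.asIdeal.ResidueField y) (by rw [← map_pow, ← map_pow, h])
      refine ⟨algebraMap _ _ τ, ?_⟩
      have hle : I ≤ RingHom.ker (Polynomial.eval₂RingHom ((algebraMap p.asIdeal.ResidueField
          (AlgebraicClosure p.asIdeal.ResidueField)).comp
          (algebraMap A p.asIdeal.ResidueField)) (algebraMap _ _ τ)) := by
        rw [hI, Ideal.span_le]
        rintro f (rfl | rfl)
        · change Polynomial.eval₂ _ _ _ = 0
          rw [Polynomial.eval₂_sub, Polynomial.eval₂_pow, Polynomial.eval₂_X, Polynomial.eval₂_C,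
            ← map_pow, h1, RingHom.comp_apply, sub_self]
        · change Polynomial.eval₂ _ _ _ = 0
          rw [Polynomial.eval₂_sub, Polynomial.eval₂_pow, Polynomial.eval₂_X, Polynomial.eval₂_C,
            ← map_pow, h2, RingHom.comp_apply, sub_self]
      exact fun f hf => hle hf
  · apply monogenic_res t htop
    intro P
    obtain ⟨τ, h1, h2⟩ := exists_tau
      (algebraMap A (PrimeSpectrum.comap (algebraMap A (A[X] ⧸ I)) P).asIdeal.ResidueField x)
      (algebraMap A (PrimeSpectrum.comap (algebraMap A (A[X] ⧸ I)) P).asIdeal.ResidueField y)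
      (by rw [← map_pow, ← map_pow, h])
    refine ⟨τ, tau_unique _ _ ?_ ?_⟩
    · rw [← map_pow, h1, Ideal.ResidueField.map_algebraMap, ← map_pow, ht2]
    · rw [← map_pow, h2, Ideal.ResidueField.map_algebraMap, ← map_pow, ht3]

end Groth.Agent.H21
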