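import Groth.Agent.Lib.H21MG

set_option autoImplicit false
set_option backward.isDefEq.respectTransparency false
set_option backward.isDefEq.respectTransparency.types false
open CategoryTheory CategoryTheory.Limits AlgebraicGeometry TensorProduct Polynomial

namespace Groth.Agent.H21

universe u

theorem s7403 (A : Type u) [CommRing A] (p : ℕ) (hp : p.Prime) (x y : A)
    (h : (p : A) ^ p * x = y ^ p) :
    FlatMor.IsUnivHomeo (Spec.map (CommRingCat.ofHom (algebraMap A
      (A[X] ⧸ Ideal.span ({X ^ p - C x, C (p : A) * X - C y} : Set A[X]))))) := by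
  set I := Ideal.span ({X ^ p - C x, C (p : A) * X - C y} : Set A[X]) with hI
  let t : A[X] ⧸ I := Ideal.Quotient.mk I X
  have ht2 : t ^ p = algebraMap A _ x := by
    change Ideal.Quotient.mk I (X ^ p) = Ideal.Quotient.mk I (C x)
    exact Ideal.Quotient.eq.2 (Ideal.subset_span (by simp))
  have ht3 : algebraMap A (A[X] ⧸ I) (p : A) * t = algebraMap A _ y := by
    change Ideal.Quotient.mk I (C (p : A) * X) = Ideal.Quotient.mk I (C y)
    exact Ideal.Quotient.eq.2 (Ideal.subset_span (by simp))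
  have htop : Algebra.adjoin A {t} = ⊤ := adjoin_quot A I
  refine monogenic_univHomeo t htop ?_ ?_ ?_
  · refine ⟨X ^ p - C x, Polynomial.monic_X_pow_sub_C x hp.ne_zero, ?_⟩
    rw [Polynomial.eval₂_sub, Polynomial.eval₂_pow, Polynomial.eval₂_X, Polynomial.eval₂_C, ht2, sub_self]
  · intro q
    have e2 : (t ⊗ₜ[A] (1 : A[X] ⧸ I)) ^ p = ((1 : A[X] ⧸ I) ⊗ₜ[A] t) ^ p := by
      rw [Algebra.TensorProduct.tmul_pow, Algebra.TensorProduct.tmul_pow, one_pow, ht2,
        amap_tmul]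
    have e3 : (p : (A[X] ⧸ I) ⊗[A] (A[X] ⧸ I)) * (t ⊗ₜ[A] (1 : A[X] ⧸ I)) =
        (p : (A[X] ⧸ I) ⊗[A] (A[X] ⧸ I)) * ((1 : A[X] ⧸ I) ⊗ₜ[A] t) := by
      have ht3' : (p : A[X] ⧸ I) * t = algebraMap A _ y := by
        rw [← ht3, map_natCast]
      have a1 : (p : (A[X] ⧸ I) ⊗[A] (A[X] ⧸ I)) = (p : A[X] ⧸ I) ⊗ₜ[A] (1 : A[X] ⧸ I) :=
        (map_natCast (Algebra.TensorProduct.includeLeft (R := A) (S := A) (A := A[X] ⧸ I) (B := A[X] ⧸ I)) p).symm
      have a2 : (p : (A[X] ⧸ I) ⊗[A] (A[X] ⧸ I)) = (1 : A[X] ⧸ I) ⊗ₜ[A] (p : A[X] ⧸ I) :=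
        (map_natCast (Algebra.TensorProduct.includeRight (R := A) (A := A[X] ⧸ I) (B := A[X] ⧸ I)) p).symm
      have b1 : (p : (A[X] ⧸ I) ⊗[A] (A[X] ⧸ I)) * (t ⊗ₜ[A] (1 : A[X] ⧸ I)) =
          (algebraMap A _ y) ⊗ₜ[A] (1 : A[X] ⧸ I) := by
        rw [a1, Algebra.TensorProduct.tmul_mul_tmul, ht3', one_mul]
      have b2 : (p : (A[X] ⧸ I) ⊗[A] (A[X] ⧸ I)) * ((1 : A[X] ⧸ I) ⊗ₜ[A] t) =
          (1 : A[X] ⧸ I) ⊗ₜ[A] (algebraMap A _ y) := by
        rw [a2, Algebra.TensorProduct.tmul_mul_tmul, ht3', one_mul]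
      rw [b1, b2, amap_tmul]
    have h4 := sub_pow_eq_zero (R := (A[X] ⧸ I) ⊗[A] (A[X] ⧸ I)) hp (t ⊗ₜ[A] (1 : A[X] ⧸ I))
      ((1 : A[X] ⧸ I) ⊗ₜ[A] t) e2 (by exact e3)
    exact q.isPrime.mem_of_pow_mem p (by rw [h4]; exact q.asIdeal.zero_mem)
  · apply quot_surj
    intro P
    have hτ : ∃ τ : AlgebraicClosure P.asIdeal.ResidueField,
        τ ^ p = algebraMap P.asIdeal.ResidueField (AlgebraicClosure P.asIdeal.ResidueField)
          (algebraMap A P.asIdeal.ResidueField x) ∧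
        algebraMap P.asIdeal.ResidueField (AlgebraicClosure P.asIdeal.ResidueField)
          (algebraMap A P.asIdeal.ResidueField (p : A)) * τ =
          algebraMap P.asIdeal.ResidueField (AlgebraicClosure P.asIdeal.ResidueField)
          (algebraMap A P.asIdeal.ResidueField y) := by
      set F := (algebraMap P.asIdeal.ResidueField (AlgebraicClosure P.asIdeal.ResidueField)).comp
        (algebraMap A P.asIdeal.ResidueField) with hF
      have hh : F (p : A) ^ p * F x = F y ^ p := by rw [← map_pow, ← map_mul, h, map_pow]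
      change ∃ τ, τ ^ p = F x ∧ F (p : A) * τ = F y
      by_cases h0 : F (p : A) = 0
      · rw [h0, zero_pow hp.ne_zero, zero_mul] at hh
        have hy : F y = 0 := pow_eq_zero_iff (hp.ne_zero) |>.1 hh.symm
        obtain ⟨τ, hτ⟩ := IsAlgClosed.exists_pow_nat_eq (F x) hp.pos
        exact ⟨τ, hτ, by rw [h0, hy, zero_mul]⟩
      · refine ⟨F y / F (p : A), ?_, ?_⟩
        · rw [div_pow, ← hh]; field_simp
        · field_simp
    obtain ⟨τ, h1, h2⟩ := hτ
    refine ⟨τ, ?_⟩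
    have hle : I ≤ RingHom.ker (Polynomial.eval₂RingHom ((algebraMap P.asIdeal.ResidueField
        (AlgebraicClosure P.asIdeal.ResidueField)).comp
        (algebraMap A P.asIdeal.ResidueField)) τ) := by
      rw [hI, Ideal.span_le]
      rintro f (rfl | rfl)
      · change Polynomial.eval₂ _ _ _ = 0
        rw [Polynomial.eval₂_sub, Polynomial.eval₂_pow, Polynomial.eval₂_X, Polynomial.eval₂_C,
          h1, RingHom.comp_apply, sub_self]
      · change Polynomial.eval₂ _ _ _ = 0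
        rw [Polynomial.eval₂_sub, Polynomial.eval₂_mul, Polynomial.eval₂_X, Polynomial.eval₂_C,
          Polynomial.eval₂_C, RingHom.comp_apply, RingHom.comp_apply, h2, sub_self]
    exact fun f hf => hle hf

end Groth.Agent.H21
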