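import Groth.Statements.S14295
import Mathlib.Tactic
set_option autoImplicit false
universe u v
namespace Groth.Agent.H21
section
variable {A : Type u} {G : Type v} [AddCommGroup A] [AddCommGroup G] (f : A → G)
    (hf : ∀ x y z : A, f (x + y + z) + f x + f y + f z = f (x + y) + f (x + z) + f (y + z))
include hf

theorem d2_zero : f 0 = 0 := by
  have h := hf 0 0 0
  simp only [add_zero] at h
  have : f 0 + f 0 + f 0 + f 0 = f 0 + f 0 + f 0 + 0 := by rw [h, add_zero]
  exact add_left_cancel this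

/-- `b x y = f(x+y) - f x - f y` is biadditive -/
theorem d2_b_add (x y z : A) : f (x + (y + z)) - f x - f (y + z) = (f (x + y) - f x - f y) + (f (x + z) - f x - f z) := by
  have h := hf x y z
  have : f (x + (y + z)) = f (x + y) + f (x + z) + f (y + z) - f x - f y - f z := by
    rw [← add_assoc, ← h]; abel
  rw [this]; abel

theorem d2_zsmul (n : ℤ) (x : A) :
    f (n • x) = (n * (n + 1) / 2) • f x + (n * (n - 1) / 2) • f (-x) := by
  have h0 := d2_zero f hf
  -- f((n+1)x) + f (n x - x)... use x = n x, y = x, z = -x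
  have key : ∀ m : ℤ, f ((m + 1) • x) - 2 • f (m • x) + f ((m - 1) • x) = f x + f (-x) := by
    intro m
    have h := hf (m • x) x (-x)
    have e1 : m • x + x + -x = m • x := by abel
    have e2 : x + -x = 0 := by abel
    have e3 : m • x + x = (m + 1) • x := by rw [add_smul, one_smul]
    have e4 : m • x + -x = (m - 1) • x := by rw [sub_smul, one_smul]; abel
    rw [e1, e2, h0, e3, e4, add_zero] at h
    have : f ((m + 1) • x) = f (m • x) + f (m • x) + f x + f (-x) - f ((m - 1) • x) := by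
      rw [h]; abel
    rw [this, two_smul]; abel
  -- divisions
  have hd1 : ∀ m : ℤ, 2 * (m * (m + 1) / 2) = m * (m + 1) := fun m =>
    Int.mul_ediv_cancel' (even_iff_two_dvd.1 (Int.even_mul_succ_self m))
  have hd2 : ∀ m : ℤ, 2 * (m * (m - 1) / 2) = m * (m - 1) := fun m =>
    Int.mul_ediv_cancel' (even_iff_two_dvd.1 (by have := Int.even_mul_succ_self (m-1); rw [sub_add_cancel, mul_comm] at this; exact this))
  -- define P m
  have main : ∀ m : ℕ, (f ((m : ℤ) • x) = ((m : ℤ) * (m + 1) / 2) • f x + ((m : ℤ) * (m - 1) / 2) • f (-x)) ∧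
      (f (((m : ℤ) + 1) • x) = (((m : ℤ) + 1) * ((m + 1) + 1) / 2) • f x + (((m : ℤ) + 1) * ((m + 1) - 1) / 2) • f (-x)) ∧
      (f ((-(m : ℤ)) • x) = (-(m : ℤ) * (-m + 1) / 2) • f x + (-(m : ℤ) * (-m - 1) / 2) • f (-x)) ∧
      (f ((-((m : ℤ) + 1)) • x) = (-((m : ℤ) + 1) * (-(m + 1) + 1) / 2) • f x + (-((m : ℤ) + 1) * (-(m + 1) - 1) / 2) • f (-x)) := by
    intro m
    induction m with
    | zero => simp [h0]
    | succ k ih =>
      obtain ⟨i1, i2, i3, i4⟩ := ih
      push_cast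
      refine ⟨i2, ?_, i4, ?_⟩
      · have hk := key ((k : ℤ) + 1)
        rw [i2, add_sub_cancel_right, i1] at hk
        have hs : f (((k : ℤ) + 1 + 1) • x) = f x + f (-x) + 2 • ((((k : ℤ) + 1) * ((k + 1) + 1) / 2) • f x + (((k : ℤ) + 1) * ((k + 1) - 1) / 2) • f (-x)) - (((k : ℤ) * (k + 1) / 2) • f x + ((k : ℤ) * (k - 1) / 2) • f (-x)) := by
          rw [← hk]; abel
        rw [hs]
        have c1 : (((k : ℤ) + 1 + 1) * ((k + 1 + 1) + 1) / 2) = 1 + 2 * (((k : ℤ) + 1) * ((k + 1) + 1) / 2) - ((k : ℤ) * (k + 1) / 2) := by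
          have := hd1 (k+1+1); have := hd1 (k+1); have := hd1 k; nlinarith
        have c2 : (((k : ℤ) + 1 + 1) * ((k + 1 + 1) - 1) / 2) = 1 + 2 * (((k : ℤ) + 1) * ((k + 1) - 1) / 2) - ((k : ℤ) * (k - 1) / 2) := by
          have := hd2 (k+1+1); have := hd2 (k+1); have := hd2 k; nlinarith
        rw [c1, c2]
        simp only [sub_smul, add_smul, mul_smul, one_smul, two_smul]
        abel
      · have hk := key (-((k : ℤ) + 1))
        have e : -((k : ℤ) + 1) + 1 = -k := by ring
        rw [i4, e, i3] at hk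
        have e' : -((k : ℤ) + 1) - 1 = -(k + 1 + 1) := by ring
        rw [e'] at hk
        have hs : f ((-((k : ℤ) + 1 + 1)) • x) = f x + f (-x) + 2 • ((-((k : ℤ) + 1) * (-(k + 1) + 1) / 2) • f x + (-((k : ℤ) + 1) * (-(k + 1) - 1) / 2) • f (-x)) - ((-(k : ℤ) * (-k + 1) / 2) • f x + (-(k : ℤ) * (-k - 1) / 2) • f (-x)) := by
          rw [← hk, e]; abel
        rw [hs]
        have c1 : (-((k : ℤ) + 1 + 1) * (-(k + 1 + 1) + 1) / 2) = 1 + 2 * (-((k : ℤ) + 1) * (-(k + 1) + 1) / 2) - (-(k : ℤ) * (-k + 1) / 2) := by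
          have := hd1 (-(k+1+1)); have := hd1 (-(k+1)); have := hd1 (-k); nlinarith
        have c2 : (-((k : ℤ) + 1 + 1) * (-(k + 1 + 1) - 1) / 2) = 1 + 2 * (-((k : ℤ) + 1) * (-(k + 1) - 1) / 2) - (-(k : ℤ) * (-k - 1) / 2) := by
          have := hd2 (-(k+1+1)); have := hd2 (-(k+1)); have := hd2 (-k); nlinarith
        rw [c1, c2]
        simp only [sub_smul, add_smul, mul_smul, one_smul, two_smul]
        abel
  obtain ⟨m, rfl | rfl⟩ := n.eq_nat_or_neg
  · exact (main m).1
  · exact (main m).2.2.1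

theorem d2_b_smul (n : ℤ) (x y : A) : f (x + n • y) - f x - f (n • y) = n • (f (x + y) - f x - f y) := by
  let b : A →+ G := AddMonoidHom.mk' (fun y => f (x + y) - f x - f y) (fun a b => d2_b_add f hf x a b)
  exact map_zsmul b n y

theorem d2_two (n : ℤ) (hn : ∀ x : A, n • x = 0) (x : A) : n • (f x + f (-x)) = 0 := by
  have h := d2_b_smul f hf n x (-x)
  rw [hn, add_zero, d2_zero f hf, sub_self, sub_zero, add_neg_cancel, d2_zero f hf] at h
  have : n • (f x + f (-x)) = - (n • (0 - f x - f (-x))) := by rw [← smul_neg]; congr 1; abel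
  rw [this, ← h, neg_zero]

end
end Groth.Agent.H21
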