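import Groth.Agent.Lib.H21REL

set_option autoImplicit false
set_option backward.isDefEq.respectTransparency false
set_option backward.isDefEq.respectTransparency.types false
open CategoryTheory CategoryTheory.Limits AlgebraicGeometry TensorProduct

namespace Groth.Agent.H21

universe u

lemma res_surj_of_classes {A D : Type u} [CommRing A] [CommRing D] (ψ : A →+* D)
    (P : PrimeSpectrum D)
    (h : ∀ x : D, ∃ w, Ideal.ResidueField.map (PrimeSpectrum.comap ψ P).asIdeal P.asIdeal ψ rfl w =
      algebraMap D P.asIdeal.ResidueField x) :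
    Function.Surjective (Ideal.ResidueField.map (PrimeSpectrum.comap ψ P).asIdeal P.asIdeal ψ rfl) := by
  intro z
  obtain ⟨x, y, hy, hxy⟩ := exists_frac P.asIdeal z
  have hy' : algebraMap D P.asIdeal.ResidueField y ≠ 0 := by
    rw [ne_eq, Ideal.algebraMap_residueField_eq_zero]
    exact hy
  obtain ⟨w, hw⟩ := h x
  obtain ⟨v, hv⟩ := h y
  refine ⟨w / v, ?_⟩
  rw [map_div₀, hw, hv, ← hxy, mul_div_cancel_left₀ _ hy']

/-- all residue field maps of `Spec ψ` are onto, algebraically. -/
def ResSurj {A D : Type u} [CommRing A] [CommRing D] (ψ : A →+* D) : Prop :=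
  ∀ P : PrimeSpectrum D, Function.Surjective
    (Ideal.ResidueField.map (PrimeSpectrum.comap ψ P).asIdeal P.asIdeal ψ rfl)

lemma resSurj_iff {A D : Type u} [CommRing A] [CommRing D] (ψ : A →+* D) :
    (∀ x : Spec (CommRingCat.of D),
        Function.Surjective ((Spec.map (CommRingCat.ofHom ψ)).residueFieldMap x)) ↔ ResSurj ψ := by
  rw [ResSurj, ← residueFieldsIso_iff]
  refine forall_congr' fun y => ?_
  rw [ConcreteCategory.isIso_iff_bijective]
  exact ⟨fun h => ⟨RingHom.injective ((Spec.map (CommRingCat.ofHom ψ)).residueFieldMap y).hom, h⟩,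
    fun h => h.2⟩

/-- descend `ResSurj` to a subalgebra-like `D → B` with surjective spectrum -/
lemma resSurj_descend {A D B : Type u} [CommRing A] [CommRing D] [CommRing B] (ψ : A →+* D)
    (j : D →+* B) (hj : Function.Surjective (PrimeSpectrum.comap j))
    (h : ∀ (P : PrimeSpectrum B) (x : D), ∃ w, Ideal.ResidueField.map
      (PrimeSpectrum.comap (j.comp ψ) P).asIdeal P.asIdeal (j.comp ψ) rfl w =
      algebraMap B P.asIdeal.ResidueField (j x)) : ResSurj ψ := by
  intro Q
  obtain ⟨P, rfl⟩ := hj Q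
  apply res_surj_of_classes
  intro x
  obtain ⟨w, hw⟩ := h P x
  refine ⟨w, ?_⟩
  apply RingHom.injective (Ideal.ResidueField.map (PrimeSpectrum.comap j P).asIdeal P.asIdeal j rfl)
  have h1 := resmap_comp ψ j (j.comp ψ) rfl (PrimeSpectrum.comap (j.comp ψ) P).asIdeal
    (PrimeSpectrum.comap j P).asIdeal P.asIdeal rfl rfl rfl w
  rw [Ideal.ResidueField.map_algebraMap]
  exact h1.trans hw

lemma resSurj_sub {A B : Type u} [CommRing A] [CommRing B] [Algebra A B] [Algebra.IsIntegral A B]
    (h : ResSurj (algebraMap A B)) (E : Subalgebra A B) : ResSurj (algebraMap A E) :=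
  resSurj_descend (algebraMap A E) E.val.toRingHom (sub_surj E) (fun P x => h P _)

lemma resSurj_equiv {A E D : Type u} [CommRing A] [CommRing E] [CommRing D] [Algebra A E]
    [Algebra A D] (e : E ≃ₐ[A] D) (h : ResSurj (algebraMap A E)) : ResSurj (algebraMap A D) := by
  intro P
  apply res_surj_of_classes
  intro x
  obtain ⟨y, rfl⟩ := e.surjective x
  obtain ⟨w, hw⟩ := h (PrimeSpectrum.comap e.toAlgHom.toRingHom P) (algebraMap E _ y)
  have hc : e.toAlgHom.toRingHom.comp (algebraMap A E) = algebraMap A D := e.toAlgHom.comp_algebraMap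
  have hp : PrimeSpectrum.comap (algebraMap A D) P =
      PrimeSpectrum.comap (algebraMap A E) (PrimeSpectrum.comap e.toAlgHom.toRingHom P) := by
    rw [← hc]; rfl
  have h3 : (PrimeSpectrum.comap (algebraMap A E) (PrimeSpectrum.comap e.toAlgHom.toRingHom P)).asIdeal
      = P.asIdeal.comap (algebraMap A D) := (congrArg PrimeSpectrum.asIdeal hp).symm
  have h1 := resmap_comp (algebraMap A E) e.toAlgHom.toRingHom (algebraMap A D) hc
    (PrimeSpectrum.comap (algebraMap A E) (PrimeSpectrum.comap e.toAlgHom.toRingHom P)).asIdeal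
    (PrimeSpectrum.comap e.toAlgHom.toRingHom P).asIdeal P.asIdeal rfl rfl h3 w
  have h2 := congrArg (Ideal.ResidueField.map (PrimeSpectrum.comap e.toAlgHom.toRingHom P).asIdeal
    P.asIdeal e.toAlgHom.toRingHom rfl) hw
  rw [Ideal.ResidueField.map_algebraMap] at h2
  have h4 : Ideal.ResidueField.map (PrimeSpectrum.comap (algebraMap A E)
      (PrimeSpectrum.comap e.toAlgHom.toRingHom P)).asIdeal P.asIdeal (algebraMap A D) h3 w =
      algebraMap D P.asIdeal.ResidueField (e y) := h1.symm.trans h2
  have h5 : ∀ (p p' : PrimeSpectrum A) (hpp : p = p') (w : p'.asIdeal.ResidueField)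
      (h3 : p'.asIdeal = P.asIdeal.comap (algebraMap A D)) (h3' : p.asIdeal = P.asIdeal.comap (algebraMap A D)),
      ∃ w' : p.asIdeal.ResidueField, Ideal.ResidueField.map p.asIdeal P.asIdeal (algebraMap A D) h3' w' =
        Ideal.ResidueField.map p'.asIdeal P.asIdeal (algebraMap A D) h3 w := by
    rintro p _ rfl w h3 h3'
    exact ⟨w, rfl⟩
  obtain ⟨w', hw'⟩ := h5 _ _ hp w h3 rfl
  exact ⟨w', hw'.trans h4⟩

lemma univHomeo_equiv {A E D : Type u} [CommRing A] [CommRing E] [CommRing D] [Algebra A E]
    [Algebra A D] (e : E ≃ₐ[A] D) (h : FlatMor.IsUnivHomeo (Spec.map (CommRingCat.ofHom (algebraMap A E)))) :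
    FlatMor.IsUnivHomeo (Spec.map (CommRingCat.ofHom (algebraMap A D))) := by
  have hEi := integral_of_univHomeo' h
  refine univHomeo_criterion ⟨fun x => ?_⟩ ?_ ?_
  · obtain ⟨y, rfl⟩ := e.surjective x
    exact (hEi.isIntegral y).map e
  · intro p
    obtain ⟨q, hq⟩ := (surj_of_univHomeo _ h : Function.Surjective (PrimeSpectrum.comap (algebraMap A E))) p
    refine ⟨PrimeSpectrum.comap e.symm.toAlgHom.toRingHom q, ?_⟩
    rw [← hq, ← PrimeSpectrum.comap_comp_apply]
    congr 1
    exact e.symm.toAlgHom.comp_algebraMap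
  · intro c
    obtain ⟨y, rfl⟩ := e.surjective c
    exact nilp_push e.toAlgHom y (nilp_of_univHomeo h y)

/-- the elements whose residue classes come from the residue fields of the base -/
noncomputable def trivRes (A E : Type u) [CommRing A] [CommRing E] [Algebra A E] : Subalgebra A E :=
    { carrier := {b | ∀ P : PrimeSpectrum E, algebraMap E P.asIdeal.ResidueField b ∈
        (Ideal.ResidueField.map (PrimeSpectrum.comap (algebraMap A E) P).asIdeal P.asIdeal
          (algebraMap A E) rfl).range}
      mul_mem' := fun ha hb P => by rw [map_mul]; exact mul_mem (ha P) (hb P)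
      add_mem' := fun ha hb P => by rw [map_add]; exact add_mem (ha P) (hb P)
      algebraMap_mem' := fun a P => ⟨algebraMap A _ a, Ideal.ResidueField.map_algebraMap _ _ _ _ _⟩ }

lemma trivRes_resSurj (A E : Type u) [CommRing A] [CommRing E] [Algebra A E] [Algebra.IsIntegral A E] :
    ResSurj (algebraMap A (trivRes A E)) :=
  resSurj_descend (algebraMap A (trivRes A E)) (trivRes A E).val.toRingHom (sub_surj _)
    (fun P x => x.2 P)

lemma mem_trivRes {A E C : Type u} [CommRing A] [CommRing E] [Algebra A E] [CommRing C] [Algebra A C]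
    (H : C →ₐ[A] E) (hCr : ResSurj (algebraMap A C)) (c : C) : H c ∈ trivRes A E := by
  intro P
  obtain ⟨w, hw⟩ := hCr (PrimeSpectrum.comap H.toRingHom P) (algebraMap C _ c)
  have hc : H.toRingHom.comp (algebraMap A C) = algebraMap A E := H.comp_algebraMap
  have hp : PrimeSpectrum.comap (algebraMap A E) P =
      PrimeSpectrum.comap (algebraMap A C) (PrimeSpectrum.comap H.toRingHom P) := by
    rw [← hc]; rfl
  have h3 : (PrimeSpectrum.comap (algebraMap A C) (PrimeSpectrum.comap H.toRingHom P)).asIdeal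
      = P.asIdeal.comap (algebraMap A E) := (congrArg PrimeSpectrum.asIdeal hp).symm
  have h1 := resmap_comp (algebraMap A C) H.toRingHom (algebraMap A E) hc
    (PrimeSpectrum.comap (algebraMap A C) (PrimeSpectrum.comap H.toRingHom P)).asIdeal
    (PrimeSpectrum.comap H.toRingHom P).asIdeal P.asIdeal rfl rfl h3 w
  have h2 := congrArg (Ideal.ResidueField.map (PrimeSpectrum.comap H.toRingHom P).asIdeal
    P.asIdeal H.toRingHom rfl) hw
  rw [Ideal.ResidueField.map_algebraMap] at h2
  have h5 : ∀ (p p' : PrimeSpectrum A) (hpp : p = p') (w : p'.asIdeal.ResidueField)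
      (h3 : p'.asIdeal = P.asIdeal.comap (algebraMap A E)) (h3' : p.asIdeal = P.asIdeal.comap (algebraMap A E)),
      ∃ w' : p.asIdeal.ResidueField, Ideal.ResidueField.map p.asIdeal P.asIdeal (algebraMap A E) h3' w' =
        Ideal.ResidueField.map p'.asIdeal P.asIdeal (algebraMap A E) h3 w := by
    rintro p _ rfl w h3 h3'
    exact ⟨w, rfl⟩
  obtain ⟨w', hw'⟩ := h5 _ _ hp w h3 rfl
  exact ⟨w', hw'.trans (h1.symm.trans h2)⟩

/-- abstract form: a universal homeomorphism `E` and an injection `j : E → B` -/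
lemma rel_semi_aux {A B E : Type u} [CommRing A] [CommRing B] [CommRing E] [Algebra A B]
    [Algebra A E] (j : E →ₐ[A] B) (hj : Function.Injective j)
    (hEu : FlatMor.IsUnivHomeo (Spec.map (CommRingCat.ofHom (algebraMap A E))))
    (hmax : ∀ (C : Type u) [CommRing C] [Algebra A C] (g : C →ₐ[A] B),
        FlatMor.IsUnivHomeo (Spec.map (CommRingCat.ofHom (algebraMap A C))) →
        ∃ H : C →ₐ[A] E, ∀ c, j (H c) = g c) :
    ∃ B' : Subalgebra A B, (FlatMor.IsUnivHomeo (Spec.map (CommRingCat.ofHom (algebraMap A B'))) ∧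
      ResSurj (algebraMap A B')) ∧
      ∀ (C : Type u) [CommRing C] [Algebra A C] (g : C →ₐ[A] B),
        FlatMor.IsUnivHomeo (Spec.map (CommRingCat.ofHom (algebraMap A C))) →
        ResSurj (algebraMap A C) → g.range ≤ B' := by
  have hEi : Algebra.IsIntegral A E := integral_of_univHomeo' hEu
  have hSu := sub_univHomeo hEu (trivRes A E)
  have hSr := trivRes_resSurj A E
  refine ⟨(trivRes A E).map j, ⟨univHomeo_equiv ((trivRes A E).equivMapOfInjective j hj) hSu,
    resSurj_equiv ((trivRes A E).equivMapOfInjective j hj) hSr⟩, ?_⟩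
  rintro C _ _ g hC hCr _ ⟨c, rfl⟩
  obtain ⟨H, hH⟩ := hmax C g hC
  exact ⟨H c, mem_trivRes H hCr c, hH c⟩

theorem rel_semi {A B : Type u} [CommRing A] [CommRing B] [Algebra A B]
    [IsDominant (Spec.map (CommRingCat.ofHom (algebraMap A B)))] :
    ∃ B' : Subalgebra A B, (FlatMor.IsUnivHomeo (Spec.map (CommRingCat.ofHom (algebraMap A B'))) ∧
      ResSurj (algebraMap A B')) ∧
      ∀ (C : Type u) [CommRing C] [Algebra A C] (g : C →ₐ[A] B),
        FlatMor.IsUnivHomeo (Spec.map (CommRingCat.ofHom (algebraMap A C))) →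
        ResSurj (algebraMap A C) → g.range ≤ B' := by
  obtain ⟨E, hEu, hEm⟩ := rel_weak (A := A) (B := B)
  refine rel_semi_aux E.val Subtype.val_injective hEu ?_
  intro C _ _ g hC
  exact ⟨g.codRestrict E (fun c => hEm C g hC ⟨c, rfl⟩), fun c => rfl⟩

theorem sub_inherits {A B : Type u} [CommRing A] [CommRing B] [Algebra A B]
    (B' : Subalgebra A B) :
    (FlatMor.IsUnivHomeo (Spec.map (CommRingCat.ofHom (algebraMap A B))) →
      FlatMor.IsUnivHomeo (Spec.map (CommRingCat.ofHom (algebraMap A B')))) ∧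
    ((FlatMor.IsUnivHomeo (Spec.map (CommRingCat.ofHom (algebraMap A B))) ∧
      ∀ x : Spec (CommRingCat.of B),
        Function.Surjective ((Spec.map (CommRingCat.ofHom (algebraMap A B))).residueFieldMap x)) →
      FlatMor.IsUnivHomeo (Spec.map (CommRingCat.ofHom (algebraMap A B'))) ∧
      ∀ x : Spec (CommRingCat.of B'),
        Function.Surjective ((Spec.map (CommRingCat.ofHom (algebraMap A B'))).residueFieldMap x)) ∧
    (UniversallyClosed (Spec.map (CommRingCat.ofHom (algebraMap A B))) →
      UniversallyClosed (Spec.map (CommRingCat.ofHom (algebraMap A B')))) ∧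
    (UniversallyClosed (Spec.map (CommRingCat.ofHom (algebraMap A B))) →
      UniversallyInjective (Spec.map (CommRingCat.ofHom (algebraMap A B))) →
      UniversallyClosed (Spec.map (CommRingCat.ofHom (algebraMap A B'))) ∧
      UniversallyInjective (Spec.map (CommRingCat.ofHom (algebraMap A B')))) := by
  have hcl : UniversallyClosed (Spec.map (CommRingCat.ofHom (algebraMap A B))) →
      Algebra.IsIntegral A B := by
    intro h1
    have h2 : IsIntegralHom (Spec.map (CommRingCat.ofHom (algebraMap A B))) :=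
      IsIntegralHom.iff_universallyClosed_and_isAffineHom.2 ⟨h1, inferInstance⟩
    rw [IsIntegralHom.SpecMap_iff] at h2
    exact algebraMap_isIntegral_iff.1 h2
  have hcl2 : Algebra.IsIntegral A B →
      UniversallyClosed (Spec.map (CommRingCat.ofHom (algebraMap A B'))) := by
    intro h1
    have h2 : IsIntegralHom (Spec.map (CommRingCat.ofHom (algebraMap A B'))) := by
      rw [IsIntegralHom.SpecMap_iff]
      exact algebraMap_isIntegral_iff.2 (sub_integral B')
    infer_instance
  refine ⟨fun h => sub_univHomeo h B', ?_, fun h => hcl2 (hcl h), fun h h' => ⟨hcl2 (hcl h), ?_⟩⟩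
  · rintro ⟨h1, h2⟩
    have := integral_of_univHomeo' h1
    refine ⟨sub_univHomeo h1 B', ?_⟩
    rw [resSurj_iff] at h2 ⊢
    exact resSurj_sub h2 B'
  · have := hcl h
    rw [univInj_iff_nilp] at h' ⊢
    intro e
    exact nilp_descend B'.val (sub_surj B') e (h' e.1)

end Groth.Agent.H21
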