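import Groth.Prelude.Def_RootCh2
import Mathlib.LinearAlgebra.RootSystem.BaseExists
import Mathlib.Tactic

set_option autoImplicit false
set_option linter.unusedSectionVars false
open Module RootPairing RootCh

namespace Groth.Agent.H21

universe u v w x
variable {ι : Type u} {R : Type v} {M : Type w} {N : Type x}
    [Field R] [LinearOrder R] [IsStrictOrderedRing R]
    [AddCommGroup M] [Module R M] [AddCommGroup N] [Module R N]

section basic
variable {P : RootPairing ι R M N} [P.IsRootSystem]

lemma coroot'_fw [DecidableEq ι] (b : P.Base) (i j : b.support) :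
    P.coroot' j (fundWeight b i) = if j = i then 1 else 0 := by
  split_ifs with h
  · subst h; exact coroot'_fundWeight_self b j
  · exact coroot'_fundWeight_of_ne b i j h

lemma ext_coroot (b : P.Base) {ξ η : M} (h : ∀ j ∈ b.support, P.coroot' j ξ = P.coroot' j η) :
    ξ = η := by
  apply P.toPerfPair.injective
  apply b.toCoweightBasis.ext
  intro j
  rw [Base.toCoweightBasis_apply]
  exact h j j.2

/-- expansion of a vector in fundamental weights -/
lemma eq_sum_fw (b : P.Base) (ξ : M) :
    ξ = ∑ j : b.support, (P.coroot' j ξ) • fundWeight b j := by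
  classical
  apply ext_coroot b
  intro k hk
  simp only [map_sum, map_smul, smul_eq_mul]
  have : ∀ j : b.support, P.coroot' k (fundWeight b j) = if (⟨k, hk⟩ : b.support) = j then 1 else 0 :=
    fun j => coroot'_fw b j ⟨k, hk⟩
  simp [this]

lemma coroot'_eq_sum (b : P.Base) (k : ι) (ξ : M) :
    P.coroot' k ξ = ∑ j : b.support, (P.coroot' j ξ) * P.coroot' k (fundWeight b j) := by
  conv_lhs => rw [eq_sum_fw b ξ]
  simp

lemma fw_ne_zero (b : P.Base) (i : b.support) : fundWeight b i ≠ 0 := by
  intro h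
  have := coroot'_fundWeight_self b i
  rw [h] at this
  simp at this

lemma coroot'_neg (k : ι) (ξ : M) : P.coroot' (P.reflectionPerm k k) ξ = - P.coroot' k ξ := by
  have := P.indexNeg
  simp [RootPairing.coroot', P.coroot_reflectionPerm, LinearMap.flip_apply]

lemma root'_neg (k : ι) (y : N) : P.root' (P.reflectionPerm k k) y = - P.root' k y := by
  simp [RootPairing.root', P.root_reflectionPerm]

end basic

section form
variable {P : RootPairing ι R M N}

lemma inv_form (B : LinearMap.BilinForm R M)
    (hBi : ∀ (i : ι) (y z : M), B (P.reflection i y) (P.reflection i z) = B y z) (k : ι) (x : M) :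
    2 * B x (P.root k) = P.coroot' k x * B (P.root k) (P.root k) := by
  have h := hBi k x (P.root k)
  rw [P.reflection_apply, P.reflection_apply_self] at h
  simp only [map_sub, map_smul, LinearMap.sub_apply, LinearMap.smul_apply, map_neg,
    smul_eq_mul] at h
  change -((B x) (P.root k) - P.coroot' k x * (B (P.root k)) (P.root k)) = _ at h
  linarith

lemma exists_form [Finite ι] (P : RootPairing ι R M N) [P.IsRootSystem] :
    ∃ B : LinearMap.BilinForm R M, (∀ x y, B x y = B y x) ∧ (∀ x, x ≠ 0 → 0 < B x x) ∧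
      (∀ (i : ι) x y, B (P.reflection i x) (P.reflection i y) = B x y) := by
  classical
  have : Fintype ι := Fintype.ofFinite ι
  refine ⟨P.RootForm, fun x y => ?_, fun x hx => ?_, fun i x y =>
    P.rootForm_reflection_reflection_apply i x y⟩
  · exact (P.rootForm_symmetric.eq x y)
  · exact P.rootForm_pos_of_ne_zero (by simp) hx

/-- transport a vector of `M` to `N` by an invariant form. -/
lemma exists_dual_vec [P.IsRootSystem] (B : LinearMap.BilinForm R M)
    (hBp : ∀ x, x ≠ 0 → 0 < B x x)
    (hBi : ∀ (i : ι) (y z : M), B (P.reflection i y) (P.reflection i z) = B y z) (ξ : M) :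
    ∃ y : N, (∀ η : M, P.toLinearMap η y = B ξ η) ∧
      ∀ k, P.root' k y = P.coroot' k ξ * (B (P.root k) (P.root k) / 2) := by
  refine ⟨P.flip.toPerfPair.symm (B ξ), ?_, ?_⟩
  · intro η
    have := P.flip.toLinearMap.apply_symm_toPerfPair_self (B ξ)
    exact congrArg (fun f => f η) this
  · intro k
    have := P.flip.toLinearMap.apply_symm_toPerfPair_self (B ξ)
    have h2 : P.root' k (P.flip.toPerfPair.symm (B ξ)) = B ξ (P.root k) :=
      congrArg (fun f => f (P.root k)) this
    rw [h2]
    have := inv_form (P := P) B hBi k ξ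
    linarith

lemma root_norm_pos [P.IsRootSystem] (B : LinearMap.BilinForm R M)
    (hBp : ∀ x, x ≠ 0 → 0 < B x x) (k : ι) : 0 < B (P.root k) (P.root k) :=
  hBp _ (P.ne_zero k)

lemma sign_mul_pos {a c : R} (hc : 0 < c) : SignType.sign (a * c) = SignType.sign a := by
  rw [sign_mul, sign_pos hc, mul_one]

lemma cosgnVec_eq_of [P.IsRootSystem] (B : LinearMap.BilinForm R M)
    (hBp : ∀ x, x ≠ 0 → 0 < B x x) {ξ : M} {y : N}
    (h : ∀ k, P.root' k y = P.coroot' k ξ * (B (P.root k) (P.root k) / 2)) :
    cosgnVec P y = sgnVec P ξ := by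
  ext1 k
  simp only [cosgnVec, sgnVec, h k]
  exact sign_mul_pos (half_pos (root_norm_pos B hBp k))

end form

section pos
variable [Finite ι] {P : RootPairing ι R M N} [P.IsRootSystem] [P.IsCrystallographic] [P.IsReduced]

lemma isPos_neg_iff (b : P.Base) (i : ι) : b.IsPos (P.reflectionPerm i i) ↔ ¬ b.IsPos i :=
  Base.IsPos.neg_iff_not b i

lemma isPos_refl_iff (b : P.Base) {i j : ι} (hj : j ∈ b.support) (h1 : i ≠ j)
    (h2 : i ≠ P.reflectionPerm j j) : b.IsPos (P.reflectionPerm j i) ↔ b.IsPos i := by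
  constructor
  · intro h
    have := Base.IsPos.reflectionPerm h hj (fun h' => h2 (by
      have := congrArg (P.reflectionPerm j) h'
      rwa [P.reflectionPerm_self] at this))
    rwa [P.reflectionPerm_self] at this
  · intro h
    exact Base.IsPos.reflectionPerm h hj h1

lemma flip_isPos_iff (b : P.Base) (i : ι) : b.flip.IsPos i ↔ b.IsPos i := by
  have hneg : ∀ i, (b.flip.IsPos i ↔ b.IsPos i) →
      (b.flip.IsPos (P.reflectionPerm i i) ↔ b.IsPos (P.reflectionPerm i i)) := by
    intro i hi
    rw [isPos_neg_iff b i, ← hi]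
    exact isPos_neg_iff b.flip i
  refine Base.induction_reflect (b := b) i (p := fun i => (b.flip.IsPos i ↔ b.IsPos i)) hneg
    (fun j hj => ?_) (fun k j hk hj => ?_)
  · exact iff_of_true (Base.isPos_of_mem_support (b := b.flip) hj) (Base.isPos_of_mem_support hj)
  · by_cases h1 : k = j
    · subst h1; exact hneg k hk
    by_cases h2 : k = P.reflectionPerm j j
    · rw [h2, P.reflectionPerm_self]
      exact iff_of_true (Base.isPos_of_mem_support (b := b.flip) hj) (Base.isPos_of_mem_support hj)
    · rw [isPos_refl_iff b hj h1 h2, ← hk]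
      exact isPos_refl_iff b.flip hj h1 h2

lemma coroot'_fw_nat (b : P.Base) {k : ι} (hk : b.IsPos k) (j : b.support) :
    ∃ n : ℕ, P.coroot' k (fundWeight b j) = n := by
  classical
  have hk' : b.flip.IsPos k := (flip_isPos_iff b k).2 hk
  obtain ⟨f, hf, h | h⟩ := b.flip.exists_root_eq_sum_nat_or_neg k
  · refine ⟨f j, ?_⟩
    change P.coroot k = ∑ l ∈ b.support, f l • P.coroot l at h
    have : P.coroot' k (fundWeight b j) = ∑ l ∈ b.support, (f l : R) * P.coroot' l (fundWeight b j) := by
      change P.toLinearMap (fundWeight b j) (P.coroot k) = _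
      rw [h, map_sum]
      refine Finset.sum_congr rfl fun l _ => ?_
      rw [map_nsmul, nsmul_eq_mul]
      rfl
    rw [this, Finset.sum_eq_single_of_mem (j : ι) j.2]
    · rw [coroot'_fundWeight_self, mul_one]
    · intro l hl hlj
      have := coroot'_fundWeight_of_ne b j ⟨l, hl⟩ (fun h => hlj (by rw [← h]))
      simp only at this
      rw [this, mul_zero]
  · exfalso
    have h2 : P.flip.root k = ∑ l ∈ b.flip.support, (-(f l : ℤ)) • P.flip.root l := by
      rw [h]; simp
    rw [Base.isPos_iff, Base.height_eq_sum h2] at hk'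
    have : ∑ l ∈ b.flip.support, (-(f l : ℤ)) ≤ 0 := Finset.sum_nonpos (by intros; simp)
    omega

lemma coroot'_fw_nonneg (b : P.Base) {k : ι} (hk : b.IsPos k) (j : b.support) :
    0 ≤ P.coroot' k (fundWeight b j) := by
  obtain ⟨n, hn⟩ := coroot'_fw_nat b hk j
  rw [hn]; positivity

lemma coroot'_fw_int (b : P.Base) (k : ι) (j : b.support) :
    ∃ n : ℤ, P.coroot' k (fundWeight b j) = n := by
  by_cases hk : b.IsPos k
  · obtain ⟨n, hn⟩ := coroot'_fw_nat b hk j
    exact ⟨n, by simp [hn]⟩
  · have hk2 : b.IsPos (P.reflectionPerm k k) := (isPos_neg_iff b k).2 hk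
    obtain ⟨n, hn⟩ := coroot'_fw_nat b hk2 j
    rw [coroot'_neg] at hn
    exact ⟨-n, by push_cast; linarith⟩

lemma closed_nonneg (b : P.Base) {ξ : M} (hξ : ξ ∈ closedChamber b) {k : ι} (hk : b.IsPos k) :
    0 ≤ P.coroot' k ξ := by
  rw [coroot'_eq_sum b]
  exact Finset.sum_nonneg fun j _ => mul_nonneg (hξ j j.2) (coroot'_fw_nonneg b hk j)

lemma closed_iff (b : P.Base) {ξ : M} : ξ ∈ closedChamber b ↔ ∀ k, b.IsPos k → 0 ≤ P.coroot' k ξ :=
  ⟨fun h k hk => closed_nonneg b h hk, fun h j hj => h j (Base.isPos_of_mem_support hj)⟩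

lemma closed_eq_zero_iff (b : P.Base) {ξ : M} (hξ : ξ ∈ closedChamber b) {k : ι} (hk : b.IsPos k) :
    P.coroot' k ξ = 0 ↔ ∀ j : b.support, P.coroot' j ξ = 0 ∨ P.coroot' k (fundWeight b j) = 0 := by
  rw [coroot'_eq_sum b k, Finset.sum_eq_zero_iff_of_nonneg
    (fun (j : b.support) _ => mul_nonneg (hξ j j.2) (coroot'_fw_nonneg b hk j))]
  simp only [Finset.mem_univ, mul_eq_zero, true_implies]

lemma exists_coroot'_fw_ne (b : P.Base) (k : ι) : ∃ j : b.support, P.coroot' k (fundWeight b j) ≠ 0 := by
  by_contra! h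
  have h2 : P.coroot' k (P.root k) = 2 := by simp
  rw [coroot'_eq_sum b] at h2
  simp [h] at h2

lemma open_pos (b : P.Base) {ξ : M} (hξ : ξ ∈ openChamber b) {k : ι} (hk : b.IsPos k) :
    0 < P.coroot' k ξ := by
  have hc : ξ ∈ closedChamber b := fun j hj => (hξ j hj).le
  refine lt_of_le_of_ne (closed_nonneg b hc hk) (fun h => ?_)
  obtain ⟨j, hj⟩ := exists_coroot'_fw_ne b k
  rcases (closed_eq_zero_iff b hc hk).1 h.symm j with h1 | h1
  · exact (hξ j j.2).ne' h1
  · exact hj h1

lemma isPos_iff_open (b : P.Base) {ξ : M} (hξ : ξ ∈ openChamber b) {k : ι} :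
    b.IsPos k ↔ 0 < P.coroot' k ξ := by
  refine ⟨open_pos b hξ, fun h => ?_⟩
  by_contra hk
  have := open_pos b hξ ((isPos_neg_iff b k).2 hk)
  rw [coroot'_neg] at this
  linarith

/-- the set of indices of a base is determined by its positive roots. -/
lemma exists_base_of_regularN (y : N) (hy : ∀ k, P.root' k y ≠ 0) :
    ∃ b : P.Base, ∀ k, b.IsPos k ↔ 0 < P.root' k y := by
  classical
  let f : Dual R M := P.toLinearMap.flip y
  have hf : ∀ k, f (P.root k) = P.root' k y := fun k => rfl
  let _ := P.indexNeg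
  refine ⟨Base.mk' P (IsAddIndecomposable.baseOf P.root (f : M →+ R))
    (P.linearIndepOn_root_baseOf' (S := R) f (fun k => by rw [hf]; exact hy k))
    (fun i => IsAddIndecomposable.mem_or_neg_mem_closure_baseOf P.root (f : M →+ R) i
      (by change f (P.root i) ≠ 0; rw [hf]; exact hy i) (by simp)), fun k => ?_⟩
  set b : P.Base := Base.mk' P (IsAddIndecomposable.baseOf P.root (f : M →+ R)) _ _ with hb
  have hsimple : ∀ j ∈ b.support, 0 < P.root' j y := by
    intro j hj
    have hj' : j ∈ IsAddIndecomposable.baseOf P.root (f : M →+ R) := by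
      simpa [hb, Base.mk'] using hj
    exact hj'.1
  have hopen : y ∈ openChamber b.flip := hsimple
  rw [← flip_isPos_iff b k]
  exact isPos_iff_open b.flip hopen

end pos

end Groth.Agent.H21
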