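import Groth.Agent.Lib.H21RootA

set_option autoImplicit false
set_option linter.unusedSectionVars false
set_option linter.unusedVariables false
open Module RootPairing RootCh

namespace Groth.Agent.H21

universe u v w x
variable {ι : Type u} {R : Type v} {M : Type w} {N : Type x}
    [Field R] [LinearOrder R] [IsStrictOrderedRing R]
    [AddCommGroup M] [Module R M] [AddCommGroup N] [Module R N]

lemma exists_eps [Finite ι] (f g : ι → R) : ∃ ε : R, 0 < ε ∧
    ∀ k, (0 < f k → 0 < f k + ε * g k) ∧ (f k < 0 → f k + ε * g k < 0) := by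
  classical
  have : Fintype ι := Fintype.ofFinite ι
  set A : R := 1 + ∑ k, |g k| / |f k| with hA
  have hnn : ∀ k ∈ (Finset.univ : Finset ι), 0 ≤ |g k| / |f k| := fun k _ => by positivity
  have hA0 : 0 < A := by
    have := Finset.sum_nonneg hnn
    linarith
  have key : ∀ k, f k ≠ 0 → A⁻¹ * |g k| < |f k| := by
    intro k hk
    have h1 : |g k| / |f k| < A := by
      have := Finset.single_le_sum hnn (Finset.mem_univ k)
      linarith
    have hf : 0 < |f k| := abs_pos.2 hk
    rw [div_lt_iff₀ hf] at h1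
    rw [inv_mul_lt_iff₀ hA0]
    exact h1
  refine ⟨A⁻¹, inv_pos.2 hA0, fun k => ⟨fun h => ?_, fun h => ?_⟩⟩
  · have := key k h.ne'
    rw [abs_of_pos h] at this
    have h2 : A⁻¹ * (-g k) ≤ A⁻¹ * |g k| := mul_le_mul_of_nonneg_left (neg_le_abs _) (inv_pos.2 hA0).le
    linarith
  · have := key k h.ne
    rw [abs_of_neg h] at this
    have h2 : A⁻¹ * (g k) ≤ A⁻¹ * |g k| := mul_le_mul_of_nonneg_left (le_abs_self _) (inv_pos.2 hA0).le
    linarith

section facets
variable [Finite ι] {P : RootPairing ι R M N} [P.IsRootSystem] [P.IsCrystallographic] [P.IsReduced]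

lemma sgnVec_neg (ξ : M) (k : ι) : sgnVec P ξ (P.reflectionPerm k k) = - sgnVec P ξ k := by
  simp only [sgnVec, coroot'_neg, Left.sign_neg]

lemma sgn_neg (F : Facet P) (k : ι) : F.sgn (P.reflectionPerm k k) = - F.sgn k := by
  obtain ⟨ξ, hξ⟩ := F.exists_sgnVec_eq
  rw [← hξ, sgnVec_neg]

lemma mem_carrier_iff {F : Facet P} {ξ : M} :
    ξ ∈ F.carrier ↔ ∀ k, SignType.sign (P.coroot' k ξ) = F.sgn k :=
  ⟨fun h k => congrFun h k, fun h => funext h⟩

lemma carrier_nonempty (F : Facet P) : F.carrier.Nonempty := F.exists_sgnVec_eq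

lemma fw_mem_closed (b : P.Base) (j : b.support) : fundWeight b j ∈ closedChamber b := by
  classical
  intro i hi
  rw [coroot'_fw b j ⟨i, hi⟩]
  split_ifs <;> norm_num

lemma mem_cham_iff_mem {F : Facet P} {ξ : M} (hξ : ξ ∈ F.carrier) {b : P.Base} :
    b ∈ F.cham ↔ ξ ∈ closedChamber b := by
  refine ⟨fun h => h hξ, fun h η hη j hj => ?_⟩
  have h1 := mem_carrier_iff.1 hη j
  rw [← mem_carrier_iff.1 hξ j] at h1
  have h2 := h j hj
  rw [← sign_nonneg_iff] at h2 ⊢
  rwa [h1]

lemma sgn_nonneg_of_cham {F : Facet P} {b : P.Base} (hb : b ∈ F.cham) {k : ι} (hk : b.IsPos k) :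
    0 ≤ F.sgn k := by
  obtain ⟨ξ, hξ⟩ := carrier_nonempty F
  rw [← mem_carrier_iff.1 hξ k]
  exact sign_nonneg_iff.2 (closed_nonneg b (hb hξ) hk)

lemma exists_base_of_regular (ξ : M) (hy : ∀ k, P.coroot' k ξ ≠ 0) :
    ∃ b : P.Base, ∀ k, b.IsPos k ↔ 0 < P.coroot' k ξ := by
  obtain ⟨B, hBs, hBp, hBi⟩ := exists_form P
  obtain ⟨y, -, hy2⟩ := exists_dual_vec B hBp hBi ξ
  have hc : ∀ k, 0 < B (P.root k) (P.root k) / 2 := fun k => half_pos (root_norm_pos B hBp k)
  obtain ⟨b, hb⟩ := exists_base_of_regularN (P := P) y (fun k => by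
    rw [hy2]; exact mul_ne_zero (hy k) (hc k).ne')
  refine ⟨b, fun k => ?_⟩
  rw [hb, hy2, mul_pos_iff_of_pos_right (hc k)]

lemma rho_open (b : P.Base) : (∑ i : b.support, fundWeight b i) ∈ openChamber b := by
  classical
  intro j hj
  rw [map_sum]
  have : ∀ i : b.support, P.coroot' j (fundWeight b i) = if (⟨j, hj⟩ : b.support) = i then 1 else 0 :=
    fun i => coroot'_fw b i ⟨j, hj⟩
  simp [this]

lemma exists_regular (P : RootPairing ι R M N) [P.IsRootSystem] [P.IsCrystallographic]
    [P.IsReduced] : ∃ ρ : M, ∀ k, P.coroot' k ρ ≠ 0 := by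
  obtain ⟨b⟩ := P.nonempty_base
  refine ⟨∑ i : b.support, fundWeight b i, fun k => ?_⟩
  by_cases hk : b.IsPos k
  · exact (open_pos b (rho_open b) hk).ne'
  · have := open_pos b (rho_open b) ((isPos_neg_iff b k).2 hk)
    rw [coroot'_neg] at this
    linarith

lemma exists_cham_eps (F : Facet P) {ξ : M} (hξ : ξ ∈ F.carrier) (η : M) :
    ∃ (ε : R) (b : P.Base), 0 < ε ∧ b ∈ F.cham ∧ ξ + ε • η ∈ closedChamber b := by
  obtain ⟨ρ, hρ⟩ := exists_regular P
  obtain ⟨ε, hε, h1⟩ := exists_eps (fun k => P.coroot' k ξ) (fun k => P.coroot' k η)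
  obtain ⟨δ, hδ, h2⟩ := exists_eps (fun k => P.coroot' k (ξ + ε • η)) (fun k => P.coroot' k ρ)
  obtain ⟨b, hb⟩ := exists_base_of_regular (P := P) (ξ + ε • η + δ • ρ) (fun k => by
    have h3 := h2 k
    simp only [map_add, map_smul, smul_eq_mul] at h3 ⊢
    rcases lt_trichotomy (P.coroot' k ξ + ε * P.coroot' k η) 0 with h | h | h
    · exact (h3.2 h).ne
    · rw [h, zero_add]; exact mul_ne_zero hδ.ne' (hρ k)
    · exact (h3.1 h).ne')
  have h4 : ξ + ε • η ∈ closedChamber b := by
    rw [closed_iff]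
    intro k hk
    rw [hb] at hk
    by_contra! h
    have := (h2 k).2 h
    simp only [map_add, map_smul, smul_eq_mul] at this hk
    linarith
  refine ⟨ε, b, hε, (mem_cham_iff_mem hξ).2 ?_, h4⟩
  rw [closed_iff] at h4 ⊢
  intro k hk
  by_contra! h
  have := (h1 k).2 h
  have h5 := h4 k hk
  simp only [map_add, map_smul, smul_eq_mul] at this h5
  linarith

lemma cham_nonempty (F : Facet P) : F.cham.Nonempty := by
  obtain ⟨ξ, hξ⟩ := carrier_nonempty F
  obtain ⟨ε, b, -, hb, -⟩ := exists_cham_eps F hξ 0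
  exact ⟨b, hb⟩

lemma sgn_rel (b : P.Base) {ξ η : M} (hξ : ξ ∈ closedChamber b) (hη : η ∈ closedChamber b)
    (h : ∀ j ∈ b.support, P.coroot' j η = 0 → P.coroot' j ξ = 0) (k : ι) :
    sgnVec P ξ k = 0 ∨ sgnVec P ξ k = sgnVec P η k := by
  have key : ∀ k, b.IsPos k → (sgnVec P ξ k = 0 ∨ sgnVec P ξ k = sgnVec P η k) := by
    intro k hk
    simp only [sgnVec]
    by_cases h0 : P.coroot' k ξ = 0
    · left; rw [h0, sign_zero]
    · right
      have h1 : 0 < P.coroot' k ξ := lt_of_le_of_ne (closed_nonneg b hξ hk) (Ne.symm h0)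
      have h2 : 0 < P.coroot' k η := by
        refine lt_of_le_of_ne (closed_nonneg b hη hk) (fun h3 => h0 ?_)
        rw [closed_eq_zero_iff b hξ hk]
        intro j
        rcases (closed_eq_zero_iff b hη hk).1 h3.symm j with h4 | h4
        · exact Or.inl (h j j.2 h4)
        · exact Or.inr h4
      rw [sign_pos h1, sign_pos h2]
  by_cases hk : b.IsPos k
  · exact key k hk
  · have := key _ ((isPos_neg_iff b k).2 hk)
    rw [sgnVec_neg, sgnVec_neg] at this
    rcases this with h1 | h1
    · left; simpa using h1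
    · right; exact neg_injective h1

lemma sgn_eq (b : P.Base) {ξ η : M} (hξ : ξ ∈ closedChamber b) (hη : η ∈ closedChamber b)
    (h : ∀ j ∈ b.support, P.coroot' j η = 0 ↔ P.coroot' j ξ = 0) : sgnVec P ξ = sgnVec P η := by
  ext1 k
  rcases sgn_rel b hξ hη (fun j hj => (h j hj).1) k with h1 | h1
  · rcases sgn_rel b hη hξ (fun j hj => (h j hj).2) k with h2 | h2
    · rw [h1, h2]
    · exact h2.symm
  · exact h1

/-- S14227 -/
lemma baseCorners_eq (b : P.Base) : baseCorners b = Set.range (fundWeight b) := by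
  classical
  apply Set.Subset.antisymm
  · rintro w ⟨⟨b', i, rfl⟩, hw⟩
    set w := fundWeight b' i with hwdef
    have hw0 : w ≠ 0 := fw_ne_zero b' i
    -- some coefficient is non zero
    obtain ⟨j, hj⟩ : ∃ j : b.support, P.coroot' j w ≠ 0 := by
      by_contra! h
      exact hw0 (ext_coroot b fun j hj => by rw [h ⟨j, hj⟩, map_zero])
    have hjpos : 0 < P.coroot' j w := lt_of_le_of_ne (hw j j.2) (Ne.symm hj)
    -- ω_j(b) pairs to zero with simple coroots of b' other than i
    have hz : ∀ l : b'.support, l ≠ i → P.coroot' l (fundWeight b j) = 0 := by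
      intro l hl
      have h0 : P.coroot' l w = 0 := coroot'_fundWeight_of_ne b' i l hl
      by_cases hk : b.IsPos l
      · rcases (closed_eq_zero_iff b hw hk).1 h0 j with h1 | h1
        · exact absurd h1 hj
        · exact h1
      · have h0' : P.coroot' (P.reflectionPerm l l) w = 0 := by rw [coroot'_neg, h0, neg_zero]
        rcases (closed_eq_zero_iff b hw ((isPos_neg_iff b l).2 hk)).1 h0' j with h1 | h1
        · exact absurd h1 hj
        · rw [coroot'_neg] at h1
          simpa using h1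
    obtain ⟨t, ht⟩ := coroot'_fw_int b i j
    obtain ⟨c, hc⟩ := coroot'_fw_int b' j i
    have heq : fundWeight b j = (t : R) • w := by
      apply ext_coroot b'
      intro l hl
      by_cases hli : (⟨l, hl⟩ : b'.support) = i
      · subst hli
        rw [map_smul, smul_eq_mul, coroot'_fundWeight_self b' ⟨l, hl⟩, mul_one, ← ht]
      · rw [map_smul, smul_eq_mul, coroot'_fundWeight_of_ne b' i ⟨l, hl⟩ hli, mul_zero]
        exact hz ⟨l, hl⟩ hli
    have h1 : (t : R) * c = 1 := by
      have := congrArg (P.coroot' j) heq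
      rw [coroot'_fundWeight_self, map_smul, smul_eq_mul, hc] at this
      exact this.symm
    have h2 : t * c = 1 := by exact_mod_cast h1
    have hcpos : 0 < c := by
      rw [hc] at hjpos
      exact_mod_cast hjpos
    have ht1 : t = 1 := by
      rcases Int.mul_eq_one_iff_eq_one_or_neg_one.1 h2 with h | h
      · exact h.1
      · omega
    refine ⟨j, ?_⟩
    rw [heq, ht1]
    simp
  · rintro _ ⟨j, rfl⟩
    exact ⟨⟨b, j, rfl⟩, fw_mem_closed b j⟩

lemma mem_corners_iff {F : Facet P} {b : P.Base} (hb : b ∈ F.cham) {m : M} :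
    m ∈ F.corners ↔ ∃ j : b.support, F.sgn j ≠ 0 ∧ fundWeight b j = m := by
  classical
  constructor
  · rintro ⟨hm, hmc⟩
    have hmb : m ∈ closedChamber b := by
      intro j hj
      have h1 := hmc j
      have h2 := sgn_nonneg_of_cham hb (Base.isPos_of_mem_support hj)
      rw [← sign_nonneg_iff]
      rcases h1 with h1 | h1
      · exact h1.symm.le
      · change sgnVec P m j ≥ 0
        rw [h1]; exact h2
    have : m ∈ baseCorners b := ⟨hm, hmb⟩
    rw [baseCorners_eq] at this
    obtain ⟨j, rfl⟩ := this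
    refine ⟨j, ?_, rfl⟩
    have h3 : sgnVec P (fundWeight b j) j = 1 := by
      change SignType.sign (P.coroot' j (fundWeight b j)) = 1
      rw [coroot'_fundWeight_self, sign_one]
    rcases hmc j with h1 | h1
    · rw [h3] at h1; simp at h1
    · rw [← h1, h3]; simp
  · rintro ⟨j, hj, rfl⟩
    refine ⟨⟨b, j, rfl⟩, fun k => ?_⟩
    obtain ⟨ξ, hξ⟩ := carrier_nonempty F
    have hξ' : sgnVec P ξ = F.sgn := hξ
    rw [← hξ']
    refine sgn_rel b (fw_mem_closed b j) (hb hξ) (fun l hl h0 => ?_) k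
    have : (⟨l, hl⟩ : b.support) ≠ j := by
      rintro rfl
      apply hj
      rw [← mem_carrier_iff.1 hξ]
      simp only
      rw [h0, sign_zero]
    exact coroot'_fundWeight_of_ne b j ⟨l, hl⟩ this


lemma dual_realised (F : Facet P) : ∃ y : N, sgnVec P.flip y = F.sgn := by
  obtain ⟨ξ, hξ⟩ := carrier_nonempty F
  obtain ⟨B, hBs, hBp, hBi⟩ := exists_form P
  obtain ⟨y, -, hy2⟩ := exists_dual_vec B hBp hBi ξ
  exact ⟨y, (cosgnVec_eq_of B hBp hy2).trans hξ⟩

/-- the dual facet as a facet of the flipped root system -/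
def dualFacet (F : Facet P) : Facet P.flip := ⟨F.sgn, dual_realised F⟩

lemma dualFacet_carrier (F : Facet P) : (dualFacet F).carrier = F.dualCarrier := rfl
lemma dualFacet_closure (F : Facet P) : (dualFacet F).closure = F.dualClosure := rfl
lemma dualFacet_corners (F : Facet P) : (dualFacet F).corners = F.dualCorners := rfl
lemma dualFacet_sgn (F : Facet P) : (dualFacet F).sgn = F.sgn := rfl

lemma mem_cham_iff_sgn {F : Facet P} {b : P.Base} :
    b ∈ F.cham ↔ ∀ k, b.IsPos k → 0 ≤ F.sgn k := by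
  refine ⟨fun hb k hk => sgn_nonneg_of_cham hb hk, fun h => ?_⟩
  obtain ⟨ξ, hξ⟩ := carrier_nonempty F
  rw [mem_cham_iff_mem hξ]
  intro j hj
  rw [← sign_nonneg_iff, mem_carrier_iff.1 hξ]
  exact h j (Base.isPos_of_mem_support hj)

lemma flip_mem_cham {F : Facet P} {b : P.Base} : b.flip ∈ (dualFacet F).cham ↔ b ∈ F.cham := by
  rw [mem_cham_iff_sgn, mem_cham_iff_sgn]
  simp only [flip_isPos_iff, dualFacet_sgn]

lemma mem_dualCorners_iff {F : Facet P} {b : P.Base} (hb : b ∈ F.cham) {y : N} :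
    y ∈ F.dualCorners ↔ ∃ j : b.support, F.sgn j ≠ 0 ∧ fundCoweight b j = y := by
  rw [← dualFacet_corners, mem_corners_iff (flip_mem_cham.2 hb)]
  rfl

lemma ofVec_mem (ξ : M) : ξ ∈ (Facet.ofVec P ξ).carrier := rfl

lemma ofVec_fw_sgn (b : P.Base) (i j : b.support) :
    (Facet.ofVec P (fundWeight b i)).sgn j ≠ 0 ↔ j = i := by
  classical
  change SignType.sign (P.coroot' j (fundWeight b i)) ≠ 0 ↔ _
  rw [coroot'_fw]
  split_ifs with h <;> simp [h]

lemma corr_functional {b b' : P.Base} {i : b.support} {i' : b'.support}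
    (h : fundWeight b' i' = fundWeight b i) : fundCoweight b' i' = fundCoweight b i := by
  set G := Facet.ofVec P (fundWeight b i) with hG
  have hb : b ∈ G.cham := (mem_cham_iff_mem (ofVec_mem _)).2 (fw_mem_closed b i)
  have hb' : b' ∈ G.cham := by
    rw [hG, ← h]
    exact (mem_cham_iff_mem (ofVec_mem _)).2 (fw_mem_closed b' i')
  have h1 : fundCoweight b' i' ∈ G.dualCorners := by
    rw [mem_dualCorners_iff hb']
    refine ⟨i', ?_, rfl⟩
    rw [hG, ← h]
    exact (ofVec_fw_sgn b' i' i').2 rfl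
  rw [mem_dualCorners_iff hb] at h1
  obtain ⟨j, hj, hj2⟩ := h1
  rw [hG, ofVec_fw_sgn] at hj
  rw [← hj2, hj]

lemma corr_iff (b : P.Base) (i : b.support) (y : N) :
    Corr P (fundWeight b i) y ↔ y = fundCoweight b i := by
  constructor
  · rintro ⟨b', i', h1, rfl⟩
    exact corr_functional h1
  · rintro rfl
    exact ⟨b, i, rfl, rfl⟩

lemma fundWeight_injective (b : P.Base) : Function.Injective (fundWeight b) := by
  intro i j h
  by_contra hij
  have h1 := coroot'_fundWeight_self b i
  rw [h, coroot'_fundWeight_of_ne b j i hij] at h1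
  exact zero_ne_one h1

/-- S14231 -/
lemma dualCorners_eq (F : Facet P) : F.dualCorners = {y : N | ∃ m ∈ F.corners, Corr P m y} := by
  obtain ⟨b, hb⟩ := cham_nonempty F
  ext y
  rw [mem_dualCorners_iff hb]
  constructor
  · rintro ⟨j, hj, rfl⟩
    exact ⟨fundWeight b j, (mem_corners_iff hb).2 ⟨j, hj, rfl⟩, b, j, rfl, rfl⟩
  · rintro ⟨m, hm, hc⟩
    obtain ⟨j, hj, rfl⟩ := (mem_corners_iff hb).1 hm
    exact ⟨j, hj, ((corr_iff b j y).1 hc).symm⟩

lemma linearIndependent_fw (b : P.Base) : LinearIndependent R (fundWeight b) := by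
  classical
  rw [Fintype.linearIndependent_iff]
  intro g hg i
  have := congrArg (P.coroot' i) hg
  simp only [map_sum, map_smul, smul_eq_mul, coroot'_fw, map_zero] at this
  simpa using this

/-- corners as a range over a subtype. -/
lemma corners_eq_image {F : Facet P} {b : P.Base} (hb : b ∈ F.cham) :
    F.corners = fundWeight b '' {j : b.support | F.sgn j ≠ 0} := by
  ext m
  rw [mem_corners_iff hb]
  rfl

/-- S14228 -/
lemma linearIndepOn_corners (F : Facet P) : LinearIndepOn R (fun m : M => m) F.corners := by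
  obtain ⟨b, hb⟩ := cham_nonempty F
  rw [corners_eq_image hb]
  have := ((linearIndependent_fw b).linearIndepOn (s := {j : b.support | F.sgn j ≠ 0})).id_image
  exact this

/-- key expansion: a vector in the closed chamber is in `F` iff its support is the one of `F`. -/
lemma mem_carrier_iff_supp {F : Facet P} {b : P.Base} (hb : b ∈ F.cham) {ξ : M} :
    ξ ∈ F.carrier ↔ ∀ j ∈ b.support, 0 ≤ P.coroot' j ξ ∧ (P.coroot' j ξ = 0 ↔ F.sgn j = 0) := by
  constructor
  · intro h j hj
    refine ⟨hb h j hj, ?_⟩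
    rw [← mem_carrier_iff.1 h j, sign_eq_zero_iff]
  · intro h
    obtain ⟨η, hη⟩ := carrier_nonempty F
    have h1 : ξ ∈ closedChamber b := fun j hj => (h j hj).1
    have h2 := hb hη
    have h3 : sgnVec P ξ = sgnVec P η := sgn_eq b h1 h2 (fun j hj => by
      rw [(h j hj).2, ← mem_carrier_iff.1 hη j, sign_eq_zero_iff])
    change sgnVec P ξ = F.sgn
    rw [h3]; exact hη

lemma exists_facet_of_supp (b : P.Base) (J : Set b.support) :
    ∃ G : Facet P, b ∈ G.cham ∧ ∀ j : b.support, G.sgn j ≠ 0 ↔ j ∈ J := by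
  classical
  set ξ : M := ∑ i : b.support, (if i ∈ J then (1 : R) else 0) • fundWeight b i with hξ
  have hc : ∀ j : b.support, P.coroot' j ξ = if j ∈ J then 1 else 0 := by
    intro j
    simp only [hξ, map_sum, map_smul, smul_eq_mul, coroot'_fw]
    simp
  refine ⟨Facet.ofVec P ξ, (mem_cham_iff_mem (ofVec_mem _)).2 (fun j hj => ?_), fun j => ?_⟩
  · rw [hc ⟨j, hj⟩]; split_ifs <;> norm_num
  · change SignType.sign (P.coroot' j ξ) ≠ 0 ↔ _
    rw [hc j]; split_ifs with h <;> simp [h]

/-- S14232 -/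
lemma exists_corners_eq_insert (F : Facet P) (m : M) (hm : m ∈ F.corners') :
    ∃ G : Facet P, G.corners = insert m F.corners := by
  simp only [Facet.corners', Set.mem_iUnion] at hm
  obtain ⟨b, hb, hmb⟩ := hm
  rw [baseCorners_eq] at hmb
  obtain ⟨j, rfl⟩ := hmb
  obtain ⟨G, hG, hG2⟩ := exists_facet_of_supp b (insert j {i : b.support | F.sgn i ≠ 0})
  refine ⟨G, ?_⟩
  rw [corners_eq_image hG, corners_eq_image hb, ← Set.image_insert_eq]
  congr 1
  ext i; exact hG2 i

/-- S14233 -/
lemma exists_corners_eq_diff (F : Facet P) (m : M) (hm : m ∈ F.corners) :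
    ∃ G : Facet P, G.corners = F.corners \ {m} := by
  obtain ⟨b, hb⟩ := cham_nonempty F
  obtain ⟨j, hj, rfl⟩ := (mem_corners_iff hb).1 hm
  obtain ⟨G, hG, hG2⟩ := exists_facet_of_supp b ({i : b.support | F.sgn i ≠ 0} \ {j})
  refine ⟨G, ?_⟩
  rw [corners_eq_image hG, corners_eq_image hb, ← Set.image_singleton, ← Set.image_sdiff
    (fundWeight_injective b)]
  congr 1
  ext i; exact hG2 i

/-- S14230 -/
lemma carrier_eq (F : Facet P) : F.carrier = {ξ : M | ∃ c : M →₀ R, (c.support : Set M) ⊆ F.corners ∧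
      (∀ m ∈ F.corners, 0 < c m) ∧ c.sum (fun m r => r • m) = ξ} := by
  classical
  obtain ⟨b, hb⟩ := cham_nonempty F
  ext ξ
  rw [mem_carrier_iff_supp hb]
  constructor
  · intro h
    refine ⟨Finsupp.embDomain ⟨fundWeight b, fundWeight_injective b⟩
      (Finsupp.equivFunOnFinite.symm (fun j : b.support => P.coroot' j ξ)), ?_, ?_, ?_⟩
    · intro m hm
      simp only [Finsupp.support_embDomain, Finset.coe_map, Function.Embedding.coeFn_mk,
        Set.mem_image, SetLike.mem_coe, Finsupp.mem_support_iff,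
        Finsupp.equivFunOnFinite_symm_apply_apply] at hm
      obtain ⟨j, hj, rfl⟩ := hm
      refine (mem_corners_iff hb).2 ⟨j, fun h0 => hj ?_, rfl⟩
      exact ((h j j.2).2).2 h0
    · intro m hm
      obtain ⟨j, hj, rfl⟩ := (mem_corners_iff hb).1 hm
      have := Finsupp.embDomain_apply_self (⟨fundWeight b, fundWeight_injective b⟩ : b.support ↪ M)
        (Finsupp.equivFunOnFinite.symm (fun j : b.support => P.coroot' j ξ)) j
      simp only [Function.Embedding.coeFn_mk] at this
      rw [this]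
      simp only [Finsupp.equivFunOnFinite_symm_apply_apply]
      exact lt_of_le_of_ne (h j j.2).1 (fun h0 => hj (((h j j.2).2).1 h0.symm))
    · rw [Finsupp.sum_embDomain]
      rw [Finsupp.sum_fintype _ _ (by simp)]
      simp only [Finsupp.equivFunOnFinite_symm_apply_apply, Function.Embedding.coeFn_mk]
      exact (eq_sum_fw b ξ).symm
  · rintro ⟨c, hc1, hc2, rfl⟩
    have hsum : c.sum (fun m r => r • m) = ∑ j : b.support, c (fundWeight b j) • fundWeight b j := by
      rw [Finsupp.sum_of_support_subset c (s := Finset.univ.image (fundWeight b))]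
      · rw [Finset.sum_image]
        intro i _ j _ hij
        exact fundWeight_injective b hij
      · intro m hm
        obtain ⟨j, hj, rfl⟩ := (mem_corners_iff hb).1 (hc1 hm)
        simp
      · simp
    have hval : ∀ j : b.support, P.coroot' j (c.sum (fun m r => r • m)) = c (fundWeight b j) := by
      intro j
      rw [hsum, map_sum]
      simp only [map_smul, smul_eq_mul, coroot'_fw]
      simp
    intro j hj
    rw [hval ⟨j, hj⟩]
    by_cases h : F.sgn j = 0
    · have : c (fundWeight b ⟨j, hj⟩) = 0 := by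
        by_contra h0
        have h1 := hc1 (Finsupp.mem_support_iff.2 h0)
        obtain ⟨l, hl, hl2⟩ := (mem_corners_iff hb).1 h1
        rw [fundWeight_injective b hl2] at hl
        exact hl h
      simp [this, h]
    · have := hc2 _ ((mem_corners_iff hb).2 ⟨⟨j, hj⟩, h, rfl⟩)
      exact ⟨this.le, iff_of_false this.ne' h⟩

lemma mem_span_corners_iff {F : Facet P} {b : P.Base} (hb : b ∈ F.cham) {ξ : M} :
    ξ ∈ Submodule.span R F.corners ↔ ∀ j ∈ b.support, F.sgn j = 0 → P.coroot' j ξ = 0 := by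
  constructor
  · intro h j hj h0
    induction h using Submodule.span_induction with
    | mem m hm =>
      obtain ⟨l, hl, rfl⟩ := (mem_corners_iff hb).1 hm
      refine coroot'_fundWeight_of_ne b l ⟨j, hj⟩ ?_
      rintro rfl
      exact hl h0
    | zero => simp
    | add x y _ _ hx hy => rw [map_add, hx, hy, add_zero]
    | smul a x _ hx => rw [map_smul, hx, smul_zero]
  · intro h
    rw [eq_sum_fw b ξ]
    refine Submodule.sum_mem _ fun j _ => ?_
    by_cases h0 : F.sgn j = 0
    · rw [h j j.2 h0, zero_smul]; exact Submodule.zero_mem _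
    · exact Submodule.smul_mem _ _ (Submodule.subset_span ((mem_corners_iff hb).2 ⟨j, h0, rfl⟩))

/-- S14229 -/
lemma span_carrier_eq (F : Facet P) : Submodule.span R F.carrier = Submodule.span R F.corners := by
  obtain ⟨b, hb⟩ := cham_nonempty F
  apply le_antisymm
  · rw [Submodule.span_le]
    intro ξ hξ
    rw [SetLike.mem_coe, mem_span_corners_iff hb]
    intro j hj h0
    exact (((mem_carrier_iff_supp hb).1 hξ) j hj).2.2 h0
  · rw [Submodule.span_le]
    intro m hm
    obtain ⟨j, hj, rfl⟩ := (mem_corners_iff hb).1 hm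
    obtain ⟨ξ, hξ⟩ := carrier_nonempty F
    have h1 : ξ + fundWeight b j ∈ F.carrier := by
      rw [mem_carrier_iff_supp hb] at hξ ⊢
      intro l hl
      rw [map_add]
      by_cases hlj : (⟨l, hl⟩ : b.support) = j
      · have h3 : P.coroot' l (fundWeight b j) = 1 := by
          subst hlj; exact coroot'_fundWeight_self b ⟨l, hl⟩
        rw [h3]
        have h4 := (hξ l hl).1
        refine ⟨by linarith, iff_of_false (by linarith) ?_⟩
        subst hlj; exact hj
      · have h3 : P.coroot' l (fundWeight b j) = 0 := coroot'_fundWeight_of_ne b j ⟨l, hl⟩ hlj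
        rw [h3, add_zero]
        exact hξ l hl
    have h2 : fundWeight b j = (ξ + fundWeight b j) - ξ := by abel
    rw [SetLike.mem_coe, h2]
    exact Submodule.sub_mem _ (Submodule.subset_span h1) (Submodule.subset_span hξ)

lemma mem_corners_mem_baseCorners {F : Facet P} {b : P.Base} (hb : b ∈ F.cham) {m : M}
    (hm : m ∈ F.corners) : m ∈ baseCorners b := by
  rw [baseCorners_eq]
  obtain ⟨j, -, rfl⟩ := (mem_corners_iff hb).1 hm
  exact ⟨j, rfl⟩

end facets
end Groth.Agent.H21
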