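import Groth.Agent.Lib.H21RootB

set_option autoImplicit false
set_option linter.unusedSectionVars false
set_option linter.unusedVariables false
open Module RootPairing RootCh

namespace Groth.Agent.H21

universe u v w x
variable {ι : Type u} {R : Type v} {M : Type w} {N : Type x}
    [Field R] [LinearOrder R] [IsStrictOrderedRing R]
    [AddCommGroup M] [Module R M] [AddCommGroup N] [Module R N]

section
variable [Finite ι] {P : RootPairing ι R M N} [P.IsRootSystem] [P.IsCrystallographic] [P.IsReduced]

lemma root'_fcw [DecidableEq ι] (b : P.Base) (i j : b.support) :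
    P.root' j (fundCoweight b i) = if j = i then 1 else 0 :=
  coroot'_fw (P := P.flip) b.flip i j

lemma root'_fcw_nat (b : P.Base) {k : ι} (hk : b.IsPos k) (j : b.support) :
    ∃ n : ℕ, P.root' k (fundCoweight b j) = n :=
  coroot'_fw_nat (P := P.flip) b.flip ((flip_isPos_iff b k).2 hk) j

lemma root'_fcw_nonneg (b : P.Base) {k : ι} (hk : b.IsPos k) (j : b.support) :
    0 ≤ P.root' k (fundCoweight b j) :=
  coroot'_fw_nonneg (P := P.flip) b.flip ((flip_isPos_iff b k).2 hk) j

lemma mem_dualCarrier_iff {F : Facet P} {y : N} :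
    y ∈ F.dualCarrier ↔ ∀ k, SignType.sign (P.root' k y) = F.sgn k :=
  ⟨fun h k => congrFun h k, fun h => funext h⟩

lemma dualCarrier_nonempty (F : Facet P) : F.dualCarrier.Nonempty := dual_realised F

lemma mem_parab_iff {F : Facet P} {k : ι} : k ∈ F.parab ↔ F.sgn k ≠ -1 := Iff.rfl

lemma sgn_ne_neg_one_iff {s : SignType} : s ≠ -1 ↔ 0 ≤ s := by
  cases s <;> decide

lemma mem_parab_iff_coroot {F : Facet P} {ξ : M} (hξ : ξ ∈ F.carrier) {k : ι} :
    k ∈ F.parab ↔ 0 ≤ P.coroot' k ξ := by
  rw [mem_parab_iff, sgn_ne_neg_one_iff, ← mem_carrier_iff.1 hξ, sign_nonneg_iff]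

lemma mem_parab_iff_root {F : Facet P} {y : N} (hy : y ∈ F.dualCarrier) {k : ι} :
    k ∈ F.parab ↔ 0 ≤ P.root' k y := by
  rw [mem_parab_iff, sgn_ne_neg_one_iff, ← mem_dualCarrier_iff.1 hy, sign_nonneg_iff]

lemma isPos_mem_parab {F : Facet P} {b : P.Base} (hb : b ∈ F.cham) {k : ι} (hk : b.IsPos k) :
    k ∈ F.parab := by
  rw [mem_parab_iff, sgn_ne_neg_one_iff]
  exact sgn_nonneg_of_cham hb hk

lemma sgn_simple_cases {F : Facet P} {b : P.Base} (hb : b ∈ F.cham) (j : b.support)
    (h : F.sgn j ≠ 0) : F.sgn j = 1 := by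
  have := sgn_nonneg_of_cham hb (Base.isPos_of_mem_support j.2)
  revert h this
  generalize F.sgn j = s
  cases s <;> decide

/-- S14234 -/
lemma corners_eq_parab (F : Facet P) : F.corners = {m : M | m ∈ RootCh.fundWeights P ∧
      ∀ y : N, RootCh.Corr P m y → ∀ i ∈ F.parab, 0 ≤ P.root' i y} := by
  classical
  obtain ⟨b, hb⟩ := cham_nonempty F
  ext m
  rw [mem_corners_iff hb]
  constructor
  · rintro ⟨j, hj, rfl⟩
    refine ⟨⟨b, j, rfl⟩, fun y hy i hi => ?_⟩
    rw [(corr_iff b j y).1 hy]
    by_cases hk : b.IsPos i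
    · exact root'_fcw_nonneg b hk j
    · have hk' := (isPos_neg_iff b i).2 hk
      by_contra! hlt
      have h1 : 0 < P.root' (P.reflectionPerm i i) (fundCoweight b j) := by
        rw [root'_neg]; linarith
      -- the sign of -i is 1 on F
      obtain ⟨y, hy⟩ := dualCarrier_nonempty F
      have hyc : y ∈ closedChamber b.flip := (flip_mem_cham.2 hb) hy
      have h2 : P.root' (P.reflectionPerm i i) y ≠ 0 := by
        intro h0
        rcases (closed_eq_zero_iff (P := P.flip) b.flip hyc
          ((flip_isPos_iff b _).2 hk')).1 h0 j with h3 | h3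
        · apply hj
          rw [← mem_dualCarrier_iff.1 hy]
          change P.root' j y = 0 at h3
          rw [h3, sign_zero]
        · exact h1.ne' h3
      have h4 := (mem_parab_iff_root hy).1 hi
      have h5 := closed_nonneg (P := P.flip) b.flip hyc ((flip_isPos_iff b _).2 hk')
      change 0 ≤ P.root' (P.reflectionPerm i i) y at h5
      rw [root'_neg] at h2 h5
      apply h2
      linarith
  · rintro ⟨⟨b', i', rfl⟩, h⟩
    have h1 := h (fundCoweight b' i') ⟨b', i', rfl, rfl⟩
    have h2 : fundCoweight b' i' ∈ baseCorners (P := P.flip) b.flip := by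
      refine ⟨⟨b'.flip, i', rfl⟩, fun j hj => ?_⟩
      exact h1 j (isPos_mem_parab hb (Base.isPos_of_mem_support hj))
    rw [baseCorners_eq] at h2
    obtain ⟨j, hj⟩ := h2
    have h3 : fundWeight b' i' = fundWeight b j := by
      exact corr_functional (P := P.flip) (b := b.flip) (b' := b'.flip) (i := j) (i' := i') hj.symm
    refine ⟨j, ?_, h3.symm⟩
    intro h0
    have h4 : P.reflectionPerm j j ∈ F.parab := by
      rw [mem_parab_iff, sgn_neg, h0]; decide
    have h5 := h1 _ h4
    rw [root'_neg] at h5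
    change fundCoweight b j = fundCoweight b' i' at hj
    have h6 : P.root' j (fundCoweight b j) = 1 := root'_fundCoweight_self b j
    rw [← hj, h6] at h5
    linarith

lemma facet_ext_parab {F G : Facet P} (h : F.parab = G.parab) : F = G := by
  apply Facet.ext
  ext1 k
  have h1 : k ∈ F.parab ↔ k ∈ G.parab := by rw [h]
  have h2 : P.reflectionPerm k k ∈ F.parab ↔ P.reflectionPerm k k ∈ G.parab := by rw [h]
  rw [mem_parab_iff, mem_parab_iff] at h1 h2
  rw [sgn_neg, sgn_neg] at h2
  revert h1 h2
  generalize F.sgn k = s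
  generalize G.sgn k = t
  cases s <;> cases t <;> decide

lemma parab_isParabolic (F : Facet P) : IsParabolicSubset P F.parab := by
  obtain ⟨y, hy⟩ := dualCarrier_nonempty F
  refine ⟨fun i j k hi hj hk => ?_, fun i => ?_⟩
  · rw [mem_parab_iff_root hy] at hi hj ⊢
    have : P.root' k y = P.root' i y + P.root' j y := by
      simp only [RootPairing.root', hk, map_add, LinearMap.add_apply]
    rw [this]; positivity
  · rw [mem_parab_iff_root hy, mem_parab_iff_root hy, root'_neg]
    rcases le_total 0 (P.root' i y) with h | h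
    · exact Or.inl h
    · right; linarith

/-- S14236, order part -/
lemma le_iff_parab (F G : Facet P) : F ≤ G ↔ F.parab ⊆ G.parab := by
  rw [Facet.le_def]
  constructor
  · intro h k hk
    rw [mem_parab_iff] at hk ⊢
    rcases h k with h1 | h1
    · rw [h1]; decide
    · rw [h1]; exact hk
  · intro h k
    have h1 : F.sgn k ≠ -1 → G.sgn k ≠ -1 := fun hh => h hh
    have h2 : F.sgn (P.reflectionPerm k k) ≠ -1 → G.sgn (P.reflectionPerm k k) ≠ -1 :=
      fun hh => h hh
    rw [sgn_neg, sgn_neg] at h2
    revert h1 h2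
    generalize F.sgn k = s
    generalize G.sgn k = t
    cases s <;> cases t <;> decide

/-- the reflected base -/
lemma exists_reflected_base (b : P.Base) (a : ι) :
    ∃ b' : P.Base, ∀ k, b'.IsPos k ↔ b.IsPos (P.reflectionPerm a k) := by
  have hρ := rho_open b
  set ρ := ∑ i : b.support, fundWeight b i
  have hval : ∀ k, P.coroot' k (P.reflection a ρ) = P.coroot' (P.reflectionPerm a k) ρ := by
    intro k
    simp [RootPairing.coroot', P.reflection_apply, P.coreflection_apply, P.coroot_reflectionPerm,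
      LinearMap.flip_apply, mul_comm]
  obtain ⟨b', hb'⟩ := exists_base_of_regular (P := P) (P.reflection a ρ) (fun k => by
    rw [hval]
    by_cases hk : b.IsPos (P.reflectionPerm a k)
    · exact (open_pos b hρ hk).ne'
    · have := open_pos b hρ ((isPos_neg_iff b _).2 hk)
      rw [coroot'_neg] at this
      linarith)
  refine ⟨b', fun k => ?_⟩
  rw [hb', hval, ← isPos_iff_open b hρ]

lemma exists_reflected_base' (b : P.Base) {a : ι} (ha : a ∈ b.support) :
    ∃ b' : P.Base, ∀ k, b'.IsPos k ↔ ((b.IsPos k ∧ k ≠ a) ∨ k = P.reflectionPerm a a) := by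
  obtain ⟨b', hb'⟩ := exists_reflected_base b a
  refine ⟨b', fun k => ?_⟩
  rw [hb']
  by_cases h1 : k = a
  · subst h1
    rw [isPos_neg_iff]
    have h2 : b.IsPos k := Base.isPos_of_mem_support ha
    refine iff_of_false (not_not.2 h2) ?_
    rintro (⟨-, h3⟩ | h3)
    · exact h3 rfl
    · rw [h3] at h2
      exact (isPos_neg_iff b k).1 h2 (Base.isPos_of_mem_support ha)
  · by_cases h2 : k = P.reflectionPerm a a
    · refine iff_of_true ?_ (Or.inr h2)
      rw [h2, P.reflectionPerm_self]
      exact Base.isPos_of_mem_support ha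
    · rw [isPos_refl_iff b ha h1 h2]
      tauto

lemma isPos_mem_of_simple {S : Set ι}
    (hS : ∀ i j k : ι, i ∈ S → j ∈ S → P.root k = P.root i + P.root j → k ∈ S)
    (b : P.Base) (hb : ∀ j ∈ b.support, j ∈ S) {k : ι} (hk : b.IsPos k) : k ∈ S :=
  hk.induction_on_add (p := fun k => k ∈ S) hb
    (fun i j k hijk hi hj => hS i j k hi (hb j hj) hijk)

lemma exists_base_subset {S : Set ι} (hS : IsParabolicSubset P S) :
    ∃ b : P.Base, ∀ k, b.IsPos k → k ∈ S := by
  classical
  have : Fintype ι := Fintype.ofFinite ι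
  obtain ⟨b₀⟩ := P.nonempty_base
  -- minimise the number of positive roots not in S
  let f : P.Base → ℕ := fun b => (Finset.univ.filter (fun k => b.IsPos k ∧ k ∉ S)).card
  obtain ⟨b, hb⟩ : ∃ b : P.Base, ∀ b', f b ≤ f b' := by
    have : ∃ n, ∃ b, f b = n := ⟨_, b₀, rfl⟩
    obtain ⟨b, hb⟩ := Nat.find_spec this
    exact ⟨b, fun b' => by rw [hb]; exact Nat.find_min' this ⟨b', rfl⟩⟩
  refine ⟨b, fun k hk => isPos_mem_of_simple hS.1 b (fun j hj => ?_) hk⟩
  by_contra hjS
  obtain ⟨b', hb'⟩ := exists_reflected_base' b hj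
  have hneg : P.reflectionPerm j j ∈ S := (hS.2 j).resolve_left hjS
  have : f b' < f b := by
    apply Finset.card_lt_card
    rw [Finset.ssubset_iff_of_subset]
    · refine ⟨j, by simp [hjS, Base.isPos_of_mem_support hj], ?_⟩
      simp only [Finset.mem_filter, Finset.mem_univ, true_and, not_and, not_not]
      intro h
      rcases (hb' j).1 h with h1 | h1
      · exact absurd rfl h1.2
      · rw [h1]; exact hneg
    · intro k hk
      simp only [Finset.mem_filter, Finset.mem_univ, true_and] at hk ⊢
      refine ⟨?_, hk.2⟩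
      rcases (hb' k).1 hk.1 with h1 | h1
      · exact h1.1
      · exact absurd (h1 ▸ hneg) hk.2
  exact absurd (hb b') (not_le.2 this)

lemma root'_fcw_add (b : P.Base) {i j k : ι} (h : P.root k = P.root i + P.root j) (y : N) :
    P.root' k y = P.root' i y + P.root' j y := by
  simp only [RootPairing.root', h, map_add, LinearMap.add_apply]

lemma root_neg_eq (k : ι) : P.root (P.reflectionPerm k k) = - P.root k := by
  simp [P.root_reflectionPerm]

lemma exists_facet_parab {S : Set ι} (hS : IsParabolicSubset P S) : ∃ F : Facet P, F.parab = S := by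
  classical
  obtain ⟨b, hb⟩ := exists_base_subset hS
  obtain ⟨F, hF, hF2⟩ := exists_facet_of_supp b {j : b.support | P.reflectionPerm j j ∉ S}
  obtain ⟨y, hy⟩ := dualCarrier_nonempty F
  have hyc : y ∈ closedChamber b.flip := (flip_mem_cham.2 hF) hy
  refine ⟨F, ?_⟩
  -- for positive k : -k ∈ S ↔ ∀ j with F.sgn j ≠ 0, the coefficient vanishes
  have key : ∀ k, b.IsPos k → (P.reflectionPerm k k ∈ S ↔
      ∀ j : b.support, P.reflectionPerm j j ∉ S → P.root' k (fundCoweight b j) = 0) := by
    intro k hk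
    constructor
    · refine (hk.induction_on_add (p := fun k => b.IsPos k ∧ (P.reflectionPerm k k ∈ S →
        ∀ j : b.support, P.reflectionPerm j j ∉ S → P.root' k (fundCoweight b j) = 0)) ?_ ?_).2
      · intro i hi
        refine ⟨Base.isPos_of_mem_support hi, fun hiS j hj => ?_⟩
        refine root'_fundCoweight_of_ne b j ⟨i, hi⟩ ?_
        rintro rfl
        exact hj hiS
      · intro i j k hijk hi hj
        have hipos := hi.1
        refine ⟨hipos.add (Base.isPos_of_mem_support hj) hijk, fun hkS l hl => ?_⟩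
        have h1 : P.reflectionPerm i i ∈ S := by
          refine hS.1 (P.reflectionPerm k k) j _ hkS (hb j (Base.isPos_of_mem_support hj)) ?_
          rw [root_neg_eq, root_neg_eq, hijk]; abel
        have h2 : P.reflectionPerm j j ∈ S := by
          refine hS.1 (P.reflectionPerm k k) i _ hkS (hb i hipos) ?_
          rw [root_neg_eq, root_neg_eq, hijk]; abel
        rw [root'_fcw_add b hijk, hi.2 h1 l hl, zero_add]
        refine root'_fundCoweight_of_ne b l ⟨j, hj⟩ ?_
        rintro rfl
        exact hl h2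
    · refine (hk.induction_on_add (p := fun k => b.IsPos k ∧ ((∀ j : b.support,
        P.reflectionPerm j j ∉ S → P.root' k (fundCoweight b j) = 0) →
        P.reflectionPerm k k ∈ S)) ?_ ?_).2
      · intro i hi
        refine ⟨Base.isPos_of_mem_support hi, fun h => ?_⟩
        by_contra hiS
        have := h ⟨i, hi⟩ hiS
        rw [root'_fundCoweight_self b ⟨i, hi⟩] at this
        exact one_ne_zero this
      · intro i j k hijk hi hj
        have hipos := hi.1
        refine ⟨hipos.add (Base.isPos_of_mem_support hj) hijk, fun h => ?_⟩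
        have hsum : ∀ l : b.support, P.reflectionPerm l l ∉ S →
            P.root' i (fundCoweight b l) = 0 ∧ P.root' j (fundCoweight b l) = 0 := by
          intro l hl
          have h1 := h l hl
          rw [root'_fcw_add b hijk] at h1
          have h2 := root'_fcw_nonneg b hipos l
          have h3 := root'_fcw_nonneg b (Base.isPos_of_mem_support hj) l
          constructor <;> linarith
        have hiS := hi.2 (fun l hl => (hsum l hl).1)
        have hjS : P.reflectionPerm j j ∈ S := by
          by_contra hjS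
          have := (hsum ⟨j, hj⟩ hjS).2
          rw [root'_fundCoweight_self b ⟨j, hj⟩] at this
          exact one_ne_zero this
        refine hS.1 _ _ _ hiS hjS ?_
        rw [root_neg_eq, root_neg_eq, root_neg_eq, hijk]; abel
  have hval : ∀ j : b.support, P.root' j y = 0 ↔ P.reflectionPerm j j ∈ S := by
    intro j
    rw [← sign_eq_zero_iff, mem_dualCarrier_iff.1 hy, ← not_iff_not]
    exact hF2 j
  ext k
  by_cases hk : b.IsPos k
  · exact iff_of_true (isPos_mem_parab hF hk) (hb k hk)
  · have hk' := (isPos_neg_iff b k).2 hk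
    have h1 := key _ hk'
    have hkk : P.reflectionPerm (P.reflectionPerm k k) (P.reflectionPerm k k) = k := by
      apply P.root.injective
      rw [root_neg_eq, root_neg_eq, neg_neg]
    rw [hkk] at h1
    rw [h1, mem_parab_iff_root hy]
    have h2 := closed_nonneg (P := P.flip) b.flip hyc ((flip_isPos_iff b _).2 hk')
    change 0 ≤ P.root' (P.reflectionPerm k k) y at h2
    have h3 := closed_eq_zero_iff (P := P.flip) b.flip hyc ((flip_isPos_iff b _).2 hk')
    change P.root' (P.reflectionPerm k k) y = 0 ↔ ∀ j : b.support, P.root' j y = 0 ∨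
      P.root' (P.reflectionPerm k k) (fundCoweight b j) = 0 at h3
    have h4 : 0 ≤ P.root' k y ↔ P.root' (P.reflectionPerm k k) y = 0 := by
      rw [root'_neg] at h2 ⊢
      constructor
      · intro h; linarith
      · intro h; linarith
    rw [h4, h3]
    refine forall_congr' fun j => ?_
    rw [hval j]
    tauto

/-- S14236 -/
lemma parabolic_iff (P : RootPairing ι R M N) [P.IsRootSystem] [P.IsCrystallographic]
    [P.IsReduced] :
    (∀ S : Set ι, RootCh.IsParabolicSubset P S ↔ ∃! F : RootCh.Facet P, F.parab = S) ∧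
      ∀ F G : RootCh.Facet P, F ≤ G ↔ F.parab ⊆ G.parab := by
  refine ⟨fun S => ⟨fun hS => ?_, ?_⟩, le_iff_parab⟩
  · obtain ⟨F, hF⟩ := exists_facet_parab hS
    exact ⟨F, hF, fun G hG => facet_ext_parab (hG.trans hF.symm)⟩
  · rintro ⟨F, rfl, -⟩
    exact parab_isParabolic F

lemma facet_ext_corners {F G : Facet P} (h : F.corners = G.corners) : F = G := by
  have h1 : F.carrier = G.carrier := by rw [carrier_eq, carrier_eq, h]
  obtain ⟨ξ, hξ⟩ := carrier_nonempty F
  have hξ' := hξ
  rw [h1] at hξ'
  apply Facet.ext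
  exact hξ.symm.trans hξ'

/-- S14235 -/
lemma parabolic_corners {S : Set ι} (hS : RootCh.IsParabolicSubset P S) :
    ∃ F : RootCh.Facet P,
      (F.corners = {m : M | m ∈ RootCh.fundWeights P ∧ ∀ y : N, RootCh.Corr P m y → ∀ i ∈ S, 0 ≤ P.root' i y} ∧
        F.parab = S) ∧
      ∀ G : RootCh.Facet P,
        G.corners = {m : M | m ∈ RootCh.fundWeights P ∧ ∀ y : N, RootCh.Corr P m y → ∀ i ∈ S, 0 ≤ P.root' i y} →
        G = F := by
  obtain ⟨F, hF⟩ := exists_facet_parab hS
  have h1 := corners_eq_parab F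
  rw [hF] at h1
  exact ⟨F, ⟨h1, hF⟩, fun G hG => facet_ext_corners (hG.trans h1.symm)⟩

/-! ### sums over parabolic sets -/

lemma coroot'_root_refl (k i : ι) :
    P.coroot' k (P.root (P.reflectionPerm k i)) = - P.coroot' k (P.root i) := by
  rw [P.root_reflectionPerm, P.reflection_apply, map_sub, map_smul]
  have : P.coroot' k (P.root k) = 2 := by simp
  rw [this]
  change _ - P.coroot' k (P.root i) • 2 = _
  rw [smul_eq_mul]; ring

lemma sum_stable (A : Finset ι) (k : ι) (hA : ∀ i ∈ A, P.reflectionPerm k i ∈ A) :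
    ∑ i ∈ A, P.coroot' k (P.root i) = 0 := by
  have h1 : ∑ i ∈ A, P.coroot' k (P.root i) = ∑ i ∈ A, - P.coroot' k (P.root i) := by
    refine Finset.sum_bij' (fun i _ => P.reflectionPerm k i) (fun i _ => P.reflectionPerm k i)
      hA hA (fun i _ => P.reflectionPerm_self k i) (fun i _ => P.reflectionPerm_self k i) ?_
    intro i _
    rw [coroot'_root_refl, neg_neg]
  rw [Finset.sum_neg_distrib] at h1
  linarith

lemma sum_pos_of (A : Finset ι) (k : ι) (h : ∀ i ∈ A, P.reflectionPerm k i ∉ A →
      0 < P.coroot' k (P.root i)) (hk : ∃ i ∈ A, P.reflectionPerm k i ∉ A) :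
    0 < ∑ i ∈ A, P.coroot' k (P.root i) := by
  classical
  rw [← Finset.sum_filter_add_sum_filter_not A (fun i => P.reflectionPerm k i ∈ A)]
  rw [sum_stable (A.filter (fun i => P.reflectionPerm k i ∈ A)) k, zero_add]
  · apply Finset.sum_pos
    · intro i hi
      rw [Finset.mem_filter] at hi
      exact h i hi.1 hi.2
    · obtain ⟨i, hi, hi2⟩ := hk
      exact ⟨i, Finset.mem_filter.2 ⟨hi, hi2⟩⟩
  · intro i hi
    rw [Finset.mem_filter] at hi ⊢
    exact ⟨hi.2, by rw [P.reflectionPerm_self]; exact hi.1⟩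

lemma coroot'_reflPerm (k i : ι) (ξ : M) :
    P.coroot' (P.reflectionPerm k i) ξ = P.coroot' i ξ - P.coroot' i (P.root k) * P.coroot' k ξ := by
  simp [RootPairing.coroot', P.coreflection_apply, P.coroot_reflectionPerm,
      LinearMap.flip_apply, mul_comm]

/-- sum over an arbitrary set of root indices -/
noncomputable def sumRoots (P : RootPairing ι R M N) (S : Set ι) : M :=
  ∑ i ∈ (Set.toFinite S).toFinset, P.root i

lemma coroot'_sumRoots (S : Set ι) (k : ι) : P.coroot' k (sumRoots P S) =
    ∑ i ∈ (Set.toFinite S).toFinset, P.coroot' k (P.root i) := by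
  rw [sumRoots, map_sum]

lemma root'_sumRoots (S : Set ι) (y : N) : P.toLinearMap (sumRoots P S) y =
    ∑ i ∈ (Set.toFinite S).toFinset, P.root' i y := by
  simp only [sumRoots, map_sum, LinearMap.coe_sum, Finset.sum_apply, RootPairing.root']

lemma sumRoots_stable {S : Set ι} {k : ι} (h : ∀ i ∈ S, P.reflectionPerm k i ∈ S) :
    P.coroot' k (sumRoots P S) = 0 := by
  rw [coroot'_sumRoots]
  exact sum_stable _ k (by simpa using h)

lemma pairing_pos_symm {i k : ι} (h : 0 < P.coroot' i (P.root k)) :
    0 < P.coroot' k (P.root i) := by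
  obtain ⟨B, hBs, hBp, hBi⟩ := exists_form P
  have h1 := inv_form (P := P) B hBi k (P.root i)
  have h2 := inv_form (P := P) B hBi i (P.root k)
  have h3 := root_norm_pos (P := P) B hBp i
  have h4 := root_norm_pos (P := P) B hBp k
  rw [hBs (P.root i) (P.root k), h2] at h1
  have h5 : 0 < P.coroot' k (P.root i) * B (P.root k) (P.root k) := by
    rw [← h1]; exact mul_pos h h3
  exact (mul_pos_iff_of_pos_right h4).1 h5

/-- S14237 -/
lemma sum_parab_mem (F : Facet P) : sumRoots P F.parab ∈ F.carrier := by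
  obtain ⟨ξ, hξ⟩ := carrier_nonempty F
  have h0 : ∀ k, F.sgn k = 0 → P.coroot' k (sumRoots P F.parab) = 0 := by
    intro k hk
    apply sumRoots_stable
    intro i hi
    rw [mem_parab_iff_coroot hξ] at hi ⊢
    have : P.coroot' k ξ = 0 := by
      rw [← sign_eq_zero_iff, mem_carrier_iff.1 hξ, hk]
    rw [coroot'_reflPerm, this]
    simpa using hi
  have h1 : ∀ k, F.sgn k = 1 → 0 < P.coroot' k (sumRoots P F.parab) := by
    intro k hk
    have hkpos : 0 < P.coroot' k ξ := by
      rw [← sign_eq_one_iff, mem_carrier_iff.1 hξ, hk]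
    rw [coroot'_sumRoots]
    apply sum_pos_of
    · intro i hi hi2
      simp only [Set.Finite.mem_toFinset] at hi hi2
      rw [mem_parab_iff_coroot hξ] at hi hi2
      rw [coroot'_reflPerm] at hi2
      push Not at hi2
      have h3 : 0 < P.coroot' i (P.root k) * P.coroot' k ξ := by linarith
      have h4 : 0 < P.coroot' i (P.root k) := by
        by_contra! h5
        have := mul_nonpos_of_nonpos_of_nonneg h5 hkpos.le
        linarith
      exact pairing_pos_symm h4
    · refine ⟨k, ?_, ?_⟩
      · simp only [Set.Finite.mem_toFinset]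
        rw [mem_parab_iff, hk]; decide
      · simp only [Set.Finite.mem_toFinset]
        rw [mem_parab_iff, sgn_neg, hk]; decide
  rw [mem_carrier_iff]
  intro k
  rcases hs : F.sgn k with _ | _ | _
  · rw [h0 k hs]; exact sign_zero
  · have h2 : F.sgn (P.reflectionPerm k k) = 1 := by rw [sgn_neg, hs]; rfl
    have := h1 _ h2
    rw [coroot'_neg] at this
    exact sign_neg (by linarith)
  · exact sign_pos (h1 k hs)


/-! ### the elementary sets -/

lemma mem_Psi_iff {F : Facet P} {b : P.Base} (hb : b ∈ F.cham) (j : b.support) {i : ι}  :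
    i ∈ F.Psi (fundWeight b j) ↔ P.root' i (fundCoweight b j) = 1 ∧
      ∀ l : b.support, F.sgn l ≠ 0 → l ≠ j → P.root' i (fundCoweight b l) = 0 := by
  constructor
  · rintro ⟨h1, h2⟩
    refine ⟨h1 _ ⟨b, j, rfl, rfl⟩, fun l hl hlj => ?_⟩
    exact h2 (fundWeight b l) ((mem_corners_iff hb).2 ⟨l, hl, rfl⟩)
      (fun h => hlj (fundWeight_injective b h)) _ ⟨b, l, rfl, rfl⟩
  · rintro ⟨h1, h2⟩
    refine ⟨fun x hx => ?_, fun w' hw' hne x hx => ?_⟩
    · rw [(corr_iff b j x).1 hx]; exact h1
    · obtain ⟨l, hl, rfl⟩ := (mem_corners_iff hb).1 hw'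
      rw [(corr_iff b l x).1 hx]
      exact h2 l hl (fun h => hne (by rw [h]))

lemma root'_reflPerm (k i : ι) (y : N) :
    P.root' (P.reflectionPerm k i) y = P.root' i y - P.root' i (P.coroot k) * P.root' k y := by
  simp [RootPairing.root', P.reflection_apply, P.root_reflectionPerm]

/-- S14242 -/
lemma sum_Psi_mem_span (F : Facet P) (m : M) (hm : m ∈ F.corners) :
    sumRoots P (F.Psi m) ∈ Submodule.span R F.corners := by
  obtain ⟨b, hb⟩ := cham_nonempty F
  obtain ⟨j, hj, rfl⟩ := (mem_corners_iff hb).1 hm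
  rw [mem_span_corners_iff hb]
  intro k hk h0
  apply sumRoots_stable
  intro i hi
  rw [mem_Psi_iff hb] at hi ⊢
  have h1 : ∀ l : b.support, F.sgn l ≠ 0 → P.root' k (fundCoweight b l) = 0 := by
    intro l hl
    refine root'_fundCoweight_of_ne b l ⟨k, hk⟩ ?_
    rintro rfl
    exact hl h0
  refine ⟨?_, fun l hl hlj => ?_⟩
  · rw [root'_reflPerm, h1 j hj, mul_zero, sub_zero]; exact hi.1
  · rw [root'_reflPerm, h1 l hl, mul_zero, sub_zero]; exact hi.2 l hl hlj

/-! ### independence of the chamber -/

variable {d : P.Base → N}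

lemma pair_span_corners_eq (hd : IsCCS d) {F : Facet P} {b b' : P.Base} (hb : b ∈ F.cham)
    (hb' : b' ∈ F.cham) {v : M} (hv : v ∈ Submodule.span R F.corners) :
    P.toLinearMap v (d b) = P.toLinearMap v (d b') := by
  induction hv using Submodule.span_induction with
  | mem m hm =>
    exact hd.corner_eq b b' m (mem_corners_mem_baseCorners hb hm) (mem_corners_mem_baseCorners hb' hm)
  | zero => simp
  | add x y _ _ hx hy => simp only [map_add, LinearMap.add_apply, hx, hy]
  | smul a x _ hx => simp only [map_smul, LinearMap.smul_apply, hx]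

lemma carrier_subset_span (F : Facet P) {v : M} (hv : v ∈ F.carrier) :
    v ∈ Submodule.span R F.corners := by
  rw [← span_carrier_eq]; exact Submodule.subset_span hv

lemma deg_eq_pair (F : Facet P) (b : P.Base) :
    F.deg d b = P.toLinearMap (sumRoots P F.parab) (d b) := by
  rw [root'_sumRoots]; rfl

lemma numInv_eq_pair (F : Facet P) (m : M) (b : P.Base) :
    F.numInv d m b = P.toLinearMap (sumRoots P (F.Psi m)) (d b) := by
  rw [root'_sumRoots]; rfl

/-- S14249 -/
lemma deg_eq_deg (hd : IsCCS d) (F : Facet P) (b b' : P.Base) (hb : b ∈ F.cham)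
    (hb' : b' ∈ F.cham) : F.deg d b = F.deg d b' := by
  rw [deg_eq_pair, deg_eq_pair]
  exact pair_span_corners_eq hd hb hb' (carrier_subset_span F (sum_parab_mem F))

/-- S14250 -/
lemma numInv_eq_numInv (hd : IsCCS d) (F : Facet P) (m : M) (hm : m ∈ F.corners)
    (b b' : P.Base) (hb : b ∈ F.cham) (hb' : b' ∈ F.cham) :
    F.numInv d m b = F.numInv d m b' := by
  rw [numInv_eq_pair, numInv_eq_pair]
  exact pair_span_corners_eq hd hb hb' (sum_Psi_mem_span F m hm)

end
end Groth.Agent.H21
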