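import Groth.Agent.Lib.H21RootC

set_option autoImplicit false
set_option linter.unusedSectionVars false
set_option linter.unusedVariables false
open Module RootPairing RootCh

namespace Groth.Agent.H21

universe u v w x
variable {ι : Type u} {R : Type v} {M : Type w} {N : Type x}
    [Field R] [LinearOrder R] [IsStrictOrderedRing R]
    [AddCommGroup M] [Module R M] [AddCommGroup N] [Module R N]

/-- Farkas' lemma over an ordered field. -/
theorem farkas {β V : Type*} [AddCommGroup V] [Module R V] (s : Finset β)
    (f : β → V →ₗ[R] R) (g : V →ₗ[R] R) :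
    (∃ c : β → R, (∀ i ∈ s, 0 ≤ c i) ∧ g = ∑ i ∈ s, c i • f i) ∨
      ∃ x : V, (∀ i ∈ s, 0 ≤ f i x) ∧ g x < 0 := by
  classical
  induction s using Finset.induction_on generalizing f g with
  | empty =>
    by_cases hg : g = 0
    · left; exact ⟨0, by simp, by simp [hg]⟩
    · right
      obtain ⟨x, hx⟩ : ∃ x, g x ≠ 0 := by
        by_contra! h
        exact hg (LinearMap.ext h)
      rcases lt_or_gt_of_ne hx with h | h
      · exact ⟨x, by simp, h⟩
      · exact ⟨-x, by simp, by simpa using h⟩
  | insert a s ha ih =>
    rcases ih f g with ⟨c, hc, hg⟩ | ⟨x, hx, hgx⟩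
    · left
      refine ⟨fun i => if i = a then 0 else c i, ?_, ?_⟩
      · intro i hi
        simp only
        split_ifs with h
        · exact le_rfl
        · exact hc i ((Finset.mem_insert.1 hi).resolve_left h)
      · rw [Finset.sum_insert ha, hg]
        simp only [if_true, zero_smul, zero_add]
        refine Finset.sum_congr rfl fun i hi => ?_
        rw [if_neg]
        rintro rfl; exact ha hi
    · by_cases hax : 0 ≤ f a x
      · right
        refine ⟨x, fun i hi => ?_, hgx⟩
        rcases Finset.mem_insert.1 hi with h | h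
        · rw [h]; exact hax
        · exact hx i h
      · push Not at hax
        set t := -(f a x) with ht
        have htpos : 0 < t := by rw [ht]; linarith
        set x₁ := t⁻¹ • x with hx₁
        have h1 : f a x₁ = -1 := by
          rw [hx₁, map_smul, smul_eq_mul]
          have : f a x = -t := by rw [ht, neg_neg]
          rw [this]
          field_simp
        have h2 : ∀ i ∈ s, 0 ≤ f i x₁ := by
          intro i hi
          rw [hx₁, map_smul, smul_eq_mul]
          exact mul_nonneg (inv_pos.2 htpos).le (hx i hi)
        have h3 : g x₁ < 0 := by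
          rw [hx₁, map_smul, smul_eq_mul]
          exact mul_neg_of_pos_of_neg (inv_pos.2 htpos) hgx
        rcases ih (fun i => f i + (f i x₁) • f a) (g + (g x₁) • f a) with ⟨c, hc, hg⟩ | ⟨y, hy, hgy⟩
        · left
          refine ⟨fun i => if i = a then (∑ i ∈ s, c i * f i x₁ - g x₁) else c i, ?_, ?_⟩
          · intro i hi
            simp only
            split_ifs with h
            · have : 0 ≤ ∑ i ∈ s, c i * f i x₁ :=
                Finset.sum_nonneg fun i hi => mul_nonneg (hc i hi) (h2 i hi)
              linarith
            · exact hc i ((Finset.mem_insert.1 hi).resolve_left h)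
          · rw [Finset.sum_insert ha]
            have h4 : ∑ i ∈ s, (if i = a then (∑ i ∈ s, c i * f i x₁ - g x₁) else c i) • f i =
                ∑ i ∈ s, c i • f i := by
              refine Finset.sum_congr rfl fun i hi => ?_
              rw [if_neg]
              rintro rfl; exact ha hi
            beta_reduce
            rw [h4, if_pos rfl]
            ext z
            have h5 := LinearMap.congr_fun hg z
            simp only [LinearMap.add_apply, LinearMap.smul_apply, LinearMap.coe_sum,
              Finset.sum_apply, smul_eq_mul, mul_add, Finset.sum_add_distrib] at h5 ⊢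
            have h6 : ∑ i ∈ s, c i * (f i x₁ * f a z) = (∑ i ∈ s, c i * f i x₁) * f a z := by
              rw [Finset.sum_mul]
              refine Finset.sum_congr rfl fun i _ => by ring
            rw [h6] at h5
            linarith
        · right
          refine ⟨y + (f a y) • x₁, ?_, ?_⟩
          · intro i hi
            rcases Finset.mem_insert.1 hi with h | h
            · rw [h, map_add, map_smul, h1, smul_eq_mul]; linarith
            · have := hy i h
              simp only [LinearMap.add_apply, LinearMap.smul_apply, smul_eq_mul] at this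
              rw [map_add, map_smul, smul_eq_mul]
              linarith
          · simp only [LinearMap.add_apply, LinearMap.smul_apply, smul_eq_mul] at hgy
            rw [map_add, map_smul, smul_eq_mul]
            linarith

section
variable {P : RootPairing ι R M N}

/-- separation of a point from the convex hull of a finite set, relative to a subspace -/
lemma separation (P : RootPairing ι R M N) (V : Submodule R M) (T : Finset N) (y : N) :
    (∃ z ∈ convexHull R (T : Set N), ∀ m ∈ V, P.toLinearMap m z = P.toLinearMap m y) ∨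
      ∃ m ∈ V, ∀ p ∈ T, P.toLinearMap m y < P.toLinearMap m p := by
  classical
  let F : N → (V × R →ₗ[R] R) := fun p =>
    ((P.toLinearMap.flip p).comp V.subtype).coprod LinearMap.id
  have hF : ∀ p (m : V) (t : R), F p (m, t) = P.toLinearMap m p + t := by
    intro p m t
    simp [F]
  rcases farkas T F (F y) with ⟨c, hc, hg⟩ | ⟨⟨m, t⟩, hx, hgx⟩
  · left
    have h1 : ∑ p ∈ T, c p = 1 := by
      have := LinearMap.congr_fun hg ((0 : V), (1 : R))
      simp only [LinearMap.coe_sum, Finset.sum_apply, LinearMap.smul_apply, hF] at this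
      simpa using this.symm
    refine ⟨∑ p ∈ T, c p • p, ?_, ?_⟩
    · exact (convex_convexHull R _).sum_mem hc h1 (fun p hp => subset_convexHull R _ hp)
    · intro m hm
      have := LinearMap.congr_fun hg ((⟨m, hm⟩ : V), (0 : R))
      simp only [LinearMap.coe_sum, Finset.sum_apply, LinearMap.smul_apply, hF, add_zero] at this
      rw [this, map_sum]
      simp
  · right
    refine ⟨m, m.2, fun p hp => ?_⟩
    have h1 := hx p hp
    rw [hF] at h1 hgx
    linarith

instance finite_base [Finite ι] : Finite P.Base := by
  classical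
  refine Finite.of_injective (fun b : P.Base => b.support) ?_
  intro b b' h
  cases b; cases b'
  simp only at h
  subst h
  rfl

end

section
variable [Finite ι] {P : RootPairing ι R M N} [P.IsRootSystem] [P.IsCrystallographic] [P.IsReduced]
variable {d : P.Base → N}

lemma ext_fw (b : P.Base) {y z : N}
    (h : ∀ j : b.support, P.toLinearMap (fundWeight b j) y = P.toLinearMap (fundWeight b j) z) :
    y = z := by
  have h1 : ∀ ξ : M, P.toLinearMap ξ y = P.toLinearMap ξ z := by
    intro ξ
    rw [eq_sum_fw b ξ]
    simp only [map_sum, map_smul, LinearMap.coe_sum, Finset.sum_apply, LinearMap.smul_apply, h]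
  exact ext_coroot (P := P.flip) b.flip (fun j _ => h1 (P.root j))

lemma closedChamber_congr {b b' : P.Base} (h : ∀ k, b.IsPos k ↔ b'.IsPos k) :
    closedChamber b = closedChamber b' := by
  ext ξ
  rw [closed_iff, closed_iff]
  simp only [h]

lemma d_congr (hd : IsCCS d) {b b' : P.Base} (h : ∀ k, b.IsPos k ↔ b'.IsPos k) : d b = d b' := by
  apply ext_fw b
  intro j
  have h1 : fundWeight b j ∈ baseCorners b := ⟨⟨b, j, rfl⟩, fw_mem_closed b j⟩
  have h2 : fundWeight b j ∈ baseCorners b' := ⟨⟨b, j, rfl⟩, by
    rw [← closedChamber_congr h]; exact fw_mem_closed b j⟩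
  exact hd.corner_eq b b' _ h1 h2

/-- crossing a wall -/
lemma wall_cross (hd : IsCCS d) {b b' : P.Base} {a : ι} (ha : a ∈ b.support)
    (hb' : ∀ k, b'.IsPos k ↔ ((b.IsPos k ∧ k ≠ a) ∨ k = P.reflectionPerm a a)) :
    ∃ c : R, 0 ≤ c ∧ d b' = d b + c • P.coroot a := by
  classical
  have hapos : b.IsPos a := Base.isPos_of_mem_support ha
  have hane : a ≠ P.reflectionPerm a a := by
    intro h
    have := (isPos_neg_iff b a).1 (h ▸ hapos)
    exact this hapos
  have hfix : ∀ l : b.support, (l : ι) ≠ a → fundWeight b l ∈ closedChamber b' := by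
    intro l hl
    rw [closed_iff]
    intro k hk
    rcases (hb' k).1 hk with h | h
    · exact coroot'_fw_nonneg b h.1 l
    · rw [h, coroot'_neg, coroot'_fundWeight_of_ne b l ⟨a, ha⟩ (fun h => hl (by rw [← h])), neg_zero]
  have hnot : fundWeight b ⟨a, ha⟩ ∉ closedChamber b' := by
    intro h
    rw [closed_iff] at h
    have := h _ ((hb' _).2 (Or.inr rfl))
    rw [coroot'_neg, coroot'_fundWeight_self b ⟨a, ha⟩] at this
    linarith
  have hinter : baseCorners b ∩ baseCorners b' = fundWeight b '' {l | (l : ι) ≠ a} := by
    ext w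
    rw [baseCorners_eq b]
    constructor
    · rintro ⟨⟨l, rfl⟩, h⟩
      refine ⟨l, ?_, rfl⟩
      intro hl
      apply hnot
      have : (⟨a, ha⟩ : b.support) = l := by
        ext; exact hl.symm
      rw [this]; exact h.2
    · rintro ⟨l, hl, rfl⟩
      exact ⟨⟨l, rfl⟩, ⟨b, l, rfl⟩, hfix l hl⟩
  have hcard : (baseCorners b ∩ baseCorners b').ncard + 1 = b.support.card := by
    rw [hinter, Set.ncard_image_of_injective _ (fundWeight_injective b)]
    have h1 : {l : b.support | (l : ι) ≠ a} = Set.univ \ {⟨a, ha⟩} := by
      ext l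
      simp only [Set.mem_ofPred_eq, Set.mem_sdiff, Set.mem_univ, true_and, Set.mem_singleton_iff]
      rw [not_iff_not]
      exact ⟨fun h => by ext; exact h, fun h => by rw [h]⟩
    rw [h1, Set.ncard_sdiff_singleton_add_one (Set.mem_univ _), Set.ncard_univ, Nat.card_eq_fintype_card,
      Fintype.card_coe]
  have hwall := hd.wall_le b b' a hcard (fun j => by
    constructor
    · rintro ⟨h1, h2⟩
      by_contra hj
      exact h2 ((hb' j).2 (Or.inl ⟨h1, hj⟩))
    · rintro rfl
      refine ⟨hapos, fun h => ?_⟩
      rcases (hb' j).1 h with h | h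
      · exact h.2 rfl
      · exact hane h)
  have hz : ∀ l : b.support, (l : ι) ≠ a → P.toLinearMap (fundWeight b l) (d b') =
      P.toLinearMap (fundWeight b l) (d b) := by
    intro l hl
    exact hd.corner_eq b' b _ ⟨⟨b, l, rfl⟩, hfix l hl⟩ ⟨⟨b, l, rfl⟩, fw_mem_closed b l⟩
  set c := P.toLinearMap (fundWeight b ⟨a, ha⟩) (d b') - P.toLinearMap (fundWeight b ⟨a, ha⟩) (d b)
    with hc
  have heq : d b' = d b + c • P.coroot a := by
    apply ext_fw b
    intro l
    rw [map_add, map_smul]
    by_cases hl : (l : ι) = a
    · have : l = ⟨a, ha⟩ := by ext; exact hl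
      subst this
      have h1 : P.toLinearMap (fundWeight b ⟨a, ha⟩) (P.coroot a) = 1 :=
        coroot'_fundWeight_self b ⟨a, ha⟩
      rw [h1, hc, smul_eq_mul]; ring
    · have h1 : P.toLinearMap (fundWeight b l) (P.coroot a) = 0 :=
        coroot'_fundWeight_of_ne b l ⟨a, ha⟩ (fun h => hl (by rw [← h]))
      rw [h1, smul_zero, add_zero]
      exact hz l hl
  refine ⟨c, ?_, heq⟩
  rw [heq, map_add, map_smul] at hwall
  have h2 : P.root' a (P.coroot a) = 2 := by simp
  rw [h2, smul_eq_mul] at hwall
  linarith

/-- the fundamental inequality -/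
lemma main_ineq (hd : IsCCS d) (b b' : P.Base) {ξ : M} (hξ : ξ ∈ closedChamber b) :
    P.toLinearMap ξ (d b) ≤ P.toLinearMap ξ (d b') := by
  classical
  have : Fintype ι := Fintype.ofFinite ι
  generalize hn : (Finset.univ.filter (fun k => b'.IsPos k ∧ ¬ b.IsPos k)).card = n
  induction n using Nat.strongRecOn generalizing b' with
  | ind n ih =>
    by_cases hall : ∀ j ∈ b'.support, b.IsPos j
    · have h1 : ∀ k, b'.IsPos k → b.IsPos k := fun k hk =>
        isPos_mem_of_simple (S := {k | b.IsPos k}) (fun i j k hi hj hk => Base.IsPos.add hi hj hk)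
          b' hall hk
      have h2 : ∀ k, b.IsPos k ↔ b'.IsPos k := by
        intro k
        refine ⟨fun hk => ?_, h1 k⟩
        by_contra h
        exact (isPos_neg_iff b k).1 (h1 _ ((isPos_neg_iff b' k).2 h)) hk
      rw [d_congr hd h2]
    · push Not at hall
      obtain ⟨a, ha, hab⟩ := hall
      obtain ⟨b'', hb''⟩ := exists_reflected_base' b' ha
      obtain ⟨c, hc, hcd⟩ := wall_cross hd ha hb''
      have hnega : b.IsPos (P.reflectionPerm a a) := (isPos_neg_iff b a).2 hab
      have hlt : (Finset.univ.filter (fun k => b''.IsPos k ∧ ¬ b.IsPos k)).card < n := by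
        rw [← hn]
        apply Finset.card_lt_card
        rw [Finset.ssubset_iff_of_subset]
        · refine ⟨a, by simp [hab, Base.isPos_of_mem_support ha], ?_⟩
          simp only [Finset.mem_filter, Finset.mem_univ, true_and, not_and, not_not]
          intro h
          rcases (hb'' a).1 h with h1 | h1
          · exact absurd rfl h1.2
          · rw [h1]; exact hnega
        · intro k hk
          simp only [Finset.mem_filter, Finset.mem_univ, true_and] at hk ⊢
          refine ⟨?_, hk.2⟩
          rcases (hb'' k).1 hk.1 with h1 | h1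
          · exact h1.1
          · exact absurd (h1 ▸ hnega) hk.2
      have h3 := ih _ hlt b'' rfl
      rw [hcd, map_add, map_smul, smul_eq_mul] at h3
      have h4 : P.toLinearMap ξ (P.coroot a) ≤ 0 := by
        have := closed_nonneg b hξ hnega
        rw [coroot'_neg] at this
        change 0 ≤ - P.toLinearMap ξ (P.coroot a) at this
        linarith
      have h5 := mul_nonpos_of_nonneg_of_nonpos hc h4
      linarith

lemma solid_ge (hd : IsCCS d) {b : P.Base} {ξ : M} (hξ : ξ ∈ closedChamber b) {y : N}
    (hy : y ∈ solid d) : P.toLinearMap ξ (d b) ≤ P.toLinearMap ξ y := by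
  have h1 : Convex R {y : N | P.toLinearMap ξ (d b) ≤ P.toLinearMap ξ y} :=
    convex_halfSpace_ge (P.toLinearMap ξ).isLinear _
  refine convexHull_min ?_ h1 hy
  rintro _ ⟨b', rfl⟩
  exact main_ineq hd b b' hξ

lemma dualSolid_subset_solid (F : Facet P) : dualSolid d F ⊆ solid d :=
  convexHull_mono (Set.image_subset_range _ _)

lemma dualSolid_eq (hd : IsCCS d) {F : Facet P} {b : P.Base} (hb : b ∈ F.cham) {v : M}
    (hv : v ∈ Submodule.span R F.corners) {y : N} (hy : y ∈ dualSolid d F) :
    P.toLinearMap v y = P.toLinearMap v (d b) := by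
  have h1 : Convex R {y : N | P.toLinearMap v y = P.toLinearMap v (d b)} :=
    convex_hyperplane (P.toLinearMap v).isLinear _
  refine convexHull_min ?_ h1 hy
  rintro _ ⟨b', hb', rfl⟩
  exact pair_span_corners_eq hd hb' hb hv

lemma cham_finite (F : Facet P) : (d '' F.cham).Finite := (Set.toFinite _)

/-- S14238 -/
lemma dualSolid_eq_inter (hd : IsCCS d) (F : Facet P) :
    RootCh.dualSolid d F = (⋂ m ∈ F.corners, RootCh.hyper d m) ∩
      ⋂ m ∈ F.corners', RootCh.halfClosed d m := by
  classical
  obtain ⟨b₁, hb₁⟩ := cham_nonempty F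
  apply Set.Subset.antisymm
  · intro y hy
    refine ⟨?_, ?_⟩
    · simp only [Set.mem_iInter]
      intro m hm b₀ hb₀
      rw [dualSolid_eq hd hb₁ (Submodule.subset_span hm) hy]
      exact hd.corner_eq _ _ _ (mem_corners_mem_baseCorners hb₁ hm) hb₀
    · simp only [Set.mem_iInter]
      intro m hm b₀ hb₀
      exact solid_ge hd hb₀.2 (dualSolid_subset_solid F hy)
  · rintro y ⟨hy1, hy2⟩
    simp only [Set.mem_iInter] at hy1 hy2
    rcases separation P ⊤ (cham_finite (d := d) F).toFinset y with ⟨z, hz, hz2⟩ | ⟨m, -, hm⟩
    · have : z = y := ext_fw b₁ (fun j => hz2 _ trivial)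
      rw [← this]
      simpa [dualSolid] using hz
    · exfalso
      obtain ⟨ξ, hξ⟩ := carrier_nonempty F
      obtain ⟨ε, b, hε, hb, hc⟩ := exists_cham_eps F hξ m
      have h1 : P.toLinearMap (ξ + ε • m) (d b) ≤ P.toLinearMap (ξ + ε • m) y := by
        rw [eq_sum_fw b (ξ + ε • m)]
        simp only [map_sum, LinearMap.coe_sum, Finset.sum_apply, map_smul, LinearMap.smul_apply,
          smul_eq_mul]
        refine Finset.sum_le_sum fun j _ => mul_le_mul_of_nonneg_left ?_ (hc j j.2)
        have hbc : fundWeight b j ∈ baseCorners b := ⟨⟨b, j, rfl⟩, fw_mem_closed b j⟩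
        exact hy2 _ (by simp only [Facet.corners', Set.mem_iUnion]; exact ⟨b, hb, hbc⟩) b hbc
      have h2 : P.toLinearMap ξ y = P.toLinearMap ξ (d b) := by
        have hs := carrier_subset_span F hξ
        clear h1 hc hξ
        induction hs using Submodule.span_induction with
        | mem m hm => exact hy1 m hm b (mem_corners_mem_baseCorners hb hm)
        | zero => simp
        | add x y _ _ hx hy => simp only [map_add, LinearMap.add_apply, hx, hy]
        | smul a x _ hx => simp only [map_smul, LinearMap.smul_apply, hx]
      have h3 := hm (d b) (by simpa using ⟨b, hb, rfl⟩)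
      simp only [map_add, map_smul, LinearMap.add_apply, LinearMap.smul_apply, smul_eq_mul, h2] at h1
      have h4 : ε * P.toLinearMap m y < ε * P.toLinearMap m (d b) := mul_lt_mul_of_pos_left h3 hε
      linarith

end
end Groth.Agent.H21
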