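import Groth.Agent.Lib.H21RootD

set_option autoImplicit false
set_option linter.unusedSectionVars false
set_option linter.unusedVariables false
open Module RootPairing RootCh

namespace Groth.Agent.H21

universe u v w x
variable {ι : Type u} {R : Type v} {M : Type w} {N : Type x}
    [Field R] [LinearOrder R] [IsStrictOrderedRing R]
    [AddCommGroup M] [Module R M] [AddCommGroup N] [Module R N]
variable [Finite ι] {P : RootPairing ι R M N} [P.IsRootSystem] [P.IsCrystallographic] [P.IsReduced]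
variable {d : P.Base → N}

lemma zero_closed (b : P.Base) : (0 : M) ∈ closedChamber b := fun j _ => by simp

lemma mem_origin_cham (b : P.Base) : b ∈ (Facet.origin P).cham :=
  (mem_cham_iff_mem (F := Facet.origin P) (ofVec_mem 0)).2 (zero_closed b)

lemma origin_corners : (Facet.origin P).corners = ∅ := by
  ext m
  simp only [Set.mem_empty_iff_false, iff_false]
  intro hm
  obtain ⟨b⟩ := P.nonempty_base
  obtain ⟨j, hj, -⟩ := (mem_corners_iff (mem_origin_cham b)).1 hm
  apply hj
  change SignType.sign (P.coroot' j 0) = 0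
  simp

lemma dualSolid_origin : dualSolid d (Facet.origin P) = solid d := by
  have : (Facet.origin P).cham = Set.univ := Set.eq_univ_of_forall mem_origin_cham
  rw [dualSolid, this, Set.image_univ, solid]

/-- S14241 -/
lemma corner_iff_semistable (hd : IsCCS d) :
    (∀ (b : P.Base), ∀ m ∈ RootCh.baseCorners b, P.toLinearMap m (d b) ≤ 0) ↔
      RootCh.IsSemistable d := by
  rw [IsSemistable, ← dualSolid_origin, dualSolid_eq_inter hd, origin_corners]
  simp only [Set.mem_empty_iff_false, Set.iInter_of_empty, Set.iInter_univ, Set.univ_inter,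
    Set.mem_iInter, Facet.corners', Set.mem_iUnion]
  constructor
  · rintro h m ⟨b₀, -, hm⟩ b hb
    simpa using h b m hb
  · intro h b m hm
    have := h m ⟨b, mem_origin_cham b, hm⟩ b hm
    simpa using this

lemma deg_nonpos_of (hd : IsCCS d)
    (h : ∀ (b : P.Base), ∀ m ∈ RootCh.baseCorners b, P.toLinearMap m (d b) ≤ 0)
    (F : Facet P) (b : P.Base) (hb : b ∈ F.cham) : F.deg d b ≤ 0 := by
  rw [deg_eq_pair]
  have h1 := (mem_carrier_iff_supp hb).1 (sum_parab_mem F)
  rw [eq_sum_fw b (sumRoots P F.parab)]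
  simp only [map_sum, LinearMap.coe_sum, Finset.sum_apply, map_smul, LinearMap.smul_apply,
    smul_eq_mul]
  exact Finset.sum_nonpos fun j _ => mul_nonpos_of_nonneg_of_nonpos (h1 j j.2).1
    (h b _ ⟨⟨b, j, rfl⟩, fw_mem_closed b j⟩)

lemma dim_eq_one (b : P.Base) (j : b.support) :
    (Facet.ofVec P (fundWeight b j)).dim = 1 := by
  have hb : b ∈ (Facet.ofVec P (fundWeight b j)).cham :=
    (mem_cham_iff_mem (ofVec_mem _)).2 (fw_mem_closed b j)
  have h1 : (Facet.ofVec P (fundWeight b j)).corners = {fundWeight b j} := by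
    rw [corners_eq_image hb]
    have : {i : b.support | (Facet.ofVec P (fundWeight b j)).sgn i ≠ 0} = {j} := by
      ext i
      exact ofVec_fw_sgn b j i
    rw [this, Set.image_singleton]
  rw [Facet.dim, span_carrier_eq, h1]
  exact finrank_span_singleton (fw_ne_zero b j)

lemma corner_nonpos_of_dim_one (h : ∀ (F : RootCh.Facet P) (b : P.Base), F.dim = 1 → b ∈ F.cham →
      F.deg d b ≤ 0) (b : P.Base) (m : M) (hm : m ∈ RootCh.baseCorners b) :
    P.toLinearMap m (d b) ≤ 0 := by
  classical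
  rw [baseCorners_eq] at hm
  obtain ⟨j, rfl⟩ := hm
  set F := Facet.ofVec P (fundWeight b j) with hF
  have hb : b ∈ F.cham :=
    (mem_cham_iff_mem (ofVec_mem _)).2 (fw_mem_closed b j)
  have h1 := h F b (dim_eq_one b j) hb
  have h2 := (mem_carrier_iff_supp hb).1 (sum_parab_mem F)
  rw [deg_eq_pair, eq_sum_fw b (sumRoots P F.parab)] at h1
  simp only [map_sum, LinearMap.coe_sum, Finset.sum_apply, map_smul, LinearMap.smul_apply,
    smul_eq_mul] at h1
  rw [Finset.sum_eq_single j] at h1
  · have h3 : 0 < P.coroot' j (sumRoots P F.parab) := by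
      refine lt_of_le_of_ne (h2 j j.2).1 (fun h0 => ?_)
      exact (ofVec_fw_sgn b j j).2 rfl ((h2 j j.2).2.1 h0.symm)
    by_contra! h4
    have := mul_pos h3 h4
    linarith
  · intro i _ hij
    have h3 : F.sgn i = 0 := by
      by_contra h0
      exact hij ((ofVec_fw_sgn b j i).1 h0)
    rw [(h2 i i.2).2.2 h3, zero_mul]
  · simp

/-- S14239 -/
lemma deg_iff_semistable (hd : IsCCS d) :
    (∀ (F : RootCh.Facet P) (b : P.Base), b ∈ F.cham → F.deg d b ≤ 0) ↔ RootCh.IsSemistable d := by
  rw [← corner_iff_semistable hd]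
  exact ⟨fun h b m hm => corner_nonpos_of_dim_one (fun F b _ hb => h F b hb) b m hm,
    fun h F b hb => deg_nonpos_of hd h F b hb⟩

/-- S14240 -/
lemma deg_one_iff_semistable (hd : IsCCS d) :
    (∀ (F : RootCh.Facet P) (b : P.Base), F.dim = 1 → b ∈ F.cham → F.deg d b ≤ 0) ↔
      RootCh.IsSemistable d := by
  rw [← corner_iff_semistable hd]
  exact ⟨fun h b m hm => corner_nonpos_of_dim_one h b m hm,
    fun h F b _ hb => deg_nonpos_of hd h F b hb⟩

/-! ### dual versions -/

lemma span_dualCarrier_eq (F : Facet P) :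
    Submodule.span R F.dualCarrier = Submodule.span R F.dualCorners :=
  span_carrier_eq (P := P.flip) (dualFacet F)

lemma mem_span_dualCarrier_iff {F : Facet P} {b : P.Base} (hb : b ∈ F.cham) {y : N} :
    y ∈ Submodule.span R F.dualCarrier ↔ ∀ j ∈ b.support, F.sgn j = 0 → P.root' j y = 0 := by
  rw [span_dualCarrier_eq]
  exact mem_span_corners_iff (P := P.flip) (F := dualFacet F) (flip_mem_cham.2 hb)

lemma mem_dualCarrier_iff_supp {F : Facet P} {b : P.Base} (hb : b ∈ F.cham) {y : N} :
    y ∈ F.dualCarrier ↔ ∀ j ∈ b.support, 0 ≤ P.root' j y ∧ (P.root' j y = 0 ↔ F.sgn j = 0) :=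
  mem_carrier_iff_supp (P := P.flip) (F := dualFacet F) (flip_mem_cham.2 hb)

lemma eq_sum_fcw (b : P.Base) (y : N) :
    y = ∑ j : b.support, (P.root' j y) • fundCoweight b j :=
  eq_sum_fw (P := P.flip) b.flip y

lemma root'_eq_sum (b : P.Base) (k : ι) (y : N) :
    P.root' k y = ∑ j : b.support, (P.root' j y) * P.root' k (fundCoweight b j) :=
  coroot'_eq_sum (P := P.flip) b.flip k y

lemma pair_sumRoots_Psi {F : Facet P} {b : P.Base} (hb : b ∈ F.cham) (j : b.support) {y : N}
    (hy : y ∈ Submodule.span R F.dualCarrier) :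
    P.toLinearMap (sumRoots P (F.Psi (fundWeight b j))) y =
      ((Set.toFinite (F.Psi (fundWeight b j))).toFinset.card : R) * P.root' j y := by
  classical
  rw [root'_sumRoots, ← nsmul_eq_mul, ← Finset.sum_const]
  refine Finset.sum_congr rfl fun i hi => ?_
  rw [Set.Finite.mem_toFinset, mem_Psi_iff hb] at hi
  rw [root'_eq_sum b i y, Finset.sum_eq_single j]
  · rw [hi.1, mul_one]
  · intro l _ hlj
    by_cases h0 : F.sgn l = 0
    · rw [(mem_span_dualCarrier_iff hb).1 hy l l.2 h0, zero_mul]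
    · rw [hi.2 l h0 hlj, mul_zero]
  · simp

lemma Psi_card_pos {F : Facet P} {b : P.Base} (hb : b ∈ F.cham) (j : b.support) :
    0 < ((Set.toFinite (F.Psi (fundWeight b j))).toFinset.card : R) := by
  have : (j : ι) ∈ (Set.toFinite (F.Psi (fundWeight b j))).toFinset := by
    rw [Set.Finite.mem_toFinset, mem_Psi_iff hb]
    refine ⟨root'_fundCoweight_self b j, fun l _ hlj => root'_fundCoweight_of_ne b l j ?_⟩
    exact fun h => hlj h.symm
  exact_mod_cast Finset.card_pos.2 ⟨_, this⟩

/-- S14243 -/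
lemma numInv_iff_special (hd : IsCCS d) (F : Facet P) :
    ((∀ m ∈ F.corners, ∀ b ∈ F.cham, 0 < F.numInv d m b) ∧
        (RootCh.dualSolid d F ∩ (Submodule.span R F.dualCarrier : Set N)).Nonempty) ↔
      RootCh.IsSpecial d F := by
  obtain ⟨b₀, hb₀⟩ := cham_nonempty F
  have key : ∀ (b : P.Base) (hb : b ∈ F.cham) (j : b.support) (hj : F.sgn j ≠ 0) (y : N)
      (hy1 : y ∈ dualSolid d F) (hy2 : y ∈ Submodule.span R F.dualCarrier),
      (0 < F.numInv d (fundWeight b j) b ↔ 0 < P.root' j y) := by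
    intro b hb j hj y hy1 hy2
    have hm : fundWeight b j ∈ F.corners := (mem_corners_iff hb).2 ⟨j, hj, rfl⟩
    rw [numInv_eq_pair, ← dualSolid_eq hd hb (sum_Psi_mem_span F _ hm) hy1,
      pair_sumRoots_Psi hb j hy2, mul_pos_iff_of_pos_left (Psi_card_pos hb j)]
  constructor
  · rintro ⟨h1, y, hy1, hy2⟩
    refine ⟨y, ?_, hy1⟩
    rw [mem_dualCarrier_iff_supp hb₀]
    intro j hj
    by_cases h0 : F.sgn j = 0
    · have := (mem_span_dualCarrier_iff hb₀).1 hy2 j hj h0
      rw [this]; simp [h0]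
    · have hm : fundWeight b₀ ⟨j, hj⟩ ∈ F.corners := (mem_corners_iff hb₀).2 ⟨⟨j, hj⟩, h0, rfl⟩
      have := (key b₀ hb₀ ⟨j, hj⟩ h0 y hy1 hy2).1 (h1 _ hm b₀ hb₀)
      exact ⟨this.le, iff_of_false this.ne' h0⟩
  · rintro ⟨y, hy1, hy2⟩
    have hys : y ∈ Submodule.span R F.dualCarrier := Submodule.subset_span hy1
    refine ⟨fun m hm b hb => ?_, y, hy2, hys⟩
    obtain ⟨j, hj, rfl⟩ := (mem_corners_iff hb).1 hm
    rw [key b hb j hj y hy2 hys]
    have := (mem_dualCarrier_iff_supp hb).1 hy1 j j.2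
    exact lt_of_le_of_ne this.1 (fun h => hj (this.2.1 h.symm))

/-! ### the point y(F) -/

lemma yLocus_subsingleton (F : Facet P) {y z : N} (hy : y ∈ yLocus d F) (hz : z ∈ yLocus d F) :
    y = z := by
  classical
  obtain ⟨b, hb⟩ := cham_nonempty F
  obtain ⟨B, hBs, hBp, hBi⟩ := exists_form P.flip
  obtain ⟨ξ, h1, h2⟩ := exists_dual_vec (P := P.flip) B hBp hBi (y - z)
  have h3 : ξ ∈ Submodule.span R F.corners := by
    rw [mem_span_corners_iff hb]
    intro j hj h0
    have h4 : P.root' j (y - z) = 0 :=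
      (mem_span_dualCarrier_iff hb).1 (Submodule.sub_mem _ hy.2 hz.2) j hj h0
    have h5 := h2 j
    change P.coroot' j ξ = P.root' j (y - z) * _ at h5
    rw [h5, h4, zero_mul]
  have h4 : P.toLinearMap ξ (y - z) = 0 := by
    clear h1 h2
    induction h3 using Submodule.span_induction with
    | mem m hm =>
      have hmb := mem_corners_mem_baseCorners hb hm
      have hy1 := hy.1
      have hz1 := hz.1
      simp only [Set.mem_iInter] at hy1 hz1
      rw [map_sub, hy1 m hm b hmb, hz1 m hm b hmb, sub_self]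
    | zero => simp
    | add x y _ _ hx hy => rw [map_add, LinearMap.add_apply, hx, hy, add_zero]
    | smul a x _ hx => rw [map_smul, LinearMap.smul_apply, hx, smul_zero]
  have h5 : B (y - z) (y - z) = 0 := by
    rw [← h1]; exact h4
  by_contra hne
  exact (hBp _ (sub_ne_zero.2 hne)).ne' h5

lemma mem_yLocus_of (hd : IsCCS d) {F : Facet P} {y : N} (hy1 : y ∈ F.dualCarrier)
    (hy2 : y ∈ dualSolid d F) : y ∈ yLocus d F := by
  refine ⟨?_, Submodule.subset_span hy1⟩
  rw [dualSolid_eq_inter hd] at hy2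
  exact hy2.1

/-- S14251 -/
lemma special_yLocus (hd : IsCCS d) (F : Facet P) (hF : IsSpecial d F) :
    ∃ y₀ : N, RootCh.yLocus d F = {y₀} ∧ F.dualCarrier ∩ RootCh.dualSolid d F = {y₀} := by
  obtain ⟨y, hy1, hy2⟩ := hF
  have hy := mem_yLocus_of hd hy1 hy2
  refine ⟨y, ?_, ?_⟩
  · ext z
    exact ⟨fun hz => yLocus_subsingleton F hz hy, fun hz => by rw [hz]; exact hy⟩
  · ext z
    refine ⟨fun hz => ?_, fun hz => by rw [hz]; exact ⟨hy1, hy2⟩⟩
    exact yLocus_subsingleton F (mem_yLocus_of hd hz.1 hz.2) hy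

/-- the vector of `M` attached to a vector of `N` by an invariant form on `N`. -/
lemma exists_vec_of_form (B : LinearMap.BilinForm R N) (hBp : ∀ y : N, y ≠ 0 → 0 < B y y)
    (hBi : ∀ (i : ι) (y z : N), B (P.coreflection i y) (P.coreflection i z) = B y z) (y₀ : N) :
    ∃ ξ : M, (∀ y, P.toLinearMap ξ y = B y₀ y) ∧ sgnVec P ξ = cosgnVec P y₀ := by
  obtain ⟨ξ, h1, h2⟩ := exists_dual_vec (P := P.flip) B hBp hBi y₀
  refine ⟨ξ, h1, ?_⟩
  exact cosgnVec_eq_of (P := P.flip) B hBp h2

/-- S14244 -/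
lemma special_min (hd : IsCCS d)
    (B : LinearMap.BilinForm R N) (hBs : ∀ y z : N, B y z = B z y) (hBp : ∀ y : N, y ≠ 0 → 0 < B y y)
    (hBi : ∀ (i : ι) (y z : N), B (P.coreflection i y) (P.coreflection i z) = B y z)
    (F : RootCh.Facet P) (hF : RootCh.IsSpecial d F) :
    ∃ y₀ : N, RootCh.yLocus d F = {y₀} ∧ y₀ ∈ RootCh.solid d ∧
      ∀ y ∈ RootCh.solid d, y ≠ y₀ → B y₀ y₀ < B y y := by
  obtain ⟨y₀, h1, h2⟩ := special_yLocus hd F hF
  have h3 : y₀ ∈ F.dualCarrier ∩ RootCh.dualSolid d F := by rw [h2]; rfl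
  obtain ⟨b, hb⟩ := cham_nonempty F
  refine ⟨y₀, h1, dualSolid_subset_solid F h3.2, fun y hy hne => ?_⟩
  obtain ⟨ξ, hξ, hsgn⟩ := exists_vec_of_form B hBp hBi y₀
  have hξF : ξ ∈ F.carrier := hsgn.trans h3.1
  have h4 := solid_ge hd (hb hξF) hy
  rw [← dualSolid_eq hd hb (carrier_subset_span F hξF) h3.2, hξ, hξ] at h4
  have h5 := hBp (y - y₀) (sub_ne_zero.2 hne)
  simp only [map_sub, LinearMap.sub_apply] at h5
  rw [hBs y y₀] at h5
  linarith

/-- S14245 -/
lemma min_special (hd : IsCCS d)
    (B : LinearMap.BilinForm R N) (hBs : ∀ y z : N, B y z = B z y) (hBp : ∀ y : N, y ≠ 0 → 0 < B y y)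
    (hBi : ∀ (i : ι) (y z : N), B (P.coreflection i y) (P.coreflection i z) = B y z)
    (y₀ : N) (hy₀ : y₀ ∈ RootCh.solid d) (hmin : ∀ y ∈ RootCh.solid d, B y₀ y₀ ≤ B y y)
    (F : RootCh.Facet P) (hF : y₀ ∈ F.dualCarrier) :
    RootCh.IsSpecial d F ∧ RootCh.yLocus d F = {y₀} := by
  obtain ⟨ξ, hξ, hsgn⟩ := exists_vec_of_form B hBp hBi y₀
  have hξF : ξ ∈ F.carrier := hsgn.trans hF
  -- first order condition
  have hfo : ∀ y ∈ solid d, P.toLinearMap ξ y₀ ≤ P.toLinearMap ξ y := by
    intro y hy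
    rw [hξ, hξ]
    by_contra! hlt
    set a := B y₀ y₀ - B y₀ y with ha
    have hapos : 0 < a := by rw [ha]; linarith
    set q := B (y - y₀) (y - y₀) with hq
    have hq0 : 0 ≤ q := by
      by_cases h : y - y₀ = 0
      · rw [hq, h]; simp
      · exact (hBp _ h).le
    -- t small with t * q < 2 a, t ≤ 1
    set t : R := a / (a + q) with ht
    have haq : 0 < a + q := by linarith
    have ht0 : 0 < t := div_pos hapos haq
    have ht1 : t ≤ 1 := by rw [ht, div_le_one haq]; linarith
    have hmem : y₀ + t • (y - y₀) ∈ solid d := by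
      have hconv : Convex R (solid d) := convex_convexHull R _
      exact hconv.add_smul_sub_mem hy₀ hy ⟨ht0.le, ht1⟩
    have h1 := hmin _ hmem
    have h2 : B (y₀ + t • (y - y₀)) (y₀ + t • (y - y₀)) = B y₀ y₀ - 2 * t * a + t * t * q := by
      rw [ha, hq]
      simp only [map_add, map_smul, map_sub, LinearMap.add_apply, LinearMap.smul_apply,
        LinearMap.sub_apply, smul_eq_mul, hBs y y₀]
      ring
    rw [h2] at h1
    have h3 : t * (a + q) = a := by rw [ht]; field_simp
    have h4 : t * (t * q) ≤ t * a := by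
      apply mul_le_mul_of_nonneg_left _ ht0.le
      nlinarith
    have h5 : 0 < t * a := mul_pos ht0 hapos
    nlinarith
  obtain ⟨b, hb⟩ := cham_nonempty F
  have hmem : y₀ ∈ dualSolid d F := by
    rw [dualSolid_eq_inter hd]
    refine ⟨?_, ?_⟩
    · have hle : ∀ j : b.support, P.toLinearMap (fundWeight b j) (d b) ≤
          P.toLinearMap (fundWeight b j) y₀ := fun j => solid_ge hd (fw_mem_closed b j) hy₀
      have h1 := hfo (d b) (subset_convexHull R _ ⟨b, rfl⟩)
      rw [eq_sum_fw b ξ] at h1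
      simp only [map_sum, LinearMap.coe_sum, Finset.sum_apply, map_smul, LinearMap.smul_apply,
        smul_eq_mul] at h1
      have hnn := (mem_carrier_iff_supp hb).1 hξF
      have h2 : ∑ j : b.support, P.coroot' j ξ * (P.toLinearMap (fundWeight b j) y₀ -
          P.toLinearMap (fundWeight b j) (d b)) = 0 := by
        apply le_antisymm
        · simp only [mul_sub, Finset.sum_sub_distrib]
          linarith
        · exact Finset.sum_nonneg fun j _ => mul_nonneg (hnn j j.2).1 (sub_nonneg.2 (hle j))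
      rw [Finset.sum_eq_zero_iff_of_nonneg
        (fun (j : b.support) _ => mul_nonneg (hnn j j.2).1 (sub_nonneg.2 (hle j)))] at h2
      simp only [Set.mem_iInter]
      intro m hm b' hb'
      have hmb := mem_corners_mem_baseCorners hb hm
      obtain ⟨j, hj, rfl⟩ := (mem_corners_iff hb).1 hm
      rw [hd.corner_eq b' b _ hb' hmb]
      have h3 := h2 j (Finset.mem_univ _)
      rcases mul_eq_zero.1 h3 with h4 | h4
      · exact absurd ((hnn j j.2).2.1 h4) hj
      · linarith
    · simp only [Set.mem_iInter]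
      intro m hm b' hb'
      exact solid_ge hd hb'.2 hy₀
  refine ⟨⟨y₀, hF, hmem⟩, ?_⟩
  have hy := mem_yLocus_of hd hF hmem
  ext z
  exact ⟨fun hz => yLocus_subsingleton F hz hy, fun hz => by rw [hz]; exact hy⟩

lemma facet_eq_of_mem_dualCarrier {F G : Facet P} {y : N} (h1 : y ∈ F.dualCarrier)
    (h2 : y ∈ G.dualCarrier) : F = G := Facet.ext (h1.symm.trans h2)

lemma special_unique (hd : IsCCS d) {F G : Facet P} (hF : IsSpecial d F) (hG : IsSpecial d G) :
    F = G := by
  obtain ⟨B, hBs, hBp, hBi⟩ := exists_form P.flip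
  obtain ⟨y, hy, hys, hymin⟩ := special_min hd B hBs hBp hBi F hF
  obtain ⟨z, hz, hzs, hzmin⟩ := special_min hd B hBs hBp hBi G hG
  obtain ⟨y', h1, h2⟩ := special_yLocus hd F hF
  obtain ⟨z', h3, h4⟩ := special_yLocus hd G hG
  have hyy : y = y' := by
    have := hy.symm.trans h1; exact Set.singleton_injective this
  have hzz : z = z' := by
    have := hz.symm.trans h3; exact Set.singleton_injective this
  have hyz : y = z := by
    by_contra hne
    have := hymin z hzs (Ne.symm hne)
    have := hzmin y hys hne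
    linarith
  have h5 : y ∈ F.dualCarrier := by
    have : y' ∈ F.dualCarrier ∩ RootCh.dualSolid d F := by rw [h2]; rfl
    rw [hyy]; exact this.1
  have h6 : y ∈ G.dualCarrier := by
    have : z' ∈ G.dualCarrier ∩ RootCh.dualSolid d G := by rw [h4]; rfl
    rw [hyz, hzz]; exact this.1
  exact facet_eq_of_mem_dualCarrier h5 h6

/-- S14248 -/
lemma special_greatest (hd : IsCCS d) (F : RootCh.Facet P) (b : P.Base) (hb : b ∈ F.cham)
    (hF : RootCh.IsSpecial d F) :
    (∀ (G : RootCh.Facet P) (c : P.Base), c ∈ G.cham → G.deg d c ≤ F.deg d b) ∧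
      ∀ (G : RootCh.Facet P) (c : P.Base), c ∈ G.cham → G.deg d c = F.deg d b → G ≤ F := by
  classical
  obtain ⟨y, hy1, hy2⟩ := hF
  have : Fintype ι := Fintype.ofFinite ι
  have hFdeg : F.deg d b = ∑ i ∈ (Set.toFinite F.parab).toFinset, P.root' i y := by
    rw [deg_eq_pair, ← dualSolid_eq hd hb (carrier_subset_span F (sum_parab_mem F)) hy2,
      root'_sumRoots]
  have hFdeg2 : F.deg d b = ∑ i : ι, max (P.root' i y) 0 := by
    rw [hFdeg, ← Finset.sum_subset (Finset.subset_univ (Set.toFinite F.parab).toFinset)]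
    · refine Finset.sum_congr rfl fun i hi => ?_
      rw [Set.Finite.mem_toFinset, mem_parab_iff_root hy1] at hi
      rw [max_eq_left hi]
    · intro i _ hi
      rw [Set.Finite.mem_toFinset, mem_parab_iff_root hy1] at hi
      exact max_eq_right (not_le.1 hi).le
  have hG : ∀ (G : Facet P) (c : P.Base), c ∈ G.cham →
      G.deg d c ≤ ∑ i ∈ (Set.toFinite G.parab).toFinset, P.root' i y := by
    intro G c hc
    rw [deg_eq_pair, ← root'_sumRoots]
    exact solid_ge hd (hc (sum_parab_mem G)) (dualSolid_subset_solid F hy2)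
  have hG2 : ∀ (G : Facet P), ∑ i ∈ (Set.toFinite G.parab).toFinset, P.root' i y ≤
      ∑ i ∈ (Set.toFinite G.parab).toFinset, max (P.root' i y) 0 := fun G =>
    Finset.sum_le_sum fun i _ => le_max_left _ _
  have hG3 : ∀ (G : Facet P), ∑ i ∈ (Set.toFinite G.parab).toFinset, max (P.root' i y) 0 ≤
      ∑ i : ι, max (P.root' i y) 0 := fun G =>
    Finset.sum_le_sum_of_subset_of_nonneg (Finset.subset_univ _) (fun i _ _ => le_max_right _ _)
  refine ⟨fun G c hc => ?_, fun G c hc heq => ?_⟩
  · rw [hFdeg2]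
    exact (hG G c hc).trans ((hG2 G).trans (hG3 G))
  · rw [le_iff_parab]
    intro i hi
    rw [mem_parab_iff_root hy1]
    by_contra! hlt
    have h1 : ∑ i ∈ (Set.toFinite G.parab).toFinset, P.root' i y <
        ∑ i ∈ (Set.toFinite G.parab).toFinset, max (P.root' i y) 0 := by
      refine Finset.sum_lt_sum (fun i _ => le_max_left _ _) ⟨i, ?_, ?_⟩
      · rw [Set.Finite.mem_toFinset]; exact hi
      · rw [max_eq_right hlt.le]; exact hlt
    have h2 := hG G c hc
    have h3 := hG3 G
    rw [heq, hFdeg2] at h2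
    linarith


/-! ### the facet of maximal degree -/

lemma facet_le_of (b : P.Base) {F G : Facet P} (hF : b ∈ F.cham) (hG : b ∈ G.cham)
    (h : ∀ j ∈ b.support, F.sgn j = 0 → G.sgn j = 0) : F ≤ G := by
  rw [Facet.le_def]
  obtain ⟨ξ, hξ⟩ := carrier_nonempty F
  obtain ⟨η, hη⟩ := carrier_nonempty G
  intro k
  have hξ' : sgnVec P ξ = F.sgn := hξ
  have hη' : sgnVec P η = G.sgn := hη
  rw [← hξ', ← hη']
  refine sgn_rel b (hG hη) (hF hξ) (fun j hj h0 => ?_) k
  have h1 := ((mem_carrier_iff_supp hF).1 hξ j hj).2.1 h0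
  exact ((mem_carrier_iff_supp hG).1 hη j hj).2.2 (h j hj h1)

lemma dual_coeff_zero {G : Facet P} {b : P.Base} (hb : b ∈ G.cham) {k : ι} (hk : G.sgn k = 0)
    (l : b.support) (hl : G.sgn l ≠ 0) : P.root' k (fundCoweight b l) = 0 := by
  have h1 : fundCoweight b l ∈ G.dualCorners := (mem_dualCorners_iff hb).2 ⟨l, hl, rfl⟩
  have h2 := h1.2 k
  rw [hk] at h2
  have h3 : cosgnVec P (fundCoweight b l) k = 0 := by tauto
  exact sign_eq_zero_iff.1 h3

/-- S14247 (S2) -/
lemma maximal_S2 (hd : IsCCS d) (F : RootCh.Facet P)  (b₀ : P.Base) (hb₀ : b₀ ∈ F.cham)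
    (hmax : ∀ (G : RootCh.Facet P) (c : P.Base), c ∈ G.cham → G.deg d c ≤ F.deg d b₀) :
    (RootCh.dualSolid d F ∩ (Submodule.span R F.dualCarrier : Set N)).Nonempty := by
  classical
  rcases separation P (Submodule.span R (P.root '' F.leviPart)) (cham_finite (d := d) F).toFinset 0
    with ⟨z, hz, hz2⟩ | ⟨m, hmV, hm⟩
  · refine ⟨z, by simpa [dualSolid] using hz, ?_⟩
    rw [SetLike.mem_coe, mem_span_dualCarrier_iff hb₀]
    intro j hj h0
    have := hz2 (P.root j) (Submodule.subset_span ⟨j, h0, rfl⟩)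
    simpa using this
  · exfalso
    obtain ⟨ξ, hξ⟩ := carrier_nonempty F
    obtain ⟨ε, b, hε, hb, hc⟩ := exists_cham_eps F hξ m
    have hξs := (mem_carrier_iff_supp hb).1 hξ
    have hmpos : ∀ j ∈ b.support, F.sgn j = 0 → 0 ≤ P.coroot' j m := by
      intro j hj h0
      have h1 := hc j hj
      rw [map_add, map_smul, (hξs j hj).2.2 h0, zero_add, smul_eq_mul] at h1
      exact (mul_nonneg_iff_of_pos_left hε).1 h1
    -- facets G_j
    have hG : ∀ j : b.support, F.sgn j = 0 → ∃ u : M, u ∈ Submodule.span R (P.root '' F.leviPart) ∧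
        P.toLinearMap u (d b) ≤ 0 ∧ 0 < P.coroot' j u ∧
        ∀ k : b.support, F.sgn k = 0 → k ≠ j → P.coroot' k u = 0 := by
      intro j hj
      obtain ⟨G, hG1, hG2⟩ := exists_facet_of_supp b (insert j {i : b.support | F.sgn i ≠ 0})
      have hGF : G ≤ F := by
        refine facet_le_of b hG1 hb (fun i hi h0 => ?_)
        by_contra h1
        exact (hG2 ⟨i, hi⟩).2 (Or.inr h1) h0
      have hsub : G.parab ⊆ F.parab := (le_iff_parab G F).1 hGF
      refine ⟨sumRoots P G.parab - sumRoots P F.parab, ?_, ?_, ?_, ?_⟩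
      · have : sumRoots P G.parab - sumRoots P F.parab =
            - ∑ i ∈ (Set.toFinite F.parab).toFinset \ (Set.toFinite G.parab).toFinset, P.root i := by
          rw [sumRoots, sumRoots, ← Finset.sum_sdiff (s₁ := (Set.toFinite G.parab).toFinset)
            (s₂ := (Set.toFinite F.parab).toFinset) (by simpa using hsub)]
          abel
        rw [this]
        refine Submodule.neg_mem _ (Submodule.sum_mem _ fun i hi => Submodule.subset_span ⟨i, ?_, rfl⟩)
        simp only [Finset.mem_sdiff, Set.Finite.mem_toFinset] at hi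
        obtain ⟨hi1, hi2⟩ := hi
        rw [mem_parab_iff] at hi1 hi2
        push Not at hi2
        rcases hGF i with h1 | h1
        · exact h1
        · rw [h1] at hi1; exact absurd hi2 hi1
      · rw [map_sub, LinearMap.sub_apply, ← deg_eq_pair, ← deg_eq_pair, deg_eq_deg hd F b b₀ hb hb₀]
        have := hmax G b hG1
        linarith
      · have h1 := ((mem_carrier_iff_supp hG1).1 (sum_parab_mem G)) j j.2
        have h2 := ((mem_carrier_iff_supp hb).1 (sum_parab_mem F)) j j.2
        rw [map_sub, h2.2.2 hj, sub_zero]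
        refine lt_of_le_of_ne h1.1 (fun h3 => ?_)
        exact (hG2 j).2 (Or.inl rfl) (h1.2.1 h3.symm)
      · intro k hk hkj
        have h1 := ((mem_carrier_iff_supp hG1).1 (sum_parab_mem G)) k k.2
        have h2 := ((mem_carrier_iff_supp hb).1 (sum_parab_mem F)) k k.2
        rw [map_sub, h2.2.2 hk, sub_zero]
        apply h1.2.2
        by_contra h3
        rcases (hG2 k).1 h3 with h4 | h4
        · exact hkj h4
        · exact h4 hk
    choose! u hu1 hu2 hu3 hu4 using hG
    set m' : M := ∑ j : b.support, if F.sgn j = 0 then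
      (P.coroot' j m / P.coroot' j (u j)) • u j else 0 with hm'
    have hm'V : m' ∈ Submodule.span R (P.root '' F.leviPart) := by
      refine Submodule.sum_mem _ fun j _ => ?_
      split_ifs with h
      · exact Submodule.smul_mem _ _ (hu1 j h)
      · exact Submodule.zero_mem _
    have hco : ∀ k : b.support, F.sgn k = 0 → P.coroot' k m' = P.coroot' k m := by
      intro k hk
      rw [hm', map_sum, Finset.sum_eq_single k]
      · rw [if_pos hk, map_smul, smul_eq_mul, div_mul_cancel₀ _ (hu3 k hk).ne']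
      · intro j _ hjk
        split_ifs with h
        · rw [map_smul, hu4 j h k hk (Ne.symm hjk), smul_zero]
        · simp
      · simp
    have hw : m = m' := by
      obtain ⟨B, hBs, hBp, hBi⟩ := exists_form P
      obtain ⟨y, h1, h2⟩ := exists_dual_vec B hBp hBi (m - m')
      have hy : y ∈ Submodule.span R F.dualCarrier := by
        rw [mem_span_dualCarrier_iff hb]
        intro j hj h0
        rw [h2, map_sub, hco ⟨j, hj⟩ h0, sub_self, zero_mul]
      have h3 : ∀ v ∈ Submodule.span R (P.root '' F.leviPart), P.toLinearMap v y = 0 := by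
        intro v hv
        induction hv using Submodule.span_induction with
        | mem v hv =>
          obtain ⟨k, hk, rfl⟩ := hv
          clear h1 h2
          induction hy using Submodule.span_induction with
          | mem y hy =>
            have := mem_dualCarrier_iff.1 hy k
            have hk' : F.sgn k = 0 := hk
            rw [hk'] at this
            exact sign_eq_zero_iff.1 this
          | zero => simp
          | add x y _ _ hx hy => rw [map_add, hx, hy, add_zero]
          | smul a x _ hx => rw [map_smul, hx, smul_zero]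
        | zero => simp
        | add x y _ _ hx hy => rw [map_add, LinearMap.add_apply, hx, hy, add_zero]
        | smul a x _ hx => rw [map_smul, LinearMap.smul_apply, hx, smul_zero]
      have h4 := h3 _ (Submodule.sub_mem _ hmV hm'V)
      rw [h1] at h4
      by_contra hne
      exact (hBp _ (sub_ne_zero.2 hne)).ne' h4
    have h5 := hm (d b) (by simpa using ⟨b, hb, rfl⟩)
    rw [map_zero, hw, hm'] at h5
    simp only [map_sum, LinearMap.coe_sum, Finset.sum_apply] at h5
    have h6 : ∑ x : b.support, (P.toLinearMap (if F.sgn x = 0 then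
      (P.coroot' x m / P.coroot' x (u x)) • u x else 0)) (d b) ≤ 0 := by
      refine Finset.sum_nonpos fun j _ => ?_
      split_ifs with h
      · rw [map_smul, LinearMap.smul_apply, smul_eq_mul]
        exact mul_nonpos_of_nonneg_of_nonpos (div_nonneg (hmpos j j.2 h) (hu3 j h).le) (hu2 j h)
      · simp
    linarith

/-- S14247 -/
lemma special_of_maximal (hd : IsCCS d)
    (F : RootCh.Facet P) (b : P.Base) (hb : b ∈ F.cham)
    (hmax : ∀ (G : RootCh.Facet P) (c : P.Base), c ∈ G.cham → G.deg d c ≤ F.deg d b)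
    (hmaxl : ∀ (G : RootCh.Facet P) (c : P.Base), c ∈ G.cham → G.deg d c = F.deg d b → F ≤ G → G = F) :
    RootCh.IsSpecial d F := by
  classical
  obtain ⟨y, hy1, hy2⟩ := maximal_S2 hd F b hb hmax
  refine ⟨y, ?_, hy1⟩
  rw [mem_dualCarrier_iff_supp hb]
  intro j hj
  by_cases h0 : F.sgn j = 0
  · have := (mem_span_dualCarrier_iff hb).1 hy2 j hj h0
    rw [this]; simp [h0]
  suffices h : 0 < P.root' j y from ⟨h.le, iff_of_false h.ne' h0⟩
  obtain ⟨G, hG1, hG2⟩ := exists_facet_of_supp b ({i : b.support | F.sgn i ≠ 0} \ {⟨j, hj⟩})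
  have hFG : F ≤ G := by
    refine facet_le_of b hb hG1 (fun i hi h0 => ?_)
    by_contra h1
    exact ((hG2 ⟨i, hi⟩).1 h1).1 h0
  have hGne : G ≠ F := by
    intro h
    have := (hG2 ⟨j, hj⟩).1 (by rw [h]; exact h0)
    exact this.2 rfl
  have hdeg : G.deg d b < F.deg d b :=
    lt_of_le_of_ne (hmax G b hG1) (fun h => hGne (hmaxl G b hG1 h hFG))
  have hsub : F.parab ⊆ G.parab := (le_iff_parab F G).1 hFG
  set u := sumRoots P F.parab - sumRoots P G.parab with hu
  have hGs : sumRoots P G.parab ∈ Submodule.span R F.corners := by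
    rw [mem_span_corners_iff hb]
    intro i hi h1
    refine ((mem_carrier_iff_supp hG1).1 (sum_parab_mem G) i hi).2.2 ?_
    by_contra h2
    exact ((hG2 ⟨i, hi⟩).1 h2).1 h1
  have hus : u ∈ Submodule.span R F.corners :=
    Submodule.sub_mem _ (carrier_subset_span F (sum_parab_mem F)) hGs
  have hu1 : 0 < P.toLinearMap u y := by
    rw [dualSolid_eq hd hb hus hy1, hu, map_sub, LinearMap.sub_apply, ← deg_eq_pair, ← deg_eq_pair]
    linarith
  have hueq : u = - ∑ i ∈ (Set.toFinite G.parab).toFinset \ (Set.toFinite F.parab).toFinset,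
      P.root i := by
    rw [hu, sumRoots, sumRoots, ← Finset.sum_sdiff (s₁ := (Set.toFinite F.parab).toFinset)
            (s₂ := (Set.toFinite G.parab).toFinset) (by simpa using hsub)]
    abel
  have hpair : ∀ z : N, P.toLinearMap u z = ∑ i ∈ (Set.toFinite G.parab).toFinset \
      (Set.toFinite F.parab).toFinset, - P.root' i z := by
    intro z
    rw [hueq]
    simp only [map_neg, map_sum, LinearMap.neg_apply, LinearMap.coe_sum, Finset.sum_apply,
      Finset.sum_neg_distrib, RootPairing.root']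
  have hmem : ∀ i ∈ (Set.toFinite G.parab).toFinset \ (Set.toFinite F.parab).toFinset,
      G.sgn i = 0 ∧ ¬ b.IsPos i := by
    intro i hi
    simp only [Finset.mem_sdiff, Set.Finite.mem_toFinset] at hi
    obtain ⟨hi1, hi2⟩ := hi
    refine ⟨?_, fun h => hi2 (isPos_mem_parab hb h)⟩
    rw [mem_parab_iff] at hi1 hi2
    push Not at hi2
    rcases hFG i with h1 | h1
    · exact h1
    · rw [h1, hi2] at hi1; exact absurd rfl hi1
  have hu2 : 0 ≤ P.toLinearMap u (fundCoweight b ⟨j, hj⟩) := by
    rw [hpair]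
    refine Finset.sum_nonneg fun i hi => ?_
    rw [← root'_neg]
    exact root'_fcw_nonneg b ((isPos_neg_iff b i).2 (hmem i hi).2) _
  have hu3 : ∀ l : b.support, F.sgn l ≠ 0 → l ≠ ⟨j, hj⟩ → P.toLinearMap u (fundCoweight b l) = 0 := by
    intro l hl hlj
    rw [hpair]
    refine Finset.sum_eq_zero fun i hi => ?_
    rw [dual_coeff_zero hG1 (hmem i hi).1 l ((hG2 l).2 ⟨hl, hlj⟩), neg_zero]
  have hexp : P.toLinearMap u y = P.root' j y * P.toLinearMap u (fundCoweight b ⟨j, hj⟩) := by
    conv_lhs => rw [eq_sum_fcw b y]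
    rw [map_sum, Finset.sum_eq_single ⟨j, hj⟩]
    · rw [map_smul, smul_eq_mul]
    · intro l _ hlj
      by_cases hl : F.sgn l = 0
      · rw [(mem_span_dualCarrier_iff hb).1 hy2 l l.2 hl, zero_smul, map_zero]
      · rw [map_smul, hu3 l hl hlj, smul_zero]
    · simp
  rw [hexp] at hu1
  by_contra! hle
  have := mul_nonpos_of_nonpos_of_nonneg hle hu2
  linarith

instance finite_facet : Finite (Facet P) :=
  Finite.of_injective (fun F : Facet P => F.sgn) (fun F G h => Facet.ext h)

/-- S14246 -/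
lemma existsUnique_special (hd : IsCCS d) : ∃! F : RootCh.Facet P, RootCh.IsSpecial d F := by
  classical
  have : Nonempty (Facet P) := ⟨Facet.origin P⟩
  let ch : Facet P → P.Base := fun F => (cham_nonempty F).choose
  have hch : ∀ F, ch F ∈ F.cham := fun F => (cham_nonempty F).choose_spec
  obtain ⟨F₀, hF₀⟩ := Finite.exists_max (fun F : Facet P => F.deg d (ch F))
  have hfin : ({F : Facet P | F.deg d (ch F) = F₀.deg d (ch F₀)}).Finite := Set.toFinite _
  obtain ⟨F, hF⟩ := hfin.exists_maximal ⟨F₀, rfl⟩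
  have hF1 : F.deg d (ch F) = F₀.deg d (ch F₀) := hF.1
  refine ⟨F, special_of_maximal hd F (ch F) (hch F) (fun G c hc => ?_) (fun G c hc heq hle => ?_),
    fun G hG => ?_⟩
  · rw [deg_eq_deg hd G c (ch G) hc (hch G), hF1]
    exact hF₀ G
  · rw [deg_eq_deg hd G c (ch G) hc (hch G), hF1] at heq
    exact le_antisymm (hF.2 heq hle) hle
  · refine special_unique hd hG ?_
    exact special_of_maximal hd F (ch F) (hch F) (fun G c hc => by
      rw [deg_eq_deg hd G c (ch G) hc (hch G), hF1]
      exact hF₀ G) (fun G c hc heq hle => by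
      rw [deg_eq_deg hd G c (ch G) hc (hch G), hF1] at heq
      exact le_antisymm (hF.2 heq hle) hle)

end Groth.Agent.H21
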