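import Groth.Agent.Lib.H21SN2
import Groth.Agent.Lib.H21SN3

set_option autoImplicit false
set_option backward.isDefEq.respectTransparency false
set_option backward.isDefEq.respectTransparency.types false
open CategoryTheory CategoryTheory.Limits AlgebraicGeometry TensorProduct

namespace Groth.Agent.H21

universe u

lemma Nmap_injective {A B : Type u} [CommRing A] [CommRing B] (f : A →+* B)
    (hs : Function.Surjective (PrimeSpectrum.comap f)) :
    Function.Injective (EtaPt.FieldEndo.ident.{u}.Nmap f) := by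
  intro x y h
  funext p
  obtain ⟨q, rfl⟩ := hs p
  have h1 := congrFun h q
  exact RingHom.injective (Ideal.ResidueField.map (PrimeSpectrum.comap f q).asIdeal q.asIdeal f rfl) h1

theorem uniq_hom {A C : Type u} [CommRing A] [CommRing C] (ψ : A →+* C)
    (hinj : Function.Injective (PrimeSpectrum.comap ψ))
    (hres : ∀ y : PrimeSpectrum C, Function.Surjective
        (Ideal.ResidueField.map (PrimeSpectrum.comap ψ y).asIdeal y.asIdeal ψ rfl))
    (p : PrimeSpectrum A) (ρ1 ρ2 : C →+* p.asIdeal.ResidueField)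
    (h1 : ∀ a, ρ1 (ψ a) = algebraMap A _ a) (h2 : ∀ a, ρ2 (ψ a) = algebraMap A _ a) (c : C) :
    ρ1 c = ρ2 c := by
  have hsurj : ∀ (Q : PrimeSpectrum C) (p : PrimeSpectrum A) (h : p.asIdeal = Q.asIdeal.comap ψ),
      Function.Surjective (Ideal.ResidueField.map p.asIdeal Q.asIdeal ψ h) := by
    intro Q p h
    obtain rfl : p = PrimeSpectrum.comap ψ Q := PrimeSpectrum.ext h
    exact hres Q
  obtain ⟨Q1, hQ1⟩ : ∃ Q1 : PrimeSpectrum C, ∀ x, x ∈ Q1.asIdeal ↔ ρ1 x = 0 :=
    ⟨⟨RingHom.ker ρ1, RingHom.ker_isPrime _⟩, fun x => Iff.rfl⟩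
  obtain ⟨Q2, hQ2⟩ : ∃ Q2 : PrimeSpectrum C, ∀ x, x ∈ Q2.asIdeal ↔ ρ2 x = 0 :=
    ⟨⟨RingHom.ker ρ2, RingHom.ker_isPrime _⟩, fun x => Iff.rfl⟩
  have e1 : PrimeSpectrum.comap ψ Q1 = p := by
    ext a
    change ψ a ∈ Q1.asIdeal ↔ _
    rw [hQ1, h1, Ideal.algebraMap_residueField_eq_zero]
  have e2 : PrimeSpectrum.comap ψ Q2 = p := by
    ext a
    change ψ a ∈ Q2.asIdeal ↔ _
    rw [hQ2, h2, Ideal.algebraMap_residueField_eq_zero]
  have e12 : Q1 = Q2 := hinj (e1.trans e2.symm)
  obtain ⟨z, hz⟩ := hsurj Q1 p (congrArg PrimeSpectrum.asIdeal e1).symm (algebraMap C _ c)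
  obtain ⟨a, s, hs, has⟩ := exists_frac p.asIdeal z
  have e3 := congrArg (Ideal.ResidueField.map p.asIdeal Q1.asIdeal ψ
    (congrArg PrimeSpectrum.asIdeal e1).symm) has
  rw [map_mul, Ideal.ResidueField.map_algebraMap, Ideal.ResidueField.map_algebraMap, hz] at e3
  have e4 : ψ s * c - ψ a ∈ Q1.asIdeal := by
    rw [← Ideal.algebraMap_residueField_eq_zero, map_sub, map_mul, sub_eq_zero]
    exact e3
  have e5 : ψ s * c - ψ a ∈ Q2.asIdeal := by rw [← e12]; exact e4
  have e6 : ρ1 (ψ s * c - ψ a) = 0 := (hQ1 _).1 e4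
  have e7 : ρ2 (ψ s * c - ψ a) = 0 := (hQ2 _).1 e5
  rw [map_sub, map_mul, h1, h1, sub_eq_zero] at e6
  rw [map_sub, map_mul, h2, h2, sub_eq_zero] at e7
  have e8 : algebraMap A p.asIdeal.ResidueField s ≠ 0 := by
    rw [ne_eq, Ideal.algebraMap_residueField_eq_zero]; exact hs
  exact mul_left_cancel₀ e8 (e6.trans e7.symm)

theorem ringSN (A : Type u) [CommRing A] (hA : (minimalPrimes A).Finite) :
    HTop.IsRingSN (EtaPt.FieldEndo.ident.{u}.q A) := by
  refine ⟨T_main (EtaPt.FieldEndo.ident.{u}.q A)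
    (fun p => (Pi.evalRingHom (fun p : PrimeSpectrum A => p.asIdeal.ResidueField) p).comp
      (EtaPt.FieldEndo.ident.{u}.M A).subtype) ?_ ?_ ?_ hA, ?_⟩
  · intro d
    exact MM_of_mem A d.1 d.2
  · intro p a
    rfl
  · intro d hd
    have : d = 0 := Subtype.ext (funext hd)
    rw [this]
    exact IsNilpotent.zero
  · intro C _ ψ hψ hψr
    have hsur : Function.Surjective (PrimeSpectrum.comap ψ) := surj_of_univHomeo _ hψ
    have hUI := univInj_of_univHomeo _ hψ
    have hinj : Function.Injective (PrimeSpectrum.comap ψ) := by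
      have := ((tfae_universallyInjective (Spec.map (CommRingCat.ofHom ψ))).out 0 2).1 hUI
      exact this.1
    have hΦ := Nmap_injective ψ hsur
    have hex : ∀ c : C, ∃ x : EtaPt.FieldEndo.ident.{u}.M A,
        EtaPt.FieldEndo.ident.{u}.Nmap ψ x.1 = EtaPt.FieldEndo.ident.{u}.t C c := by
      intro c
      obtain ⟨x, hx, hx2⟩ := exists_fam ψ hψ hψr c
      refine ⟨⟨x, mem_of_MM A x hx⟩, ?_⟩
      funext Q
      exact hx2 Q (PrimeSpectrum.comap ψ Q) rfl
    choose X hX using hex
    let χ : C →+* EtaPt.FieldEndo.ident.{u}.M A :=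
      { toFun := X
        map_one' := Subtype.ext (hΦ (by rw [hX, map_one]; exact (map_one _).symm))
        map_mul' := fun a b => Subtype.ext (hΦ (by
          rw [hX, map_mul, ← hX, ← hX]; exact (map_mul _ _ _).symm))
        map_zero' := Subtype.ext (hΦ (by rw [hX, map_zero]; exact (map_zero _).symm))
        map_add' := fun a b => Subtype.ext (hΦ (by
          rw [hX, map_add, ← hX, ← hX]; exact (map_add _ _ _).symm)) }
    have hχ : χ.comp ψ = EtaPt.FieldEndo.ident.{u}.q A := by
      ext1 a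
      apply Subtype.ext
      apply hΦ
      exact (hX (ψ a)).trans (EtaPt.FieldEndo.ident.{u}.Nmap_t_apply ψ a).symm
    refine ⟨χ, hχ, ?_⟩
    intro χ' hχ'
    ext1 c
    apply Subtype.ext
    funext p
    have hev : ∀ a, ((EtaPt.FieldEndo.ident.{u}.q A) a).1 p = algebraMap A p.asIdeal.ResidueField a :=
      fun a => rfl
    exact uniq_hom ψ hinj ((residueFieldsIso_iff ψ).1 hψr) p
      ((Pi.evalRingHom (fun p : PrimeSpectrum A => p.asIdeal.ResidueField) p).comp
        ((EtaPt.FieldEndo.ident.{u}.M A).subtype.comp χ'))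
      ((Pi.evalRingHom (fun p : PrimeSpectrum A => p.asIdeal.ResidueField) p).comp
        ((EtaPt.FieldEndo.ident.{u}.M A).subtype.comp χ))
      (fun a => (congrArg (fun φ => (φ a).1 p) hχ').trans (hev a))
      (fun a => (congrArg (fun φ => (φ a).1 p) hχ).trans (hev a)) c

theorem relSN (A B : Type u) [CommRing A] [CommRing B] [Algebra A B] (hA : (minimalPrimes A).Finite)
    (hs : Function.Surjective (PrimeSpectrum.comap (algebraMap A B))) :
    (FlatMor.IsUnivHomeo (Spec.map (CommRingCat.ofHom (EtaPt.FieldEndo.ident.{u}.qRel (algebraMap A B)))) ∧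
      HTop.ResidueFieldsIso (Spec.map (CommRingCat.ofHom (EtaPt.FieldEndo.ident.{u}.qRel (algebraMap A B))))) ∧
    ∀ C : Subalgebra A B,
      FlatMor.IsUnivHomeo (Spec.map (CommRingCat.ofHom (algebraMap A C))) →
      HTop.ResidueFieldsIso (Spec.map (CommRingCat.ofHom (algebraMap A C))) →
      C.toSubring ≤ EtaPt.FieldEndo.ident.{u}.rel (algebraMap A B) := by
  have hΦ := Nmap_injective (algebraMap A B) hs
  constructor
  · have hex : ∀ d : EtaPt.FieldEndo.ident.{u}.rel (algebraMap A B), ∃ x : EtaPt.FieldEndo.ident.{u}.M A,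
        EtaPt.FieldEndo.ident.{u}.Nmap (algebraMap A B) x.1 = EtaPt.FieldEndo.ident.{u}.t B d.1 := by
      rintro ⟨d, x, hx, hxd⟩
      exact ⟨⟨x, hx⟩, hxd⟩
    choose X hX using hex
    let χ : EtaPt.FieldEndo.ident.{u}.rel (algebraMap A B) →+* EtaPt.FieldEndo.ident.{u}.M A :=
      { toFun := X
        map_one' := Subtype.ext (hΦ (by
          rw [hX]; exact (map_one (EtaPt.FieldEndo.ident.{u}.t B)).trans (map_one _).symm))
        map_mul' := fun a b => Subtype.ext (hΦ (by
          rw [hX]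
          refine (map_mul (EtaPt.FieldEndo.ident.{u}.t B) a.1 b.1).trans ?_
          rw [← hX, ← hX]; exact (map_mul _ _ _).symm))
        map_zero' := Subtype.ext (hΦ (by
          rw [hX]; exact (map_zero (EtaPt.FieldEndo.ident.{u}.t B)).trans (map_zero _).symm))
        map_add' := fun a b => Subtype.ext (hΦ (by
          rw [hX]
          refine (map_add (EtaPt.FieldEndo.ident.{u}.t B) a.1 b.1).trans ?_
          rw [← hX, ← hX]; exact (map_add _ _ _).symm)) }
    have hχ : ∀ d, EtaPt.FieldEndo.ident.{u}.Nmap (algebraMap A B) (χ d).1 =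
        EtaPt.FieldEndo.ident.{u}.t B d.1 := hX
    refine T_main (EtaPt.FieldEndo.ident.{u}.qRel (algebraMap A B))
      (fun p => (Pi.evalRingHom (fun p : PrimeSpectrum A => p.asIdeal.ResidueField) p).comp
        ((EtaPt.FieldEndo.ident.{u}.M A).subtype.comp χ)) ?_ ?_ ?_ hA
    · intro d
      exact MM_of_mem A (χ d).1 (χ d).2
    · intro p a
      have h1 : (χ (EtaPt.FieldEndo.ident.{u}.qRel (algebraMap A B) a)).1 =
          EtaPt.FieldEndo.ident.{u}.t A a :=
        hΦ ((hχ _).trans (EtaPt.FieldEndo.ident.{u}.Nmap_t_apply (algebraMap A B) a).symm)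
      exact congrFun h1 p
    · intro d hd
      have h1 : (χ d).1 = 0 := funext hd
      have h2 : EtaPt.FieldEndo.ident.{u}.t B d.1 = 0 := by
        rw [← hχ, h1, map_zero]
      have h3 : IsNilpotent d.1 := by
        rw [← mem_nilradical, nilradical_eq_sInf, Submodule.mem_sInf]
        intro q hq
        have hq' : Ideal.IsPrime q := hq
        have h4 := congrFun h2 ⟨q, hq'⟩
        exact Ideal.algebraMap_residueField_eq_zero.1 h4
      obtain ⟨n, hn⟩ := h3
      exact ⟨n, Subtype.ext hn⟩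
  · intro C hC hCr c hc
    obtain ⟨x, hx, hx2⟩ := exists_fam (algebraMap A C) hC hCr ⟨c, hc⟩
    refine ⟨x, mem_of_MM A x hx, ?_⟩
    funext q
    have h1 : (PrimeSpectrum.comap (algebraMap A B) q).asIdeal =
        (PrimeSpectrum.comap C.val.toRingHom q).asIdeal.comap (algebraMap A C) := rfl
    have h2 := resmap_comp (algebraMap A C) C.val.toRingHom (algebraMap A B) rfl
      (PrimeSpectrum.comap (algebraMap A B) q).asIdeal (PrimeSpectrum.comap C.val.toRingHom q).asIdeal
      q.asIdeal h1 rfl rfl (x (PrimeSpectrum.comap (algebraMap A B) q))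
    rw [hx2 (PrimeSpectrum.comap C.val.toRingHom q) (PrimeSpectrum.comap (algebraMap A B) q) h1,
      Ideal.ResidueField.map_algebraMap] at h2
    exact h2.symm

end Groth.Agent.H21
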