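import Mathlib

set_option autoImplicit false
set_option linter.all false
set_option linter.style.haveILetI false
set_option linter.unusedSectionVars false
open Polynomial

namespace Groth.Agent.H22Div

universe u v w

section basic
variable {K : Type u} [Field K] {p : ℕ} [hp : Fact p.Prime]
  {A : Type v} [DivisionRing A] [Algebra K A] [Algebra.IsCentral K A] [FiniteDimensional K A]

lemma finrank_dvd (B : Subalgebra K A) : Module.finrank K B ∣ Module.finrank K A := by
  letI : DivisionRing B := divisionRingOfFiniteDimensional K B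
  haveI : Module.Free B A := Module.Free.of_divisionRing B A
  exact ⟨_, (Module.finrank_mul_finrank K B A).symm⟩

lemma finrank_cases (hA : Module.finrank K A = p ^ 2) (B : Subalgebra K A) :
    B = ⊥ ∨ Module.finrank K B = p ∨ B = ⊤ := by
  have h := finrank_dvd B
  rw [hA] at h
  obtain ⟨k, hk, hk'⟩ := (Nat.dvd_prime_pow hp.out).1 h
  interval_cases k
  · left; exact Subalgebra.finrank_eq_one_iff.1 (by simpa using hk')
  · right; left; simpa using hk'
  · right; right
    apply Subalgebra.toSubmodule_injective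
    apply Submodule.eq_top_of_finrank_eq
    rw [hA]; exact hk'

lemma mem_range_of_forall_comm (z : A) (h : ∀ x : A, x * z = z * x) : z ∈ (algebraMap K A).range := by
  have : z ∈ Subalgebra.center K A := Subalgebra.mem_center_iff.2 h
  rw [Algebra.IsCentral.center_eq_bot] at this
  exact this

lemma exists_not_comm {x : A} (hx : x ∉ (algebraMap K A).range) : ∃ y : A, y * x ≠ x * y := by
  by_contra h
  push Not at h
  exact hx (mem_range_of_forall_comm x h)

lemma eq_top_of_not_comm (hA : Module.finrank K A = p ^ 2) (B : Subalgebra K A)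
    {x y : A} (hx : x ∈ B) (hy : y ∈ B) (hxy : x * y ≠ y * x) : B = ⊤ := by
  rcases finrank_cases hA B with h | h | h
  · exfalso
    rw [h] at hx
    obtain ⟨a, rfl⟩ := Algebra.mem_bot.1 hx
    exact hxy (Algebra.commutes a y)
  · exfalso
    set C : Subalgebra K A := Algebra.adjoin K {x} with hC
    have hxC : x ∈ C := Algebra.subset_adjoin rfl
    have hCB : C ≤ B := Algebra.adjoin_le (by simpa using hx)
    have hCcomm : ∀ z ∈ C, x * z = z * x := by
      intro z hz
      exact ((Algebra.commute_of_mem_adjoin_self hz)).eq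
    have hCf : Module.finrank K C = p := by
      rcases finrank_cases hA C with h' | h' | h'
      · exfalso
        rw [h'] at hxC
        obtain ⟨a, rfl⟩ := Algebra.mem_bot.1 hxC
        exact hxy (Algebra.commutes a y)
      · exact h'
      · exfalso
        exact hxy (hCcomm y (h' ▸ Algebra.mem_top))
    have : C = B := by
      apply Subalgebra.toSubmodule_injective
      apply Submodule.eq_of_le_of_finrank_eq
      · exact hCB
      · exact hCf.trans h.symm
    exact hxy (hCcomm y (this ▸ hy))
  · exact h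

lemma mem_range_of_comm_two (hA : Module.finrank K A = p ^ 2) {x y z : A} (hxy : x * y ≠ y * x)
    (hzx : z * x = x * z) (hzy : z * y = y * z) : z ∈ (algebraMap K A).range := by
  have h : Subalgebra.centralizer K {z} = ⊤ := by
    apply eq_top_of_not_comm hA _ (x := x) (y := y) _ _ hxy
    · rw [Subalgebra.mem_centralizer_iff]; intro g hg; rw [Set.mem_singleton_iff.1 hg]; exact hzx
    · rw [Subalgebra.mem_centralizer_iff]; intro g hg; rw [Set.mem_singleton_iff.1 hg]; exact hzy
  apply mem_range_of_forall_comm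
  intro t
  have ht : t ∈ Subalgebra.centralizer K {z} := h ▸ Algebra.mem_top
  rw [Subalgebra.mem_centralizer_iff] at ht
  exact (ht z rfl).symm

lemma finrank_adjoin_eq (hA : Module.finrank K A = p ^ 2) {x : A}
    (hx : x ∉ (algebraMap K A).range) : Module.finrank K (Algebra.adjoin K {x}) = p := by
  rcases finrank_cases hA (Algebra.adjoin K {x}) with h | h | h
  · exfalso
    have hxC : x ∈ Algebra.adjoin K {x} := Algebra.subset_adjoin rfl
    rw [h] at hxC
    exact hx hxC
  · exact h
  · exfalso
    obtain ⟨y, hy⟩ := exists_not_comm hx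
    have : y ∈ Algebra.adjoin K {x} := h ▸ Algebra.mem_top
    exact hy (Algebra.commute_of_mem_adjoin_self this).eq.symm

lemma mem_adjoin_of_comm (hA : Module.finrank K A = p ^ 2) {x y : A}
    (hx : x ∉ (algebraMap K A).range) (hxy : x * y = y * x) : y ∈ Algebra.adjoin K {x} := by
  obtain ⟨z, hz⟩ := exists_not_comm hx
  have hB : Subalgebra.centralizer K {x} ≠ ⊤ := by
    intro h
    have : z ∈ Subalgebra.centralizer K {x} := h ▸ Algebra.mem_top
    rw [Subalgebra.mem_centralizer_iff] at this
    exact hz (this x rfl).symm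
  have hle : Algebra.adjoin K {x} ≤ Subalgebra.centralizer K {x} := by
    apply Algebra.adjoin_le
    intro t ht
    rw [Set.mem_singleton_iff.1 ht]
    show x ∈ Subalgebra.centralizer K {x}
    rw [Subalgebra.mem_centralizer_iff]
    intro g hg; rw [Set.mem_singleton_iff.1 hg]
  have hyc : y ∈ Subalgebra.centralizer K {x} := by
    rw [Subalgebra.mem_centralizer_iff]
    intro g hg; rw [Set.mem_singleton_iff.1 hg]; exact hxy
  have hf : Module.finrank K (Subalgebra.centralizer K {x}) = p := by
    rcases finrank_cases hA (Subalgebra.centralizer K {x}) with h | h | h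
    · exfalso
      have : x ∈ Subalgebra.centralizer K {x} := hle (Algebra.subset_adjoin rfl)
      rw [h] at this
      exact hx this
    · exact h
    · exact absurd h hB
  have : Algebra.adjoin K {x} = Subalgebra.centralizer K {x} := by
    apply Subalgebra.toSubmodule_injective
    apply Submodule.eq_of_le_of_finrank_eq
    · exact hle
    · exact (finrank_adjoin_eq hA hx).trans hf.symm
  rw [this]; exact hyc

omit [Algebra.IsCentral K A] [FiniteDimensional K A] in
lemma not_isSeparable_of_pow [CharP K p] {u : A} (hu : u ∉ (algebraMap K A).range)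
    (hup : u ^ p ∈ (algebraMap K A).range) : ¬ IsSeparable K u := by
  obtain ⟨c, hc⟩ := hup
  have hb : ∀ b : K, b ^ p ≠ c := by
    intro b hb
    apply hu
    haveI : CharP A p := charP_of_injective_algebraMap (algebraMap K A).injective p
    have h0 : (u - algebraMap K A b) ^ p = 0 := by
      rw [sub_pow_char_of_commute p (show Commute u (algebraMap K A b) from (Algebra.commutes b u).symm), ← map_pow, hb, hc, sub_self]
    have := pow_eq_zero_iff (hp.out.ne_zero) |>.1 h0
    exact ⟨b, (sub_eq_zero.1 this).symm⟩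
  have hirr : Irreducible (X ^ p - C c : K[X]) := X_pow_sub_C_irreducible_of_prime hp.out hb
  have hmin : X ^ p - C c = minpoly K u := by
    apply minpoly.eq_of_irreducible_of_monic hirr
    · simp [hc]
    · exact monic_X_pow_sub_C c hp.out.ne_zero
  intro hs
  have hs' : (minpoly K u).Separable := hs
  rw [← hmin] at hs'
  have := (separable_iff_derivative_ne_zero hirr).1 hs'
  apply this
  rw [derivative_sub, derivative_C, sub_zero, derivative_X_pow, CharP.cast_eq_zero, map_zero, zero_mul]

end basic

section galois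
variable {K : Type u} [Field K] {p : ℕ} [hp : Fact p.Prime]
  {A : Type v} [DivisionRing A] [Algebra K A] [Algebra.IsCentral K A] [FiniteDimensional K A]

omit hp [Algebra.IsCentral K A] [FiniteDimensional K A] in
lemma injective_aeval_prod {L : Type w} [Field L] [Module L A]
    (R : Module.End L A) (s : Multiset L)
    (hs : ∀ r ∈ s, Function.Injective (R - algebraMap L (Module.End L A) r)) :
    Function.Injective (aeval R (s.map (fun r => X - C r)).prod) := by
  induction s using Multiset.induction_on with
  | empty => simp [Function.Injective]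
  | cons a s ih =>
    rw [Multiset.map_cons, Multiset.prod_cons, map_mul]
    have h1 := hs a (Multiset.mem_cons_self a s)
    have h2 := ih (fun r hr => hs r (Multiset.mem_cons_of_mem hr))
    have h3 : aeval R (X - C a) = R - algebraMap L (Module.End L A) a := by simp
    rw [h3]
    intro x y hxy
    apply h2
    apply h1
    exact hxy

/-- key statement: Galois subfield of degree `p` gives an inseparable element. -/
theorem exists_insep_of_galois [CharP K p] (hA : Module.finrank K A = p ^ 2) (L : Type w) [Field L]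
    [Algebra K L] [IsGalois K L]
    (hL : Module.finrank K L = p) (ι : L →ₐ[K] A) :
    ∃ v : A, ¬ IsSeparable K v := by
  haveI : FiniteDimensional K L := Module.finite_of_finrank_pos (hL ▸ hp.out.pos)
  obtain ⟨θ, hθ⟩ := Field.exists_primitive_element K L
  have hιinj : Function.Injective ι := ι.toRingHom.injective
  set x := ι θ with hx
  -- L-module structure on A via left multiplication
  letI : Module L A := Module.compHom A ι.toRingHom
  have smul_def' : ∀ (l : L) (a : A), l • a = ι l * a := fun l a => rfl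
  let R : Module.End L A :=
    { toFun := fun a => a * x
      map_add' := fun a b => add_mul a b x
      map_smul' := fun l a => by simp [smul_def', mul_assoc] }
  have hR : ∀ a, R a = a * x := fun a => rfl
  have hRpow : ∀ (n : ℕ) a, (R ^ n) a = a * x ^ n := by
    intro n
    induction n with
    | zero => intro a; simp
    | succ n ih => intro a; rw [pow_succ, Module.End.mul_apply, hR, ih, mul_assoc, ← pow_succ']
  set f := minpoly K θ with hf
  have hRf : aeval R (f.map (algebraMap K L)) = 0 := by
    ext a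
    rw [aeval_eq_sum_range, LinearMap.sum_apply]
    have hfx : aeval x f = 0 := by
      rw [hx, aeval_algHom_apply, hf, minpoly.aeval, map_zero]
    have : a * aeval x f = 0 := by rw [hfx, mul_zero]
    rw [aeval_eq_sum_range, Finset.mul_sum] at this
    rw [natDegree_map, LinearMap.zero_apply]
    rw [← this]
    apply Finset.sum_congr rfl
    intro i _
    rw [LinearMap.smul_apply, hRpow, smul_def', coeff_map]
    rw [AlgHom.commutes, ← Algebra.smul_def, mul_smul_comm]
  have hsplit : (f.map (algebraMap K L)).Splits := IsGalois.splits K θ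
  have hfθ : (f.map (algebraMap K L)).eval θ = 0 := by
    rw [eval_map_algebraMap, hf, minpoly.aeval]
  have hmonic : f.Monic := minpoly.monic (Algebra.IsIntegral.isIntegral θ)
  have hprod : f.map (algebraMap K L) = ((f.map (algebraMap K L)).roots.map (fun r => X - C r)).prod :=
    hsplit.eq_prod_roots_of_monic (hmonic.map _)
  have hroot : θ ∈ (f.map (algebraMap K L)).roots := by
    rw [mem_roots (hmonic.map _).ne_zero]; exact hfθ
  have hsep : f.Separable := Algebra.IsSeparable.isSeparable K θ
  have hnodup : (f.map (algebraMap K L)).roots.Nodup := nodup_roots (hsep.map)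
  obtain ⟨s, hs⟩ := Multiset.exists_cons_of_mem hroot
  have hθs : θ ∉ s := by
    rw [hs, Multiset.nodup_cons] at hnodup; exact hnodup.1
  have hθK : x ∉ (algebraMap K A).range := by
    rintro ⟨a, ha⟩
    have : θ = algebraMap K L a := by
      apply hιinj; rw [AlgHom.commutes, ha]
    have h1 : (⊤ : IntermediateField K L) = ⊥ := by
      rw [← hθ]
      rw [IntermediateField.adjoin_simple_eq_bot_iff, this]
      exact IntermediateField.algebraMap_mem _ _
    have h2 := IntermediateField.finrank_eq_one_iff.2 h1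
    rw [IntermediateField.finrank_top', hL] at h2
    exact hp.out.one_lt.ne' h2
  obtain ⟨y, hy⟩ := exists_not_comm hθK
  -- some root in s gives noninjective
  have hex : ∃ r ∈ s, ¬ Function.Injective (R - algebraMap L (Module.End L A) r) := by
    by_contra hcon
    push Not at hcon
    have hinj := injective_aeval_prod R s hcon
    rw [hprod, hs, Multiset.map_cons, Multiset.prod_cons, mul_comm, map_mul] at hRf
    have h3 : (aeval R (s.map (fun r => X - C r)).prod) ((aeval R (X - C θ)) y) = 0 := by
      rw [← Module.End.mul_apply, hRf]; rfl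
    have h4 : (aeval R (X - C θ)) y = 0 := by
      apply hinj; rw [h3, map_zero]
    have h5 : aeval R (X - C θ) = R - algebraMap L (Module.End L A) θ := by simp
    rw [h5, LinearMap.sub_apply, hR, Module.algebraMap_end_apply, smul_def'] at h4
    exact hy (sub_eq_zero.1 h4)
  obtain ⟨r, hrs, hrn⟩ := hex
  have hrn' : ∃ u : A, u ≠ 0 ∧ u * x = ι r * u := by
    rw [← LinearMap.ker_eq_bot, Submodule.eq_bot_iff] at hrn
    push Not at hrn
    obtain ⟨u, hu, hu0⟩ := hrn
    refine ⟨u, hu0, ?_⟩
    rw [LinearMap.mem_ker, LinearMap.sub_apply, hR, Module.algebraMap_end_apply, smul_def'] at hu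
    exact sub_eq_zero.1 hu
  obtain ⟨u, hu0, hux⟩ := hrn'
  have hrθ : r ≠ θ := fun h => hθs (h ▸ hrs)
  -- automorphism
  have hrroot : aeval r f = 0 := by
    have : r ∈ (f.map (algebraMap K L)).roots := by rw [hs]; exact Multiset.mem_cons_of_mem hrs
    rw [mem_roots (hmonic.map _).ne_zero, IsRoot.def, eval_map_algebraMap] at this
    exact this
  obtain ⟨τ, hτ⟩ : ∃ τ : L ≃ₐ[K] L, τ θ = r := by
    have h1 := (minpoly.eq_of_irreducible_of_monic (minpoly.irreducible (Algebra.IsIntegral.isIntegral θ)) (x := r) hrroot hmonic)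
    have h2 : IsConjRoot K r θ := by rw [isConjRoot_def]; exact h1.symm
    obtain ⟨τ, hτ⟩ := h2.exists_algEquiv
    exact ⟨τ, hτ⟩
  -- u * ι l = ι (τ l) * u
  have hconj : ∀ l : L, u * ι l = ι (τ l) * u := by
    intro l
    have hl : l ∈ IntermediateField.adjoin K {θ} := by rw [hθ]; trivial
    have hl' : l ∈ Algebra.adjoin K {θ} := by
      rw [← IntermediateField.adjoin_simple_toSubalgebra_of_isAlgebraic (Algebra.IsAlgebraic.isAlgebraic θ)]
      exact hl
    induction hl' using Algebra.adjoin_induction with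
    | mem t ht => rw [Set.mem_singleton_iff.1 ht, hτ]; exact hux
    | algebraMap r => rw [AlgEquiv.commutes, AlgHom.commutes]; exact (Algebra.commutes r u).symm
    | add a b _ _ ha hb =>
      have ha' := ha (by rw [hθ]; trivial)
      have hb' := hb (by rw [hθ]; trivial)
      rw [map_add, mul_add, ha', hb', map_add, map_add, add_mul]
    | mul a b _ _ ha hb =>
      have ha' := ha (by rw [hθ]; trivial)
      have hb' := hb (by rw [hθ]; trivial)
      rw [map_mul, ← mul_assoc, ha', mul_assoc, hb', ← mul_assoc, map_mul, map_mul]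
  have hconjn : ∀ (n : ℕ) (l : L), u ^ n * ι l = ι ((τ ^ n) l) * u ^ n := by
    intro n
    induction n with
    | zero => intro l; simp
    | succ n ih =>
      intro l
      rw [pow_succ, mul_assoc, hconj, ← mul_assoc, ih, mul_assoc, ← pow_succ, pow_succ τ]
      rfl
  have hτp : τ ^ p = 1 := by
    have : Nat.card (L ≃ₐ[K] L) = p := by rw [IsGalois.card_aut_eq_finrank, hL]
    rw [← this]; exact pow_card_eq_one'
  have hcx : u ^ p * x = x * u ^ p := by
    rw [hx, hconjn p θ, hτp]; rfl
  have hne : u * x ≠ x * u := by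
    rw [hux]
    intro h
    have := mul_right_cancel₀ hu0 h
    exact hrθ (hιinj this)
  have hup : u ^ p ∈ (algebraMap K A).range :=
    mem_range_of_comm_two hA hne ((pow_mul_comm' u p)) hcx
  refine ⟨u, not_isSeparable_of_pow ?_ hup⟩
  rintro ⟨c, rfl⟩
  exact hne (Algebra.commutes c x)

end galois

section conj
variable {K : Type u} [Field K] {p : ℕ} [hp : Fact p.Prime]
  {A : Type v} [DivisionRing A] [Algebra K A] [Algebra.IsCentral K A] [FiniteDimensional K A]

noncomputable def iotaHom (a : A) : AdjoinRoot (minpoly K a) →ₐ[K] A :=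
  Ideal.Quotient.liftₐ (Ideal.span {minpoly K a}) (aeval a) (by
    intro x hx
    rw [Ideal.mem_span_singleton] at hx
    obtain ⟨y, rfl⟩ := hx
    rw [map_mul, minpoly.aeval, zero_mul])

omit [Algebra.IsCentral K A] [FiniteDimensional K A] in
lemma iotaHom_mk (a : A) (g : K[X]) : iotaHom (K := K) a (AdjoinRoot.mk _ g) = aeval a g := by
  rfl

lemma natDegree_minpoly (hA : Module.finrank K A = p ^ 2) {a : A}
    (ha : a ∉ (algebraMap K A).range) : (minpoly K a).natDegree = p := by
  haveI : Fact (Irreducible (minpoly K a)) := ⟨minpoly.irreducible (IsIntegral.of_finite K a)⟩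
  have hne : minpoly K a ≠ 0 := minpoly.ne_zero (IsIntegral.of_finite K a)
  have hinj : Function.Injective (iotaHom (K := K) a) := (iotaHom (K := K) a).toRingHom.injective
  have h1 : Module.finrank K (AdjoinRoot (minpoly K a)) = (minpoly K a).natDegree := by
    rw [PowerBasis.finrank (AdjoinRoot.powerBasis hne), AdjoinRoot.powerBasis_dim]
  have h2 : Module.finrank K (iotaHom (K := K) a).range = (minpoly K a).natDegree := by
    rw [← h1]
    exact (LinearEquiv.finrank_eq (AlgEquiv.ofInjective _ hinj).toLinearEquiv).symm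
  have hmem : a ∈ (iotaHom (K := K) a).range := ⟨AdjoinRoot.mk _ X, by
    show iotaHom (K := K) a (AdjoinRoot.mk _ X) = a
    rw [iotaHom_mk, aeval_X]⟩
  rcases finrank_cases hA (iotaHom (K := K) a).range with h | h | h
  · rw [h] at hmem; exact absurd hmem ha
  · rw [← h2, h]
  · exfalso
    obtain ⟨y, hy⟩ := exists_not_comm ha
    obtain ⟨l, hl⟩ : y ∈ (iotaHom (K := K) a).range := h ▸ Algebra.mem_top
    obtain ⟨m, hm⟩ := hmem
    apply hy
    have hl' : iotaHom (K := K) a l = y := hl
    have hm' : iotaHom (K := K) a m = a := hm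
    have h9 : iotaHom (K := K) a l * iotaHom (K := K) a m = iotaHom (K := K) a m * iotaHom (K := K) a l := by
      rw [← map_mul, mul_comm, map_mul]
    rw [hl', hm'] at h9
    exact h9

theorem exists_galois_of_conj (hA : Module.finrank K A = p ^ 2) {a b : A} (hab : a * b = b * a)
    (hne : b ≠ a) (ha : a ∉ (algebraMap K A).range) (hb : aeval b (minpoly K a) = 0) :
    ∃ (L : Type u) (_ : Field L) (_ : Algebra K L), IsGalois K L ∧ Module.finrank K L = p ∧
      Nonempty (L →ₐ[K] A) := by
  haveI hirr : Fact (Irreducible (minpoly K a)) := ⟨minpoly.irreducible (IsIntegral.of_finite K a)⟩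
  have hne0 : minpoly K a ≠ 0 := minpoly.ne_zero (IsIntegral.of_finite K a)
  have hinj : Function.Injective (iotaHom (K := K) a) := (iotaHom (K := K) a).toRingHom.injective
  have h1 : Module.finrank K (AdjoinRoot (minpoly K a)) = p := by
    rw [PowerBasis.finrank (AdjoinRoot.powerBasis hne0), AdjoinRoot.powerBasis_dim, natDegree_minpoly hA ha]
  haveI : FiniteDimensional K (AdjoinRoot (minpoly K a)) :=
    Module.finite_of_finrank_pos (h1 ▸ hp.out.pos)
  refine ⟨AdjoinRoot (minpoly K a), inferInstance, inferInstance, ?_, h1, ⟨iotaHom a⟩⟩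
  have hbm : b ∈ Algebra.adjoin K {a} := mem_adjoin_of_comm hA ha hab
  obtain ⟨g, hg⟩ : ∃ g : K[X], aeval a g = b := by
    rw [Algebra.adjoin_singleton_eq_range_aeval] at hbm
    exact hbm
  set L := AdjoinRoot (minpoly K a)
  set r : L := AdjoinRoot.mk _ g with hr
  have hιr : iotaHom (K := K) a r = b := by rw [hr, iotaHom_mk, hg]
  have hrr : aeval r (minpoly K a) = 0 := by
    apply hinj
    rw [map_zero, ← aeval_algHom_apply, hιr, hb]
  let σ : L →ₐ[K] L := AdjoinRoot.liftAlgHom (minpoly K a) (Algebra.ofId K L) r (by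
    rw [← hrr, aeval_def]; rfl)
  have hσ : σ (AdjoinRoot.root _) = r := AdjoinRoot.liftAlgHom_root _ _ _ _
  have hιroot : iotaHom (K := K) a (AdjoinRoot.root _) = a := by
    rw [AdjoinRoot.root, iotaHom_mk, aeval_X]
  let τ : L ≃ₐ[K] L := AlgEquiv.ofBijective σ (Algebra.IsAlgebraic.algHom_bijective σ)
  have hτ : τ ≠ 1 := by
    intro h
    have h2 : τ (AdjoinRoot.root _) = AdjoinRoot.root _ := by rw [h]; rfl
    have h3 : σ (AdjoinRoot.root _) = AdjoinRoot.root _ := h2
    rw [hσ] at h3
    apply hne
    rw [← hιr, h3, hιroot]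
  apply IsGalois.of_card_aut_eq_finrank
  have h4 := IntermediateField.finrank_fixedField_eq_card (F := K) (E := L) (⊤ : Subgroup (L ≃ₐ[K] L))
  have h5 : Nat.card (⊤ : Subgroup (L ≃ₐ[K] L)) ∣ p := by
    rw [← h4, ← h1]
    exact ⟨_, ((mul_comm _ _).trans (Module.finrank_mul_finrank K (IntermediateField.fixedField (⊤ : Subgroup (L ≃ₐ[K] L))) L)).symm⟩
  rw [Subgroup.card_top] at h5
  rcases (Nat.dvd_prime hp.out).1 h5 with h6 | h6
  · exfalso
    rw [Nat.card_eq_one_iff_unique] at h6
    exact hτ (h6.1.elim _ _)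
  · rw [h6, h1]

theorem exists_galois_of_conj' (hA : Module.finrank K A = p ^ 2) {a b : A} (hab : a * b = b * a)
    (hne : b ≠ a) (ha : a ∉ (algebraMap K A).range) (hb : aeval b (minpoly K a) = 0) :
    ∃ (L : Type v) (_ : Field L) (_ : Algebra K L), IsGalois K L ∧ Module.finrank K L = p ∧
      Nonempty (L →ₐ[K] A) := by
  obtain ⟨L, _, _, h1, h2, ⟨ι⟩⟩ := exists_galois_of_conj hA hab hne ha hb
  have hinj : Function.Injective ι := ι.toRingHom.injective
  let e := AlgEquiv.ofInjective ι hinj
  letI : Field ι.range := (e.symm.toRingEquiv.toMulEquiv.isField (Field.toIsField L)).toField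
  refine ⟨ι.range, inferInstance, inferInstance, ?_, ?_, ⟨ι.range.val⟩⟩
  · exact IsGalois.of_algEquiv e
  · rw [← h2]; exact (LinearEquiv.finrank_eq e.toLinearEquiv).symm

omit [Algebra.IsCentral K A] [FiniteDimensional K A] in
lemma aeval_conj (f : K[X]) (a v : A) (hv : v ≠ 0) : aeval (v * a * v⁻¹) f = v * aeval a f * v⁻¹ := by
  rw [aeval_eq_sum_range, aeval_eq_sum_range, Finset.mul_sum, Finset.sum_mul]
  apply Finset.sum_congr rfl
  intro i _
  have : (v * a * v⁻¹) ^ i = v * a ^ i * v⁻¹ := by
    clear * - hv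
    induction i with
    | zero => simp [hv]
    | succ n ih => rw [pow_succ, ih, pow_succ]; simp only [mul_assoc]; rw [inv_mul_cancel_left₀ hv]
  rw [this]; simp

theorem insep_deg_two [CharP K p] (hA : Module.finrank K A = p ^ 2) (h2 : p = 2) :
    ∃ v : A, ¬ IsSeparable K v := by
  obtain ⟨a, ha⟩ : ∃ a : A, a ∉ (algebraMap K A).range := by
    by_contra h
    push Not at h
    have : (⊥ : Subalgebra K A) = ⊤ := by
      rw [eq_top_iff]; intro x _; exact h x
    have h3 := Subalgebra.finrank_bot (F := K) (E := A)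
    rw [this, ← Subalgebra.finrank_toSubmodule, Algebra.top_toSubmodule, finrank_top, hA, h2] at h3
    norm_num at h3
  by_cases hsep : IsSeparable K a
  swap
  · exact ⟨a, hsep⟩
  set f := minpoly K a with hf
  have hdeg : f.natDegree = 2 := by rw [hf, natDegree_minpoly hA ha, h2]
  have hmon : f.Monic := minpoly.monic (IsIntegral.of_finite K a)
  have hfa : ∀ x : A, aeval x f = x ^ 2 + algebraMap K A (f.coeff 1) * x + algebraMap K A (f.coeff 0) := by
    intro x
    rw [aeval_eq_sum_range, hdeg, Finset.sum_range_succ, Finset.sum_range_succ, Finset.sum_range_one]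
    have : f.coeff 2 = 1 := by rw [← hdeg]; exact hmon
    rw [this]
    simp only [Algebra.smul_def, map_one, pow_zero, pow_one, one_mul, mul_one]
    abel
  set t := algebraMap K A (f.coeff 1)
  set n := algebraMap K A (f.coeff 0)
  have ht : ∀ x, t * x = x * t := fun x => Algebra.commutes _ x
  have ha0 : a ^ 2 + t * a + n = 0 := by rw [← hfa, hf, minpoly.aeval]
  have hb0 : aeval (-t - a) f = 0 := by
    rw [hfa, ← ha0]
    have := ht a
    rw [sq, sq]
    simp only [mul_sub, sub_mul, mul_neg, neg_mul, this]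
    noncomm_ring
  have hcomm : a * (-t - a) = (-t - a) * a := by
    rw [mul_sub, sub_mul, mul_neg, neg_mul, ht a]
  have hne : -t - a ≠ a := by
    intro h
    have htt : t = - (2 * a) := by
      rw [two_mul]; 
      have : -t = a + a := by rw [sub_eq_iff_eq_add] at h; exact h
      rw [← this, neg_neg]
    have hd : aeval a (derivative f) = 0 := by
      rw [aeval_eq_sum_range' (n := 2) (by
        have := natDegree_derivative_lt (p := f) (by rw [hdeg]; norm_num)
        omega), Finset.sum_range_succ, Finset.sum_range_one, coeff_derivative, coeff_derivative]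
      have : f.coeff (1 + 1) = 1 := by rw [← hmon.leadingCoeff, leadingCoeff, hdeg]
      rw [this]
      simp only [Algebra.smul_def, zero_add, Nat.cast_zero, mul_one, one_mul, Nat.cast_one, pow_zero, pow_one, map_add, map_one]
      show t + (1 + 1) * a = 0
      rw [htt]; noncomm_ring
    obtain ⟨x, y, hxy⟩ := hsep
    have := congrArg (aeval a) hxy
    rw [map_add, map_mul, map_mul, hd, minpoly.aeval] at this
    simp at this
  obtain ⟨L, _, _, g1, g2, ⟨ι⟩⟩ := exists_galois_of_conj hA hcomm hne ha hb0
  exact exists_insep_of_galois hA L g2 ι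

theorem insep_deg_three [CharP K p] (hA : Module.finrank K A = p ^ 2) (h3 : p = 3) :
    ∃ v : A, ¬ IsSeparable K v := by
  obtain ⟨a, ha⟩ : ∃ a : A, a ∉ (algebraMap K A).range := by
    by_contra h
    push Not at h
    have : (⊥ : Subalgebra K A) = ⊤ := by
      rw [eq_top_iff]; intro x _; exact h x
    have h3' := Subalgebra.finrank_bot (F := K) (E := A)
    rw [this, ← Subalgebra.finrank_toSubmodule, Algebra.top_toSubmodule, finrank_top, hA, h3] at h3'
    norm_num at h3'
  by_cases hsep : IsSeparable K a
  swap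
  · exact ⟨a, hsep⟩
  set f := minpoly K a with hf
  have hdeg : f.natDegree = 3 := by rw [hf, natDegree_minpoly hA ha, h3]
  have hmon : f.Monic := minpoly.monic (IsIntegral.of_finite K a)
  have hfa : ∀ x : A, aeval x f = x ^ 3 + algebraMap K A (f.coeff 2) * x ^ 2 + algebraMap K A (f.coeff 1) * x + algebraMap K A (f.coeff 0) := by
    intro x
    rw [aeval_eq_sum_range, hdeg, Finset.sum_range_succ, Finset.sum_range_succ, Finset.sum_range_succ, Finset.sum_range_one]
    have : f.coeff 3 = 1 := by rw [← hdeg]; exact hmon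
    rw [this]
    simp only [Algebra.smul_def, map_one, pow_zero, pow_one, one_mul, mul_one]
    abel
  obtain ⟨t, htdef⟩ : ∃ t, t = algebraMap K A (f.coeff 2) := ⟨_, rfl⟩
  obtain ⟨s, hsdef⟩ : ∃ s, s = algebraMap K A (f.coeff 1) := ⟨_, rfl⟩
  obtain ⟨n, hndef⟩ : ∃ n, n = algebraMap K A (f.coeff 0) := ⟨_, rfl⟩
  rw [← htdef, ← hsdef, ← hndef] at hfa
  have ht : ∀ x, t * x = x * t := fun x => by rw [htdef]; exact Algebra.commutes _ x
  have hs : ∀ x, s * x = x * s := fun x => by rw [hsdef]; exact Algebra.commutes _ x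
  have hn : ∀ x, n * x = x * n := fun x => by rw [hndef]; exact Algebra.commutes _ x
  obtain ⟨x, hx⟩ := exists_not_comm ha
  have hx0 : x ≠ 0 := by rintro rfl; simp at hx
  obtain ⟨b, hb⟩ : ∃ b, b = x * a * x⁻¹ := ⟨_, rfl⟩
  have hba : b ≠ a := by
    intro h
    apply hx
    rw [hb] at h
    calc x * a = x * a * x⁻¹ * x := by rw [mul_assoc, inv_mul_cancel₀ hx0, mul_one]
      _ = a * x := by rw [h]
  have hfb : aeval b f = 0 := by rw [hb, aeval_conj _ _ _ hx0, hf, minpoly.aeval]; simp
  have hfa0 : aeval a f = 0 := by rw [hf, minpoly.aeval]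
  obtain ⟨d, hd⟩ : ∃ d, d = b - a := ⟨_, rfl⟩
  have hd0 : d ≠ 0 := by rw [hd]; exact sub_ne_zero.2 hba
  have hbd : b = d + a := by rw [hd]; abel
  obtain ⟨c3, hc3⟩ : ∃ c3, c3 = d⁻¹ * b * d := ⟨_, rfl⟩
  have hdc : d * c3 = b * d := by rw [hc3]; simp only [← mul_assoc]; rw [mul_inv_cancel₀ hd0, one_mul]
  have hfc3 : aeval c3 f = 0 := by
    have := aeval_conj f b d⁻¹ (inv_ne_zero hd0)
    rw [inv_inv] at this
    rw [hc3, this, hfb]; simp
  have hbd2 : b ^ 3 - a ^ 3 = d * c3 ^ 2 + d * c3 * a + d * a ^ 2 := by
    have e1 : d * c3 ^ 2 = b * b * d := by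
      rw [sq, ← mul_assoc, hdc, mul_assoc, hdc, ← mul_assoc]
    rw [e1, hdc, hd]; noncomm_ring
  have hbd1 : b ^ 2 - a ^ 2 = d * c3 + d * a := by
    rw [hdc, hd]; noncomm_ring
  have E : c3 ^ 2 + c3 * a + a ^ 2 + t * (c3 + a) + s = 0 := by
    have h0 : d * (c3 ^ 2 + c3 * a + a ^ 2 + t * (c3 + a) + s) = 0 := by
      have h1 : aeval b f - aeval a f = 0 := by rw [hfb, hfa0, sub_zero]
      rw [hfa, hfa] at h1
      have h2 : (b ^ 3 - a ^ 3) + t * (b ^ 2 - a ^ 2) + s * (b - a) = 0 := by
        rw [← h1]; noncomm_ring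
      rw [hbd2, hbd1, ← hd, hs d] at h2
      rw [← h2]
      have h3 : t * (d * c3 + d * a) = d * (t * (c3 + a)) := by
        rw [← mul_add, ← mul_assoc, ht d, mul_assoc]
      rw [h3]; noncomm_ring
    exact (mul_eq_zero.1 h0).resolve_left hd0
  obtain ⟨c2, hc2⟩ : ∃ c2, c2 = -t - a - c3 := ⟨_, rfl⟩
  have ha0 : a ≠ 0 := by rintro rfl; exact ha ⟨0, map_zero _⟩
  have hb0 : b ≠ 0 := by
    rw [hb]; exact mul_ne_zero (mul_ne_zero hx0 ha0) (inv_ne_zero hx0)
  have hc30 : c3 ≠ 0 := by
    rw [hc3]; exact mul_ne_zero (mul_ne_zero (inv_ne_zero hd0) hb0) hd0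
  have hN1 : c3 * c2 * a = -n := by
    have h1 : c3 * c2 = a ^ 2 + t * a + s := by
      rw [hc2]
      have : a ^ 2 + t * a + s = -(c3 ^ 2 + c3 * a + t * c3) := by
        rw [← sub_eq_zero, ← E]; noncomm_ring
      rw [this, ht c3]; noncomm_ring
    rw [h1, eq_neg_iff_add_eq_zero]
    rw [hfa] at hfa0
    rw [← hfa0]; noncomm_ring
  have hnn : ∀ x, (-n) * x = x * (-n) := fun x => by rw [neg_mul, mul_neg, hn]
  have hN2 : c2 * a * c3 = -n := by
    apply mul_left_cancel₀ hc30
    calc c3 * (c2 * a * c3) = (c3 * c2 * a) * c3 := by noncomm_ring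
      _ = c3 * (-n) := by rw [hN1, hnn]
  have hN3 : a * c3 * c2 = -n := by
    apply mul_right_cancel₀ ha0
    calc a * c3 * c2 * a = a * (c3 * c2 * a) := by noncomm_ring
      _ = (-n) * a := by rw [hN1, hnn]
  obtain ⟨u, hu⟩ : ∃ u, u = a * c2 - c2 * a := ⟨_, rfl⟩
  have hu2 : u = c3 * a - a * c3 := by
    rw [hu, hc2, mul_sub, mul_sub, sub_mul, sub_mul, mul_neg, neg_mul, ht a]; abel
  have hu3 : u = c2 * c3 - c3 * c2 := by
    rw [hu2, hc2, mul_sub, mul_sub, sub_mul, sub_mul, mul_neg, neg_mul, ht c3]; abel
  have hr1 : u * a = c2 * u := by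
    calc u * a = (c2 * c3 - c3 * c2) * a := by rw [hu3]
      _ = c2 * c3 * a - c3 * c2 * a := by noncomm_ring
      _ = c2 * c3 * a - c2 * a * c3 := by rw [hN1, hN2]
      _ = c2 * (c3 * a - a * c3) := by noncomm_ring
      _ = c2 * u := by rw [hu2]
  have hr2 : u * c2 = c3 * u := by
    calc u * c2 = (c3 * a - a * c3) * c2 := by rw [hu2]
      _ = c3 * a * c2 - a * c3 * c2 := by noncomm_ring
      _ = c3 * a * c2 - c3 * c2 * a := by rw [hN3, hN1]
      _ = c3 * (a * c2 - c2 * a) := by noncomm_ring
      _ = c3 * u := by rw [hu]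
  have hr3 : u * c3 = a * u := by
    calc u * c3 = (a * c2 - c2 * a) * c3 := by rw [hu]
      _ = a * c2 * c3 - c2 * a * c3 := by noncomm_ring
      _ = a * c2 * c3 - a * c3 * c2 := by rw [hN2, hN3]
      _ = a * (c2 * c3 - c3 * c2) := by noncomm_ring
      _ = a * u := by rw [hu3]
  by_cases hu0 : u = 0
  · have hcomm : a * c3 = c3 * a := by
      rw [hu0] at hu2; exact (sub_eq_zero.1 hu2.symm).symm
    by_cases hca : c3 = a
    · exfalso
      have hd : aeval a (derivative f) = 0 := by
        rw [aeval_eq_sum_range' (n := 3) (by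
          have := natDegree_derivative_lt (p := f) (by rw [hdeg]; norm_num)
          omega), Finset.sum_range_succ, Finset.sum_range_succ, Finset.sum_range_one, coeff_derivative, coeff_derivative, coeff_derivative]
        have : f.coeff (2 + 1) = 1 := by rw [← hmon.leadingCoeff, leadingCoeff, hdeg]
        rw [this]
        rw [hca] at E
        rw [← E]
        simp only [Algebra.smul_def, zero_add, Nat.cast_zero, mul_one, one_mul, Nat.cast_one, pow_zero, pow_one, map_add, map_one, map_mul, Nat.cast_ofNat, map_ofNat]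
        rw [hsdef, htdef]
        noncomm_ring
      obtain ⟨x, y, hxy⟩ := hsep
      have := congrArg (aeval a) hxy
      rw [map_add, map_mul, map_mul, hd, minpoly.aeval] at this
      simp at this
    · obtain ⟨L, _, _, g1, g2, ⟨ι⟩⟩ := exists_galois_of_conj hA hcomm hca ha hfc3
      exact exists_insep_of_galois hA L g2 ι
  · have hne : a * c2 ≠ c2 * a := by
      intro h; apply hu0; rw [hu, h, sub_self]
    have hu3a : u ^ 3 * a = a * u ^ 3 := by
      calc u ^ 3 * a = u * (u * (u * a)) := by noncomm_ring
        _ = u * (u * c2) * u := by rw [hr1]; noncomm_ring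
        _ = (u * c3) * u * u := by rw [hr2]; noncomm_ring
        _ = a * u ^ 3 := by rw [hr3]; noncomm_ring
    have hu3c : u ^ 3 * c2 = c2 * u ^ 3 := by
      calc u ^ 3 * c2 = u * (u * (u * c2)) := by noncomm_ring
        _ = u * (u * c3) * u := by rw [hr2]; noncomm_ring
        _ = (u * a) * u * u := by rw [hr3]; noncomm_ring
        _ = c2 * u ^ 3 := by rw [hr1]; noncomm_ring
    have hur : u ^ 3 ∈ (algebraMap K A).range := mem_range_of_comm_two hA hne hu3a hu3c
    refine ⟨u, not_isSeparable_of_pow (p := p) ?_ (by rw [h3]; exact hur)⟩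
    rintro ⟨k, hk⟩
    apply hne
    have : a = c2 := by
      apply mul_right_cancel₀ hu0
      rw [← hr1, ← hk]; exact (Algebra.commutes k a).symm
    rw [← this]

end conj
end Groth.Agent.H22Div
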