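import Mathlib
set_option autoImplicit false
set_option linter.all false
open Matrix
namespace Groth.Agent.H22Mat
universe u v

section
variable {K : Type u} {L : Type v} [Field K] [Field L] [Algebra K L]

/-- the companion matrix -/
def T (c : K) : Matrix.SpecialLinearGroup (Fin 2) K := ⟨!![0, -1; 1, 2 * c], by simp [Matrix.det_fin_two]⟩

lemma T_sq (c : K) : (T c : Matrix (Fin 2) (Fin 2) K) * (T c : Matrix (Fin 2) (Fin 2) K) = (2 * c) • (T c : Matrix (Fin 2) (Fin 2) K) - 1 := by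
  ext i j
  fin_cases i <;> fin_cases j <;> simp [T, Matrix.mul_apply, Fin.sum_univ_two]
  ring

lemma formula (c : K) (ξ η : L) (h1 : ξ * η = 1) (hc : algebraMap K L (2 * c) = ξ + η) (k : ℕ) :
    (ξ - η) • (((T c : Matrix (Fin 2) (Fin 2) K)) ^ (k + 1)).map (algebraMap K L) =
      (ξ ^ (k + 1) - η ^ (k + 1)) • ((T c : Matrix (Fin 2) (Fin 2) K)).map (algebraMap K L) - (ξ ^ k - η ^ k) • (1 : Matrix (Fin 2) (Fin 2) L) := by
  induction k with
  | zero => simp
  | succ k ih =>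
    have hsq : ((T c : Matrix (Fin 2) (Fin 2) K)).map (algebraMap K L) * ((T c : Matrix (Fin 2) (Fin 2) K)).map (algebraMap K L) =
        (ξ + η) • ((T c : Matrix (Fin 2) (Fin 2) K)).map (algebraMap K L) - 1 := by
      rw [← Matrix.map_mul, T_sq, ← hc]
      ext i j
      simp [Matrix.one_apply, apply_ite (algebraMap K L)]
    rw [pow_succ, Matrix.map_mul, ← smul_mul_assoc, ih, sub_mul, smul_mul_assoc, smul_mul_assoc, one_mul, hsq]
    have h2 : (ξ ^ (k + 1) - η ^ (k + 1)) * (ξ + η) = (ξ ^ (k + 2) - η ^ (k + 2)) + (ξ ^ k - η ^ k) := by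
      have e1 : ξ ^ (k + 1) * η = ξ ^ k := by rw [pow_succ, mul_assoc, h1, mul_one]
      have e2 : η ^ (k + 1) * ξ = η ^ k := by rw [pow_succ, mul_assoc, mul_comm η ξ, h1, mul_one]
      have : (ξ ^ (k + 1) - η ^ (k + 1)) * (ξ + η) = ξ ^ (k + 1) * ξ + ξ ^ (k + 1) * η - η ^ (k + 1) * ξ - η ^ (k + 1) * η := by ring
      rw [this, e1, e2]; ring
    rw [smul_sub, smul_smul, h2, add_smul]
    abel

lemma map_eq_one_iff (M : Matrix (Fin 2) (Fin 2) K) : M.map (algebraMap K L) = 1 ↔ M = 1 := by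
  constructor
  · intro h
    ext i j
    have := congrFun (congrFun h i) j
    apply (algebraMap K L).injective
    rw [Matrix.map_apply] at this
    rw [this]
    by_cases hij : i = j
    · subst hij; simp
    · simp [Matrix.one_apply_ne hij]
  · rintro rfl
    exact Matrix.map_one _ (map_zero _) (map_one _)

lemma pow_eq_one_iff (c : K) (ξ η : L) (h1 : ξ * η = 1) (hc : algebraMap K L (2 * c) = ξ + η) (hne : ξ ≠ η) (k : ℕ) :
    T c ^ (k + 1) = 1 ↔ ξ ^ (k + 1) = 1 := by
  have hf := formula c ξ η h1 hc k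
  have hco : T c ^ (k + 1) = 1 ↔ (T c : Matrix (Fin 2) (Fin 2) K) ^ (k + 1) = 1 := by
    rw [← Matrix.SpecialLinearGroup.coe_pow, ← Matrix.SpecialLinearGroup.coe_one]
    exact Subtype.coe_injective.eq_iff.symm
  have hη : η ^ (k + 1) * ξ ^ (k + 1) = 1 := by rw [← mul_pow, mul_comm η ξ, h1, one_pow]
  have e1 : ξ ^ (k + 1) * η = ξ ^ k := by rw [pow_succ, mul_assoc, h1, mul_one]
  have e2 : η ^ (k + 1) * ξ = η ^ k := by rw [pow_succ, mul_assoc, mul_comm η ξ, h1, mul_one]
  rw [hco, ← map_eq_one_iff (L := L)]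
  constructor
  · intro h
    rw [h] at hf
    have h10 := congrFun (congrFun hf 1) 0
    have h00 := congrFun (congrFun hf 0) 0
    simp [T] at h10 h00
    have h3 : ξ ^ (k + 1) = η ^ (k + 1) := sub_eq_zero.1 h10.symm
    rw [← e1, ← e2, ← h3] at h00
    have h4 : (ξ ^ (k + 1) - 1) * (ξ - η) = 0 := by linear_combination -h00
    exact sub_eq_zero.1 ((mul_eq_zero.1 h4).resolve_right (sub_ne_zero.2 hne))
  · intro h
    rw [h, mul_one] at hη
    rw [← e1, ← e2, hη, h] at hf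
    have h5 : (ξ - η) • ((T c : Matrix (Fin 2) (Fin 2) K) ^ (k + 1)).map (algebraMap K L) = (ξ - η) • (1 : Matrix (Fin 2) (Fin 2) L) := by
      rw [hf, sub_self, zero_smul, zero_sub, one_mul, one_mul, ← neg_smul, neg_sub]
    exact smul_right_injective _ (sub_ne_zero.2 hne) h5

lemma pow_eq_neg_one (c : K) (ξ η : L) (h1 : ξ * η = 1) (hc : algebraMap K L (2 * c) = ξ + η) (hne : ξ ≠ η) (k : ℕ)
    (h : ξ ^ (k + 1) = -1) : T c ^ (k + 1) = -1 := by
  have hf := formula c ξ η h1 hc k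
  have hη : η ^ (k + 1) * ξ ^ (k + 1) = 1 := by rw [← mul_pow, mul_comm η ξ, h1, one_pow]
  have e1 : ξ ^ (k + 1) * η = ξ ^ k := by rw [pow_succ, mul_assoc, h1, mul_one]
  have e2 : η ^ (k + 1) * ξ = η ^ k := by rw [pow_succ, mul_assoc, mul_comm η ξ, h1, mul_one]
  have hη' : η ^ (k + 1) = -1 := by rw [h] at hη; linear_combination -hη
  rw [← e1, ← e2, hη', h] at hf
  have h5 : (ξ - η) • ((T c : Matrix (Fin 2) (Fin 2) K) ^ (k + 1)).map (algebraMap K L) = (ξ - η) • (-1 : Matrix (Fin 2) (Fin 2) L) := by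
    rw [hf, sub_self, zero_smul, zero_sub, smul_neg, neg_inj]
    congr 1; ring
  have h6 := smul_right_injective _ (sub_ne_zero.2 hne) h5
  have h7 : (-((T c : Matrix (Fin 2) (Fin 2) K) ^ (k + 1))).map (algebraMap K L) = 1 := by
    ext i j
    have := congrFun (congrFun h6 i) j
    rw [Matrix.map_apply, Matrix.neg_apply, map_neg]
    rw [Matrix.map_apply] at this
    rw [this]; simp
  rw [map_eq_one_iff] at h7
  have h8 : ((T c ^ (k + 1) : Matrix.SpecialLinearGroup (Fin 2) K) : Matrix (Fin 2) (Fin 2) K) = ((-1 : Matrix.SpecialLinearGroup (Fin 2) K) : Matrix (Fin 2) (Fin 2) K) := by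
    rw [Matrix.SpecialLinearGroup.coe_pow, Matrix.SpecialLinearGroup.coe_neg, Matrix.SpecialLinearGroup.coe_one, ← h7, neg_neg]
  exact Subtype.ext h8

theorem orderOf_T (n : ℕ) (hn : 1 ≤ n) (ξ : L) (hξ : IsPrimitiveRoot ξ n) (c : K)
    (hc : algebraMap K L (2 * c) = ξ + ξ⁻¹) (hne : ξ ≠ ξ⁻¹) : orderOf (T c) = n := by
  have hξ0 : ξ ≠ 0 := hξ.ne_zero (by omega)
  have h1 : ξ * ξ⁻¹ = 1 := mul_inv_cancel₀ hξ0
  obtain ⟨k, rfl⟩ : ∃ k, n = k + 1 := ⟨n - 1, by omega⟩
  have h2 : T c ^ (k + 1) = 1 := (pow_eq_one_iff c ξ ξ⁻¹ h1 hc hne k).2 hξ.pow_eq_one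
  apply Nat.dvd_antisymm
  · exact orderOf_dvd_of_pow_eq_one h2
  · have hpos : 0 < orderOf (T c) := orderOf_pos_iff.2 (isOfFinOrder_iff_pow_eq_one.2 ⟨k + 1, by omega, h2⟩)
    obtain ⟨m, hm⟩ : ∃ m, orderOf (T c) = m + 1 := ⟨orderOf (T c) - 1, by omega⟩
    rw [hm]
    apply hξ.dvd_of_pow_eq_one
    rw [← pow_eq_one_iff c ξ ξ⁻¹ h1 hc hne m, ← hm]
    exact pow_orderOf_eq_one _
end

section quat
variable {G : Type u} [Group G]

lemma quat_hom (n : ℕ) (hn : 2 ≤ n) (R X : G) (hR : orderOf R = 2 * n) (hX : X * X = R ^ n) (hXR : R * X * R = X) :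
    ∃ f : QuaternionGroup n →* G, Function.Injective f := by
  haveI : NeZero (2 * n) := ⟨by omega⟩
  let P : ZMod (2 * n) → G := fun i => R ^ i.val
  have hPadd : ∀ i j, P (i + j) = P i * P j := by
    intro i j
    show R ^ (i + j).val = R ^ i.val * R ^ j.val
    rw [ZMod.val_add, ← pow_add]
    have := pow_mod_orderOf R (i.val + j.val)
    rw [hR] at this
    exact this
  have hP0 : P 0 = 1 := by show R ^ (0 : ZMod (2 * n)).val = 1; rw [ZMod.val_zero, pow_zero]
  have hPneg : ∀ i, P (-i) = (P i)⁻¹ := by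
    intro i
    rw [eq_inv_iff_mul_eq_one, ← hPadd, neg_add_cancel, hP0]
  have hPn : P (n : ZMod (2 * n)) = R ^ n := by
    show R ^ (n : ZMod (2 * n)).val = R ^ n
    rw [ZMod.val_natCast, Nat.mod_eq_of_lt (by omega)]
  have hRX : R * X = X * R⁻¹ := by rw [eq_mul_inv_iff_mul_eq]; exact hXR
  have hRkX : ∀ k : ℕ, R ^ k * X = X * (R ^ k)⁻¹ := by
    intro k
    induction k with
    | zero => simp
    | succ k ih => rw [pow_succ, mul_assoc, hRX, ← mul_assoc, ih, mul_assoc, ← _root_.mul_inv_rev, ← pow_succ', pow_succ]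
  have hPX : ∀ i, P i * X = X * P (-i) := by intro i; rw [hPneg]; exact hRkX _
  have hPinj : Function.Injective P := by
    intro i j hij
    apply ZMod.val_injective
    exact pow_injOn_Iio_orderOf (by rw [hR]; exact ZMod.val_lt i) (by rw [hR]; exact ZMod.val_lt j) hij
  let f : QuaternionGroup n → G := fun g => match g with
    | QuaternionGroup.a i => P i
    | QuaternionGroup.xa i => X * P i
  have hfa : ∀ i, f (QuaternionGroup.a i) = P i := fun i => rfl
  have hfx : ∀ i, f (QuaternionGroup.xa i) = X * P i := fun i => rfl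
  refine ⟨MonoidHom.mk' f ?_, ?_⟩
  · rintro (i | i) (j | j)
    · rw [QuaternionGroup.a_mul_a, hfa, hfa, hfa, hPadd]
    · rw [QuaternionGroup.a_mul_xa, hfa, hfx, hfx, ← mul_assoc, hPX, mul_assoc, ← hPadd]
      congr 2; ring
    · rw [QuaternionGroup.xa_mul_a, hfx, hfx, hfa, mul_assoc, ← hPadd]
    · rw [QuaternionGroup.xa_mul_xa, hfx, hfx, hfa]
      rw [mul_assoc, ← mul_assoc (P i), hPX, mul_assoc, ← mul_assoc, hX, ← hPn, ← hPadd, ← hPadd]
      congr 1; ring
  · have hcase : ∀ i j, f (QuaternionGroup.a i) = f (QuaternionGroup.xa j) → False := by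
      intro i j hij
      rw [hfa, hfx] at hij
      have h1 : X = P (i - j) := by
        rw [sub_eq_add_neg, hPadd, hij, hPneg, mul_inv_cancel_right]
      have h2 : R * X = X * R := by
        rw [h1]; show R * R ^ _ = R ^ _ * R; rw [← pow_succ, ← pow_succ']
      rw [hRX] at h2
      have h3 := mul_left_cancel h2
      have h4 : R ^ 2 = 1 := by rw [sq]; nth_rewrite 1 [← h3]; exact inv_mul_cancel R
      have h5 := orderOf_dvd_of_pow_eq_one h4
      rw [hR] at h5
      have := Nat.le_of_dvd (by norm_num) h5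
      omega
    rintro (i | i) (j | j) hij
    · exact congrArg _ (hPinj hij)
    · exact (hcase i j hij).elim
    · exact (hcase j i hij.symm).elim
    · exact congrArg _ (hPinj (mul_left_cancel (show X * P i = X * P j from hij)))
end quat
end Groth.Agent.H22Mat
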