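import Mathlib
set_option autoImplicit false
set_option linter.all false
open Polynomial
namespace Groth.Agent.H22Quad
universe u v

section
variable {K : Type u} [Field K] {V : Type v} [AddCommGroup V] [Module K V]

/-- a unipotent isometry of an anisotropic form (char ≠ 2) is trivial -/
lemma unipotent (h2K : (2 : K) ≠ 0) (q : QuadraticForm K V) (hq : q.Anisotropic)
    (g : V ≃ₗ[K] V) (hg : ∀ x : V, q (g x) = q x) (n : ℕ)
    (hN : ((g : V →ₗ[K] V) - 1 : Module.End K V) ^ n = 0) : g = 1 := by
  rcases subsingleton_or_nontrivial V with hV | hV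
  · ext x; exact Subsingleton.elim _ _
  by_contra hne
  obtain ⟨N, hNdef⟩ : ∃ N : Module.End K V, N = (g : V →ₗ[K] V) - 1 := ⟨_, rfl⟩
  rw [← hNdef] at hN
  have hex : ∃ n, N ^ n = 0 := ⟨n, hN⟩
  classical
  obtain ⟨m, hm⟩ : ∃ m, m = Nat.find hex := ⟨_, rfl⟩
  have hm0 : N ^ m = 0 := by rw [hm]; exact Nat.find_spec hex
  have hmin : ∀ k < m, N ^ k ≠ 0 := fun k hk => Nat.find_min hex (hm ▸ hk)
  rcases m with _ | _ | m
  · simp at hm0
  · simp only [zero_add, pow_one] at hm0
    apply hne
    ext x
    have h3 : N x = 0 := by rw [hm0]; rfl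
    rw [hNdef] at h3
    have h4 : g x - x = 0 := h3
    rw [sub_eq_zero.1 h4]; rfl
  · have h5 := hmin (m + 1) (by omega)
    have h6 : ∃ x, (N ^ (m + 1)) x ≠ 0 := by
      by_contra hcon
      push Not at hcon
      exact h5 (LinearMap.ext hcon)
    obtain ⟨x, hx⟩ := h6
    obtain ⟨v, hv⟩ : ∃ v, v = (N ^ m) x := ⟨_, rfl⟩
    obtain ⟨u, hu⟩ : ∃ u, u = N v := ⟨_, rfl⟩
    have hu' : u = (N ^ (m + 1)) x := by rw [hu, hv, pow_succ', Module.End.mul_apply]
    have hu0 : u ≠ 0 := by rw [hu']; exact hx
    have hNu : N u = 0 := by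
      rw [hu', ← Module.End.mul_apply, ← pow_succ', hm0]; rfl
    have hgv : g v = v + u := by
      have : g v - v = u := by rw [hu, hNdef]; rfl
      rw [← this]; abel
    have hgu : g u = u := by
      have : g u - u = 0 := by rw [← hNu, hNdef]; rfl
      exact sub_eq_zero.1 this
    have hpol : QuadraticMap.polar q (g v) (g u) = QuadraticMap.polar q v u := by
      simp only [QuadraticMap.polar, ← map_add, hg]
    rw [hgv, hgu, QuadraticMap.polar_add_left] at hpol
    have h7 : QuadraticMap.polar q u u = 0 := by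
      have := hpol
      rwa [add_eq_left] at this
    rw [QuadraticMap.polar_self] at h7
    rw [two_smul, ← two_mul] at h7
    exact hu0 (hq u ((mul_eq_zero.1 h7).resolve_left h2K))

lemma injective_aeval_prod (R : Module.End K V) (s : Multiset K)
    (hs : ∀ r ∈ s, Function.Injective (R - algebraMap K (Module.End K V) r)) :
    Function.Injective (aeval R (s.map (fun r => X - C r)).prod) := by
  induction s using Multiset.induction_on with
  | empty => simp [Function.Injective]
  | cons a s ih =>
    rw [Multiset.map_cons, Multiset.prod_cons, map_mul]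
    have h1 := hs a (Multiset.mem_cons_self a s)
    have h2 := ih (fun r hr => hs r (Multiset.mem_cons_of_mem hr))
    have h3 : aeval R (X - C a) = R - algebraMap K (Module.End K V) a := by simp
    rw [h3]
    intro x y hxy
    apply h2
    apply h1
    exact hxy

theorem sq_eq_one (hK : ∀ n : ℕ, 0 < n → (X ^ n - 1 : K[X]).Splits) (h2K : (2 : K) ≠ 0)
    (q : QuadraticForm K V) (hq : q.Anisotropic)
    (g : V ≃ₗ[K] V) (hg : ∀ x : V, q (g x) = q x) (d : ℕ) (hd : 0 < d) (hgd : g ^ d = 1) : g ^ 2 = 1 := by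
  classical
  obtain ⟨G, hG⟩ : ∃ G : Module.End K V, G = (g : V →ₗ[K] V) := ⟨_, rfl⟩
  have hpow : ∀ (n : ℕ), G ^ n = ((g ^ n : V ≃ₗ[K] V) : V →ₗ[K] V) := by
    intro n
    induction n with
    | zero => rfl
    | succ n ih => rw [pow_succ, pow_succ, ih, hG]; rfl
  have hGd : G ^ d = 1 := by rw [hpow, hgd]; rfl
  obtain ⟨P, hP⟩ : ∃ P : K[X], P = X ^ d - 1 := ⟨_, rfl⟩
  have hPm : P.Monic := by rw [hP]; exact monic_X_pow_sub_C 1 hd.ne'
  have hPs : P = (P.roots.map (fun r => X - C r)).prod := (hP ▸ hK d hd).eq_prod_roots_of_monic hPm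
  have hPG : aeval G P = 0 := by rw [hP]; simp [hGd]
  obtain ⟨s1, hs1⟩ : ∃ s, s = P.roots.filter (fun r => r ^ 2 = 1) := ⟨_, rfl⟩
  obtain ⟨s2, hs2⟩ : ∃ s, s = P.roots.filter (fun r => ¬ r ^ 2 = 1) := ⟨_, rfl⟩
  have hs12 : P.roots = s2 + s1 := by rw [hs1, hs2, add_comm, Multiset.filter_add_not]
  have hinj := injective_aeval_prod G s2 (by
    intro r hr
    rw [hs2, Multiset.mem_filter] at hr
    rw [injective_iff_map_eq_zero]
    intro v hv
    rw [LinearMap.sub_apply, Module.algebraMap_end_apply, sub_eq_zero, hG] at hv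
    have hv' : g v = r • v := hv
    have h3 := hg v
    rw [hv', QuadraticMap.map_smul] at h3
    have h4 : (r ^ 2 - 1) * q v = 0 := by
      rw [smul_eq_mul] at h3; linear_combination h3
    exact hq v ((mul_eq_zero.1 h4).resolve_left (sub_ne_zero.2 hr.2)))
  rw [hPs, hs12, Multiset.map_add, Multiset.prod_add, map_mul] at hPG
  have h5 : aeval G (s1.map (fun r => X - C r)).prod = 0 := by
    ext v
    apply hinj
    rw [← Module.End.mul_apply, hPG]; simp
  have h6 : (s1.map (fun r => X - C r)).prod ∣ (X ^ 2 - 1 : K[X]) ^ Multiset.card s1 := by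
    have h7 : ∀ s : Multiset K, (∀ r ∈ s, r ^ 2 = 1) → (s.map (fun r => X - C r)).prod ∣ (X ^ 2 - 1 : K[X]) ^ Multiset.card s := by
      intro s
      induction s using Multiset.induction_on with
      | empty => intro _; simp
      | cons a s ih =>
        intro hs
        rw [Multiset.map_cons, Multiset.prod_cons, Multiset.card_cons, pow_succ']
        apply mul_dvd_mul
        · refine ⟨X + C a, ?_⟩
          have := hs a (Multiset.mem_cons_self a s)
          have h8 : (C a : K[X]) * C a = 1 := by rw [← C_mul, ← sq, this, C_1]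
          linear_combination h8
        · exact ih (fun r hr => hs r (Multiset.mem_cons_of_mem hr))
    apply h7
    intro r hr
    rw [hs1, Multiset.mem_filter] at hr
    exact hr.2
  obtain ⟨w, hw⟩ := h6
  have h9 : (G ^ 2 - 1) ^ Multiset.card s1 = 0 := by
    have := congrArg (aeval G) hw
    rw [map_mul, h5, zero_mul] at this
    simpa using this
  apply unipotent h2K q hq (g ^ 2) (fun x => by
    have : (g ^ 2) x = g (g x) := rfl
    rw [this, hg, hg]) (Multiset.card s1)
  rw [← hpow 2]; exact h9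
end
end Groth.Agent.H22Quad
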