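import Mathlib
set_option autoImplicit false
set_option linter.all false
namespace Groth.Agent.H22Sg

/-- splitting of elements `≥ c` in a symmetric numerical semigroup of multiplicity > 2 -/
lemma split (Γ : AddSubmonoid ℕ) (c : ℕ) (hc : ∀ n : ℕ, c ≤ n → n ∈ Γ) (hc0 : c ≠ 0) (hc1 : c - 1 ∉ Γ)
    (hsymm : ∀ x : ℕ, x < c → (x ∉ Γ ↔ c - 1 - x ∈ Γ)) (h1 : (1 : ℕ) ∉ Γ) (h2 : (2 : ℕ) ∉ Γ)
    (g : ℕ) (hg : c ≤ g) : ∃ a b : ℕ, a ∈ Γ ∧ b ∈ Γ ∧ a ≠ 0 ∧ b ≠ 0 ∧ g = a + b := by
  classical
  have hmem : ∀ n : ℕ, n ∉ Γ → n < c := fun n hn => by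
    by_contra h; exact hn (hc n (not_lt.1 h))
  have hc3 : 3 ≤ c := by
    have := hmem 2 h2; omega
  have hcm2 : c - 1 - 1 ∈ Γ := (hsymm 1 (by omega)).1 h1
  have hex : ∃ e, e ∈ Γ ∧ e ≠ 0 := ⟨c, hc c le_rfl, hc0⟩
  obtain ⟨e, he⟩ : ∃ e, e = Nat.find hex := ⟨_, rfl⟩
  have he1 : e ∈ Γ ∧ e ≠ 0 := by rw [he]; exact Nat.find_spec hex
  have hemin : ∀ x, x ∈ Γ → x ≠ 0 → e ≤ x := fun x hx hx0 => by rw [he]; exact Nat.find_min' hex ⟨hx, hx0⟩
  have he3 : 3 ≤ e := by
    by_contra h
    have : e = 1 ∨ e = 2 := by have := he1.2; omega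
    rcases this with h | h
    · exact h1 (h ▸ he1.1)
    · exact h2 (h ▸ he1.1)
  have hec : e ≤ c - 2 := hemin _ (by have : c - 1 - 1 = c - 2 := by omega
                                      rwa [this] at hcm2) (by omega)
  by_cases hge : c + e ≤ g
  · exact ⟨e, g - e, he1.1, hc _ (by omega), he1.2, by omega, by omega⟩
  push Not at hge
  by_cases hy : g = c - 1 + e
  · -- find a gap x ≠ c-1 with x + e ∈ Γ
    have key : ∀ i, i ∉ Γ → ∃ x, x ∉ Γ ∧ x + e ∈ Γ ∧ ∃ k, x = i + k * e := by
      intro i hi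
      let P : ℕ → Prop := fun y => y ∉ Γ ∧ ∃ k, y = i + k * e
      have hP0 : P i := ⟨hi, 0, by simp⟩
      have hPb : ∀ y, P y → y ≤ c := fun y hy => (hmem y hy.1).le
      have hyspec : P (Nat.findGreatest P c) := Nat.findGreatest_spec (hPb i hP0) hP0
      have hmax : ∀ z, P z → z ≤ Nat.findGreatest P c := fun z hz => Nat.le_findGreatest (hPb z hz) hz
      refine ⟨Nat.findGreatest P c, hyspec.1, ?_, hyspec.2⟩
      by_contra h3
      obtain ⟨k, hk⟩ := hyspec.2
      have := hmax (Nat.findGreatest P c + e) ⟨h3, k + 1, by rw [add_mul, one_mul]; omega⟩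
      omega
    obtain ⟨x, hx, hxe, hxc⟩ : ∃ x, x ∉ Γ ∧ x + e ∈ Γ ∧ x ≠ c - 1 := by
      obtain ⟨x, hx, hxe, k, hk⟩ := key 1 h1
      by_cases hxc : x = c - 1
      · obtain ⟨x', hx', hxe', k', hk'⟩ := key 2 h2
        refine ⟨x', hx', hxe', ?_⟩
        intro h
        have h5 : 1 + k * e = 2 + k' * e := by omega
        have h6 : (1 + k * e) % e = (2 + k' * e) % e := by rw [h5]
        rw [Nat.add_mul_mod_self_right, Nat.add_mul_mod_self_right, Nat.mod_eq_of_lt (by omega), Nat.mod_eq_of_lt (by omega)] at h6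
        omega
      · exact ⟨x, hx, hxe, hxc⟩
    have hxlt := hmem x hx
    refine ⟨x + e, c - 1 - x, hxe, (hsymm x hxlt).1 hx, by omega, by omega, by omega⟩
  · have h4 : c - 1 + e - g < c := by omega
    have h5 : c - 1 + e - g ∉ Γ := by
      intro h6
      have := hemin _ h6 (by omega)
      omega
    have h6 := (hsymm _ h4).1 h5
    have h7 : c - 1 - (c - 1 + e - g) = g - e := by omega
    rw [h7] at h6
    exact ⟨e, g - e, he1.1, h6, he1.2, by omega, by omega⟩

theorem closure_lt_eq (Γ : AddSubmonoid ℕ) (c : ℕ) (hc : ∀ n : ℕ, c ≤ n → n ∈ Γ) (hc0 : c ≠ 0) (hc1 : c - 1 ∉ Γ)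
    (hsymm : ∀ x : ℕ, x < c → (x ∉ Γ ↔ c - 1 - x ∈ Γ)) (he : (1 : ℕ) ∉ Γ ∧ (2 : ℕ) ∉ Γ) :
    AddSubmonoid.closure {γ : ℕ | γ ∈ Γ ∧ γ < c} = Γ := by
  apply le_antisymm
  · rw [AddSubmonoid.closure_le]; exact fun x hx => hx.1
  · intro g hg
    induction g using Nat.strong_induction_on with
    | _ g ih =>
      by_cases hlt : g < c
      · exact AddSubmonoid.subset_closure ⟨hg, hlt⟩
      · obtain ⟨a, b, ha, hb, ha0, hb0, rfl⟩ := split Γ c hc hc0 hc1 hsymm he.1 he.2 g (not_lt.1 hlt)
        exact AddSubmonoid.add_mem _ (ih a (by omega) ha) (ih b (by omega) hb)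

theorem gens (Γ : AddSubmonoid ℕ) (c : ℕ) (hc : ∀ n : ℕ, c ≤ n → n ∈ Γ) (hc0 : c ≠ 0) (hc1 : c - 1 ∉ Γ) (hsymm : ∀ x : ℕ, x < c → (x ∉ Γ ↔ c - 1 - x ∈ Γ)) (e : ℕ) (he : e ∈ Γ) (he0 : e ≠ 0) (hemin : ∀ γ : ℕ, γ ∈ Γ → γ ≠ 0 → e ≤ γ) (he2 : 2 < e) : ∃ G : Finset ℕ, G.card ≤ e - 1 ∧ AddSubmonoid.closure (↑G : Set ℕ) = Γ := by
  classical
  have h1 : (1 : ℕ) ∉ Γ := fun h => by have := hemin 1 h one_ne_zero; omega
  have h2 : (2 : ℕ) ∉ Γ := fun h => by have := hemin 2 h two_ne_zero; omega
  have hex : ∀ r, ∃ x, x ∈ Γ ∧ x % e = r % e := fun r => ⟨r + c * e, hc _ (by nlinarith [Nat.pos_of_ne_zero he0]), by simp⟩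
  -- Apery elements
  let ap : ℕ → ℕ := fun r => Nat.find (hex r)
  have hap : ∀ r, ap r ∈ Γ ∧ ap r % e = r % e := fun r => Nat.find_spec (hex r)
  have hapmin : ∀ r x, x ∈ Γ → x % e = r % e → ap r ≤ x := fun r x hx hxr => Nat.find_min' (hex r) ⟨hx, hxr⟩
  let G : Finset ℕ := insert e (((Finset.range e).erase 0).erase ((c - 1) % e) |>.image ap)
  have hr0 : (c - 1) % e ≠ 0 := by
    intro h
    apply hc1
    obtain ⟨k, hk⟩ := Nat.dvd_of_mod_eq_zero h
    rw [hk, mul_comm, ← smul_eq_mul]
    exact AddSubmonoid.nsmul_mem _ he k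
  refine ⟨G, ?_, ?_⟩
  · refine (Finset.card_insert_le _ _).trans ?_
    have h3 : (((Finset.range e).erase 0).erase ((c - 1) % e)).card = e - 2 := by
      rw [Finset.card_erase_of_mem, Finset.card_erase_of_mem, Finset.card_range]
      · omega
      · simp; omega
      · simp only [Finset.mem_erase, Finset.mem_range]
        exact ⟨hr0, Nat.mod_lt _ (by omega)⟩
    have := (Finset.card_image_le (s := ((Finset.range e).erase 0).erase ((c - 1) % e)) (f := ap))
    omega
  · apply le_antisymm
    · rw [AddSubmonoid.closure_le]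
      intro x hx
      simp only [G, Finset.coe_insert, Finset.coe_image, Set.mem_insert_iff, Set.mem_image] at hx
      rcases hx with rfl | ⟨r, _, rfl⟩
      · exact he
      · exact (hap r).1
    · intro g hg
      induction g using Nat.strong_induction_on with
      | _ g ih =>
        by_cases hg0 : g = 0
        · rw [hg0]; exact AddSubmonoid.zero_mem _
        have hge := hemin g hg hg0
        by_cases hgs : g - e ∈ Γ
        · have := AddSubmonoid.add_mem _ (ih (g - e) (by omega) hgs) (AddSubmonoid.subset_closure (show e ∈ (↑G : Set ℕ) by simp [G]))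
          have h5 : g - e + e = g := by omega
          rwa [h5] at this
        · -- g = ap (g % e)
          have hmn : ap (g % e) = g := by
            apply le_antisymm
            · exact hapmin _ _ hg (by simp)
            · by_contra hlt
              push Not at hlt
              obtain ⟨hm1, hm2⟩ := hap (g % e)
              rw [Nat.mod_mod] at hm2
              apply hgs
              have hd : e ∣ g - ap (g % e) := (Nat.modEq_iff_dvd' hlt.le).1 hm2
              obtain ⟨k, hk⟩ := hd
              have hk0 : k ≠ 0 := by rintro rfl; rw [mul_zero] at hk; omega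
              obtain ⟨k', rfl⟩ := Nat.exists_eq_succ_of_ne_zero hk0
              have h6 : g - e = ap (g % e) + k' * e := by
                have h7 : e * (k' + 1) = k' * e + e := by ring
                rw [Nat.succ_eq_add_one, h7] at hk
                omega
              rw [h6]
              apply AddSubmonoid.add_mem _ hm1
              rw [← smul_eq_mul]
              exact AddSubmonoid.nsmul_mem _ he k'
          by_cases hgc : g % e = (c - 1) % e
          · -- g = c - 1 + e
            have hlt : c - 1 < g := by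
              by_contra hle
              push Not at hle
              apply hc1
              have hd : e ∣ (c - 1) - g := (Nat.modEq_iff_dvd' hle).1 hgc
              obtain ⟨k, hk⟩ := hd
              have h6 : c - 1 = g + k * e := by rw [mul_comm k e]; omega
              rw [h6]
              apply AddSubmonoid.add_mem _ hg
              rw [← smul_eq_mul]
              exact AddSubmonoid.nsmul_mem _ he k
            obtain ⟨a, b, ha, hb, ha0, hb0, rfl⟩ := split Γ c hc hc0 hc1 hsymm h1 h2 g (by omega)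
            exact AddSubmonoid.add_mem _ (ih a (by omega) ha) (ih b (by omega) hb)
          · have hgm0 : g % e ≠ 0 := by
              intro h
              apply hgs
              obtain ⟨k, hk⟩ := Nat.dvd_of_mod_eq_zero h
              have hk0 : k ≠ 0 := by rintro rfl; rw [mul_zero] at hk; omega
              obtain ⟨k', rfl⟩ := Nat.exists_eq_succ_of_ne_zero hk0
              have h6 : g - e = k' * e := by
                have h7 : e * (k' + 1) = k' * e + e := by ring
                rw [Nat.succ_eq_add_one, h7] at hk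
                omega
              rw [h6, ← smul_eq_mul]
              exact AddSubmonoid.nsmul_mem _ he k'
            apply AddSubmonoid.subset_closure
            simp only [G, Finset.coe_insert, Finset.coe_image, Set.mem_insert_iff, Set.mem_image]
            right
            refine ⟨g % e, ?_, hmn⟩
            simp only [Finset.coe_erase, Finset.coe_range, Set.mem_diff, Set.mem_Iio, Set.mem_singleton_iff]
            exact ⟨⟨Nat.mod_lt _ (by omega), hgm0⟩, hgc⟩
end Groth.Agent.H22Sg
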