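import Mathlib.Tactic
import Mathlib.LinearAlgebra.Dimension.Constructions
import Mathlib.LinearAlgebra.FiniteDimensional.Lemmas
import Mathlib.LinearAlgebra.Dual.Lemmas
import Mathlib.LinearAlgebra.Eigenspace.Triangularizable
import Mathlib.LinearAlgebra.FiniteDimensional.Basic
import Groth.Prelude.Def_W4c2quivmodsheafKron

set_option autoImplicit false
universe u v w

namespace Groth.Agent.H23Kron
open KronMod Module

section
variable {K : Type u} [Field K] {V : Type v} {W : Type w}
    [AddCommGroup V] [Module K V] [FiniteDimensional K V]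
    [AddCommGroup W] [Module K W] [FiniteDimensional K W]
    {n : ℕ}

/-- The sum map restricted to a subspace. -/
def sumOn (f : Fin n → (V →ₗ[K] W)) (V' : Submodule K V) : (Fin n → V') →ₗ[K] W :=
  ∑ j, ((f j) ∘ₗ V'.subtype) ∘ₗ LinearMap.proj j

theorem sumOn_apply (f : Fin n → (V →ₗ[K] W)) (V' : Submodule K V) (v : Fin n → V') :
    sumOn f V' v = ∑ j, f j (v j) := by
  simp [sumOn]

theorem isSubrep_range (f : Fin n → (V →ₗ[K] W)) (V' : Submodule K V) :
    IsSubrep f V' (LinearMap.range (sumOn f V')) := by
  intro j
  rintro _ ⟨x, hx, rfl⟩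
  refine ⟨Pi.single j ⟨x, hx⟩, ?_⟩
  rw [sumOn_apply, Finset.sum_eq_single j]
  · simp
  · intro b _ hb
    simp [Pi.single_eq_of_ne hb]
  · simp

theorem finrank_range_sumOn_le (f : Fin n → (V →ₗ[K] W)) (V' : Submodule K V) :
    finrank K (LinearMap.range (sumOn f V')) ≤ n * finrank K V' := by
  refine (LinearMap.finrank_range_le _).trans ?_
  rw [Module.finrank_pi_fintype]
  simp

theorem sumOn_mem (f : Fin n → (V →ₗ[K] W)) (V' : Submodule K V) (W' : Submodule K W)
    (h : IsSubrep f V' W') (v : Fin n → V') : sumOn f V' v ∈ W' := by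
  rw [sumOn_apply]
  refine Submodule.sum_mem _ (fun j _ => h j ⟨v j, (v j).2, rfl⟩)

theorem le_finrank_of_injective (f : Fin n → (V →ₗ[K] W))
    (hf : Function.Injective (fun v : Fin n → V => ∑ j, f j (v j)))
    (V' : Submodule K V) (W' : Submodule K W)
    (h : IsSubrep f V' W') : n * finrank K V' ≤ finrank K W' := by
  have h1 : Function.Injective ((sumOn f V').codRestrict W' (sumOn_mem f V' W' h)) := by
    intro a b hab
    have h2 : sumOn f V' a = sumOn f V' b := congrArg Subtype.val hab
    rw [sumOn_apply, sumOn_apply] at h2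
    have h3 := hf h2
    funext j
    exact Subtype.ext (congrFun h3 j)
  have h4 := LinearMap.finrank_le_finrank_of_injective h1
  rw [Module.finrank_pi_fintype] at h4
  simpa using h4

theorem isSubrep_ker (f : Fin n → (V →ₗ[K] W)) :
    IsSubrep f (LinearMap.ker (LinearMap.pi f)) ⊥ := by
  intro j
  rintro _ ⟨x, hx, rfl⟩
  have : LinearMap.pi f x = 0 := hx
  have h2 := congrFun this j
  simpa using h2

theorem finrank_ker_add (f : Fin n → (V →ₗ[K] W)) :
    finrank K V ≤ finrank K (LinearMap.ker (LinearMap.pi f)) + n * finrank K W := by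
  have h1 := LinearMap.finrank_range_add_finrank_ker (LinearMap.pi f)
  have h2 : finrank K (LinearMap.range (LinearMap.pi f)) ≤ n * finrank K W := by
    refine (Submodule.finrank_le _).trans ?_
    rw [Module.finrank_pi_fintype]
    simp
  omega

theorem s60 (f : Fin n → (V →ₗ[K] W))
    (hV : 0 < Module.finrank K V) (hW : 0 < Module.finrank K W)
    (h : n * Module.finrank K V < Module.finrank K W ∨ n * Module.finrank K W < Module.finrank K V) :
    ¬ KronMod.IsSemistable f := by
  rintro ⟨_, hs⟩
  rcases h with h | h
  · have h1 := finrank_range_sumOn_le f ⊤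
    rw [finrank_top] at h1
    have h2 := hs ⊤ _ (isSubrep_range f ⊤) (by
      rintro ⟨h3, _⟩
      have : finrank K (⊤ : Submodule K V) = 0 := by rw [h3]; exact finrank_bot K V
      rw [finrank_top] at this
      omega) (by
      rintro ⟨_, h3⟩
      rw [h3, finrank_top] at h1
      omega)
    rw [finrank_top, mul_comm] at h2
    have := Nat.le_of_mul_le_mul_left h2 hV
    omega
  · have h1 := finrank_ker_add f
    have hpos : 0 < finrank K (LinearMap.ker (LinearMap.pi f)) := by omega
    have h2 := hs _ _ (isSubrep_ker f) (by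
      rintro ⟨h3, _⟩
      rw [h3, finrank_bot] at hpos
      omega) (by
      rintro ⟨_, h3⟩
      have : finrank K (⊥ : Submodule K W) = finrank K W := by rw [h3, finrank_top]
      rw [finrank_bot] at this
      omega)
    rw [finrank_bot, mul_zero] at h2
    have := Nat.mul_pos hW hpos
    omega

theorem s61 (f : Fin n → (V →ₗ[K] W))
    (hV : 0 < Module.finrank K V) (hW : Module.finrank K W = n * Module.finrank K V) :
    KronMod.IsSemistable f ↔ Function.Bijective (fun v : Fin n → V => ∑ j, f j (v j)) := by
  constructor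
  · rintro ⟨_, hs⟩
    let S : (Fin n → V) →ₗ[K] W := ∑ j, (f j) ∘ₗ LinearMap.proj j
    have hS : ∀ v, S v = ∑ j, f j (v j) := by intro v; simp [S]
    have hsurj : Function.Surjective S := by
      rw [← LinearMap.range_eq_top]
      by_contra hne
      have h2 := hs ⊤ (LinearMap.range S) (by
        intro j
        rintro _ ⟨x, hx, rfl⟩
        refine ⟨Pi.single j x, ?_⟩
        rw [hS, Finset.sum_eq_single j]
        · simp
        · intro b _ hb
          simp [Pi.single_eq_of_ne hb]
        · simp) (by
        rintro ⟨h3, _⟩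
        have : finrank K (⊤ : Submodule K V) = 0 := by rw [h3]; exact finrank_bot K V
        rw [finrank_top] at this
        omega) (fun h => hne h.2)
      rw [finrank_top, mul_comm] at h2
      have h3 := Nat.le_of_mul_le_mul_left h2 hV
      exact hne (Submodule.eq_top_of_finrank_eq (le_antisymm (Submodule.finrank_le _) h3))
    have hdim : finrank K (Fin n → V) = finrank K W := by
      rw [Module.finrank_pi_fintype]; simp [hW]
    have hbij : Function.Bijective S :=
      ⟨(LinearMap.injective_iff_surjective_of_finrank_eq_finrank hdim).mpr hsurj, hsurj⟩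
    have : (fun v : Fin n → V => ∑ j, f j (v j)) = S := by funext v; rw [hS]
    rw [this]; exact hbij
  · intro hb
    refine ⟨by omega, fun V' W' hsub _ _ => ?_⟩
    have h1 := le_finrank_of_injective f hb.1 V' W' hsub
    rw [hW]
    calc n * finrank K V * finrank K V' = finrank K V * (n * finrank K V') := by ring
      _ ≤ finrank K V * finrank K W' := Nat.mul_le_mul_left _ h1

theorem s72 (f : Fin n → (V →ₗ[K] W))
    (hW : 0 < Module.finrank K W) (hV : Module.finrank K V = n * Module.finrank K W) :
    KronMod.IsSemistable f ↔ Function.Bijective (fun v : V => fun j : Fin n => f j v) := by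
  have hdim : finrank K V = finrank K (Fin n → W) := by
    rw [Module.finrank_pi_fintype]; simp [hV]
  constructor
  · rintro ⟨_, hs⟩
    have hinj : Function.Injective (LinearMap.pi f) := by
      rw [← LinearMap.ker_eq_bot]
      by_contra hne
      have hpos : 0 < finrank K (LinearMap.ker (LinearMap.pi f)) := by
        rw [Nat.pos_iff_ne_zero]
        intro h0
        exact hne (Submodule.finrank_eq_zero.mp h0)
      have h2 := hs _ _ (isSubrep_ker f) (fun h => hne h.1) (by
        rintro ⟨_, h3⟩
        have : finrank K (⊥ : Submodule K W) = finrank K W := by rw [h3, finrank_top]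
        rw [finrank_bot] at this
        omega)
      rw [finrank_bot, mul_zero] at h2
      have := Nat.mul_pos hW hpos
      omega
    exact ⟨hinj, (LinearMap.injective_iff_surjective_of_finrank_eq_finrank hdim).mp hinj⟩
  · intro hb
    refine ⟨by omega, fun V' W' hsub _ _ => ?_⟩
    have hinj : Function.Injective
        (LinearMap.pi (fun j => ((f j).restrict (p := V') (q := W')
          (fun x hx => hsub j ⟨x, hx, rfl⟩)))) := by
      intro a b hab
      apply Subtype.ext
      apply hb.1
      funext j
      have := congrFun hab j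
      exact congrArg Subtype.val this
    have h4 := LinearMap.finrank_le_finrank_of_injective hinj
    rw [Module.finrank_pi_fintype] at h4
    simp only [Finset.sum_const, Finset.card_univ, Fintype.card_fin, smul_eq_mul] at h4
    rw [hV]
    calc finrank K W * finrank K V' ≤ finrank K W * (n * finrank K W') := Nat.mul_le_mul_left _ h4
      _ = n * finrank K W * finrank K W' := by ring

theorem s62 (n : ℕ) (hV : 0 < Module.finrank K V) (hW : Module.finrank K W = n * Module.finrank K V) :
    (∃ f : Fin n → (V →ₗ[K] W), KronMod.IsSemistable f) ∧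
    ∀ f f' : Fin n → (V →ₗ[K] W), KronMod.IsSemistable f → KronMod.IsSemistable f' →
      KronMod.AreIso f f' := by
  have hdim : finrank K (Fin n → V) = finrank K W := by
    rw [Module.finrank_pi_fintype]; simp [hW]
  constructor
  · let e := LinearEquiv.ofFinrankEq (Fin n → V) W hdim
    refine ⟨fun j => (e : (Fin n → V) →ₗ[K] W) ∘ₗ LinearMap.single K (fun _ => V) j, ?_⟩
    rw [s61 _ hV hW]
    have : (fun v : Fin n → V => ∑ j, ((e : (Fin n → V) →ₗ[K] W) ∘ₗ
        LinearMap.single K (fun _ => V) j) (v j)) = e := by
      funext v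
      simp only [LinearMap.comp_apply, LinearMap.coe_single, LinearEquiv.coe_coe]
      rw [← map_sum]
      congr 1
      exact Finset.univ_sum_single v
    rw [this]
    exact e.bijective
  · intro f f' hf hf'
    rw [s61 _ hV hW] at hf hf'
    let S : (Fin n → V) →ₗ[K] W := ∑ j, (f j) ∘ₗ LinearMap.proj j
    have hS : ∀ v, S v = ∑ j, f j (v j) := by intro v; simp [S]
    let S' : (Fin n → V) →ₗ[K] W := ∑ j, (f' j) ∘ₗ LinearMap.proj j
    have hS' : ∀ v, S' v = ∑ j, f' j (v j) := by intro v; simp [S']
    have hSb : Function.Bijective S := by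
      have : (fun v : Fin n → V => ∑ j, f j (v j)) = S := by funext v; rw [hS]
      rwa [this] at hf
    have hSb' : Function.Bijective S' := by
      have : (fun v : Fin n → V => ∑ j, f' j (v j)) = S' := by funext v; rw [hS']
      rwa [this] at hf'
    let e := LinearEquiv.ofBijective S hSb
    let e' := LinearEquiv.ofBijective S' hSb'
    refine ⟨LinearEquiv.refl K V, e.symm.trans e', fun j => ?_⟩
    ext x
    have h1 : f j x = e (Pi.single j x) := by
      show f j x = S (Pi.single j x)
      rw [hS, Finset.sum_eq_single j]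
      · simp
      · intro b _ hb
        simp [Pi.single_eq_of_ne hb]
      · simp
    have h2 : f' j x = e' (Pi.single j x) := by
      show f' j x = S' (Pi.single j x)
      rw [hS', Finset.sum_eq_single j]
      · simp
      · intro b _ hb
        simp [Pi.single_eq_of_ne hb]
      · simp
    simp only [LinearMap.comp_apply, LinearEquiv.coe_coe, LinearEquiv.trans_apply,
      LinearEquiv.refl_apply]
    rw [h1, h2, LinearEquiv.symm_apply_apply]

theorem s69 (n : ℕ) (hW : 0 < Module.finrank K W) (hV : Module.finrank K V = n * Module.finrank K W) :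
    (∃ f : Fin n → (V →ₗ[K] W), KronMod.IsSemistable f) ∧
    ∀ f f' : Fin n → (V →ₗ[K] W), KronMod.IsSemistable f → KronMod.IsSemistable f' →
      KronMod.AreIso f f' := by
  have hdim : finrank K V = finrank K (Fin n → W) := by
    rw [Module.finrank_pi_fintype]; simp [hV]
  constructor
  · let e := LinearEquiv.ofFinrankEq V (Fin n → W) hdim
    refine ⟨fun j => LinearMap.proj j ∘ₗ (e : V →ₗ[K] (Fin n → W)), ?_⟩
    rw [s72 _ hW hV]
    exact e.bijective
  · intro f f' hf hf'
    rw [s72 _ hW hV] at hf hf'
    let e := LinearEquiv.ofBijective (LinearMap.pi f) hf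
    let e' := LinearEquiv.ofBijective (LinearMap.pi f') hf'
    refine ⟨e.trans e'.symm, LinearEquiv.refl K W, fun j => ?_⟩
    ext x
    have h2 : f' j (e'.symm (e x)) = (e' (e'.symm (e x))) j := rfl
    simp only [LinearMap.comp_apply, LinearEquiv.coe_coe, LinearEquiv.trans_apply,
      LinearEquiv.refl_apply]
    rw [h2, LinearEquiv.apply_symm_apply]
    rfl

theorem s71 (f : Fin n → (V →ₗ[K] W)) (k : ℕ) (hk : 1 ≤ k)
    (hV : Module.finrank K V = k) (hW : Module.finrank K W = k)
    (z : Fin n → K) (hz : Function.Bijective ((∑ j, z j • f j : V →ₗ[K] W) : V → W)) :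
    KronMod.IsSemistable f := by
  refine ⟨by omega, fun V' W' hsub _ _ => ?_⟩
  rw [hV, hW]
  apply Nat.mul_le_mul_left
  let g : V →ₗ[K] W := ∑ j, z j • f j
  have hmem : ∀ x ∈ V', g x ∈ W' := by
    intro x hx
    simp only [g, LinearMap.sum_apply, LinearMap.smul_apply]
    exact Submodule.sum_mem _ (fun j _ => Submodule.smul_mem _ _ (hsub j ⟨x, hx, rfl⟩))
  have hinj : Function.Injective (g.restrict hmem) := by
    intro a b hab
    apply Subtype.ext
    apply hz.1
    exact congrArg Subtype.val hab
  exact LinearMap.finrank_le_finrank_of_injective hinj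

theorem s63 (f : Fin n → (V →ₗ[K] W))
    (hV : 0 < Module.finrank K V) (hW : Module.finrank K W = n * Module.finrank K V) :
    KronMod.IsStable f ↔ (KronMod.IsSemistable f ∧ Module.finrank K V = 1) := by
  constructor
  · rintro ⟨h0, hs⟩
    refine ⟨⟨h0, fun V' W' h1 h2 h3 => (hs V' W' h1 h2 h3).le⟩, ?_⟩
    by_contra hne
    have h2 : 2 ≤ finrank K V := by omega
    obtain ⟨v, hv⟩ : ∃ v : V, v ≠ 0 := by
      haveI : Nontrivial V := Module.nontrivial_of_finrank_pos (R := K) hV
      exact exists_ne 0
    have h3 := finrank_range_sumOn_le f (K ∙ v)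
    rw [finrank_span_singleton hv, mul_one] at h3
    have h4 := hs _ _ (isSubrep_range f (K ∙ v)) (by
      rintro ⟨h5, _⟩
      exact hv (Submodule.span_singleton_eq_bot.mp h5)) (by
      rintro ⟨h5, _⟩
      have : finrank K (K ∙ v) = finrank K V := by rw [h5, finrank_top]
      rw [finrank_span_singleton hv] at this
      omega)
    rw [finrank_span_singleton hv, mul_one, hW, mul_comm] at h4
    have h5 := Nat.lt_of_mul_lt_mul_left h4
    omega
  · rintro ⟨⟨h0, hs⟩, h1⟩
    have hb := (s61 f hV hW).mp ⟨h0, hs⟩
    refine ⟨h0, fun V' W' hsub hne hne' => ?_⟩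
    have hle := le_finrank_of_injective f hb.1 V' W' hsub
    rw [h1] at hW ⊢
    rw [mul_one] at hW
    rw [one_mul, hW]
    have hV' : finrank K V' ≤ 1 := h1 ▸ Submodule.finrank_le V'
    rcases Nat.lt_or_ge 0 (finrank K V') with hpos | hzero
    · have h2 : finrank K V' = 1 := by omega
      exfalso
      apply hne'
      refine ⟨Submodule.eq_top_of_finrank_eq (by rw [h2, h1]), ?_⟩
      apply Submodule.eq_top_of_finrank_eq
      rw [hW]
      apply le_antisymm
      · rw [← hW]; exact Submodule.finrank_le _
      · rwa [h2, mul_one] at hle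
    · have h2 : finrank K V' = 0 := by omega
      rw [h2, mul_zero, Nat.pos_iff_ne_zero]
      intro h3
      exact hne ⟨Submodule.finrank_eq_zero.mp h2, Submodule.finrank_eq_zero.mp h3⟩

end

end Groth.Agent.H23Kron
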