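import Groth.Agent.Lib.H23_Kron

set_option autoImplicit false
universe u v w

namespace Groth.Agent.H23Kron
open KronMod Module

section
variable {K : Type u} [Field K] {V : Type v} {W : Type w}
    [AddCommGroup V] [Module K V] [FiniteDimensional K V]
    [AddCommGroup W] [Module K W] [FiniteDimensional K W]
    {n : ℕ}

theorem s70 (f : Fin n → (V →ₗ[K] W))
    (hW : 0 < Module.finrank K W) (hV : Module.finrank K V = n * Module.finrank K W) :
    KronMod.IsStable f ↔ (KronMod.IsSemistable f ∧ Module.finrank K W = 1) := by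
  constructor
  · rintro ⟨h0, hs⟩
    refine ⟨⟨h0, fun V' W' h1 h2 h3 => (hs V' W' h1 h2 h3).le⟩, ?_⟩
    by_contra hne
    have h2 : 2 ≤ finrank K W := by omega
    -- choose W' of dimension finrank W - 1 as kernel of a nonzero functional
    haveI : Nontrivial W := Module.nontrivial_of_finrank_pos (R := K) hW
    obtain ⟨w, hw⟩ := exists_ne (0 : W)
    obtain ⟨φ, hφ⟩ : ∃ φ : W →ₗ[K] K, φ w ≠ 0 := by
      by_contra hcon
      push Not at hcon
      exact hw ((Module.forall_dual_apply_eq_zero_iff K w).mp hcon)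
    have hφr : finrank K (LinearMap.range φ) = 1 := by
      have : LinearMap.range φ = ⊤ := by
        rw [LinearMap.range_eq_top]
        intro c
        refine ⟨(c / φ w) • w, ?_⟩
        rw [map_smul, smul_eq_mul, div_mul_cancel₀ _ hφ]
      rw [this, finrank_top, finrank_self]
    have hker : finrank K (LinearMap.ker φ) + 1 = finrank K W := by
      have := LinearMap.finrank_range_add_finrank_ker φ
      omega
    -- V' = { v | ∀ j, φ (f j v) = 0 }
    let g : V →ₗ[K] (Fin n → K) := LinearMap.pi (fun j => φ ∘ₗ f j)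
    have hg : finrank K V ≤ finrank K (LinearMap.ker g) + n := by
      have h1 := LinearMap.finrank_range_add_finrank_ker g
      have h2 : finrank K (LinearMap.range g) ≤ n := by
        refine (Submodule.finrank_le _).trans ?_
        simp
      omega
    have hsub : IsSubrep f (LinearMap.ker g) (LinearMap.ker φ) := by
      intro j
      rintro _ ⟨x, hx, rfl⟩
      have : g x = 0 := hx
      exact congrFun this j
    have h4 := hs _ _ hsub (by
      rintro ⟨_, h5⟩
      rw [h5, finrank_bot] at hker
      omega) (by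
      rintro ⟨_, h5⟩
      rw [h5, finrank_top] at hker
      omega)
    have h5 : finrank K W * (finrank K V - n) ≤ finrank K W * finrank K (LinearMap.ker g) :=
      Nat.mul_le_mul_left _ (by omega)
    have h6 : finrank K V * finrank K (LinearMap.ker φ) = finrank K W * (finrank K V - n) := by
      have h7 : finrank K (LinearMap.ker φ) = finrank K W - 1 := by omega
      rw [h7, hV]
      have h8 : n * finrank K W - n = n * (finrank K W - 1) := by
        rw [Nat.mul_sub, mul_one]
      rw [h8]; ring
    rw [h6] at h4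
    omega
  · rintro ⟨⟨h0, hs⟩, h1⟩
    have hb := (s72 f hW hV).mp ⟨h0, hs⟩
    refine ⟨h0, fun V' W' hsub hne hne' => ?_⟩
    have hinj : Function.Injective
        (LinearMap.pi (fun j => ((f j).restrict (p := V') (q := W')
          (fun x hx => hsub j ⟨x, hx, rfl⟩)))) := by
      intro a b hab
      apply Subtype.ext
      apply hb.1
      funext j
      have := congrFun hab j
      exact congrArg Subtype.val this
    have h4 := LinearMap.finrank_le_finrank_of_injective hinj
    rw [Module.finrank_pi_fintype] at h4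
    simp only [Finset.sum_const, Finset.card_univ, Fintype.card_fin, smul_eq_mul] at h4
    rw [h1] at hV ⊢
    rw [mul_one] at hV
    rw [one_mul, hV]
    have hW' : finrank K W' ≤ 1 := h1 ▸ Submodule.finrank_le W'
    rcases Nat.lt_or_ge 0 (finrank K W') with hpos | hzero
    · have h2 : finrank K W' = 1 := by omega
      rw [h2, mul_one]
      have h3 : W' = ⊤ := Submodule.eq_top_of_finrank_eq (by rw [h2, h1])
      rw [← hV]
      apply Submodule.finrank_lt
      intro h5
      exact hne' ⟨h5, h3⟩
    · have h2 : finrank K W' = 0 := by omega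
      exfalso
      rw [h2, mul_zero] at h4
      have h5 : finrank K V' = 0 := by omega
      exact hne ⟨Submodule.finrank_eq_zero.mp h5, Submodule.finrank_eq_zero.mp h2⟩

theorem s64 (f : Fin n → (V →ₗ[K] W))
    (hV : Module.finrank K V = 1) (hW : Module.finrank K W = 1) :
    (KronMod.IsSemistable f ↔ f ≠ 0) ∧ (KronMod.IsStable f ↔ f ≠ 0) := by
  have key1 : KronMod.IsSemistable f → f ≠ 0 := by
    rintro ⟨_, hs⟩ rfl
    have := hs ⊤ ⊥ (by intro j; simp) (by
      rintro ⟨h, _⟩
      have : finrank K (⊤ : Submodule K V) = 0 := by rw [h]; exact finrank_bot K V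
      rw [finrank_top] at this
      omega) (by
      rintro ⟨_, h⟩
      have : finrank K (⊥ : Submodule K W) = finrank K W := by rw [h, finrank_top]
      rw [finrank_bot] at this
      omega)
    rw [finrank_top, finrank_bot, hV, hW] at this
    omega
  have key2 : f ≠ 0 → KronMod.IsStable f := by
    intro hf
    refine ⟨by omega, fun V' W' hsub hne hne' => ?_⟩
    have hV' : finrank K V' ≤ 1 := hV ▸ Submodule.finrank_le V'
    have hW' : finrank K W' ≤ 1 := hW ▸ Submodule.finrank_le W'
    rw [hV, hW, one_mul, one_mul]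
    by_contra hcon
    push Not at hcon
    have hcases : (finrank K V' = 0 ∧ finrank K W' = 0) ∨ (finrank K V' = 1 ∧ finrank K W' = 1) ∨
        (finrank K V' = 1 ∧ finrank K W' = 0) := by omega
    rcases hcases with ⟨h1, h2⟩ | ⟨h1, h2⟩ | ⟨h1, h2⟩
    · exact hne ⟨Submodule.finrank_eq_zero.mp h1, Submodule.finrank_eq_zero.mp h2⟩
    · exact hne' ⟨Submodule.eq_top_of_finrank_eq (by rw [h1, hV]),
        Submodule.eq_top_of_finrank_eq (by rw [h2, hW])⟩
    · have h3 : V' = ⊤ := Submodule.eq_top_of_finrank_eq (by rw [h1, hV])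
      have h4 : W' = ⊥ := Submodule.finrank_eq_zero.mp h2
      apply hf
      funext j
      ext x
      have h5 : f j x ∈ W' := hsub j ⟨x, by rw [h3]; trivial, rfl⟩
      rw [h4] at h5
      simpa using h5
  have key3 : KronMod.IsStable f → KronMod.IsSemistable f :=
    fun h => ⟨h.1, fun V' W' h1 h2 h3 => (h.2 V' W' h1 h2 h3).le⟩
  exact ⟨⟨key1, fun h => key3 (key2 h)⟩, ⟨fun h => key1 (key3 h), key2⟩⟩

theorem s65 [IsAlgClosed K]
    (f : Fin 2 → (V →ₗ[K] W)) (k : ℕ) (hk : 2 ≤ k)
    (hV : Module.finrank K V = k) (hW : Module.finrank K W = k) :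
    ¬ KronMod.IsStable f := by
  rintro ⟨_, hs⟩
  -- find nonzero v with dim span (f 0 v, f 1 v) ≤ 1
  obtain ⟨v, hv, w, hw⟩ : ∃ v : V, v ≠ 0 ∧ ∃ w : W, ∀ j, f j v ∈ (K ∙ w) := by
    by_cases h1 : Function.Injective (f 1)
    · have hdim : finrank K V = finrank K W := by rw [hV, hW]
      have hb : Function.Bijective (f 1) :=
        ⟨h1, (LinearMap.injective_iff_surjective_of_finrank_eq_finrank hdim).mp h1⟩
      let e := LinearEquiv.ofBijective (f 1) hb
      haveI : Nontrivial V := Module.nontrivial_of_finrank_pos (R := K) (by omega)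
      obtain ⟨c, hc⟩ := Module.End.exists_eigenvalue ((e.symm : W →ₗ[K] V) ∘ₗ f 0)
      obtain ⟨v, hv⟩ := hc.exists_hasEigenvector
      refine ⟨v, hv.2, f 1 v, fun j => ?_⟩
      fin_cases j
      · have h2 := hv.apply_eq_smul
        have h3 : e.symm (f 0 v) = c • v := h2
        have h4 : f 0 v = e (c • v) := by rw [← h3, LinearEquiv.apply_symm_apply]
        have h5 : f 0 v = c • f 1 v := by rw [h4]; exact map_smul (f 1) c v
        show f 0 v ∈ _
        rw [h5]
        exact Submodule.smul_mem _ _ (Submodule.mem_span_singleton_self _)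
      · exact Submodule.mem_span_singleton_self _
    · have h2 : LinearMap.ker (f 1) ≠ ⊥ := by rwa [Ne, LinearMap.ker_eq_bot]
      obtain ⟨v, hv, hv0⟩ := Submodule.exists_mem_ne_zero_of_ne_bot h2
      refine ⟨v, hv0, f 0 v, fun j => ?_⟩
      fin_cases j
      · exact Submodule.mem_span_singleton_self _
      · show f 1 v ∈ _
        rw [LinearMap.mem_ker.mp hv]
        exact Submodule.zero_mem _
  have h4 := hs (K ∙ v) (K ∙ w) (by
    intro j
    rintro _ ⟨x, hx, rfl⟩
    obtain ⟨c, rfl⟩ := Submodule.mem_span_singleton.mp hx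
    rw [map_smul]
    exact Submodule.smul_mem _ _ (hw j)) (by
    rintro ⟨h5, _⟩
    exact hv (Submodule.span_singleton_eq_bot.mp h5)) (by
    rintro ⟨h5, _⟩
    have : finrank K (K ∙ v) = finrank K V := by rw [h5, finrank_top]
    rw [finrank_span_singleton hv] at this
    omega)
  rw [finrank_span_singleton hv, mul_one, hV, hW] at h4
  have h5 : finrank K (K ∙ w) ≤ 1 := by
    by_cases hw0 : w = 0
    · rw [hw0, Submodule.span_zero_singleton, finrank_bot]
      omega
    · rw [finrank_span_singleton hw0]
  have h6 : k * finrank K (K ∙ w) ≤ k * 1 := Nat.mul_le_mul_left _ h5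
  omega

theorem exists_basis_two {M : Type*} [AddCommGroup M] [Module K M] [FiniteDimensional K M]
    (h2 : finrank K M = 2) {x y : M} (hxy : ∀ s t : K, s • x + t • y = 0 → s = 0 ∧ t = 0) :
    ∃ b : Basis (Fin 2) K M, b 0 = x ∧ b 1 = y := by
  have hli : LinearIndependent K ![x, y] := LinearIndependent.pair_iff.mpr hxy
  let b := basisOfLinearIndependentOfCardEqFinrank hli (by simp [h2])
  refine ⟨b, ?_, ?_⟩ <;> simp [b]

theorem s66
    (f : Fin n → (V →ₗ[K] W))
    (hV : Module.finrank K V = 2) (hW : Module.finrank K W = 2)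
    (hf : KronMod.IsSemistable f) :
    ∃ z : Fin n → K, Function.Bijective ((∑ j, z j • f j : V →ₗ[K] W) : V → W) := by
  by_contra hcon
  push Not at hcon
  obtain ⟨_, hs⟩ := hf
  haveI : Nontrivial V := Module.nontrivial_of_finrank_pos (R := K) (by omega)
  -- no common kernel
  have hker : ∀ v : V, v ≠ 0 → ∃ j, f j v ≠ 0 := by
    intro v hv
    by_contra h
    push Not at h
    have h4 := hs (K ∙ v) ⊥ (by
      intro j
      rintro _ ⟨x, hx, rfl⟩
      obtain ⟨c, rfl⟩ := Submodule.mem_span_singleton.mp hx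
      rw [map_smul, h j, smul_zero]
      exact Submodule.zero_mem _) (by
      rintro ⟨h5, _⟩
      exact hv (Submodule.span_singleton_eq_bot.mp h5)) (by
      rintro ⟨h5, _⟩
      have : finrank K (K ∙ v) = finrank K V := by rw [h5, finrank_top]
      rw [finrank_span_singleton hv] at this
      omega)
    rw [finrank_span_singleton hv, finrank_bot, hW] at h4
    omega
  have him : ∀ w : W, w ≠ 0 → ∃ j, ∃ v, f j v ∉ (K ∙ w) := by
    intro w hw
    by_contra h
    push Not at h
    have h4 := hs ⊤ (K ∙ w) (by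
      intro j
      rintro _ ⟨x, hx, rfl⟩
      exact h j x) (by
      rintro ⟨h5, _⟩
      have : finrank K (⊤ : Submodule K V) = 0 := by rw [h5]; exact finrank_bot K V
      rw [finrank_top] at this
      omega) (by
      rintro ⟨_, h5⟩
      have : finrank K (K ∙ w) = finrank K W := by rw [h5, finrank_top]
      rw [finrank_span_singleton hw] at this
      omega)
    rw [finrank_span_singleton hw, finrank_top, hV, hW] at h4
    omega
  have hdim : finrank K V = finrank K W := by rw [hV, hW]
  have hninj : ∀ z : Fin n → K, ¬ Function.Injective (∑ j, z j • f j : V →ₗ[K] W) := by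
    intro z hz
    exact hcon z ⟨hz, (LinearMap.injective_iff_surjective_of_finrank_eq_finrank hdim).mp hz⟩
  obtain ⟨v1, hv1⟩ := exists_ne (0 : V)
  obtain ⟨a, ha⟩ := hker v1 hv1
  have hna : ¬ Function.Injective (f a) := by
    have := hninj (Pi.single a 1)
    have h2 : (∑ j, (Pi.single a (1 : K) : Fin n → K) j • f j : V →ₗ[K] W) = f a := by
      rw [Finset.sum_eq_single a]
      · simp
      · intro b _ hb; simp [Pi.single_eq_of_ne hb]
      · simp
    rwa [h2] at this
  have h2 : LinearMap.ker (f a) ≠ ⊥ := by rwa [Ne, LinearMap.ker_eq_bot]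
  obtain ⟨v2, hv2, hv20⟩ := Submodule.exists_mem_ne_zero_of_ne_bot h2
  rw [LinearMap.mem_ker] at hv2
  obtain ⟨bV, hb0, hb1⟩ := exists_basis_two hV (x := v1) (y := v2) (by
    intro s t hst
    have h3 := congrArg (f a) hst
    rw [map_add, map_smul, map_smul, hv2, smul_zero, add_zero, map_zero] at h3
    have hs0 : s = 0 := by
      rcases smul_eq_zero.mp h3 with h | h
      · exact h
      · exact absurd h ha
    subst hs0
    rw [zero_smul, zero_add] at hst
    rcases smul_eq_zero.mp hst with h | h
    · exact ⟨rfl, h⟩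
    · exact absurd h hv20)
  obtain ⟨w2, hw2⟩ : ∃ w2 : W, w2 ∉ (K ∙ (f a v1)) := by
    by_contra h
    push Not at h
    have : (K ∙ (f a v1)) = ⊤ := by rw [eq_top_iff]; intro x _; exact h x
    have h3 : finrank K (K ∙ (f a v1)) = finrank K W := by rw [this, finrank_top]
    rw [finrank_span_singleton ha] at h3
    omega
  obtain ⟨bW, hc0, hc1⟩ := exists_basis_two hW (x := f a v1) (y := w2) (by
    intro s t hst
    have ht : t = 0 := by
      by_contra ht
      apply hw2
      rw [Submodule.mem_span_singleton]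
      refine ⟨-(s / t), ?_⟩
      have h3 : t • w2 = -(s • f a v1) := by
        rw [eq_neg_iff_add_eq_zero, add_comm]; exact hst
      have h4 : w2 = t⁻¹ • (t • w2) := by rw [smul_smul, inv_mul_cancel₀ ht, one_smul]
      rw [h4, h3, smul_neg, smul_smul, neg_smul, div_eq_inv_mul]
    subst ht
    rw [zero_smul, add_zero] at hst
    rcases smul_eq_zero.mp hst with h | h
    · exact ⟨h, rfl⟩
    · exact absurd h ha)
  -- coordinates
  let A : Fin n → K := fun j => bW.repr (f j v1) 0
  let B : Fin n → K := fun j => bW.repr (f j v2) 0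
  let C : Fin n → K := fun j => bW.repr (f j v1) 1
  let D : Fin n → K := fun j => bW.repr (f j v2) 1
  have hdet : ∀ z : Fin n → K,
      (∑ j, z j * A j) * (∑ j, z j * D j) - (∑ j, z j * B j) * (∑ j, z j * C j) = 0 := by
    intro z
    by_contra hne
    apply hninj z
    rw [← LinearMap.ker_eq_bot, Submodule.eq_bot_iff]
    intro x hx
    rw [LinearMap.mem_ker] at hx
    have hx2 : x = (bV.repr x 0) • v1 + (bV.repr x 1) • v2 := by
      have := bV.sum_repr x
      rw [Fin.sum_univ_two, hb0, hb1] at this
      exact this.symm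
    set s := bV.repr x 0
    set t := bV.repr x 1
    have hT : ∀ y : V, ∀ i, bW.repr ((∑ j, z j • f j : V →ₗ[K] W) y) i =
        ∑ j, z j * bW.repr (f j y) i := by
      intro y i
      simp [LinearMap.sum_apply]
    have e0 : s * (∑ j, z j * A j) + t * (∑ j, z j * B j) = 0 := by
      have h3 := hT x 0
      rw [hx, map_zero bW.repr] at h3
      rw [hx2] at h3
      simp only [map_add, map_smul, Finsupp.coe_add, Finsupp.coe_smul, Pi.add_apply, Pi.smul_apply,
        smul_eq_mul, Finsupp.coe_zero, Pi.zero_apply] at h3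
      rw [h3, Finset.mul_sum, Finset.mul_sum, ← Finset.sum_add_distrib]
      apply Finset.sum_congr rfl
      intro j _
      simp only [A, B]
      ring
    have e1 : s * (∑ j, z j * C j) + t * (∑ j, z j * D j) = 0 := by
      have h3 := hT x 1
      rw [hx, map_zero bW.repr] at h3
      rw [hx2] at h3
      simp only [map_add, map_smul, Finsupp.coe_add, Finsupp.coe_smul, Pi.add_apply, Pi.smul_apply,
        smul_eq_mul, Finsupp.coe_zero, Pi.zero_apply] at h3
      rw [h3, Finset.mul_sum, Finset.mul_sum, ← Finset.sum_add_distrib]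
      apply Finset.sum_congr rfl
      intro j _
      simp only [C, D]
      ring
    set SA := ∑ j, z j * A j
    set SB := ∑ j, z j * B j
    set SC := ∑ j, z j * C j
    set SD := ∑ j, z j * D j
    have hs0 : s * (SA * SD - SB * SC) = 0 := by linear_combination SD * e0 - SB * e1
    have ht0 : t * (SA * SD - SB * SC) = 0 := by linear_combination SA * e1 - SC * e0
    have hs1 : s = 0 := (mul_eq_zero.mp hs0).resolve_right hne
    have ht1 : t = 0 := (mul_eq_zero.mp ht0).resolve_right hne
    rw [hx2, hs1, ht1, zero_smul, zero_smul, add_zero]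
  have hAa : A a = 1 := by
    show bW.repr (f a v1) 0 = 1
    rw [← hc0, Basis.repr_self]; simp
  have hBa : B a = 0 := by
    show bW.repr (f a v2) 0 = 0
    rw [hv2]; simp
  have hCa : C a = 0 := by
    show bW.repr (f a v1) 1 = 0
    rw [← hc0, Basis.repr_self]; simp
  have hDa : D a = 0 := by
    show bW.repr (f a v2) 1 = 0
    rw [hv2]; simp
  have hsing : ∀ (i : Fin n) (X : Fin n → K), (∑ j, (Pi.single i (1:K) : Fin n → K) j * X j) = X i := by
    intro i X
    rw [Finset.sum_eq_single i]
    · simp
    · intro b _ hb; simp [Pi.single_eq_of_ne hb]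
    · simp
  have hadd : ∀ (i i' : Fin n) (X : Fin n → K),
      (∑ j, ((Pi.single i (1:K) : Fin n → K) + (Pi.single i' (1:K) : Fin n → K)) j * X j) = X i + X i' := by
    intro i i' X
    have : ∀ j, ((Pi.single i (1:K) : Fin n → K) + (Pi.single i' (1:K) : Fin n → K)) j * X j =
      (Pi.single i (1:K) : Fin n → K) j * X j + (Pi.single i' (1:K) : Fin n → K) j * X j := by
      intro j; rw [Pi.add_apply, add_mul]
    rw [Finset.sum_congr rfl (fun j _ => this j), Finset.sum_add_distrib, hsing, hsing]
  have hd : ∀ j, D j = 0 ∧ B j * C j = 0 := by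
    intro j
    have h1 := hdet (Pi.single j 1)
    rw [hsing, hsing, hsing, hsing] at h1
    have h3 := hdet (Pi.single a 1 + Pi.single j 1)
    rw [hadd, hadd, hadd, hadd, hAa, hBa, hCa, hDa] at h3
    have h4 : D j = 0 := by linear_combination h3 - h1
    refine ⟨h4, ?_⟩
    rw [h4] at h1
    linear_combination -h1
  have hrep : ∀ w : W, w = bW.repr w 0 • f a v1 + bW.repr w 1 • w2 := by
    intro w
    have := bW.sum_repr w
    rw [Fin.sum_univ_two, hc0, hc1] at this
    exact this.symm
  obtain ⟨j, hj⟩ := hker v2 hv20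
  have hBj : B j ≠ 0 := by
    intro h
    apply hj
    rw [hrep (f j v2)]
    have h3 : bW.repr (f j v2) 0 = 0 := h
    have h4 : bW.repr (f j v2) 1 = 0 := (hd j).1
    rw [h3, h4, zero_smul, zero_smul, add_zero]
  obtain ⟨j', v, hj'⟩ := him (f a v1) ha
  have hCj' : C j' ≠ 0 := by
    intro h
    apply hj'
    have hx2 : v = (bV.repr v 0) • v1 + (bV.repr v 1) • v2 := by
      have := bV.sum_repr v
      rw [Fin.sum_univ_two, hb0, hb1] at this
      exact this.symm
    rw [hx2, map_add, map_smul, map_smul]
    apply Submodule.add_mem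
    · apply Submodule.smul_mem
      rw [hrep (f j' v1)]
      have h4 : bW.repr (f j' v1) 1 = 0 := h
      rw [h4, zero_smul, add_zero]
      exact Submodule.smul_mem _ _ (Submodule.mem_span_singleton_self _)
    · apply Submodule.smul_mem
      rw [hrep (f j' v2)]
      have h4 : bW.repr (f j' v2) 1 = 0 := (hd j').1
      rw [h4, zero_smul, add_zero]
      exact Submodule.smul_mem _ _ (Submodule.mem_span_singleton_self _)
  have hCj : C j = 0 := (mul_eq_zero.mp (hd j).2).resolve_left hBj
  have hBj' : B j' = 0 := (mul_eq_zero.mp (hd j').2).resolve_right hCj'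
  have h5 := hdet (Pi.single j 1 + Pi.single j' 1)
  rw [hadd, hadd, hadd, hadd, (hd j).1, (hd j').1, hCj, hBj'] at h5
  have h6 : B j * C j' = 0 := by linear_combination -h5
  rcases mul_eq_zero.mp h6 with h | h
  · exact hBj h
  · exact hCj' h

theorem dual_subrep {f : Fin n → (V →ₗ[K] W)} {V' : Submodule K V} {W' : Submodule K W}
    (h : IsSubrep f V' W') :
    IsSubrep (fun j => (f j).dualMap) W'.dualAnnihilator V'.dualAnnihilator := by
  intro j
  rintro _ ⟨φ, hφ, rfl⟩
  rw [Submodule.mem_dualAnnihilator]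
  intro x hx
  have := (Submodule.mem_dualAnnihilator φ).mp hφ (f j x) (h j ⟨x, hx, rfl⟩)
  simpa using this

theorem dual_subrep' {f : Fin n → (V →ₗ[K] W)} {V' : Submodule K (Dual K V)}
    {W' : Submodule K (Dual K W)}
    (h : IsSubrep (fun j => (f j).dualMap) W' V') :
    IsSubrep f V'.dualCoannihilator W'.dualCoannihilator := by
  intro j
  rintro _ ⟨x, hx, rfl⟩
  rw [Submodule.mem_dualCoannihilator]
  intro φ hφ
  have h1 := (Submodule.mem_dualCoannihilator x).mp hx ((f j).dualMap φ) (h j ⟨φ, hφ, rfl⟩)
  simpa using h1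

theorem finrank_coann (V' : Submodule K (Dual K V)) :
    finrank K V' + finrank K V'.dualCoannihilator = finrank K V :=
  Subspace.finrank_add_finrank_dualCoannihilator_eq V'

theorem finrank_ann (V' : Submodule K V) :
    finrank K V' + finrank K V'.dualAnnihilator = finrank K V :=
  Subspace.finrank_add_finrank_dualAnnihilator_eq V'

theorem s67 (f : Fin n → (V →ₗ[K] W)) :
    (KronMod.IsSemistable f ↔ KronMod.IsSemistable (fun j => (f j).dualMap)) ∧
    (KronMod.IsStable f ↔ KronMod.IsStable (fun j => (f j).dualMap)) := by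
  have hdV : finrank K (Dual K V) = finrank K V := Subspace.dual_finrank_eq
  have hdW : finrank K (Dual K W) = finrank K W := Subspace.dual_finrank_eq
  have A : ∀ (V' : Submodule K V) (W' : Submodule K W), ¬ (V' = ⊥ ∧ W' = ⊥) →
      ¬ (W'.dualAnnihilator = ⊤ ∧ V'.dualAnnihilator = ⊤) := by
    intro V' W' h ⟨h1, h2⟩
    apply h
    have a1 := finrank_ann V'
    have a2 := finrank_ann W'
    rw [h1, finrank_top] at a2
    rw [h2, finrank_top] at a1
    exact ⟨Submodule.finrank_eq_zero.mp (by omega), Submodule.finrank_eq_zero.mp (by omega)⟩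
  have B : ∀ (V' : Submodule K V) (W' : Submodule K W), ¬ (V' = ⊤ ∧ W' = ⊤) →
      ¬ (W'.dualAnnihilator = ⊥ ∧ V'.dualAnnihilator = ⊥) := by
    intro V' W' h ⟨h1, h2⟩
    apply h
    have a1 := finrank_ann V'
    have a2 := finrank_ann W'
    rw [h1, finrank_bot] at a2
    rw [h2, finrank_bot] at a1
    exact ⟨Submodule.eq_top_of_finrank_eq (by omega), Submodule.eq_top_of_finrank_eq (by omega)⟩
  have A' : ∀ (V' : Submodule K (Dual K V)) (W' : Submodule K (Dual K W)), ¬ (W' = ⊥ ∧ V' = ⊥) →
      ¬ (V'.dualCoannihilator = ⊤ ∧ W'.dualCoannihilator = ⊤) := by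
    intro V' W' h ⟨h1, h2⟩
    apply h
    have a1 := finrank_coann V'
    have a2 := finrank_coann W'
    rw [h1, finrank_top] at a1
    rw [h2, finrank_top] at a2
    exact ⟨Submodule.finrank_eq_zero.mp (by omega), Submodule.finrank_eq_zero.mp (by omega)⟩
  have B' : ∀ (V' : Submodule K (Dual K V)) (W' : Submodule K (Dual K W)), ¬ (W' = ⊤ ∧ V' = ⊤) →
      ¬ (V'.dualCoannihilator = ⊥ ∧ W'.dualCoannihilator = ⊥) := by
    intro V' W' h ⟨h1, h2⟩
    apply h
    have a1 := finrank_coann V'
    have a2 := finrank_coann W'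
    rw [h1, finrank_bot] at a1
    rw [h2, finrank_bot] at a2
    exact ⟨Submodule.eq_top_of_finrank_eq (by omega), Submodule.eq_top_of_finrank_eq (by omega)⟩
  have arith : ∀ (a b v' w' vc wc : ℕ), v' + vc = a → w' + wc = b →
      (b * v' ≤ a * w' ↔ a * wc ≤ b * vc) ∧ (b * v' < a * w' ↔ a * wc < b * vc) := by
    intro a b v' w' vc wc h1 h2
    subst h1 h2
    constructor <;> constructor <;> intro h <;> nlinarith
  refine ⟨⟨fun h => ⟨by rw [hdV, hdW]; have := h.1; omega, ?_⟩,
      fun h => ⟨by have := h.1; rw [hdV, hdW] at this; omega, ?_⟩⟩,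
    ⟨fun h => ⟨by rw [hdV, hdW]; have := h.1; omega, ?_⟩,
      fun h => ⟨by have := h.1; rw [hdV, hdW] at this; omega, ?_⟩⟩⟩
  · intro W' V' hsub hne hne'
    have h1 := h.2 _ _ (dual_subrep' hsub) (B' V' W' hne') (A' V' W' hne)
    rw [hdV, hdW]
    exact ((arith _ _ _ _ _ _ (by rw [add_comm]; exact finrank_coann V')
      (by rw [add_comm]; exact finrank_coann W')).1).mp h1
  · intro V' W' hsub hne hne'
    have h1 := h.2 _ _ (dual_subrep hsub) (B V' W' hne') (A V' W' hne)
    rw [hdV, hdW] at h1
    exact ((arith _ _ _ _ _ _ (finrank_ann V') (finrank_ann W')).1).mpr h1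
  · intro W' V' hsub hne hne'
    have h1 := h.2 _ _ (dual_subrep' hsub) (B' V' W' hne') (A' V' W' hne)
    rw [hdV, hdW]
    exact ((arith _ _ _ _ _ _ (by rw [add_comm]; exact finrank_coann V')
      (by rw [add_comm]; exact finrank_coann W')).2).mp h1
  · intro V' W' hsub hne hne'
    have h1 := h.2 _ _ (dual_subrep hsub) (B V' W' hne') (A V' W' hne)
    rw [hdV, hdW] at h1
    exact ((arith _ _ _ _ _ _ (finrank_ann V') (finrank_ann W')).2).mpr h1

end

end Groth.Agent.H23Kron
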