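import Mathlib
import Groth.Prelude.Def_W4c3biextchowCx

set_option autoImplicit false
universe v u
open CategoryTheory

namespace Groth.Agent.H24Cx

open CategoryTheory in
theorem section_aux
    (A A'' : ChainComplex (ModuleCat.{v} ℤ) ℕ) (p : A ⟶ A'')
    [∀ q, Module.Free ℤ (A''.X q)]
    (hp : ∀ q, Function.Surjective (p.f q).hom) (hs : Homotopy (𝟙 A'') 0) :
    ∃ h : A'' ⟶ A, h ≫ p = 𝟙 A'' := by
  have hsec : ∀ q, ∃ t : A''.X q ⟶ A.X q, t ≫ p.f q = 𝟙 _ := by
    intro q
    obtain ⟨t, ht⟩ := Module.projective_lifting_property (p.f q).hom LinearMap.id (hp q)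
    refine ⟨ModuleCat.ofHom t, ?_⟩
    ext x
    exact LinearMap.congr_fun ht x
  choose t ht using hsec
  let T : ∀ i j, A''.X i ⟶ A.X j := fun i j => hs.hom i j ≫ t j
  refine ⟨Homotopy.nullHomotopicMap T, ?_⟩
  rw [Homotopy.nullHomotopicMap_comp]
  have : (fun i j => T i j ≫ p.f j) = hs.hom := by
    ext i j : 2
    simp only [T, Category.assoc, ht, Category.comp_id]
  rw [this]
  ext n : 1
  have h := hs.comm n
  simpa [Homotopy.nullHomotopicMap] using h.symm

open CategoryTheory ZeroObject in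
theorem contractible_aux
    (A'' : ChainComplex (ModuleCat.{v} ℤ) ℕ) [∀ q, Module.Free ℤ (A''.X q)]
    (h : A''.Acyclic) : Nonempty (Homotopy (𝟙 A'') 0) := by
  have hz : Limits.IsZero ((ChainComplex.single₀ (ModuleCat.{v} ℤ)).obj 0) :=
    (ChainComplex.single₀ (ModuleCat.{v} ℤ)).map_isZero (Limits.isZero_zero _)
  let π : A'' ⟶ (ChainComplex.single₀ (ModuleCat.{v} ℤ)).obj 0 := 0
  have hq : QuasiIso π := by
    refine ⟨fun i => ?_⟩
    rw [quasiIsoAt_iff_isIso_homologyMap]
    have h2 : Limits.IsZero (((ChainComplex.single₀ (ModuleCat.{v} ℤ)).obj 0).homology i) :=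
      (HomologicalComplex.homologyFunctor _ _ i).map_isZero hz
    exact Limits.IsZero.isIso ((h i).isZero_homology) h2 _
  let P : ProjectiveResolution (0 : ModuleCat.{v} ℤ) :=
    { complex := A'', π := π, projective := fun n => inferInstance }
  exact ⟨ProjectiveResolution.liftHomotopyZero (P := P) (Q := P) (𝟙 A'') (hz.eq_of_tgt _ _)⟩

attribute [-instance] AddCommGroup.toIntModule in
theorem free_transfer {M N : Type*} [AddCommGroup M] [Module ℤ M] [AddCommGroup N] [Module ℤ N]
    (P : Submodule ℤ M) (g : M →ₗ[ℤ] N) (hg : Function.Surjective g) (hker : ∀ x, g x = 0 ↔ x ∈ P)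
    (hfree : @Module.Free ℤ (M ⧸ P) _ _ (AddCommGroup.toIntModule _)) : Module.Free ℤ N := by
  have hP : P = LinearMap.ker g := by
    ext x; rw [LinearMap.mem_ker, hker]
  have h0 : @Module.Free ℤ (M ⧸ P) _ _ (Submodule.Quotient.module P) := by
    have e : (Submodule.Quotient.module P : Module ℤ (M ⧸ P)) = AddCommGroup.toIntModule _ := Subsingleton.elim _ _
    rw [e]; exact hfree
  exact Module.Free.of_equiv' h0 ((Submodule.quotEquivOfEq _ _ hP).trans (LinearMap.quotKerEquivOfSurjective g hg))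

open CategoryTheory in
theorem exists_quot
    (A' A : ChainComplex (ModuleCat.{v} ℤ) ℕ) (f : A' ⟶ A)
    [∀ q, Module.Free ℤ (A'.X q)] [∀ q, Module.Free ℤ (A.X q)]
    (hf : ∀ q, Function.Injective (f.f q).hom)
    (hq : ∀ q, Module.Free ℤ ((A.X q) ⧸ LinearMap.range (f.f q).hom)) [QuasiIso f] :
    ∃ (A'' : ChainComplex (ModuleCat.{v} ℤ) ℕ) (p : A ⟶ A'') (w : f ≫ p = 0) (hS : (ShortComplex.mk f p w).ShortExact)
      (hs : Homotopy (𝟙 A'') 0) (h : A'' ⟶ A), h ≫ p = 𝟙 A'' := by
  have hmono : Mono f := by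
    have : ∀ i, Mono (f.f i) := fun i => (ModuleCat.mono_iff_injective _).2 (hf i)
    exact HomologicalComplex.mono_of_mono_f f this
  let S : ShortComplex (ChainComplex (ModuleCat.{v} ℤ) ℕ) := ShortComplex.mk f (Limits.cokernel.π f) (by simp)
  have hS : S.ShortExact :=
    { exact := ShortComplex.exact_cokernel f
      mono_f := hmono
      epi_g := inferInstanceAs (Epi (Limits.cokernel.π f)) }
  have hdeg := (HomologicalComplex.shortExact_iff_degreewise_shortExact S).1 hS
  have hsurj : ∀ q, Function.Surjective ((Limits.cokernel.π f).f q).hom := fun q =>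
    (ModuleCat.epi_iff_surjective _).1 (hdeg q).epi_g
  have hex : ∀ q, Function.Exact (f.f q).hom ((Limits.cokernel.π f).f q).hom := fun q =>
    (ShortComplex.ShortExact.moduleCat_exact_iff_function_exact _).1 (hdeg q).exact
  have hfree : ∀ q, Module.Free ℤ ((Limits.cokernel f).X q) := by
    intro q
    exact free_transfer (LinearMap.range (f.f q).hom) ((Limits.cokernel.π f).f q).hom (hsurj q)
      (fun x => (hex q x)) (hq q)
  have hz : (Limits.cokernel f).Acyclic := hS.acyclic_X₃ ‹_›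
  obtain ⟨hs⟩ := contractible_aux _ hz
  obtain ⟨h, hh⟩ := section_aux A (Limits.cokernel f) (Limits.cokernel.π f) hsurj hs
  exact ⟨_, _, _, hS, hs, h, hh⟩

end Groth.Agent.H24Cx
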