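import Groth.Prelude.Def_Conn
import Mathlib.Tactic
import Mathlib.LinearAlgebra.Basis.Basic
import Mathlib.LinearAlgebra.FreeModule.Finite.Basic

set_option autoImplicit false
universe v u
open TensorProduct

namespace H25Conn

variable {B N Ω : Type u} [CommRing B] [AddCommGroup Ω] [Module B Ω] [AddCommGroup N] [Module B N]

theorem sum_coord {ι : Type u} [Fintype ι] (b : Module.Basis ι B Ω) (x : N ⊗[B] Ω) :
    x = ∑ q, (TensorProduct.rid B N (TensorProduct.map LinearMap.id (b.coord q) x)) ⊗ₜ[B] b q := by
  induction x using TensorProduct.induction_on with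
  | zero => simp
  | add x y hx hy =>
    conv_lhs => rw [hx, hy]
    rw [← Finset.sum_add_distrib]
    refine Finset.sum_congr rfl (fun q _ => ?_)
    rw [map_add, map_add, TensorProduct.add_tmul]
  | tmul n w =>
    conv_lhs => rw [← b.sum_repr w, TensorProduct.tmul_sum]
    refine Finset.sum_congr rfl (fun q _ => ?_)
    rw [TensorProduct.map_tmul, TensorProduct.rid_tmul, LinearMap.id_apply, TensorProduct.tmul_smul,
      TensorProduct.smul_tmul']
    rfl

theorem ext_coord {ι : Type u} [Fintype ι] (b : Module.Basis ι B Ω) {x y : N ⊗[B] Ω}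
    (h : ∀ q, TensorProduct.rid B N (TensorProduct.map LinearMap.id (b.coord q) x) =
      TensorProduct.rid B N (TensorProduct.map LinearMap.id (b.coord q) y)) : x = y := by
  rw [sum_coord b x, sum_coord b y]
  exact Finset.sum_congr rfl (fun q _ => by rw [h q])

variable {E G : Type u} [AddCommGroup E] [Module B E] [AddCommGroup G] [Module B G]

theorem coord_apply (θ : Ω →ₗ[B] B) (x : (E →ₗ[B] G) ⊗[B] Ω) (e : E) :
    (TensorProduct.rid B (E →ₗ[B] G) (TensorProduct.map LinearMap.id θ x)) e =
      TensorProduct.rid B G (TensorProduct.map LinearMap.id θ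
        (TensorProduct.map (LinearMap.applyₗ e) LinearMap.id x)) := by
  induction x using TensorProduct.induction_on with
  | zero => simp
  | add x y hx hy => simp only [map_add, LinearMap.add_apply, hx, hy]
  | tmul n w => simp

theorem ext_hom [Module.Finite B Ω] [Module.Free B Ω] {x y : (E →ₗ[B] G) ⊗[B] Ω}
    (h : ∀ e : E, TensorProduct.map (LinearMap.applyₗ e : (E →ₗ[B] G) →ₗ[B] G) (LinearMap.id : Ω →ₗ[B] Ω) x =
      TensorProduct.map (LinearMap.applyₗ e : (E →ₗ[B] G) →ₗ[B] G) (LinearMap.id : Ω →ₗ[B] Ω) y) : x = y := by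
  refine ext_coord (Module.Free.chooseBasis B Ω) (fun q => ?_)
  refine LinearMap.ext (fun e => ?_)
  rw [coord_apply, coord_apply, h e]

end H25Conn
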