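import Mathlib
set_option autoImplicit false
set_option linter.all false
universe u v

open Polynomial

namespace Groth.Agent.H29Bilin

variable {k : Type u} [Field k] {V : Type v} [AddCommGroup V] [Module k V]

theorem hMn (B : LinearMap.BilinForm k V) (M : V ≃ₗ[k] V)
    (hM : ∀ x y : V, B (M x) (M y) = B x y) (n : ℕ) (x y : V) :
    B (((M : V →ₗ[k] V) ^ n) x) (((M : V →ₗ[k] V) ^ n) y) = B x y := by
  induction n generalizing x y with
  | zero => simp
  | succ n ih =>
    rw [pow_succ', Module.End.mul_apply, Module.End.mul_apply]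
    exact (hM _ _).trans (ih x y)

theorem key (B : LinearMap.BilinForm k V) (M : V ≃ₗ[k] V)
    (hM : ∀ x y : V, B (M x) (M y) = B x y) (P : k[X]) (x y : V) :
      B (aeval (M : V →ₗ[k] V) P x) (((M : V →ₗ[k] V) ^ P.natDegree) y) = B x (aeval (M : V →ₗ[k] V) P.reverse y) := by
  have e1 : aeval (M : V →ₗ[k] V) P x = ∑ i ∈ Finset.range (P.natDegree + 1), P.coeff i • ((M : V →ₗ[k] V) ^ i) x := by
    rw [Polynomial.aeval_eq_sum_range]
    simp
  have e2 : aeval (M : V →ₗ[k] V) P.reverse y = ∑ i ∈ Finset.range (P.natDegree + 1), P.coeff i • ((M : V →ₗ[k] V) ^ (P.natDegree - i)) y := by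
    rw [Polynomial.aeval_eq_sum_range' (n := P.natDegree + 1) (Nat.lt_succ_of_le (Polynomial.reverse_natDegree_le P))]
    rw [← Finset.sum_range_reflect]
    simp only [LinearMap.sum_apply, LinearMap.smul_apply]
    apply Finset.sum_congr rfl
    intro i hi
    rw [Finset.mem_range] at hi
    rw [Polynomial.coeff_reverse]
    rw [Polynomial.revAt_le (by omega)]
    congr 2
    congr 1
    omega
  rw [e1, e2]
  simp only [map_sum, LinearMap.sum_apply, map_smul, LinearMap.smul_apply]
  apply Finset.sum_congr rfl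
  intro i hi
  rw [Finset.mem_range] at hi
  congr 1
  have : ((M : V →ₗ[k] V) ^ P.natDegree) y = ((M : V →ₗ[k] V) ^ i) (((M : V →ₗ[k] V) ^ (P.natDegree - i)) y) := by
    rw [← Module.End.mul_apply, ← pow_add]; congr 2; omega
  rw [this, hMn B M hM]

theorem rev_pow (Q : k[X]) (n : ℕ) : (Q ^ n).reverse = Q.reverse ^ n := by
  induction n with
  | zero =>
    rw [pow_zero, pow_zero, ← Polynomial.C_1, Polynomial.reverse_C]
  | succ n ih =>
    rw [pow_succ, pow_succ, Polynomial.reverse_mul_of_domain, ih]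

theorem t19651 
    (B : LinearMap.BilinForm k V) (M : V ≃ₗ[k] V)
    (hM : ∀ x y : V, B (M x) (M y) = B x y)
    (Q₁ Q₂ : k[X]) (h : IsCoprime Q₁.reverse Q₂)
    (x y : V)
    (hx : ∃ n : ℕ, (Polynomial.aeval (M : V →ₗ[k] V) Q₁ ^ n) x = 0)
    (hy : ∃ n : ℕ, (Polynomial.aeval (M : V →ₗ[k] V) Q₂ ^ n) y = 0) :
    B x y = 0 := by
  obtain ⟨n, hn⟩ := hx
  obtain ⟨m, hm⟩ := hy
  -- powers of reverse coprime
  have hco : IsCoprime ((Q₁ ^ n).reverse) (Q₂ ^ m) := by
    rw [rev_pow]
    exact h.pow
  obtain ⟨a, b, hab⟩ := hco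
  -- y = rev * a y
  have hy' : y = aeval (M : V →ₗ[k] V) (Q₁ ^ n).reverse (aeval (M : V →ₗ[k] V) a y) := by
    have := congrArg (fun P => aeval (M : V →ₗ[k] V) P y) hab
    simp only [map_add, map_mul, map_pow, LinearMap.add_apply, Module.End.mul_apply, map_one, Module.End.one_apply] at this
    rw [hm, map_zero, add_zero] at this
    rw [← Module.End.mul_apply, ← map_mul, mul_comm, map_mul, Module.End.mul_apply]
    exact this.symm
  rw [hy', ← key B M hM]
  rw [map_pow, hn]
  simp

theorem fitting [FiniteDimensional k V] (T : V →ₗ[k] V) : ∃ N : ℕ,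
    (⨆ n : ℕ, LinearMap.ker (T ^ n)) = LinearMap.ker (T ^ N) ∧
    ∀ v, ∃ w z, w ∈ LinearMap.ker (T ^ N) ∧ v = w + (T ^ N) z := by
  obtain ⟨N, hN⟩ := Filter.eventually_atTop.mp (T.eventually_isCompl_ker_pow_range_pow.and T.eventually_iSup_ker_pow_eq)
  obtain ⟨h1, h2⟩ := hN N le_rfl
  refine ⟨N, h2, fun v => ?_⟩
  have : v ∈ LinearMap.ker (T ^ N) ⊔ LinearMap.range (T ^ N) := by rw [h1.sup_eq_top]; trivial
  obtain ⟨w, hw, z', ⟨z, rfl⟩, rfl⟩ := Submodule.mem_sup.mp this
  exact ⟨w, z, hw, rfl⟩

theorem inj_pow (M : V ≃ₗ[k] V) (n : ℕ) (v : V) (h : ((M : V →ₗ[k] V) ^ n) v = 0) : v = 0 := by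
  induction n with
  | zero => simpa using h
  | succ n ih =>
    rw [pow_succ', Module.End.mul_apply] at h
    exact ih (M.map_eq_zero_iff.mp h)

theorem surj_pow (M : V ≃ₗ[k] V) (n : ℕ) (v : V) : ∃ z, ((M : V →ₗ[k] V) ^ n) z = v := by
  induction n generalizing v with
  | zero => exact ⟨v, by simp⟩
  | succ n ih =>
    obtain ⟨z, hz⟩ := ih (M.symm v)
    refine ⟨z, ?_⟩
    rw [pow_succ', Module.End.mul_apply, hz]
    simp

theorem t19652 [FiniteDimensional k V]
    (B : LinearMap.BilinForm k V) (hB : B.Nondegenerate) (M : V ≃ₗ[k] V)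
    (hM : ∀ x y : V, B (M x) (M y) = B x y)
    (Q : k[X]) (hQ : Associated Q Q.reverse) :
    (B.restrict (⨆ n : ℕ, LinearMap.ker (Polynomial.aeval (M : V →ₗ[k] V) Q ^ n))).Nondegenerate := by
  obtain ⟨N, hW, hdec⟩ := fitting (aeval (M : V →ₗ[k] V) Q)
  set W := ⨆ n : ℕ, LinearMap.ker (Polynomial.aeval (M : V →ₗ[k] V) Q ^ n) with hWdef
  have hass : Associated (Q ^ N) ((Q ^ N).reverse) := by
    rw [rev_pow]; exact hQ.pow_pow
  have h12 : ∃ c : k[X], (Q ^ N).reverse * c = Q ^ N := by
    obtain ⟨c, hc⟩ := hass.symm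
    exact ⟨c, hc⟩
  have h21 : ∃ c : k[X], c * Q ^ N = (Q ^ N).reverse := by
    obtain ⟨c, hc⟩ := hass
    exact ⟨c, by rw [mul_comm]; exact hc⟩
  have hwT : ∀ w, w ∈ W ↔ aeval (M : V →ₗ[k] V) (Q ^ N) w = 0 := by
    intro w
    rw [hW, LinearMap.mem_ker, map_pow]
  constructor
  · rintro ⟨x, hx⟩ hxy
    have : x = 0 := by
      apply hB.1
      intro v
      obtain ⟨w, z, hw, rfl⟩ := hdec v
      rw [map_add]
      have e1 : B x w = 0 := hxy ⟨w, by rw [hW]; exact hw⟩
      rw [e1, zero_add, ← map_pow]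
      obtain ⟨c, hc⟩ := h12
      rw [← hc, map_mul, Module.End.mul_apply, ← key B M hM, (hwT x).mp hx]
      simp
    subst this; rfl
  · rintro ⟨y, hy⟩ hxy
    have : y = 0 := by
      apply hB.2
      intro v
      obtain ⟨w, z, hw, rfl⟩ := hdec v
      rw [map_add, LinearMap.add_apply]
      have e1 : B w y = 0 := hxy ⟨w, by rw [hW]; exact hw⟩
      rw [e1, zero_add, ← map_pow]
      obtain ⟨y', rfl⟩ := surj_pow M (Q ^ N).natDegree y
      rw [key B M hM]
      have hy2 : aeval (M : V →ₗ[k] V) (Q ^ N) y' = 0 := by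
        apply inj_pow M (Q ^ N).natDegree
        have h3 := (hwT _).mp hy
        rw [← h3, ← Module.End.mul_apply, ← Module.End.mul_apply]
        congr 1
        have : ((M : V →ₗ[k] V) ^ (Q ^ N).natDegree) = aeval (M : V →ₗ[k] V) (X ^ (Q ^ N).natDegree : k[X]) := by simp
        rw [this, ← map_mul, ← map_mul, mul_comm]
      obtain ⟨c, hc⟩ := h21
      rw [← hc, map_mul, Module.End.mul_apply, hy2]
      simp
    subst this; rfl

theorem conf (B : LinearMap.BilinForm k V) (q : k) 
    (M : V ≃ₗ[k] V) (hM : ∀ x y : V, B (M x) (M y) = q * B x y) (N : ℕ) (x y : V) :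
    B x ((((M : Module.End k V) - algebraMap k (Module.End k V) q) ^ N) y) =
    (-1) ^ N * B ((((M : Module.End k V) - algebraMap k (Module.End k V) 1) ^ N) x) (((M : Module.End k V) ^ N) y) := by
  induction N generalizing x y with
  | zero => simp
  | succ N ih =>
    rw [pow_succ', pow_succ' ((M : Module.End k V) - algebraMap k (Module.End k V) 1), pow_succ (M : Module.End k V)]
    simp only [Module.End.mul_apply]
    have h1 : ∀ x y, B x (((M : Module.End k V) - algebraMap k (Module.End k V) q) y) = - B (((M : Module.End k V) - algebraMap k (Module.End k V) 1) x) (M y) := by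
      intro x y
      simp only [LinearMap.sub_apply, map_sub, Module.algebraMap_end_apply, map_smul, LinearMap.smul_apply, smul_eq_mul, one_smul]
      have := hM x y
      simp only [LinearEquiv.coe_coe]
      rw [this]; ring
    rw [h1]
    have hcomm : M ((((M : Module.End k V) - algebraMap k (Module.End k V) q) ^ N) y) = (((M : Module.End k V) - algebraMap k (Module.End k V) q) ^ N) (M y) := by
      have hc : Commute (M : Module.End k V) ((((M : Module.End k V) - algebraMap k (Module.End k V) q) ^ N)) := by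
        apply Commute.pow_right
        apply Commute.sub_right (Commute.refl _)
        exact (Algebra.commutes q _).symm
      have := congrArg (fun f => f y) hc.eq
      simpa only [Module.End.mul_apply, LinearEquiv.coe_coe] using this
    rw [hcomm, ih]
    have hcomm2 : (((M : Module.End k V) - algebraMap k (Module.End k V) 1) ^ N) (((M : Module.End k V) - algebraMap k (Module.End k V) 1) x) = ((M : Module.End k V) - algebraMap k (Module.End k V) 1) ((((M : Module.End k V) - algebraMap k (Module.End k V) 1) ^ N) x) := by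
      rw [← Module.End.mul_apply, ← Module.End.mul_apply, ← pow_succ, ← pow_succ']
    rw [hcomm2]
    simp only [LinearEquiv.coe_coe]
    ring

theorem mem_max (f : Module.End k V) (μ : k) (x : V) :
    x ∈ Module.End.maxGenEigenspace f μ ↔ ∃ n : ℕ, ((f - algebraMap k (Module.End k V) μ) ^ n) x = 0 := by
  rw [Module.End.mem_maxGenEigenspace]
  rfl

theorem coprime_surj [FiniteDimensional k V] (f : Module.End k V) (μ ν : k) (h : μ ≠ ν) (x : V)
    (hx : ∃ n : ℕ, ((f - algebraMap k (Module.End k V) μ) ^ n) x = 0) (N : ℕ) :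
    ∃ z, (∃ n : ℕ, ((f - algebraMap k (Module.End k V) μ) ^ n) z = 0) ∧ ((f - algebraMap k (Module.End k V) ν) ^ N) z = x := by
  obtain ⟨n, hn⟩ := hx
  have hco : IsCoprime ((X - C μ : k[X]) ^ n) ((X - C ν : k[X]) ^ N) :=
    (Polynomial.isCoprime_X_sub_C_of_isUnit_sub (sub_ne_zero.mpr h).isUnit).pow
  obtain ⟨a, b, hab⟩ := hco
  have e1 : ∀ (μ : k) (n : ℕ), aeval f ((X - C μ : k[X]) ^ n) = (f - algebraMap k (Module.End k V) μ) ^ n := by
    intro μ n; simp
  refine ⟨aeval f b x, ⟨n, ?_⟩, ?_⟩
  · rw [← e1, ← Module.End.mul_apply, ← map_mul, mul_comm, map_mul, Module.End.mul_apply, e1, hn, map_zero]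
  · have := congrArg (fun P => aeval f P x) hab
    rw [← e1, ← Module.End.mul_apply, ← map_mul, mul_comm]
    simp only [map_add, LinearMap.add_apply] at this
    rw [map_mul, Module.End.mul_apply, e1, hn, map_zero, zero_add] at this
    simpa using this

theorem max_pow (f : Module.End k V) (μ : k) (x : V) (n m : ℕ) (h : n ≤ m)
  (hx : ((f - algebraMap k (Module.End k V) μ) ^ n) x = 0) : ((f - algebraMap k (Module.End k V) μ) ^ m) x = 0 := by
  obtain ⟨d, rfl⟩ := Nat.exists_eq_add_of_le h
  rw [add_comm, pow_add, Module.End.mul_apply, hx, map_zero]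

theorem t19660 [FiniteDimensional k V]
    (B : LinearMap.BilinForm k V) (hB : B.Nondegenerate) (q : k) (hq : q ≠ 0)
    (M : V ≃ₗ[k] V) (hM : ∀ x y : V, B (M x) (M y) = q * B x y) :
    (∀ x ∈ Module.End.maxGenEigenspace (M : Module.End k V) 1,
        (∀ y ∈ Module.End.maxGenEigenspace (M : Module.End k V) q, B x y = 0) → x = 0) ∧
      (∀ y ∈ Module.End.maxGenEigenspace (M : Module.End k V) q,
        (∀ x ∈ Module.End.maxGenEigenspace (M : Module.End k V) 1, B x y = 0) → y = 0) ∧
      (q ≠ 1 → ∀ x ∈ Module.End.maxGenEigenspace (M : Module.End k V) 1,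
        ∀ x' ∈ Module.End.maxGenEigenspace (M : Module.End k V) 1, B x x' = 0) ∧
      (q ≠ 1 → ∀ y ∈ Module.End.maxGenEigenspace (M : Module.End k V) q,
        ∀ y' ∈ Module.End.maxGenEigenspace (M : Module.End k V) q, B y y' = 0) := by
  refine ⟨?_, ?_, ?_, ?_⟩
  · intro x hx hxy
    apply hB.1
    intro v
    obtain ⟨N, hW, hdec⟩ := fitting ((M : Module.End k V) - algebraMap k (Module.End k V) q)
    rw [mem_max] at hx
    obtain ⟨n, hn⟩ := hx
    -- need decomposition with exponent multiple: use N' = N, but need N ≥ n. Use fitting trick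
    obtain ⟨w, z, hw, hv⟩ := hdec v
    -- iterate: choose exponents via power
    have hind : ∀ j : ℕ, ∀ v, ∃ w z, w ∈ LinearMap.ker ((((M : Module.End k V) - algebraMap k (Module.End k V) q)) ^ N) ∧ v = w + (((((M : Module.End k V) - algebraMap k (Module.End k V) q)) ^ N) ^ j) z := by
      intro j
      induction j with
      | zero => intro v; exact ⟨0, v, by simp, by simp⟩
      | succ j ih =>
        intro v
        obtain ⟨w, z, hw, rfl⟩ := ih v
        obtain ⟨w', z', hw', rfl⟩ := hdec z
        refine ⟨w + (((((M : Module.End k V) - algebraMap k (Module.End k V) q)) ^ N) ^ j) w', z', ?_, ?_⟩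
        · apply Submodule.add_mem _ hw
          rw [LinearMap.mem_ker] at hw' ⊢
          rw [← Module.End.mul_apply, ← pow_succ', pow_succ, Module.End.mul_apply, hw', map_zero]
        · rw [map_add, pow_succ, Module.End.mul_apply, add_assoc]
    by_cases hN0 : N = 0
    · subst hN0
      -- kernel of T^0 is bot: so maxGen q = bot, T surjective
      have hbot : (⨆ n : ℕ, LinearMap.ker (((M : Module.End k V) - algebraMap k (Module.End k V) q) ^ n)) = ⊥ := by
        rw [hW, pow_zero]; exact LinearMap.ker_id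
      have hinj : Function.Injective (((M : Module.End k V) - algebraMap k (Module.End k V) q) ^ n) := by
        rw [← LinearMap.ker_eq_bot, eq_bot_iff, ← hbot]
        exact le_iSup (fun n : ℕ => LinearMap.ker (((M : Module.End k V) - algebraMap k (Module.End k V) q) ^ n)) n
      obtain ⟨z, rfl⟩ := (LinearMap.injective_iff_surjective.mp hinj) v
      rw [conf B q M hM, hn]; simp
    · obtain ⟨w, z, hw, rfl⟩ := hind n v
      rw [map_add, ← pow_mul, conf B q M hM]
      rw [max_pow _ _ _ n (N * n) (Nat.le_mul_of_pos_left n (Nat.pos_of_ne_zero hN0)) hn]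
      rw [hxy w ((mem_max _ _ _).mpr ⟨N, hw⟩)]
      simp
  · intro y hy hxy
    apply hB.2
    intro v
    obtain ⟨N, hW, hdec⟩ := fitting ((M : Module.End k V) - algebraMap k (Module.End k V) 1)
    rw [mem_max] at hy
    obtain ⟨n, hn⟩ := hy
    have hind : ∀ j : ℕ, ∀ v, ∃ w z, w ∈ LinearMap.ker ((((M : Module.End k V) - algebraMap k (Module.End k V) 1)) ^ N) ∧ v = w + (((((M : Module.End k V) - algebraMap k (Module.End k V) 1)) ^ N) ^ j) z := by
      intro j
      induction j with
      | zero => intro v; exact ⟨0, v, by simp, by simp⟩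
      | succ j ih =>
        intro v
        obtain ⟨w, z, hw, rfl⟩ := ih v
        obtain ⟨w', z', hw', rfl⟩ := hdec z
        refine ⟨w + (((((M : Module.End k V) - algebraMap k (Module.End k V) 1)) ^ N) ^ j) w', z', ?_, ?_⟩
        · apply Submodule.add_mem _ hw
          rw [LinearMap.mem_ker] at hw' ⊢
          rw [← Module.End.mul_apply, ← pow_succ', pow_succ, Module.End.mul_apply, hw', map_zero]
        · rw [map_add, pow_succ, Module.End.mul_apply, add_assoc]
    -- B ((M-1)^m z) y = 0 for m ≥ n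
    have hz : ∀ m, n ≤ m → ∀ z, B ((((M : Module.End k V) - algebraMap k (Module.End k V) 1) ^ m) z) y = 0 := by
      intro m hm z
      obtain ⟨y', hy'⟩ := surj_pow M m y
      have hy2 : ((((M : Module.End k V) - algebraMap k (Module.End k V) q)) ^ m) y' = 0 := by
        apply inj_pow M m
        have h3 := max_pow _ _ _ n m hm hn
        rw [← hy'] at h3
        rw [← h3, ← Module.End.mul_apply, ← Module.End.mul_apply]
        congr 1
        have hc : Commute (M : Module.End k V) (((M : Module.End k V) - algebraMap k (Module.End k V) q)) := by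
          apply Commute.sub_right (Commute.refl _)
          exact (Algebra.commutes q _).symm
        exact (hc.pow_pow m m).eq
      have h4 := conf B q M hM m z y'
      rw [hy2, map_zero] at h4
      have h5 : B ((((M : Module.End k V) - algebraMap k (Module.End k V) 1) ^ m) z) (((M : Module.End k V) ^ m) y') = 0 := by
        rcases mul_eq_zero.mp h4.symm with h | h
        · exact absurd h (pow_ne_zero _ (by norm_num))
        · exact h
      rw [← hy']; exact h5
    by_cases hN0 : N = 0
    · subst hN0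
      have hbot : (⨆ n : ℕ, LinearMap.ker (((M : Module.End k V) - algebraMap k (Module.End k V) 1) ^ n)) = ⊥ := by
        rw [hW, pow_zero]; exact LinearMap.ker_id
      have hinj : Function.Injective (((M : Module.End k V) - algebraMap k (Module.End k V) 1) ^ n) := by
        rw [← LinearMap.ker_eq_bot, eq_bot_iff, ← hbot]
        exact le_iSup (fun n : ℕ => LinearMap.ker (((M : Module.End k V) - algebraMap k (Module.End k V) 1) ^ n)) n
      obtain ⟨z, rfl⟩ := (LinearMap.injective_iff_surjective.mp hinj) v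
      exact hz n le_rfl z
    · obtain ⟨w, z, hw, rfl⟩ := hind n v
      rw [map_add, LinearMap.add_apply, ← pow_mul]
      rw [hz _ (Nat.le_mul_of_pos_left n (Nat.pos_of_ne_zero hN0))]
      rw [hxy w ((mem_max _ _ _).mpr ⟨N, hw⟩)]
      simp
  · intro hq1 x hx x' hx'
    rw [mem_max] at hx hx'
    obtain ⟨n, hn⟩ := hx
    obtain ⟨z, -, rfl⟩ := coprime_surj (M : Module.End k V) 1 q (Ne.symm hq1) x' hx' n
    rw [conf B q M hM, hn]; simp
  · intro hq1 y hy y' hy'
    rw [mem_max] at hy hy'
    obtain ⟨n, hn⟩ := hy'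
    obtain ⟨z, -, rfl⟩ := coprime_surj (M : Module.End k V) q 1 hq1 y hy n
    obtain ⟨y'', rfl⟩ := surj_pow M n y'
    have hy2 : ((((M : Module.End k V) - algebraMap k (Module.End k V) q)) ^ n) y'' = 0 := by
      apply inj_pow M n
      rw [← hn, ← Module.End.mul_apply, ← Module.End.mul_apply]
      congr 1
      have hc : Commute (M : Module.End k V) (((M : Module.End k V) - algebraMap k (Module.End k V) q)) := by
        apply Commute.sub_right (Commute.refl _)
        exact (Algebra.commutes q _).symm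
      exact (hc.pow_pow n n).eq
    have h4 := conf B q M hM n z y''
    rw [hy2, map_zero] at h4
    rcases mul_eq_zero.mp h4.symm with h | h
    · exact absurd h (pow_ne_zero _ (by norm_num))
    · exact h

end Groth.Agent.H29Bilin
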