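import Mathlib
import Groth.Prelude.Def_W4c6intromoduliQuartic

set_option autoImplicit false
universe u
namespace Groth.Agent.H29Quartic
open W4c6intromoduli
section
open Polynomial
theorem rootPoly_eq {R : Type u} [CommRing R] (la mu : Fin 4 → R) :
  rootPoly la mu = C (mu 0 * mu 1 * mu 2 * mu 3)
   + C (-(la 0 * mu 1 * mu 2 * mu 3 + mu 0 * la 1 * mu 2 * mu 3 + mu 0 * mu 1 * la 2 * mu 3 + mu 0 * mu 1 * mu 2 * la 3)) * X
   + C (la 0 * la 1 * mu 2 * mu 3 + la 0 * mu 1 * la 2 * mu 3 + la 0 * mu 1 * mu 2 * la 3 + mu 0 * la 1 * la 2 * mu 3 + mu 0 * la 1 * mu 2 * la 3 + mu 0 * mu 1 * la 2 * la 3) * X ^ 2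
   + C (-(la 0 * la 1 * la 2 * mu 3 + la 0 * la 1 * mu 2 * la 3 + la 0 * mu 1 * la 2 * la 3 + mu 0 * la 1 * la 2 * la 3)) * X ^ 3
   + C (la 0 * la 1 * la 2 * la 3) * X ^ 4 := by
  simp only [rootPoly, Fin.prod_univ_four, map_add, map_mul, map_neg]
  ring

theorem coefs {R : Type u} [CommRing R] (la mu : Fin 4 → R) :
   coef la mu 0 = mu 0 * mu 1 * mu 2 * mu 3 ∧
   coef la mu 1 = -(la 0 * mu 1 * mu 2 * mu 3 + mu 0 * la 1 * mu 2 * mu 3 + mu 0 * mu 1 * la 2 * mu 3 + mu 0 * mu 1 * mu 2 * la 3) ∧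
   coef la mu 2 = la 0 * la 1 * mu 2 * mu 3 + la 0 * mu 1 * la 2 * mu 3 + la 0 * mu 1 * mu 2 * la 3 + mu 0 * la 1 * la 2 * mu 3 + mu 0 * la 1 * mu 2 * la 3 + mu 0 * mu 1 * la 2 * la 3 ∧
   coef la mu 3 = -(la 0 * la 1 * la 2 * mu 3 + la 0 * la 1 * mu 2 * la 3 + la 0 * mu 1 * la 2 * la 3 + mu 0 * la 1 * la 2 * la 3) ∧
   coef la mu 4 = la 0 * la 1 * la 2 * la 3 := by
  simp only [coef, rootPoly_eq]
  have H : ∀ a b c d e : R, (C a + C b * X + C c * X ^ 2 + C d * X ^ 3 + C e * X ^ 4 : R[X]).coeff 0 = a ∧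
     (C a + C b * X + C c * X ^ 2 + C d * X ^ 3 + C e * X ^ 4 : R[X]).coeff 1 = b ∧
     (C a + C b * X + C c * X ^ 2 + C d * X ^ 3 + C e * X ^ 4 : R[X]).coeff 2 = c ∧
     (C a + C b * X + C c * X ^ 2 + C d * X ^ 3 + C e * X ^ 4 : R[X]).coeff 3 = d ∧
     (C a + C b * X + C c * X ^ 2 + C d * X ^ 3 + C e * X ^ 4 : R[X]).coeff 4 = e := by
    intro a b c d e
    refine ⟨?_, ?_, ?_, ?_, ?_⟩ <;>
    simp [coeff_X, coeff_C, coeff_C_mul, coeff_X_pow, coeff_X_zero, coeff_X_one]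
  exact H _ _ _ _ _
end

def AA {R : Type u} [CommRing R] (la mu : Fin 4 → R) : R := (la 0 * mu 1 - la 1 * mu 0) * (la 2 * mu 3 - la 3 * mu 2)
def BB {R : Type u} [CommRing R] (la mu : Fin 4 → R) : R := (la 0 * mu 2 - la 2 * mu 0) * (la 3 * mu 1 - la 1 * mu 3)
def CC {R : Type u} [CommRing R] (la mu : Fin 4 → R) : R := (la 0 * mu 3 - la 3 * mu 0) * (la 1 * mu 2 - la 2 * mu 1)

theorem ABC {R : Type u} [CommRing R] (la mu : Fin 4 → R) : CC la mu = - AA la mu - BB la mu := by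
  simp only [AA, BB, CC]; ring

theorem invI_eq {R : Type u} [CommRing R] (la mu : Fin 4 → R) :
  invI (coef la mu) = AA la mu ^ 2 + AA la mu * BB la mu + BB la mu ^ 2 := by
  obtain ⟨h0, h1, h2, h3, h4⟩ := coefs la mu
  simp only [invI, h0, h1, h2, h3, h4, AA, BB]
  ring

theorem invJ_eq {R : Type u} [CommRing R] (la mu : Fin 4 → R) :
  invJ (coef la mu) = -(AA la mu - BB la mu) * (AA la mu + 2 * BB la mu) * (2 * AA la mu + BB la mu) := by
  obtain ⟨h0, h1, h2, h3, h4⟩ := coefs la mu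
  simp only [invJ, h0, h1, h2, h3, h4, AA, BB]
  ring

theorem disc_eq {R : Type u} [CommRing R] (la mu : Fin 4 → R) :
  disc la mu = (AA la mu * BB la mu * CC la mu) ^ 2 := by
  have : (Finset.univ : Finset (Fin 4 × Fin 4)).filter (fun p => p.1 < p.2) = {(0,1),(0,2),(0,3),(1,2),(1,3),(2,3)} := by decide
  simp only [disc, this, AA, BB, CC]
  rw [Finset.prod_insert (by decide), Finset.prod_insert (by decide), Finset.prod_insert (by decide), Finset.prod_insert (by decide), Finset.prod_insert (by decide), Finset.prod_singleton]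
  ring


end Groth.Agent.H29Quartic
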