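import Groth.Prelude.Def_BlowUp2
import Mathlib.AlgebraicGeometry.IdealSheaf.Functorial

set_option autoImplicit false
universe u
namespace Groth.Agent.H3Blow
open AlgebraicGeometry CategoryTheory Limits

theorem isEffCartierIdeal_top (T : Scheme.{u}) : BlowUp.IsEffCartierIdeal (⊤ : T.IdealSheafData) := by
  intro x
  obtain ⟨_, ⟨V, hV, rfl⟩, hxV, -⟩ := T.isBasis_affineOpens.exists_subset_of_mem_open
    (Set.mem_univ x) isOpen_univ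
  refine ⟨⟨V, hV⟩, hxV, 1, one_mem _, ?_⟩
  rw [Ideal.span_singleton_one]; rfl

theorem comap_eq_top {T X : Scheme.{u}} (𝓘 : X.IdealSheafData) (g : T ⟶ X)
    (h : ∀ t : T, g t ∉ 𝓘.support) : 𝓘.comap g = ⊤ := by
  rw [← Scheme.IdealSheafData.support_eq_bot_iff, Scheme.IdealSheafData.support_comap]
  ext t
  exact ⟨fun ht => absurd ht (h t), fun ht => absurd ht (by intro h; exact h)⟩

theorem isIso_off' {X X' : Scheme.{u}} (𝓘 : X.IdealSheafData) (b : X' ⟶ X) (hb : BlowUp.IsBlowUp b 𝓘)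
    (U : X.Opens) (hU : ∀ x ∈ U, x ∉ 𝓘.support) :
    IsIso (b ∣_ U) := by
  have key : ∀ {T : Scheme.{u}} (g : T ⟶ U.toScheme), BlowUp.IsEffCartierIdeal (𝓘.comap (g ≫ U.ι)) := by
    intro T g
    rw [comap_eq_top 𝓘 (g ≫ U.ι)]
    · exact isEffCartierIdeal_top T
    · intro t ht
      exact hU _ (g t).2 ht
  obtain ⟨σ, hσ, -⟩ := hb.2 U.toScheme (𝟙 _ ≫ U.ι) (key (𝟙 _))
  have hσ' : σ ≫ b = U.ι := by
    have : σ ≫ b = 𝟙 _ ≫ U.ι := hσ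
    rw [this, Category.id_comp]
  have hr : Set.range σ ⊆ Set.range (b ⁻¹ᵁ U).ι := by
    rintro _ ⟨u, rfl⟩
    rw [Scheme.Opens.range_ι]
    change b (σ u) ∈ U
    rw [← Scheme.Hom.comp_apply, hσ']
    exact u.2
  let τ : U.toScheme ⟶ (b ⁻¹ᵁ U).toScheme := IsOpenImmersion.lift (b ⁻¹ᵁ U).ι σ hr
  have hτ : τ ≫ (b ⁻¹ᵁ U).ι = σ := IsOpenImmersion.lift_fac _ _ _
  refine ⟨τ, ?_, ?_⟩
  · -- (b ∣_ U) ≫ τ = 𝟙
    rw [← cancel_mono (b ⁻¹ᵁ U).ι, Category.assoc, hτ, Category.id_comp]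
    obtain ⟨h, hh, huniq⟩ := hb.2 (b ⁻¹ᵁ U).toScheme ((b ∣_ U) ≫ U.ι) (key (b ∣_ U))
    have e1 : (b ∣_ U) ≫ σ = h := huniq _ (by
      change ((b ∣_ U) ≫ σ) ≫ b = (b ∣_ U) ≫ U.ι
      rw [Category.assoc, hσ'])
    have e2 : (b ⁻¹ᵁ U).ι = h := huniq _ (by
      change (b ⁻¹ᵁ U).ι ≫ b = (b ∣_ U) ≫ U.ι
      rw [morphismRestrict_ι])
    rw [e1, ← e2]
  · rw [← cancel_mono U.ι, Category.assoc, morphismRestrict_ι, ← Category.assoc, hτ, hσ', Category.id_comp]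

theorem isIso_off {X X' : Scheme.{u}} (𝓘 : X.IdealSheafData) (b : X' ⟶ X) (hb : BlowUp.IsBlowUp b 𝓘) :
    IsIso (b ∣_ 𝓘.support.compl) :=
  isIso_off' 𝓘 b hb _ (fun _ hx h => hx h)

end Groth.Agent.H3Blow
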