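import Groth.Agent.Lib.H3Blow
import Mathlib.AlgebraicGeometry.Morphisms.Flat

set_option autoImplicit false
universe u
namespace Groth.Agent.H3Blow
open AlgebraicGeometry CategoryTheory Limits

theorem comap_span_aux {A B : Type u} [CommRing A] [CommRing B] (e : A ≃+* B) (h : B) :
    (Ideal.span {h}).comap e.toRingHom = Ideal.span {e.symm h} := by
  ext z
  rw [Ideal.mem_comap, Ideal.mem_span_singleton, Ideal.mem_span_singleton]
  constructor
  · rintro ⟨c, hc⟩
    refine ⟨e.symm c, ?_⟩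
    apply e.injective
    rw [map_mul, e.apply_symm_apply, e.apply_symm_apply]; exact hc
  · rintro ⟨c, rfl⟩
    refine ⟨e c, ?_⟩
    change e (e.symm h * c) = _
    rw [map_mul, e.apply_symm_apply]

theorem of_comap_span_aux {A B : Type u} [CommRing A] [CommRing B] (e : A ≃+* B) (I : Ideal B) (h : A)
    (H : I.comap e.toRingHom = Ideal.span {h}) : I = Ideal.span {e h} := by
  ext z
  obtain ⟨w, rfl⟩ := e.surjective z
  have h1 : e w ∈ I ↔ w ∈ I.comap e.toRingHom := Iff.rfl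
  rw [h1, H, Ideal.mem_span_singleton, Ideal.mem_span_singleton]
  exact (map_dvd_iff e).symm

theorem ideal_comap_affine {V W : Scheme.{u}} [IsAffine V] [IsAffine W] (f : V ⟶ W) (J : W.IdealSheafData) :
    (J.comap f).ideal ⟨⊤, isAffineOpen_top V⟩ = (J.ideal ⟨⊤, isAffineOpen_top W⟩).map f.appTop.hom := by
  apply le_antisymm
  · set M := (J.ideal ⟨⊤, isAffineOpen_top W⟩).map f.appTop.hom with hM
    have h1 : J.comap f ≤ Scheme.IdealSheafData.ofIdealTop M := by
      rw [← Scheme.IdealSheafData.le_map_iff_comap_le]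
      apply Scheme.IdealSheafData.le_of_isAffine
      rw [Scheme.IdealSheafData.ideal_map_of_isAffineHom]
      have h2 : (Scheme.IdealSheafData.ofIdealTop M).ideal ⟨⊤, isAffineOpen_top V⟩ = M := by simp
      change _ ≤ ((Scheme.IdealSheafData.ofIdealTop M).ideal ⟨⊤, isAffineOpen_top V⟩).comap f.appTop.hom
      rw [h2, hM]
      exact Ideal.le_comap_map
    have h3 := h1 ⟨⊤, isAffineOpen_top V⟩
    have h2 : (Scheme.IdealSheafData.ofIdealTop M).ideal ⟨⊤, isAffineOpen_top V⟩ = M := by simp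
    rw [h2] at h3
    exact h3
  · rw [Ideal.map_le_iff_le_comap]
    have h1 : J ≤ (J.comap f).map f := (Scheme.IdealSheafData.map_gc f).le_u_l J
    have h2 := h1 ⟨⊤, isAffineOpen_top W⟩
    rw [Scheme.IdealSheafData.ideal_map_of_isAffineHom] at h2
    exact h2

def PP {W : Scheme.{u}} [IsAffine W] (J : W.IdealSheafData) : Prop :=
  ∃ h ∈ nonZeroDivisors Γ(W, ⊤), J.ideal ⟨⊤, isAffineOpen_top W⟩ = Ideal.span {h}

theorem PP_flat {V W : Scheme.{u}} [IsAffine V] [IsAffine W] (f : V ⟶ W) [Flat f] (J : W.IdealSheafData)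
    (hJ : PP J) : PP (J.comap f) := by
  obtain ⟨h, hh, he⟩ := hJ
  refine ⟨f.appTop.hom h, ?_, ?_⟩
  · have hf : f.appTop.hom.Flat := f.flat_appTop
    algebraize [f.appTop.hom]
    have : algebraMap Γ(W, ⊤) Γ(V, ⊤) h ∈ nonZeroDivisors Γ(V, ⊤) := by
      have h1 : IsSMulRegular Γ(W, ⊤) h := by
        intro a b hab
        exact (mul_cancel_left_mem_nonZeroDivisors hh).mp hab
      have h2 : IsSMulRegular Γ(V, ⊤) h := h1.of_flat
      rw [mem_nonZeroDivisors_iff_right]
      intro x hx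
      apply h2
      change h • x = h • 0
      rw [smul_zero, Algebra.smul_def, mul_comm]; exact hx
    exact this
  · rw [ideal_comap_affine, he, Ideal.map_span, Set.image_singleton]

theorem effCartier_iff {X : Scheme.{u}} (𝓘 : X.IdealSheafData) :
    BlowUp.IsEffCartierIdeal 𝓘 ↔ ∀ x : X, ∃ (W : Scheme.{u}) (_ : IsAffine W) (i : W ⟶ X) (_ : IsOpenImmersion i),
      x ∈ Set.range i ∧ PP (𝓘.comap i) := by
  constructor
  · intro H x
    obtain ⟨U, hxU, h, hh, he⟩ := H x
    have haff : IsAffine U.1.toScheme := U.2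
    refine ⟨U.1.toScheme, haff, U.1.ι, inferInstance, by rw [Scheme.Opens.range_ι]; exact hxU, ?_⟩
    have key : ∀ U' : X.affineOpens, U' = U → ∃ h ∈ nonZeroDivisors Γ(X, U'.1), 𝓘.ideal U' = Ideal.span {h} := by
      rintro _ rfl; exact ⟨h, hh, he⟩
    obtain ⟨h', hh', he'⟩ := key ⟨U.1.ι ''ᵁ ⊤, (isAffineOpen_top _).image_of_isOpenImmersion U.1.ι⟩
      (Subtype.ext U.1.ι_image_top)
    let e := (U.1.ι.appIso ⊤).symm.commRingCatIsoToRingEquiv
    refine ⟨e.symm h', ?_, ?_⟩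
    · exact (MulEquivClass.map_nonZeroDivisors e.symm) ▸ ⟨h', hh', rfl⟩
    · rw [Scheme.IdealSheafData.ideal_comap_of_isOpenImmersion, he']
      exact comap_span_aux e h'
  · intro H x
    obtain ⟨W, hW, i, hi, ⟨w, rfl⟩, h, hh, he⟩ := H x
    refine ⟨⟨i ''ᵁ ⊤, (isAffineOpen_top _).image_of_isOpenImmersion i⟩, ⟨w, trivial, rfl⟩, ?_⟩
    let e := (i.appIso ⊤).symm.commRingCatIsoToRingEquiv
    refine ⟨e h, (MulEquivClass.map_nonZeroDivisors e) ▸ ⟨h, hh, rfl⟩, ?_⟩
    rw [Scheme.IdealSheafData.ideal_comap_of_isOpenImmersion] at he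
    exact of_comap_span_aux e _ h he

theorem effCartier_flat {T X : Scheme.{u}} (f : T ⟶ X) [Flat f] (𝓘 : X.IdealSheafData)
    (h : BlowUp.IsEffCartierIdeal 𝓘) : BlowUp.IsEffCartierIdeal (𝓘.comap f) := by
  rw [effCartier_iff] at h ⊢
  intro t
  obtain ⟨W, hW, i, hi, hx, hP⟩ := h (f t)
  obtain ⟨_, ⟨V, hV, rfl⟩, htV, hVU⟩ := T.isBasis_affineOpens.exists_subset_of_mem_open
    (show t ∈ ((f ⁻¹ᵁ i.opensRange : T.Opens) : Set T) from hx) (f ⁻¹ᵁ i.opensRange).2
  have haff : IsAffine (Scheme.Opens.toScheme V) := hV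
  refine ⟨Scheme.Opens.toScheme V, haff, Scheme.Opens.ι V, inferInstance, by rw [Scheme.Opens.range_ι]; exact htV, ?_⟩
  let f' : Scheme.Opens.toScheme V ⟶ W := IsOpenImmersion.lift i (Scheme.Opens.ι V ≫ f) (by
    rintro _ ⟨v, rfl⟩
    exact hVU v.2)
  have hf' : f' ≫ i = Scheme.Opens.ι V ≫ f := IsOpenImmersion.lift_fac _ _ _
  have hfl : Flat f' := by
    have : Flat (f' ≫ i) := by rw [hf']; infer_instance
    exact MorphismProperty.of_postcomp (W := @Flat) (W' := @IsOpenImmersion) f' i hi this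
  rw [← Scheme.IdealSheafData.comap_comp, ← hf', Scheme.IdealSheafData.comap_comp]
  exact PP_flat f' _ hP

theorem t1680 {X₁ X₂ X₂' : Scheme.{u}} (g : X₁ ⟶ X₂) [Flat g] (𝓘 : X₂.IdealSheafData) (b : X₂' ⟶ X₂)
    (hb : BlowUp.IsBlowUp b 𝓘) : BlowUp.IsBlowUp (pullback.fst g b) (𝓘.comap g) := by
  constructor
  · rw [← Scheme.IdealSheafData.comap_comp, pullback.condition, Scheme.IdealSheafData.comap_comp]
    exact effCartier_flat _ _ hb.1
  · intro Y y hy
    rw [← Scheme.IdealSheafData.comap_comp] at hy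
    obtain ⟨h, hh, hu⟩ := hb.2 Y (y ≫ g) hy
    refine ⟨pullback.lift y h hh.symm, pullback.lift_fst _ _ _, ?_⟩
    intro k hk
    have hk' : k ≫ pullback.fst g b = y := hk
    apply pullback.hom_ext
    · rw [hk', pullback.lift_fst]
    · rw [pullback.lift_snd]
      apply hu
      change (k ≫ pullback.snd g b) ≫ b = y ≫ g
      rw [Category.assoc, ← pullback.condition, ← Category.assoc, hk']

end Groth.Agent.H3Blow
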