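import Mathlib.RingTheory.Polynomial.UniversalFactorizationRing
import Mathlib.RingTheory.Etale.StandardEtale
import Mathlib.RingTheory.TensorProduct.Quotient
import Mathlib.RingTheory.IntegralClosure.Algebra.Ideal

set_option autoImplicit false
universe u

namespace Groth.Agent.H3EtLift

open TensorProduct Polynomial

theorem exists_elem_of_section {A B : Type u} [CommRing A] [CommRing B] [Algebra A B]
    [Algebra.Etale A B] (I : Ideal A) (σ : B →ₐ[A] A ⧸ I) :
    ∃ s : B, σ s = 1 ∧ ∀ b : B, σ b = 0 → s * b ∈ I.map (algebraMap A B) := by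
  let T := (A ⧸ I) ⊗[A] B
  let σT : T →ₐ[A ⧸ I] (A ⧸ I) := Algebra.TensorProduct.lift (AlgHom.id _ _) σ (fun _ _ => Commute.all _ _)
  have hσtmul : ∀ (x : A ⧸ I) (b : B), σT (x ⊗ₜ b) = x * σ b := fun x b =>
    Algebra.TensorProduct.lift_tmul (AlgHom.id (A ⧸ I) (A ⧸ I)) σ _ x b
  have hσT : Function.Surjective σT := fun x => ⟨x ⊗ₜ 1, by rw [hσtmul, map_one, mul_one]⟩
  let : Algebra T (A ⧸ I) := σT.toAlgebra
  have : IsScalarTower (A ⧸ I) T (A ⧸ I) := .of_algebraMap_eq' σT.comp_algebraMap.symm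
  obtain ⟨e, he, hfe⟩ :=
    (Ideal.isIdempotentElem_iff_of_fg _ (Algebra.FinitePresentation.ker_fG_of_surjective σT hσT)).mp
      ((Algebra.FormallyEtale.iff_of_surjective hσT).mp (.of_restrictScalars (R := A ⧸ I)))
  have hsurj : Function.Surjective (Algebra.TensorProduct.includeRight : B →ₐ[A] T) := by
    intro x
    induction x using TensorProduct.induction_on with
    | zero => exact ⟨0, map_zero _⟩
    | tmul x y =>
      obtain ⟨a, rfl⟩ := Ideal.Quotient.mk_surjective x
      refine ⟨a • y, ?_⟩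
      simp only [Algebra.TensorProduct.includeRight_apply]
      rw [← TensorProduct.smul_tmul]
      congr 1
      rw [Algebra.smul_def, mul_one]
      rfl
    | add x y hx hy =>
      obtain ⟨a, rfl⟩ := hx
      obtain ⟨b, rfl⟩ := hy
      exact ⟨a + b, map_add _ _ _⟩
  have hker : ∀ b : B, (1 : A ⧸ I) ⊗ₜ[A] b = 0 → b ∈ I.map (algebraMap A B) := by
    intro b hb
    have h1 : (b ⊗ₜ[A] (1 : A ⧸ I)) = 0 := by
      have := congrArg (TensorProduct.comm A (A ⧸ I) B) hb
      simpa using this
    have h2 := Algebra.TensorProduct.quotIdealMapEquivTensorQuot_mk B I b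
    rw [h1] at h2
    rw [← Ideal.Quotient.eq_zero_iff_mem]
    exact (EquivLike.injective (Algebra.TensorProduct.quotIdealMapEquivTensorQuot B I)) (by rw [map_zero]; exact h2)
  obtain ⟨s, hs⟩ := hsurj (1 - e)
  have hσs : ∀ b : B, σT (Algebra.TensorProduct.includeRight b) = σ b := by
    intro b
    rw [Algebra.TensorProduct.includeRight_apply, hσtmul, one_mul]
  have hσe : σT e = 0 := by
    have : e ∈ RingHom.ker σT.toRingHom := by
      have h3 : RingHom.ker σT.toRingHom = Ideal.span {e} := hfe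
      rw [h3]; exact Ideal.mem_span_singleton_self e
    exact this
  refine ⟨s, ?_, ?_⟩
  · rw [← hσs, hs, map_sub, hσe, map_one, sub_zero]
  · intro b hb
    apply hker
    have h4 : (Algebra.TensorProduct.includeRight b : T) ∈ RingHom.ker σT.toRingHom := by
      change σT _ = 0
      rw [hσs, hb]
    have h3 : RingHom.ker σT.toRingHom = Ideal.span {e} := hfe
    rw [h3, Ideal.mem_span_singleton'] at h4
    obtain ⟨t, ht⟩ := h4
    change (Algebra.TensorProduct.includeRight (s * b) : T) = 0
    rw [map_mul, hs, ← ht]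
    have he' : e * e = e := he
    linear_combination (-t) * he'

/-- Key lemma: localize an etale algebra with a section mod `I` to get an etale neighbourhood. -/
theorem exists_etale_nbhd {A B : Type u} [CommRing A] [CommRing B] [Algebra A B]
    [Algebra.Etale A B] (I : Ideal A) (σ : B →ₐ[A] A ⧸ I) :
    ∃ (A' : Type u) (_ : CommRing A') (_ : Algebra A A') (_ : Algebra.Etale A A') (τ : B →ₐ[A] A'),
      Function.Bijective (algebraMap (A ⧸ I) (A' ⧸ I.map (algebraMap A A'))) ∧
      ∀ b : B, Ideal.Quotient.mk (I.map (algebraMap A A')) (τ b) =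
        algebraMap (A ⧸ I) (A' ⧸ I.map (algebraMap A A')) (σ b) := by
  obtain ⟨s, hs1, hs2⟩ := exists_elem_of_section I σ
  let A' := Localization.Away s
  let τ : B →ₐ[A] A' := IsScalarTower.toAlgHom A B A'
  have hunit : IsUnit (τ s) := IsLocalization.Away.algebraMap_isUnit s
  have key0 : ∀ b : B, σ b = 0 → τ b ∈ I.map (algebraMap A A') := by
    intro b hb
    have h1 : τ (s * b) ∈ I.map (algebraMap A A') := by
      have := Ideal.mem_map_of_mem (algebraMap B A') (hs2 b hb)
      rw [Ideal.map_map, ← IsScalarTower.algebraMap_eq] at this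
      exact this
    rw [map_mul] at h1
    exact (Ideal.unit_mul_mem_iff_mem _ hunit).mp h1
  have key : ∀ b : B, Ideal.Quotient.mk (I.map (algebraMap A A')) (τ b) =
        algebraMap (A ⧸ I) (A' ⧸ I.map (algebraMap A A')) (σ b) := by
    intro b
    obtain ⟨a, ha⟩ := Ideal.Quotient.mk_surjective (σ b)
    rw [← ha]
    have h2 : algebraMap (A ⧸ I) (A' ⧸ I.map (algebraMap A A')) (Ideal.Quotient.mk I a) =
      Ideal.Quotient.mk (I.map (algebraMap A A')) (τ (algebraMap A B a)) := by
      rw [τ.commutes]; rfl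
    rw [h2, Ideal.Quotient.eq, ← map_sub]
    apply key0
    rw [map_sub, ← ha, AlgHom.commutes]
    exact sub_self _
  refine ⟨A', inferInstance, inferInstance, inferInstance, τ, ⟨?_, ?_⟩, key⟩
  · rw [injective_iff_map_eq_zero]
    intro x hx
    obtain ⟨a, rfl⟩ := Ideal.Quotient.mk_surjective x
    have h3 : algebraMap A A' a ∈ I.map (algebraMap A A') := by
      rw [← Ideal.Quotient.eq_zero_iff_mem]; exact hx
    let ρ : A' →ₐ[A] A ⧸ I := IsLocalization.Away.liftAlgHom (x := s) (f := σ) (by rw [hs1]; exact isUnit_one)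
    have h4 : ρ (algebraMap A A' a) = 0 := by
      have : I.map (algebraMap A A') ≤ RingHom.ker ρ.toRingHom := by
        rw [Ideal.map_le_iff_le_comap]
        intro y hy
        change ρ (algebraMap A A' y) = 0
        rw [ρ.commutes]
        exact Ideal.Quotient.eq_zero_iff_mem.mpr hy
      exact this h3
    rw [ρ.commutes] at h4
    exact h4
  · intro x
    obtain ⟨x, rfl⟩ := Ideal.Quotient.mk_surjective x
    obtain ⟨n, b, h⟩ := IsLocalization.Away.surj s x
    refine ⟨σ b, ?_⟩
    rw [← key]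
    have h5 : Ideal.Quotient.mk (I.map (algebraMap A A')) (τ s) = 1 := by
      rw [key, hs1, map_one]
    have h6 : x * (τ s) ^ n = τ b := h
    rw [← h6, map_mul, map_pow, h5, one_pow, mul_one]

theorem exists_extend_away {A B C : Type u} [CommRing A] [CommRing B] [CommRing C] [Algebra A B] [Algebra A C]
    (σ : B →ₐ[A] C) (b : B) (hb : IsUnit (σ b)) :
    ∃ ρ : Localization.Away b →ₐ[A] C, ∀ x, ρ (algebraMap B (Localization.Away b) x) = σ x := by
  refine ⟨IsLocalization.Away.liftAlgHom (x := b) (f := σ) hb, fun x => ?_⟩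
  simp

/-- Universal coprime factorization with a section lifting a given factorization mod `I`. -/
theorem exists_univ_factorization {A : Type u} [CommRing A] (I : Ideal A) [Nontrivial (A ⧸ I)] (f : A[X])
    (hf : f.Monic) (g h : (A ⧸ I)[X]) (hg : g.Monic) (hh : h.Monic) (hcop : IsCoprime g h)
    (hfgh : f.map (Ideal.Quotient.mk I) = g * h) :
    ∃ (B : Type u) (_ : CommRing B) (_ : Algebra A B) (_ : Algebra.Etale A B) (σ : B →ₐ[A] A ⧸ I)
      (g₁ h₁ : B[X]), g₁.Monic ∧ h₁.Monic ∧ IsCoprime g₁ h₁ ∧ f.map (algebraMap A B) = g₁ * h₁ ∧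
        g₁.map σ.toRingHom = g ∧ h₁.map σ.toRingHom = h := by
  have hn : f.natDegree = g.natDegree + h.natDegree := by
    rw [← hf.natDegree_map (Ideal.Quotient.mk I), hfgh, hg.natDegree_mul hh]
  let p : MonicDegreeEq A f.natDegree := .mk f hf rfl
  let q : { q : MonicDegreeEq (A ⧸ I) g.natDegree × MonicDegreeEq (A ⧸ I) h.natDegree //
      q.1.1 * q.2.1 = p.1.map (algebraMap A (A ⧸ I)) ∧ IsCoprime q.1.1 q.2.1 } :=
    ⟨(.mk g hg rfl, .mk h hh rfl), hfgh.symm, hcop⟩
  let B := UniversalCoprimeFactorizationRing g.natDegree h.natDegree hn p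
  let F := UniversalCoprimeFactorizationRing.homEquiv B g.natDegree h.natDegree hn p (AlgHom.id A B)
  let σ : B →ₐ[A] A ⧸ I :=
    (UniversalCoprimeFactorizationRing.homEquiv (A ⧸ I) g.natDegree h.natDegree hn p).symm q
  have e1 := UniversalCoprimeFactorizationRing.homEquiv_comp_fst (S := B) (T := A ⧸ I)
    g.natDegree h.natDegree hn p (AlgHom.id A B) σ
  have e2 := UniversalCoprimeFactorizationRing.homEquiv_comp_snd (S := B) (T := A ⧸ I)
    g.natDegree h.natDegree hn p (AlgHom.id A B) σ
  have e3 : (UniversalCoprimeFactorizationRing.homEquiv (A ⧸ I) g.natDegree h.natDegree hn p)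
    (σ.comp (AlgHom.id A B)) = q := by
    rw [AlgHom.comp_id]
    exact Equiv.apply_symm_apply _ _
  rw [e3] at e1 e2
  refine ⟨B, inferInstance, inferInstance, inferInstance, σ, F.1.1.1, F.1.2.1,
    F.1.1.monic, F.1.2.monic, F.2.2, F.2.1.symm, ?_, ?_⟩
  · exact (congrArg Subtype.val e1).symm
  · exact (congrArg Subtype.val e2).symm

theorem exists_monic_annihilator (A B : Type u) [CommRing A] [CommRing B] [Algebra A B]
    [Algebra.IsIntegral A B] (I : Ideal A) (b : B)
    (hb : IsIdempotentElem (Ideal.Quotient.mk (I.map (algebraMap A B)) b)) :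
    ∃ (f : A[X]) (d : ℕ), f.Monic ∧ 1 ≤ d ∧ aeval b f = 0 ∧
      f.map (Ideal.Quotient.mk I) = X ^ d * (X - 1) ^ d := by
  have hb' : b * b - b ∈ I.map (algebraMap A B) := by
    rw [← Ideal.Quotient.eq, map_mul]; exact hb
  obtain ⟨Q, hQ, hQ0, hQI⟩ := Polynomial.exists_monic_aeval_eq_zero_forall_mem_of_mem_map hb'
  have hm : (X * X - X : A[X]).Monic ∧ (X * X - X : A[X]) = X * (X - 1) := by
    have : (X * X - X : A[X]) = X * (X - C 1) := by rw [C_1]; ring
    refine ⟨?_, by ring⟩
    rw [this]; exact monic_X.mul (monic_X_sub_C 1)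
  have hQmap : Q.map (Ideal.Quotient.mk I) = X ^ Q.natDegree := by
    ext i
    rw [coeff_map, coeff_X_pow]
    split_ifs with h
    · rw [h]
      have : Q.coeff Q.natDegree = 1 := hQ
      rw [this, map_one]
    · exact Ideal.Quotient.eq_zero_iff_mem.mpr (hQI i h)
  refine ⟨Q.comp (X * X - X) * (X * X - X), Q.natDegree + 1, ?_, by omega, ?_, ?_⟩
  · refine Monic.mul ?_ hm.1
    nontriviality A
    refine hQ.comp hm.1 ?_
    rw [hm.2, show (1 : A[X]) = C 1 from C_1.symm, monic_X.natDegree_mul (monic_X_sub_C 1), natDegree_X,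
      natDegree_X_sub_C]
    norm_num
  · rw [map_mul, aeval_comp]
    simp only [map_sub, map_mul, aeval_X]
    rw [hQ0, zero_mul]
  · rw [Polynomial.map_mul, Polynomial.map_comp, hQmap]
    simp only [Polynomial.map_sub, Polynomial.map_mul, map_X, pow_comp, X_comp]
    rw [← mul_pow, pow_succ]
    have : (X * X - X : (A ⧸ I)[X]) = X * (X - 1) := by ring
    rw [this]

theorem exists_etale_lift_monic_factorization' {A : Type u} [CommRing A] (I : Ideal A) (f : A[X])
    (hf : f.Monic) (g h : (A ⧸ I)[X]) (hg : g.Monic) (hh : h.Monic) (hcop : IsCoprime g h)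
    (hfgh : f.map (Ideal.Quotient.mk I) = g * h) :
    ∃ (A' : Type u) (_ : CommRing A') (_ : Algebra A A'), Algebra.Etale A A' ∧
      Function.Bijective (algebraMap (A ⧸ I) (A' ⧸ I.map (algebraMap A A'))) ∧
      ∃ g' h' : A'[X], g'.Monic ∧ h'.Monic ∧ IsCoprime g' h' ∧ f.map (algebraMap A A') = g' * h' ∧
        g'.map (Ideal.Quotient.mk (I.map (algebraMap A A'))) =
          g.map (algebraMap (A ⧸ I) (A' ⧸ I.map (algebraMap A A'))) ∧
        h'.map (Ideal.Quotient.mk (I.map (algebraMap A A'))) =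
          h.map (algebraMap (A ⧸ I) (A' ⧸ I.map (algebraMap A A'))) := by
  rcases subsingleton_or_nontrivial (A ⧸ I) with hs | hs
  · let A' := Localization.Away (0 : A)
    have hA' : Subsingleton A' := by
      have h0 : IsUnit (algebraMap A A' 0) := IsLocalization.Away.algebraMap_isUnit 0
      rw [map_zero, isUnit_zero_iff] at h0
      exact subsingleton_of_zero_eq_one h0
    have hA'' : Subsingleton (A' ⧸ I.map (algebraMap A A')) := Function.Surjective.subsingleton (Ideal.Quotient.mk_surjective)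
    refine ⟨A', inferInstance, inferInstance, inferInstance, ⟨fun x y _ => Subsingleton.elim _ _, fun x => ⟨0, Subsingleton.elim _ _⟩⟩,
      1, 1, monic_one, monic_one, isCoprime_one_left, Subsingleton.elim _ _, Subsingleton.elim _ _, Subsingleton.elim _ _⟩
  · obtain ⟨B, _, _, _, σ, g₁, h₁, hg₁, hh₁, hc, hf₁, hgσ, hhσ⟩ := exists_univ_factorization I f hf g h hg hh hcop hfgh
    obtain ⟨A', _, _, _, τ, hbij, hτ⟩ := exists_etale_nbhd I σ
    have hcomp : (Ideal.Quotient.mk (I.map (algebraMap A A'))).comp τ.toRingHom =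
        (algebraMap (A ⧸ I) (A' ⧸ I.map (algebraMap A A'))).comp σ.toRingHom := RingHom.ext hτ
    refine ⟨A', inferInstance, inferInstance, inferInstance, hbij, g₁.map τ.toRingHom, h₁.map τ.toRingHom,
      hg₁.map _, hh₁.map _, ?_, ?_, ?_, ?_⟩
    · exact hc.map (Polynomial.mapRingHom τ.toRingHom)
    · rw [← Polynomial.map_mul, ← hf₁, Polynomial.map_map]
      congr 1
      exact τ.comp_algebraMap.symm
    · rw [Polynomial.map_map, hcomp, ← Polynomial.map_map, hgσ]
    · rw [Polynomial.map_map, hcomp, ← Polynomial.map_map, hhσ]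

end Groth.Agent.H3EtLift
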