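import Groth.Agent.Lib.H3Norm
import Mathlib.AlgebraicGeometry.ResidueField
import Mathlib.AlgebraicGeometry.PullbackCarrier
import Mathlib.AlgebraicGeometry.Morphisms.UniversallyOpen

set_option autoImplicit false
universe u

namespace Groth.Agent.H3Grpd

open CategoryTheory CategoryTheory.Limits AlgebraicGeometry

variable {S : Scheme.{u}} (G : Grpd.GroupoidScheme S)

/-- left translation by a bisection -/
theorem exists_translation (ρ : G.U ⟶ G.R) (hs : ρ ≫ G.s = 𝟙 _) (ht : IsIso (ρ ≫ G.t)) :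
    ∃ φ : G.R ≅ G.R, G.e ≫ φ.hom = ρ := by
  have h1 : (G.t ≫ ρ) ≫ G.s = 𝟙 G.R ≫ G.t := by rw [Category.assoc, hs, Category.comp_id, Category.id_comp]
  let φ : G.R ⟶ G.R := pullback.lift (G.t ≫ ρ) (𝟙 G.R) h1 ≫ G.c
  let τi := inv (ρ ≫ G.t)
  have h2 : (G.t ≫ τi ≫ ρ ≫ G.i) ≫ G.s = 𝟙 G.R ≫ G.t := by
    simp only [Category.assoc, G.i_s, τi, IsIso.inv_hom_id, Category.comp_id, Category.id_comp]
  let ψ : G.R ⟶ G.R := pullback.lift (G.t ≫ τi ≫ ρ ≫ G.i) (𝟙 G.R) h2 ≫ G.c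
  -- composition with a T-point
  have hφ : ∀ {T : Scheme.{u}} (γ : T ⟶ G.R) (h : (γ ≫ G.t ≫ ρ) ≫ G.s = γ ≫ G.t),
      γ ≫ φ = pullback.lift (γ ≫ G.t ≫ ρ) γ h ≫ G.c := by
    intro T γ h
    simp only [φ, ← Category.assoc]
    congr 1
    apply pullback.hom_ext
    · simp only [Category.assoc, pullback.lift_fst]
    · simp only [Category.assoc, pullback.lift_snd, Category.comp_id]
  have hψ : ∀ {T : Scheme.{u}} (γ : T ⟶ G.R) (h : (γ ≫ G.t ≫ τi ≫ ρ ≫ G.i) ≫ G.s = γ ≫ G.t),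
      γ ≫ ψ = pullback.lift (γ ≫ G.t ≫ τi ≫ ρ ≫ G.i) γ h ≫ G.c := by
    intro T γ h
    simp only [ψ, ← Category.assoc]
    congr 1
    apply pullback.hom_ext
    · simp only [Category.assoc, pullback.lift_fst]
    · simp only [Category.assoc, pullback.lift_snd, Category.comp_id]
  have hφt : φ ≫ G.t = G.t ≫ ρ ≫ G.t := by
    simp only [φ]
    rw [G.comp_t, Category.assoc]
  have hψt : ψ ≫ G.t = G.t ≫ τi := by
    simp only [ψ]
    rw [G.comp_t]
    simp only [Category.assoc, G.i_t, hs, Category.comp_id]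
  have e1 : φ ≫ ψ = 𝟙 _ := by
    have h3 : (φ ≫ G.t ≫ τi ≫ ρ ≫ G.i) = G.t ≫ ρ ≫ G.i := by
      rw [← Category.assoc φ, hφt]
      simp only [Category.assoc, τi]
      rw [← Category.assoc ρ G.t, IsIso.hom_inv_id_assoc]
    have h4 : (G.t ≫ ρ ≫ G.i) ≫ G.s = φ ≫ G.t := by
      rw [hφt]; simp only [Category.assoc, G.i_s]
    rw [hψ φ (by rw [h3]; exact h4)]
    simp only [h3]
    have h5 : (G.t ≫ ρ ≫ G.i) ≫ G.s = (G.t ≫ ρ) ≫ G.t := by simp only [Category.assoc, G.i_s]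
    have h6 := G.assoc (G.t ≫ ρ ≫ G.i) (G.t ≫ ρ) (𝟙 G.R) h5 h1
    refine h6.symm.trans ?_
    have h7 : (G.t ≫ ρ ≫ G.i) = (G.t ≫ ρ) ≫ G.i := by rw [Category.assoc]
    have h8 := G.i_comp (G.t ≫ ρ)
    have h9 : pullback.lift (G.t ≫ ρ ≫ G.i) (G.t ≫ ρ) h5 ≫ G.c = 𝟙 G.R ≫ G.t ≫ G.e := by
      simp only [h7]
      rw [h8]
      simp only [Category.assoc, Category.id_comp]
      rw [← Category.assoc ρ, hs, Category.id_comp]
    simp only [h9]
    exact G.e_comp (𝟙 G.R)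
  have e2 : ψ ≫ φ = 𝟙 _ := by
    have h3 : (ψ ≫ G.t ≫ ρ) = G.t ≫ τi ≫ ρ := by
      rw [← Category.assoc ψ, hψt, Category.assoc]
    have h4 : (G.t ≫ τi ≫ ρ) ≫ G.s = ψ ≫ G.t := by
      rw [hψt]; simp only [Category.assoc, hs, Category.comp_id]
    rw [hφ ψ (by rw [h3]; exact h4)]
    simp only [h3]
    have h5 : (G.t ≫ τi ≫ ρ) ≫ G.s = (G.t ≫ τi ≫ ρ ≫ G.i) ≫ G.t := by simp only [Category.assoc, G.i_t]
    have h6 := G.assoc (G.t ≫ τi ≫ ρ) (G.t ≫ τi ≫ ρ ≫ G.i) (𝟙 G.R) h5 h2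
    refine h6.symm.trans ?_
    have h7 : (G.t ≫ τi ≫ ρ ≫ G.i) = (G.t ≫ τi ≫ ρ) ≫ G.i := by simp only [Category.assoc]
    have h8 := G.comp_i (G.t ≫ τi ≫ ρ)
    have h9 : pullback.lift (G.t ≫ τi ≫ ρ) (G.t ≫ τi ≫ ρ ≫ G.i) h5 ≫ G.c = 𝟙 G.R ≫ G.t ≫ G.e := by
      simp only [h7]
      rw [h8]
      simp only [Category.assoc, Category.id_comp, τi]
      rw [← Category.assoc ρ G.t, IsIso.inv_hom_id_assoc]
    simp only [h9]
    exact G.e_comp (𝟙 G.R)
  refine ⟨⟨φ, ψ, e1, e2⟩, ?_⟩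
  change G.e ≫ φ = ρ
  have h10 : (G.e ≫ G.t ≫ ρ) = ρ := by rw [← Category.assoc, G.e_t, Category.id_comp]
  rw [hφ G.e (by rw [h10, hs, G.e_t])]
  simp only [h10]
  have h11 := G.comp_e ρ
  have h12 : ρ ≫ G.s ≫ G.e = G.e := by rw [← Category.assoc, hs, Category.id_comp]
  simp only [h12] at h11
  exact h11

theorem isIso_fromSpecResidueField_of_iso_field {U : Scheme.{u}} (k : Type u) [Field k]
    (eU : U ≅ Spec (CommRingCat.of k)) (x : U) : IsIso (U.fromSpecResidueField x) := by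
  have hsub : Subsingleton U := by
    constructor
    intro a b
    have h : eU.hom a = eU.hom b := Subsingleton.elim (α := PrimeSpectrum k) _ _
    have := congrArg eU.inv h
    simpa using this
  have hred : IsReduced U := isReduced_of_isOpenImmersion eU.hom
  have hcl : IsClosedImmersion (U.fromSpecResidueField x) := by
    apply IsClosedImmersion.of_isPreimmersion
    rw [Scheme.range_fromSpecResidueField]
    have : ({x} : Set U) = Set.univ := by
      ext y; simp [Subsingleton.elim y x]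
    rw [this]; exact isClosed_univ
  have hsurj : Surjective (U.fromSpecResidueField x) := by
    constructor
    intro y
    have : y ∈ Set.range (U.fromSpecResidueField x) := by
      rw [Scheme.range_fromSpecResidueField]
      exact Subsingleton.elim y x
    exact this
  exact isIso_of_isClosedImmersion_of_surjective _

theorem exists_auto (k : Type u) [Field k] (eU : G.U ≅ Spec (CommRingCat.of k))
    (r : G.R) (hs : IsIso (G.s.residueFieldMap r)) (ht : IsIso (G.t.residueFieldMap r)) :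
    ∃ φ : G.R ≅ G.R, φ.hom (G.e (eU.inv (IsLocalRing.closedPoint k))) = r := by
  let a := G.R.fromSpecResidueField r
  have h1 : IsIso (a ≫ G.s) := by
    rw [← Scheme.Hom.SpecMap_residueFieldMap_fromSpecResidueField]
    have := isIso_fromSpecResidueField_of_iso_field k eU (G.s r)
    infer_instance
  have h2 : IsIso (a ≫ G.t) := by
    rw [← Scheme.Hom.SpecMap_residueFieldMap_fromSpecResidueField]
    have := isIso_fromSpecResidueField_of_iso_field k eU (G.t r)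
    infer_instance
  let ρ : G.U ⟶ G.R := inv (a ≫ G.s) ≫ a
  obtain ⟨φ, hφ⟩ := exists_translation G ρ (by simp [ρ]) (by
    have : ρ ≫ G.t = inv (a ≫ G.s) ≫ (a ≫ G.t) := by simp [ρ]
    rw [this]; infer_instance)
  refine ⟨φ, ?_⟩
  have h3 : φ.hom (G.e (eU.inv (IsLocalRing.closedPoint k))) = (G.e ≫ φ.hom) (eU.inv (IsLocalRing.closedPoint k)) := by
    simp
  rw [h3, hφ]
  simp only [ρ, Scheme.Hom.comp_apply]
  exact Scheme.fromSpecResidueField_apply _ _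

theorem inv_mul {T : Scheme.{u}} (α β : T ⟶ G.R) (h : α ≫ G.s = β ≫ G.t)
    (h' : (α ≫ G.i) ≫ G.s = (pullback.lift α β h ≫ G.c) ≫ G.t) :
    pullback.lift (α ≫ G.i) (pullback.lift α β h ≫ G.c) h' ≫ G.c = β := by
  have h1 : (α ≫ G.i) ≫ G.s = α ≫ G.t := by rw [Category.assoc, G.i_s]
  refine (G.assoc (α ≫ G.i) α β h1 h).symm.trans ?_
  have h2 : pullback.lift (α ≫ G.i) α h1 ≫ G.c = β ≫ G.t ≫ G.e := by
    rw [G.i_comp, ← Category.assoc, h, Category.assoc]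
  simp only [h2]
  exact G.e_comp β

theorem mul_inv {T : Scheme.{u}} (α γ : T ⟶ G.R) (h : (α ≫ G.i) ≫ G.s = γ ≫ G.t)
    (h' : α ≫ G.s = (pullback.lift (α ≫ G.i) γ h ≫ G.c) ≫ G.t) :
    pullback.lift α (pullback.lift (α ≫ G.i) γ h ≫ G.c) h' ≫ G.c = γ := by
  have h1 : α ≫ G.s = (α ≫ G.i) ≫ G.t := by rw [Category.assoc, G.i_t]
  refine (G.assoc α (α ≫ G.i) γ h1 h).symm.trans ?_
  have h2 : pullback.lift α (α ≫ G.i) h1 ≫ G.c = γ ≫ G.t ≫ G.e := by
    rw [G.comp_i, ← Category.assoc, ← Category.assoc]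
    congr 1
    rw [← h, Category.assoc, G.i_s]
  simp only [h2]
  exact G.e_comp γ

theorem mul_congr {T : Scheme.{u}} {α β α' β' : T ⟶ G.R} (h : α ≫ G.s = β ≫ G.t) (h' : α' ≫ G.s = β' ≫ G.t)
    (h1 : α = α') (h2 : β = β') : pullback.lift α β h ≫ G.c = pullback.lift α' β' h' ≫ G.c := by
  subst h1; subst h2; rfl

theorem comp_mul {T T' : Scheme.{u}} (f : T' ⟶ T) {α β : T ⟶ G.R} (h : α ≫ G.s = β ≫ G.t)
    (h' : (f ≫ α) ≫ G.s = (f ≫ β) ≫ G.t) :
    f ≫ pullback.lift α β h ≫ G.c = pullback.lift (f ≫ α) (f ≫ β) h' ≫ G.c := by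
  rw [← Category.assoc]
  congr 1
  apply pullback.hom_ext
  · simp only [Category.assoc, pullback.lift_fst]
  · simp only [Category.assoc, pullback.lift_snd]

theorem isOpen_range_translate (k : Type u) [Field k] (eU : G.U ≅ Spec (CommRingCat.of k))
    {W' Z : Scheme.{u}} (ι : W' ⟶ G.R) [IsOpenImmersion ι] (a : Z ⟶ G.R)
    (hQ : (pullback.fst (a ≫ G.s) (ι ≫ G.t) ≫ a) ≫ G.s = (pullback.snd (a ≫ G.s) (ι ≫ G.t) ≫ ι) ≫ G.t) :
    IsOpen (Set.range (pullback.lift (pullback.fst (a ≫ G.s) (ι ≫ G.t) ≫ a)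
      (pullback.snd (a ≫ G.s) (ι ≫ G.t) ≫ ι) hQ ≫ G.c)) := by
  let p1 := pullback.fst (a ≫ G.s) (ι ≫ G.t)
  let p2 := pullback.snd (a ≫ G.s) (ι ≫ G.t)
  let m : pullback (a ≫ G.s) (ι ≫ G.t) ⟶ G.R := pullback.lift (p1 ≫ a) (p2 ≫ ι) hQ ≫ G.c
  have hmt : m ≫ G.t = (p1 ≫ a) ≫ G.t := G.comp_t _ _ _
  let Q' := pullback (a ≫ G.t) G.t
  let q1 : Q' ⟶ Z := pullback.fst (a ≫ G.t) G.t
  let q2 : Q' ⟶ G.R := pullback.snd (a ≫ G.t) G.t
  have hq : q1 ≫ a ≫ G.t = q2 ≫ G.t := pullback.condition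
  have hδ : ((q1 ≫ a) ≫ G.i) ≫ G.s = q2 ≫ G.t := by
    rw [Category.assoc, G.i_s, Category.assoc]; exact hq
  let δ : Q' ⟶ G.R := pullback.lift ((q1 ≫ a) ≫ G.i) q2 hδ ≫ G.c
  have hδt : δ ≫ G.t = (q1 ≫ a) ≫ G.s := by
    change (pullback.lift ((q1 ≫ a) ≫ G.i) q2 hδ ≫ G.c) ≫ G.t = _
    rw [G.comp_t, Category.assoc, G.i_t]
  let j : pullback (a ≫ G.s) (ι ≫ G.t) ⟶ Q' := pullback.lift p1 m (by rw [hmt, Category.assoc])
  have hj1 : j ≫ q1 = p1 := pullback.lift_fst _ _ _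
  have hj2 : j ≫ q2 = m := pullback.lift_snd _ _ _
  have hsq : IsPullback j p2 δ ι := by
    refine ⟨⟨?_⟩, ⟨PullbackCone.IsLimit.mk _ (fun w => ?_) (fun w => ?_) (fun w => ?_) (fun w n hn1 hn2 => ?_)⟩⟩
    · have h1 : (j ≫ ((q1 ≫ a) ≫ G.i)) ≫ G.s = (j ≫ q2) ≫ G.t := by
        simp only [Category.assoc] at hδ ⊢; rw [hδ]
      change j ≫ pullback.lift ((q1 ≫ a) ≫ G.i) q2 hδ ≫ G.c = _
      rw [comp_mul G j hδ h1]
      have h2 : j ≫ ((q1 ≫ a) ≫ G.i) = (p1 ≫ a) ≫ G.i := by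
        rw [← hj1]; simp only [Category.assoc]
      have h3 : ((p1 ≫ a) ≫ G.i) ≫ G.s = m ≫ G.t := by rw [hmt, Category.assoc, G.i_s]
      rw [mul_congr G h1 h3 h2 hj2]
      exact inv_mul G (p1 ≫ a) (p2 ≫ ι) hQ h3
    · refine pullback.lift (w.fst ≫ q1) w.snd ?_
      have h1 := w.condition
      rw [← Category.assoc w.snd, ← h1, Category.assoc w.fst δ, hδt]
      simp only [Category.assoc]
    · -- fst
      have hw := w.condition
      have h0 : (w.fst ≫ q1) ≫ a ≫ G.s = w.snd ≫ ι ≫ G.t := by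
        rw [← Category.assoc w.snd, ← hw, Category.assoc w.fst δ, hδt]
        simp only [Category.assoc]
      apply pullback.hom_ext
      · change (pullback.lift (w.fst ≫ q1) w.snd h0 ≫ j) ≫ q1 = w.fst ≫ q1
        rw [Category.assoc, hj1]
        exact pullback.lift_fst _ _ _
      · change (pullback.lift (w.fst ≫ q1) w.snd h0 ≫ j) ≫ q2 = w.fst ≫ q2
        rw [Category.assoc, hj2]
        let l := pullback.lift (w.fst ≫ q1) w.snd h0
        have hl1 : l ≫ p1 = w.fst ≫ q1 := pullback.lift_fst _ _ _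
        have hl2 : l ≫ p2 = w.snd := pullback.lift_snd _ _ _
        have h1 : (l ≫ p1 ≫ a) ≫ G.s = (l ≫ p2 ≫ ι) ≫ G.t := by
          have := congrArg (fun x => l ≫ x) hQ
          simpa only [Category.assoc] using this
        change l ≫ pullback.lift (p1 ≫ a) (p2 ≫ ι) hQ ≫ G.c = _
        rw [comp_mul G l hQ h1]
        have h2 : l ≫ p1 ≫ a = w.fst ≫ q1 ≫ a := by rw [← Category.assoc, hl1, Category.assoc]
        have h4 : ((w.fst ≫ q1 ≫ a) ≫ G.i) ≫ G.s = (w.fst ≫ q2) ≫ G.t := by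
          have := congrArg (fun x => w.fst ≫ x) hδ
          simpa only [Category.assoc] using this
        have h3 : l ≫ p2 ≫ ι = pullback.lift ((w.fst ≫ q1 ≫ a) ≫ G.i) (w.fst ≫ q2) h4 ≫ G.c := by
          rw [← Category.assoc, hl2, ← hw]
          have h5 : (w.fst ≫ ((q1 ≫ a) ≫ G.i)) ≫ G.s = (w.fst ≫ q2) ≫ G.t := by
            have := congrArg (fun x => w.fst ≫ x) hδ
            simpa only [Category.assoc] using this
          rw [show w.fst ≫ δ = _ from comp_mul G w.fst hδ h5]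
          exact mul_congr G h5 h4 (by simp only [Category.assoc]) rfl
        have h6 : (w.fst ≫ q1 ≫ a) ≫ G.s = (pullback.lift ((w.fst ≫ q1 ≫ a) ≫ G.i) (w.fst ≫ q2) h4 ≫ G.c) ≫ G.t := by
          rw [G.comp_t, Category.assoc _ G.i G.t, G.i_t]
        rw [mul_congr G h1 h6 h2 h3]
        exact mul_inv G _ _ h4 h6
    · exact pullback.lift_snd _ _ _
    · apply pullback.hom_ext
      · rw [pullback.lift_fst, ← hn1, Category.assoc, hj1]
      · rw [pullback.lift_snd]; exact hn2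
  have hjo : IsOpenImmersion j := MorphismProperty.of_isPullback (P := @IsOpenImmersion) hsq.flip inferInstance
  have huo : UniversallyOpen (a ≫ G.t) := by
    have h1 : UniversallyOpen ((a ≫ G.t) ≫ eU.hom) := inferInstance
    have h2 : a ≫ G.t = ((a ≫ G.t) ≫ eU.hom) ≫ eU.inv := by simp
    rw [h2]; infer_instance
  have hq2 : UniversallyOpen q2 := inferInstance
  have hm : UniversallyOpen (j ≫ q2) := inferInstance
  change IsOpen (Set.range m)
  rw [← hj2]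
  exact (j ≫ q2).isOpenMap.isOpen_range

end Groth.Agent.H3Grpd
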