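import Groth.Agent.Lib.H3Grpd

set_option autoImplicit false
universe u

namespace Groth.Agent.H3Grpd

open CategoryTheory CategoryTheory.Limits AlgebraicGeometry

variable {S : Scheme.{u}}

/-- an idempotent arrow is an identity -/
theorem eq_of_idem (G : Grpd.GroupoidScheme S) {T : Scheme.{u}} (ε : T ⟶ G.R) (h : ε ≫ G.s = ε ≫ G.t)
    (hi : pullback.lift ε ε h ≫ G.c = ε) : ε = ε ≫ G.s ≫ G.e := by
  have h1 : (ε ≫ G.i) ≫ G.s = (pullback.lift ε ε h ≫ G.c) ≫ G.t := by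
    rw [G.comp_t, Category.assoc, G.i_s]
  have h2 := inv_mul G ε ε h h1
  have h3 : (ε ≫ G.i) ≫ G.s = ε ≫ G.t := by rw [Category.assoc, G.i_s]
  have h4 := mul_congr G h1 h3 rfl hi
  rw [h4, G.i_comp] at h2
  exact h2.symm

theorem hom_e {G₁ G₂ : Grpd.GroupoidScheme S} (a : Grpd.GroupoidScheme.Hom G₁ G₂) :
    G₁.e ≫ a.fR = a.fU ≫ G₂.e := by
  have hs : (G₁.e ≫ a.fR) ≫ G₂.s = a.fU := by
    rw [Category.assoc, a.comm_s, ← Category.assoc, G₁.e_s, Category.id_comp]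
  have ht : (G₁.e ≫ a.fR) ≫ G₂.t = a.fU := by
    rw [Category.assoc, a.comm_t, ← Category.assoc, G₁.e_t, Category.id_comp]
  have h1 : G₁.e ≫ G₁.s = G₁.e ≫ G₁.t := by rw [G₁.e_s, G₁.e_t]
  have h2 : pullback.lift G₁.e G₁.e h1 ≫ G₁.c = G₁.e := by
    have h3 := G₁.comp_e G₁.e
    have h4 : G₁.e ≫ G₁.s ≫ G₁.e = G₁.e := by rw [← Category.assoc, G₁.e_s, Category.id_comp]
    simp only [h4] at h3
    exact h3
  have h5 := a.comm_c G₁.e G₁.e h1
  rw [h2] at h5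
  have h6 := eq_of_idem G₂ (G₁.e ≫ a.fR) (hs.trans ht.symm) h5.symm
  rw [h6, ← Category.assoc, hs]

/-- right division -/
theorem div_hom {G₁ G₂ : Grpd.GroupoidScheme S} (a : Grpd.GroupoidScheme.Hom G₁ G₂) [IsIso a.fU]
    {T : Scheme.{u}} (α : T ⟶ G₂.R) (r₁ r₂ : T ⟶ G₁.R) (h : α ≫ G₂.s = (r₁ ≫ a.fR) ≫ G₂.t)
    (hm : pullback.lift α (r₁ ≫ a.fR) h ≫ G₂.c = r₂ ≫ a.fR) : ∃ β : T ⟶ G₁.R, β ≫ a.fR = α := by
  have hs : r₂ ≫ G₁.s = r₁ ≫ G₁.s := by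
    rw [← cancel_mono a.fU, Category.assoc, Category.assoc, ← a.comm_s, ← Category.assoc, ← Category.assoc, ← hm,
      G₂.comp_s]
  let l := (Groth.Agent.H3Norm.isPullback_c_snd G₁).lift r₂ r₁ hs
  have hl1 : l ≫ G₁.c = r₂ := IsPullback.lift_fst _ _ _ _
  have hl2 : l ≫ pullback.snd G₁.s G₁.t = r₁ := IsPullback.lift_snd _ _ _ _
  let β := l ≫ pullback.fst G₁.s G₁.t
  have hβ : β ≫ G₁.s = r₁ ≫ G₁.t := by
    simp only [β]
    rw [← hl2, Category.assoc, Category.assoc, pullback.condition]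
  have hl : l = pullback.lift β r₁ hβ := by
    apply pullback.hom_ext
    · rw [pullback.lift_fst]
    · rw [pullback.lift_snd, hl2]
  refine ⟨β, ?_⟩
  have h1 := a.comm_c β r₁ hβ
  rw [← hl, hl1, ← hm] at h1
  have h2 := (Groth.Agent.H3Norm.isPullback_c_snd G₂).hom_ext h1 (by
    rw [pullback.lift_snd, pullback.lift_snd])
  have h3 := congrArg (fun f => f ≫ pullback.fst G₂.s G₂.t) h2
  simp only [pullback.lift_fst] at h3
  exact h3.symm

theorem isClosed_range (G₁ G₂ : Grpd.GroupoidScheme S) (k : Type u) [Field k]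
    (eU : G₂.U ≅ Spec (CommRingCat.of k)) (a : Grpd.GroupoidScheme.Hom G₁ G₂) [IsIso a.fU]
    (hopen : IsOpen (Set.range ⇑a.fR)) : IsClosed (Set.range ⇑a.fR) := by
  let W : G₂.R.Opens := ⟨Set.range a.fR, hopen⟩
  rw [← isOpen_compl_iff, isOpen_iff_forall_mem_open]
  intro x hx
  let b := G₂.R.fromSpecResidueField x
  have hQ := (Category.assoc (pullback.fst (b ≫ G₂.s) (W.ι ≫ G₂.t)) b G₂.s).trans
    (pullback.condition.trans (Category.assoc (pullback.snd (b ≫ G₂.s) (W.ι ≫ G₂.t)) W.ι G₂.t).symm)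
  let m := pullback.lift (pullback.fst (b ≫ G₂.s) (W.ι ≫ G₂.t) ≫ b)
      (pullback.snd (b ≫ G₂.s) (W.ι ≫ G₂.t) ≫ W.ι) hQ ≫ G₂.c
  refine ⟨Set.range m, ?_, isOpen_range_translate G₂ k eU W.ι b hQ, ?_⟩
  · -- disjointness
    rintro y ⟨q, rfl⟩ ⟨r₂, hr₂⟩
    apply hx
    obtain ⟨r₁, hr₁⟩ : (pullback.snd (b ≫ G₂.s) (W.ι ≫ G₂.t) ≫ W.ι) q ∈ Set.range a.fR := by
      rw [Scheme.Hom.comp_apply]
      exact (pullback.snd (b ≫ G₂.s) (W.ι ≫ G₂.t) q).2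
    obtain ⟨z, hz1, hz2⟩ := Scheme.Pullback.exists_preimage_pullback
      (f := pullback.snd (b ≫ G₂.s) (W.ι ≫ G₂.t) ≫ W.ι) (g := a.fR) q r₁ hr₁.symm
    let P1 := pullback (pullback.snd (b ≫ G₂.s) (W.ι ≫ G₂.t) ≫ W.ι) a.fR
    let u1 : P1 ⟶ pullback (b ≫ G₂.s) (W.ι ≫ G₂.t) := pullback.fst _ _
    let u2 : P1 ⟶ G₁.R := pullback.snd _ _
    obtain ⟨w, hw1, hw2⟩ := Scheme.Pullback.exists_preimage_pullback
      (f := u1 ≫ m) (g := a.fR) z r₂ (by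
        rw [Scheme.Hom.comp_apply]
        change m (u1 z) = _
        rw [show u1 z = q from hz1, hr₂])
    let P2 := pullback (u1 ≫ m) a.fR
    let v1 : P2 ⟶ P1 := pullback.fst _ _
    let v2 : P2 ⟶ G₁.R := pullback.snd _ _
    have hv : v1 ≫ u1 ≫ m = v2 ≫ a.fR := pullback.condition
    have hu : u1 ≫ pullback.snd (b ≫ G₂.s) (W.ι ≫ G₂.t) ≫ W.ι = u2 ≫ a.fR := pullback.condition
    let α : P2 ⟶ G₂.R := (v1 ≫ u1) ≫ pullback.fst (b ≫ G₂.s) (W.ι ≫ G₂.t) ≫ b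
    have hα' : α ≫ G₂.s = ((v1 ≫ u1) ≫ pullback.snd (b ≫ G₂.s) (W.ι ≫ G₂.t) ≫ W.ι) ≫ G₂.t := by
      have := congrArg (fun f => (v1 ≫ u1) ≫ f) hQ
      simpa only [α, Category.assoc] using this
    have hsec : (v1 ≫ u1) ≫ pullback.snd (b ≫ G₂.s) (W.ι ≫ G₂.t) ≫ W.ι = (v1 ≫ u2) ≫ a.fR := by
      rw [Category.assoc, hu, Category.assoc]
    have hα : α ≫ G₂.s = ((v1 ≫ u2) ≫ a.fR) ≫ G₂.t := by rw [← hsec]; exact hα'
    obtain ⟨β, hβ⟩ := div_hom a α (v1 ≫ u2) v2 hα (by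
      rw [← hv, ← Category.assoc v1 u1 m]
      have h1 := comp_mul G₂ (v1 ≫ u1) hQ hα'
      rw [show (v1 ≫ u1) ≫ m = _ from h1]
      exact mul_congr G₂ hα hα' rfl hsec.symm)
    refine ⟨β w, ?_⟩
    rw [← Scheme.Hom.comp_apply, hβ]
    simp only [α, Scheme.Hom.comp_apply]
    exact Scheme.fromSpecResidueField_apply _ _
  · -- x is in the translate
    have he : ∀ y : G₂.U, G₂.e y ∈ Set.range a.fR := by
      intro y
      refine ⟨G₁.e (inv a.fU y), ?_⟩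
      rw [← Scheme.Hom.comp_apply, hom_e a, Scheme.Hom.comp_apply]
      congr 1
      rw [← Scheme.Hom.comp_apply, IsIso.inv_hom_id]
      rfl
    let b' : Spec (G₂.R.residueField x) ⟶ G₂.R := b ≫ G₂.s ≫ G₂.e
    have hb' : Set.range b' ⊆ Set.range W.ι := by
      rw [Scheme.Opens.range_ι]
      rintro _ ⟨y, rfl⟩
      simp only [b', Scheme.Hom.comp_apply]
      exact he _
    let bW : Spec (G₂.R.residueField x) ⟶ W := IsOpenImmersion.lift W.ι b' hb'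
    have hbW : bW ≫ W.ι = b' := IsOpenImmersion.lift_fac _ _ _
    have h0 : 𝟙 _ ≫ b ≫ G₂.s = bW ≫ W.ι ≫ G₂.t := by
      rw [← Category.assoc bW, hbW, Category.id_comp]
      simp only [b', Category.assoc, G₂.e_t, Category.comp_id]
    let l := pullback.lift (𝟙 _) bW h0
    have hl : l ≫ m = b := by
      have hs1 : (l ≫ pullback.fst (b ≫ G₂.s) (W.ι ≫ G₂.t) ≫ b) ≫ G₂.s =
          (l ≫ pullback.snd (b ≫ G₂.s) (W.ι ≫ G₂.t) ≫ W.ι) ≫ G₂.t := by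
        have := congrArg (fun f => l ≫ f) hQ
        simpa only [Category.assoc] using this
      have h1 := comp_mul G₂ l hQ hs1
      rw [show l ≫ m = _ from h1]
      have h2 : l ≫ pullback.fst (b ≫ G₂.s) (W.ι ≫ G₂.t) ≫ b = b := by
        rw [← Category.assoc, pullback.lift_fst, Category.id_comp]
      have h3 : l ≫ pullback.snd (b ≫ G₂.s) (W.ι ≫ G₂.t) ≫ W.ι = b ≫ G₂.s ≫ G₂.e := by
        rw [← Category.assoc, pullback.lift_snd, hbW]
      refine (mul_congr G₂ hs1 (by simp only [Category.assoc, G₂.e_t, Category.comp_id]) h2 h3).trans ?_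
      exact G₂.comp_e b
    let pt : Spec (G₂.R.residueField x) := IsLocalRing.closedPoint _
    refine ⟨l pt, ?_⟩
    rw [← Scheme.Hom.comp_apply, hl]
    exact Scheme.fromSpecResidueField_apply _ _

end Groth.Agent.H3Grpd
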