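import Groth.Agent.Lib.H3Grpd
import Mathlib.AlgebraicGeometry.Morphisms.Separated
import Mathlib.AlgebraicGeometry.Morphisms.QuasiSeparated

set_option autoImplicit false
universe u

namespace Groth.Agent.H3Grpd

open CategoryTheory CategoryTheory.Limits AlgebraicGeometry

variable {S : Scheme.{u}} (G : Grpd.GroupoidScheme S)

theorem j_fst : G.j ≫ pullback.fst G.pU G.pU = G.t := pullback.lift_fst _ _ _
theorem j_snd : G.j ≫ pullback.snd G.pU G.pU = G.s := pullback.lift_snd _ _ _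

/-- first projection of the stabilizer -/
noncomputable def s1 : G.stabilizer ⟶ G.R := pullback.fst G.j G.diag
/-- second projection of the stabilizer -/
noncomputable def s2 : G.stabilizer ⟶ G.U := pullback.snd G.j G.diag

theorem stab_ext {T : Scheme.{u}} {f g : T ⟶ G.stabilizer} (h1 : f ≫ s1 G = g ≫ s1 G) (h2 : f ≫ s2 G = g ≫ s2 G) :
    f = g := pullback.hom_ext h1 h2

theorem exists_diag_pullback : ∃ δ : pullback G.j G.j ⟶ G.stabilizer,
    IsPullback (pullback.diagonal G.j) G.s δ G.eStab := by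
  let p1 := pullback.fst G.j G.j
  let p2 := pullback.snd G.j G.j
  have ht : p1 ≫ G.t = p2 ≫ G.t := by
    rw [← j_fst G, ← Category.assoc, ← Category.assoc, pullback.condition]
  have hs : p1 ≫ G.s = p2 ≫ G.s := by
    rw [← j_snd G, ← Category.assoc, ← Category.assoc, pullback.condition]
  have h : (p1 ≫ G.i) ≫ G.s = p2 ≫ G.t := by rw [Category.assoc, G.i_s, ht]
  let μ : pullback G.j G.j ⟶ G.R := pullback.lift (p1 ≫ G.i) p2 h ≫ G.c
  have hμt : μ ≫ G.t = p1 ≫ G.s := by
    change (pullback.lift (p1 ≫ G.i) p2 h ≫ G.c) ≫ G.t = _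
    rw [G.comp_t, Category.assoc, G.i_t]
  have hμs : μ ≫ G.s = p1 ≫ G.s := by
    change (pullback.lift (p1 ≫ G.i) p2 h ≫ G.c) ≫ G.s = _
    rw [G.comp_s, hs]
  have hw : μ ≫ G.j = (p1 ≫ G.s) ≫ G.diag := by
    apply pullback.hom_ext
    · rw [Category.assoc, j_fst, hμt, Category.assoc, Grpd.GroupoidScheme.diag, pullback.lift_fst, Category.comp_id]
    · rw [Category.assoc, j_snd, hμs, Category.assoc, Grpd.GroupoidScheme.diag, pullback.lift_snd, Category.comp_id]
  let δ : pullback G.j G.j ⟶ G.stabilizer := pullback.lift μ (p1 ≫ G.s) hw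
  have hδ1 : δ ≫ s1 G = μ := pullback.lift_fst _ _ _
  have hδ2 : δ ≫ s2 G = p1 ≫ G.s := pullback.lift_snd _ _ _
  have he1 : G.eStab ≫ s1 G = G.e := pullback.lift_fst _ _ _
  have he2 : G.eStab ≫ s2 G = 𝟙 _ := pullback.lift_snd _ _ _
  have hd1 : pullback.diagonal G.j ≫ p1 = 𝟙 _ := pullback.diagonal_fst _
  have hd2 : pullback.diagonal G.j ≫ p2 = 𝟙 _ := pullback.diagonal_snd _
  refine ⟨δ, ⟨⟨?_⟩, ⟨PullbackCone.IsLimit.mk _ (fun w => w.fst ≫ p1) (fun w => ?_) (fun w => ?_) (fun w m hm1 hm2 => ?_)⟩⟩⟩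
  · apply stab_ext G
    · rw [Category.assoc, hδ1, Category.assoc, he1]
      have h1 : (pullback.diagonal G.j ≫ p1 ≫ G.i) ≫ G.s = (pullback.diagonal G.j ≫ p2) ≫ G.t := by
        have := congrArg (fun f => pullback.diagonal G.j ≫ f) h
        simpa only [Category.assoc] using this
      rw [show pullback.diagonal G.j ≫ μ = _ from comp_mul G (pullback.diagonal G.j) h h1]
      have h2 : pullback.diagonal G.j ≫ p1 ≫ G.i = 𝟙 _ ≫ G.i := by rw [← Category.assoc, hd1]
      have h3 : (𝟙 _ ≫ G.i) ≫ G.s = 𝟙 G.R ≫ G.t := by rw [Category.assoc, G.i_s]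
      rw [mul_congr G h1 h3 h2 hd2]
      exact (G.i_comp (𝟙 G.R)).trans (Category.id_comp _)
    · rw [Category.assoc, hδ2, Category.assoc, he2, ← Category.assoc, hd1, Category.id_comp, Category.comp_id]
  · have hc := w.condition
    have hc1 := congrArg (fun f => f ≫ s1 G) hc
    have hc2 := congrArg (fun f => f ≫ s2 G) hc
    simp only [Category.assoc, hδ1, hδ2, he1, he2, Category.comp_id] at hc1 hc2
    have heq : w.fst ≫ p2 = w.fst ≫ p1 := by
      have h1 : ((w.fst ≫ p1) ≫ G.i) ≫ G.s = (w.fst ≫ p2) ≫ G.t := by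
        have := congrArg (fun f => w.fst ≫ f) h
        simpa only [Category.assoc] using this
      have h1' : (w.fst ≫ p1 ≫ G.i) ≫ G.s = (w.fst ≫ p2) ≫ G.t := by
        simpa only [Category.assoc] using h1
      have h2 : w.fst ≫ μ = pullback.lift ((w.fst ≫ p1) ≫ G.i) (w.fst ≫ p2) h1 ≫ G.c :=
        (comp_mul G w.fst h h1').trans (mul_congr G h1' h1 (by rw [Category.assoc]) rfl)
      have h3 : (w.fst ≫ p1) ≫ G.s = (pullback.lift ((w.fst ≫ p1) ≫ G.i) (w.fst ≫ p2) h1 ≫ G.c) ≫ G.t := by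
        rw [G.comp_t, Category.assoc _ G.i G.t, G.i_t]
      have h4 := mul_inv G (w.fst ≫ p1) (w.fst ≫ p2) h1 h3
      have h5 : pullback.lift ((w.fst ≫ p1) ≫ G.i) (w.fst ≫ p2) h1 ≫ G.c = (w.fst ≫ p1) ≫ G.s ≫ G.e := by
        rw [← h2, hc1, ← hc2]; simp only [Category.assoc]
      have h6 : (w.fst ≫ p1) ≫ G.s = ((w.fst ≫ p1) ≫ G.s ≫ G.e) ≫ G.t := by
        simp only [Category.assoc, G.e_t, Category.comp_id]
      rw [mul_congr G h3 h6 rfl h5] at h4
      exact h4.symm.trans (G.comp_e _)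
    apply pullback.hom_ext
    · change ((w.fst ≫ p1) ≫ pullback.diagonal G.j) ≫ p1 = w.fst ≫ p1
      rw [Category.assoc, hd1, Category.comp_id]
    · change ((w.fst ≫ p1) ≫ pullback.diagonal G.j) ≫ p2 = w.fst ≫ p2
      rw [Category.assoc, hd2, Category.comp_id, heq]
  · have hc := w.condition
    have hc2 := congrArg (fun f => f ≫ s2 G) hc
    simp only [Category.assoc, hδ2, he2, Category.comp_id] at hc2
    rw [Category.assoc]
    exact hc2
  · change m = w.fst ≫ p1
    rw [← hm1, Category.assoc, hd1, Category.comp_id]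

theorem tfae_sep : ((IsSeparated G.j ↔ IsSeparated G.stabilizerToU) ∧ (IsSeparated G.stabilizerToU ↔ IsClosedImmersion G.eStab)) ∧ ((QuasiSeparated G.j ↔ QuasiSeparated G.stabilizerToU) ∧ (QuasiSeparated G.stabilizerToU ↔ QuasiCompact G.eStab)) := by
  obtain ⟨δ, hδ⟩ := exists_diag_pullback G
  have hid : G.eStab ≫ G.stabilizerToU = 𝟙 _ := pullback.lift_snd _ _ _
  have a1 : IsSeparated G.j → IsSeparated G.stabilizerToU := fun h =>
    MorphismProperty.pullback_snd (P := @IsSeparated) G.j G.diag h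
  have a2 : IsSeparated G.stabilizerToU → IsClosedImmersion G.eStab := fun h => by
    have : IsClosedImmersion (G.eStab ≫ G.stabilizerToU) := by rw [hid]; infer_instance
    exact IsClosedImmersion.of_comp G.eStab G.stabilizerToU
  have a3 : IsClosedImmersion G.eStab → IsSeparated G.j := fun h =>
    ⟨MorphismProperty.of_isPullback (P := @IsClosedImmersion) hδ.flip h⟩
  have b1 : QuasiSeparated G.j → QuasiSeparated G.stabilizerToU := fun h =>
    MorphismProperty.pullback_snd (P := @QuasiSeparated) G.j G.diag h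
  have b2 : QuasiSeparated G.stabilizerToU → QuasiCompact G.eStab := fun h => by
    have : QuasiCompact (G.eStab ≫ G.stabilizerToU) := by rw [hid]; infer_instance
    exact QuasiCompact.of_comp G.eStab G.stabilizerToU
  have b3 : QuasiCompact G.eStab → QuasiSeparated G.j := fun h =>
    ⟨MorphismProperty.of_isPullback (P := @QuasiCompact) hδ.flip h⟩
  exact ⟨⟨⟨a1, fun h => a3 (a2 h)⟩, ⟨a2, fun h => a1 (a3 h)⟩⟩, ⟨⟨b1, fun h => b3 (b2 h)⟩, ⟨b2, fun h => b1 (b3 h)⟩⟩⟩

end Groth.Agent.H3Grpd
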