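import Mathlib.AlgebraicGeometry.Morphisms.ClosedImmersion
import Mathlib.AlgebraicGeometry.Limits
set_option autoImplicit false
universe u
namespace Groth.Agent.H3Lift
open AlgebraicGeometry CategoryTheory Limits

def LiftProp {X Y : Scheme.{u}} (f : X ⟶ Y) : Prop :=
  ∀ (A B : Type u) [CommRing A] [CommRing B] (φ : A →+* B), Function.Injective φ →
      ∀ (a : Spec (CommRingCat.of B) ⟶ X) (b : Spec (CommRingCat.of A) ⟶ Y), Spec.map (CommRingCat.ofHom φ) ≫ b = a ≫ f →
        ∃ l : Spec (CommRingCat.of A) ⟶ X, Spec.map (CommRingCat.ofHom φ) ≫ l = a ∧ l ≫ f = b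

theorem liftProp_of_isClosedImmersion {X Y : Scheme.{u}} (f : X ⟶ Y) [IsClosedImmersion f] : LiftProp f := by
  intro A B _ _ φ hφ a b hab
  let q : Spec (CommRingCat.of B) ⟶ pullback f b := pullback.lift a (Spec.map (CommRingCat.ofHom φ)) hab.symm
  have hq : q ≫ pullback.snd f b = Spec.map (CommRingCat.ofHom φ) := pullback.lift_snd _ _ _
  have hq' : q ≫ pullback.fst f b = a := pullback.lift_fst _ _ _
  have hiso : IsIso (pullback.snd f b) := by
    have hinj : Function.Injective (pullback.snd f b).appTop := by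
      have h1 : (pullback.snd f b).appTop ≫ q.appTop = (Spec.map (CommRingCat.ofHom φ)).appTop := by
        rw [← Scheme.Hom.comp_appTop, hq]
      have h2 : Function.Injective (Spec.map (CommRingCat.ofHom φ)).appTop := by
        have h3 := Scheme.ΓSpecIso_naturality (CommRingCat.ofHom φ)
        have h4 : (Spec.map (CommRingCat.ofHom φ)).appTop = (Scheme.ΓSpecIso _).hom ≫ CommRingCat.ofHom φ ≫ (Scheme.ΓSpecIso _).inv := by
          rw [← Category.assoc, ← h3, Category.assoc, Iso.hom_inv_id, Category.comp_id]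
        rw [h4]
        intro x y hxy
        simp only [CommRingCat.hom_comp, RingHom.comp_apply] at hxy
        have h5 := (ConcreteCategory.bijective_of_isIso (Scheme.ΓSpecIso (CommRingCat.of B)).inv).1 hxy
        exact (ConcreteCategory.bijective_of_isIso (Scheme.ΓSpecIso (CommRingCat.of A)).hom).1 (hφ h5)
      intro x y hxy
      apply h2
      rw [← h1]
      simp only [CommRingCat.hom_comp, RingHom.comp_apply]
      exact congrArg q.appTop.hom hxy
    exact IsClosedImmersion.isIso_of_injective_of_isAffine hinj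
  refine ⟨inv (pullback.snd f b) ≫ pullback.fst f b, ?_, ?_⟩
  · rw [← hq, Category.assoc, IsIso.hom_inv_id_assoc, hq']
  · rw [Category.assoc, pullback.condition, IsIso.inv_hom_id_assoc]

theorem liftProp_baseChange {X Y Y' : Scheme.{u}} (f : X ⟶ Y) (g : Y' ⟶ Y) (h : LiftProp f) :
    LiftProp (pullback.snd f g) := by
  intro A B _ _ φ hφ a b hab
  obtain ⟨l, hl1, hl2⟩ := h A B φ hφ (a ≫ pullback.fst f g) (b ≫ g) (by
    rw [← Category.assoc, hab, Category.assoc, Category.assoc, pullback.condition])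
  refine ⟨pullback.lift l b hl2, ?_, pullback.lift_snd _ _ _⟩
  apply pullback.hom_ext
  · rw [Category.assoc, pullback.lift_fst, hl1]
  · rw [Category.assoc, pullback.lift_snd, hab]

theorem eq_of_liftProp {X Y : Scheme.{u}} (f : X ⟶ Y) (h : LiftProp f) (C : Type u) [CommRing C]
    (c₁ c₂ : Spec (CommRingCat.of C) ⟶ X) (hc : c₁ ≫ f = c₂ ≫ f) : c₁ = c₂ := by
  let φ : C →+* (C × C) := RingHom.prod (RingHom.id _) (RingHom.id _)
  have hφ : Function.Injective φ := fun x y hxy => congrArg Prod.fst hxy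
  have e1 : Spec.map (CommRingCat.ofHom (RingHom.fst C C)) ≫ Spec.map (CommRingCat.ofHom φ) = 𝟙 _ := by
    rw [← Spec.map_comp, ← CommRingCat.ofHom_comp]
    exact Spec.map_id _
  have e2 : Spec.map (CommRingCat.ofHom (RingHom.snd C C)) ≫ Spec.map (CommRingCat.ofHom φ) = 𝟙 _ := by
    rw [← Spec.map_comp, ← CommRingCat.ofHom_comp]
    exact Spec.map_id _
  let a : Spec (CommRingCat.of (C × C)) ⟶ X := inv (coprodSpec C C) ≫ coprod.desc c₁ c₂
  have ha1 : Spec.map (CommRingCat.ofHom (RingHom.fst C C)) ≫ a = c₁ := by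
    rw [← coprodSpec_inl, Category.assoc, IsIso.hom_inv_id_assoc, coprod.inl_desc]
  have ha2 : Spec.map (CommRingCat.ofHom (RingHom.snd C C)) ≫ a = c₂ := by
    rw [← coprodSpec_inr, Category.assoc, IsIso.hom_inv_id_assoc, coprod.inr_desc]
  obtain ⟨l, hl1, hl2⟩ := h C (C × C) φ hφ a (c₁ ≫ f) (by
    rw [← cancel_epi (coprodSpec C C)]
    apply coprod.hom_ext
    · rw [coprodSpec_inl_assoc, coprodSpec_inl_assoc, ← Category.assoc, e1, Category.id_comp, ← Category.assoc, ha1]
    · rw [coprodSpec_inr_assoc, coprodSpec_inr_assoc, ← Category.assoc, e2, Category.id_comp, ← Category.assoc, ha2, hc])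
  rw [← ha1, ← ha2, ← hl1, ← Category.assoc, ← Category.assoc, e1, e2]

theorem mono_of_liftProp {X Y : Scheme.{u}} (f : X ⟶ Y) (h : LiftProp f) : Mono f := by
  constructor
  intro T a₁ a₂ ha
  apply T.affineCover.hom_ext
  intro i
  exact eq_of_liftProp f h (T.affineOpenCover.X i) (T.affineOpenCover.f i ≫ a₁) (T.affineOpenCover.f i ≫ a₂)
    (by rw [Category.assoc, Category.assoc, ha])

theorem isClosedImmersion_of_liftProp_of_isAffine {X Y : Scheme.{u}} (f : X ⟶ Y) [IsAffine Y] [QuasiCompact f] (h : LiftProp f) :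
    IsClosedImmersion f := by
  have hm := mono_of_liftProp f h
  have : CompactSpace X := QuasiCompact.compactSpace_of_compactSpace f
  let 𝒰 : X.OpenCover := X.affineCover.finiteSubcover
  let C : Scheme.{u} := ∐ 𝒰.X
  let π : C ⟶ X := Sigma.desc 𝒰.f
  have hC : IsAffine C := inferInstance
  have hπ : Function.Injective π.appTop := by
    intro x y hxy
    apply 𝒰.ext_elem x y
    intro i
    have h1 : 𝒰.f i = Sigma.ι 𝒰.X i ≫ π := by simp [π]
    have h2 : (𝒰.f i).appTop = π.appTop ≫ (Sigma.ι 𝒰.X i).appTop := by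
      rw [h1, Scheme.Hom.comp_appTop]
    change (𝒰.f i).appTop x = (𝒰.f i).appTop y
    rw [h2]
    simp only [CommRingCat.hom_comp, RingHom.comp_apply]
    exact congrArg (Sigma.ι 𝒰.X i).appTop.hom hxy
  let ρ : Γ(Y, ⊤) →+* Γ(X, ⊤) := f.appTop.hom
  let A := ρ.range
  let φ : A →+* Γ(C, ⊤) := π.appTop.hom.comp A.subtype
  have hφ : Function.Injective φ := fun x y hxy => Subtype.ext (hπ hxy)
  let b : Spec (CommRingCat.of A) ⟶ Y := Spec.map (CommRingCat.ofHom ρ.rangeRestrict) ≫ Y.isoSpec.inv
  have hb : IsClosedImmersion b := by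
    have : IsClosedImmersion (Spec.map (CommRingCat.ofHom ρ.rangeRestrict)) :=
      IsClosedImmersion.spec_of_surjective _ ρ.rangeRestrict_surjective
    infer_instance
  let a : Spec Γ(C, ⊤) ⟶ X := C.isoSpec.inv ≫ π
  have hab : Spec.map (CommRingCat.ofHom φ) ≫ b = a ≫ f := by
    have h1 : CommRingCat.ofHom ρ.rangeRestrict ≫ CommRingCat.ofHom φ = (π ≫ f).appTop := by
      ext x; rfl
    simp only [b, a, Category.assoc]
    rw [← Category.assoc, ← Spec.map_comp, h1, Scheme.isoSpec_inv_naturality]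
  obtain ⟨l, hl1, hl2⟩ := h A Γ(C, ⊤) φ hφ a b hab
  let p : X ⟶ Spec (CommRingCat.of A) := X.toSpecΓ ≫ Spec.map (CommRingCat.ofHom A.subtype)
  have hp : p ≫ b = f := by
    have h1 : CommRingCat.ofHom ρ.rangeRestrict ≫ CommRingCat.ofHom A.subtype = f.appTop := by
      ext x; rfl
    simp only [b, p, Category.assoc]
    rw [← Category.assoc (Spec.map _), ← Spec.map_comp, h1, ← Category.assoc, ← Scheme.toSpecΓ_naturality,
      Category.assoc]
    simp [Scheme.isoSpec]
  have h3 : p ≫ l = 𝟙 X := by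
    rw [← cancel_mono f, Category.assoc, hl2, hp, Category.id_comp]
  have h4 : l ≫ p = 𝟙 _ := by
    rw [← cancel_mono b, Category.assoc, hp, hl2, Category.id_comp]
  have : IsIso p := ⟨l, h3, h4⟩
  rw [← hp]; infer_instance

theorem t1432 {X Y : Scheme.{u}} (f : X ⟶ Y) [QuasiCompact f] : IsClosedImmersion f ↔ LiftProp f := by
  constructor
  · intro h; exact liftProp_of_isClosedImmersion f
  · intro h
    apply IsZariskiLocalAtTarget.of_openCover (P := @IsClosedImmersion) Y.affineCover
    intro i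
    have hq : QuasiCompact (Scheme.Cover.pullbackHom Y.affineCover f i) := MorphismProperty.pullback_snd _ _ ‹_›
    exact isClosedImmersion_of_liftProp_of_isAffine _ (liftProp_baseChange f _ h)

end Groth.Agent.H3Lift
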