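import Mathlib.RingTheory.IntegralClosure.IsIntegral.Basic
import Mathlib.RingTheory.Flat.EquationalCriterion
import Mathlib.RingTheory.FinitePresentation
import Mathlib.RingTheory.Nakayama
import Mathlib.RingTheory.IntegralClosure.IsIntegralClosure.Basic
import Mathlib.RingTheory.Polynomial.Nilpotent
import Mathlib.Algebra.Polynomial.Lifts
import Mathlib.RingTheory.Ideal.Quotient.Operations
import Mathlib.RingTheory.Jacobson.Ideal
import Mathlib.RingTheory.Finiteness.Basic
import Mathlib.RingTheory.IntegralClosure.Algebra.Basic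
set_option autoImplicit false
universe u
open Polynomial
namespace Groth.Agent.H3Low
theorem t2018 (A A' B : Type u) [CommRing A] [CommRing A'] [CommRing B] (g : A' →+* A)
    (hg : Function.Surjective g) (f : B →+* A) (hf : f.IsIntegral) :
    ((RingHom.snd B A').comp ((f.comp (RingHom.fst B A')).eqLocus (g.comp (RingHom.snd B A'))).subtype).IsIntegral := by
  intro a'
  set E := (f.comp (RingHom.fst B A')).eqLocus (g.comp (RingHom.snd B A')) with hE
  let π₁ : E →+* B := (RingHom.fst B A').comp E.subtype
  let π₂ : E →+* A' := (RingHom.snd B A').comp E.subtype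
  have hcomp : f.comp π₁ = g.comp π₂ := RingHom.ext fun x => x.2
  have hs : Function.Surjective π₁ := by
    intro b
    obtain ⟨a, ha⟩ := hg (f b)
    exact ⟨⟨(b, a), ha.symm⟩, rfl⟩
  change π₂.IsIntegralElem a'
  obtain ⟨p, hp, hp0⟩ := hf (g a')
  have hpl : p ∈ lifts π₁ := by rw [lifts_iff_coeff_lifts]; intro n; exact hs _
  obtain ⟨q, hq, -, hqm⟩ := lifts_and_natDegree_eq_and_monic hpl hp
  set c := eval₂ π₂ a' q with hc
  have hgc : g c = 0 := by
    rw [hc, hom_eval₂, ← hcomp, ← eval₂_map, hq, hp0]
  let z : E := ⟨(0, c * a'), by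
    change f 0 = g (c * a')
    rw [map_zero, map_mul, hgc, zero_mul]⟩
  rcases subsingleton_or_nontrivial A' with hsub | hnt
  · exact ⟨1, monic_one, Subsingleton.elim _ _⟩
  have hne : Nontrivial E := π₂.domain_nontrivial
  refine ⟨q * X - C z, ?_, ?_⟩
  · apply (hqm.mul monic_X).sub_of_left
    refine degree_C_le.trans_lt ?_
    rw [degree_mul_X]
    rw [degree_eq_natDegree hqm.ne_zero]
    exact_mod_cast Nat.succ_pos _
  · rw [eval₂_sub, eval₂_mul, eval₂_X, eval₂_C]
    change c * a' - c * a' = 0
    ring

theorem t2012 (A B : Type u) [CommRing A] [CommRing B] [Algebra A B]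
    (I : Ideal A) (hI : I ≤ (⊥ : Ideal A).jacobson) [Module.Flat A B] [Algebra.IsIntegral A B] [Algebra.FinitePresentation A B]
    (hq : Function.Bijective (Ideal.quotientMap (I.map (algebraMap A B)) (algebraMap A B) Ideal.le_comap_map)) :
    Function.Bijective (algebraMap A B) := by
  have hfin : Module.Finite A B := Algebra.IsIntegral.finite
  have hsurj : Function.Surjective (algebraMap A B) := by
    have h1 : (⊤ : Submodule A B) ≤ LinearMap.range (Algebra.linearMap A B) := by
      apply Submodule.le_of_le_smul_of_le_jacobson_bot hfin.fg_top hI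
      intro b _
      obtain ⟨a, ha⟩ := hq.2 (Ideal.Quotient.mk _ b)
      obtain ⟨a, rfl⟩ := Ideal.Quotient.mk_surjective a
      rw [Ideal.quotientMap_mk, Ideal.Quotient.eq] at ha
      have h2 : b = algebraMap A B a + -(algebraMap A B a - b) := by ring
      rw [h2]
      refine Submodule.add_mem_sup ⟨a, rfl⟩ (neg_mem ?_)
      rw [Ideal.smul_top_eq_map]
      exact ha
    intro b
    exact h1 (Submodule.mem_top (x := b))
  refine ⟨?_, hsurj⟩
  rw [injective_iff_map_eq_zero]
  set K := RingHom.ker (algebraMap A B) with hK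
  have hKfg : K.FG := Algebra.FinitePresentation.ker_fG_of_surjective (Algebra.ofId A B) hsurj
  have hKI : K ≤ I := by
    intro x hx
    have h3 : Ideal.quotientMap (I.map (algebraMap A B)) (algebraMap A B) Ideal.le_comap_map (Ideal.Quotient.mk I x) = 0 := by
      rw [Ideal.quotientMap_mk, (RingHom.mem_ker.mp hx), map_zero]
    rw [← map_zero (Ideal.quotientMap (I.map (algebraMap A B)) (algebraMap A B) Ideal.le_comap_map)] at h3
    exact Ideal.Quotient.eq_zero_iff_mem.mp (hq.1 h3)
  have hKK : K ≤ K • K := by
    intro x hx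
    obtain ⟨κ, a, y, h4, h5⟩ := Module.Flat.isTrivialRelation_of_sum_smul_eq_zero (R := A) (M := B)
      (ι := Unit) (f := fun _ => x) (x := fun _ => (1 : B)) (by
        simp only [Finset.univ_unique, Finset.sum_singleton]
        rw [Algebra.smul_def, mul_one]; exact hx)
    choose c hc using fun j => hsurj (y j)
    have h6 : 1 - ∑ j, a () j * c j ∈ K := by
      rw [hK, RingHom.mem_ker, map_sub, map_one, map_sum]
      have h9 : (1 : B) = ∑ j, a () j • y j := h4 ()
      rw [sub_eq_zero]
      refine h9.trans ?_
      apply Finset.sum_congr rfl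
      intro j _
      rw [map_mul, hc, Algebra.smul_def]
    have h7 : x = x * (1 - ∑ j, a () j * c j) := by
      rw [mul_sub, mul_one, Finset.mul_sum]
      have : ∑ j, x * (a () j * c j) = 0 := by
        apply Finset.sum_eq_zero
        intro j _
        have := h5 j
        simp only [Finset.univ_unique, Finset.sum_singleton] at this
        rw [← mul_assoc]
        have h8 : x * a () j = 0 := by
          first | exact this | (rw [mul_comm]; exact this)
        rw [h8, zero_mul]
      rw [this, sub_zero]
    rw [h7]
    exact Submodule.smul_mem_smul hx h6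
  have hK0 : K = ⊥ := by
    apply Submodule.eq_bot_of_le_smul_of_le_jacobson_bot K K hKfg hKK (hKI.trans hI)
  intro x hx
  have : x ∈ K := hx
  rw [hK0] at this
  exact this

end Groth.Agent.H3Low
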