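import Mathlib.RingTheory.Etale.Weakly
import Mathlib.RingTheory.Etale.Field
import Mathlib.RingTheory.Flat.FaithfullyFlat.Algebra
import Mathlib.RingTheory.Flat.EquationalCriterion
import Mathlib.RingTheory.Unramified.Finite
import Mathlib.LinearAlgebra.TensorProduct.Basis
import Mathlib.RingTheory.SimpleModule.Basic
import Mathlib.RingTheory.Artinian.Ring
import Mathlib.RingTheory.HopkinsLevitzki
import Mathlib.RingTheory.SimpleModule.InjectiveProjective
import Mathlib.RingTheory.Spectrum.Prime.Topology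

set_option autoImplicit false
universe u

namespace Groth.Agent.H3WE

open TensorProduct

theorem flat_of_flat_of_faithfullyFlat (A B C : Type u) [CommRing A] [CommRing B] [CommRing C]
    [Algebra A B] [Algebra B C] [Algebra A C] [IsScalarTower A B C] [Module.FaithfullyFlat B C]
    [Module.Flat A C] : Module.Flat A B := by
  rw [Module.Flat.iff_lTensor_preserves_injective_linearMap]
  intro N N' _ _ _ _ f hf
  rw [injective_iff_map_eq_zero]
  intro x hx
  have h1 : (1 : C) ⊗ₜ[B] x = 0 := by
    apply (AlgebraTensorModule.cancelBaseChange A B B C N).injective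
    rw [map_zero]
    apply Module.Flat.lTensor_preserves_injective_linearMap (M := C) f hf
    rw [map_zero]
    have h2 : ∀ y : B ⊗[A] N, (LinearMap.lTensor C f) (AlgebraTensorModule.cancelBaseChange A B B C N ((1 : C) ⊗ₜ[B] y))
        = AlgebraTensorModule.cancelBaseChange A B B C N' ((1 : C) ⊗ₜ[B] (LinearMap.lTensor B f y)) := by
      intro y
      induction y using TensorProduct.induction_on with
      | zero => simp
      | tmul u v => simp
      | add u v hu hv => simp only [TensorProduct.tmul_add, map_add, hu, hv]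
    rw [h2, hx, TensorProduct.tmul_zero, map_zero]
  exact Module.FaithfullyFlat.tensorProduct_mk_injective (A := B) (B := C) (B ⊗[A] N) (by
    rw [TensorProduct.mk_apply, h1, map_zero])

theorem weaklyEtale_descends (A B C : Type u) [CommRing A] [CommRing B] [CommRing C] [Algebra A B]
    [Algebra B C] [Algebra A C] [IsScalarTower A B C] [Module.FaithfullyFlat B C] [Algebra.WeaklyEtale A C] :
    Algebra.WeaklyEtale A B := by
  have h0 : Module.Flat A B := flat_of_flat_of_faithfullyFlat A B C
  refine ⟨h0, ?_⟩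
  let g : B →ₐ[A] C := IsScalarTower.toAlgHom A B C
  have hg : g.Flat := by
    change (algebraMap B C).Flat
    rw [RingHom.flat_algebraMap_iff]
    infer_instance
  let φ : B ⊗[A] B →ₐ[A] C := (Algebra.TensorProduct.lmul' A (S := C)).comp (Algebra.TensorProduct.map g g)
  have hφ : φ.toRingHom.Flat := by
    have h1 : (Algebra.TensorProduct.map g g).toRingHom.Flat := RingHom.Flat.tensorProductMap hg hg
    have h2 : (Algebra.TensorProduct.lmul' A (S := C)).toRingHom.Flat := Algebra.WeaklyEtale.flat_lmul' A C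
    exact RingHom.Flat.comp h1 h2
  let _ : Algebra (B ⊗[A] B) B := (Algebra.TensorProduct.lmul' A (S := B)).toRingHom.toAlgebra
  let _ : Algebra (B ⊗[A] B) C := φ.toRingHom.toAlgebra
  have _ : IsScalarTower (B ⊗[A] B) B C := by
    refine .of_algebraMap_eq fun x => ?_
    change φ x = algebraMap B C (Algebra.TensorProduct.lmul' A (S := B) x)
    induction x using TensorProduct.induction_on with
    | zero => simp
    | tmul u v => simp [φ, g]
    | add u v hu hv => simp only [map_add, hu, hv]
  have _ : Module.Flat (B ⊗[A] B) C := hφ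
  exact flat_of_flat_of_faithfullyFlat (B ⊗[A] B) B C

/-- The pointwise separability condition. -/
def Z (R B : Type u) [CommRing R] [CommRing B] [Algebra R B] (b : B) : Prop :=
  ∃ z : B ⊗[R] B, Algebra.TensorProduct.lmul' R z = 1 ∧ ((1 : B) ⊗ₜ[R] b - b ⊗ₜ[R] (1 : B)) * z = 0

section
variable {R B : Type u} [CommRing R] [CommRing B] [Algebra R B]

theorem Z_of_flat (h : (Algebra.TensorProduct.lmul' R (S := B)).toRingHom.Flat) (b : B) : Z R B b := by
  let E := B ⊗[R] B
  let _ : Algebra E B := (Algebra.TensorProduct.lmul' R (S := B)).toRingHom.toAlgebra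
  have _ : Module.Flat E B := h
  let x : E := (1 : B) ⊗ₜ[R] b - b ⊗ₜ[R] (1 : B)
  have hx : Algebra.TensorProduct.lmul' R x = 0 := by simp [x]
  have hsm : ∀ (e : E) (b : B), e • b = Algebra.TensorProduct.lmul' R e * b := fun e b => rfl
  obtain ⟨k, a, y, h1, h2⟩ := Module.Flat.isTrivialRelation_of_sum_smul_eq_zero (R := E) (M := B) (ι := Unit)
    (f := fun _ => x) (x := fun _ => (1 : B)) (by simp [hsm, hx])
  have h1' : (1 : B) = ∑ j, a () j • y j := h1 ()
  refine ⟨∑ j, a () j * (y j ⊗ₜ 1), ?_, ?_⟩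
  · rw [map_sum]
    refine Eq.trans (Finset.sum_congr rfl fun j _ => ?_) h1'.symm
    rw [map_mul, hsm, Algebra.TensorProduct.lmul'_apply_tmul, mul_one]
  · rw [Finset.mul_sum]
    refine Finset.sum_eq_zero fun j _ => ?_
    rw [← mul_assoc]
    have h4 : x * a () j = 0 := by
      have h3 := h2 j
      rw [Fintype.sum_unique] at h3
      exact h3
    change x * a () j * _ = 0
    rw [h4, zero_mul]

/-- annihilated by an element of augmentation one -/
def KZ (w : B ⊗[R] B) : Prop := ∃ z : B ⊗[R] B, Algebra.TensorProduct.lmul' R z = 1 ∧ w * z = 0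

theorem KZ_add {w w' : B ⊗[R] B} (h : KZ w) (h' : KZ w') : KZ (w + w') := by
  obtain ⟨z, hz, hz'⟩ := h
  obtain ⟨y, hy, hy'⟩ := h'
  refine ⟨z * y, by rw [map_mul, hz, hy, one_mul], ?_⟩
  linear_combination y * hz' + z * hy'

theorem KZ_mul {w : B ⊗[R] B} (v : B ⊗[R] B) (h : KZ w) : KZ (v * w) := by
  obtain ⟨z, hz, hz'⟩ := h
  exact ⟨z, hz, by rw [mul_assoc, hz', mul_zero]⟩

theorem KZ_of_mem_ideal (h : ∀ b : B, Z R B b) (w : B ⊗[R] B) (hw : Algebra.TensorProduct.lmul' R w = 0) :
    KZ w := by
  have h1 : w ∈ KaehlerDifferential.ideal R B := hw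
  rw [← KaehlerDifferential.span_range_eq_ideal] at h1
  induction h1 using Submodule.span_induction with
  | mem x hx =>
    obtain ⟨b, rfl⟩ := hx
    exact h b
  | zero => exact ⟨1, map_one _, zero_mul _⟩
  | add x y hx hy h1 h2 =>
    have hx' : Algebra.TensorProduct.lmul' R x = 0 := by
      have : x ∈ KaehlerDifferential.ideal R B := by rw [← KaehlerDifferential.span_range_eq_ideal]; exact hx
      exact this
    have hy' : Algebra.TensorProduct.lmul' R y = 0 := by
      have : y ∈ KaehlerDifferential.ideal R B := by rw [← KaehlerDifferential.span_range_eq_ideal]; exact hy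
      exact this
    exact KZ_add (h1 hx') (h2 hy')
  | smul a x hx h1 =>
    have hx' : Algebra.TensorProduct.lmul' R x = 0 := by
      have : x ∈ KaehlerDifferential.ideal R B := by rw [← KaehlerDifferential.span_range_eq_ideal]; exact hx
      exact this
    exact KZ_mul a (h1 hx')

theorem flat_of_Z (h : ∀ b : B, Z R B b) : (Algebra.TensorProduct.lmul' R (S := B)).toRingHom.Flat := by
  let E := B ⊗[R] B
  let _ : Algebra E B := (Algebra.TensorProduct.lmul' R (S := B)).toRingHom.toAlgebra
  have hsm : ∀ (e : E) (b : B), e • b = Algebra.TensorProduct.lmul' R e * b := fun e b => rfl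
  change Module.Flat E B
  refine Module.Flat.of_forall_isTrivialRelation ?_
  intro l f x hfx
  let w : E := ∑ i, f i * (x i ⊗ₜ 1)
  have hw : Algebra.TensorProduct.lmul' R w = 0 := by
    rw [← hfx, map_sum]
    refine Finset.sum_congr rfl fun i _ => ?_
    rw [map_mul, hsm]; simp
  obtain ⟨z, hz, hz'⟩ := KZ_of_mem_ideal h w hw
  refine ⟨1, fun i _ => (x i ⊗ₜ 1) * z, fun _ => 1, ?_, ?_⟩
  · intro i
    simp only [Finset.univ_unique, Finset.sum_const, Finset.card_singleton, one_smul]
    rw [hsm, map_mul, hz]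
    simp
  · intro j
    have : ∑ i, f i * ((x i ⊗ₜ 1) * z) = w * z := by
      rw [Finset.sum_mul]
      exact Finset.sum_congr rfl fun i _ => (mul_assoc _ _ _).symm
    rw [this, hz']

theorem weaklyEtale_iff_Z [Module.Flat R B] : Algebra.WeaklyEtale R B ↔ ∀ b : B, Z R B b :=
  ⟨fun h => Z_of_flat h.flat_lmul', fun h => ⟨inferInstance, flat_of_Z h⟩⟩

theorem Z_map {C : Type u} [CommRing C] [Algebra R C] (f : B →ₐ[R] C) (b : B) (h : Z R B b) : Z R C (f b) := by
  obtain ⟨z, hz, hz'⟩ := h
  refine ⟨Algebra.TensorProduct.map f f z, ?_, ?_⟩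
  · have : ∀ z, Algebra.TensorProduct.lmul' R (Algebra.TensorProduct.map f f z) = f (Algebra.TensorProduct.lmul' R z) := by
      intro z
      induction z using TensorProduct.induction_on with
      | zero => simp
      | tmul u v => simp
      | add u v hu hv => simp only [map_add, hu, hv]
    rw [this, hz, map_one]
  · have := congrArg (Algebra.TensorProduct.map f f) hz'
    rw [map_mul, map_zero, map_sub] at this
    simpa using this

/-- The set of elements satisfying `Z` is a subalgebra. -/
def Zalg (R B : Type u) [CommRing R] [CommRing B] [Algebra R B] : Subalgebra R B where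
  carrier := {b | Z R B b}
  mul_mem' {a b} ha hb := by
    obtain ⟨z, hz, hz'⟩ := ha
    obtain ⟨y, hy, hy'⟩ := hb
    refine ⟨z * y, by rw [map_mul, hz, hy, one_mul], ?_⟩
    have h1 : (1 : B) ⊗ₜ[R] (a * b) - (a * b) ⊗ₜ[R] (1 : B) =
      ((1 : B) ⊗ₜ[R] a - a ⊗ₜ[R] 1) * ((1 : B) ⊗ₜ[R] b) + (a ⊗ₜ[R] 1) * ((1 : B) ⊗ₜ[R] b - b ⊗ₜ[R] 1) := by
      simp only [sub_mul, mul_sub, Algebra.TensorProduct.tmul_mul_tmul, one_mul, mul_one]
      abel
    rw [h1]
    linear_combination ((1 : B) ⊗ₜ[R] b) * y * hz' + (a ⊗ₜ[R] 1) * z * hy'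
  add_mem' {a b} ha hb := by
    obtain ⟨z, hz, hz'⟩ := ha
    obtain ⟨y, hy, hy'⟩ := hb
    refine ⟨z * y, by rw [map_mul, hz, hy, one_mul], ?_⟩
    rw [TensorProduct.tmul_add, TensorProduct.add_tmul]
    linear_combination y * hz' + z * hy'
  algebraMap_mem' r := by
    refine ⟨1, map_one _, ?_⟩
    rw [Algebra.algebraMap_eq_smul_one, TensorProduct.tmul_smul, ← TensorProduct.smul_tmul', sub_self, zero_mul]

theorem mem_Zalg {b : B} : b ∈ Zalg R B ↔ Z R B b := Iff.rfl

/-- uniform `z` on finitely generated subalgebras -/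
theorem exists_uniform_z (S : Subalgebra R B) (hS : S.FG) (h : ∀ b ∈ S, Z R B b) :
    ∃ z : B ⊗[R] B, Algebra.TensorProduct.lmul' R z = 1 ∧
      ∀ b ∈ S, ((1 : B) ⊗ₜ[R] b - b ⊗ₜ[R] (1 : B)) * z = 0 := by
  classical
  obtain ⟨s, rfl⟩ := hS
  have h1 : ∀ t : Finset B, (∀ b ∈ t, Z R B b) → ∃ z : B ⊗[R] B, Algebra.TensorProduct.lmul' R z = 1 ∧
      ∀ b ∈ t, ((1 : B) ⊗ₜ[R] b - b ⊗ₜ[R] (1 : B)) * z = 0 := by
    intro t
    induction t using Finset.induction_on with
    | empty => intro _; exact ⟨1, map_one _, by simp⟩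
    | insert a t ha ih =>
      intro ht
      obtain ⟨z, hz, hz'⟩ := ih (fun b hb => ht b (Finset.mem_insert_of_mem hb))
      obtain ⟨y, hy, hy'⟩ := ht a (Finset.mem_insert_self _ _)
      refine ⟨z * y, by rw [map_mul, hz, hy, one_mul], ?_⟩
      intro b hb
      rcases Finset.mem_insert.mp hb with rfl | hb
      · linear_combination z * hy'
      · linear_combination y * hz' b hb
  obtain ⟨z, hz, hz'⟩ := h1 s (fun b hb => h b (Algebra.subset_adjoin hb))
  refine ⟨z, hz, fun b hb => ?_⟩
  induction hb using Algebra.adjoin_induction with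
  | mem x hx => exact hz' x hx
  | algebraMap r =>
    rw [Algebra.algebraMap_eq_smul_one, TensorProduct.tmul_smul, ← TensorProduct.smul_tmul', sub_self, zero_mul]
  | add x y _ _ hx hy =>
    rw [TensorProduct.tmul_add, TensorProduct.add_tmul]
    linear_combination hx + hy
  | mul x y _ _ hx hy =>
    have h1 : (1 : B) ⊗ₜ[R] (x * y) - (x * y) ⊗ₜ[R] (1 : B) =
      ((1 : B) ⊗ₜ[R] x - x ⊗ₜ[R] 1) * ((1 : B) ⊗ₜ[R] y) + (x ⊗ₜ[R] 1) * ((1 : B) ⊗ₜ[R] y - y ⊗ₜ[R] 1) := by
      simp only [sub_mul, mul_sub, Algebra.TensorProduct.tmul_mul_tmul, one_mul, mul_one]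
      abel
    rw [h1]
    linear_combination ((1 : B) ⊗ₜ[R] y) * hx + (x ⊗ₜ[R] 1) * hy

end

section field
variable {K B : Type u} [Field K] [CommRing B] [Algebra K B]

/-- contraction with a functional -/
noncomputable def Psi (f : B →ₗ[K] K) : B ⊗[K] B →ₗ[K] B :=
  (TensorProduct.rid K B).toLinearMap ∘ₗ LinearMap.lTensor B f

theorem Psi_tmul (f : B →ₗ[K] K) (u v : B) : Psi f (u ⊗ₜ v) = f v • u := by
  simp [Psi]

theorem Psi_left (f : B →ₗ[K] K) (b : B) (y : B ⊗[K] B) : Psi f ((b ⊗ₜ 1) * y) = b * Psi f y := by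
  induction y using TensorProduct.induction_on with
  | zero => simp
  | tmul u v => rw [Algebra.TensorProduct.tmul_mul_tmul, one_mul, Psi_tmul, Psi_tmul, mul_smul_comm]
  | add u v hu hv => rw [mul_add, map_add, hu, hv, map_add, mul_add]

theorem Psi_right (f : B →ₗ[K] K) (b : B) (y : B ⊗[K] B) :
    Psi f (((1 : B) ⊗ₜ b) * y) = Psi (f ∘ₗ LinearMap.mulLeft K b) y := by
  induction y using TensorProduct.induction_on with
  | zero => simp
  | tmul u v => rw [Algebra.TensorProduct.tmul_mul_tmul, one_mul, Psi_tmul, Psi_tmul]; rfl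
  | add u v hu hv => rw [mul_add, map_add, hu, hv, map_add]

theorem Psi_sep (y : B ⊗[K] B) (h : ∀ f : B →ₗ[K] K, Psi f y = 0) : y = 0 := by
  classical
  let bs := Module.Basis.ofVectorSpace K B
  apply (TensorProduct.equivFinsuppOfBasisRight (M := B) bs).injective
  rw [map_zero]
  ext i
  have : ∀ y : B ⊗[K] B, (TensorProduct.equivFinsuppOfBasisRight (M := B) bs y) i = Psi (bs.coord i) y := by
    intro y
    induction y using TensorProduct.induction_on with
    | zero => simp
    | tmul u v =>
      rw [TensorProduct.equivFinsuppOfBasisRight_apply_tmul_apply, Psi_tmul]; rfl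
    | add u v hu hv => rw [map_add, Finsupp.add_apply, hu, hv, map_add]
  rw [this, h]
  rfl

theorem exists_span_Psi (z : B ⊗[K] B) : ∃ U : Submodule K B, U.FG ∧ ∀ f : B →ₗ[K] K, Psi f z ∈ U := by
  induction z using TensorProduct.induction_on with
  | zero => exact ⟨⊥, Submodule.fg_bot, fun f => by simp⟩
  | tmul u v =>
    refine ⟨Submodule.span K {u}, Submodule.fg_span_singleton u, fun f => ?_⟩
    rw [Psi_tmul]
    exact Submodule.smul_mem _ _ (Submodule.mem_span_singleton_self u)
  | add u v hu hv =>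
    obtain ⟨U, hU, hU'⟩ := hu
    obtain ⟨V, hV, hV'⟩ := hv
    refine ⟨U ⊔ V, hU.sup hV, fun f => ?_⟩
    rw [map_add]
    exact Submodule.add_mem_sup (hU' f) (hV' f)

theorem finite_of_uniform (S : Subalgebra K B) (z : B ⊗[K] B) (hz : Algebra.TensorProduct.lmul' K z = 1)
    (h : ∀ b ∈ S, ((1 : B) ⊗ₜ[K] b - b ⊗ₜ[K] (1 : B)) * z = 0) : Module.Finite K S := by
  obtain ⟨U0, hU0, hU0'⟩ := exists_span_Psi z
  let ρ : (B →ₗ[K] K) →ₗ[K] B :=
    { toFun := fun f => Psi f z
      map_add' := fun f g => by
        change Psi (f + g) z = _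
        simp [Psi, LinearMap.lTensor_add]
      map_smul' := fun c f => by
        change Psi (c • f) z = _
        simp [Psi, LinearMap.lTensor_smul] }
  let U : Submodule K B := LinearMap.range ρ
  have hUU : U ≤ U0 := by rintro _ ⟨f, rfl⟩; exact hU0' f
  have hfd : FiniteDimensional K U0 := Module.Finite.iff_fg.mpr hU0
  have hfdU : FiniteDimensional K U := Submodule.finiteDimensional_of_le hUU
  obtain ⟨m, u, hu⟩ := Submodule.fg_iff_exists_fin_generating_family.mp (Module.Finite.iff_fg.mp hfdU)
  have hstab : ∀ b ∈ S, ∀ x ∈ U, b * x ∈ U := by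
    rintro b hb _ ⟨f, rfl⟩
    refine ⟨f ∘ₗ LinearMap.mulLeft K b, ?_⟩
    change Psi _ z = b * Psi f z
    rw [← Psi_right, ← Psi_left]
    have := h b hb
    rw [sub_mul, sub_eq_zero] at this
    rw [this]
  have huU : ∀ j, u j ∈ U := fun j => by rw [← hu]; exact Submodule.subset_span ⟨j, rfl⟩
  let T : S →ₗ[K] (Fin m → U) :=
    { toFun := fun b j => ⟨b.1 * u j, hstab b.1 b.2 _ (huU j)⟩
      map_add' := fun a b => by
        funext j; apply Subtype.ext; exact add_mul _ _ _
      map_smul' := fun c a => by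
        funext j; apply Subtype.ext; exact smul_mul_assoc _ _ _ }
  refine Module.Finite.of_injective T ?_
  rw [injective_iff_map_eq_zero]
  intro b hb
  have h1 : ∀ x ∈ U, b.1 * x = 0 := by
    intro x hx
    rw [← hu] at hx
    induction hx using Submodule.span_induction with
    | mem x hx =>
      obtain ⟨j, rfl⟩ := hx
      exact congrArg Subtype.val (congrFun hb j)
    | zero => exact mul_zero _
    | add x y _ _ hx hy => rw [mul_add, hx, hy, add_zero]
    | smul a x _ hx => rw [mul_smul_comm, hx, smul_zero]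
  have h2 : (b.1 ⊗ₜ[K] (1 : B)) * z = 0 := by
    apply Psi_sep
    intro f
    rw [Psi_left]
    exact h1 _ ⟨f, rfl⟩
  have h3 := congrArg (Algebra.TensorProduct.lmul' K) h2
  rw [map_mul, hz, map_zero] at h3
  simp only [Algebra.TensorProduct.lmul'_apply_tmul, mul_one] at h3
  exact Subtype.ext h3

theorem eq_zero_of_sq_eq_zero (b : B) (hb : Z K B b) (hb2 : b * b = 0) : b = 0 := by
  obtain ⟨z, hz, hz'⟩ := hb
  rw [sub_mul, sub_eq_zero] at hz'
  let N : Ideal B := Ideal.span {b} |>.annihilator
  let N : Ideal B := LinearMap.ker (LinearMap.mulLeft B b)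
  let T : B →ₗ[K] B := LinearMap.mulLeft K b
  let q : B →ₐ[K] B ⧸ N := Ideal.Quotient.mkₐ K N
  let Tb : (B ⧸ N) →ₗ[K] B := (N.restrictScalars K).liftQ T (fun x hx => hx)
  have hTb : Function.Injective Tb := by
    rw [injective_iff_map_eq_zero]
    intro x hx
    obtain ⟨x, rfl⟩ := Ideal.Quotient.mk_surjective x
    exact Ideal.Quotient.eq_zero_iff_mem.mpr hx
  have h1 : ∀ y : B ⊗[K] B, TensorProduct.map Tb Tb (Algebra.TensorProduct.map q q y) = (b ⊗ₜ[K] b) * y := by
    intro y
    induction y using TensorProduct.induction_on with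
    | zero => simp
    | tmul u v => rw [Algebra.TensorProduct.map_tmul, TensorProduct.map_tmul, Algebra.TensorProduct.tmul_mul_tmul]; rfl
    | add u v hu hv => rw [map_add, map_add, hu, hv, mul_add]
  have h2 : (b ⊗ₜ[K] b) * z = 0 := by
    have : (b ⊗ₜ[K] b) = (b ⊗ₜ[K] (1 : B)) * ((1 : B) ⊗ₜ[K] b) := by
      rw [Algebra.TensorProduct.tmul_mul_tmul, one_mul, mul_one]
    rw [this, mul_assoc, hz', ← mul_assoc, Algebra.TensorProduct.tmul_mul_tmul, hb2, TensorProduct.zero_tmul, zero_mul]
  have h3 : Algebra.TensorProduct.map q q z = 0 := by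
    apply TensorProduct.map_injective_of_flat_flat Tb Tb hTb hTb
    have := h1 z
    rw [h2] at this
    rw [map_zero]
    exact this
  have h4 : ∀ y : B ⊗[K] B, Algebra.TensorProduct.lmul' K (Algebra.TensorProduct.map q q y) = q (Algebra.TensorProduct.lmul' K y) := by
    intro y
    induction y using TensorProduct.induction_on with
    | zero => simp
    | tmul u v => simp
    | add u v hu hv => simp only [map_add, hu, hv]
  have h5 := h4 z
  rw [h3, hz, map_zero, map_one] at h5
  have h6 : (1 : B) ∈ N := by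
    rw [← Ideal.Quotient.eq_zero_iff_mem]
    exact h5.symm
  have h7 : b * 1 = 0 := h6
  rwa [mul_one] at h7

theorem isReduced_of_Z (h : ∀ b : B, Z K B b) : IsReduced B := by
  rw [isReduced_iff_pow_one_lt 2 (by norm_num)]
  intro x hx
  exact eq_zero_of_sq_eq_zero x (h x) (by rw [← sq]; exact hx)

theorem etale_of_fg [Algebra.WeaklyEtale K B] (S : Subalgebra K B) (hS : S.FG) : Algebra.Etale K S := by
  have hZ : ∀ b : B, Z K B b := weaklyEtale_iff_Z.mp inferInstance
  have hfin : ∀ T : Subalgebra K B, T.FG → Module.Finite K T := by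
    intro T hT
    obtain ⟨z, hz, hz'⟩ := exists_uniform_z T hT (fun b _ => hZ b)
    exact finite_of_uniform T z hz hz'
  have _ := hfin S hS
  have hBred : IsReduced B := isReduced_of_Z hZ
  have hint : Algebra.IsIntegral K B := by
    constructor
    intro b
    have h1 := hfin (Algebra.adjoin K {b}) ⟨{b}, by simp⟩
    have h2 : IsIntegral K (⟨b, Algebra.self_mem_adjoin_singleton K b⟩ : Algebra.adjoin K {b}) :=
      Algebra.IsIntegral.isIntegral _
    exact h2.map (Algebra.adjoin K {b}).val
  have hSred : IsReduced S := isReduced_of_injective S.val Subtype.val_injective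
  have hArt : IsArtinianRing S := IsArtinianRing.of_finite K S
  have hss : IsSemisimpleRing S := IsArtinianRing.isSemisimpleRing_of_isReduced S
  have hflat : Module.Flat S B := by
    have : Module.Projective S B := Module.projective_of_isSemisimpleRing S B
    infer_instance
  have hintS : Algebra.IsIntegral S B := Algebra.IsIntegral.tower_top K
  have hff : Module.FaithfullyFlat S B := by
    apply Module.FaithfullyFlat.of_comap_surjective
    exact Algebra.IsIntegral.comap_surjective S B
  have hwe : Algebra.WeaklyEtale K S := weaklyEtale_descends K S B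
  obtain ⟨z, hz, hz'⟩ := exists_uniform_z (⊤ : Subalgebra K S) (Algebra.FiniteType.out) (fun b _ => weaklyEtale_iff_Z.mp inferInstance b)
  have hunr : Algebra.FormallyUnramified K S :=
    Algebra.FormallyUnramified.iff_exists_tensorProduct.mpr ⟨z, fun s => hz' s trivial, hz⟩
  have := Algebra.FormallyEtale.of_formallyUnramified_of_field K S
  have hft : Algebra.FinitePresentation K S := Algebra.FinitePresentation.of_finiteType.mp inferInstance
  exact { }

theorem isIntegral_of_weaklyEtale [Algebra.WeaklyEtale K B] : Algebra.IsIntegral K B := by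
  have hZ : ∀ b : B, Z K B b := weaklyEtale_iff_Z.mp inferInstance
  constructor
  intro b
  obtain ⟨z, hz, hz'⟩ := exists_uniform_z (Algebra.adjoin K {b}) ⟨{b}, by simp⟩ (fun b _ => hZ b)
  have h1 := finite_of_uniform _ z hz hz'
  have h2 : IsIntegral K (⟨b, Algebra.self_mem_adjoin_singleton K b⟩ : Algebra.adjoin K {b}) :=
    Algebra.IsIntegral.isIntegral _
  exact h2.map (Algebra.adjoin K {b}).val

theorem isSeparable_of_weaklyEtale (L : Type u) [Field L] [Algebra K L] [Algebra.WeaklyEtale K L] :
    Algebra.IsSeparable K L := by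
  have hint : Algebra.IsIntegral K L := isIntegral_of_weaklyEtale
  constructor
  intro x
  have hx : IsIntegral K x := Algebra.IsIntegral.isIntegral x
  let F := IntermediateField.adjoin K {x}
  have hfd : FiniteDimensional K F := IntermediateField.adjoin.finiteDimensional hx
  have hfg : F.toSubalgebra.FG := by
    have h1 : Algebra.FiniteType K F := inferInstance
    exact (Subalgebra.fg_iff_finiteType F.toSubalgebra).mpr h1
  have het : Algebra.Etale K F := etale_of_fg F.toSubalgebra hfg
  have hsep : Algebra.IsSeparable K F := Algebra.FormallyUnramified.isSeparable K F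
  have h2 := Algebra.IsSeparable.isSeparable K (⟨x, IntermediateField.mem_adjoin_simple_self K x⟩ : F)
  have h3 : minpoly K (⟨x, IntermediateField.mem_adjoin_simple_self K x⟩ : F) = minpoly K x :=
    (minpoly.algebraMap_eq (algebraMap F L).injective _).symm
  rw [IsSeparable, h3] at h2
  exact h2

theorem weaklyEtale_subalgebra [Algebra.WeaklyEtale K B] (S : Subalgebra K B) : Algebra.WeaklyEtale K S := by
  rw [weaklyEtale_iff_Z]
  intro s
  have h1 : Algebra.Etale K (Algebra.adjoin K {s.1}) := etale_of_fg _ ⟨{s.1}, by simp⟩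
  have h2 := weaklyEtale_iff_Z.mp (inferInstance : Algebra.WeaklyEtale K (Algebra.adjoin K {s.1}))
    ⟨s.1, Algebra.self_mem_adjoin_singleton K s.1⟩
  have hle : Algebra.adjoin K {s.1} ≤ S := Algebra.adjoin_le (by simp)
  have h3 := Z_map (Subalgebra.inclusion hle) _ h2
  have h4 : Subalgebra.inclusion hle ⟨s.1, Algebra.self_mem_adjoin_singleton K s.1⟩ = s := Subtype.ext rfl
  rw [h4] at h3
  exact h3

theorem weaklyEtale_of_surjective {C : Type u} [CommRing C] [Algebra K C] [Algebra.WeaklyEtale K B]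
    (f : B →ₐ[K] C) (hf : Function.Surjective f) : Algebra.WeaklyEtale K C := by
  rw [weaklyEtale_iff_Z]
  intro c
  obtain ⟨b, rfl⟩ := hf c
  exact Z_map f b (weaklyEtale_iff_Z.mp inferInstance b)

theorem weaklyEtale_sSup (s : Set (Subalgebra K B)) (h : ∀ S ∈ s, Algebra.WeaklyEtale K S) :
    Algebra.WeaklyEtale K (sSup s : Subalgebra K B) := by
  rw [weaklyEtale_iff_Z]
  let M : Subalgebra K B := sSup s
  have h1 : M ≤ (Zalg K M).map M.val := by
    apply sSup_le
    intro S hS x hx
    have hSM : S ≤ M := le_sSup hS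
    have := h S hS
    refine ⟨⟨x, hSM hx⟩, ?_, rfl⟩
    have h2 : Z K S ⟨x, hx⟩ := weaklyEtale_iff_Z.mp this _
    have h3 := Z_map (Subalgebra.inclusion hSM) _ h2
    have h4 : Subalgebra.inclusion hSM ⟨x, hx⟩ = ⟨x, hSM hx⟩ := Subtype.ext rfl
    rw [h4] at h3
    exact h3
  intro b
  obtain ⟨c, hc, hcb⟩ := h1 b.2
  have : c = b := Subtype.ext hcb
  rw [← this]
  exact hc

end field

end Groth.Agent.H3WE
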