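import Mathlib.AlgebraicGeometry.Morphisms.WeaklyEtale
import Mathlib.AlgebraicGeometry.Morphisms.Etale
import Mathlib.AlgebraicGeometry.Morphisms.Immersion
import Mathlib.AlgebraicGeometry.Morphisms.Smooth
import Mathlib.RingTheory.Flat.FaithfullyFlat.Algebra
import Groth.Agent.Lib.H3WE
set_option autoImplicit false
universe u
namespace Groth.Agent.H3Mor
open AlgebraicGeometry CategoryTheory Limits

theorem t1414 {X Y Z : Scheme.{u}} (f : X ⟶ Y) (g : Y ⟶ Z) [Smooth (f ≫ g)] [Etale g] : Smooth f := by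
  have hm : MorphismProperty.IsMultiplicative @Smooth :=
    { id_mem := fun X => inferInstance }
  have : MorphismProperty.HasOfPostcompProperty @Smooth @Etale := by
    rw [MorphismProperty.hasOfPostcompProperty_iff_le_diagonal]
    intro X Y f hf
    exact inferInstanceAs <| Smooth (pullback.diagonal f)
  exact MorphismProperty.of_postcomp (W := @Smooth) (W' := @Etale) f g ‹Etale g› ‹_›

theorem flat_comp_aux {A B C : CommRingCat.{u}} (φ : A ⟶ B) (ψ : B ⟶ C) [IsLocalRing B] [IsLocalRing C]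
    (hl : IsLocalHom ψ.hom) (h1 : ψ.hom.Flat) (h2 : (φ ≫ ψ).hom.Flat) : φ.hom.Flat := by
  letI := φ.hom.toAlgebra
  letI := ψ.hom.toAlgebra
  letI := (φ ≫ ψ).hom.toAlgebra
  haveI : IsScalarTower A B C := IsScalarTower.of_algebraMap_eq' rfl
  haveI : Module.Flat B C := h1
  haveI : Module.Flat A C := h2
  haveI : IsLocalHom (algebraMap B C) := hl
  haveI : Module.FaithfullyFlat B C := Module.FaithfullyFlat.of_flat_of_isLocalHom
  exact Groth.Agent.H3WE.flat_of_flat_of_faithfullyFlat A B C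

theorem flat_descends {X Y Z : Scheme.{u}} (f : X ⟶ Y) (g : Y ⟶ Z) [Flat f] [Surjective f] [Flat (f ≫ g)] : Flat g := by
  rw [Flat.iff_flat_stalkMap]
  intro y
  obtain ⟨x, rfl⟩ := f.surjective y
  have h1 := Flat.stalkMap f x
  have h2 := Flat.stalkMap (f ≫ g) x
  have h3 : (f ≫ g).stalkMap x = g.stalkMap (f x) ≫ f.stalkMap x := Scheme.Hom.stalkMap_comp _ _ _
  rw [h3] at h2
  exact flat_comp_aux _ _ (f.toLRSHom.prop x) h1 h2

theorem t1413 {X Y Z : Scheme.{u}} (f : X ⟶ Y) (g : Y ⟶ Z) [Flat f] [Surjective f] [Flat (pullback.diagonal (f ≫ g))] :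
    Flat (pullback.diagonal g) := by
  have h2 : Flat (pullback.map (f ≫ g) (f ≫ g) g g f f (𝟙 _) (by simp) (by simp)) := 
    MorphismProperty.pullbackMap (P := @Flat) ‹_› ‹_› rfl rfl
  have h : f ≫ pullback.diagonal g = pullback.diagonal (f ≫ g) ≫ pullback.map (f ≫ g) (f ≫ g) g g f f (𝟙 _) (by simp) (by simp) := by
    apply pullback.hom_ext
    · simp only [Category.assoc, pullback.lift_fst, pullback.map, pullback.diagonal, Category.comp_id, pullback.lift_fst_assoc, Category.id_comp]
    · simp only [Category.assoc, pullback.lift_snd, pullback.map, pullback.diagonal, Category.comp_id, pullback.lift_snd_assoc, Category.id_comp]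
  have : Flat (f ≫ pullback.diagonal g) := by
    rw [h]; infer_instance
  exact flat_descends f _

theorem t1890 (A : Type u) [CommRing A] (V : Scheme.{u}) (j : V ⟶ Spec (CommRingCat.of A)) [IsImmersion j] [QuasiCompact j] (f : A) (haff : IsAffineOpen (j ⁻¹ᵁ PrimeSpectrum.basicOpen f)) (hcl : IsClosed (Set.range ⇑j ∩ PrimeSpectrum.zeroLocus {f})) : IsAffine V := by
  suffices h : IsAffineHom j from isAffine_of_isAffineHom j
  let W : (Spec (CommRingCat.of A)).Opens := ⟨(Set.range ⇑j ∩ PrimeSpectrum.zeroLocus {f})ᶜ, hcl.isOpen_compl⟩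
  let U : (Spec (CommRingCat.of A)).Opens := j.coborderRange
  have hUW : U ⊔ W = ⊤ := by
    rw [eq_top_iff]
    intro x _
    by_cases hx : x ∈ W
    · exact Or.inr hx
    · refine Or.inl ?_
      have : x ∈ Set.range ⇑j ∩ PrimeSpectrum.zeroLocus {f} := by
        by_contra h
        exact hx h
      exact subset_coborder this.1
  have hjW : j ⁻¹ᵁ W = j ⁻¹ᵁ PrimeSpectrum.basicOpen f := by
    ext x
    change j x ∈ (Set.range ⇑j ∩ PrimeSpectrum.zeroLocus {f})ᶜ ↔ j x ∈ PrimeSpectrum.basicOpen f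
    have hf : (j x ∈ PrimeSpectrum.zeroLocus {f}) ↔ ¬ (j x ∈ PrimeSpectrum.basicOpen f) := by
      change (({f} : Set A) ⊆ ((j x : PrimeSpectrum A).asIdeal : Set A)) ↔ ¬ (f ∉ (j x : PrimeSpectrum A).asIdeal)
      rw [Set.singleton_subset_iff, not_not]; rfl
    rw [Set.mem_compl_iff, Set.mem_inter_iff, not_and]
    constructor
    · intro h
      have := h ⟨x, rfl⟩
      by_contra hn
      exact this (hf.mpr hn)
    · intro h _ h2
      exact hf.mp h2 h
  have hU : IsAffineHom (j ∣_ U) := by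
    have h1 : (j ∣_ U) = (j ⁻¹ᵁ U).ι ≫ j.liftCoborder := by
      rw [← cancel_mono U.ι, morphismRestrict_ι, Category.assoc, Scheme.Hom.liftCoborder_ι]
    have h2 : j ⁻¹ᵁ U = ⊤ := by
      rw [eq_top_iff]
      intro x _
      exact subset_coborder ⟨x, rfl⟩
    have h3 : IsIso (j ⁻¹ᵁ U).ι := by
      rw [h2]; exact V.topIso.isIso_hom
    rw [h1]; infer_instance
  have hW : IsAffineHom (j ∣_ W) := by
    have h1 : IsAffineHom ((j ∣_ W) ≫ W.ι) := by
      rw [morphismRestrict_ι]
      have : IsAffine (j ⁻¹ᵁ W).toScheme := by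
        rw [hjW]; exact haff
      infer_instance
    exact MorphismProperty.of_postcomp (W := @IsAffineHom) (W' := @IsSeparated) (j ∣_ W) W.ι inferInstance h1
  apply IsZariskiLocalAtTarget.of_iSup_eq_top (P := @IsAffineHom) (fun b : Bool => bif b then U else W)
  · rw [iSup_bool_eq]; exact hUW
  · intro b
    cases b
    · exact hW
    · exact hU

end Groth.Agent.H3Mor
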