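import Mathlib.RingTheory.NoetherNormalization
import Mathlib.RingTheory.Localization.BaseChange
import Mathlib.RingTheory.Localization.Integral
import Mathlib.RingTheory.MvPolynomial.Localization
import Mathlib.RingTheory.AlgebraicIndependent.Basic
import Mathlib.RingTheory.FiniteType
import Mathlib.RingTheory.FiniteStability

set_option autoImplicit false
universe u
namespace Groth.Agent.H3NN
open TensorProduct MvPolynomial

theorem noether {R S : Type u} [CommRing R] [IsDomain R] [CommRing S] [Algebra R S]
    [Algebra.FiniteType R S] (hinj : Function.Injective (algebraMap R S)) :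
    ∃ (d : ℕ) (y : Fin d → S) (S' : Subalgebra R S), AlgebraicIndependent R y ∧ (∀ i, y i ∈ S') ∧ S'.FG ∧
      (∀ s ∈ S', IsIntegral (Algebra.adjoin R (Set.range y)) s) ∧
      ∃ f : R, f ≠ 0 ∧ ∀ s : S, ∃ n : ℕ, (f ^ n) • s ∈ S' := by
  classical
  let K := FractionRing R
  let T := K ⊗[R] S
  let M := nonZeroDivisors R
  letI : Algebra S T := Algebra.TensorProduct.rightAlgebra
  haveI hloc : IsLocalization (Algebra.algebraMapSubmonoid S M) T := IsLocalization.tensorRight K M
  haveI : IsScalarTower R S T := IsScalarTower.of_algebraMap_eq' (by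
    ext r
    change algebraMap R T r = (1 : K) ⊗ₜ[R] (algebraMap R S r)
    rw [Algebra.algebraMap_eq_smul_one, Algebra.algebraMap_eq_smul_one, TensorProduct.tmul_smul]; rfl)
  haveI : Nontrivial T := by
    by_contra h
    rw [not_nontrivial_iff_subsingleton] at h
    have h1 : algebraMap S T 1 = 0 := Subsingleton.elim _ _
    rw [IsLocalization.map_eq_zero_iff (Algebra.algebraMapSubmonoid S M)] at h1
    obtain ⟨⟨_, r, hr, rfl⟩, h2⟩ := h1
    have h3 : algebraMap R S r = 0 := by simpa using h2
    have h4 : r = 0 := hinj (by rw [h3, map_zero])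
    exact nonZeroDivisors.ne_zero hr h4
  haveI hft : Algebra.FiniteType K T := Algebra.FiniteType.baseChange K
  obtain ⟨d, g, hg, hgi⟩ := exists_integral_inj_algHom_of_fg K T
  have hz : ∀ i : Fin d, ∃ (r : R) (s : S), r ≠ 0 ∧ algebraMap R T r * g (X i) = algebraMap S T s := by
    intro i
    obtain ⟨⟨s, ⟨_, r, hr, rfl⟩⟩, h⟩ := IsLocalization.surj (Algebra.algebraMapSubmonoid S M) (g (X i))
    refine ⟨r, s, nonZeroDivisors.ne_zero hr, ?_⟩
    rw [mul_comm, IsScalarTower.algebraMap_apply R S T]; exact h
  choose r y hr0 hry using hz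
  have hrK : ∀ i, algebraMap R K (r i) ≠ 0 := fun i h => hr0 i ((IsFractionRing.injective R K) (by rw [h, map_zero]))
  let σ : MvPolynomial (Fin d) K →ₐ[K] MvPolynomial (Fin d) K := aeval fun i => C (algebraMap R K (r i)) * X i
  let σ' : MvPolynomial (Fin d) K →ₐ[K] MvPolynomial (Fin d) K := aeval fun i => C (algebraMap R K (r i))⁻¹ * X i
  have hσ1 : ∀ p, σ (σ' p) = p := by
    intro p
    have : σ.comp σ' = AlgHom.id K _ := by
      apply MvPolynomial.algHom_ext
      intro i
      simp only [σ, σ', AlgHom.comp_apply, aeval_X, map_mul, AlgHom.id_apply, MvPolynomial.algHom_C,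
        MvPolynomial.algebraMap_eq]
      rw [← mul_assoc, ← C_mul, inv_mul_cancel₀ (hrK i), C_1, one_mul]
    exact congrArg (fun f => f p) this
  have hσ2 : ∀ p, σ' (σ p) = p := by
    intro p
    have : σ'.comp σ = AlgHom.id K _ := by
      apply MvPolynomial.algHom_ext
      intro i
      simp only [σ, σ', AlgHom.comp_apply, aeval_X, map_mul, AlgHom.id_apply, MvPolynomial.algHom_C,
        MvPolynomial.algebraMap_eq]
      rw [← mul_assoc, ← C_mul, mul_inv_cancel₀ (hrK i), C_1, one_mul]
    exact congrArg (fun f => f p) this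
  let g' : MvPolynomial (Fin d) K →ₐ[K] T := g.comp σ
  have hg' : Function.Injective g' := hg.comp (Function.LeftInverse.injective hσ2)
  have hg'X : ∀ i, g' (X i) = algebraMap S T (y i) := by
    intro i
    change g (σ (X i)) = _
    simp only [σ, aeval_X, map_mul]
    rw [← hry i]
    congr 1
    rw [← MvPolynomial.algebraMap_eq, AlgHom.commutes, ← IsScalarTower.algebraMap_apply]
  have hg'i : g'.toRingHom.IsIntegral := by
    intro t
    obtain ⟨p, hp, hp0⟩ := hgi t
    refine ⟨p.map σ'.toRingHom, hp.map _, ?_⟩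
    rw [Polynomial.eval₂_map]
    have : g'.toRingHom.comp σ'.toRingHom = g.toRingHom := by
      refine RingHom.ext fun x => ?_
      change g (σ (σ' x)) = g x
      rw [hσ1]
    rw [this]; exact hp0
  let P := MvPolynomial (Fin d) R
  let PK := MvPolynomial (Fin d) K
  letI a1 : Algebra P S := (aeval y : P →ₐ[R] S).toRingHom.toAlgebra
  letI a2 : Algebra P PK := MvPolynomial.algebraMvPolynomial
  letI a3 : Algebra PK T := g'.toRingHom.toAlgebra
  letI a4 : Algebra P T := ((algebraMap S T).comp (algebraMap P S)).toAlgebra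
  haveI : IsScalarTower P S T := .of_algebraMap_eq' rfl
  have hcomp : (algebraMap S T).comp (algebraMap P S) = g'.toRingHom.comp (algebraMap P PK) := by
    apply MvPolynomial.ringHom_ext
    · intro a
      change algebraMap S T (aeval y (C a)) = g' (MvPolynomial.map (algebraMap R K) (C a))
      rw [MvPolynomial.map_C, MvPolynomial.algHom_C, ← MvPolynomial.algebraMap_eq, AlgHom.commutes,
        ← IsScalarTower.algebraMap_apply, ← IsScalarTower.algebraMap_apply]
    · intro i
      change algebraMap S T (aeval y (X i)) = g' (MvPolynomial.map (algebraMap R K) (X i))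
      rw [MvPolynomial.map_X, aeval_X, hg'X]
  haveI : IsScalarTower P PK T := .of_algebraMap_eq' hcomp
  let M' : Submonoid P := M.map (C (σ := Fin d))
  haveI : IsLocalization M' PK := MvPolynomial.isLocalization M K
  have hM' : Algebra.algebraMapSubmonoid S M' = Algebra.algebraMapSubmonoid S M := by
    change (M.map C).map (algebraMap P S) = M.map (algebraMap R S)
    ext x
    constructor
    · rintro ⟨_, ⟨m, hm, rfl⟩, rfl⟩
      exact ⟨m, hm, (MvPolynomial.algHom_C (aeval y : P →ₐ[R] S) m).symm⟩
    · rintro ⟨m, hm, rfl⟩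
      exact ⟨C m, ⟨m, hm, rfl⟩, MvPolynomial.algHom_C (aeval y : P →ₐ[R] S) m⟩
  haveI : IsLocalization (Algebra.algebraMapSubmonoid S M') T := by rw [hM']; exact hloc
  have hCS : ∀ (m : R) (t : S), (C m : P) • t = m • t := by
    intro m t
    rw [Algebra.smul_def, Algebra.smul_def]
    congr 1
    exact MvPolynomial.algHom_C (aeval y : P →ₐ[R] S) m
  have key : ∀ t : S, ∃ f : R, f ≠ 0 ∧ IsIntegral P (f • t) := by
    intro t
    have h1 : IsIntegral PK (algebraMap S T t) := hg'i _
    obtain ⟨⟨_, m, hm, rfl⟩, h2⟩ := h1.exists_multiple_integral_of_isLocalization M'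
    have h3 : IsIntegral P (algebraMap S T (m • t)) := by
      have : algebraMap S T (m • t) = (C m : P) • algebraMap S T t := by
        rw [← hCS, Algebra.smul_def, Algebra.smul_def, map_mul, ← IsScalarTower.algebraMap_apply]
      rw [this]; exact h2
    obtain ⟨_, ⟨m', hm', rfl⟩, h4⟩ := IsLocalization.exists_isIntegral_smul_of_isIntegral_map (Sₘ := T) M' h3
    refine ⟨m' * m, mul_ne_zero (nonZeroDivisors.ne_zero hm') (nonZeroDivisors.ne_zero hm), ?_⟩
    rw [mul_smul, ← hCS m']; exact h4
  have hind : AlgebraicIndependent R y := by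
    rw [algebraicIndependent_iff_injective_aeval]
    intro p q hpq
    have h1 := congrArg (algebraMap S T) hpq
    have h2 : ∀ p : P, algebraMap S T (aeval y p) = g' (algebraMap P PK p) := fun p => congrArg (fun f => f p) hcomp
    rw [h2, h2] at h1
    exact MvPolynomial.map_injective _ (IsFractionRing.injective R K) (hg' h1)
  set A := Algebra.adjoin R (Set.range y) with hA
  have hPA : ∀ t : S, IsIntegral P t → IsIntegral A t := by
    intro t ht
    let ρ : P →ₐ[R] A := aeval fun i => (⟨y i, Algebra.subset_adjoin ⟨i, rfl⟩⟩ : A)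
    have hρ : (algebraMap A S).comp ρ.toRingHom = algebraMap P S := by
      apply MvPolynomial.ringHom_ext
      · intro a
        change algebraMap A S (ρ (C a)) = aeval y (C a)
        rw [MvPolynomial.algHom_C, MvPolynomial.algHom_C, ← IsScalarTower.algebraMap_apply]
      · intro i
        change algebraMap A S (ρ (X i)) = aeval y (X i)
        have h5 : ρ (X i) = (⟨y i, Algebra.subset_adjoin ⟨i, rfl⟩⟩ : A) := MvPolynomial.aeval_X _ i
        rw [h5, MvPolynomial.aeval_X]; rfl
    obtain ⟨p, hp, hp0⟩ := ht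
    exact ⟨p.map ρ.toRingHom, hp.map _, by rw [Polynomial.eval₂_map, hρ]; exact hp0⟩
  obtain ⟨s, hs⟩ := (Algebra.FiniteType.out : (⊤ : Subalgebra R S).FG)
  choose f hf0 hfi using key
  let F : R := ∏ x ∈ s, f x
  have hF : F ≠ 0 := Finset.prod_ne_zero_iff.mpr fun x _ => hf0 x
  let S' : Subalgebra R S := Algebra.adjoin R (Set.range y ∪ (fun x => F • x) '' (s : Set S))
  refine ⟨d, y, S', hind, fun i => Algebra.subset_adjoin (Or.inl ⟨i, rfl⟩), ?_, ?_, F, hF, ?_⟩
  · exact Subalgebra.fg_def.mpr ⟨_, (Set.finite_range y).union (s.finite_toSet.image _), rfl⟩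
  · have hle : S' ≤ (integralClosure A S).restrictScalars R := by
      apply Algebra.adjoin_le
      rintro _ (⟨i, rfl⟩ | ⟨x, hx, rfl⟩)
      · change IsIntegral A (y i)
        exact isIntegral_algebraMap (x := (⟨y i, Algebra.subset_adjoin ⟨i, rfl⟩⟩ : A))
      · change IsIntegral A (F • x)
        have h1 : F = (∏ z ∈ s.erase x, f z) * f x := (Finset.prod_erase_mul s f hx).symm
        rw [h1, mul_smul, Algebra.smul_def, IsScalarTower.algebraMap_apply R A S]
        exact (isIntegral_algebraMap).mul (hPA _ (hfi x))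
    intro t ht
    exact hle ht
  · intro t
    have ht : t ∈ Algebra.adjoin R (s : Set S) := by rw [hs]; trivial
    induction ht using Algebra.adjoin_induction with
    | mem x hx => exact ⟨1, by rw [pow_one]; exact Algebra.subset_adjoin (Or.inr ⟨x, hx, rfl⟩)⟩
    | algebraMap r => exact ⟨0, by rw [pow_zero, one_smul]; exact S'.algebraMap_mem r⟩
    | add x z _ _ hx hz =>
      obtain ⟨n, hn⟩ := hx
      obtain ⟨m, hm⟩ := hz
      refine ⟨n + m, ?_⟩
      have : F ^ (n + m) • (x + z) = F ^ m • (F ^ n • x) + F ^ n • (F ^ m • z) := by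
        rw [smul_add, smul_smul, smul_smul, ← pow_add, ← pow_add, add_comm m n]
      rw [this]
      exact S'.add_mem (S'.smul_mem hn _) (S'.smul_mem hm _)
    | mul x z _ _ hx hz =>
      obtain ⟨n, hn⟩ := hx
      obtain ⟨m, hm⟩ := hz
      refine ⟨n + m, ?_⟩
      have : F ^ (n + m) • (x * z) = (F ^ n • x) * (F ^ m • z) := by
        rw [smul_mul_smul_comm, pow_add]
      rw [this]
      exact S'.mul_mem hn hm

end Groth.Agent.H3NN
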