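import Mathlib.RingTheory.Norm.Basic
import Mathlib.LinearAlgebra.Charpoly.BaseChange
import Mathlib.Algebra.Category.Ring.Constructions
import Mathlib.AlgebraicGeometry.Morphisms.Affine
import Groth.Prelude.Def_Grpd

set_option autoImplicit false
universe u

namespace Groth.Agent.H3Norm

open CategoryTheory CategoryTheory.Limits AlgebraicGeometry TensorProduct

theorem norm_tmul {A B A' : Type u} [CommRing A] [CommRing B] [CommRing A'] [Algebra A B] [Algebra A A']
    [Module.Free A B] [Module.Finite A B] (x : B) :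
    Algebra.norm A' ((1 : A') ⊗ₜ[A] x) = algebraMap A A' (Algebra.norm A x) := by
  rw [Algebra.norm_apply, Algebra.norm_apply, ← LinearMap.det_baseChange]
  congr 1
  ext y
  simp

theorem norm_of_isPushout {A B A' D : CommRingCat.{u}} (s : A ⟶ B) (φ : A ⟶ A') (inl : B ⟶ D) (inr : A' ⟶ D)
    (h : IsPushout s φ inl inr)
    (hfree : letI := s.hom.toAlgebra; Module.Free A B) (hfin : letI := s.hom.toAlgebra; Module.Finite A B) (x : B) :
    (letI := inr.hom.toAlgebra; Algebra.norm A' (inl.hom x)) =
      φ.hom (letI := s.hom.toAlgebra; Algebra.norm A x) := by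
  letI := s.hom.toAlgebra
  letI := φ.hom.toAlgebra
  letI := inr.hom.toAlgebra
  have h2 : IsPushout s φ (CommRingCat.ofHom (Algebra.TensorProduct.includeRight (R := A) (A := A') (B := B)).toRingHom)
    (CommRingCat.ofHom (algebraMap A' (A' ⊗[A] B))) := (CommRingCat.isPushout_tensorProduct A A' B).flip
  let e := h2.isoIsPushout B A' h
  have he1 : CommRingCat.ofHom (Algebra.TensorProduct.includeRight (R := A) (A := A') (B := B)).toRingHom ≫ e.hom = inl :=
    h2.inl_isoIsPushout_hom B A' h
  have he2 : CommRingCat.ofHom (algebraMap A' (A' ⊗[A] B)) ≫ e.hom = inr :=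
    h2.inr_isoIsPushout_hom B A' h
  let e' : (A' ⊗[A] B) ≃ₐ[A'] D := AlgEquiv.ofRingEquiv (f := e.commRingCatIsoToRingEquiv)
    (fun r => congrArg (fun f => f.hom r) he2)
  have h3 : inl.hom x = e' ((1 : A') ⊗ₜ x) := (congrArg (fun f => f.hom x) he1).symm
  rw [h3, Algebra.norm_eq_of_algEquiv, norm_tmul]
  rfl

section
variable {S : Scheme.{u}} (G : Grpd.GroupoidScheme S)

theorem c_s : G.c ≫ G.s = pullback.snd G.s G.t ≫ G.s := by
  have h := G.comp_s (pullback.fst G.s G.t) (pullback.snd G.s G.t) pullback.condition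
  have h1 : pullback.lift (pullback.fst G.s G.t) (pullback.snd G.s G.t) pullback.condition = 𝟙 _ := by
    apply pullback.hom_ext <;> simp
  rw [h1, Category.id_comp] at h
  exact h

theorem c_t : G.c ≫ G.t = pullback.fst G.s G.t ≫ G.t := by
  have h := G.comp_t (pullback.fst G.s G.t) (pullback.snd G.s G.t) pullback.condition
  have h1 : pullback.lift (pullback.fst G.s G.t) (pullback.snd G.s G.t) pullback.condition = 𝟙 _ := by
    apply pullback.hom_ext <;> simp
  rw [h1, Category.id_comp] at h
  exact h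

theorem isPullback_c_snd : IsPullback G.c (pullback.snd G.s G.t) G.s G.s := by
  refine ⟨⟨c_s G⟩, ⟨PullbackCone.IsLimit.mk _ (fun w => ?_) (fun w => ?_) (fun w => ?_) (fun w m hm1 hm2 => ?_)⟩⟩
  · -- the lift
    have h1 : w.fst ≫ G.s = (w.snd ≫ G.i) ≫ G.t := by
      rw [Category.assoc, G.i_t]; exact w.condition
    exact pullback.lift (pullback.lift w.fst (w.snd ≫ G.i) h1 ≫ G.c) w.snd (by
      rw [G.comp_s, Category.assoc, G.i_s])
  · have h1 : w.fst ≫ G.s = (w.snd ≫ G.i) ≫ G.t := by
      rw [Category.assoc, G.i_t]; exact w.condition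
    have h2 : (w.snd ≫ G.i) ≫ G.s = w.snd ≫ G.t := by rw [Category.assoc, G.i_s]
    have h3 := G.assoc w.fst (w.snd ≫ G.i) w.snd h1 h2
    refine h3.trans ?_
    have h4 := G.i_comp w.snd
    have h5 : w.fst ≫ G.s ≫ G.e = pullback.lift (w.snd ≫ G.i) w.snd h2 ≫ G.c := by
      rw [h4]
      have h6 := w.condition
      rw [← Category.assoc, ← Category.assoc, h6]
    have h7 := G.comp_e w.fst
    simp only [h5] at h7
    exact h7
  · exact pullback.lift_snd _ _ _
  · have h1 : w.fst ≫ G.s = (w.snd ≫ G.i) ≫ G.t := by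
      rw [Category.assoc, G.i_t]; exact w.condition
    apply pullback.hom_ext
    · rw [pullback.lift_fst]
      let α := m ≫ pullback.fst G.s G.t
      have hα : α ≫ G.s = w.snd ≫ G.t := by
        rw [← hm2, Category.assoc, Category.assoc, pullback.condition]
      have hm : m = pullback.lift α w.snd hα := by
        apply pullback.hom_ext
        · rw [pullback.lift_fst]
        · rw [pullback.lift_snd]; exact hm2
      have h8 : w.snd ≫ G.s = (w.snd ≫ G.i) ≫ G.t := by rw [Category.assoc, G.i_t]
      have h9 := G.assoc α w.snd (w.snd ≫ G.i) hα h8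
      have h10 : pullback.lift α w.snd hα ≫ G.c = w.fst := by rw [← hm]; exact hm1
      simp only [h10] at h9
      refine Eq.trans ?_ h9.symm
      have h11 := G.comp_i w.snd
      have h12 : α ≫ G.s ≫ G.e = pullback.lift w.snd (w.snd ≫ G.i) h8 ≫ G.c := by
        rw [h11, ← Category.assoc, ← Category.assoc, hα]
      have h13 := G.comp_e α
      simp only [h12] at h13
      exact h13.symm
    · rw [pullback.lift_snd]; exact hm2

theorem normST_mem [IsAffine G.U] [IsAffine G.R] (f : Γ(G.U, ⊤)) : G.normST f ∈ G.invariants := by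
  letI := G.s.appTop.hom.toAlgebra
  by_cases hb : ∃ s : Finset Γ(G.R, ⊤), Nonempty (Module.Basis s Γ(G.U, ⊤) Γ(G.R, ⊤))
  · obtain ⟨s, ⟨b⟩⟩ := hb
    have hfree : Module.Free Γ(G.U, ⊤) Γ(G.R, ⊤) := Module.Free.of_basis b
    have hfin : Module.Finite Γ(G.U, ⊤) Γ(G.R, ⊤) := Module.Finite.of_basis b
    have h1 := isPushout_appTop_of_isPullback (IsPullback.of_hasPullback G.s G.t)
    have h2 := isPushout_appTop_of_isPullback (isPullback_c_snd G)
    have e1 := norm_of_isPushout _ _ _ _ h1 hfree hfin (G.t.appTop.hom f)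
    have e2 := norm_of_isPushout _ _ _ _ h2 hfree hfin (G.t.appTop.hom f)
    have h3 : G.c.appTop.hom (G.t.appTop.hom f) = (pullback.fst G.s G.t).appTop.hom (G.t.appTop.hom f) := by
      have h4 := congrArg (fun g => (Scheme.Hom.appTop g).hom f) (c_t G)
      simp only [Scheme.Hom.comp_appTop, CommRingCat.hom_comp, RingHom.comp_apply] at h4
      exact h4
    change G.s.appTop.hom (G.normST f) = G.t.appTop.hom (G.normST f)
    rw [h3] at e2
    exact e2.symm.trans e1
  · have h1 : G.normST f = 1 := by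
      change Algebra.norm Γ(G.U, ⊤) (G.t.appTop.hom f) = 1
      exact Algebra.norm_eq_one_of_not_exists_basis _ hb _
    rw [h1]
    exact one_mem _

end

end Groth.Agent.H3Norm
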