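import Groth.Agent.Lib.H3EtLift
import Mathlib.LinearAlgebra.Matrix.Charpoly.Coeff
import Mathlib.LinearAlgebra.TensorProduct.Pi
import Mathlib.LinearAlgebra.Matrix.ToLin
import Mathlib.Algebra.Module.Projective

set_option autoImplicit false
universe u
namespace Groth.Agent.H3Proj
open TensorProduct

/-- two splittings of the same idempotent -/
theorem equiv_of_split {S : Type u} [CommRing S] {F Q₁ Q₂ : Type u} [AddCommGroup F] [Module S F]
    [AddCommGroup Q₁] [Module S Q₁] [AddCommGroup Q₂] [Module S Q₂]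
    (i₁ : Q₁ →ₗ[S] F) (p₁ : F →ₗ[S] Q₁) (i₂ : Q₂ →ₗ[S] F) (p₂ : F →ₗ[S] Q₂)
    (h₁ : p₁ ∘ₗ i₁ = LinearMap.id) (h₂ : p₂ ∘ₗ i₂ = LinearMap.id) (h : i₁ ∘ₗ p₁ = i₂ ∘ₗ p₂) :
    Nonempty (Q₁ ≃ₗ[S] Q₂) := by
  refine ⟨LinearEquiv.ofLinearMap (p₂ ∘ₗ i₁) (p₁ ∘ₗ i₂) ?_ ?_⟩
  · have : (p₂ ∘ₗ i₁) ∘ₗ (p₁ ∘ₗ i₂) = p₂ ∘ₗ (i₁ ∘ₗ p₁) ∘ₗ i₂ := rfl
    rw [this, h]
    have : p₂ ∘ₗ (i₂ ∘ₗ p₂) ∘ₗ i₂ = (p₂ ∘ₗ i₂) ∘ₗ (p₂ ∘ₗ i₂) := rfl
    rw [this, h₂]; rfl
  · have : (p₁ ∘ₗ i₂) ∘ₗ (p₂ ∘ₗ i₁) = p₁ ∘ₗ (i₂ ∘ₗ p₂) ∘ₗ i₁ := rfl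
    rw [this, ← h]
    have : p₁ ∘ₗ (i₁ ∘ₗ p₁) ∘ₗ i₁ = (p₁ ∘ₗ i₁) ∘ₗ (p₁ ∘ₗ i₁) := rfl
    rw [this, h₁]; rfl

theorem baseChange_split {R S : Type u} [CommRing R] [CommRing S] [Algebra R S] {Q : Type u} [AddCommGroup Q] [Module R Q]
    {n : Type} [Fintype n] [DecidableEq n] (E : Matrix n n R) (i : Q →ₗ[R] (n → R)) (p : (n → R) →ₗ[R] Q)
    (hpi : p ∘ₗ i = LinearMap.id) (hip : i ∘ₗ p = Matrix.toLin' E) :
    ∃ (i' : S ⊗[R] Q →ₗ[S] (n → S)) (p' : (n → S) →ₗ[S] S ⊗[R] Q), p' ∘ₗ i' = LinearMap.id ∧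
      i' ∘ₗ p' = Matrix.toLin' (E.map (algebraMap R S)) := by
  let φ := TensorProduct.piScalarRight R S S n
  refine ⟨φ.toLinearMap ∘ₗ i.baseChange S, p.baseChange S ∘ₗ φ.symm.toLinearMap, ?_, ?_⟩
  · have h1 : (p.baseChange S ∘ₗ φ.symm.toLinearMap) ∘ₗ (φ.toLinearMap ∘ₗ i.baseChange S) =
        p.baseChange S ∘ₗ i.baseChange S := by
      ext x; simp
    rw [h1, ← LinearMap.baseChange_comp, hpi, LinearMap.baseChange_id]
  · have h1 : (φ.toLinearMap ∘ₗ i.baseChange S) ∘ₗ (p.baseChange S ∘ₗ φ.symm.toLinearMap) =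
        φ.toLinearMap ∘ₗ (i.baseChange S ∘ₗ p.baseChange S) ∘ₗ φ.symm.toLinearMap := rfl
    rw [h1, ← LinearMap.baseChange_comp, hip]
    have h2 : φ.toLinearMap ∘ₗ (Matrix.toLin' E).baseChange S =
        Matrix.toLin' (E.map (algebraMap R S)) ∘ₗ φ.toLinearMap := by
      apply TensorProduct.AlgebraTensorModule.ext
      intro s v
      funext j
      simp only [LinearMap.comp_apply, LinearMap.baseChange_tmul, LinearEquiv.coe_coe, φ,
        TensorProduct.piScalarRight_apply, TensorProduct.piScalarRightHom_tmul, Matrix.toLin'_apply,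
        Matrix.mulVec, dotProduct, Matrix.map_apply, Finset.sum_smul]
      apply Finset.sum_congr rfl
      intro k _
      rw [Algebra.smul_def, Algebra.smul_def, map_mul]; ring
    rw [← LinearMap.comp_assoc, h2, LinearMap.comp_assoc]
    ext x
    simp

theorem exists_split (R P : Type u) [CommRing R] [AddCommGroup P] [Module R P] [Module.Finite R P] [Module.Projective R P] :
    ∃ (n : ℕ) (E : Matrix (Fin n) (Fin n) R) (i : P →ₗ[R] (Fin n → R)) (p : (Fin n → R) →ₗ[R] P),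
      p ∘ₗ i = LinearMap.id ∧ i ∘ₗ p = Matrix.toLin' E := by
  obtain ⟨n, p, hp⟩ := Module.Finite.exists_fin' R P
  obtain ⟨i, hi⟩ := p.exists_rightInverse_of_surjective (LinearMap.range_eq_top.mpr hp)
  exact ⟨n, LinearMap.toMatrix' (i ∘ₗ p), i, p, hi, by simp⟩

theorem split_idem {R P : Type u} [CommRing R] [AddCommGroup P] [Module R P] {n : ℕ}
    (E : Matrix (Fin n) (Fin n) R) (i : P →ₗ[R] (Fin n → R)) (p : (Fin n → R) →ₗ[R] P)
    (hpi : p ∘ₗ i = LinearMap.id) (hip : i ∘ₗ p = Matrix.toLin' E) : E * E = E := by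
  apply (Matrix.toLin' (R := R)).injective
  rw [Matrix.toLin'_mul, ← hip]
  have : (i ∘ₗ p) ∘ₗ (i ∘ₗ p) = i ∘ₗ (p ∘ₗ i) ∘ₗ p := rfl
  rw [this, hpi]; rfl

theorem exists_split_of_idem {R : Type u} [CommRing R] {n : ℕ}
    (E : Matrix (Fin n) (Fin n) R) (hE : E * E = E) :
    ∃ (P : Type u) (_ : AddCommGroup P) (_ : Module R P) (_ : Module.Finite R P) (_ : Module.Projective R P)
      (i : P →ₗ[R] (Fin n → R)) (p : (Fin n → R) →ₗ[R] P),
      p ∘ₗ i = LinearMap.id ∧ i ∘ₗ p = Matrix.toLin' E := by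
  let P := LinearMap.range (Matrix.toLin' E)
  let i : P →ₗ[R] (Fin n → R) := P.subtype
  let p : (Fin n → R) →ₗ[R] P := (Matrix.toLin' E).rangeRestrict
  have hpi : p ∘ₗ i = LinearMap.id := by
    ext ⟨x, v, rfl⟩ : 1
    apply Subtype.ext
    change Matrix.toLin' E (Matrix.toLin' E v) = Matrix.toLin' E v
    rw [← LinearMap.comp_apply, ← Matrix.toLin'_mul, hE]
  have hfin : Module.Finite R P := Module.Finite.of_surjective p (LinearMap.surjective_rangeRestrict _)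
  have hproj : Module.Projective R P := Module.Projective.of_split i p hpi
  exact ⟨P, inferInstance, inferInstance, hfin, hproj, i, p, hpi, rfl⟩

open Polynomial in
theorem exists_lift_idem {A : Type u} [CommRing A] (I : Ideal A) {n : ℕ} (E : Matrix (Fin n) (Fin n) (A ⧸ I))
    (hE : E * E = E) :
    ∃ (A' : Type u) (_ : CommRing A') (_ : Algebra A A'), Algebra.Etale A A' ∧
      Function.Bijective (algebraMap (A ⧸ I) (A' ⧸ I.map (algebraMap A A'))) ∧
      ∃ E' : Matrix (Fin n) (Fin n) A', E' * E' = E' ∧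
        E'.map (Ideal.Quotient.mk (I.map (algebraMap A A'))) =
          E.map (algebraMap (A ⧸ I) (A' ⧸ I.map (algebraMap A A'))) := by
  have hM : ∃ M : Matrix (Fin n) (Fin n) A, M.map (Ideal.Quotient.mk I) = E := by
    choose m hm using fun i j => Ideal.Quotient.mk_surjective (E i j)
    exact ⟨Matrix.of m, by ext i j; exact hm i j⟩
  obtain ⟨M, hME⟩ := hM
  let N : Matrix (Fin n) (Fin n) A := M * M - M
  have hN : N.map (Ideal.Quotient.mk I) = 0 := by
    have h1 : N.map (Ideal.Quotient.mk I) = (Ideal.Quotient.mk I).mapMatrix N := rfl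
    rw [h1]
    simp only [N, map_sub, map_mul, RingHom.mapMatrix_apply, hME, hE, sub_self]
  let Q : A[X] := N.charpoly
  have hQm : Q.Monic := N.charpoly_monic
  have hQI : Q.map (Ideal.Quotient.mk I) = X ^ n := by
    change N.charpoly.map _ = _
    rw [← Matrix.charpoly_map, hN, Matrix.charpoly_zero, Fintype.card_fin]
  let q : A[X] := X * X - X
  have hq : q = X * (X - C 1) := by simp only [q, C_1]; ring
  have hqm : q.Monic := by rw [hq]; exact monic_X.mul (monic_X_sub_C 1)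
  let f : A[X] := Q.comp q
  have hfm : f.Monic := by
    rcases subsingleton_or_nontrivial A with hs | hs
    · exact Subsingleton.elim _ _
    · apply hQm.comp hqm
      have : q.natDegree = 2 := by
        rw [hq, monic_X.natDegree_mul (monic_X_sub_C 1), natDegree_X, natDegree_X_sub_C]
      rw [this]; norm_num
  have hfM : aeval M f = 0 := by
    change aeval M (Q.comp q) = 0
    rw [aeval_comp]
    have : aeval M q = N := by simp [q, N]
    rw [this]; exact N.aeval_self_charpoly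
  have hfI : f.map (Ideal.Quotient.mk I) = X ^ n * (X - 1) ^ n := by
    change (Q.comp q).map _ = _
    rw [Polynomial.map_comp, hQI]
    simp only [q, Polynomial.map_sub, Polynomial.map_mul, map_X, pow_comp, X_comp]
    rw [← mul_pow]; congr 1; ring
  have hX1 : (X - 1 : (A ⧸ I)[X]) = X - C 1 := by rw [C_1]
  have hcop : IsCoprime ((X : (A ⧸ I)[X]) ^ n) ((X - 1) ^ n) := by
    apply IsCoprime.pow
    exact ⟨1, -1, by ring⟩
  obtain ⟨A', i1, i2, hA', hbij, g', h', hg', hh', hc', hf', hg'', hh''⟩ :=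
    Groth.Agent.H3EtLift.exists_etale_lift_monic_factorization' I f hfm
      ((X : (A ⧸ I)[X]) ^ n) ((X - 1) ^ n)
      (monic_X_pow n) (by rw [hX1]; exact (monic_X_sub_C 1).pow n) hcop hfI
  obtain ⟨u, v, huv⟩ := hc'
  let M' : Matrix (Fin n) (Fin n) A' := M.map (algebraMap A A')
  let ev : A'[X] →ₐ[A'] Matrix (Fin n) (Fin n) A' := aeval M'
  have hcomm : ∀ a b : A'[X], ev a * ev b = ev b * ev a := by
    intro a b; rw [← map_mul, mul_comm, map_mul]
  have hev0 : ev (f.map (algebraMap A A')) = 0 := by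
    have h1 : ev (f.map (algebraMap A A')) = aeval M' f := by
      simp only [ev]
      rw [aeval_map_algebraMap]
    rw [h1]
    have h2 : M' = (Algebra.ofId A A').mapMatrix M := rfl
    rw [h2, aeval_algHom_apply, hfM, map_zero]
  have hgh0 : ev (g' * h') = 0 := by rw [← hf', hev0]
  let E' := ev (u * g')
  have hE' : E' * E' = E' := by
    change ev (u * g') * ev (u * g') = ev (u * g')
    rw [← map_mul]
    have h1 : u * g' * (u * g') = u * g' - (u * v) * (g' * h') := by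
      linear_combination (u * g') * huv
    rw [h1, map_sub, map_mul ev (u * v), hgh0, mul_zero, sub_zero]
  refine ⟨A', i1, i2, hA', hbij, E', hE', ?_⟩
  set J := I.map (algebraMap A A') with hJ
  let π : A' →+* A' ⧸ J := Ideal.Quotient.mk J
  let E₂ : Matrix (Fin n) (Fin n) (A' ⧸ J) := E.map (algebraMap (A ⧸ I) (A' ⧸ J))
  have hE₂ : M'.map π = E₂ := by
    change (M.map (algebraMap A A')).map π = E.map (algebraMap (A ⧸ I) (A' ⧸ J))
    rw [← hME]; ext i j; rfl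
  have hE₂i : E₂ * E₂ = E₂ := by
    change (algebraMap (A ⧸ I) (A' ⧸ J)).mapMatrix E * (algebraMap (A ⧸ I) (A' ⧸ J)).mapMatrix E = (algebraMap (A ⧸ I) (A' ⧸ J)).mapMatrix E
    rw [← map_mul, hE]
  have hmap : ∀ a : A'[X], (ev a).map π = aeval E₂ (a.map π) := by
    intro a
    have h1 : (ev a).map π = (Ideal.Quotient.mkₐ A' J).mapMatrix (aeval M' a) := rfl
    rw [h1, ← aeval_algHom_apply]
    have h2 : (Ideal.Quotient.mkₐ A' J).mapMatrix M' = E₂ := hE₂
    rw [h2]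
    have h3 : a.map π = a.map (algebraMap A' (A' ⧸ J)) := rfl
    rw [h3, aeval_map_algebraMap]
  change (ev (u * g')).map π = E₂
  rw [hmap, Polynomial.map_mul]
  have hg3 : g'.map π = X ^ n := by
    change g'.map (Ideal.Quotient.mk J) = _
    rw [hg'']; simp
  have hh3 : h'.map π = (X - 1) ^ n := by
    change h'.map (Ideal.Quotient.mk J) = _
    rw [hh'']; simp
  have huv3 : u.map π * X ^ n + v.map π * (X - 1) ^ n = 1 := by
    rw [← hg3, ← hh3, ← Polynomial.map_mul, ← Polynomial.map_mul, ← Polynomial.map_add, huv, Polynomial.map_one]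
  rw [hg3]
  rcases Nat.eq_zero_or_pos n with hn | hn
  · subst hn
    ext i; exact i.elim0
  · obtain ⟨m, rfl⟩ := Nat.exists_eq_succ_of_ne_zero hn.ne'
    have hpow : E₂ ^ (m + 1) = E₂ := by
      have : IsIdempotentElem E₂ := hE₂i
      exact this.pow_succ_eq m
    have hz : E₂ * (E₂ - 1) = 0 := by rw [mul_sub, hE₂i, mul_one, sub_self]
    have h1 := congrArg (fun p => aeval E₂ (p * X)) huv3
    simp only [add_mul, map_add, map_mul, map_pow, aeval_X, map_sub, map_one, one_mul] at h1 ⊢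
    have h2 : (E₂ - 1) ^ (m + 1) * E₂ = 0 := by
      have h3 : (E₂ - 1) * E₂ = 0 := by rw [sub_mul, hE₂i, one_mul, sub_self]
      rw [pow_succ, mul_assoc, h3, mul_zero]
    rw [mul_assoc _ ((E₂ - 1) ^ (m + 1)), h2, mul_zero, add_zero, mul_assoc, ← pow_succ] at h1
    have h4 : E₂ ^ (m + 1 + 1) = E₂ ^ (m + 1) := by rw [pow_succ, hpow, hE₂i]
    rw [h4] at h1
    exact h1

theorem main {A : Type u} [CommRing A] (I : Ideal A) (P : Type u)
    [AddCommGroup P] [Module (A ⧸ I) P] [Module.Finite (A ⧸ I) P] [Module.Projective (A ⧸ I) P] :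
    ∃ (A' : Type u) (_ : CommRing A') (_ : Algebra A A'), Algebra.Etale A A' ∧
      Function.Bijective (algebraMap (A ⧸ I) (A' ⧸ I.map (algebraMap A A'))) ∧
      ∃ (P' : Type u) (_ : AddCommGroup P') (_ : Module A' P'), Module.Finite A' P' ∧
        Module.Projective A' P' ∧
        Nonempty (((A' ⧸ I.map (algebraMap A A')) ⊗[A'] P') ≃ₗ[A' ⧸ I.map (algebraMap A A')]
          ((A' ⧸ I.map (algebraMap A A')) ⊗[A ⧸ I] P)) := by
  obtain ⟨n, E, i, p, hpi, hip⟩ := exists_split (A ⧸ I) P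
  have hE := split_idem E i p hpi hip
  obtain ⟨A', i1, i2, hA', hbij, E', hE', hEE'⟩ := exists_lift_idem I E hE
  obtain ⟨P', j1, j2, j3, j4, i', p', hpi', hip'⟩ := exists_split_of_idem E' hE'
  refine ⟨A', i1, i2, hA', hbij, P', j1, j2, j3, j4, ?_⟩
  obtain ⟨a1, b1, c1, d1⟩ := baseChange_split (S := A' ⧸ I.map (algebraMap A A')) E' i' p' hpi' hip'
  obtain ⟨a2, b2, c2, d2⟩ := baseChange_split (S := A' ⧸ I.map (algebraMap A A')) E i p hpi hip
  refine equiv_of_split a1 b1 a2 b2 c1 c2 ?_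
  rw [d1, d2, ← hEE']
  rfl

end Groth.Agent.H3Proj
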