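import Groth.Agent.Lib.H3Norm
import Mathlib.AlgebraicGeometry.PullbackCarrier
import Mathlib.AlgebraicGeometry.Morphisms.UniversallyOpen
import Mathlib.AlgebraicGeometry.Morphisms.QuasiCompact

set_option autoImplicit false
universe u

namespace Groth.Agent.H3Sat

open CategoryTheory CategoryTheory.Limits AlgebraicGeometry Topology

theorem exists_specializes_of_mem_closure_comap {A B : Type*} [CommRing A] [CommRing B] (φ : A →+* B)
    (Z : Set (PrimeSpectrum B)) (hZ : IsClosed Z) (y : PrimeSpectrum A)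
    (hy : y ∈ closure (PrimeSpectrum.comap φ '' Z)) :
    ∃ x ∈ Z, PrimeSpectrum.comap φ x ⤳ y := by
  obtain ⟨I, rfl⟩ := (PrimeSpectrum.isClosed_iff_zeroLocus_ideal Z).mp hZ
  have h1 : y ∈ PrimeSpectrum.zeroLocus ((I.comap φ : Ideal A) : Set A) := by
    have h2 : PrimeSpectrum.comap φ '' PrimeSpectrum.zeroLocus (I : Set B) ⊆
        PrimeSpectrum.zeroLocus ((I.comap φ : Ideal A) : Set A) := by
      rintro _ ⟨x, hx, rfl⟩
      exact Ideal.comap_mono hx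
    exact closure_minimal h2 (PrimeSpectrum.isClosed_zeroLocus _) hy
  have h3 : I.comap φ ≤ y.asIdeal := h1
  obtain ⟨p, hp, hpy⟩ := Ideal.exists_minimalPrimes_le h3
  obtain ⟨q, hq, hIq, hqp⟩ := Ideal.exists_comap_eq_of_mem_minimalPrimes φ p hp
  refine ⟨⟨q, hq⟩, hIq, ?_⟩
  rw [← PrimeSpectrum.le_iff_specializes]
  change Ideal.comap φ q ≤ y.asIdeal
  rw [hqp]; exact hpy

theorem exists_specializes_of_mem_closure_image {X Y : Scheme.{u}} (f : X ⟶ Y) [QuasiCompact f]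
    (Z : Set X) (hZ : IsClosed Z) (y : Y) (hy : y ∈ closure (⇑f '' Z)) :
    ∃ x ∈ Z, f x ⤳ y := by
  obtain ⟨_, ⟨V, hV, rfl⟩, hyV, -⟩ := Y.isBasis_affineOpens.exists_subset_of_mem_open (Set.mem_univ y) isOpen_univ
  have hV' : IsAffineOpen V := hV
  have hc : IsCompact ((f ⁻¹ᵁ V : X.Opens) : Set X) := f.isCompact_preimage hV'.isCompact
  obtain ⟨R, g, hg⟩ := isCompact_iff_exists.mp hc
  have hr : Set.range (g ≫ f) ⊆ Set.range hV'.fromSpec := by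
    rintro _ ⟨a, rfl⟩
    rw [hV'.range_fromSpec]
    have : g a ∈ ((f ⁻¹ᵁ V : X.Opens) : Set X) := by rw [← hg]; exact ⟨a, rfl⟩
    simpa using this
  let l : Spec R ⟶ Spec Γ(Y, V) := IsOpenImmersion.lift hV'.fromSpec (g ≫ f) hr
  have hl : l ≫ hV'.fromSpec = g ≫ f := IsOpenImmersion.lift_fac _ _ _
  obtain ⟨φ, hφ⟩ := Spec.homEquiv.symm.surjective l
  have hφ' : Spec.map φ = l := hφ
  have hyr : y ∈ Set.range hV'.fromSpec := by rw [hV'.range_fromSpec]; exact hyV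
  obtain ⟨y', rfl⟩ := hyr
  have hcl : (y' : PrimeSpectrum Γ(Y, V)) ∈ closure (PrimeSpectrum.comap φ.hom '' (g ⁻¹' Z)) := by
    have hemb : IsOpenEmbedding (hV'.fromSpec : _ → Y) := hV'.fromSpec.isOpenEmbedding
    rw [mem_closure_iff] at hy
    refine mem_closure_iff.mpr ?_
    intro O hO hyO
    obtain ⟨_, hw1, ⟨x, hxZ, rfl⟩⟩ := hy (hV'.fromSpec '' O) (hemb.isOpenMap _ hO) ⟨y', hyO, rfl⟩
    obtain ⟨w, hwO, hw⟩ := hw1
    have hx : x ∈ ((f ⁻¹ᵁ V : X.Opens) : Set X) := by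
      change f x ∈ V
      have : f x ∈ Set.range hV'.fromSpec := ⟨w, hw⟩
      rw [hV'.range_fromSpec] at this
      exact this
    rw [← hg] at hx
    obtain ⟨a, rfl⟩ := hx
    refine ⟨w, hwO, a, hxZ, ?_⟩
    apply hemb.injective
    rw [hw]
    have h5 : hV'.fromSpec (l a) = f (g a) := by
      rw [← Scheme.Hom.comp_apply, ← Scheme.Hom.comp_apply, hl]
    rw [← h5, ← hφ']
    rfl
  obtain ⟨x, hx, hxs⟩ := exists_specializes_of_mem_closure_comap φ.hom (g ⁻¹' Z)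
    (hZ.preimage g.continuous) y' hcl
  refine ⟨g x, hx, ?_⟩
  have h6 := hxs.map hV'.fromSpec.continuous
  have h5 : hV'.fromSpec (l x) = f (g x) := by
    rw [← Scheme.Hom.comp_apply, ← Scheme.Hom.comp_apply, hl]
  rw [← h5, ← hφ']
  exact h6

variable {S : Scheme.{u}} (G : Grpd.GroupoidScheme S)

theorem rel_trans (r₁ r₂ : G.R) (h : G.s r₁ = G.t r₂) : ∃ r₃ : G.R, G.s r₃ = G.s r₂ ∧ G.t r₃ = G.t r₁ := by
  obtain ⟨z, hz1, hz2⟩ := Scheme.Pullback.exists_preimage_pullback r₁ r₂ h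
  refine ⟨G.c z, ?_, ?_⟩
  · rw [← Scheme.Hom.comp_apply, H3Norm.c_s, Scheme.Hom.comp_apply, hz2]
  · rw [← Scheme.Hom.comp_apply, H3Norm.c_t, Scheme.Hom.comp_apply, hz1]

theorem rel_symm (r : G.R) : ∃ r' : G.R, G.s r' = G.t r ∧ G.t r' = G.s r := by
  refine ⟨G.i r, ?_, ?_⟩
  · rw [← Scheme.Hom.comp_apply, G.i_s]
  · rw [← Scheme.Hom.comp_apply, G.i_t]

theorem rel_refl (u : G.U) : ∃ r : G.R, G.s r = u ∧ G.t r = u := by
  refine ⟨G.e u, ?_, ?_⟩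
  · rw [← Scheme.Hom.comp_apply, G.e_s]; rfl
  · rw [← Scheme.Hom.comp_apply, G.e_t]; rfl

theorem exists_compact_open {X : Scheme.{u}} (K : Set X) (hK : IsCompact K) (O : X.Opens) (hKO : K ⊆ O) :
    ∃ V : X.Opens, IsCompact (V : Set X) ∧ K ⊆ V ∧ V ≤ O := by
  choose W hW using fun x : K => X.isBasis_affineOpens.exists_subset_of_mem_open (hKO x.2) O.2
  obtain ⟨t, ht⟩ := hK.elim_finite_subcover (fun x : K => (W x : Set X)) (by
      intro x
      obtain ⟨V, hV, hVe⟩ := (hW x).1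
      change IsOpen (W x)
      rw [← hVe]; exact V.2) (fun x hx => Set.mem_iUnion.mpr ⟨⟨x, hx⟩, (hW ⟨x, hx⟩).2.1⟩)
  refine ⟨⟨⋃ x ∈ t, W x, ?_⟩, ?_, ht, ?_⟩
  · refine isOpen_biUnion fun x _ => ?_
    obtain ⟨V, hV, hVe⟩ := (hW x).1
    rw [← hVe]; exact V.2
  · refine t.finite_toSet.isCompact_biUnion fun x _ => ?_
    obtain ⟨V, hV, hVe⟩ := (hW x).1
    rw [← hVe]; exact IsAffineOpen.isCompact hV
  · intro x hx
    change x ∈ ⋃ x ∈ t, W x at hx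
    rw [Set.mem_iUnion₂] at hx
    obtain ⟨y, _, hy⟩ := hx
    exact (hW y).2.2 hy

theorem isCompact_sat [QuasiCompact G.s] (W : G.U.Opens) (hW : IsCompact (W : Set G.U)) :
    IsCompact (⇑G.t '' (⇑G.s ⁻¹' (W : Set G.U))) :=
  (G.s.isCompact_preimage hW).image G.t.continuous

theorem sat_generalize [Flat G.t] (W : G.U.Opens) (x y : G.U) (hxy : x ⤳ y)
    (hy : y ∈ ⇑G.t '' (⇑G.s ⁻¹' (W : Set G.U))) : x ∈ ⇑G.t '' (⇑G.s ⁻¹' (W : Set G.U)) := by
  obtain ⟨r, hr, rfl⟩ := hy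
  obtain ⟨r', hr', rfl⟩ := Flat.generalizingMap G.t hxy
  refine ⟨r', ?_, rfl⟩
  exact (hr'.map G.s.continuous).mem_open W.2 hr

theorem sInter [QuasiCompact G.s] [Flat G.t] (W : G.U.Opens) (hW : IsCompact (W : Set G.U)) :
    ∃ (ι : Type u) (_ : Nonempty ι) (V : ι → G.U.Opens), (∀ i, IsCompact (V i : Set G.U)) ∧
      ⇑G.t '' (⇑G.s ⁻¹' (W : Set G.U)) = ⋂ i, (V i : Set G.U) := by
  obtain ⟨V0, hV0, hV0', -⟩ := exists_compact_open _ (isCompact_sat G W hW) ⊤ (fun _ _ => trivial)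
  refine ⟨{V : G.U.Opens // IsCompact (V : Set G.U) ∧ ⇑G.t '' (⇑G.s ⁻¹' (W : Set G.U)) ⊆ V},
    ⟨⟨V0, hV0, hV0'⟩⟩, fun V => V.1, fun V => V.2.1, ?_⟩
  apply Set.Subset.antisymm
  · exact Set.subset_iInter fun V => V.2.2
  · intro x hx
    by_contra hxn
    have h1 : ⇑G.t '' (⇑G.s ⁻¹' (W : Set G.U)) ⊆ (closure {x})ᶜ := by
      intro y hy hyx
      apply hxn
      exact sat_generalize G W x y (specializes_iff_mem_closure.mpr hyx) hy
    obtain ⟨V1, hV1, hV1', hV1''⟩ := exists_compact_open _ (isCompact_sat G W hW)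
      ⟨(closure {x})ᶜ, isClosed_closure.isOpen_compl⟩ h1
    have h2 := Set.mem_iInter.mp hx ⟨V1, hV1, hV1'⟩
    exact hV1'' h2 (subset_closure rfl)

theorem between [QuasiCompact G.s] [Flat G.s] [QuasiCompact G.t] [Flat G.t] (W : G.U.Opens) (hW : IsCompact (W : Set G.U)) :
    ∃ V W' : G.U.Opens, G.s ⁻¹ᵁ V = G.t ⁻¹ᵁ V ∧ IsCompact (W' : Set G.U) ∧ W ≤ V ∧ V ≤ W' := by
  obtain ⟨W', hW', hEW', -⟩ := exists_compact_open _ (isCompact_sat G W hW) ⊤ (fun _ _ => trivial)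
  set Z : Set G.U := (W' : Set G.U)ᶜ with hZ
  have hZc : IsClosed Z := W'.2.isClosed_compl
  set A : Set G.U := ⇑G.t '' (⇑G.s ⁻¹' Z) with hA
  have hcl : ∀ y ∈ closure A, ∃ a ∈ A, a ⤳ y := by
    intro y hy
    obtain ⟨x, hx, hxy⟩ := exists_specializes_of_mem_closure_image G.t _ (hZc.preimage G.s.continuous) y hy
    exact ⟨_, ⟨x, hx, rfl⟩, hxy⟩
  have hAs : ∀ r : G.R, G.s r ∈ A → G.t r ∈ A := by
    rintro r ⟨r', hr', hr'e⟩
    obtain ⟨r₃, h3, h3'⟩ := rel_trans G r r' hr'e.symm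
    refine ⟨r₃, ?_, h3'⟩
    change G.s r₃ ∈ Z
    rw [h3]; exact hr'
  have hAt : ∀ r : G.R, G.t r ∈ A → G.s r ∈ A := by
    intro r hr
    obtain ⟨r', h1, h2⟩ := rel_symm G r
    rw [← h2]; apply hAs; rw [h1]; exact hr
  have hcs : ∀ r : G.R, G.s r ∈ closure A → G.t r ∈ closure A := by
    intro r hr
    obtain ⟨a, ha, har⟩ := hcl _ hr
    obtain ⟨r', hr', rfl⟩ := Flat.generalizingMap G.s har
    exact (hr'.map G.t.continuous).mem_closed isClosed_closure (subset_closure (hAs _ ha))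
  have hct : ∀ r : G.R, G.t r ∈ closure A → G.s r ∈ closure A := by
    intro r hr
    obtain ⟨r', h1, h2⟩ := rel_symm G r
    rw [← h2]; apply hcs; rw [h1]; exact hr
  refine ⟨⟨(closure A)ᶜ, isClosed_closure.isOpen_compl⟩, W', ?_, hW', ?_, ?_⟩
  · ext r
    change ¬ (G.s r ∈ closure A) ↔ ¬ (G.t r ∈ closure A)
    exact not_congr ⟨hcs r, hct r⟩
  · intro w hw hwA
    obtain ⟨a, ha, haw⟩ := hcl _ hwA
    have haW : a ∈ W := haw.mem_open W.2 hw
    obtain ⟨r, hr, hra⟩ := ha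
    obtain ⟨r', h1, h2⟩ := rel_symm G r
    have : G.s r ∈ W' := hEW' ⟨r', by change G.s r' ∈ W; rw [h1, hra]; exact haW, h2⟩
    exact hr this
  · intro x hx
    by_contra hxn
    apply hx
    apply subset_closure
    obtain ⟨r, h1, h2⟩ := rel_refl G x
    exact ⟨r, by change G.s r ∈ Z; rw [h1]; exact hxn, h2⟩

end Groth.Agent.H3Sat
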