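import Groth.Prelude.Def_Smoothing
import Mathlib.RingTheory.Smooth.StandardSmooth
import Mathlib.LinearAlgebra.Matrix.Charpoly.LinearMap
import Mathlib.RingTheory.Extension.Presentation.Submersive

set_option autoImplicit false
universe u
open Smoothing

namespace Groth.Agent.H3Std

/-- Determinant trick. -/
theorem exists_pow_add_mem {Q : Type u} [CommRing Q] (I I₀ : Ideal Q) (hI : I.FG)
    (α : Q) (h : ∀ x ∈ I, α * x ∈ I₀ ⊔ I ^ 2) :
    ∃ (g : Q) (k : ℕ), g - α ^ k ∈ I ∧ ∀ x ∈ I, g * x ∈ I₀ := by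
  let N : Submodule Q I := Submodule.comap (Submodule.subtype I) I₀
  have hfin : Module.Finite Q I := Module.Finite.iff_fg.mpr hI
  let M := I ⧸ N
  let φ : M →ₗ[Q] M := α • LinearMap.id
  have hφ : LinearMap.range φ ≤ I • (⊤ : Submodule Q M) := by
    rintro _ ⟨x, rfl⟩
    obtain ⟨x, rfl⟩ := Submodule.Quotient.mk_surjective N x
    have hx := h x.1 x.2
    obtain ⟨y, hy, z, hz, hyz⟩ := Submodule.mem_sup.mp hx
    have hzI : z ∈ I := Ideal.pow_le_self two_ne_zero hz
    have hyI : y ∈ I := by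
      have : y = α * x.1 - z := by rw [← hyz]; ring
      rw [this]
      exact I.sub_mem (I.mul_mem_left _ x.2) hzI
    have h1 : φ (Submodule.Quotient.mk x) = (Submodule.Quotient.mk ⟨z, hzI⟩ : M) := by
      change α • (Submodule.Quotient.mk x : M) = _
      rw [← Submodule.Quotient.mk_smul, Submodule.Quotient.eq]
      change (α • x - ⟨z, hzI⟩ : I).1 ∈ I₀
      have : (α • x - ⟨z, hzI⟩ : I).1 = y := by
        change α * x.1 - z = y
        rw [← hyz]; ring
      rw [this]; exact hy
    rw [h1]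
    -- z ∈ I ^ 2
    have h2 : ∀ w (hw : w ∈ I * I), ∃ hwI : w ∈ I, (Submodule.Quotient.mk ⟨w, hwI⟩ : M) ∈ I • (⊤ : Submodule Q M) := by
      intro w hw
      refine Submodule.mul_induction_on hw ?_ ?_
      · intro a ha b hb
        refine ⟨I.mul_mem_left _ hb, ?_⟩
        have : (Submodule.Quotient.mk ⟨a * b, I.mul_mem_left _ hb⟩ : M) = a • (Submodule.Quotient.mk ⟨b, hb⟩ : M) := rfl
        rw [this]
        exact Submodule.smul_mem_smul ha Submodule.mem_top
      · rintro a b ⟨ha, ha'⟩ ⟨hb, hb'⟩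
        refine ⟨I.add_mem ha hb, ?_⟩
        exact Submodule.add_mem _ ha' hb'
    obtain ⟨_, h3⟩ := h2 z (by rw [← sq]; exact hz)
    exact h3
  obtain ⟨p, hp, -, hpI, hp0⟩ :=
    LinearMap.exists_monic_and_natDegree_eq_and_coeff_mem_pow_and_aeval_eq_zero Q φ I hφ
  refine ⟨p.eval α, p.natDegree, ?_, ?_⟩
  · rw [Polynomial.eval_eq_sum_range, Finset.sum_range_succ, show p.coeff p.natDegree = 1 from hp, one_mul,
      add_sub_cancel_right]
    refine I.sum_mem fun i hi => I.mul_mem_right _ ?_
    have h1 := hpI i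
    have : p.natDegree - i ≠ 0 := by
      have := Finset.mem_range.mp hi; omega
    exact Ideal.pow_le_self this h1
  · intro x hx
    have h1 : Polynomial.aeval φ p (Submodule.Quotient.mk ⟨x, hx⟩ : M) = 0 := by rw [hp0]; rfl
    have h2 : Polynomial.aeval φ p = (p.eval α) • (LinearMap.id : M →ₗ[Q] M) := by
      have h3 : φ = algebraMap Q (Module.End Q M) α := rfl
      rw [h3, Polynomial.aeval_algebraMap_apply]
      rfl
    rw [h2] at h1
    have h4 : (Submodule.Quotient.mk ((p.eval α) • (⟨x, hx⟩ : I)) : M) = 0 := h1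
    rw [Submodule.Quotient.mk_eq_zero] at h4
    exact h4

theorem isStandardSmooth_of_elementary {R A : Type u} [CommRing R] [CommRing A]
    [Algebra R A] (a : A) (n m c : ℕ) (hcn : c ≤ n) (hcm : c ≤ m)
    (rel : Fin m → MvPolynomial (Fin n) R) (hom : MvPolynomial (Fin n) R →ₐ[R] A)
    (surj : Function.Surjective hom)
    (ker_eq : RingHom.ker hom.toRingHom = Ideal.span (Set.range rel)) (a' : A)
    (ha' : a = a' * hom (jacobianMinor rel (Fin.castLE hcm) (Fin.castLE hcn)))
    (α : MvPolynomial (Fin n) R) (hα : hom α = a)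
    (hk : ∀ j : Fin m, c ≤ (j : ℕ) →
      α * rel j ∈ Ideal.span (rel '' {j' : Fin m | (j' : ℕ) < c}) ⊔ Ideal.span (Set.range rel) ^ 2) :
    Algebra.IsStandardSmooth R (Localization.Away a) := by
  let v : Fin c → MvPolynomial (Fin n) R := fun j => rel (Fin.castLE hcm j)
  have hv : Set.range v = rel '' {j' : Fin m | (j' : ℕ) < c} := by
    ext x
    constructor
    · rintro ⟨j, rfl⟩
      exact ⟨Fin.castLE hcm j, j.2, rfl⟩
    · rintro ⟨j, hj, rfl⟩
      exact ⟨⟨j, hj⟩, rfl⟩
  let I := Ideal.span (Set.range rel)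
  let I₀ := Ideal.span (Set.range v)
  have hI₀I : I₀ ≤ I := Ideal.span_mono (by rintro _ ⟨j, rfl⟩; exact ⟨_, rfl⟩)
  have hα2 : ∀ x ∈ I, α * x ∈ I₀ ⊔ I ^ 2 := by
    intro x hx
    refine Submodule.span_induction (p := fun x _ => α * x ∈ I₀ ⊔ I ^ 2) ?_ ?_ ?_ ?_ hx
    · rintro _ ⟨j, rfl⟩
      by_cases hj : c ≤ (j : ℕ)
      · have := hk j hj
        rw [← hv] at this
        exact this
      · refine Ideal.mem_sup_left (I₀.mul_mem_left _ (Ideal.subset_span ?_))
        rw [hv]
        exact ⟨j, not_le.mp hj, rfl⟩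
    · rw [mul_zero]; exact Submodule.zero_mem _
    · intro x y _ _ hx hy
      rw [mul_add]; exact Submodule.add_mem _ hx hy
    · intro r x _ hx
      have : α * (r • x) = r * (α * x) := by rw [smul_eq_mul]; ring
      rw [this]
      exact Ideal.mul_mem_left _ _ hx
  obtain ⟨g0, k, hg0, hg0I⟩ := exists_pow_add_mem I I₀ (Submodule.fg_span (Set.finite_range _)) α hα2
  let g := g0 * α
  have hgI : ∀ x ∈ I, g * x ∈ I₀ := by
    intro x hx
    have : g * x = α * (g0 * x) := by simp only [g]; ring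
    rw [this]
    exact I₀.mul_mem_left _ (hg0I x hx)
  have hhomI : ∀ x ∈ I, hom x = 0 := by
    intro x hx
    have : x ∈ RingHom.ker hom.toRingHom := by rw [ker_eq]; exact hx
    exact this
  have hhomg : hom g = a ^ (k + 1) := by
    have h1 : hom g0 = a ^ k := by
      have := hhomI _ hg0
      rw [map_sub, map_pow, hα, sub_eq_zero] at this
      exact this
    simp only [g]
    rw [map_mul, h1, hα, pow_succ]
  let T := MvPolynomial (Fin n) R ⧸ I₀
  let π : T →ₐ[R] A := Ideal.Quotient.liftₐ I₀ hom (fun x hx => hhomI x (hI₀I hx))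
  have hπ : Function.Surjective π := by
    intro x
    obtain ⟨y, rfl⟩ := surj x
    exact ⟨Ideal.Quotient.mk I₀ y, rfl⟩
  let gT : T := Ideal.Quotient.mk I₀ g
  have hgT : ∀ t : T, π t = 0 → gT * t = 0 := by
    intro t ht
    obtain ⟨x, rfl⟩ := Ideal.Quotient.mk_surjective t
    have hx : x ∈ RingHom.ker hom.toRingHom := ht
    rw [ker_eq] at hx
    have := hgI x hx
    change Ideal.Quotient.mk I₀ g * Ideal.Quotient.mk I₀ x = 0
    rw [← map_mul]
    exact Ideal.Quotient.eq_zero_iff_mem.mpr this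
  have hπg : π gT = a ^ (k + 1) := hhomg
  let S := Localization.Away a
  let ψ : T →ₐ[R] S := (IsScalarTower.toAlgHom R A S).comp π
  let _ : Algebra T S := ψ.toAlgebra
  have _ : IsScalarTower R T S := .of_algebraMap_eq' ψ.comp_algebraMap.symm
  have hψ : ∀ t : T, algebraMap T S t = algebraMap A S (π t) := fun t => rfl
  have haU : IsUnit (algebraMap A S a) := IsLocalization.Away.algebraMap_isUnit a
  have hloc : IsLocalization.Away gT S := by
    refine ⟨?_, ?_, ?_⟩
    · rintro ⟨_, N, rfl⟩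
      rw [hψ]
      change IsUnit (algebraMap A S (π (gT ^ N)))
      rw [map_pow, hπg, ← pow_mul, map_pow]
      exact haU.pow _
    · intro s
      obtain ⟨N, x, hx⟩ := IsLocalization.Away.surj a s
      obtain ⟨t, ht⟩ := hπ (x * a ^ (k * N))
      refine ⟨(t, ⟨gT ^ N, N, rfl⟩), ?_⟩
      simp only
      rw [hψ, hψ, ht, map_pow π, hπg, map_mul, ← hx, ← pow_mul, map_pow, map_pow, mul_assoc, ← pow_add]
      congr 2
      ring
    · intro x y hxy
      rw [hψ, hψ] at hxy
      rw [← sub_eq_zero, ← map_sub, ← map_sub] at hxy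
      obtain ⟨⟨_, N, rfl⟩, hN⟩ := (IsLocalization.map_eq_zero_iff (Submonoid.powers a) S _).mp hxy
      refine ⟨⟨gT ^ (N + 1), N + 1, rfl⟩, ?_⟩
      have h1 : gT * (gT ^ N * (x - y)) = 0 := by
        apply hgT
        rw [map_mul, map_pow, hπg, ← pow_mul]
        have : (k + 1) * N = k * N + N := by ring
        rw [this, pow_add, mul_assoc]
        have hN' : a ^ N * π (x - y) = 0 := hN
        rw [hN', mul_zero]
      simp only
      rw [← sub_eq_zero, ← h1]
      ring
  let P1 : Algebra.PreSubmersivePresentation R T (Fin n) (Fin c) :=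
    Algebra.PreSubmersivePresentation.naive (v := v) (Fin.castLE hcn) (Fin.castLE_injective hcn)
  let P2 : Algebra.PreSubmersivePresentation T S Unit Unit :=
    Algebra.PreSubmersivePresentation.localizationAway S gT
  have hP1 : P1.jacobian = Ideal.Quotient.mk I₀ (jacobianMinor rel (Fin.castLE hcm) (Fin.castLE hcn)) := by
    rw [Algebra.PreSubmersivePresentation.jacobian_eq_jacobiMatrix_det]
    have : P1.jacobiMatrix.det = jacobianMinor rel (Fin.castLE hcm) (Fin.castLE hcn) := by
      unfold jacobianMinor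
      rw [← Matrix.det_transpose]
      congr 1
      refine Matrix.ext fun i j => ?_
      rw [Matrix.of_apply, Matrix.transpose_apply]
      exact Algebra.PreSubmersivePresentation.jacobiMatrix_naive (ι := Fin c) (σ := Fin n) (R := R) (v := v)
        (Fin.castLE hcn) (Fin.castLE_injective hcn) _ _ _ _
    rw [this]
    rfl
  have hunit : IsUnit (P2.comp P1).jacobian := by
    rw [Algebra.PreSubmersivePresentation.comp_jacobian_eq_jacobian_smul_jacobian,
      Algebra.PreSubmersivePresentation.localizationAway_jacobian, Algebra.smul_def, IsUnit.mul_iff]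
    refine ⟨?_, IsLocalization.Away.algebraMap_isUnit gT⟩
    rw [hP1, hψ]
    have h1 : IsUnit (algebraMap A S (a' * hom (jacobianMinor rel (Fin.castLE hcm) (Fin.castLE hcn)))) := by
      rw [← ha']; exact haU
    rw [map_mul] at h1
    exact isUnit_of_mul_isUnit_right h1
  exact Algebra.SubmersivePresentation.isStandardSmooth
    (⟨P2.comp P1, hunit⟩ : Algebra.SubmersivePresentation R S (Unit ⊕ Fin n) (Unit ⊕ Fin c))

end Groth.Agent.H3Std
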