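import Groth.Agent.Lib.H3Mor
import Mathlib.AlgebraicGeometry.Stalk
import Mathlib.AlgebraicGeometry.Morphisms.WeaklyEtale
set_option autoImplicit false
universe u
namespace Groth.Agent.H3WEStalk
open AlgebraicGeometry CategoryTheory Limits

instance flat_fromSpecStalk (X : Scheme.{u}) (x : X) : Flat (X.fromSpecStalk x) := by
  obtain ⟨_, ⟨V, hV, rfl⟩, hxV, -⟩ := X.isBasis_affineOpens.exists_subset_of_mem_open
    (Set.mem_univ x) isOpen_univ
  have hV' : IsAffineOpen V := hV
  rw [← hV'.fromSpecStalk_eq_fromSpecStalk hxV]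
  dsimp only [IsAffineOpen.fromSpecStalk]
  have : Flat (Spec.map (X.presheaf.germ V x hxV)) := by
    rw [Flat.SpecMap_iff]
    let _ : Algebra Γ(X, V) (X.presheaf.stalk x) := (X.presheaf.germ V x hxV).hom.toAlgebra
    have := hV'.isLocalization_stalk ⟨x, hxV⟩
    exact IsLocalization.flat (R := Γ(X, V)) (S := X.presheaf.stalk x)
      (hV'.primeIdealOf ⟨x, hxV⟩).asIdeal.primeCompl
  infer_instance

instance weaklyEtale_of_mono {X Y : Scheme.{u}} (f : X ⟶ Y) [Flat f] [Mono f] : WeaklyEtale f where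
  flat_diagonal := by infer_instance

theorem weaklyEtale_SpecMap_iff {A B : CommRingCat.{u}} (φ : A ⟶ B) :
    WeaklyEtale (Spec.map φ) ↔ φ.hom.Flat ∧
      (letI := φ.hom.toAlgebra
       (Algebra.TensorProduct.lmul' (S := ↑B) (↑A)).toRingHom.Flat) := by
  rw [weaklyEtale_iff, Flat.SpecMap_iff]
  refine and_congr Iff.rfl ?_
  letI := φ.hom.toAlgebra
  have h := diagonal_SpecMap A B
  change Flat (pullback.diagonal (Spec.map (CommRingCat.ofHom (algebraMap A B)))) ↔ _
  rw [h, MorphismProperty.cancel_right_of_respectsIso @Flat, Flat.SpecMap_iff]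
  rfl

theorem weaklyEtale_iff_stalk {X Y : Scheme.{u}} (f : X ⟶ Y) :
    WeaklyEtale f ↔ ∀ x : X, WeaklyEtale (Spec.map (f.stalkMap x)) := by
  constructor
  · intro h x
    have h1 : WeaklyEtale (Spec.map (f.stalkMap x) ≫ Y.fromSpecStalk _) := by
      rw [Scheme.SpecMap_stalkMap_fromSpecStalk]; infer_instance
    exact WeaklyEtale.of_comp _ (Y.fromSpecStalk (f x))
  · intro h
    let T : Scheme.{u} := ∐ fun x : X => Spec (X.presheaf.stalk x)
    let π : T ⟶ X := Sigma.desc fun x : X => X.fromSpecStalk x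
    have hπ : Flat π := inferInstance
    have hπs : Surjective π := by
      constructor
      intro x
      refine ⟨Sigma.ι (fun x : X => Spec (X.presheaf.stalk x)) x (IsLocalRing.closedPoint _), ?_⟩
      rw [← Scheme.Hom.comp_apply]
      have : Sigma.ι (fun x : X => Spec (X.presheaf.stalk x)) x ≫ π = X.fromSpecStalk x := by simp [π]
      rw [this]
      exact Scheme.fromSpecStalk_closedPoint
    have hπf : WeaklyEtale (π ≫ f) := by
      apply IsZariskiLocalAtSource.of_openCover (P := @WeaklyEtale) (sigmaOpenCover _)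
      intro x
      have h3 : (sigmaOpenCover fun x : X => Spec (X.presheaf.stalk x)).f x ≫ π ≫ f =
          X.fromSpecStalk x ≫ f := by
        change Sigma.ι (fun x : X => Spec (X.presheaf.stalk x)) x ≫ π ≫ f = _
        rw [← Category.assoc]; congr 1; simp [π]
      rw [h3, ← Scheme.SpecMap_stalkMap_fromSpecStalk]
      have h6 : WeaklyEtale (Spec.map (f.stalkMap x)) := h x
      exact MorphismProperty.comp_mem @WeaklyEtale (Spec.map (f.stalkMap x)) (Y.fromSpecStalk (f x)) h6 inferInstance
    have h4 : Flat f := H3Mor.flat_descends π f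
    have h5 : Flat (pullback.diagonal f) := H3Mor.t1413 π f
    exact ⟨h4, h5⟩

theorem t1412 {X Y : Scheme.{u}} (f : X ⟶ Y) :
    WeaklyEtale f ↔ ∀ x : X, (f.stalkMap x).hom.Flat ∧
      (letI := (f.stalkMap x).hom.toAlgebra
       (Algebra.TensorProduct.lmul' (S := ↑(X.presheaf.stalk x)) (↑(Y.presheaf.stalk (f x)))).toRingHom.Flat) := by
  rw [weaklyEtale_iff_stalk]
  exact forall_congr' fun x => weaklyEtale_SpecMap_iff _

end Groth.Agent.H3WEStalk
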