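import Groth.Agent.Lib.H5_ProConsS
import Mathlib.AlgebraicGeometry.PullbackCarrier
import Mathlib.AlgebraicGeometry.Morphisms.UniversallyInjective
import Mathlib.AlgebraicGeometry.Morphisms.FinitePresentation
import Mathlib.AlgebraicGeometry.Morphisms.Separated

set_option autoImplicit false

namespace Groth.Agent.H5FB

open Topology Set AlgebraicGeometry CategoryTheory CategoryTheory.Limits

universe u

variable {X Y S : Scheme.{u}}

lemma locCons_of_surj (f : X ⟶ Y) (g : Y ⟶ S) [LocallyOfFinitePresentation f] [QuasiCompact f]
    [LocallyOfFinitePresentation g] [QuasiCompact g] :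
    IsLocallyConstructible {s : S | g.base ⁻¹' {s} ⊆ range f.base} := by
  have h1 : IsLocallyConstructible (range f.base) := by
    rw [← image_univ]; exact f.isLocallyConstructible_image .univ
  have h2 := g.isLocallyConstructible_image (H5PC.isLocallyConstructible_compl h1)
  have h3 := H5PC.isLocallyConstructible_compl h2
  convert h3 using 1
  ext s
  constructor
  · rintro h ⟨y, hy, hys⟩
    exact hy (h hys)
  · intro h y hys
    by_contra hy
    exact h ⟨y, hy, hys⟩

lemma lfp_of_comp (f : X ⟶ Y) (g : Y ⟶ S) [LocallyOfFinitePresentation (f ≫ g)] [LocallyOfFiniteType g] :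
    LocallyOfFinitePresentation f := by
  rw [HasRingHomProperty.iff_exists_appLE (P := @LocallyOfFinitePresentation)
    (Q := RingHom.FinitePresentation)
    (RingHom.finitePresentation_stableUnderComposition.stableUnderCompositionWithLocalizationAway
      RingHom.finitePresentation_holdsForLocalizationAway).left]
  intro x
  obtain ⟨W, hW, hxW, -⟩ := exists_isAffineOpen_mem_and_subset (x := g (f x)) (U := ⊤) trivial
  obtain ⟨U, hU, hxU, hUW⟩ := exists_isAffineOpen_mem_and_subset (x := f x) (U := g ⁻¹ᵁ W) hxW
  obtain ⟨V, hV, hxV, hVU⟩ := exists_isAffineOpen_mem_and_subset (x := x) (U := f ⁻¹ᵁ U) hxU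
  replace hUW : U ≤ g ⁻¹ᵁ W := hUW
  replace hVU : V ≤ f ⁻¹ᵁ U := hVU
  refine ⟨⟨U, hU⟩, ⟨V, hV⟩, hxV, hVU, ?_⟩
  have e : V ≤ (f ≫ g) ⁻¹ᵁ W := fun v hv => hUW (hVU hv)
  have h1 : ((f ≫ g).appLE W V e).hom.FinitePresentation :=
    HasRingHomProperty.appLE (P := @LocallyOfFinitePresentation) (f ≫ g) inferInstance ⟨W, hW⟩ ⟨V, hV⟩ e
  have h2 : (g.appLE W U hUW).hom.FiniteType :=
    HasRingHomProperty.appLE (P := @LocallyOfFiniteType) g inferInstance ⟨W, hW⟩ ⟨U, hU⟩ hUW
  have h3 : (f ≫ g).appLE W V e = g.appLE W U hUW ≫ f.appLE U V hVU := by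
    rw [Scheme.Hom.appLE_comp_appLE]
  rw [h3] at h1
  exact RingHom.FinitePresentation.of_comp_finiteType _ h1 h2

section
variable (f : X ⟶ Y) (g : Y ⟶ S) (s : S)

/-- the map on fibres. -/
noncomputable abbrev fs : pullback (f ≫ g) (S.fromSpecResidueField s) ⟶ pullback g (S.fromSpecResidueField s) :=
  pullback.lift (pullback.fst (f ≫ g) (S.fromSpecResidueField s) ≫ f) (pullback.snd (f ≫ g) (S.fromSpecResidueField s))
          ((Category.assoc _ _ _).trans pullback.condition)

@[reassoc] lemma fs_fst : fs f g s ≫ pullback.fst g (S.fromSpecResidueField s)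
    = pullback.fst (f ≫ g) (S.fromSpecResidueField s) ≫ f := pullback.lift_fst _ _ _

lemma isPullback_fs : IsPullback (fs f g s) (pullback.fst (f ≫ g) (S.fromSpecResidueField s))
    (pullback.fst g (S.fromSpecResidueField s)) f := by
  have h1 : IsPullback (pullback.snd g (S.fromSpecResidueField s)) (pullback.fst g (S.fromSpecResidueField s))
    (S.fromSpecResidueField s) g := (IsPullback.of_hasPullback _ _).flip
  have h2 : IsPullback (fs f g s ≫ pullback.snd g (S.fromSpecResidueField s))
      (pullback.fst (f ≫ g) (S.fromSpecResidueField s)) (S.fromSpecResidueField s) (f ≫ g) := by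
    rw [pullback.lift_snd]
    exact (IsPullback.of_hasPullback _ _).flip
  exact IsPullback.of_right h2 (by rw [pullback.lift_fst]) h1

lemma range_fst_eq : range (pullback.fst g (S.fromSpecResidueField s)).base = g.base ⁻¹' {s} := by
  have := Scheme.Pullback.range_fst (f := g) (g := S.fromSpecResidueField s)
  rw [this, Scheme.range_fromSpecResidueField]

lemma surj_iff_of_isPullback {P Q R T : Scheme.{u}} {a : P ⟶ Q} {p : P ⟶ R} {q : Q ⟶ T} {b : R ⟶ T}
    (h : IsPullback a p q b) : Function.Surjective a.base ↔ range q.base ⊆ range b.base := by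
  have h1 : range a.base = q.base ⁻¹' (range b.base) := by
    have := Scheme.image_preimage_eq_of_isPullback h.flip univ
    simpa using this
  rw [← Set.range_eq_univ, h1, preimage_eq_univ_iff]

lemma surj_iff : Function.Surjective (fs f g s).base ↔ g.base ⁻¹' {s} ⊆ range f.base := by
  rw [surj_iff_of_isPullback (isPullback_fs f g s), range_fst_eq]

/-- comparison map of self-products. -/
noncomputable abbrev pp : pullback (fs f g s) (fs f g s) ⟶ pullback f f :=
  pullback.lift (pullback.fst _ _ ≫ pullback.fst (f ≫ g) (S.fromSpecResidueField s))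
    (pullback.snd _ _ ≫ pullback.fst (f ≫ g) (S.fromSpecResidueField s)) (by
      have h := pullback.condition (f := fs f g s) (g := fs f g s)
      have h' := congrArg (fun t => t ≫ pullback.fst g (S.fromSpecResidueField s)) h
      simp only [Category.assoc, fs_fst] at h' ⊢
      exact h')

@[reassoc] lemma pp_fst : pp f g s ≫ pullback.fst f f = pullback.fst _ _ ≫ pullback.fst (f ≫ g) (S.fromSpecResidueField s) :=
  pullback.lift_fst _ _ _

@[reassoc] lemma pp_snd : pp f g s ≫ pullback.snd f f = pullback.snd _ _ ≫ pullback.fst (f ≫ g) (S.fromSpecResidueField s) :=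
  pullback.lift_snd _ _ _

lemma isPullback_diag : IsPullback (pullback.diagonal (fs f g s)) (pullback.fst (f ≫ g) (S.fromSpecResidueField s))
    (pp f g s) (pullback.diagonal f) := by
  have hm : Mono (pullback.fst (f ≫ g) (S.fromSpecResidueField s)) := inferInstance
  have w : pullback.diagonal (fs f g s) ≫ pp f g s = pullback.fst (f ≫ g) (S.fromSpecResidueField s) ≫ pullback.diagonal f := by
    apply pullback.hom_ext
    · rw [Category.assoc, pp_fst, Category.assoc, pullback.diagonal_fst, pullback.diagonal_fst_assoc, Category.comp_id]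
    · rw [Category.assoc, pp_snd, Category.assoc, pullback.diagonal_snd, pullback.diagonal_snd_assoc, Category.comp_id]
  refine ⟨⟨w⟩, ⟨PullbackCone.IsLimit.mk w (fun t => t.fst ≫ pullback.fst _ _) ?_ ?_ ?_⟩⟩
  · intro t
    have hc := t.condition
    have h1 := congrArg (fun z => z ≫ pullback.fst f f) hc
    have h2 := congrArg (fun z => z ≫ pullback.snd f f) hc
    simp only [Category.assoc, pullback.lift_fst, pullback.lift_snd, pullback.diagonal_fst, pullback.diagonal_snd, Category.comp_id] at h1 h2
    apply pullback.hom_ext
    · simp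
    · simp only [Category.assoc, pullback.diagonal_snd, Category.comp_id]
      rw [← cancel_mono (pullback.fst (f ≫ g) (S.fromSpecResidueField s)), Category.assoc, Category.assoc, h1, h2]
  · intro t
    have hc := t.condition
    have h1 := congrArg (fun z => z ≫ pullback.fst f f) hc
    simp only [Category.assoc, pullback.lift_fst, pullback.diagonal_fst, Category.comp_id] at h1
    simpa using h1
  · intro t m hm1 hm2
    rw [← hm1]
    simp

lemma range_pp : range (pp f g s).base = (pullback.fst f f ≫ f ≫ g).base ⁻¹' {s} := by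
  apply subset_antisymm
  · rintro _ ⟨w, rfl⟩
    rw [mem_preimage, ← Scheme.Hom.comp_apply]
    have h1 : pp f g s ≫ pullback.fst f f ≫ f ≫ g
        = (pullback.fst _ _ ≫ pullback.snd (f ≫ g) (S.fromSpecResidueField s)) ≫ S.fromSpecResidueField s := by
      rw [pullback.lift_fst_assoc, Category.assoc, Category.assoc, pullback.condition]
    rw [h1, Scheme.Hom.comp_apply, ← Scheme.range_fromSpecResidueField]
    exact ⟨_, rfl⟩
  · intro z hz
    let g' := pullback.fst f f ≫ f ≫ g
    have hz' : z ∈ range (pullback.fst g' (S.fromSpecResidueField s)).base := by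
      rw [range_fst_eq]; exact hz
    obtain ⟨w, rfl⟩ := hz'
    let a : pullback g' (S.fromSpecResidueField s) ⟶ pullback (f ≫ g) (S.fromSpecResidueField s) :=
      pullback.lift (pullback.fst _ _ ≫ pullback.fst f f) (pullback.snd _ _) (by
        rw [Category.assoc, ← pullback.condition])
    let b : pullback g' (S.fromSpecResidueField s) ⟶ pullback (f ≫ g) (S.fromSpecResidueField s) :=
      pullback.lift (pullback.fst _ _ ≫ pullback.snd f f) (pullback.snd _ _) (by
        rw [Category.assoc, ← pullback.condition, ← Category.assoc (pullback.snd f f), ← pullback.condition,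
          Category.assoc])
    have hab : a ≫ fs f g s = b ≫ fs f g s := by
      apply pullback.hom_ext
      · simp only [Category.assoc, pullback.lift_fst, a, b, pullback.lift_fst_assoc, pullback.condition (f := f) (g := f)]
      · simp only [Category.assoc, pullback.lift_snd, a, b]
    have h2 : pullback.lift a b hab ≫ pp f g s = pullback.fst g' (S.fromSpecResidueField s) := by
      apply pullback.hom_ext
      · rw [Category.assoc, pp_fst, pullback.lift_fst_assoc, pullback.lift_fst]
      · rw [Category.assoc, pp_snd, pullback.lift_snd_assoc, pullback.lift_fst]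
    rw [← h2, Scheme.Hom.comp_apply]
    exact ⟨_, rfl⟩

lemma univInj_iff : UniversallyInjective (fs f g s) ↔ (pullback.fst f f ≫ f ≫ g).base ⁻¹' {s} ⊆ range (pullback.diagonal f).base := by
  rw [UniversallyInjective.iff_diagonal, surjective_iff, surj_iff_of_isPullback (isPullback_diag f g s), range_pp]

end

theorem locCons_surj (f : X ⟶ Y) (g : Y ⟶ S)
    [LocallyOfFinitePresentation g] [QuasiCompact g] [QuasiSeparated g]
    [LocallyOfFinitePresentation (f ≫ g)] [QuasiCompact (f ≫ g)] [QuasiSeparated (f ≫ g)] :
    IsLocallyConstructible {s : S | Function.Surjective (fs f g s).base} := by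
  have h1 : QuasiCompact f := QuasiCompact.of_comp f g
  have h2 : LocallyOfFinitePresentation f :=
    lfp_of_comp f g
  simp only [surj_iff]
  exact locCons_of_surj f g

theorem locCons_univInj (f : X ⟶ Y) (g : Y ⟶ S)
    [LocallyOfFinitePresentation g] [QuasiCompact g] [QuasiSeparated g]
    [LocallyOfFinitePresentation (f ≫ g)] [QuasiCompact (f ≫ g)] [QuasiSeparated (f ≫ g)] :
    IsLocallyConstructible {s : S | UniversallyInjective (fs f g s)} := by
  have h1 : QuasiCompact f := QuasiCompact.of_comp f g
  have h2 : LocallyOfFinitePresentation f :=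
    lfp_of_comp f g
  have h3 : QuasiSeparated f := QuasiSeparated.of_comp f g
  have h4 : LocallyOfFinitePresentation (pullback.diagonal f) := by
    have : LocallyOfFinitePresentation (pullback.diagonal f ≫ pullback.fst f f) := by
      rw [pullback.diagonal_fst]; infer_instance
    exact lfp_of_comp (pullback.diagonal f) (pullback.fst f f)
  have h5 : QuasiCompact (pullback.diagonal f) := inferInstance
  have h6 : LocallyOfFinitePresentation (pullback.fst f f ≫ f ≫ g) := inferInstance
  have h7 : QuasiCompact (pullback.fst f f ≫ f ≫ g) := inferInstance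
  simp only [univInj_iff]
  exact locCons_of_surj (pullback.diagonal f) (pullback.fst f f ≫ f ≫ g)

end Groth.Agent.H5FB
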