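import Mathlib

/-! # Locally closed points of locally noetherian schemes and Jacobson spaces -/

open AlgebraicGeometry CategoryTheory Topology

namespace Groth.Agent.H5Jac

universe u

/-- In a noetherian domain in which some nonzero `f` lies in every nonzero prime, nonzero primes
are maximal under inclusion among primes. -/
theorem eq_of_le_of_domain {A : Type*} [CommRing A] [IsNoetherianRing A] [IsDomain A] (f : A)
    (hf : f ≠ 0) (h : ∀ P : Ideal A, P.IsPrime → P ≠ ⊥ → f ∈ P) (P Q : Ideal A) [hP : P.IsPrime]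
    [hQ : Q.IsPrime] (hQ0 : Q ≠ ⊥) (hQP : Q ≤ P) : Q = P := by
  have key : ∀ P : Ideal A, P.IsPrime → P ≠ ⊥ → P ∈ (Ideal.span {f}).minimalPrimes := by
    intro P hP hP0
    have hfin := Ideal.finite_minimalPrimes_of_isNoetherianRing A (Ideal.span {f})
    have hfP : Ideal.span {f} ≤ P := (Ideal.span_singleton_le_iff_mem _).mpr (h P hP hP0)
    obtain ⟨Q₀, hQ₀, hQ₀P⟩ := Ideal.exists_minimalPrimes_le hfP
    have hsub : (P : Set A) ⊆ ⋃ i ∈ {i ∈ (Ideal.span {f}).minimalPrimes | i ≤ P}, (i : Set A) := by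
      intro a ha
      simp only [Set.mem_iUnion, Set.mem_ofPred_eq, exists_prop]
      by_cases ha0 : a = 0
      · subst ha0
        exact ⟨Q₀, ⟨hQ₀, hQ₀P⟩, Q₀.zero_mem⟩
      · have haP : Ideal.span {a} ≤ P := (Ideal.span_singleton_le_iff_mem _).mpr ha
        obtain ⟨Q, hQ, hQP⟩ := Ideal.exists_minimalPrimes_le haP
        have haQ : a ∈ Q := (Ideal.span_singleton_le_iff_mem _).mp hQ.1.2
        have hQp : Q.IsPrime := hQ.1.1
        have hQ0 : Q ≠ ⊥ := fun h0 => ha0 (by rw [h0] at haQ; simpa using haQ)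
        have hfQ : Ideal.span {f} ≤ Q := (Ideal.span_singleton_le_iff_mem _).mpr (h Q hQp hQ0)
        obtain ⟨Q', hQ', hQ'Q⟩ := Ideal.exists_minimalPrimes_le hfQ
        have hQ'p : Q'.IsPrime := hQ'.1.1
        have hfQ' : f ∈ Q' := (Ideal.span_singleton_le_iff_mem _).mp hQ'.1.2
        have hQ'0 : ⊥ < Q' := by
          rw [bot_lt_iff_ne_bot]
          intro h0
          rw [h0] at hfQ'
          exact hf (by simpa using hfQ')
        have hle : Q.height ≤ 1 :=
          Ideal.height_le_one_of_isPrincipal_of_mem_minimalPrimes (Ideal.span {a}) Q hQ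
        rcases hQ'Q.eq_or_lt with heq | hlt
        · subst heq
          exact ⟨Q', ⟨hQ', hQP⟩, haQ⟩
        · exfalso
          have h1 : (⊥ : Ideal A).height + 1 ≤ Q'.height :=
            Ideal.height_add_one_le_of_lt_of_isPrime hQ'0
          have h2 : Q'.height + 1 ≤ Q.height := Ideal.height_add_one_le_of_lt_of_isPrime hlt
          have h3 : (1 : ℕ∞) ≤ Q'.height := le_trans le_add_self h1
          have h4 : (1 : ℕ∞) + 1 ≤ 1 := (add_le_add_left h3 1).trans (h2.trans hle)
          exact absurd h4 (by decide)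
    rw [Ideal.subset_union_prime_finite (hfin.subset fun i hi => hi.1) ⊥ ⊥
      (fun i hi _ _ => hi.1.1.1)] at hsub
    obtain ⟨i, hi, hPi⟩ := hsub
    rw [le_antisymm hPi hi.2]
    exact hi.1
  have hP0 : P ≠ ⊥ := fun h0 => hQ0 (le_bot_iff.mp (h0 ▸ hQP))
  have h1 := key P hP hP0
  have h2 := key Q hQ hQ0
  exact le_antisymm hQP (h1.2 ⟨hQ, h2.1.2⟩ hQP)

/-- The same, relative to a prime `p`. -/
theorem eq_of_le {B : Type*} [CommRing B] [IsNoetherianRing B] (p q r : PrimeSpectrum B)
    (hp : IsLocallyClosed ({p} : Set (PrimeSpectrum B))) (hpq : p ≤ q) (hne : p ≠ q) (hqr : q ≤ r) :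
    q = r := by
  obtain ⟨U, Z, hU, hZ, hUZ⟩ := hp
  have hpU : p ∈ U := by
    have : p ∈ U ∩ Z := hUZ ▸ rfl
    exact this.1
  have hpZ : p ∈ Z := by
    have : p ∈ U ∩ Z := hUZ ▸ rfl
    exact this.2
  obtain ⟨_, ⟨g, rfl⟩, hg, hgU⟩ :=
    PrimeSpectrum.isTopologicalBasis_basic_opens.exists_subset_of_mem_open hpU hU
  have hgp : g ∉ p.asIdeal := hg
  have key : ∀ Q : PrimeSpectrum B, p ≤ Q → Q ≠ p → g ∈ Q.asIdeal := by
    intro Q hQ hQp
    by_contra hgQ
    refine hQp ?_
    have h1 : Q ∈ U := hgU hgQ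
    have h2 : Q ∈ Z := ((PrimeSpectrum.le_iff_specializes p Q).mp hQ).mem_closed hZ hpZ
    have h3 : Q ∈ ({p} : Set (PrimeSpectrum B)) := hUZ ▸ ⟨h1, h2⟩
    exact h3
  let π := Ideal.Quotient.mk p.asIdeal
  have hker : RingHom.ker π = p.asIdeal := Ideal.mk_ker
  have hsurj : Function.Surjective π := Ideal.Quotient.mk_surjective
  have hcm : ∀ Q : PrimeSpectrum B, p ≤ Q → (Q.asIdeal.map π).comap π = Q.asIdeal := by
    intro Q hQ
    rw [Ideal.comap_map_of_surjective π hsurj, ← RingHom.ker_eq_comap_bot, hker, sup_eq_left]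
    exact hQ
  have hpr : ∀ Q : PrimeSpectrum B, p ≤ Q → (Q.asIdeal.map π).IsPrime := by
    intro Q hQ
    exact Ideal.map_isPrime_of_surjective hsurj (by rw [hker]; exact hQ)
  have := hpr q hpq
  have := hpr r (hpq.trans hqr)
  have h := eq_of_le_of_domain (π g) (by
      rw [ne_eq, Ideal.Quotient.eq_zero_iff_mem]; exact hgp)
    (fun P hP hP0 => by
      have h1 : (P.comap π).IsPrime := Ideal.comap_isPrime π P
      have h2 : p ≤ (⟨P.comap π, h1⟩ : PrimeSpectrum B) := by
        change p.asIdeal ≤ P.comap π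
        intro b hb
        rw [Ideal.mem_comap, Ideal.Quotient.eq_zero_iff_mem.mpr hb]
        exact P.zero_mem
      have h3 : (⟨P.comap π, h1⟩ : PrimeSpectrum B) ≠ p := by
        intro h4
        have h5 : P.comap π = p.asIdeal := congrArg PrimeSpectrum.asIdeal h4
        refine hP0 ?_
        rw [← Ideal.map_comap_of_surjective π hsurj P, h5, Ideal.map_eq_bot_iff_le_ker, hker]
      exact key ⟨P.comap π, h1⟩ h2 h3) (r.asIdeal.map π) (q.asIdeal.map π)
    (by
      intro h0
      refine hne ?_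
      rw [Ideal.map_eq_bot_iff_le_ker, hker] at h0
      exact le_antisymm hpq h0)
    (Ideal.map_mono hqr)
  have := congrArg (Ideal.comap π) h
  rw [hcm q hpq, hcm r (hpq.trans hqr)] at this
  exact PrimeSpectrum.ext this

/-- A locally closed point of a locally noetherian scheme: its proper specializations are
closed. -/
theorem isClosed_of_specializes (X : Scheme.{u}) [IsLocallyNoetherian X] (x y : X)
    (hx : IsLocallyClosed ({x} : Set X)) (hxy : x ⤳ y) (hne : x ≠ y) :
    IsClosed ({y} : Set X) := by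
  rw [← closure_subset_iff_isClosed]
  intro z hz
  have hyz : y ⤳ z := specializes_iff_mem_closure.mpr hz
  obtain ⟨_, ⟨V, hV, rfl⟩, hzV, -⟩ :=
    X.isBasis_affineOpens.exists_subset_of_mem_open (Set.mem_univ z) isOpen_univ
  have hyV : y ∈ V := hyz.mem_open V.isOpen hzV
  have hxV : x ∈ V := hxy.mem_open V.isOpen hyV
  have : IsNoetherianRing Γ(X, V) := IsLocallyNoetherian.component_noetherian ⟨V, hV⟩
  have hr : Set.range hV.fromSpec = V := hV.range_fromSpec
  obtain ⟨p, rfl⟩ : x ∈ Set.range hV.fromSpec := by rw [hr]; exact hxV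
  obtain ⟨q, rfl⟩ : y ∈ Set.range hV.fromSpec := by rw [hr]; exact hyV
  obtain ⟨r, rfl⟩ : z ∈ Set.range hV.fromSpec := by rw [hr]; exact hzV
  have : IsOpenImmersion hV.fromSpec := hV.isOpenImmersion_fromSpec
  have hemb : IsOpenEmbedding hV.fromSpec := hV.fromSpec.isOpenEmbedding
  have h1 : q = r := by
    refine eq_of_le p q r ?_ ?_ ?_ ?_
    · have := hx.preimage hemb.continuous
      have h2 : (hV.fromSpec) ⁻¹' {hV.fromSpec p} = {p} := by
        ext t
        simp [hemb.injective.eq_iff]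
      rwa [h2] at this
    · exact (PrimeSpectrum.le_iff_specializes p q).mpr (hemb.isInducing.specializes_iff.mp hxy)
    · rintro rfl; exact hne rfl
    · exact (PrimeSpectrum.le_iff_specializes q r).mpr (hemb.isInducing.specializes_iff.mp hyz)
  rw [h1]
  rfl

/-- The complement of a closed set meeting every nonempty closed set is Jacobson. -/
theorem jacobson_compl (X : Scheme.{u}) [IsLocallyNoetherian X] (Y : Set X)
    (hY : IsClosed Y) (hmeet : ∀ Z : Set X, IsClosed Z → Z.Nonempty → (Z ∩ Y).Nonempty) :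
    JacobsonSpace ↥(Yᶜ) := by
  rw [jacobsonSpace_iff_locallyClosed]
  rintro Z ⟨⟨x₀, hx₀⟩, hx₀Z⟩ hZ
  have hemb : IsOpenEmbedding (Subtype.val : ↥(Yᶜ) → X) := hY.isOpen_compl.isOpenEmbedding_subtypeVal
  have hZ' : IsLocallyClosed (Subtype.val '' Z : Set X) :=
    hZ.image hemb.isInducing hemb.isOpen_range.isLocallyClosed
  obtain ⟨_, ⟨V, hV, rfl⟩, hxV, -⟩ :=
    X.isBasis_affineOpens.exists_subset_of_mem_open (Set.mem_univ x₀) isOpen_univ
  set W : Set X := (Subtype.val '' Z) ∩ V with hW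
  have hWlc : IsLocallyClosed W := hZ'.inter V.isOpen.isLocallyClosed
  have : IsNoetherianRing Γ(X, V) := IsLocallyNoetherian.component_noetherian ⟨V, hV⟩
  have hVn : TopologicalSpace.NoetherianSpace ↥(V : Set X) := noetherianSpace_of_isAffineOpen V hV
  have : TopologicalSpace.NoetherianSpace W := by
    have hi : IsInducing (fun w : W => (⟨w.1, w.2.2⟩ : ↥(V : Set X))) := by
      have h0 : IsInducing (Subtype.val : ↥(V : Set X) → X) := IsInducing.subtypeVal
      have h1 : IsInducing (Subtype.val : W → X) := IsInducing.subtypeVal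
      exact h0.of_comp_iff.mp h1
    exact hi.noetherianSpace
  have : CompactSpace W := inferInstance
  have : T0Space W := inferInstance
  obtain ⟨⟨x, hxW⟩, -, hxc⟩ := IsClosed.exists_closed_singleton (X := W) isClosed_univ
    ⟨⟨x₀, ⟨_, hx₀Z, rfl⟩, hxV⟩, trivial⟩
  have hxlc : IsLocallyClosed ({x} : Set X) := by
    have := hxc.isLocallyClosed.image IsInducing.subtypeVal (by simpa using hWlc)
    simpa using this
  obtain ⟨⟨x', hx'Y⟩, hx'Z, rfl⟩ := hxW.1
  refine ⟨⟨x', hx'Y⟩, hx'Z, ?_⟩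
  rw [mem_closedPoints_iff, ← closure_subset_iff_isClosed]
  rintro ⟨y, hy⟩ hyc
  have hsp : x' ⤳ y := by
    have : (⟨x', hx'Y⟩ : ↥(Yᶜ)) ⤳ ⟨y, hy⟩ := specializes_iff_mem_closure.mpr hyc
    exact this.map continuous_subtype_val
  by_contra hne
  have hne' : x' ≠ y := fun h => hne (by subst h; rfl)
  obtain ⟨t, ht, htY⟩ := hmeet {y} (isClosed_of_specializes X x' y hxlc hsp hne') ⟨y, rfl⟩
  rw [Set.mem_singleton_iff] at ht
  subst ht
  exact hy htY

end Groth.Agent.H5Jac
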