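import Groth.Agent.Lib.H5_Jac

/-! # Dimension one domains -/

open AlgebraicGeometry CategoryTheory Topology

namespace Groth.Agent.H5Jac

universe u

theorem dim_one_iff (D : Type*) [CommRing D] [IsDomain D] :
    ringKrullDim D = 1 ↔ (∀ P : Ideal D, P.IsPrime → P ≠ ⊥ → P.IsMaximal) ∧ ¬ IsField D := by
  constructor
  · intro h
    have h1 : Ring.KrullDimLE 1 D := Ring.krullDimLE_iff.mpr (by rw [h]; rfl)
    refine ⟨fun P hP hP0 => ?_, fun hF => ?_⟩
    · exact Ring.krullDimLE_one_iff_of_isPrime_bot.mp h1 P hP0 hP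
    · have := ringKrullDim_eq_zero_of_isField hF
      rw [h] at this; exact one_ne_zero this
  · rintro ⟨h1, h2⟩
    refine eq_of_le_of_not_lt (Ring.krullDimLE_iff (n := 1).mp ?_) fun h ↦ ?_
    · exact Ring.krullDimLE_one_iff_of_isPrime_bot.mpr fun I hI hI' ↦ h1 I hI' hI
    · have : Ring.KrullDimLE 0 D := Ring.krullDimLE_iff.mpr (ENat.WithBot.lt_add_one_iff.mp h)
      exact h2 Ring.KrullDimLE.isField_of_isDomain

/-- Primes of a quotient by a prime, in terms of primes of the ring. -/
theorem dim_quot_one_iff (B : Type*) [CommRing B] (p : PrimeSpectrum B) :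
    ringKrullDim (B ⧸ p.asIdeal) = 1 ↔
      (∀ q : PrimeSpectrum B, p ≤ q → p ≠ q → q.asIdeal.IsMaximal) ∧ ¬ p.asIdeal.IsMaximal := by
  rw [dim_one_iff]
  let π := Ideal.Quotient.mk p.asIdeal
  have hker : RingHom.ker π = p.asIdeal := Ideal.mk_ker
  have hsurj : Function.Surjective π := Ideal.Quotient.mk_surjective
  refine and_congr ⟨fun h q hpq hne => ?_, fun h P hP hP0 => ?_⟩ (not_congr ?_)
  · have h1 : (q.asIdeal.map π).IsPrime :=
      Ideal.map_isPrime_of_surjective hsurj (by rw [hker]; exact hpq)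
    have h2 : q.asIdeal.map π ≠ ⊥ := by
      intro h0
      rw [Ideal.map_eq_bot_iff_le_ker, hker] at h0
      exact hne (le_antisymm hpq h0)
    have h3 := h _ h1 h2
    have h4 : (q.asIdeal.map π).comap π = q.asIdeal := by
      rw [Ideal.comap_map_of_surjective π hsurj, ← RingHom.ker_eq_comap_bot, hker, sup_eq_left]
      exact hpq
    rw [← h4]
    exact Ideal.comap_isMaximal_of_surjective π hsurj
  · have h1 : (P.comap π).IsPrime := Ideal.comap_isPrime π P
    have h2 : p ≤ (⟨P.comap π, h1⟩ : PrimeSpectrum B) := by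
      change p.asIdeal ≤ P.comap π
      intro b hb
      rw [Ideal.mem_comap, Ideal.Quotient.eq_zero_iff_mem.mpr hb]
      exact P.zero_mem
    have h3 : p ≠ (⟨P.comap π, h1⟩ : PrimeSpectrum B) := by
      intro h4
      have h5 : P.comap π = p.asIdeal := (congrArg PrimeSpectrum.asIdeal h4).symm
      refine hP0 ?_
      rw [← Ideal.map_comap_of_surjective π hsurj P, h5, Ideal.map_eq_bot_iff_le_ker, hker]
    have h4 : (P.comap π).IsMaximal := h _ h2 h3
    rw [← Ideal.map_comap_of_surjective π hsurj P]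
    rcases Ideal.map_eq_top_or_isMaximal_of_surjective π hsurj h4 with h5 | h5
    · rw [Ideal.map_comap_of_surjective π hsurj P] at h5
      exact absurd h5 hP.ne_top
    · exact h5
  · exact ⟨fun h => Ideal.Quotient.maximal_of_isField _ h,
      fun h => (Ideal.Quotient.maximal_ideal_iff_isField_quotient _).mp h⟩

end Groth.Agent.H5Jac
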