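import Groth.Agent.Lib.H5_Jac2

/-! # Finiteness of the maximal spectrum over a locally closed point -/

open AlgebraicGeometry CategoryTheory Topology

namespace Groth.Agent.H5Jac

universe u

/-- Nonzero primes of a noetherian domain all containing `f ≠ 0` are minimal over `f`. -/
theorem mem_minimalPrimes {A : Type*} [CommRing A] [IsNoetherianRing A] [IsDomain A] (f : A)
    (hf : f ≠ 0) (h : ∀ P : Ideal A, P.IsPrime → P ≠ ⊥ → f ∈ P) (P : Ideal A) (hP : P.IsPrime)
    (hP0 : P ≠ ⊥) : P ∈ (Ideal.span {f}).minimalPrimes := by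
  have hfP : Ideal.span {f} ≤ P := (Ideal.span_singleton_le_iff_mem _).mpr (h P hP hP0)
  obtain ⟨Q, hQ, hQP⟩ := Ideal.exists_minimalPrimes_le hfP
  have hQp : Q.IsPrime := hQ.1.1
  have hQ0 : Q ≠ ⊥ := by
    intro h0
    have : f ∈ Q := (Ideal.span_singleton_le_iff_mem _).mp hQ.1.2
    rw [h0] at this
    exact hf (by simpa using this)
  have := eq_of_le_of_domain f hf h P Q hQ0 hQP
  rw [← this]
  exact hQ

theorem finite_maximal {B : Type*} [CommRing B] [IsNoetherianRing B] (p : PrimeSpectrum B)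
    (hp : IsLocallyClosed ({p} : Set (PrimeSpectrum B))) (hm : ¬ p.asIdeal.IsMaximal) :
    Finite (MaximalSpectrum (B ⧸ p.asIdeal)) := by
  obtain ⟨U, Z, hU, hZ, hUZ⟩ := hp
  have hpU : p ∈ U := by
    have : p ∈ U ∩ Z := hUZ ▸ rfl
    exact this.1
  have hpZ : p ∈ Z := by
    have : p ∈ U ∩ Z := hUZ ▸ rfl
    exact this.2
  obtain ⟨_, ⟨g, rfl⟩, hg, hgU⟩ :=
    PrimeSpectrum.isTopologicalBasis_basic_opens.exists_subset_of_mem_open hpU hU
  have hgp : g ∉ p.asIdeal := hg
  have key : ∀ Q : PrimeSpectrum B, p ≤ Q → Q ≠ p → g ∈ Q.asIdeal := by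
    intro Q hQ hQp
    by_contra hgQ
    refine hQp ?_
    have h1 : Q ∈ U := hgU hgQ
    have h2 : Q ∈ Z := ((PrimeSpectrum.le_iff_specializes p Q).mp hQ).mem_closed hZ hpZ
    have h3 : Q ∈ ({p} : Set (PrimeSpectrum B)) := hUZ ▸ ⟨h1, h2⟩
    exact h3
  let π := Ideal.Quotient.mk p.asIdeal
  have hker : RingHom.ker π = p.asIdeal := Ideal.mk_ker
  have hsurj : Function.Surjective π := Ideal.Quotient.mk_surjective
  have hf : π g ≠ 0 := by
    rw [ne_eq, Ideal.Quotient.eq_zero_iff_mem]; exact hgp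
  have h : ∀ P : Ideal (B ⧸ p.asIdeal), P.IsPrime → P ≠ ⊥ → π g ∈ P := by
    intro P hP hP0
    have h1 : (P.comap π).IsPrime := Ideal.comap_isPrime π P
    have h2 : p ≤ (⟨P.comap π, h1⟩ : PrimeSpectrum B) := by
      change p.asIdeal ≤ P.comap π
      intro b hb
      rw [Ideal.mem_comap, Ideal.Quotient.eq_zero_iff_mem.mpr hb]
      exact P.zero_mem
    have h3 : (⟨P.comap π, h1⟩ : PrimeSpectrum B) ≠ p := by
      intro h4
      have h5 : P.comap π = p.asIdeal := congrArg PrimeSpectrum.asIdeal h4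
      refine hP0 ?_
      rw [← Ideal.map_comap_of_surjective π hsurj P, h5, Ideal.map_eq_bot_iff_le_ker, hker]
    exact key ⟨P.comap π, h1⟩ h2 h3
  have hfin := Ideal.finite_minimalPrimes_of_isNoetherianRing (B ⧸ p.asIdeal) (Ideal.span {π g})
  have hfin' : Finite ↥((Ideal.span {π g}).minimalPrimes) := hfin
  refine Finite.of_injective (β := ↥((Ideal.span {π g}).minimalPrimes))
    (fun m => ⟨m.asIdeal, mem_minimalPrimes (π g) hf h m.asIdeal m.isMaximal.isPrime ?_⟩) ?_
  · intro h0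
    have := m.isMaximal
    rw [h0] at this
    exact hm (Ideal.Quotient.maximal_of_isField _ (Ring.isField_iff_maximal_bot.mpr this))
  · intro m m' hmm
    exact MaximalSpectrum.ext (congrArg Subtype.val hmm)

end Groth.Agent.H5Jac
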