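import Mathlib

/-! # Positive definite lattices: functionals are rationally represented -/

namespace Groth.Agent.H5Lat

/-- On a positive definite lattice every functional has a nonzero multiple represented by the
form. -/
theorem exists_rep {M : Type*} [AddCommGroup M] [Module.Finite ℤ M] [Module.Free ℤ M]
    (B : LinearMap.BilinForm ℤ M) (hpos : ∀ x, x ≠ 0 → 0 < B x x) (ψ : Module.Dual ℤ M) :
    ∃ (c : ℤ) (a : M), c ≠ 0 ∧ c • ψ = B a := by
  have hinj : Function.Injective B := by
    rw [← LinearMap.ker_eq_bot, LinearMap.ker_eq_bot']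
    intro x hx
    by_contra hne
    have := hpos x hne
    rw [hx] at this
    simp at this
  have hr : Module.finrank ℤ (LinearMap.range B) = Module.finrank ℤ (Module.Dual ℤ M) := by
    rw [LinearMap.finrank_range_of_inj hinj]
    exact (LinearEquiv.finrank_eq (Module.Free.chooseBasis ℤ M).toDualEquiv)
  have : Finite (Module.Dual ℤ M ⧸ LinearMap.range B) :=
    Submodule.finiteQuotientOfFreeOfRankEq _ hr
  have : Finite (Module.Dual ℤ M ⧸ (LinearMap.range B).toAddSubgroup) := this
  refine ⟨Nat.card (Module.Dual ℤ M ⧸ LinearMap.range B), ?_⟩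
  have h1 : (Nat.card (Module.Dual ℤ M ⧸ LinearMap.range B)) •
      (Submodule.Quotient.mk ψ : Module.Dual ℤ M ⧸ LinearMap.range B) = 0 := card_nsmul_eq_zero'
  rw [← Submodule.Quotient.mk_smul, Submodule.Quotient.mk_eq_zero] at h1
  obtain ⟨a, ha⟩ := h1
  refine ⟨a, ?_, ?_⟩
  · exact_mod_cast Nat.card_pos.ne'
  · rw [ha, natCast_zsmul]

/-- The same for a submodule of a positive definite lattice. -/
theorem exists_rep_sub {L : Type*} [AddCommGroup L] [Module.Finite ℤ L] [Module.Free ℤ L]
    (B : LinearMap.BilinForm ℤ L) (hpos : ∀ x, x ≠ 0 → 0 < B x x) (A : Submodule ℤ L)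
    (ψ : Module.Dual ℤ A) :
    ∃ (c : ℤ) (a : A), c ≠ 0 ∧ ∀ a' : A, c * ψ a' = B a a' := by
  obtain ⟨c, a, hc, h⟩ := exists_rep (B.restrict A) (fun x hx => hpos x (by simpa using hx)) ψ
  refine ⟨c, a, hc, fun a' => ?_⟩
  have := LinearMap.congr_fun h a'
  simpa using this

/-- A submodule with torsion-free quotient: functionals extend. -/
theorem exists_extend {L : Type*} [AddCommGroup L] [Module.Finite ℤ L] [Module.Free ℤ L]
    (A : Submodule ℤ L) (htf : ∀ (c : ℤ) (x : L), c ≠ 0 → c • x ∈ A → x ∈ A)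
    (ψ : Module.Dual ℤ A) : ∃ φ : Module.Dual ℤ L, φ ∘ₗ A.subtype = ψ := by
  have : Module.IsTorsionFree ℤ (L ⧸ A) := by
    refine Module.IsTorsionFree.of_smul_eq_zero ?_
    intro c x hcx
    by_cases hc : c = 0
    · exact Or.inl hc
    · right
      obtain ⟨x, rfl⟩ := Submodule.Quotient.mk_surjective _ x
      rw [← Submodule.Quotient.mk_smul, Submodule.Quotient.mk_eq_zero] at hcx
      rw [Submodule.Quotient.mk_eq_zero]
      exact htf c x hc hcx
  have : Module.Free ℤ (L ⧸ A) := Module.free_of_finite_type_torsion_free'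
  obtain ⟨s, hs⟩ := Module.projective_lifting_property A.mkQ LinearMap.id A.mkQ_surjective
  -- projection x ↦ x - s (mk x) ∈ A
  have hmem : ∀ x, x - s (A.mkQ x) ∈ A := by
    intro x
    rw [← Submodule.Quotient.mk_eq_zero, Submodule.Quotient.mk_sub]
    have := LinearMap.congr_fun hs (A.mkQ x)
    simp only [LinearMap.comp_apply, LinearMap.id_apply, Submodule.mkQ_apply] at this ⊢
    rw [this, sub_self]
  refine ⟨ψ ∘ₗ (LinearMap.codRestrict A (LinearMap.id - s ∘ₗ A.mkQ) (fun x => by
    simpa using hmem x)), ?_⟩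
  ext a
  simp only [LinearMap.comp_apply, Submodule.subtype_apply]
  congr 1
  ext
  simp [(Submodule.Quotient.mk_eq_zero A).mpr a.2]

end Groth.Agent.H5Lat
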