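import Mathlib.AlgebraicGeometry.ProjectiveSpectrum.Basic
import Mathlib.RingTheory.GradedAlgebra.Homogeneous.Ideal
import Mathlib.RingTheory.GradedAlgebra.Radical

set_option autoImplicit false
universe u
open CategoryTheory CategoryTheory.Limits AlgebraicGeometry

namespace Groth.Agent.H6EGA2

theorem result3559 {R A : Type u} [CommRing R] [CommRing A] [Algebra R A] (𝒜 : ℕ → Submodule R A) [GradedAlgebra 𝒜]
    {ι : Type u} (f : ι → A) (hf : ∀ i, ∃ d : ℕ, 0 < d ∧ f i ∈ 𝒜 d) :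
    (⨆ i, Proj.basicOpen 𝒜 (f i)) = ⊤ ↔
      (HomogeneousIdeal.irrelevant 𝒜).toIdeal ≤ (Ideal.span (Set.range f)).radical := by
  have hI : (Ideal.span (Set.range f)).IsHomogeneous 𝒜 :=
    Ideal.homogeneous_span 𝒜 _ (by rintro _ ⟨i, rfl⟩; obtain ⟨d, _, h⟩ := hf i; exact ⟨d, h⟩)
  constructor
  · intro htop
    rw [hI.radical_eq]
    refine le_sInf ?_
    rintro J ⟨hJ, hIJ, hJp⟩
    by_contra hn
    let x : ProjectiveSpectrum 𝒜 := ⟨⟨J, hJ⟩, hJp, hn⟩
    have hx : (x : Proj 𝒜) ∈ (⨆ i, Proj.basicOpen 𝒜 (f i)) := by rw [htop]; trivial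
    obtain ⟨i, hi⟩ := TopologicalSpace.Opens.mem_iSup.mp hx
    exact (Proj.mem_basicOpen ..).mp hi (hIJ (Ideal.subset_span ⟨i, rfl⟩))
  · intro hle
    rw [eq_top_iff]
    rintro x -
    by_contra hx
    have h1 : ¬ (HomogeneousIdeal.irrelevant 𝒜).toIdeal ≤ x.asHomogeneousIdeal.toIdeal := x.not_irrelevant_le
    apply h1
    refine hle.trans ((Ideal.IsPrime.radical_le_iff x.isPrime).mpr ?_)
    rw [Ideal.span_le]
    rintro _ ⟨i, rfl⟩
    by_contra hi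
    exact hx (TopologicalSpace.Opens.mem_iSup.mpr ⟨i, (Proj.mem_basicOpen ..).mpr hi⟩)

end Groth.Agent.H6EGA2
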