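import Groth.Agent.Lib.H6_EGA2
set_option autoImplicit false
universe u
open CategoryTheory CategoryTheory.Limits AlgebraicGeometry

namespace Groth.Agent.H6EGA2

theorem result3558 {R A : Type u} [CommRing R] [CommRing A] [Algebra R A] (𝒜 : ℕ → Submodule R A) [GradedAlgebra 𝒜] :
    IsEmpty (Proj 𝒜) ↔ ∀ f ∈ (HomogeneousIdeal.irrelevant 𝒜).toIdeal, IsNilpotent f := by
  have h := result3559 𝒜 (ι := PEmpty.{u+1}) (fun i => i.elim) (fun i => i.elim)
  have h1 : (⨆ i : PEmpty.{u+1}, Proj.basicOpen 𝒜 ((fun i : PEmpty.{u+1} => (i.elim : A)) i)) = ⊤ ↔ IsEmpty (Proj 𝒜) := by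
    rw [iSup_of_empty]
    constructor
    · intro he
      refine ⟨fun x => ?_⟩
      have : x ∈ (⊤ : (Proj 𝒜).Opens) := trivial
      rw [← he] at this
      exact this
    · intro he
      ext x
      exact he.elim x
  rw [← h1, h]
  rw [Set.range_eq_empty, Ideal.span_empty]
  constructor
  · intro hh f hf
    exact mem_nilradical.mp (hh hf)
  · intro hh f hf
    exact mem_nilradical.mpr (hh f hf)

end Groth.Agent.H6EGA2
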