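import Groth.Agent.Lib.H6_EGA2
set_option autoImplicit false
universe u
open CategoryTheory CategoryTheory.Limits AlgebraicGeometry

namespace Groth.Agent.H6EGA2

theorem result3578 {R A : Type u} [CommRing R] [CommRing A] [Algebra R A] (𝒜 : ℕ → Submodule R A) [GradedAlgebra 𝒜]
    (Z : Set (ProjectiveSpectrum 𝒜)) (hZ : IsClosed Z) :
    IsIrreducible Z ↔
      (¬ (HomogeneousIdeal.irrelevant 𝒜).toIdeal ≤ (ProjectiveSpectrum.vanishingIdeal Z).toIdeal ∧
        ∀ f ∈ (HomogeneousIdeal.irrelevant 𝒜).toIdeal, ∀ g ∈ (HomogeneousIdeal.irrelevant 𝒜).toIdeal,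
          f * g ∈ (ProjectiveSpectrum.vanishingIdeal Z).toIdeal →
            f ∈ (ProjectiveSpectrum.vanishingIdeal Z).toIdeal ∨ g ∈ (ProjectiveSpectrum.vanishingIdeal Z).toIdeal) := by
  have hmem : ∀ f : A, f ∈ (ProjectiveSpectrum.vanishingIdeal Z).toIdeal ↔
      ∀ x ∈ Z, f ∈ x.asHomogeneousIdeal.toIdeal := fun f => ProjectiveSpectrum.mem_vanishingIdeal Z f
  constructor
  · rintro ⟨⟨x, hx⟩, hZi⟩
    refine ⟨fun hle => x.not_irrelevant_le (fun a ha => (hmem a).mp (hle ha) x hx), ?_⟩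
    intro f _ g _ hfg
    have hsub : Z ⊆ ProjectiveSpectrum.zeroLocus 𝒜 {f} ∪ ProjectiveSpectrum.zeroLocus 𝒜 {g} := by
      rw [← ProjectiveSpectrum.zeroLocus_singleton_mul]
      intro y hy
      rw [ProjectiveSpectrum.mem_zeroLocus, Set.singleton_subset_iff]
      exact (hmem _).mp hfg y hy
    rcases (isPreirreducible_iff_isClosed_union_isClosed.mp hZi) _ _
      (ProjectiveSpectrum.isClosed_zeroLocus 𝒜 _) (ProjectiveSpectrum.isClosed_zeroLocus 𝒜 _) hsub with h | h
    · left
      exact (hmem f).mpr fun y hy => by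
        have := h hy
        rw [ProjectiveSpectrum.mem_zeroLocus, Set.singleton_subset_iff] at this
        exact this
    · right
      exact (hmem g).mpr fun y hy => by
        have := h hy
        rw [ProjectiveSpectrum.mem_zeroLocus, Set.singleton_subset_iff] at this
        exact this
  · rintro ⟨h1, h2⟩
    have key : ∀ W : Set (ProjectiveSpectrum 𝒜), IsClosed W → ∀ x, x ∉ W →
        ∃ f ∈ (HomogeneousIdeal.irrelevant 𝒜).toIdeal, f ∉ x.asHomogeneousIdeal.toIdeal ∧
          ∀ y ∈ W, f ∈ y.asHomogeneousIdeal.toIdeal := by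
      intro W hW x hx
      obtain ⟨s, rfl⟩ := (ProjectiveSpectrum.isClosed_iff_zeroLocus 𝒜 W).mp hW
      rw [ProjectiveSpectrum.mem_zeroLocus, Set.not_subset] at hx
      obtain ⟨a, ha, hax⟩ := hx
      obtain ⟨b, hb, hbx⟩ := SetLike.not_le_iff_exists.mp x.not_irrelevant_le
      refine ⟨a * b, Ideal.mul_mem_left _ _ hb, ?_, fun y hy => Ideal.mul_mem_right _ _ (hy ha)⟩
      intro hab
      rcases x.isPrime.mem_or_mem hab with h | h
      · exact hax h
      · exact hbx h
    refine ⟨?_, isPreirreducible_iff_isClosed_union_isClosed.mpr ?_⟩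
    · by_contra hne
      rw [Set.not_nonempty_iff_eq_empty] at hne
      exact h1 (fun a _ => (hmem a).mpr (fun x hx => by rw [hne] at hx; exact hx.elim))
    · intro Z1 Z2 hc1 hc2 hsub
      by_contra hcon
      rw [not_or] at hcon
      obtain ⟨x, hx, hx1⟩ := Set.not_subset.mp hcon.1
      obtain ⟨y, hy, hy1⟩ := Set.not_subset.mp hcon.2
      obtain ⟨f, hf, hfx, hfW⟩ := key Z1 hc1 x hx1
      obtain ⟨g, hg, hgy, hgW⟩ := key Z2 hc2 y hy1
      have h3 : f * g ∈ (ProjectiveSpectrum.vanishingIdeal Z).toIdeal := (hmem _).mpr fun z hz => by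
        rcases hsub hz with h | h
        · exact Ideal.mul_mem_right _ _ (hfW z h)
        · exact Ideal.mul_mem_left _ _ (hgW z h)
      rcases h2 f hf g hg h3 with h | h
      · exact hfx ((hmem f).mp h x hx)
      · exact hgy ((hmem g).mp h y hy)

end Groth.Agent.H6EGA2
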