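import Groth.Prelude.Def_FSch3

set_option autoImplicit false
universe u
open CategoryTheory CategoryTheory.Limits Opposite
open AlgebraicGeometry

namespace Groth.Agent.H6FC

theorem isPushout_quot (A B : Type u) [CommRing A] [CommRing B] (φ : B →+* A) (𝔟 : Ideal B) :
    IsPushout (CommRingCat.ofHom φ) (CommRingCat.ofHom (Ideal.Quotient.mk 𝔟))
      (CommRingCat.ofHom (Ideal.Quotient.mk (𝔟.map φ)))
      (CommRingCat.ofHom (Ideal.quotientMap (𝔟.map φ) φ Ideal.le_comap_map)) := by
  refine IsPushout.of_isColimit' ⟨by ext; rfl⟩ ?_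
  refine PushoutCocone.IsColimit.mk _ (fun s => CommRingCat.ofHom (Ideal.Quotient.lift (𝔟.map φ) s.inl.hom ?_)) ?_ ?_ ?_
  · intro a ha
    have : 𝔟.map φ ≤ RingHom.ker s.inl.hom := by
      rw [Ideal.map_le_iff_le_comap]
      intro b hb
      have h := congrArg (fun k => k.hom b) s.condition
      have h2 : s.inl.hom (φ b) = s.inr.hom (Ideal.Quotient.mk 𝔟 b) := h
      rw [Ideal.mem_comap, RingHom.mem_ker, h2, Ideal.Quotient.eq_zero_iff_mem.mpr hb, map_zero]
    exact this ha
  · intro s
    ext a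
    rfl
  · intro s
    ext b
    exact congrArg (fun k => k.hom b) s.condition
  · intro s m h1 h2
    ext a
    exact congrArg (fun k => k.hom a) h1

theorem result3873 (A B : Type u) [CommRing A] [CommRing B] (φ : B →+* A) (𝔟 : Ideal B) :
    (FSch.idealSpec B 𝔟).comap (Spec.map (CommRingCat.ofHom φ)) = FSch.idealSpec A (𝔟.map φ) := by
  have hp := isPullback_SpecMap_of_isPushout _ _ _ _ (isPushout_quot A B φ 𝔟)
  have : IsClosedImmersion (Spec.map (CommRingCat.ofHom (Ideal.Quotient.mk 𝔟))) :=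
    IsClosedImmersion.spec_of_surjective _ Ideal.Quotient.mk_surjective
  rw [FSch.idealSpec, FSch.idealSpec, ← Scheme.IdealSheafData.ker_fst_of_isClosedImmersion,
    ← Scheme.Hom.ker_comp_of_isIso hp.isoPullback.hom, hp.isoPullback_hom_fst]

end Groth.Agent.H6FC
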