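import Groth.Prelude.Def_FSch3

set_option autoImplicit false
universe u
open CategoryTheory CategoryTheory.Limits Opposite
open AlgebraicGeometry

namespace Groth.Agent.H6FC

theorem result3859 {𝔛 𝔜 𝔖 : FSch.Sys.{u}} (f : 𝔛 ⟶ 𝔖) (g : 𝔜 ⟶ 𝔖) :
    IsPullback (FSch.pullbackFst f g) (FSch.pullbackSnd f g) f g := by
  refine IsPullback.of_isLimit' ⟨FSch.Hom.ext (funext fun _ => pullback.condition)⟩ ?_
  have hc : ∀ (s : PullbackCone f g) (n : ℕ),
      (s.fst : FSch.Hom _ _).app n ≫ (f : FSch.Hom _ _).app n =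
        (s.snd : FSch.Hom _ _).app n ≫ (g : FSch.Hom _ _).app n := fun s n =>
    congrArg (fun k : s.pt ⟶ 𝔖 => (k : FSch.Hom _ _).app n) s.condition
  refine PullbackCone.IsLimit.mk _ (fun s =>
    (⟨fun n => pullback.lift ((s.fst : FSch.Hom _ _).app n) ((s.snd : FSch.Hom _ _).app n) (hc s n),
      fun n => ?_⟩ : FSch.Hom s.pt (FSch.pullbackSys f g))) ?_ ?_ ?_
  · change pullback.lift ((s.fst : FSch.Hom _ _).app n) ((s.snd : FSch.Hom _ _).app n) (hc s n) ≫
      pullback.map _ _ _ _ (𝔛.ι n) (𝔜.ι n) (𝔖.ι n) ((f : FSch.Hom 𝔛 𝔖).comm n) ((g : FSch.Hom 𝔜 𝔖).comm n) =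
      s.pt.ι n ≫ pullback.lift _ _ (hc s (n + 1))
    apply pullback.hom_ext
    · rw [Category.assoc, Category.assoc, pullback.lift_fst, pullback.lift_fst, pullback.lift_fst_assoc]
      exact (s.fst : FSch.Hom _ _).comm n
    · rw [Category.assoc, Category.assoc, pullback.lift_snd, pullback.lift_snd, pullback.lift_snd_assoc]
      exact (s.snd : FSch.Hom _ _).comm n
  · intro s
    exact FSch.Hom.ext (funext fun n => pullback.lift_fst _ _ _)
  · intro s
    exact FSch.Hom.ext (funext fun n => pullback.lift_snd _ _ _)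
  · intro s m h1 h2
    refine FSch.Hom.ext (funext fun n => ?_)
    apply pullback.hom_ext
    · refine Eq.trans ?_ (pullback.lift_fst _ _ _).symm
      exact congrArg (fun k : s.pt ⟶ 𝔛 => (k : FSch.Hom _ _).app n) h1
    · refine Eq.trans ?_ (pullback.lift_snd _ _ _).symm
      exact congrArg (fun k : s.pt ⟶ 𝔜 => (k : FSch.Hom _ _).app n) h2

end Groth.Agent.H6FC
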