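import Mathlib.RingTheory.AdicCompletion.AsTensorProduct

set_option autoImplicit false
universe u
open TensorProduct

namespace Groth.Agent.H6FC

theorem result3866 (A : Type u) [CommRing A] [IsNoetherianRing A]
    (J : Ideal A) [IsAdicComplete J A] (M : Type u) [AddCommGroup M] [Module A M] [Module.Finite A M] :
    IsAdicComplete J M := by
  rw [← AdicCompletion.of_bijective_iff]
  let e1 : M ≃ₗ[A] A ⊗[A] M := (TensorProduct.lid A M).symm
  let e2 : A ⊗[A] M ≃ₗ[A] AdicCompletion J A ⊗[A] M :=
    TensorProduct.congr (LinearEquiv.ofBijective (AdicCompletion.of J A) (AdicCompletion.of_bijective J A))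
      (LinearEquiv.refl A M)
  have h : ⇑(AdicCompletion.of J M) = (AdicCompletion.ofTensorProduct J M) ∘ e2 ∘ e1 := by
    funext x
    simp only [Function.comp, e1, e2, TensorProduct.lid_symm_apply, TensorProduct.congr_tmul,
      LinearEquiv.refl_apply, LinearEquiv.ofBijective_apply, AdicCompletion.ofTensorProduct_tmul]
    have : AdicCompletion.of J A 1 = 1 := rfl
    rw [this, one_smul]
  rw [h]
  exact (AdicCompletion.ofTensorProduct_bijective_of_finite_of_isNoetherian J M).comp
    (e2.bijective.comp e1.bijective)

end Groth.Agent.H6FC
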