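import Mathlib.CategoryTheory.CofilteredSystem
import Mathlib.Algebra.Category.Grp.Basic
import Mathlib.Algebra.Group.Subgroup.Ker
import Mathlib.Algebra.Group.Subgroup.Lattice
import Mathlib.Order.Directed
set_option autoImplicit false
universe u
open CategoryTheory

namespace Groth.Agent.H6HA

theorem result3532 (F : ℕᵒᵖ ⥤ AddCommGrpCat.{u}) :
    (F ⋙ forget AddCommGrpCat).IsMittagLeffler ↔
      ((∃ k₀ : ℕ, ∀ (k : ℕ) (hk : k₀ ≤ k),
          (F.map (homOfLE (Nat.zero_le k)).op).hom.range = (F.map (homOfLE (Nat.zero_le k₀)).op).hom.range) ∧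
        ∀ p : ℕ, ∃ k₀ : ℕ, ∃ h₀ : p + 1 ≤ k₀, ∀ (k : ℕ) (hk : k₀ ≤ k),
          (F.map (homOfLE (h₀.trans hk)).op).hom.range ⊓ (F.map (homOfLE (Nat.le_succ p)).op).hom.ker =
            (F.map (homOfLE h₀).op).hom.range ⊓ (F.map (homOfLE (Nat.le_succ p)).op).hom.ker) := by
  have hcomp : ∀ {a b c : ℕ} (h1 : a ≤ b) (h2 : b ≤ c) (x : F.obj (Opposite.op c)),
      (F.map (homOfLE h1).op).hom ((F.map (homOfLE h2).op).hom x) =
        (F.map (homOfLE (h1.trans h2)).op).hom x := by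
    intro a b c h1 h2 x
    rw [← homOfLE_comp h1 h2, op_comp, F.map_comp]; rfl
  have hanti : ∀ {a b c : ℕ} (h1 : a ≤ b) (h2 : b ≤ c),
      (F.map (homOfLE (h1.trans h2)).op).hom.range ≤ (F.map (homOfLE h1).op).hom.range := by
    rintro a b c h1 h2 _ ⟨x, rfl⟩
    exact ⟨_, hcomp h1 h2 x⟩
  constructor
  · intro h
    have hp : ∀ p : ℕ, ∃ k₀, ∃ h₀ : p ≤ k₀, ∀ k (hk : k₀ ≤ k),
        (F.map (homOfLE (h₀.trans hk)).op).hom.range = (F.map (homOfLE h₀).op).hom.range := by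
      intro p
      obtain ⟨i, f, hf⟩ := h (Opposite.op p)
      refine ⟨i.unop, leOfHom f.unop, fun k hk => le_antisymm (hanti (leOfHom f.unop) hk) ?_⟩
      rintro _ ⟨x, rfl⟩
      have := hf (homOfLE ((leOfHom f.unop).trans hk)).op ⟨x, rfl⟩
      obtain ⟨y, hy⟩ := this
      exact ⟨y, hy⟩
    refine ⟨?_, fun p => ?_⟩
    · obtain ⟨k₀, h₀, H⟩ := hp 0
      exact ⟨k₀, fun k hk => H k hk⟩
    · obtain ⟨k₀, h₀, H⟩ := hp (p+1)
      exact ⟨k₀, h₀, fun k hk => by rw [H k hk]⟩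
  · rintro ⟨hz, hs⟩
    have hp : ∀ p : ℕ, ∃ k₀, ∃ h₀ : p ≤ k₀, ∀ k (hk : k₀ ≤ k),
        (F.map (homOfLE h₀).op).hom.range ≤ (F.map (homOfLE (h₀.trans hk)).op).hom.range := by
      intro p
      induction p with
      | zero => obtain ⟨k₀, H⟩ := hz; exact ⟨k₀, Nat.zero_le _, fun k hk => (H k hk).ge⟩
      | succ p ih =>
        obtain ⟨k1, h1, H1⟩ := ih
        obtain ⟨k2, h2, H2⟩ := hs p
        refine ⟨max k1 k2, h2.trans (le_max_right _ _), fun k hk => ?_⟩
        rintro _ ⟨a, rfl⟩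
        have e1 : (F.map (homOfLE (Nat.le_succ p)).op).hom
            ((F.map (homOfLE (h2.trans (le_max_right k1 k2))).op).hom a) ∈
            (F.map (homOfLE h1).op).hom.range := by
          rw [hcomp]
          exact hanti h1 (le_max_left k1 k2) ⟨a, rfl⟩
        obtain ⟨c, hc⟩ := H1 k ((le_max_left _ _).trans hk) e1
        have hk2 : k2 ≤ k := (le_max_right _ _).trans hk
        have e2 : (F.map (homOfLE (h2.trans (le_max_right k1 k2))).op).hom a -
            (F.map (homOfLE (h2.trans hk2)).op).hom c ∈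
            (F.map (homOfLE h2).op).hom.range ⊓ (F.map (homOfLE (Nat.le_succ p)).op).hom.ker := by
          refine ⟨AddSubgroup.sub_mem _ (hanti h2 (le_max_right k1 k2) ⟨a, rfl⟩) (hanti h2 hk2 ⟨c, rfl⟩), ?_⟩
          refine (AddMonoidHom.mem_ker).mpr ?_
          rw [map_sub, hcomp (Nat.le_succ p) (h2.trans hk2) c]
          exact sub_eq_zero.mpr hc.symm
        rw [← H2 k hk2] at e2
        have e3 := AddSubgroup.add_mem _ e2.1 (⟨c, rfl⟩ :
          (F.map (homOfLE (h2.trans hk2)).op).hom c ∈ (F.map (homOfLE (h2.trans hk2)).op).hom.range)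
        rw [sub_add_cancel] at e3
        exact e3
    intro j
    obtain ⟨k₀, h₀, H⟩ := hp j.unop
    refine ⟨Opposite.op k₀, (homOfLE h₀).op, ?_⟩
    rintro k g _ ⟨x, rfl⟩
    -- compare with max
    have hm := H (max k₀ k.unop) (le_max_left _ _) ⟨x, rfl⟩
    have hg : j.unop ≤ k.unop := leOfHom g.unop
    have h3 := hanti hg (le_max_right k₀ k.unop) hm
    obtain ⟨y, hy⟩ := h3
    exact ⟨y, hy⟩

end Groth.Agent.H6HA
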