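import Groth.Prelude.Def_Hyper2
import Mathlib.AlgebraicTopology.SimplicialObject.ChainHomotopy
set_option autoImplicit false
universe u
open CategoryTheory CategoryTheory.Limits Opposite

namespace Groth.Agent.H6Hyp

theorem hd {C : Type u} [SmallCategory C] (X : C)
    (K : SimplicialObject (FormalCoproduct.{u} (Over X))) (P : Cᵒᵖ ⥤ AddCommGrpCat.{u}) (n : ℕ) :
    (((AlgebraicTopology.alternatingFaceMapComplex _).obj
      (((SimplicialObject.whiskering _ _).obj ((FormalCoproduct.evalOp.{u} (Over X) AddCommGrpCat.{u}).obj ((Over.forget X).op ⋙ P)).rightOp).obj K)).d (n+1) n).unop =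
      (Hyper.cechCx X K P).d n (n + 1) := by
  rw [AlgebraicTopology.alternatingFaceMapComplex_obj_d, AlgebraicTopology.AlternatingFaceMapComplex.objD, unop_sum]
  have hz : AlgebraicTopology.AlternatingCofaceMapComplex.objD
      (K.rightOp ⋙ (FormalCoproduct.evalOp.{u} (Over X) AddCommGrpCat.{u}).obj ((Over.forget X).op ⋙ P) :
        CosimplicialObject AddCommGrpCat.{u}) n = (Hyper.cechCx X K P).d n (n + 1) :=
    (CochainComplex.of_d _ (AlgebraicTopology.AlternatingCofaceMapComplex.objD
      (K.rightOp ⋙ (FormalCoproduct.evalOp.{u} (Over X) AddCommGrpCat.{u}).obj ((Over.forget X).op ⋙ P) :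
        CosimplicialObject AddCommGrpCat.{u})) n).symm
  refine Eq.trans ?_ hz
  refine Finset.sum_congr rfl fun i _ => ?_
  rw [unop_zsmul]
  rfl

noncomputable def cochHtpy {C : Type u} [SmallCategory C] (X : C)
    {K L : SimplicialObject (FormalCoproduct.{u} (Over X))} (a b : L ⟶ K)
    (h : SimplicialObject.Homotopy a b) (P : Cᵒᵖ ⥤ AddCommGrpCat.{u}) :
    Homotopy (Hyper.cechMap X a P) (Hyper.cechMap X b P) := by
  let E := (FormalCoproduct.evalOp.{u} (Over X) AddCommGrpCat.{u}).obj ((Over.forget X).op ⋙ P)
  let H' := h.whiskerRight E.rightOp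
  let T := H'.toChainHomotopy
  refine { hom := fun i j => (T.hom j i).unop, zero := ?_, comm := ?_ }
  · intro i j hij
    have := T.zero j i (by simpa using hij)
    exact congrArg (fun k => k.unop) this
  · intro n
    have hc := congrArg (fun k => k.unop) (T.comm n)
    rw [Homotopy.dNext_cochainComplex]
    cases n with
    | zero =>
      rw [Homotopy.prevD_zero_cochainComplex]
      rw [Homotopy.dNext_zero_chainComplex, Homotopy.prevD_chainComplex] at hc
      refine hc.trans ?_
      rw [← hd X K P 0, zero_add, add_zero]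
      rfl
    | succ n =>
      rw [Homotopy.prevD_succ_cochainComplex]
      rw [Homotopy.dNext_succ_chainComplex, Homotopy.prevD_chainComplex] at hc
      refine hc.trans ?_
      rw [← hd X K P (n+1), ← hd X L P n]
      rw [unop_add, unop_add, add_comm (Quiver.Hom.unop _) (Quiver.Hom.unop _)]
      rfl

theorem result3886 {C : Type u} [SmallCategory C] (X : C)
    {K L : SimplicialObject (FormalCoproduct.{u} (Over X))} (a b : L ⟶ K)
    (h : Nonempty (SimplicialObject.Homotopy a b)) (P : Cᵒᵖ ⥤ AddCommGrpCat.{u}) (p : ℕ) :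
    Hyper.cechHMap X a P p = Hyper.cechHMap X b P p := by
  obtain ⟨h⟩ := h
  exact congrArg (fun k => k.hom) ((cochHtpy X a b h P).homologyMap_eq p)

end Groth.Agent.H6Hyp
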