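import Groth.Prelude.Def_PP16
import Groth.Prelude.Def_DiffOp
import Mathlib
set_option autoImplicit false
universe u
open scoped TensorProduct
open scoped BigOperators
open PP16

namespace Groth.Agent.H6PP

theorem tensorMap_surj (A B A' B' : Type u) [CommRing A] [CommRing B] [Algebra A B]
   [CommRing A'] [CommRing B'] [Algebra A' B'] [Algebra A A'] [Algebra B B'] [Algebra A B']
   [IsScalarTower A A' B'] [IsScalarTower A B B'] (h : Function.Surjective (algebraMap B B')) :
   Function.Surjective (tensorMap A B A' B') := by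
  intro x
  induction x using TensorProduct.induction_on with
  | zero => exact ⟨0, map_zero _⟩
  | tmul b c =>
    obtain ⟨b, rfl⟩ := h b
    obtain ⟨c, rfl⟩ := h c
    exact ⟨b ⊗ₜ c, tensorMap_tmul A B A' B' b c⟩
  | add x y hx hy =>
    obtain ⟨x, rfl⟩ := hx
    obtain ⟨y, rfl⟩ := hy
    exact ⟨x + y, map_add _ _ _⟩

theorem ideal_map_tensorMap_eq (A B A' B' : Type u) [CommRing A] [CommRing B] [Algebra A B]
   [CommRing A'] [CommRing B'] [Algebra A' B'] [Algebra A A'] [Algebra B B'] [Algebra A B']
   [IsScalarTower A A' B'] [IsScalarTower A B B'] (h : Function.Surjective (algebraMap B B')) :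
   (KaehlerDifferential.ideal A B).map (tensorMap A B A' B') = KaehlerDifferential.ideal A' B' := by
  apply le_antisymm (ideal_map_tensorMap_le A B A' B')
  rw [← KaehlerDifferential.span_range_eq_ideal, Ideal.span_le]
  rintro _ ⟨s, rfl⟩
  obtain ⟨s, rfl⟩ := h s
  have := Ideal.mem_map_of_mem (tensorMap A B A' B') (KaehlerDifferential.one_smul_sub_smul_one_mem_ideal A s)
  simpa [tensorMap_tmul] using this

theorem map_surj (n : ℕ) (A B A' B' : Type u) [CommRing A] [CommRing B] [Algebra A B]
   [CommRing A'] [CommRing B'] [Algebra A' B'] [Algebra A A'] [Algebra B B'] [Algebra A B']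
   [IsScalarTower A A' B'] [IsScalarTower A B B'] (h : Function.Surjective (algebraMap B B')) :
   Function.Surjective (PP16.map n A B A' B') := by
  intro x
  obtain ⟨x, rfl⟩ := Ideal.Quotient.mk_surjective x
  obtain ⟨x, rfl⟩ := tensorMap_surj A B A' B' h x
  exact ⟨Ideal.Quotient.mk _ x, map_mk n A B A' B' x⟩

theorem map_ker (n : ℕ) (A B A' B' : Type u) [CommRing A] [CommRing B] [Algebra A B]
   [CommRing A'] [CommRing B'] [Algebra A' B'] [Algebra A A'] [Algebra B B'] [Algebra A B']
   [IsScalarTower A A' B'] [IsScalarTower A B B'] (h : Function.Surjective (algebraMap B B')) :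
   RingHom.ker (PP16.map n A B A' B') = (RingHom.ker (tensorMap A B A' B')).map
    (Ideal.Quotient.mk ((KaehlerDifferential.ideal A B) ^ (n + 1))) := by
  apply le_antisymm
  · intro x hx
    obtain ⟨x, rfl⟩ := Ideal.Quotient.mk_surjective x
    rw [RingHom.mem_ker, map_mk, Ideal.Quotient.eq_zero_iff_mem, ← ideal_map_tensorMap_eq A B A' B' h,
      ← Ideal.map_pow, Ideal.mem_map_iff_of_surjective _ (tensorMap_surj A B A' B' h)] at hx
    obtain ⟨y, hy, hxy⟩ := hx
    have h1 : x - y ∈ RingHom.ker (tensorMap A B A' B') := by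
      rw [RingHom.mem_ker, map_sub, hxy, sub_self]
    have h2 := Ideal.mem_map_of_mem (Ideal.Quotient.mk ((KaehlerDifferential.ideal A B) ^ (n + 1))) h1
    rwa [map_sub, Ideal.Quotient.eq_zero_iff_mem.mpr hy, sub_zero] at h2
  · rw [Ideal.map_le_iff_le_comap]
    intro x hx
    rw [Ideal.mem_comap, RingHom.mem_ker, map_mk, (RingHom.mem_ker).mp hx, map_zero]

theorem sup_pow_le' {R : Type u} [CommRing R] (I J : Ideal R) (n : ℕ) : (I ⊔ J) ^ (n+1) ≤ I ^ (n+1) ⊔ J := by
  induction n with
  | zero => simp
  | succ k ih =>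
    rw [pow_succ (I ⊔ J) (k+1)]
    refine le_trans (Ideal.mul_mono_left ih) ?_
    rw [Ideal.sup_mul, Ideal.mul_sup, ← pow_succ]
    refine sup_le (sup_le le_sup_left (le_sup_of_le_right ?_)) (le_sup_of_le_right ?_)
    · exact Ideal.mul_le.mpr (fun r _ s hs => Ideal.mul_mem_left _ _ hs)
    · exact Ideal.mul_le.mpr (fun r hr s _ => Ideal.mul_mem_right _ _ hr)

theorem aux_mul {S T : Type u} [CommRing S] [CommRing T] (q : S →+* T) (x y z w : S) (h : x = y + z * w) (hz : q z = 0) : q x = q y := by
  rw [h, map_add, map_mul, hz, zero_mul, add_zero]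


theorem ker_lmul'' (A B : Type u) [CommRing A] [CommRing B] [Algebra A B] :
   RingHom.ker (Algebra.TensorProduct.lmul'' A (S := B)) = KaehlerDifferential.ideal A B := by
  ext x; rfl

theorem ideal_pow_map (n : ℕ) (A B C : Type u) [CommRing A] [CommRing B] [Algebra A B] [CommRing C] [Algebra B C] 
   (e1 : B ⊗[A] B ≃ₐ[B] C) (ε : C →ₐ[B] B) (h : ∀ b : B, ε (e1 (1 ⊗ₜ b)) = b) :
   RingHom.ker ε ^ (n+1) = ((KaehlerDifferential.ideal A B) ^ (n+1)).map (e1 : B ⊗[A] B →+* C) := by
  rw [Ideal.map_pow]
  congr 1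
  have hcomp : ∀ x, ε (e1 x) = Algebra.TensorProduct.lmul'' A (S := B) x := by
    intro x
    induction x using TensorProduct.induction_on with
    | zero => simp
    | tmul b c =>
      have : b ⊗ₜ[A] c = algebraMap B _ b * ((1:B) ⊗ₜ[A] c) := by simp [Algebra.TensorProduct.algebraMap_apply]
      rw [this, map_mul, map_mul, AlgEquiv.commutes, AlgHom.commutes, h, map_mul, AlgHom.commutes]
      simp [Algebra.TensorProduct.lmul'']
    | add x y hx hy => rw [map_add, map_add, hx, hy, map_add]
  have : KaehlerDifferential.ideal A B = (RingHom.ker ε).comap (e1 : B ⊗[A] B →+* C) := by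
    ext x
    rw [← ker_lmul'', RingHom.mem_ker, ← hcomp]; rfl
  rw [this]; exact (Ideal.map_comap_of_surjective (e1 : B ⊗[A] B →+* C) e1.surjective _).symm

theorem ker_aeval_zero (σ : Type u) (B : Type u) [CommRing B] :
   RingHom.ker (MvPolynomial.aeval (fun _ => 0) : MvPolynomial σ B →ₐ[B] B) = Ideal.span (Set.range (MvPolynomial.X : σ → MvPolynomial σ B)) := by
  apply le_antisymm
  · have key : ∀ p : MvPolynomial σ B, p - MvPolynomial.C ((MvPolynomial.aeval (fun _ => 0) : MvPolynomial σ B →ₐ[B] B) p) ∈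
      Ideal.span (Set.range (MvPolynomial.X : σ → MvPolynomial σ B)) := by
      intro p
      induction p using MvPolynomial.induction_on with
      | C a => simp
      | add p q hp hq =>
        have := Ideal.add_mem _ hp hq
        rw [map_add, map_add]
        convert this using 1
        ring
      | mul_X p i hp =>
        rw [map_mul, MvPolynomial.aeval_X, mul_zero, map_zero, sub_zero]
        exact Ideal.mul_mem_left _ _ (Ideal.subset_span ⟨i, rfl⟩)
    intro p hp
    have := key p
    rwa [(RingHom.mem_ker).mp hp, map_zero, sub_zero] at this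
  · rw [Ideal.span_le]
    rintro _ ⟨i, rfl⟩
    simp [RingHom.mem_ker]

theorem isUnit_dn (n : ℕ) (A B : Type u) [CommRing A] [CommRing B] [Algebra A B] {Q : Type u} [CommRing Q]
    (f : PP16.P n A B →+* Q) (s : B) (hs : IsUnit (f (algebraMap B _ s))) : IsUnit (f (dn n A B s)) := by
  have h1 : IsNilpotent (dn n A B s - algebraMap B (PP16.P n A B) s) := by
    refine ⟨n + 1, ?_⟩
    have : dn n A B s - algebraMap B (PP16.P n A B) s = Ideal.Quotient.mk ((KaehlerDifferential.ideal A B) ^ (n + 1))
      ((1:B) ⊗ₜ[A] s - s ⊗ₜ[A] 1) := by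
      rw [map_sub]; rfl
    rw [this, ← map_pow, Ideal.Quotient.eq_zero_iff_mem]
    exact Ideal.pow_mem_pow (KaehlerDifferential.one_smul_sub_smul_one_mem_ideal A s) _
  have h2 : f (dn n A B s) = f (algebraMap B _ s) + f (dn n A B s - algebraMap B (PP16.P n A B) s) := by
    rw [map_sub]; ring
  rw [h2]
  exact IsNilpotent.isUnit_add_left_of_commute (h1.map f) hs (Commute.all _ _)

theorem P_ringHom_ext (n : ℕ) (A B : Type u) [CommRing A] [CommRing B] [Algebra A B] {Q : Type u} [CommRing Q]
    (f g : PP16.P n A B →+* Q) (h1 : f.comp (algebraMap B _) = g.comp (algebraMap B _)) 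
    (h2 : f.comp (dn n A B).toRingHom = g.comp (dn n A B).toRingHom) : f = g := by
  apply Ideal.Quotient.ringHom_ext
  apply RingHom.ext
  intro x
  induction x using TensorProduct.induction_on with
  | zero => simp
  | tmul b c =>
    have : b ⊗ₜ[A] c = (b ⊗ₜ[A] (1:B)) * ((1:B) ⊗ₜ[A] c) := by simp
    rw [this, map_mul, map_mul]
    congr 1
    · exact RingHom.congr_fun h1 b
    · exact RingHom.congr_fun h2 c
  | add x y hx hy => rw [map_add, map_add, hx, hy]

theorem P_lift (n : ℕ) (A B : Type u) [CommRing A] [CommRing B] [Algebra A B] {Q : Type u} [CommRing Q]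
    (f g : B →+* Q) (h1 : f.comp (algebraMap A B) = g.comp (algebraMap A B)) (J : Ideal Q) (hJ : J ^ (n+1) = ⊥) 
    (h2 : ∀ b, g b - f b ∈ J) : ∃ F : PP16.P n A B →+* Q, F.comp (algebraMap B _) = f ∧ F.comp (dn n A B).toRingHom = g := by
  let _ : Algebra A Q := (f.comp (algebraMap A B)).toAlgebra
  let f' : B →ₐ[A] Q := { f with commutes' := fun a => rfl }
  let g' : B →ₐ[A] Q := { g with commutes' := fun a => (RingHom.congr_fun h1 a).symm }
  let φ : B ⊗[A] B →ₐ[A] Q := Algebra.TensorProduct.lift f' g' (fun _ _ => Commute.all _ _)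
  have hφ : ∀ b c, φ (b ⊗ₜ c) = f b * g c := fun b c => Algebra.TensorProduct.lift_tmul _ _ _ _ _
  have hI : (KaehlerDifferential.ideal A B).map φ ≤ J := by
    rw [← KaehlerDifferential.span_range_eq_ideal, Ideal.map_span, Ideal.span_le]
    rintro _ ⟨_, ⟨s, rfl⟩, rfl⟩
    rw [SetLike.mem_coe, map_sub, hφ, hφ, map_one, map_one, one_mul, mul_one]
    exact h2 s
  let ψ : PP16.P n A B →+* Q := Ideal.Quotient.lift _ φ.toRingHom (by
      intro x hx
      have h2 := Ideal.mem_map_of_mem φ hx
      rw [Ideal.map_pow] at h2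
      have h3 := Ideal.pow_right_mono hI _ h2
      rw [hJ] at h3
      exact h3)
  refine ⟨ψ, ?_, ?_⟩
  · ext b
    change φ (b ⊗ₜ 1) = f b
    rw [hφ, map_one, mul_one]
  · ext b
    change φ (1 ⊗ₜ b) = g b
    rw [hφ, map_one, one_mul]

theorem augIdeal_pow (n : ℕ) (A B : Type u) [CommRing A] [CommRing B] [Algebra A B] : (augIdeal n A B) ^ (n+1) = ⊥ := by
  rw [augIdeal, ← Ideal.map_pow, Ideal.map_quotient_self]

theorem dn_sub_mem (n : ℕ) (A B : Type u) [CommRing A] [CommRing B] [Algebra A B] (b : B) :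
    dn n A B b - algebraMap B (PP16.P n A B) b ∈ augIdeal n A B := by
  have : dn n A B b - algebraMap B (PP16.P n A B) b = Ideal.Quotient.mk ((KaehlerDifferential.ideal A B) ^ (n + 1))
      ((1:B) ⊗ₜ[A] b - b ⊗ₜ[A] 1) := by
    rw [map_sub]; rfl
  rw [this]
  exact Ideal.mem_map_of_mem _ (KaehlerDifferential.one_smul_sub_smul_one_mem_ideal A b)



section
variable (A B : Type u) [CommRing A] [CommRing B] [Algebra A B]
    (M N : Type u) [AddCommGroup M] [Module A M] [Module B M] [IsScalarTower A B M]
    [AddCommGroup N] [Module A N] [Module B N] [IsScalarTower A B N]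

/-- left action -/
noncomputable def lact : B →ₐ[A] Module.End A (M →ₗ[A] N) where
  toFun b :=
    { toFun := fun D => b • D
      map_add' := fun D D' => by ext; simp
      map_smul' := fun a D => by ext m; simp [smul_comm a b] }
  map_one' := by ext; simp
  map_mul' := fun b b' => by ext; simp [mul_smul]
  map_zero' := by ext; simp
  map_add' := fun b b' => by ext; simp [add_smul]
  commutes' := fun a => by ext D m; simp [Module.algebraMap_end_apply]

noncomputable def ract : B →ₐ[A] Module.End A (M →ₗ[A] N) where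
  toFun b :=
    { toFun := fun D => D ∘ₗ ((LinearMap.lsmul B M b).restrictScalars A)
      map_add' := fun D D' => by ext; simp
      map_smul' := fun a D => by ext m; simp }
  map_one' := by ext; simp
  map_mul' := fun b b' => by ext D m; simp [mul_smul, smul_comm b b']
  map_zero' := by ext; simp
  map_add' := fun b b' => by ext; simp [add_smul]
  commutes' := fun a => by ext D m; simp [Module.algebraMap_end_apply]

noncomputable def act : B ⊗[A] B →ₐ[A] Module.End A (M →ₗ[A] N) :=
  Algebra.TensorProduct.lift (lact A B M N) (ract A B M N) (fun b c => by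
    ext D m
    rfl)

theorem act_tmul (b c : B) (D : M →ₗ[A] N) (m : M) : act A B M N (b ⊗ₜ c) D m = b • D (c • m) := by
  rw [act, Algebra.TensorProduct.lift_tmul]
  rfl

theorem act_comm (b : B) (D : M →ₗ[A] N) : act A B M N (1 ⊗ₜ b - b ⊗ₜ 1) D = Diff16.commutator A B M N D b := by
  ext m
  rw [map_sub, LinearMap.sub_apply, LinearMap.sub_apply, act_tmul, act_tmul]
  simp [Diff16.commutator]

theorem act_mul (x y : B ⊗[A] B) (D : M →ₗ[A] N) : act A B M N (x * y) D = act A B M N x (act A B M N y D) := by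
  rw [map_mul]; rfl

/-- the annihilator ideal -/
noncomputable def annD (D : M →ₗ[A] N) : Ideal (B ⊗[A] B) where
  carrier := {x | act A B M N x D = 0}
  add_mem' := fun {x y} hx hy => by
    simp only [Set.mem_ofPred_eq] at hx hy ⊢
    rw [map_add, LinearMap.add_apply, hx, hy, add_zero]
  zero_mem' := by simp
  smul_mem' := fun c x hx => by
    simp only [Set.mem_ofPred_eq] at hx ⊢
    rw [smul_eq_mul, act_mul, hx, map_zero]

theorem mem_annD (D : M →ₗ[A] N) (x : B ⊗[A] B) : x ∈ annD A B M N D ↔ act A B M N x D = 0 := Iff.rfl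

theorem isDiffOpLE_iff (n : ℕ) (D : M →ₗ[A] N) :
    Diff16.IsDiffOpLE A B M N n D ↔ (KaehlerDifferential.ideal A B) ^ (n+1) ≤ annD A B M N D := by
  induction n generalizing D with
  | zero =>
    rw [zero_add, pow_one, ← KaehlerDifferential.span_range_eq_ideal, Ideal.span_le]
    constructor
    · rintro h _ ⟨b, rfl⟩
      rw [SetLike.mem_coe, mem_annD, act_comm]
      ext m
      simp [Diff16.commutator, h b m]
    · intro h b m
      have := h ⟨b, rfl⟩
      rw [SetLike.mem_coe, mem_annD, act_comm] at this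
      have h2 := LinearMap.congr_fun this m
      simpa [Diff16.commutator, sub_eq_zero] using h2
  | succ n ih =>
    have h1 : Diff16.IsDiffOpLE A B M N (n+1) D ↔ ∀ b, Diff16.IsDiffOpLE A B M N n (Diff16.commutator A B M N D b) := Iff.rfl
    rw [h1]
    constructor
    · intro h
      rw [pow_succ, Ideal.mul_le]
      intro x hx y hy
      have h2 : KaehlerDifferential.ideal A B ≤ (annD A B M N (act A B M N x D)) := by
        refine le_trans (KaehlerDifferential.span_range_eq_ideal A B).ge ?_
        rw [Ideal.span_le]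
        rintro _ ⟨b, rfl⟩
        rw [SetLike.mem_coe, mem_annD, ← act_mul, mul_comm, act_mul, act_comm]
        exact (ih _).mp (h b) hx
      have h3 := h2 hy
      rw [mem_annD, ← act_mul, mul_comm] at h3
      exact h3
    · intro h b
      rw [ih]
      intro x hx
      rw [mem_annD, ← act_comm, ← act_mul]
      apply h
      rw [pow_succ]
      exact Ideal.mul_mem_mul hx (KaehlerDifferential.one_smul_sub_smul_one_mem_ideal A b)

end


end Groth.Agent.H6PP
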