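import Groth.Agent.Lib.H6_PP
set_option autoImplicit false
universe u
open scoped TensorProduct
open scoped BigOperators
open PP16

namespace Groth.Agent.H6PP

section
variable {A B : Type u} [CommRing A] [CommRing B] [Algebra A B]

noncomputable def phi (D : B →ₗ[A] B) : B ⊗[A] B →ₗ[B] B := LinearMap.liftBaseChange B D

theorem phi_tmul (D : B →ₗ[A] B) (b c : B) : phi D (b ⊗ₜ c) = b * D c := by
  rw [phi, LinearMap.liftBaseChange_tmul, smul_eq_mul]

theorem act_eq_phi (D : B →ₗ[A] B) (x : B ⊗[A] B) (c : B) : act A B B B x D c = phi D (x * (1 ⊗ₜ c)) := by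
  induction x using TensorProduct.induction_on with
  | zero => simp
  | tmul a b =>
    rw [act_tmul, Algebra.TensorProduct.tmul_mul_tmul, mul_one, phi_tmul, smul_eq_mul, smul_eq_mul]
  | add x y hx hy => rw [map_add, add_mul, map_add, ← hx, ← hy]; rfl

theorem isDiffOpLE_iff_phi (n : ℕ) (D : B →ₗ[A] B) :
    Diff16.IsDiffOpLE A B B B n D ↔ ∀ x ∈ (KaehlerDifferential.ideal A B) ^ (n+1), phi D x = 0 := by
  rw [isDiffOpLE_iff]
  constructor
  · intro h x hx
    have h1 := LinearMap.congr_fun ((mem_annD A B B B D x).mp (h hx)) 1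
    rw [act_eq_phi] at h1
    have h2 : x * ((1 : B) ⊗ₜ[A] (1 : B)) = x := mul_one x
    rw [h2] at h1
    exact h1
  · intro h x hx
    rw [mem_annD]
    ext c
    rw [act_eq_phi]
    exact h _ (Ideal.mul_mem_right _ _ hx)

theorem phi_add (D D' : B →ₗ[A] B) (x : B ⊗[A] B) : phi (D + D') x = phi D x + phi D' x := by
  induction x using TensorProduct.induction_on with
  | zero => simp
  | tmul a b => rw [phi_tmul, phi_tmul, phi_tmul, LinearMap.add_apply, mul_add]
  | add x y hx hy => rw [map_add, map_add, map_add, hx, hy]; ring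

theorem phi_smul (c : B) (D : B →ₗ[A] B) (x : B ⊗[A] B) : phi (c • D) x = c * phi D x := by
  induction x using TensorProduct.induction_on with
  | zero => simp
  | tmul a b => rw [phi_tmul, phi_tmul, LinearMap.smul_apply, smul_eq_mul]; ring
  | add x y hx hy => rw [map_add, map_add, hx, hy]; ring

theorem phi_zero (x : B ⊗[A] B) : phi (0 : B →ₗ[A] B) x = 0 := by
  have := phi_smul (0 : B) (0 : B →ₗ[A] B) x
  rwa [zero_smul, zero_mul] at this

theorem phi_sum {κ : Type*} (s : Finset κ) (F : κ → (B →ₗ[A] B)) (x : B ⊗[A] B) : phi (∑ i ∈ s, F i) x = ∑ i ∈ s, phi (F i) x := by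
  classical
  induction s using Finset.induction_on with
  | empty => rw [Finset.sum_empty, Finset.sum_empty, phi_zero]
  | insert a s ha ih => rw [Finset.sum_insert ha, Finset.sum_insert ha, phi_add, ih]

theorem phi_inj (D D' : B →ₗ[A] B) (h : ∀ x, phi D x = phi D' x) : D = D' := by
  ext c
  have := h (1 ⊗ₜ c)
  rwa [phi_tmul, phi_tmul, one_mul, one_mul] at this

variable {ι : Type} [Fintype ι] [DecidableEq ι] (z : ι → B)

/-- monomials in zeta -/
noncomputable def zmon (A : Type u) [CommRing A] [Algebra A B] (z : ι → B) (q : ι → ℕ) : B ⊗[A] B := ∏ i, ((1 : B) ⊗ₜ[A] z i - z i ⊗ₜ[A] 1) ^ q i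

theorem bin1 (w : B) (q p : ℕ) : ∑ r ∈ Finset.range (q + 1), (w ^ r * (-w) ^ (q - r) * (Nat.choose q r : B)) = 0 ^ q := by
  rw [← add_pow, add_neg_cancel]

theorem bin2 (w : B) (q p : ℕ) : ∑ r ∈ Finset.range (q + 1), ((-w) ^ (q - r) * (Nat.choose q r : B) * ((Nat.choose r p : B) * w ^ (r - p))) = if q = p then 1 else 0 := by
  by_cases hqp : p ≤ q
  · obtain ⟨d, rfl⟩ := Nat.exists_eq_add_of_le hqp
    have h1 : p + d + 1 = p + (d + 1) := by ring
    rw [h1, Finset.sum_range_add, Finset.sum_eq_zero, zero_add]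
    · have h2 : ∀ s ∈ Finset.range (d+1), ((-w) ^ (p + d - (p + s)) * (Nat.choose (p + d) (p + s) : B) * ((Nat.choose (p + s) p : B) * w ^ (p + s - p))) =
          (Nat.choose (p + d) p : B) * (w ^ s * (-w) ^ (d - s) * (Nat.choose d s : B)) := by
        intro s hs
        rw [Finset.mem_range] at hs
        have h3 : Nat.choose (p + d) (p + s) * Nat.choose (p + s) p = Nat.choose (p + d) p * Nat.choose d s := by
          have := Nat.choose_mul (n := p + d) (k := p + s) (s := p) (by omega)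
          rwa [Nat.add_sub_cancel_left, Nat.add_sub_cancel_left] at this
        have h4 : ((Nat.choose (p + d) (p + s) : B)) * (Nat.choose (p + s) p : B) = (Nat.choose (p + d) p : B) * (Nat.choose d s : B) := by
          exact_mod_cast congrArg (Nat.cast : ℕ → B) h3
        rw [show p + d - (p + s) = d - s by omega, Nat.add_sub_cancel_left]
        linear_combination ((-w) ^ (d - s) * w ^ s) * h4
      rw [Finset.sum_congr rfl h2, ← Finset.mul_sum, bin1 w d 0]
      cases d with
      | zero => simp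
      | succ d => simp
    · intro r hr
      rw [Finset.mem_range] at hr
      rw [Nat.choose_eq_zero_of_lt hr, Nat.cast_zero, zero_mul, mul_zero]
  · rw [if_neg (by omega)]
    apply Finset.sum_eq_zero
    intro r hr
    rw [Finset.mem_range] at hr
    rw [Nat.choose_eq_zero_of_lt (show r < p by omega), Nat.cast_zero, zero_mul, mul_zero]

theorem prod_tmul' (s : Finset ι) (a b : ι → B) : ∏ i ∈ s, (a i ⊗ₜ[A] b i) = (∏ i ∈ s, a i) ⊗ₜ[A] (∏ i ∈ s, b i) := by
  induction s using Finset.induction_on with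
  | empty => simp [Algebra.TensorProduct.one_def]
  | insert i s hi ih => rw [Finset.prod_insert hi, Finset.prod_insert hi, Finset.prod_insert hi, ih, Algebra.TensorProduct.tmul_mul_tmul]

theorem zmon_expand (q : ι → ℕ) : zmon A z q = ∑ r ∈ Fintype.piFinset (fun i => Finset.range (q i + 1)),
    (∏ i, ((-z i) ^ (q i - r i) * (Nat.choose (q i) (r i) : B))) ⊗ₜ[A] (∏ i, z i ^ r i) := by
  have h0 : ∀ i, ((1 : B) ⊗ₜ[A] z i - z i ⊗ₜ[A] 1) ^ q i = ∑ r ∈ Finset.range (q i + 1), ((-z i) ^ (q i - r) * (Nat.choose (q i) r : B)) ⊗ₜ[A] (z i ^ r) := by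
    intro i
    rw [sub_eq_add_neg, add_pow]
    apply Finset.sum_congr rfl
    intro r hr
    have h1 : -(z i ⊗ₜ[A] (1:B)) = (-z i) ⊗ₜ[A] (1 : B) := by rw [TensorProduct.neg_tmul]
    have h2 : ((Nat.choose (q i) r : ℕ) : B ⊗[A] B) = (Nat.choose (q i) r : B) ⊗ₜ[A] (1 : B) := by
      rw [← map_natCast (algebraMap B (B ⊗[A] B))]; rfl
    rw [h1, h2, Algebra.TensorProduct.tmul_pow, Algebra.TensorProduct.tmul_pow, Algebra.TensorProduct.tmul_mul_tmul, Algebra.TensorProduct.tmul_mul_tmul]
    simp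
  rw [zmon, Finset.prod_congr rfl (fun i _ => h0 i), Finset.prod_univ_sum]
  apply Finset.sum_congr rfl
  intro r hr
  rw [prod_tmul']

theorem phi_zmon (Dp : (ι → ℕ) → (B →ₗ[A] B)) 
    (hDz : ∀ p q : ι → ℕ, Dp p (∏ i, z i ^ q i) =
        ((∏ i, Nat.choose (q i) (p i) : ℕ) : B) * ∏ i, z i ^ (q i - p i)) (p q : ι → ℕ) :
    phi (Dp p) (zmon A z q) = if q = p then 1 else 0 := by
  rw [zmon_expand, map_sum]
  have h1 : ∀ r ∈ Fintype.piFinset (fun i => Finset.range (q i + 1)), phi (Dp p) ((∏ i, ((-z i) ^ (q i - r i) * (Nat.choose (q i) (r i) : B))) ⊗ₜ[A] (∏ i, z i ^ r i)) =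
      ∏ i, ((-z i) ^ (q i - r i) * (Nat.choose (q i) (r i) : B) * ((Nat.choose (r i) (p i) : B) * z i ^ (r i - p i))) := by
    intro r hr
    rw [phi_tmul, hDz, Nat.cast_prod, ← Finset.prod_mul_distrib, ← Finset.prod_mul_distrib]
  rw [Finset.sum_congr rfl h1, ← Finset.prod_univ_sum (fun i => Finset.range (q i + 1)) (fun i r => (-z i) ^ (q i - r) * (Nat.choose (q i) r : B) * ((Nat.choose r (p i) : B) * z i ^ (r - p i)))]
  rw [Finset.prod_congr rfl (fun i _ => bin2 (z i) (q i) (p i))]
  by_cases h : q = p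
  · subst h; simp
  · rw [if_neg h]
    obtain ⟨i, hi⟩ : ∃ i, q i ≠ p i := by
      by_contra hcon
      push Not at hcon
      exact h (funext hcon)
    exact Finset.prod_eq_zero (Finset.mem_univ i) (if_neg hi)


theorem zeta_mem (i : ι) : (1 : B) ⊗ₜ[A] z i - z i ⊗ₜ[A] 1 ∈ KaehlerDifferential.ideal A B :=
  KaehlerDifferential.one_smul_sub_smul_one_mem_ideal A (z i)

/-- degree one -/
theorem one_step (hz : Submodule.span B (Set.range fun i => KaehlerDifferential.D A B (z i)) = ⊤) (x : B ⊗[A] B)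
    (hx : x ∈ KaehlerDifferential.ideal A B) : ∃ c : ι → B, x - ∑ i, c i • ((1 : B) ⊗ₜ[A] z i - z i ⊗ₜ[A] 1) ∈ KaehlerDifferential.ideal A B ^ 2 := by
  obtain ⟨t, ht⟩ : ∃ t : KaehlerDifferential A B, t = (KaehlerDifferential.ideal A B).toCotangent ⟨x, hx⟩ := ⟨_, rfl⟩
  have h1 : t ∈ Submodule.span B (Set.range fun i => KaehlerDifferential.D A B (z i)) := by
    rw [hz]; trivial
  rw [Submodule.mem_span_range_iff_exists_fun] at h1
  obtain ⟨c, hc⟩ := h1
  refine ⟨c, ?_⟩
  have h2 : (KaehlerDifferential.ideal A B).toCotangent (⟨x, hx⟩ - ∑ i, (algebraMap B (B ⊗[A] B) (c i)) • ⟨(1 : B) ⊗ₜ[A] z i - z i ⊗ₜ[A] 1, zeta_mem z i⟩) = 0 := by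
    rw [map_sub, map_sum, sub_eq_zero, ← ht, ← hc]
    apply Finset.sum_congr rfl
    intro i _
    rw [map_smul]
    refine Eq.trans (algebraMap_smul (B ⊗[A] B) (c i) (KaehlerDifferential.D A B (z i))).symm ?_
    rfl
  rw [Ideal.toCotangent_eq_zero] at h2
  convert h2 using 1
  simp [Algebra.smul_def]

theorem zero_step (x : B ⊗[A] B) : ∃ b : B, x - b • (1 : B ⊗[A] B) ∈ KaehlerDifferential.ideal A B := by
  induction x using TensorProduct.induction_on with
  | zero => exact ⟨0, by simp⟩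
  | tmul b c =>
    refine ⟨b * c, ?_⟩
    have : b ⊗ₜ[A] c - (b * c) • (1 : B ⊗[A] B) = (b ⊗ₜ 1) * ((1 : B) ⊗ₜ[A] c - c ⊗ₜ[A] 1) := by
      rw [mul_sub, Algebra.TensorProduct.tmul_mul_tmul, Algebra.TensorProduct.tmul_mul_tmul, Algebra.TensorProduct.one_def, TensorProduct.smul_tmul']
      simp
    rw [this]
    exact Ideal.mul_mem_left _ _ (KaehlerDifferential.one_smul_sub_smul_one_mem_ideal A c)
  | add x y hx hy =>
    obtain ⟨b, hb⟩ := hx
    obtain ⟨c, hc⟩ := hy
    refine ⟨b + c, ?_⟩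
    have : x + y - (b + c) • (1 : B ⊗[A] B) = (x - b • 1) + (y - c • 1) := by rw [add_smul]; ring
    rw [this]
    exact Ideal.add_mem _ hb hc

/-- if a B-linear functional kills I^(n+1) and the monomials of degree n, it kills I^n -/
theorem pow_step (hz : Submodule.span B (Set.range fun i => KaehlerDifferential.D A B (z i)) = ⊤) (n : ℕ) :
    ∀ x ∈ KaehlerDifferential.ideal A B ^ n, ∃ y ∈ Submodule.span B {w : B ⊗[A] B | ∃ q : ι → ℕ, ∑ i, q i = n ∧ w = zmon A z q},
      x - y ∈ KaehlerDifferential.ideal A B ^ (n + 1) := by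
  induction n with
  | zero =>
    intro x _
    obtain ⟨b, hb⟩ := zero_step x
    refine ⟨b • (1 : B ⊗[A] B), Submodule.smul_mem _ _ (Submodule.subset_span ⟨0, by simp, by simp [zmon]⟩), ?_⟩
    rwa [zero_add, pow_one]
  | succ n ih =>
    intro x hx
    rw [pow_succ] at hx
    induction hx using Submodule.mul_induction_on' with
    | mem_mul_mem a ha b hb =>
      obtain ⟨y, hy, hay⟩ := ih a ha
      obtain ⟨c, hc⟩ := one_step z hz b hb
      refine ⟨y * ∑ i, c i • ((1 : B) ⊗ₜ[A] z i - z i ⊗ₜ[A] 1), ?_, ?_⟩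
      · clear hay ha
        induction hy using Submodule.span_induction with
        | mem w hw =>
          obtain ⟨q, hq, rfl⟩ := hw
          rw [Finset.mul_sum]
          apply Submodule.sum_mem
          intro i _
          rw [mul_smul_comm]
          apply Submodule.smul_mem
          apply Submodule.subset_span
          refine ⟨Function.update q i (q i + 1), ?_, ?_⟩
          · rw [← hq, Finset.sum_update_of_mem (Finset.mem_univ i)]
            rw [← Finset.add_sum_erase Finset.univ q (Finset.mem_univ i), Finset.sdiff_singleton_eq_erase]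
            ring
          · rw [zmon, zmon, ← Finset.mul_prod_erase Finset.univ _ (Finset.mem_univ i), ← Finset.mul_prod_erase Finset.univ (fun x => ((1 : B) ⊗ₜ[A] z x - z x ⊗ₜ[A] 1) ^ Function.update q i (q i + 1) x) (Finset.mem_univ i)]
            rw [Function.update_self, pow_succ]
            have : ∏ x ∈ Finset.univ.erase i, ((1 : B) ⊗ₜ[A] z x - z x ⊗ₜ[A] 1) ^ Function.update q i (q i + 1) x = ∏ x ∈ Finset.univ.erase i, ((1 : B) ⊗ₜ[A] z x - z x ⊗ₜ[A] 1) ^ q x := by
              apply Finset.prod_congr rfl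
              intro x hx
              rw [Function.update_of_ne (Finset.ne_of_mem_erase hx)]
            rw [this]
            ring
        | zero => rw [zero_mul]; exact Submodule.zero_mem _
        | add u v _ _ hu hv => rw [add_mul]; exact Submodule.add_mem _ hu hv
        | smul a u _ hu => rw [smul_mul_assoc]; exact Submodule.smul_mem _ _ hu
      · have hyI : y ∈ KaehlerDifferential.ideal A B ^ n := by
          have := Ideal.sub_mem _ ha (Ideal.pow_le_pow_right (Nat.le_succ n) hay)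
          rwa [sub_sub_cancel] at this
        have : a * b - y * ∑ i, c i • ((1 : B) ⊗ₜ[A] z i - z i ⊗ₜ[A] 1) = (a - y) * b + y * (b - ∑ i, c i • ((1 : B) ⊗ₜ[A] z i - z i ⊗ₜ[A] 1)) := by ring
        rw [this]
        apply Ideal.add_mem
        · rw [pow_succ]; exact Ideal.mul_mem_mul hay hb
        · rw [show n + 1 + 1 = n + 2 by ring, pow_add]; exact Ideal.mul_mem_mul hyI hc
    | add a _ b _ ha hb =>
      obtain ⟨y, hy, hay⟩ := ha
      obtain ⟨y', hy', hby⟩ := hb
      refine ⟨y + y', Submodule.add_mem _ hy hy', ?_⟩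
      rw [show a + b - (y + y') = (a - y) + (b - y') by ring]
      exact Ideal.add_mem _ hay hby

theorem desc_step (hz : Submodule.span B (Set.range fun i => KaehlerDifferential.D A B (z i)) = ⊤) (ψ : B ⊗[A] B →ₗ[B] B) (d : ℕ) :
    ∀ (n N : ℕ), n + d = N → (∀ q : ι → ℕ, n ≤ ∑ i, q i → ∑ i, q i < N → ψ (zmon A z q) = 0) → (∀ x ∈ KaehlerDifferential.ideal A B ^ N, ψ x = 0) →
     ∀ x ∈ KaehlerDifferential.ideal A B ^ n, ψ x = 0 := by
  induction d with
  | zero =>
    rintro n N rfl _ h; exact h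
  | succ d ih =>
    intro n N hN h h'
    have h1 := ih (n+1) N (by omega) (fun q hq1 hq2 => h q (by omega) hq2) h'
    intro x hx
    obtain ⟨y, hy, hxy⟩ := pow_step z hz n x hx
    have h2 := h1 _ hxy
    rw [map_sub, sub_eq_zero] at h2
    rw [h2]
    clear hxy h2
    induction hy using Submodule.span_induction with
    | mem w hw =>
      obtain ⟨q, hq, rfl⟩ := hw
      exact h q (by omega) (by omega)
    | zero => exact map_zero _
    | add u v _ _ hu hv => rw [map_add, hu, hv, add_zero]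
    | smul a u _ hu => rw [map_smul, hu, smul_zero]

end

theorem result3818 (A B : Type u) [CommRing A] [CommRing B] [Algebra A B]
    (ι : Type) [Fintype ι] [DecidableEq ι] (z : ι → B)
    (hz : Submodule.span B (Set.range fun i => KaehlerDifferential.D A B (z i)) = ⊤)
    (Dp : (ι → ℕ) → (B →ₗ[A] B)) (hD : ∀ p, ∃ k : ℕ, Diff16.IsDiffOpLE A B B B k (Dp p))
    (hDz : ∀ p q : ι → ℕ, Dp p (∏ i, z i ^ q i) =
        ((∏ i, Nat.choose (q i) (p i) : ℕ) : B) * ∏ i, z i ^ (q i - p i)) :
    (∀ p, Diff16.IsDiffOpLE A B B B (∑ i, p i) (Dp p)) ∧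
      ∀ (m : ℕ) (D : B →ₗ[A] B), Diff16.IsDiffOpLE A B B B m D →
        ∃! a : {p : ι → ℕ // ∑ i, p i ≤ m} →₀ B, D = a.sum fun p c => c • Dp p.1 := by
  have hphi := phi_zmon z Dp hDz
  have hord : ∀ p, ∀ x ∈ (KaehlerDifferential.ideal A B) ^ (∑ i, p i + 1), phi (Dp p) x = 0 := by
    intro p
    obtain ⟨k, hk⟩ := hD p
    rw [isDiffOpLE_iff_phi] at hk
    refine desc_step z hz (phi (Dp p)) k (∑ i, p i + 1) (∑ i, p i + 1 + k) rfl ?_ ?_
    · intro q hq _
      rw [hphi, if_neg]
      rintro rfl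
      omega
    · intro x hx
      exact hk x (Ideal.pow_le_pow_right (by omega) hx)
  refine ⟨fun p => (isDiffOpLE_iff_phi _ _).mpr (hord p), ?_⟩
  intro m D hDm
  rw [isDiffOpLE_iff_phi] at hDm
  have hfin : Finite {p : ι → ℕ // ∑ i, p i ≤ m} := by
    apply Finite.of_injective (β := ι → Fin (m+1)) (fun p i => ⟨p.1 i, by
      have := Finset.single_le_sum (f := p.1) (fun i _ => Nat.zero_le _) (Finset.mem_univ i)
      have h2 := p.2
      omega⟩)
    intro p q hpq
    ext i
    have := congrFun hpq i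
    simpa using congrArg Fin.val this
  have hsum : ∀ (a : {p : ι → ℕ // ∑ i, p i ≤ m} →₀ B) (x : B ⊗[A] B), phi (a.sum fun p c => c • Dp p.1) x = a.sum fun p c => c * phi (Dp p.1) x := by
    intro a x
    rw [Finsupp.sum, phi_sum]
    apply Finset.sum_congr rfl
    intro p _
    rw [phi_smul]
  have hcoef : ∀ (a : {p : ι → ℕ // ∑ i, p i ≤ m} →₀ B) (q : {p : ι → ℕ // ∑ i, p i ≤ m}), phi (a.sum fun p c => c • Dp p.1) (zmon A z q.1) = a q := by
    intro a q
    rw [hsum, Finsupp.sum]
    simp only [hphi]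
    by_cases hq : q ∈ a.support
    · rw [Finset.sum_eq_single q]
      · simp
      · intro b _ hb
        rw [if_neg (fun h => hb (Subtype.ext h.symm)), mul_zero]
      · intro h; exact absurd hq h
    · rw [Finsupp.notMem_support_iff.mp hq]
      apply Finset.sum_eq_zero
      intro b hb
      rw [if_neg, mul_zero]
      intro h
      rw [Subtype.ext h] at hq
      exact hq hb
  let a : {p : ι → ℕ // ∑ i, p i ≤ m} →₀ B := Finsupp.equivFunOnFinite.symm (fun q => phi D (zmon A z q.1))
  have ha : ∀ q, a q = phi D (zmon A z q.1) := fun q => rfl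
  refine ⟨a, ?_, ?_⟩
  · apply phi_inj
    have key : ∀ x ∈ (KaehlerDifferential.ideal A B) ^ 0, (phi D - phi (a.sum fun p c => c • Dp p.1)) x = 0 := by
      refine desc_step z hz _ (m + 1) 0 (m + 1) (by omega) ?_ ?_
      · intro q _ hq
        rw [LinearMap.sub_apply, hcoef a ⟨q, by omega⟩, ha, sub_self]
      · intro x hx
        rw [LinearMap.sub_apply, hDm x hx, hsum, Finsupp.sum, Finset.sum_eq_zero, sub_zero]
        intro p _
        rw [hord p.1 x (Ideal.pow_le_pow_right (by have := p.2; omega) hx), mul_zero]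
    intro x
    have := key x (by rw [pow_zero, Ideal.one_eq_top]; trivial)
    rwa [LinearMap.sub_apply, sub_eq_zero] at this
  · intro b hb
    ext q
    rw [ha, hb, hcoef]

end Groth.Agent.H6PP
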