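import Groth.Agent.Lib.H6_PP2
set_option autoImplicit false
universe u
open scoped TensorProduct
open scoped BigOperators
open PP16

namespace Groth.Agent.H6PP

section symlift
variable {R κ M N : Type u} [CommRing R] [AddCommGroup M] [Module R M] [AddCommGroup N] [Module R N]

noncomputable def symLift (f : MultilinearMap R (fun _ : κ => M) N) (hf : ∀ (e : Equiv.Perm κ) (x : κ → M), f (fun i => x (e i)) = f x) :
    SymmetricPower R κ M →ₗ[R] N :=
  { (AddCon.lift (addConGen (SymmetricPower.Rel R κ M)) (PiTensorProduct.lift f).toAddMonoidHom (by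
      rw [AddCon.addConGen_le]
      intro x y h
      cases h with
      | perm e x =>
        refine (AddCon.ker_apply).mpr ?_
        exact (PiTensorProduct.lift.tprod (φ := f) x).trans ((hf e x).symm.trans (PiTensorProduct.lift.tprod (φ := f) (fun i => x (e i))).symm))) with
    map_smul' := fun r x => AddCon.induction_on x (fun x => map_smul (PiTensorProduct.lift f) r x) }

theorem symLift_tprod (f : MultilinearMap R (fun _ : κ => M) N) (hf : ∀ (e : Equiv.Perm κ) (x : κ → M), f (fun i => x (e i)) = f x) (x : κ → M) :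
    symLift f hf (SymmetricPower.tprod R x) = f x := by
  exact PiTensorProduct.lift.tprod x

end symlift

section words
variable {ι : Type} [Fintype ι] [DecidableEq ι]

/-- a word with given content -/
theorem exists_word (n : ℕ) (p : ι → ℕ) (hp : ∑ i, p i = n) : ∃ w : ULift.{u} (Fin n) → ι, ∀ {M : Type u} [CommMonoid M] (g : ι → M), ∏ k, g (w k) = ∏ i, g i ^ p i := by
  let m : Multiset ι := ∑ i, Multiset.replicate (p i) i
  have hcard : Multiset.card m = n := by
    rw [← hp]
    simp [m, Multiset.card_sum]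
  obtain ⟨l, hl⟩ := Quot.exists_rep m
  have hlen : l.length = n := by rw [← hcard, ← hl]; rfl
  subst hlen
  refine ⟨fun k => l.get k.down, ?_⟩
  intro M _ g
  have h1 : ∀ s : Finset ι, ((∑ i ∈ s, Multiset.replicate (p i) i).map g).prod = ∏ i ∈ s, g i ^ p i := by
    intro s
    induction s using Finset.induction_on with
    | empty => simp
    | insert a s ha ih => rw [Finset.sum_insert ha, Multiset.map_add, Multiset.prod_add, ih, Finset.prod_insert ha, Multiset.map_replicate, Multiset.prod_replicate]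
  have h2 : (m.map g).prod = (l.map g).prod := by rw [← hl]; rfl
  rw [← h1 Finset.univ]
  change _ = (m.map g).prod
  rw [h2]
  rw [Fintype.prod_equiv Equiv.ulift (fun k : ULift.{u} (Fin l.length) => g (l.get k.down)) (fun k => g (l.get k)) (fun k => rfl)]
  rw [← List.prod_ofFn]
  congr 1
  apply List.ext_get
  · simp
  · intro n h1 h2
    simp

end words

section
variable {A B : Type u} [CommRing A] [CommRing B] [Algebra A B]
variable {ι : Type} [Fintype ι] [DecidableEq ι] (z : ι → B)

theorem zmon_mem (q : ι → ℕ) : zmon A z q ∈ KaehlerDifferential.ideal A B ^ (∑ i, q i) := by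
  have : ∀ s : Finset ι, ∏ i ∈ s, ((1 : B) ⊗ₜ[A] z i - z i ⊗ₜ[A] 1) ^ q i ∈ KaehlerDifferential.ideal A B ^ (∑ i ∈ s, q i) := by
    intro s
    induction s using Finset.induction_on with
    | empty => simp
    | insert a s ha ih =>
      rw [Finset.prod_insert ha, Finset.sum_insert ha, pow_add]
      exact Ideal.mul_mem_mul (Ideal.pow_mem_pow (zeta_mem z a) _) ih
  exact this _

theorem homog_indep (hB : PP16.IsDiffSmooth A B)
    (b : Module.Basis ι B (KaehlerDifferential A B)) (hb : ∀ i, b i = KaehlerDifferential.D A B (z i)) (n : ℕ)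
    {K' : Type*} (S : Finset K') (Pf : K' → ι → ℕ) (hinj : ∀ k ∈ S, ∀ l ∈ S, Pf k = Pf l → k = l) (hS : ∀ k ∈ S, ∑ i, Pf k i = n)
    (c : K' → B) (hc : ∑ k ∈ S, c k • zmon A z (Pf k) ∈ KaehlerDifferential.ideal A B ^ (n + 1)) : ∀ k ∈ S, c k = 0 := by
  classical
  obtain ⟨φ, hφ, hbij⟩ := hB.2 (ULift.{u} (Fin n))
  have hcard : Fintype.card (ULift.{u} (Fin n)) = n := by simp
  have hw : ∀ k : {x // x ∈ S}, ∃ w : ULift.{u} (Fin n) → ι, ∀ {M : Type u} [CommMonoid M] (g : ι → M), ∏ j, g (w j) = ∏ i, g i ^ Pf k.1 i :=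
    fun k => exists_word n (Pf k.1) (hS k.1 k.2)
  choose w hw using hw
  let τ : {x // x ∈ S} → SymmetricPower B (ULift.{u} (Fin n)) (KaehlerDifferential A B) :=
    fun k => SymmetricPower.tprod B (fun j => KaehlerDifferential.D A B (z (w k j)))
  have h0 : ∑ k ∈ S.attach, c k.1 • zetaProd A B (fun j => z (w k j)) = 0 := by
    let X : {x // x ∈ S} → ↥((KaehlerDifferential.ideal A B ^ (Fintype.card (ULift.{u} (Fin n)))).restrictScalars B) :=
      fun k => ⟨zmon A z (Pf k.1), by
        rw [Submodule.restrictScalars_mem, hcard, ← hS k.1 k.2]; exact zmon_mem z _⟩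
    have hX : ∀ k, zetaProd A B (fun j => z (w k j)) = Submodule.mkQ _ (X k) := by
      intro k
      rw [zetaProd, Submodule.mkQ_apply]
      congr 1
      exact Subtype.ext (hw k (fun i => (1 : B) ⊗ₜ[A] z i - z i ⊗ₜ[A] 1))
    simp only [hX]
    simp_rw [← map_smul]
    rw [← map_sum, Submodule.mkQ_apply, Submodule.Quotient.mk_eq_zero, Submodule.mem_comap, Submodule.restrictScalars_mem]
    have h1 : (((KaehlerDifferential.ideal A B ^ (Fintype.card (ULift.{u} (Fin n)))).restrictScalars B).subtype (∑ x ∈ S.attach, c x.1 • X x)) =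
      ∑ k ∈ S.attach, c k.1 • zmon A z (Pf k.1) := by
      rw [map_sum]
      apply Finset.sum_congr rfl
      intro k _
      rw [map_smul]; rfl
    rw [h1, Finset.sum_attach S (fun k => c k • zmon A z (Pf k)), hcard]
    exact hc
  have h2 : ∑ k ∈ S.attach, c k.1 • τ k = 0 := by
    apply hbij.1
    rw [map_sum, map_zero, ← h0]
    apply Finset.sum_congr rfl
    intro k _
    rw [map_smul, hφ]
  let ℓ : KaehlerDifferential A B →ₗ[B] MvPolynomial ι B := b.constr B (fun i => MvPolynomial.X i)
  have hℓ : ∀ i, ℓ (KaehlerDifferential.D A B (z i)) = MvPolynomial.X i := by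
    intro i
    rw [← hb]
    exact b.constr_basis B _ i
  let f : MultilinearMap B (fun _ : ULift.{u} (Fin n) => KaehlerDifferential A B) (MvPolynomial ι B) :=
    (MultilinearMap.mkPiAlgebra B (ULift.{u} (Fin n)) (MvPolynomial ι B)).compLinearMap (fun _ => ℓ)
  have hf : ∀ x, f x = ∏ j, ℓ (x j) := by
    intro x
    simp [f, MultilinearMap.compLinearMap_apply, MultilinearMap.mkPiAlgebra_apply]
  have hfs : ∀ (e : Equiv.Perm (ULift.{u} (Fin n))) (x : ULift.{u} (Fin n) → KaehlerDifferential A B), f (fun i => x (e i)) = f x := by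
    intro e x
    rw [hf, hf]
    exact Equiv.prod_comp e (fun j => ℓ (x j))
  have hL : ∀ k, symLift f hfs (τ k) = MvPolynomial.monomial (Finsupp.equivFunOnFinite.symm (Pf k.1)) 1 := by
    intro k
    rw [symLift_tprod, hf, MvPolynomial.monomial_eq, map_one, one_mul, Finsupp.prod_fintype _ _ (fun i => pow_zero _)]
    simp only [hℓ]
    exact hw k (fun i => (MvPolynomial.X i : MvPolynomial ι B))
  have h3 := congrArg (symLift f hfs) h2
  rw [map_sum, map_zero] at h3
  simp only [map_smul, hL] at h3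
  intro k hk
  have h4 := congrArg (MvPolynomial.coeff (Finsupp.equivFunOnFinite.symm (Pf k))) h3
  rw [MvPolynomial.coeff_sum, MvPolynomial.coeff_zero, Finset.sum_eq_single ⟨k, hk⟩] at h4
  · simpa using h4
  · intro l _ hl
    rw [MvPolynomial.coeff_smul, MvPolynomial.coeff_monomial, if_neg, smul_zero]
    intro h
    apply hl
    apply Subtype.ext
    exact hinj _ l.2 _ hk (Finsupp.equivFunOnFinite.symm.injective h)
  · intro h; exact absurd (Finset.mem_attach _ _) h

theorem span_low (hz : Submodule.span B (Set.range fun i => KaehlerDifferential.D A B (z i)) = ⊤) (m d : ℕ) :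
    ∀ n : ℕ, n + d = m + 1 → ∀ x ∈ KaehlerDifferential.ideal A B ^ n, ∃ y ∈ Submodule.span B {w : B ⊗[A] B | ∃ q : ι → ℕ, ∑ i, q i ≤ m ∧ w = zmon A z q},
      x - y ∈ KaehlerDifferential.ideal A B ^ (m + 1) := by
  induction d with
  | zero =>
    intro n hn x hx
    refine ⟨0, Submodule.zero_mem _, ?_⟩
    rw [sub_zero, ← hn]; exact hx
  | succ d ih =>
    intro n hn x hx
    obtain ⟨y, hy, hxy⟩ := pow_step z hz n x hx
    obtain ⟨y', hy', hxy'⟩ := ih (n+1) (by omega) _ hxy
    refine ⟨y + y', Submodule.add_mem _ ?_ hy', by rwa [← sub_sub]⟩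
    refine Submodule.span_mono ?_ hy
    rintro _ ⟨q, hq, rfl⟩
    exact ⟨q, by omega, rfl⟩

end

theorem result3817 (A B : Type u) [CommRing A] [CommRing B] [Algebra A B]
    (hB : PP16.IsDiffSmooth A B) (ι : Type) [Fintype ι] [DecidableEq ι] (z : ι → B)
    (hz : ∃ b : Module.Basis ι B (KaehlerDifferential A B), ∀ i, b i = KaehlerDifferential.D A B (z i)) (m : ℕ) :
    ∃ b : Module.Basis {p : ι → ℕ // ∑ i, p i ≤ m} B (PP16.P m A B),
      ∀ p, b p = ∏ i, (PP16.dn m A B (z i) - algebraMap B (PP16.P m A B) (z i)) ^ (p.1 i) := by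
  classical
  obtain ⟨b, hb⟩ := hz
  have hspan : Submodule.span B (Set.range fun i => KaehlerDifferential.D A B (z i)) = ⊤ := by
    have : (fun i => KaehlerDifferential.D A B (z i)) = b := funext fun i => (hb i).symm
    rw [this, b.span_eq]
  let v : {p : ι → ℕ // ∑ i, p i ≤ m} → PP16.P m A B := fun p => ∏ i, (PP16.dn m A B (z i) - algebraMap B (PP16.P m A B) (z i)) ^ (p.1 i)
  let π : B ⊗[A] B →ₗ[B] PP16.P m A B := (Ideal.Quotient.mkₐ B ((KaehlerDifferential.ideal A B) ^ (m + 1))).toLinearMap
  have hπ0 : ∀ x, π x = 0 ↔ x ∈ (KaehlerDifferential.ideal A B) ^ (m + 1) := fun x => Ideal.Quotient.eq_zero_iff_mem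
  have hv : ∀ p, v p = π (zmon A z p.1) := by
    intro p
    change _ = Ideal.Quotient.mk _ (∏ i, _)
    rw [map_prod]
    apply Finset.prod_congr rfl
    intro i _
    rw [map_pow, map_sub]
    rfl
  have hli : LinearIndependent B v := by
    rw [linearIndependent_iff']
    intro S g hg
    simp only [hv] at hg
    simp_rw [← map_smul] at hg
    rw [← map_sum, hπ0] at hg
    have key : ∀ n : ℕ, ∀ p ∈ S, ∑ i, p.1 i = n → g p = 0 := by
      intro n
      induction n using Nat.strong_induction_on with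
      | _ n ih =>
        intro p hp hpn
        have hnm : n ≤ m := by rw [← hpn]; exact p.2
        refine homog_indep z hB b hb n (S.filter (fun p => ∑ i, p.1 i = n)) (fun p => p.1) (fun k _ l _ h => Subtype.ext h) (fun k hk => (Finset.mem_filter.mp hk).2) g ?_ p (Finset.mem_filter.mpr ⟨hp, hpn⟩)
        have h1 := Finset.sum_filter_add_sum_filter_not S (fun p => ∑ i, p.1 i = n) (fun p => g p • zmon A z p.1)
        have h2 : ∑ p ∈ S.filter (fun p => ¬ ∑ i, p.1 i = n), g p • zmon A z p.1 ∈ KaehlerDifferential.ideal A B ^ (n + 1) := by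
          apply Ideal.sum_mem
          intro q hq
          obtain ⟨hqS, hqn⟩ := Finset.mem_filter.mp hq
          rcases lt_or_gt_of_ne hqn with h | h
          · rw [ih _ h q hqS rfl, zero_smul]; exact Ideal.zero_mem _
          · rw [Algebra.smul_def]
            exact Ideal.mul_mem_left _ _ (Ideal.pow_le_pow_right (by omega) (zmon_mem z q.1))
        have h3 := Ideal.sub_mem _ (Ideal.pow_le_pow_right (show n + 1 ≤ m + 1 by omega) hg) h2
        rw [← h1, add_sub_cancel_right] at h3
        exact h3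
    exact fun p hp => key _ p hp rfl
  have hsp : ⊤ ≤ Submodule.span B (Set.range v) := by
    rintro x -
    obtain ⟨x, rfl⟩ := Ideal.Quotient.mk_surjective x
    obtain ⟨y, hy, hxy⟩ := span_low z hspan m (m+1) 0 (by omega) x (by rw [pow_zero, Ideal.one_eq_top]; trivial)
    have h1 : π x = π y := by
      rw [← sub_eq_zero, ← map_sub, hπ0]; exact hxy
    change π x ∈ _
    rw [h1]
    have h2 := Submodule.mem_map_of_mem (f := π) hy
    rw [Submodule.map_span] at h2
    refine Submodule.span_mono ?_ h2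
    rintro _ ⟨_, ⟨q, hq, rfl⟩, rfl⟩
    exact ⟨⟨q, hq⟩, hv _⟩
  refine ⟨Module.Basis.mk hli hsp, ?_⟩
  intro p
  rw [Module.Basis.mk_apply]

end Groth.Agent.H6PP
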