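import Groth.Agent.Lib.H6_PP3
set_option autoImplicit false
universe u
open scoped TensorProduct
open scoped BigOperators
open PP16

namespace Groth.Agent.H6PP

section
variable {A B : Type u} [CommRing A] [CommRing B] [Algebra A B]
variable {ι : Type} [Fintype ι] [DecidableEq ι] (z : ι → B)

theorem one_tmul_expand (q : ι → ℕ) : (1 : B) ⊗ₜ[A] (∏ i, z i ^ q i) = ∑ r ∈ Fintype.piFinset (fun i => Finset.range (q i + 1)),
    (∏ i, ((Nat.choose (q i) (r i) : B) * z i ^ (q i - r i))) • zmon A z r := by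
  have h0 : ∀ i, (1 : B) ⊗ₜ[A] (z i ^ q i) = ∑ r ∈ Finset.range (q i + 1), algebraMap B (B ⊗[A] B) ((Nat.choose (q i) r : B) * z i ^ (q i - r)) * ((1 : B) ⊗ₜ[A] z i - z i ⊗ₜ[A] 1) ^ r := by
    intro i
    have h1 : (1 : B) ⊗ₜ[A] (z i ^ q i) = (((1 : B) ⊗ₜ[A] z i - z i ⊗ₜ[A] 1) + algebraMap B (B ⊗[A] B) (z i)) ^ q i := by
      have : ((1 : B) ⊗ₜ[A] z i - z i ⊗ₜ[A] 1) + algebraMap B (B ⊗[A] B) (z i) = (1 : B) ⊗ₜ[A] z i := by
        rw [Algebra.TensorProduct.algebraMap_apply]
        simp
      rw [this, Algebra.TensorProduct.tmul_pow, one_pow]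
    rw [h1, add_pow]
    apply Finset.sum_congr rfl
    intro r _
    rw [map_mul, map_pow, map_natCast]
    ring
  have h2 : (1 : B) ⊗ₜ[A] (∏ i, z i ^ q i) = ∏ i, ((1 : B) ⊗ₜ[A] (z i ^ q i)) := by
    rw [prod_tmul', Finset.prod_const_one]
  rw [h2, Finset.prod_congr rfl (fun i _ => h0 i), Finset.prod_univ_sum]
  apply Finset.sum_congr rfl
  intro r _
  rw [Finset.prod_mul_distrib, ← map_prod, Algebra.smul_def]
  rfl

theorem exists_Dp (hB : PP16.IsDiffSmooth A B)
    (hz : ∃ b : Module.Basis ι B (KaehlerDifferential A B), ∀ i, b i = KaehlerDifferential.D A B (z i)) (p : ι → ℕ) :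
    ∃ D : B →ₗ[A] B, (∃ k : ℕ, Diff16.IsDiffOpLE A B B B k D) ∧ ∀ q : ι → ℕ, D (∏ i, z i ^ q i) =
          ((∏ i, Nat.choose (q i) (p i) : ℕ) : B) * ∏ i, z i ^ (q i - p i) := by
  classical
  obtain ⟨v, hv⟩ := result3817 A B hB ι z hz (∑ i, p i)
  let π : B ⊗[A] B →ₗ[B] PP16.P (∑ i, p i) A B := (Ideal.Quotient.mkₐ B ((KaehlerDifferential.ideal A B) ^ (∑ i, p i + 1))).toLinearMap
  have hπ0 : ∀ x, π x = 0 ↔ x ∈ (KaehlerDifferential.ideal A B) ^ (∑ i, p i + 1) := fun x => Ideal.Quotient.eq_zero_iff_mem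
  have hvπ : ∀ r, v r = π (zmon A z r.1) := by
    intro r
    rw [hv]
    change _ = Ideal.Quotient.mk _ (∏ i, _)
    rw [map_prod]
    apply Finset.prod_congr rfl
    intro i _
    rw [map_pow, map_sub]
    rfl
  let p0 : {r : ι → ℕ // ∑ i, r i ≤ ∑ i, p i} := ⟨p, le_rfl⟩
  let D : B →ₗ[A] B := ((v.coord p0).comp π).restrictScalars A ∘ₗ (Algebra.TensorProduct.includeRight : B →ₐ[A] B ⊗[A] B).toLinearMap
  have hphi : ∀ x, phi D x = v.coord p0 (π x) := by
    intro x
    induction x using TensorProduct.induction_on with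
    | zero => simp
    | tmul b c =>
      rw [phi_tmul]
      change b * v.coord p0 (π (1 ⊗ₜ c)) = _
      have : b ⊗ₜ[A] c = b • ((1 : B) ⊗ₜ[A] c) := by rw [TensorProduct.smul_tmul', smul_eq_mul, mul_one]
      rw [this, map_smul, map_smul, smul_eq_mul]
    | add x y hx hy => rw [map_add, map_add, map_add, hx, hy]
  have hz1 : ∀ r : ι → ℕ, phi D (zmon A z r) = if r = p then 1 else 0 := by
    intro r
    rw [hphi]
    by_cases hr : ∑ i, r i ≤ ∑ i, p i
    · have := hvπ ⟨r, hr⟩
      rw [← this, Module.Basis.coord_apply, Module.Basis.repr_self, Finsupp.single_apply]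
      by_cases h : r = p
      · rw [if_pos h, if_pos (Subtype.ext h)]
      · rw [if_neg h, if_neg (fun h' => h (congrArg Subtype.val h'))]
    · have : π (zmon A z r) = 0 := by
        rw [hπ0]
        exact Ideal.pow_le_pow_right (by omega) (zmon_mem z r)
      rw [this, map_zero, if_neg]
      rintro rfl
      exact hr le_rfl
  refine ⟨D, ⟨∑ i, p i, ?_⟩, ?_⟩
  · rw [isDiffOpLE_iff_phi]
    intro x hx
    rw [hphi, (hπ0 x).mpr hx, map_zero]
  · intro q
    have h1 : D (∏ i, z i ^ q i) = phi D ((1 : B) ⊗ₜ[A] (∏ i, z i ^ q i)) := by rw [phi_tmul, one_mul]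
    rw [h1, one_tmul_expand, map_sum]
    simp only [map_smul, hz1, smul_eq_mul, mul_ite, mul_one, mul_zero]
    rw [Finset.sum_ite_eq']
    split_ifs with h
    · rw [Finset.prod_mul_distrib, Nat.cast_prod]
    · rw [Fintype.mem_piFinset] at h
      push Not at h
      obtain ⟨i, hi⟩ := h
      rw [Finset.mem_range, not_lt] at hi
      rw [Finset.prod_eq_zero (Finset.mem_univ i) (Nat.choose_eq_zero_of_lt (show q i < p i by omega)), Nat.cast_zero, zero_mul]

/-- permutation from content -/
theorem exists_perm {κ : Type u} [Fintype κ] (w w' : κ → ι) (h : ∀ i, Fintype.card {k // w k = i} = Fintype.card {k // w' k = i}) :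
    ∃ e : Equiv.Perm κ, ∀ k, w' (e k) = w k := by
  let e0 : (i : ι) → {k // w k = i} ≃ {k // w' k = i} := fun i => Fintype.equivOfCardEq (h i)
  refine ⟨(Equiv.sigmaFiberEquiv w).symm.trans ((Equiv.sigmaCongrRight e0).trans (Equiv.sigmaFiberEquiv w')), ?_⟩
  intro k
  change w' ((e0 (w k) ⟨k, rfl⟩).1) = w k
  exact (e0 (w k) ⟨k, rfl⟩).2

theorem prod_congr_mod {R : Type u} [CommRing R] (I : Ideal R) {κ : Type u} (x y : κ → R) (hx : ∀ k, x k ∈ I) (hy : ∀ k, y k ∈ I) (hxy : ∀ k, x k - y k ∈ I ^ 2)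
    (s : Finset κ) : ∏ k ∈ s, x k - ∏ k ∈ s, y k ∈ I ^ (s.card + 1) := by
  classical
  induction s using Finset.induction_on with
  | empty => simp
  | insert a s ha ih =>
    rw [Finset.prod_insert ha, Finset.prod_insert ha, Finset.card_insert_of_notMem ha]
    have h1 : x a * ∏ k ∈ s, x k - y a * ∏ k ∈ s, y k = (x a - y a) * ∏ k ∈ s, x k + y a * (∏ k ∈ s, x k - ∏ k ∈ s, y k) := by ring
    rw [h1]
    apply Ideal.add_mem
    · rw [show s.card + 1 + 1 = 2 + s.card by ring, pow_add]
      exact Ideal.mul_mem_mul (hxy a) (PP16.prod_mem_pow I s x (fun i _ => hx i))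
    · rw [pow_succ' I (s.card + 1)]
      exact Ideal.mul_mem_mul (hy a) ih


theorem isDiffSmooth_of_Dp (hz : Submodule.span B (Set.range fun i => KaehlerDifferential.D A B (z i)) = ⊤)
    (Dp : (ι → ℕ) → (B →ₗ[A] B)) (hD : ∀ p, ∃ k : ℕ, Diff16.IsDiffOpLE A B B B k (Dp p))
    (hDz : ∀ p q : ι → ℕ, Dp p (∏ i, z i ^ q i) =
        ((∏ i, Nat.choose (q i) (p i) : ℕ) : B) * ∏ i, z i ^ (q i - p i)) :
    PP16.IsDiffSmooth A B ∧
        ∃ b : Module.Basis ι B (KaehlerDifferential A B), ∀ i, b i = KaehlerDifferential.D A B (z i) := by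
  classical
  have hphi := phi_zmon z Dp hDz
  have hord : ∀ p, ∀ x ∈ (KaehlerDifferential.ideal A B) ^ (∑ i, p i + 1), phi (Dp p) x = 0 :=
    fun p => (isDiffOpLE_iff_phi _ _).mp ((result3818 A B ι z hz Dp hD hDz).1 p)
  let I := KaehlerDifferential.ideal A B
  let ζ : ι → B ⊗[A] B := fun i => (1 : B) ⊗ₜ[A] z i - z i ⊗ₜ[A] 1
  have hsingle : ∀ i, ζ i = zmon A z (Pi.single i 1) := by
    intro i
    rw [zmon, Finset.prod_eq_single i]
    · simp [ζ]
    · intro j _ hj
      rw [Pi.single_eq_of_ne hj, pow_zero]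
    · intro h; exact absurd (Finset.mem_univ i) h
  have hcot : ∀ (c : ι → B) (h : ∑ i, c i • ζ i ∈ I), (I.toCotangent ⟨∑ i, c i • ζ i, h⟩ : KaehlerDifferential A B) = ∑ i, c i • KaehlerDifferential.D A B (z i) := by
    intro c h
    have h2 : (⟨∑ i, c i • ζ i, h⟩ : I) = ∑ i, (algebraMap B (B ⊗[A] B) (c i)) • ⟨ζ i, zeta_mem z i⟩ := by
      apply Subtype.ext
      simp [Algebra.smul_def]
    rw [h2, map_sum]
    apply Finset.sum_congr rfl
    intro i _
    rw [map_smul]
    refine Eq.trans ?_ (algebraMap_smul (B ⊗[A] B) (c i) (KaehlerDifferential.D A B (z i)))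
    rfl
  have hmemI : ∀ c : ι → B, ∑ i, c i • ζ i ∈ I := by
    intro c
    apply Ideal.sum_mem
    intro i _
    rw [Algebra.smul_def]
    exact Ideal.mul_mem_left _ _ (zeta_mem z i)
  have hli : LinearIndependent B (fun i => KaehlerDifferential.D A B (z i)) := by
    rw [Fintype.linearIndependent_iff]
    intro g hg j
    have h1 := hcot g (hmemI g)
    rw [hg] at h1
    have h2 : ∑ i, g i • ζ i ∈ I ^ 2 := by
      exact (Ideal.toCotangent_eq_zero _ ⟨_, hmemI g⟩).mp h1
    have h3 := hord (Pi.single j 1) (∑ i, g i • ζ i) (by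
      have : ∑ i, (Pi.single j 1 : ι → ℕ) i = 1 := by simp
      rw [this]; exact h2)
    rw [map_sum, Finset.sum_eq_single j] at h3
    · rw [map_smul, hsingle, hphi, if_pos rfl, smul_eq_mul, mul_one] at h3
      exact h3
    · intro i _ hi
      rw [map_smul, hsingle, hphi, if_neg, smul_zero]
      intro h
      have := congrFun h i
      rw [Pi.single_eq_same, Pi.single_eq_of_ne hi] at this
      exact one_ne_zero this
    · intro h; exact absurd (Finset.mem_univ j) h
  let b : Module.Basis ι B (KaehlerDifferential A B) := Module.Basis.mk hli hz.ge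
  have hb : ∀ i, b i = KaehlerDifferential.D A B (z i) := fun i => by rw [Module.Basis.mk_apply]
  refine ⟨⟨Module.Projective.of_basis b, ?_⟩, b, hb⟩
  intro κ _
  let ℓ : KaehlerDifferential A B →ₗ[B] MvPolynomial ι B := b.constr B (fun i => MvPolynomial.X i)
  have hℓb : ∀ i, ℓ (b i) = MvPolynomial.X i := fun i => b.constr_basis B _ i
  have hℓ : ∀ ω, ℓ ω = ∑ i, b.repr ω i • MvPolynomial.X i := by
    intro ω
    conv_lhs => rw [← b.sum_repr ω, map_sum]
    simp only [map_smul, hℓb]
  let f : MultilinearMap B (fun _ : κ => KaehlerDifferential A B) (MvPolynomial ι B) :=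
    (MultilinearMap.mkPiAlgebra B κ (MvPolynomial ι B)).compLinearMap (fun _ => ℓ)
  have hf : ∀ x, f x = ∏ j, ℓ (x j) := by
    intro x
    simp [f, MultilinearMap.compLinearMap_apply, MultilinearMap.mkPiAlgebra_apply]
  have hfs : ∀ (e : Equiv.Perm κ) (x : κ → KaehlerDifferential A B), f (fun i => x (e i)) = f x := by
    intro e x
    rw [hf, hf]
    exact Equiv.prod_comp e (fun j => ℓ (x j))
  let L := symLift f hfs
  have hL : ∀ x, L (SymmetricPower.tprod B x) = ∏ j, ℓ (x j) := fun x => (symLift_tprod f hfs x).trans (hf x)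
  let ev : MvPolynomial ι B →ₐ[B] B ⊗[A] B := MvPolynomial.aeval ζ
  have hevℓ : ∀ ω, ev (ℓ ω) = ∑ i, b.repr ω i • ζ i := by
    intro ω
    rw [hℓ, map_sum]
    simp [ev]
  let E : SymmetricPower B κ (KaehlerDifferential A B) →ₗ[B] B ⊗[A] B := ev.toLinearMap.comp L
  have hEt : ∀ x, E (SymmetricPower.tprod B x) = ∏ j, ev (ℓ (x j)) := by
    intro x
    change ev (L _) = _
    rw [hL, map_prod]
  have hE : ∀ x, E x ∈ (I ^ (Fintype.card κ)).restrictScalars B := by
    intro x
    have hx : x ∈ Submodule.span B (Set.range (SymmetricPower.tprod B (ι := κ) (M := KaehlerDifferential A B))) := by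
      rw [SymmetricPower.span_tprod_eq_top]; trivial
    have hle : Submodule.span B (Set.range (SymmetricPower.tprod B (ι := κ) (M := KaehlerDifferential A B))) ≤ ((I ^ (Fintype.card κ)).restrictScalars B).comap E := by
      rw [Submodule.span_le]
      rintro _ ⟨ω, rfl⟩
      rw [SetLike.mem_coe, Submodule.mem_comap, hEt, Submodule.restrictScalars_mem]
      have := PP16.prod_mem_pow I Finset.univ (fun j => ev (ℓ (ω j))) (fun j _ => by rw [hevℓ]; exact hmemI _)
      simpa using this
    exact hle hx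
  let Q := (Submodule.comap ((I ^ (Fintype.card κ)).restrictScalars B).subtype ((I ^ (Fintype.card κ + 1)).restrictScalars B)).mkQ
  let φ : SymmetricPower B κ (KaehlerDifferential A B) →ₗ[B] grI A B (Fintype.card κ) := Q.comp (E.codRestrict _ hE)
  have hφ0 : ∀ x, φ x = 0 ↔ E x ∈ I ^ (Fintype.card κ + 1) := by
    intro x
    exact (Submodule.Quotient.mk_eq_zero _)
  refine ⟨φ, ?_, ?_, ?_⟩
  · intro c
    refine (Submodule.Quotient.eq _).mpr ?_
    rw [Submodule.mem_comap, Submodule.restrictScalars_mem]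
    change E (SymmetricPower.tprod B fun i => KaehlerDifferential.D A B (c i)) - ∏ i, ((1 : B) ⊗ₜ[A] c i - c i ⊗ₜ[A] (1 : B)) ∈ _
    rw [hEt]
    have := prod_congr_mod I (fun j => ev (ℓ (KaehlerDifferential.D A B (c j)))) (fun j => (1 : B) ⊗ₜ[A] c j - c j ⊗ₜ[A] (1 : B))
      (fun j => by rw [hevℓ]; exact hmemI _) (fun j => KaehlerDifferential.one_smul_sub_smul_one_mem_ideal A (c j)) (fun j => by
        have h1 := hcot (b.repr (KaehlerDifferential.D A B (c j))) (hmemI _)
        have h2 : ∑ i, b.repr (KaehlerDifferential.D A B (c j)) i • KaehlerDifferential.D A B (z i) = KaehlerDifferential.D A B (c j) := by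
          conv_rhs => rw [← b.sum_repr (KaehlerDifferential.D A B (c j))]
          simp only [hb]
        rw [h2] at h1
        rw [hevℓ]
        have h3 : I.toCotangent (⟨∑ i, b.repr (KaehlerDifferential.D A B (c j)) i • ζ i, hmemI _⟩ - ⟨(1 : B) ⊗ₜ[A] c j - c j ⊗ₜ[A] (1 : B), KaehlerDifferential.one_smul_sub_smul_one_mem_ideal A (c j)⟩) = 0 := by
          rw [map_sub, sub_eq_zero]
          exact h1
        exact (Ideal.toCotangent_eq_zero _ _).mp h3) Finset.univ
    simpa using this
  · rw [injective_iff_map_eq_zero]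
    intro x hx
    rw [hφ0] at hx
    -- L x = 0
    have hcoef : ∀ (p : ι →₀ ℕ), phi (Dp p) (ev (L x)) = MvPolynomial.coeff p (L x) := by
      intro p
      have : (phi (Dp p)).comp ev.toLinearMap = MvPolynomial.lcoeff B p := by
        apply (MvPolynomial.basisMonomials ι B).ext
        intro v
        rw [MvPolynomial.coe_basisMonomials]
        change phi (Dp p) (ev (MvPolynomial.monomial v 1)) = MvPolynomial.coeff p (MvPolynomial.monomial v 1)
        rw [MvPolynomial.aeval_monomial, map_one, one_mul, Finsupp.prod_fintype _ _ (fun i => pow_zero _)]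
        change phi (Dp p) (zmon A z v) = _
        rw [hphi, MvPolynomial.coeff_monomial]
        by_cases h : v = p
        · rw [if_pos h, if_pos (by rw [h])]
        · rw [if_neg h, if_neg (fun h' => h (DFunLike.coe_injective h'))]
      exact LinearMap.congr_fun this (L x)
    have hhom : ∀ y, (L y) ∈ MvPolynomial.homogeneousSubmodule ι B (Fintype.card κ) := by
      intro y
      have hy : y ∈ Submodule.span B (Set.range (SymmetricPower.tprod B (ι := κ) (M := KaehlerDifferential A B))) := by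
        rw [SymmetricPower.span_tprod_eq_top]; trivial
      have hle : Submodule.span B (Set.range (SymmetricPower.tprod B (ι := κ) (M := KaehlerDifferential A B))) ≤ (MvPolynomial.homogeneousSubmodule ι B (Fintype.card κ)).comap L := by
        rw [Submodule.span_le]
        rintro _ ⟨ω, rfl⟩
        rw [SetLike.mem_coe, Submodule.mem_comap, hL, MvPolynomial.mem_homogeneousSubmodule]
        have h1 : ∀ j, (ℓ (ω j)).IsHomogeneous 1 := by
          intro j
          rw [hℓ, ← MvPolynomial.mem_homogeneousSubmodule]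
          exact Submodule.sum_mem _ (fun i _ => Submodule.smul_mem _ _ (MvPolynomial.isHomogeneous_X B i))
        have h2 := MvPolynomial.IsHomogeneous.prod Finset.univ (fun j => ℓ (ω j)) (fun _ => 1) (fun j _ => h1 j)
        simpa using h2
      exact hle hy
    have hLx : L x = 0 := by
      ext p
      rw [MvPolynomial.coeff_zero]
      by_cases hp : p.degree = Fintype.card κ
      · rw [← hcoef]
        apply hord
        have : ∑ i, p i = Fintype.card κ := by rw [← hp, Finsupp.degree_eq_sum]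
        rw [this]
        exact hx
      · exact ((MvPolynomial.mem_homogeneousSubmodule _ _).mp (hhom x)).coeff_eq_zero hp
    -- L injective
    let G : MvPolynomial ι B →ₗ[B] SymmetricPower B κ (KaehlerDifferential A B) :=
      (MvPolynomial.basisMonomials ι B).constr B (fun v => if h : ∃ w : κ → ι, ∑ k, Finsupp.single (w k) 1 = v then SymmetricPower.tprod B (fun k => b (h.choose k)) else 0)
    have hGL : (G.comp L).compMultilinearMap (SymmetricPower.tprod B) = (LinearMap.id).compMultilinearMap (SymmetricPower.tprod B (ι := κ) (M := KaehlerDifferential A B)) := by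
      apply Module.Basis.ext_multilinear (fun _ => b)
      intro w
      change G (L (SymmetricPower.tprod B fun k => b (w k))) = SymmetricPower.tprod B fun k => b (w k)
      have h1 : L (SymmetricPower.tprod B fun k => b (w k)) = MvPolynomial.monomial (∑ k, Finsupp.single (w k) 1) 1 := by
        rw [hL, MvPolynomial.monomial_sum_one]
        simp only [hℓb]
        rfl
      have hex : ∃ w' : κ → ι, ∑ k, Finsupp.single (w' k) 1 = ∑ k, (Finsupp.single (w k) 1 : ι →₀ ℕ) := ⟨w, rfl⟩
      have h2 : G (MvPolynomial.monomial (∑ k, Finsupp.single (w k) 1) 1) = SymmetricPower.tprod B (fun k => b (hex.choose k)) := by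
        have := (MvPolynomial.basisMonomials ι B).constr_basis B (fun v => if h : ∃ w : κ → ι, ∑ k, Finsupp.single (w k) 1 = v then SymmetricPower.tprod B (fun k => b (h.choose k)) else 0) (∑ k, Finsupp.single (w k) 1)
        rw [MvPolynomial.coe_basisMonomials] at this
        refine Eq.trans this ?_
        rw [dif_pos hex]
      rw [h1, h2]
      have hcs := hex.choose_spec
      have hcont : ∀ (u : κ → ι) (i : ι), (∑ k, (Finsupp.single (u k) 1 : ι →₀ ℕ)) i = Fintype.card {k // u k = i} := by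
        intro u i
        rw [Finsupp.finsetSum_apply, Fintype.card_subtype]
        simp [Finsupp.single_apply]
      obtain ⟨e, he⟩ := exists_perm w hex.choose (fun i => by rw [← hcont, ← hcont, hcs])
      have h3 := SymmetricPower.tprod_equiv (R := B) e (fun k => b (hex.choose k))
      rw [← h3]
      simp only [he]
    have hGL' : G.comp L = LinearMap.id := by
      apply LinearMap.ext_on (SymmetricPower.span_tprod_eq_top (R := B) (ι := κ) (M := KaehlerDifferential A B))
      rintro _ ⟨ω, rfl⟩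
      exact congrFun (congrArg DFunLike.coe hGL) ω
    have h5 := LinearMap.congr_fun hGL' x
    rw [LinearMap.comp_apply, hLx, map_zero] at h5
    exact h5.symm
  · intro y
    obtain ⟨⟨x, hx⟩, rfl⟩ := Submodule.Quotient.mk_surjective _ y
    obtain ⟨y', hy', hxy⟩ := pow_step z hz (Fintype.card κ) x hx
    have key : ∃ s, E s - y' ∈ I ^ (Fintype.card κ + 1) := by
      clear hxy
      induction hy' using Submodule.span_induction with
      | mem w hw =>
        obtain ⟨q, hq, rfl⟩ := hw
        obtain ⟨w, hw⟩ := exists_word.{u} (Fintype.card κ) q hq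
        let e : κ ≃ ULift.{u} (Fin (Fintype.card κ)) := (Fintype.equivFin κ).trans Equiv.ulift.symm
        refine ⟨SymmetricPower.tprod B (fun k => b (w (e k))), ?_⟩
        rw [hEt]
        have h1 : ∀ k, ev (ℓ (b (w (e k)))) = ζ (w (e k)) := by
          intro k
          rw [hℓb]
          simp [ev]
        simp only [h1]
        rw [Equiv.prod_comp e (fun k => ζ (w k)), hw ζ]
        have : ∏ i, ζ i ^ q i = zmon A z q := rfl
        rw [this, sub_self]
        exact Ideal.zero_mem _
      | zero => exact ⟨0, by simp⟩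
      | add u v _ _ hu hv =>
        obtain ⟨s, hs⟩ := hu
        obtain ⟨t, ht⟩ := hv
        refine ⟨s + t, ?_⟩
        rw [map_add, show E s + E t - (u + v) = (E s - u) + (E t - v) by ring]
        exact Ideal.add_mem _ hs ht
      | smul a u _ hu =>
        obtain ⟨s, hs⟩ := hu
        refine ⟨a • s, ?_⟩
        rw [map_smul, ← smul_sub, Algebra.smul_def]
        exact Ideal.mul_mem_left _ _ hs
    obtain ⟨s, hs⟩ := key
    refine ⟨s, ?_⟩
    refine (Submodule.Quotient.eq _).mpr ?_
    rw [Submodule.mem_comap, Submodule.restrictScalars_mem]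
    change E s - x ∈ _
    have : E s - x = (E s - y') - (x - y') := by ring
    rw [this]
    exact Ideal.sub_mem _ hs hxy

end

theorem result3816 (A B : Type u) [CommRing A] [CommRing B]
    [Algebra A B] (ι : Type) [Fintype ι] [DecidableEq ι] (z : ι → B)
    (hz : Submodule.span B (Set.range fun i => KaehlerDifferential.D A B (z i)) = ⊤) :
    (PP16.IsDiffSmooth A B ∧
        ∃ b : Module.Basis ι B (KaehlerDifferential A B), ∀ i, b i = KaehlerDifferential.D A B (z i)) ↔
      ∃ Dp : (ι → ℕ) → (B →ₗ[A] B),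
        (∀ p, ∃ k : ℕ, Diff16.IsDiffOpLE A B B B k (Dp p)) ∧
        ∀ p q : ι → ℕ, Dp p (∏ i, z i ^ q i) =
          ((∏ i, Nat.choose (q i) (p i) : ℕ) : B) * ∏ i, z i ^ (q i - p i) := by
  constructor
  · rintro ⟨hB, hb⟩
    choose Dp h1 h2 using exists_Dp z hB hb
    exact ⟨Dp, h1, h2⟩
  · rintro ⟨Dp, h1, h2⟩
    exact isDiffSmooth_of_Dp z hz Dp h1 h2

end Groth.Agent.H6PP
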