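import Groth.Prelude.Def_Tors

set_option autoImplicit false
universe u
open CategoryTheory CategoryTheory.Limits Opposite
open Tors

namespace Groth.Agent.H6Tors

variable {C : Type u} [SmallCategory C] {J : GrothendieckTopology C}
    {G : Sheaf J AddCommGrpCat.{u}}

noncomputable def pt (T : Tors.Torsor G) (s : ⊤_ (Sheaf J (Type u)) ⟶ T.P) (U : Cᵒᵖ) : T.P.obj.obj U :=
  (terminal.from ((sheafCompose J (forget AddCommGrpCat.{u})).obj G) ≫ s).hom.app U (0 : G.obj.obj U)

theorem map_pt (T : Tors.Torsor G) (s : ⊤_ (Sheaf J (Type u)) ⟶ T.P) {U V : Cᵒᵖ} (f : U ⟶ V) :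
    T.P.obj.map f (pt T s U) = pt T s V := by
  have h := (terminal.from ((sheafCompose J (forget AddCommGrpCat.{u})).obj G) ≫ s).hom.naturality f
  have h2 := ConcreteCategory.congr_hom h (0 : G.obj.obj U)
  refine Eq.trans (Eq.symm ?_) (congrArg ((terminal.from ((sheafCompose J (forget AddCommGrpCat.{u})).obj G) ≫ s).hom.app V) (map_zero (G.obj.map f).hom))
  exact h2

theorem bij (T : Tors.Torsor G) {U : Cᵒᵖ} (p : T.P.obj.obj U) :
    Function.Bijective (fun g : G.obj.obj U => T.vadd g p) := by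
  constructor
  · intro a b h
    obtain ⟨g, hg, hu⟩ := T.free_transitive p (T.vadd b p)
    rw [hu a h, hu b rfl]
  · intro q
    obtain ⟨g, hg, hu⟩ := T.free_transitive p q
    exact ⟨g, hg⟩

theorem result3894 (T : Tors.Torsor G) : T.IsTrivial ↔ T.HasSection := by
  constructor
  · rintro ⟨e, he⟩
    refine ⟨?_ ≫ e.hom⟩
    refine ⟨⟨fun U => ↾(fun _ => (0 : G.obj.obj U)), ?_⟩⟩
    intro U V f
    ext x
    exact (map_zero (G.obj.map f).hom).symm
  · rintro ⟨s⟩
    let e' : ((sheafCompose J (forget AddCommGrpCat.{u})).obj G).obj ≅ T.P.obj :=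
      NatIso.ofComponents (fun U => (Equiv.ofBijective _ (bij T (pt T s U))).toIso) (by
        intro U V f
        ext g
        exact ((T.map_vadd f g (pt T s U)).trans (by rw [map_pt]; rfl)).symm)
    refine ⟨(fullyFaithfulSheafToPresheaf J (Type u)).preimageIso e', ?_⟩
    intro U g h
    exact T.add_vadd g h _

end Groth.Agent.H6Tors
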