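import Groth.Prelude.Def_FibCat2

set_option autoImplicit false

namespace Groth.Agent.H8Fib

open CategoryTheory CategoryTheory.Functor

universe u v u₂ v₂
variable {C : Type u} [Category.{v} C] {𝒳 𝒴 : BasedCategory.{v₂, u₂} C}

lemma lift_inv {p : 𝒳.obj ⥤ C} {R S : C} {a b : 𝒳.obj} (f : R ≅ S) (φ : a ≅ b) (h : p.IsHomLift f.hom φ.hom) :
    p.IsHomLift f.inv φ.inv := inferInstance

lemma dom_of_id {𝒵 : BasedCategory.{v₂, u₂} C} {R : C} {a b : 𝒵.obj} (φ : a ⟶ b) (h : 𝒵.p.IsHomLift (𝟙 R) φ) :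
    𝒵.p.obj a = R := IsHomLift.domain_eq 𝒵.p (𝟙 R) φ

/-- construct the inverse -/
lemma isEquivOver_of (F : 𝒳 ⥤ᵇ 𝒴) (hf : F.toFunctor.Full) (hff : F.toFunctor.Faithful)
    (H : ∀ η : 𝒴.obj, ∃ (ξ : 𝒳.obj) (e : F.toFunctor.obj ξ ≅ η), 𝒴.p.IsHomLift (𝟙 (𝒴.p.obj η)) e.hom) :
    FibCat.IsEquivOver F := by
  choose ξ e he using H
  have he' : ∀ η, 𝒴.p.IsHomLift (𝟙 (𝒴.p.obj η)) (e η).inv := fun η => by
    have := he η
    exact IsHomLift.lift_id_inv _ _ _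
  have hlift : ∀ {η η' : 𝒴.obj} (f : η ⟶ η'), 𝒳.p.IsHomLift (𝒴.p.map f)
      (F.toFunctor.preimage ((e η).hom ≫ f ≫ (e η').inv)) := by
    intro η η' f
    rw [← BasedFunctor.isHomLift_iff F]
    have h1 := he η
    have h2 := he' η'
    change 𝒴.p.IsHomLift (𝒴.p.map f) (F.toFunctor.map (F.toFunctor.preimage ((e η).hom ≫ f ≫ (e η').inv)))
    rw [F.toFunctor.map_preimage]
    infer_instance
  let G : 𝒴 ⥤ᵇ 𝒳 :=
    { obj := ξ
      map := fun {η η'} f => F.toFunctor.preimage ((e η).hom ≫ f ≫ (e η').inv)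
      map_id := fun η => by
        apply F.toFunctor.map_injective
        simp
      map_comp := fun f g => by
        apply F.toFunctor.map_injective
        simp
      w := by
        refine Functor.ext ?_ ?_
        · intro η
          have := he η
          have h1 : 𝒴.p.obj (F.toFunctor.obj (ξ η)) = 𝒴.p.obj η := IsHomLift.domain_eq 𝒴.p (𝟙 (𝒴.p.obj η)) (e η).hom
          exact (F.w_obj (ξ η)).symm.trans h1
        · intro η η' f
          have := hlift f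
          exact IsHomLift.fac' 𝒳.p (𝒴.p.map f) (F.toFunctor.preimage ((e η).hom ≫ f ≫ (e η').inv)) }
  refine ⟨G, ⟨BasedNatIso.mkNatIso (NatIso.ofComponents (fun x => F.toFunctor.preimageIso (e (F.toFunctor.obj x))) ?_) ?_⟩,
    ⟨BasedNatIso.mkNatIso (NatIso.ofComponents (fun y => e y) ?_) ?_⟩⟩
  · intro x y f
    apply F.toFunctor.map_injective
    change F.toFunctor.map (F.toFunctor.preimage ((e (F.toFunctor.obj x)).hom ≫ F.toFunctor.map f ≫ (e (F.toFunctor.obj y)).inv) ≫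
      F.toFunctor.preimage (e (F.toFunctor.obj y)).hom) = F.toFunctor.map (F.toFunctor.preimage (e (F.toFunctor.obj x)).hom ≫ f)
    rw [F.toFunctor.map_comp, F.toFunctor.map_comp, F.toFunctor.map_preimage, F.toFunctor.map_preimage,
      F.toFunctor.map_preimage, Category.assoc, Category.assoc, Iso.inv_hom_id, Category.comp_id]
  · intro x
    change 𝒳.p.IsHomLift (𝟙 (𝒳.p.obj x)) (F.toFunctor.preimage (e (F.toFunctor.obj x)).hom)
    rw [← BasedFunctor.isHomLift_iff F]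
    change 𝒴.p.IsHomLift _ (F.toFunctor.map (F.toFunctor.preimage _))
    rw [F.toFunctor.map_preimage]
    have h1 := he (F.toFunctor.obj x)
    have h2 : 𝒴.p.obj (F.toFunctor.obj x) = 𝒳.p.obj x := F.w_obj x
    rw [h2] at h1
    exact h1
  · intro y y' f
    change F.toFunctor.map (F.toFunctor.preimage ((e y).hom ≫ f ≫ (e y').inv)) ≫ (e y').hom = (e y).hom ≫ f
    rw [F.toFunctor.map_preimage, Category.assoc, Category.assoc, Iso.inv_hom_id, Category.comp_id]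
  · intro y
    exact he y

/-- S5139 -/
lemma isEquivOver_iff (F : 𝒳 ⥤ᵇ 𝒴) :
    FibCat.IsEquivOver F ↔
      (F.toFunctor.Full ∧ F.toFunctor.Faithful) ∧
        ∀ η : 𝒴.obj, ∃ (ξ : 𝒳.obj) (e : F.toFunctor.obj ξ ≅ η), 𝒴.p.IsHomLift (𝟙 (𝒴.p.obj η)) e.hom := by
  constructor
  · rintro ⟨G, ⟨α⟩, ⟨β⟩⟩
    let α' : F.toFunctor ⋙ G.toFunctor ≅ 𝟭 _ := (BasedNatTrans.forgetful _ _).mapIso α
    let β' : G.toFunctor ⋙ F.toFunctor ≅ 𝟭 _ := (BasedNatTrans.forgetful _ _).mapIso β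
    have hE : F.toFunctor.IsEquivalence := (CategoryTheory.Equivalence.mk F.toFunctor G.toFunctor α'.symm β').isEquivalence_functor
    refine ⟨⟨inferInstance, inferInstance⟩, fun η => ⟨G.toFunctor.obj η, β'.app η, ?_⟩⟩
    exact BasedNatTrans.isHomLift β.hom rfl
  · rintro ⟨⟨hf, hff⟩, H⟩
    exact isEquivOver_of F hf hff H

/-- S5140 -/
lemma isEquivOver_of_transport
    (h𝒳 : ∀ ⦃T S : C⦄ (α : T ≅ S) (ξ : 𝒳.obj), 𝒳.p.obj ξ = T →
      ∃ (ξ' : 𝒳.obj) (e : ξ ≅ ξ'), 𝒳.p.IsHomLift α.hom e.hom)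
    (F : 𝒳 ⥤ᵇ 𝒴) [F.toFunctor.IsEquivalence] : FibCat.IsEquivOver F := by
  refine isEquivOver_of F inferInstance inferInstance ?_
  intro η
  let ξ₀ := F.toFunctor.objPreimage η
  let e₀ : F.toFunctor.obj ξ₀ ≅ η := F.toFunctor.objObjPreimageIso η
  let α : 𝒴.p.obj (F.toFunctor.obj ξ₀) ≅ 𝒴.p.obj η := 𝒴.p.mapIso e₀
  obtain ⟨ξ', e, he⟩ := h𝒳 α ξ₀ (F.w_obj ξ₀).symm
  refine ⟨ξ', F.toFunctor.mapIso e.symm ≪≫ e₀, ?_⟩
  have h1 : 𝒴.p.IsHomLift α.hom (F.toFunctor.map e.hom) := BasedFunctor.preserves_isHomLift F α.hom e.hom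
  have h2 : 𝒴.p.IsHomLift α.inv (F.toFunctor.map e.inv) := by
    have : 𝒴.p.IsHomLift α.hom (F.toFunctor.mapIso e).hom := h1
    exact (inferInstance : 𝒴.p.IsHomLift α.inv (F.toFunctor.mapIso e).inv)
  have h3 : 𝒴.p.IsHomLift α.hom e₀.hom := (inferInstance : 𝒴.p.IsHomLift (𝒴.p.map e₀.hom) e₀.hom)
  have h4 : 𝒴.p.IsHomLift (α.inv ≫ α.hom) (F.toFunctor.map e.inv ≫ e₀.hom) := inferInstance
  rw [α.inv_hom_id] at h4
  exact h4

/-- S5141 -/
lemma isCartesian_map_iff (F : 𝒳 ⥤ᵇ 𝒴) (hF : FibCat.IsEquivOver F) {a b : 𝒳.obj} (φ : a ⟶ b) :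
    𝒴.p.IsCartesian (𝒳.p.map φ) (F.toFunctor.map φ) ↔ 𝒳.p.IsCartesian (𝒳.p.map φ) φ := by
  obtain ⟨⟨hf, hff⟩, H⟩ := (isEquivOver_iff F).mp hF
  have hl : ∀ {R S : C} {x y : 𝒳.obj} (f : R ⟶ S) (ψ : x ⟶ y), 𝒴.p.IsHomLift f (F.toFunctor.map ψ) ↔ 𝒳.p.IsHomLift f ψ :=
    fun f ψ => BasedFunctor.isHomLift_iff F f ψ
  constructor
  · intro h
    refine { universal_property := ?_ }
    intro a' φ' hφ'
    have h1 : 𝒴.p.IsHomLift (𝒳.p.map φ) (F.toFunctor.map φ') := (hl _ _).mpr hφ'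
    obtain ⟨χ, ⟨hχ1, hχ2⟩, hu⟩ := h.universal_property (F.toFunctor.map φ')
    refine ⟨F.toFunctor.preimage χ, ⟨?_, ?_⟩, ?_⟩
    · rw [← hl, F.toFunctor.map_preimage]; exact hχ1
    · apply F.toFunctor.map_injective
      rw [F.toFunctor.map_comp, F.toFunctor.map_preimage, hχ2]
    · rintro ψ ⟨hψ1, hψ2⟩
      apply F.toFunctor.map_injective
      rw [F.toFunctor.map_preimage]
      exact hu _ ⟨(hl _ _).mpr hψ1, by rw [← F.toFunctor.map_comp, hψ2]⟩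
  · intro h
    have hh : 𝒴.p.IsHomLift (𝒳.p.map φ) (F.toFunctor.map φ) := (hl _ _).mpr inferInstance
    refine { universal_property := ?_ }
    intro y φ' hφ'
    obtain ⟨ξ, e, he⟩ := H y
    have hy : 𝒴.p.obj y = 𝒳.p.obj a := IsHomLift.domain_eq 𝒴.p (𝒳.p.map φ) φ'
    rw [hy] at he
    have he' : 𝒴.p.IsHomLift (𝟙 (𝒳.p.obj a)) e.inv := IsHomLift.lift_id_inv _ _ _
    have h1 : 𝒴.p.IsHomLift (𝒳.p.map φ) (e.hom ≫ φ') := inferInstance
    have h2 : 𝒳.p.IsHomLift (𝒳.p.map φ) (F.toFunctor.preimage (e.hom ≫ φ')) := by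
      rw [← hl, F.toFunctor.map_preimage]; exact h1
    obtain ⟨χ, ⟨hχ1, hχ2⟩, hu⟩ := h.universal_property (F.toFunctor.preimage (e.hom ≫ φ'))
    have hχ1' : 𝒴.p.IsHomLift (𝟙 (𝒳.p.obj a)) (F.toFunctor.map χ) := (hl _ _).mpr hχ1
    refine ⟨e.inv ≫ F.toFunctor.map χ, ⟨inferInstance, ?_⟩, ?_⟩
    · rw [Category.assoc, ← F.toFunctor.map_comp, hχ2, F.toFunctor.map_preimage, Iso.inv_hom_id_assoc]
    · rintro ψ ⟨hψ1, hψ2⟩
      rw [Iso.eq_inv_comp, ← F.toFunctor.map_preimage (e.hom ≫ ψ)]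
      congr 1
      apply hu
      refine ⟨?_, ?_⟩
      · rw [← hl, F.toFunctor.map_preimage]; infer_instance
      · apply F.toFunctor.map_injective
        rw [F.toFunctor.map_comp, F.toFunctor.map_preimage, F.toFunctor.map_preimage, Category.assoc, hψ2]

end Groth.Agent.H8Fib
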