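import Groth.Prelude.Def_FibCat2

set_option autoImplicit false

namespace Groth.Agent.H8Fib

open CategoryTheory CategoryTheory.Functor CategoryTheory.Limits

universe u v u₂ v₂
variable {C : Type u} [Category.{v} C] {𝒳 𝒴 : BasedCategory.{v₂, u₂} C}

lemma cart_iff {𝒵 : Type u₂} [Category.{v₂} 𝒵] {p : 𝒵 ⥤ C} {R S : C} {a b : 𝒵} (f : R ⟶ S) (φ : a ⟶ b) (h : p.IsHomLift f φ) :
    p.IsCartesian f φ ↔ p.IsCartesian (p.map φ) φ := by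
  cases h; rfl

lemma eq_of_lift_id {R : C} {A B : C} {f g : A ⟶ B} (hf : (𝟭 C).IsHomLift (𝟙 R) f) (hg : (𝟭 C).IsHomLift (𝟙 R) g) :
    f = g := by
  have h1 := IsHomLift.fac' (𝟭 C) (𝟙 R) f
  have h2 := IsHomLift.fac' (𝟭 C) (𝟙 R) g
  exact h1.trans h2.symm

abbrev FP (𝒳 𝒴 : BasedCategory.{v₂, u₂} C) := FibCat.fp (FibCat.toSelf 𝒳) (FibCat.toSelf 𝒴)

lemma fpLift_iff {x y : (FP 𝒳 𝒴).obj} {R S : C} (f : R ⟶ S) (φ : x ⟶ y) :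
    (FP 𝒳 𝒴).p.IsHomLift f φ ↔ 𝒳.p.IsHomLift f φ.hom.fst := by
  constructor
  · rintro ⟨⟩
    exact (inferInstance : 𝒳.p.IsHomLift (𝒳.p.map φ.hom.fst) φ.hom.fst)
  · intro h
    have := IsHomLift.domain_eq 𝒳.p f φ.hom.fst
    subst this
    have := IsHomLift.codomain_eq 𝒳.p f φ.hom.fst
    subst this
    have := IsHomLift.eq_of_isHomLift 𝒳.p f φ.hom.fst
    subst this
    exact (inferInstance : (FP 𝒳 𝒴).p.IsHomLift ((FP 𝒳 𝒴).p.map φ) φ)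

lemma snd_lift {x y : (FP 𝒳 𝒴).obj} {R S : C} (f : R ⟶ S) (φ : x ⟶ y) (h : (FP 𝒳 𝒴).p.IsHomLift f φ) :
    𝒴.p.IsHomLift f φ.hom.snd := by
  rcases h with ⟨⟩
  exact FibCat.fp_isHomLift_snd _ _ φ

/-- morphism of FP from components over the same id -/
lemma homLift_self {𝒵 : BasedCategory.{v₂, u₂} C} {R S : C} {a b : 𝒵.obj} (f : R ⟶ S) (φ : a ⟶ b) (h : 𝒵.p.IsHomLift f φ) :
    (𝟭 C).IsHomLift f (𝒵.p.map φ) := by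
  rcases h with ⟨⟩
  exact (inferInstance : (𝟭 C).IsHomLift ((𝟭 C).map (𝒵.p.map φ)) (𝒵.p.map φ))

/-- constructing objects -/
def mkObj (a : 𝒳.obj) (b : 𝒴.obj) (h : 𝒳.p.obj a = 𝒴.p.obj b) : (FP 𝒳 𝒴).obj :=
  ⟨{ fst := a, snd := b, iso := eqToIso h }, by
    change (𝟭 C).IsHomLift (𝟙 (𝒳.p.obj a)) (eqToHom h)
    exact IsHomLift.eqToHom_domain_lift_id h rfl⟩

lemma iso_lift (x : (FP 𝒳 𝒴).obj) : (𝟭 C).IsHomLift (𝟙 (𝒳.p.obj x.obj.fst)) x.obj.iso.hom := x.property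

lemma obj_eq (x : (FP 𝒳 𝒴).obj) : 𝒳.p.obj x.obj.fst = 𝒴.p.obj x.obj.snd := by
  have := iso_lift x
  exact (IsHomLift.codomain_eq (𝟭 C) (𝟙 (𝒳.p.obj x.obj.fst)) x.obj.iso.hom).symm

lemma auxEq {A B M A' B' N R S : C} (f : R ⟶ S) (a1 : A = R) (a2 : S = B) (a3 : B = M) (a4 : M = B')
    (b1 : A = N) (b2 : N = A') (b3 : A' = R) (b4 : S = B') :
    (eqToHom a1 ≫ f ≫ eqToHom a2) ≫ (eqToHom a3 ≫ 𝟙 M ≫ eqToHom a4) =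
      (eqToHom b1 ≫ 𝟙 N ≫ eqToHom b2) ≫ (eqToHom b3 ≫ f ≫ eqToHom b4) := by
  subst a1 a2 a3 a4 b1 b2; simp

/-- constructing morphisms over f -/
lemma hom_w {x y : (FP 𝒳 𝒴).obj} {R S : C} (f : R ⟶ S) (φ₁ : x.obj.fst ⟶ y.obj.fst) (φ₂ : x.obj.snd ⟶ y.obj.snd)
    (h1 : 𝒳.p.IsHomLift f φ₁) (h2 : 𝒴.p.IsHomLift f φ₂) :
    𝒳.p.map φ₁ ≫ y.obj.iso.hom = x.obj.iso.hom ≫ 𝒴.p.map φ₂ := by
  have e1 := IsHomLift.fac' 𝒳.p f φ₁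
  have e2 := IsHomLift.fac' 𝒴.p f φ₂
  have i1 := iso_lift x
  have i2 := iso_lift y
  have e3 := IsHomLift.fac' (𝟭 C) (𝟙 (𝒳.p.obj x.obj.fst)) x.obj.iso.hom
  have e4 := IsHomLift.fac' (𝟭 C) (𝟙 (𝒳.p.obj y.obj.fst)) y.obj.iso.hom
  change x.obj.iso.hom = _ at e3
  change y.obj.iso.hom = _ at e4
  rw [e1, e2, e3, e4]
  exact auxEq f _ _ _ _ _ _ _ _

def mkHom {x y : (FP 𝒳 𝒴).obj} {R S : C} (f : R ⟶ S) (φ₁ : x.obj.fst ⟶ y.obj.fst) (φ₂ : x.obj.snd ⟶ y.obj.snd)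
    (h1 : 𝒳.p.IsHomLift f φ₁) (h2 : 𝒴.p.IsHomLift f φ₂) : x ⟶ y :=
  ObjectProperty.homMk { fst := φ₁, snd := φ₂, w := hom_w f φ₁ φ₂ h1 h2 }

lemma hom_ext' {x y : (FP 𝒳 𝒴).obj} {φ ψ : x ⟶ y} (h1 : φ.hom.fst = ψ.hom.fst) (h2 : φ.hom.snd = ψ.hom.snd) : φ = ψ := by
  apply ObjectProperty.hom_ext; apply CategoricalPullback.hom_ext
  · exact h1
  · exact h2

/-- general form of S5142 over f -/
lemma cart_fp_iff {x y : (FP 𝒳 𝒴).obj} {R S : C} (f : R ⟶ S) (φ : x ⟶ y) (hφ : (FP 𝒳 𝒴).p.IsHomLift f φ) :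
    (FP 𝒳 𝒴).p.IsCartesian f φ ↔ 𝒳.p.IsCartesian f φ.hom.fst ∧ 𝒴.p.IsCartesian f φ.hom.snd := by
  have hφ1 := (fpLift_iff f φ).mp hφ
  have hφ2 := snd_lift f φ hφ
  constructor
  · intro h
    constructor
    · refine { universal_property := ?_ }
      intro a' θ hθ
      have hda : 𝒳.p.obj a' = R := IsHomLift.domain_eq 𝒳.p f θ
      have hdx : 𝒴.p.obj x.obj.snd = R := IsHomLift.domain_eq 𝒴.p f φ.hom.snd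
      let z : (FP 𝒳 𝒴).obj := mkObj a' x.obj.snd (hda.trans hdx.symm)
      let ψ : z ⟶ y := mkHom (x := z) f θ φ.hom.snd hθ hφ2
      have hψ : (FP 𝒳 𝒴).p.IsHomLift f ψ := (fpLift_iff f ψ).mpr hθ
      obtain ⟨χ, ⟨hχ1, hχ2⟩, hu⟩ := h.universal_property ψ
      refine ⟨χ.hom.fst, ⟨(fpLift_iff _ χ).mp hχ1, congrArg (fun k => k.hom.fst) hχ2⟩, ?_⟩
      rintro χ' ⟨h1, h2⟩
      have hid : 𝒴.p.IsHomLift (𝟙 R) (𝟙 x.obj.snd) := IsHomLift.id hdx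
      let χ'' : z ⟶ x := mkHom (x := z) (𝟙 R) χ' (𝟙 _) h1 hid
      have := hu χ'' ⟨(fpLift_iff _ χ'').mpr h1, hom_ext' h2 (Category.id_comp _)⟩
      exact congrArg (fun k => k.hom.fst) this
    · refine { universal_property := ?_ }
      intro a' θ hθ
      have hda : 𝒴.p.obj a' = R := IsHomLift.domain_eq 𝒴.p f θ
      have hdx : 𝒳.p.obj x.obj.fst = R := IsHomLift.domain_eq 𝒳.p f φ.hom.fst
      let z : (FP 𝒳 𝒴).obj := mkObj x.obj.fst a' (hdx.trans hda.symm)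
      let ψ : z ⟶ y := mkHom (x := z) f φ.hom.fst θ hφ1 hθ
      have hψ : (FP 𝒳 𝒴).p.IsHomLift f ψ := (fpLift_iff f ψ).mpr hφ1
      obtain ⟨χ, ⟨hχ1, hχ2⟩, hu⟩ := h.universal_property ψ
      refine ⟨χ.hom.snd, ⟨snd_lift _ χ hχ1, congrArg (fun k => k.hom.snd) hχ2⟩, ?_⟩
      rintro χ' ⟨h1, h2⟩
      have hid : 𝒳.p.IsHomLift (𝟙 R) (𝟙 x.obj.fst) := IsHomLift.id hdx
      let χ'' : z ⟶ x := mkHom (x := z) (𝟙 R) (𝟙 _) χ' hid h1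
      have := hu χ'' ⟨(fpLift_iff _ χ'').mpr hid, hom_ext' (Category.id_comp _) h2⟩
      exact congrArg (fun k => k.hom.snd) this
  · rintro ⟨h1, h2⟩
    refine { universal_property := ?_ }
    intro z ψ hψ
    have hψ1 := (fpLift_iff f ψ).mp hψ
    have hψ2 := snd_lift f ψ hψ
    obtain ⟨χ₁, ⟨a1, a2⟩, hu1⟩ := h1.universal_property ψ.hom.fst
    obtain ⟨χ₂, ⟨b1, b2⟩, hu2⟩ := h2.universal_property ψ.hom.snd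
    refine ⟨mkHom (𝟙 R) χ₁ χ₂ a1 b1, ⟨(fpLift_iff _ _).mpr a1, hom_ext' a2 b2⟩, ?_⟩
    rintro χ ⟨c1, c2⟩
    exact hom_ext' (hu1 _ ⟨(fpLift_iff _ _).mp c1, congrArg (fun k => k.hom.fst) c2⟩)
      (hu2 _ ⟨snd_lift _ _ c1, congrArg (fun k => k.hom.snd) c2⟩)

/-- S5142 -/
lemma isCartesian_fp_iff {x y : (FP 𝒳 𝒴).obj} (φ : x ⟶ y) :
    (FP 𝒳 𝒴).p.IsCartesian ((FP 𝒳 𝒴).p.map φ) φ ↔
      𝒳.p.IsCartesian (𝒳.p.map φ.hom.fst) φ.hom.fst ∧ 𝒴.p.IsCartesian (𝒴.p.map φ.hom.snd) φ.hom.snd := by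
  have h : (FP 𝒳 𝒴).p.IsHomLift ((FP 𝒳 𝒴).p.map φ) φ := inferInstance
  rw [cart_fp_iff _ φ h, cart_iff _ _ ((fpLift_iff _ φ).mp h), cart_iff _ _ (snd_lift _ φ h)]

lemma fp_prefib (h1 : 𝒳.p.IsPreFibered) (h2 : 𝒴.p.IsPreFibered) : (FP 𝒳 𝒴).p.IsPreFibered := by
  constructor
  intro y R f
  obtain ⟨a₁, φ₁, c1⟩ := h1.exists_isCartesian' f
  have hy : 𝒳.p.obj y.obj.fst = 𝒴.p.obj y.obj.snd := obj_eq y
  obtain ⟨a₂, φ₂, c2⟩ := h2.exists_isCartesian' (f ≫ eqToHom hy)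
  have l1 : 𝒳.p.IsHomLift f φ₁ := c1.toIsHomLift
  have l2' : 𝒴.p.IsHomLift (f ≫ eqToHom hy) φ₂ := c2.toIsHomLift
  have l2 : 𝒴.p.IsHomLift f φ₂ := (IsHomLift.lift_comp_eqToHom_iff 𝒴.p f φ₂ hy).mp l2'
  have c2' : 𝒴.p.IsCartesian f φ₂ := (cart_iff f φ₂ l2).mpr ((cart_iff _ φ₂ l2').mp c2)
  have d1 : 𝒳.p.obj a₁ = R := IsHomLift.domain_eq 𝒳.p f φ₁
  have d2 : 𝒴.p.obj a₂ = R := IsHomLift.domain_eq 𝒴.p f φ₂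
  let z : (FP 𝒳 𝒴).obj := mkObj a₁ a₂ (d1.trans d2.symm)
  let ψ : z ⟶ y := mkHom (x := z) f φ₁ φ₂ l1 l2
  refine ⟨z, ψ, ?_⟩
  exact (cart_fp_iff f ψ ((fpLift_iff f ψ).mpr l1)).mpr ⟨c1, c2'⟩

/-- S5143 -/
lemma isFibered_fp :
    (𝒳.p.IsFibered → 𝒴.p.IsFibered → (FP 𝒳 𝒴).p.IsFibered) ∧
      (𝒳.p.IsPreFibered → 𝒴.p.IsPreFibered → (FP 𝒳 𝒴).p.IsPreFibered) := by
  refine ⟨?_, fp_prefib⟩
  intro h1 h2
  refine { fp_prefib h1.toIsPreFibered h2.toIsPreFibered with comp := ?_ }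
  intro R S T f g a b c φ ψ hφ hψ
  have l1 := hφ.toIsHomLift
  have l2 := hψ.toIsHomLift
  obtain ⟨c1, c2⟩ := (cart_fp_iff f φ l1).mp hφ
  obtain ⟨d1, d2⟩ := (cart_fp_iff g ψ l2).mp hψ
  rw [cart_fp_iff (f ≫ g) (φ ≫ ψ) inferInstance]
  exact ⟨h1.comp f g φ.hom.fst ψ.hom.fst, h2.comp f g φ.hom.snd ψ.hom.snd⟩

end Groth.Agent.H8Fib
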