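import Mathlib.CategoryTheory.FiberedCategory.Fibered
import Mathlib.CategoryTheory.FiberedCategory.Cocartesian

set_option autoImplicit false

namespace Groth.Agent.H8Fib

open CategoryTheory CategoryTheory.Functor

universe u v u₂ v₂
variable {C : Type u} [Category.{v} C] {𝒳 : Type u₂} [Category.{v₂} 𝒳]

lemma op_lift {p : 𝒳 ⥤ C} {R S : C} {a b : 𝒳} {f : R ⟶ S} {φ : a ⟶ b} (h : p.IsHomLift f φ) :
    p.op.IsHomLift f.op φ.op := by
  rcases h with ⟨⟩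
  exact (inferInstance : p.op.IsHomLift (p.op.map φ.op) φ.op)

lemma unop_lift {p : 𝒳 ⥤ C} {R S : Cᵒᵖ} {a b : 𝒳ᵒᵖ} {f : R ⟶ S} {φ : a ⟶ b} (h : p.op.IsHomLift f φ) :
    p.IsHomLift f.unop φ.unop := by
  rcases h with ⟨⟩
  exact (inferInstance : p.IsHomLift (p.map φ.unop) φ.unop)

lemma cart_op {p : 𝒳 ⥤ C} {R S : Cᵒᵖ} {a b : 𝒳ᵒᵖ} {f : R ⟶ S} {φ : a ⟶ b} :
    p.op.IsCartesian f φ ↔ p.IsCocartesian f.unop φ.unop := by
  constructor
  · intro h
    have := unop_lift h.toIsHomLift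
    refine { universal_property := ?_ }
    intro b' φ' hφ'
    have h1 : p.op.IsHomLift f φ'.op := op_lift hφ'
    obtain ⟨χ, ⟨c1, c2⟩, hu⟩ := h.universal_property φ'.op
    refine ⟨χ.unop, ⟨unop_lift c1, congrArg Quiver.Hom.unop c2⟩, ?_⟩
    rintro χ' ⟨d1, d2⟩
    have := hu χ'.op ⟨op_lift d1, congrArg Quiver.Hom.op d2⟩
    rw [← this]; rfl
  · intro h
    have : p.op.IsHomLift f φ := op_lift h.toIsHomLift
    refine { universal_property := ?_ }
    intro b' φ' hφ'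
    have h1 : p.IsHomLift f.unop φ'.unop := unop_lift hφ'
    obtain ⟨χ, ⟨c1, c2⟩, hu⟩ := h.universal_property φ'.unop
    refine ⟨χ.op, ⟨op_lift c1, congrArg Quiver.Hom.op c2⟩, ?_⟩
    rintro χ' ⟨d1, d2⟩
    have := hu χ'.unop ⟨unop_lift d1, congrArg Quiver.Hom.unop d2⟩
    rw [← this]; rfl

lemma cocart_op {p : 𝒳 ⥤ C} {R S : Cᵒᵖ} {a b : 𝒳ᵒᵖ} {f : R ⟶ S} {φ : a ⟶ b} :
    p.op.IsCocartesian f φ ↔ p.IsCartesian f.unop φ.unop := by
  constructor
  · intro h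
    have := unop_lift h.toIsHomLift
    refine { universal_property := ?_ }
    intro b' φ' hφ'
    have h1 : p.op.IsHomLift f φ'.op := op_lift hφ'
    obtain ⟨χ, ⟨c1, c2⟩, hu⟩ := h.universal_property φ'.op
    refine ⟨χ.unop, ⟨unop_lift c1, congrArg Quiver.Hom.unop c2⟩, ?_⟩
    rintro χ' ⟨d1, d2⟩
    have := hu χ'.op ⟨op_lift d1, congrArg Quiver.Hom.op d2⟩
    rw [← this]; rfl
  · intro h
    have : p.op.IsHomLift f φ := op_lift h.toIsHomLift
    refine { universal_property := ?_ }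
    intro b' φ' hφ'
    have h1 : p.IsHomLift f.unop φ'.unop := unop_lift hφ'
    obtain ⟨χ, ⟨c1, c2⟩, hu⟩ := h.universal_property φ'.unop
    refine ⟨χ.op, ⟨op_lift c1, congrArg Quiver.Hom.op c2⟩, ?_⟩
    rintro χ' ⟨d1, d2⟩
    have := hu χ'.unop ⟨unop_lift d1, congrArg Quiver.Hom.unop d2⟩
    rw [← this]; rfl

/-- cocartesian morphisms compose in a fibred category -/
lemma cocart_comp (p : 𝒳 ⥤ C) [p.IsFibered] {R S T : C} {a b c : 𝒳} (f : R ⟶ S) (g : S ⟶ T)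
    (φ : a ⟶ b) (ψ : b ⟶ c) (hφ : p.IsCocartesian f φ) (hψ : p.IsCocartesian g ψ) :
    p.IsCocartesian (f ≫ g) (φ ≫ ψ) := by
  refine { universal_property := ?_ }
  intro c' θ hθ
  have hc : p.obj c' = T := IsHomLift.codomain_eq p (f ≫ g) θ
  obtain ⟨b', κ, hκ⟩ := IsPreFibered.exists_isCartesian p hc g
  have hs : p.IsStronglyCartesian g κ := inferInstance
  let θ' := IsStronglyCartesian.map p g κ (g := f) rfl θ
  have hθ' : p.IsHomLift f θ' := inferInstance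
  have e1 : θ' ≫ κ = θ := IsStronglyCartesian.fac p g κ rfl θ
  obtain ⟨μ, ⟨m1, m2⟩, mu⟩ := hφ.universal_property θ'
  obtain ⟨χ, ⟨c1, c2⟩, cu⟩ := hψ.universal_property (μ ≫ κ)
  refine ⟨χ, ⟨c1, ?_⟩, ?_⟩
  · rw [Category.assoc, c2, ← Category.assoc, m2, e1]
  · rintro χ' ⟨d1, d2⟩
    apply cu
    refine ⟨d1, ?_⟩
    have l1 : p.IsHomLift g (ψ ≫ χ') := inferInstance
    let μ' := IsStronglyCartesian.map p g κ (g := 𝟙 S) (Category.id_comp g).symm (ψ ≫ χ')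
    have hμ' : p.IsHomLift (𝟙 S) μ' := inferInstance
    have e2 : μ' ≫ κ = ψ ≫ χ' := IsStronglyCartesian.fac p g κ (Category.id_comp g).symm (ψ ≫ χ')
    have l2 : p.IsHomLift f (φ ≫ μ') := inferInstance
    have e3 : φ ≫ μ' = θ' := IsStronglyCartesian.map_uniq p g κ (g := f) rfl θ (φ ≫ μ') (by
      rw [Category.assoc, e2, ← Category.assoc, d2])
    rw [← e2, mu μ' ⟨hμ', e3⟩]

/-- S5144 -/
lemma isFibered_iff_op (p : 𝒳 ⥤ C) [h1 : p.IsPreFibered] [h2 : p.op.IsPreFibered] :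
    p.IsFibered ↔ p.op.IsFibered := by
  constructor
  · intro h
    refine { h2 with comp := ?_ }
    intro R S T f g a b c φ ψ hφ hψ
    rw [cart_op] at hφ hψ ⊢
    exact cocart_comp p g.unop f.unop ψ.unop φ.unop hψ hφ
  · intro h
    refine { h1 with comp := ?_ }
    intro R S T f g a b c φ ψ hφ hψ
    have k1 : p.op.IsCocartesian f.op φ.op := cocart_op.mpr hφ
    have k2 : p.op.IsCocartesian g.op ψ.op := cocart_op.mpr hψ
    have k3 := cocart_comp p.op g.op f.op ψ.op φ.op k2 k1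
    exact cocart_op.mp k3

end Groth.Agent.H8Fib
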