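import Groth.Prelude.Def_Models
import Mathlib.Tactic.Linarith
import Mathlib.Tactic.Ring
import Mathlib.Tactic.FinCases

set_option autoImplicit false

namespace Groth.Agent.H11NT
open Finset Models

variable {n : ℕ} (T : Models.NumericalType n)

theorem a_symm (i j : Fin n) : T.a i j = T.a j i := T.symm.apply j i

theorem row_sum (j : Fin n) : ∑ i, T.a j i * T.m i = 0 := by
  have := congrFun T.mulVec_m j
  simpa [Matrix.mulVec, dotProduct] using this

/-- A nonnegative vector which is nonzero and vanishes somewhere has a negative row on its support. -/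
theorem exists_neg (x : Fin n → ℤ) (hx : ∀ i, 0 ≤ x i) (hne : ∃ i, 0 < x i) (h0 : ∃ i, x i = 0) :
    ∃ i, 0 < x i ∧ ∑ j, T.a i j * x j < 0 := by
  by_contra hcon
  push Not at hcon
  have hall : ∀ i, 0 ≤ ∑ j, T.a i j * x j := by
    intro i
    by_cases hi : 0 < x i
    · exact hcon i hi
    · have hi0 : x i = 0 := le_antisymm (not_lt.mp hi) (hx i)
      apply Finset.sum_nonneg
      intro j _
      by_cases hij : i = j
      · subst hij; simp [hi0]
      · exact mul_nonneg (T.offDiag_nonneg i j hij) (hx j)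
  have hsum : ∑ i, T.m i * (∑ j, T.a i j * x j) = 0 := by
    calc ∑ i, T.m i * (∑ j, T.a i j * x j) = ∑ i, ∑ j, T.m i * (T.a i j * x j) := by
          simp [Finset.mul_sum]
      _ = ∑ j, ∑ i, T.m i * (T.a i j * x j) := Finset.sum_comm
      _ = ∑ j, x j * ∑ i, T.a j i * T.m i := by
          apply Finset.sum_congr rfl; intro j _
          rw [Finset.mul_sum]; apply Finset.sum_congr rfl; intro i _
          rw [a_symm T i j]; ring
      _ = 0 := by simp [row_sum T]
  have hz : ∀ i, ∑ j, T.a i j * x j = 0 := by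
    intro i
    have hnn : ∀ i ∈ (univ : Finset (Fin n)), 0 ≤ T.m i * (∑ j, T.a i j * x j) :=
      fun i _ => mul_nonneg (T.m_pos i).le (hall i)
    have := (Finset.sum_eq_zero_iff_of_nonneg hnn).1 hsum i (mem_univ i)
    rcases mul_eq_zero.1 this with h | h
    · exact absurd h (T.m_pos i).ne'
    · exact h
  obtain ⟨i1, hi1⟩ := hne
  obtain ⟨i0, hi0⟩ := h0
  obtain ⟨i, hi, j, hj, hij⟩ := T.connected (univ.filter fun i => 0 < x i)
    ⟨i1, by simp [hi1]⟩ (by
      intro h
      have : i0 ∈ (univ.filter fun i => 0 < x i) := by rw [h]; exact mem_univ _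
      simp [hi0] at this)
  simp only [mem_filter, mem_univ, true_and] at hi hj
  have hj0 : x j = 0 := le_antisymm (not_lt.mp hj) (hx j)
  have hne : j ≠ i := by rintro rfl; exact hj hi
  have hpos : 0 < ∑ k, T.a j k * x k := by
    apply Finset.sum_pos'
    · intro k _
      by_cases hjk : j = k
      · subst hjk; simp [hj0]
      · exact mul_nonneg (T.offDiag_nonneg j k hjk) (hx k)
    · refine ⟨i, mem_univ _, mul_pos ?_ hi⟩
      have h1 := T.offDiag_nonneg j i hne
      have h2 : T.a j i ≠ 0 := by rw [a_symm T j i]; exact hij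
      omega
  rw [hz j] at hpos
  exact lt_irrefl _ hpos

section sub
variable {k : ℕ}

/-- Restriction to a proper sub-family. -/
theorem exists_neg_sub (hk : k < n) (v : Fin k ↪ Fin n) (x : Fin k → ℤ)
    (hx : ∀ i, 0 ≤ x i) (hne : ∃ i, 0 < x i) :
    ∃ i : Fin k, 0 < x i ∧ ∑ j, T.a (v i) (v j) * x j < 0 := by
  classical
  set X : Fin n → ℤ := fun p => ∑ j, if v j = p then x j else 0 with hX
  have hXv : ∀ j, X (v j) = x j := by
    intro j
    simp only [hX]
    rw [Finset.sum_eq_single j]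
    · simp
    · intro b _ hb
      rw [if_neg]; exact fun h => hb (v.injective h)
    · intro h; exact absurd (mem_univ _) h
  have hX0 : ∀ p, (∀ j, v j ≠ p) → X p = 0 := by
    intro p hp
    simp only [hX]
    apply Finset.sum_eq_zero
    intro j _
    rw [if_neg (hp j)]
  have hXnn : ∀ p, 0 ≤ X p := by
    intro p
    apply Finset.sum_nonneg
    intro j _
    split_ifs
    · exact hx j
    · exact le_rfl
  have hsum : ∀ p, ∑ q, T.a p q * X q = ∑ j, T.a p (v j) * x j := by
    intro p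
    simp only [hX, Finset.mul_sum]
    rw [Finset.sum_comm]
    apply Finset.sum_congr rfl
    intro j _
    rw [Finset.sum_eq_single (v j)]
    · simp
    · intro b _ hb
      rw [if_neg (Ne.symm hb)]; simp
    · intro h; exact absurd (mem_univ _) h
  have hex : ∃ p, ∀ j, v j ≠ p := by
    by_contra hcon
    push Not at hcon
    have : Function.Surjective v := fun p => hcon p
    have := Fintype.card_le_of_surjective v this
    simp at this
    omega
  obtain ⟨p, hp⟩ := hex
  obtain ⟨i1, hi1⟩ := hne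
  obtain ⟨i, hi, hneg⟩ := exists_neg T X hXnn ⟨v i1, by rw [hXv]; exact hi1⟩ ⟨p, hX0 p hp⟩
  have hiv : ∃ j, v j = i := by
    by_contra hcon
    push Not at hcon
    rw [hX0 i hcon] at hi
    exact lt_irrefl _ hi
  obtain ⟨j, rfl⟩ := hiv
  rw [hXv] at hi
  rw [hsum] at hneg
  exact ⟨j, hi, hneg⟩

/-- Row inequality for a sub-family. -/
theorem row_le (v : Fin k ↪ Fin n) (i : Fin k) : ∑ j, T.a (v i) (v j) * T.m (v j) ≤ 0 := by
  classical
  rw [← row_sum T (v i)]
  have : ∑ j, T.a (v i) (v j) * T.m (v j) = ∑ p ∈ (univ : Finset (Fin k)).map v, T.a (v i) p * T.m p := by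
    rw [Finset.sum_map]
  rw [this]
  apply Finset.sum_le_sum_of_subset_of_nonneg (Finset.subset_univ _)
  intro p _ hp
  apply mul_nonneg _ (T.m_pos p).le
  apply T.offDiag_nonneg
  rintro rfl
  apply hp
  simp

theorem le_of_pos {i j : Fin n} (h : 0 < T.a i j) : T.w i ≤ T.a i j :=
  Int.le_of_dvd h (T.w_dvd i j)

theorem pos_of_ne {i j : Fin n} (hij : i ≠ j) (h : T.a i j ≠ 0) : 0 < T.a i j :=
  lt_of_le_of_ne (T.offDiag_nonneg i j hij) (Ne.symm h)

/-- The main exclusion principle: lower bounds `c i j` for `a i j / w i`, and a nonnegative vector. -/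
theorem no_config (hk : k < n) (v : Fin k ↪ Fin n) (hv : ∀ j, T.IsMinusTwo (v j))
    (c : Fin k → Fin k → ℤ) (hc : ∀ i j, i ≠ j → c i j * T.w (v i) ≤ T.a (v i) (v j))
    (x : Fin k → ℤ) (hx : ∀ i, 0 ≤ x i) (hne : ∃ i, 0 < x i)
    (hcx : ∀ i, 2 * x i ≤ ∑ j ∈ univ.erase i, c i j * x j) : False := by
  obtain ⟨i, hi, hneg⟩ := exists_neg_sub T hk v x hx hne
  rw [← Finset.add_sum_erase univ _ (mem_univ i), (hv i).2] at hneg
  have h1 : T.w (v i) * ∑ j ∈ univ.erase i, c i j * x j ≤ ∑ j ∈ univ.erase i, T.a (v i) (v j) * x j := by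
    rw [Finset.mul_sum]
    apply Finset.sum_le_sum
    intro j hj
    have hij : i ≠ j := (Finset.ne_of_mem_erase hj).symm
    have := mul_le_mul_of_nonneg_right (hc i j hij) (hx j)
    linarith
  have h2 := mul_le_mul_of_nonneg_left (hcx i) (T.w_pos (v i)).le
  linarith

/-- Flexible version of the exclusion principle with chosen neighbours. -/
theorem no_config_nbr (hk : k < n) (v : Fin k ↪ Fin n) (hv : ∀ j, T.IsMinusTwo (v j))
    (N : Fin k → Finset (Fin k)) (hN : ∀ i, i ∉ N i)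
    (c : Fin k → Fin k → ℤ) (x : Fin k → ℤ)
    (hc : ∀ i, 0 < x i → ∀ j ∈ N i, c i j * T.w (v i) ≤ T.a (v i) (v j))
    (hx : ∀ i, 0 ≤ x i) (hne : ∃ i, 0 < x i)
    (hcx : ∀ i, 0 < x i → 2 * x i ≤ ∑ j ∈ N i, c i j * x j) : False := by
  obtain ⟨i, hi, hneg⟩ := exists_neg_sub T hk v x hx hne
  rw [← Finset.add_sum_erase univ _ (mem_univ i), (hv i).2] at hneg
  have h0 : ∑ j ∈ N i, T.a (v i) (v j) * x j ≤ ∑ j ∈ univ.erase i, T.a (v i) (v j) * x j := by
    apply Finset.sum_le_sum_of_subset_of_nonneg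
    · intro j hj
      rw [Finset.mem_erase]
      exact ⟨fun h => hN i (h ▸ hj), mem_univ _⟩
    · intro j hj _
      exact mul_nonneg (T.offDiag_nonneg _ _ (v.injective.ne (Finset.ne_of_mem_erase hj).symm)) (hx j)
  have h1 : T.w (v i) * ∑ j ∈ N i, c i j * x j ≤ ∑ j ∈ N i, T.a (v i) (v j) * x j := by
    rw [Finset.mul_sum]
    apply Finset.sum_le_sum
    intro j hj
    have := mul_le_mul_of_nonneg_right (hc i hi j hj) (hx j)
    linarith
  have h2 := mul_le_mul_of_nonneg_left (hcx i hi) (T.w_pos (v i)).le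
  linarith

/-- Row inequality with lower bounds for the coefficients. -/
theorem row_le_c (v : Fin k ↪ Fin n) (i : Fin k) (hv : T.IsMinusTwo (v i)) (N : Finset (Fin k)) (hN : i ∉ N)
    (c : Fin k → ℤ) (hc : ∀ j ∈ N, c j * T.w (v i) ≤ T.a (v i) (v j)) :
    ∑ j ∈ N, c j * T.m (v j) ≤ 2 * T.m (v i) := by
  have hneg := row_le T v i
  rw [← Finset.add_sum_erase univ _ (mem_univ i), hv.2] at hneg
  have h0 : ∑ j ∈ N, T.a (v i) (v j) * T.m (v j) ≤ ∑ j ∈ univ.erase i, T.a (v i) (v j) * T.m (v j) := by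
    apply Finset.sum_le_sum_of_subset_of_nonneg
    · intro j hj
      rw [Finset.mem_erase]
      exact ⟨fun h => hN (h ▸ hj), mem_univ _⟩
    · intro j hj _
      exact mul_nonneg (T.offDiag_nonneg _ _ (v.injective.ne (Finset.ne_of_mem_erase hj).symm)) (T.m_pos _).le
  have h1 : T.w (v i) * ∑ j ∈ N, c j * T.m (v j) ≤ ∑ j ∈ N, T.a (v i) (v j) * T.m (v j) := by
    rw [Finset.mul_sum]
    apply Finset.sum_le_sum
    intro j hj
    have := mul_le_mul_of_nonneg_right (hc j hj) (T.m_pos (v j)).le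
    linarith
  have h3 : T.w (v i) * ∑ j ∈ N, c j * T.m (v j) ≤ T.w (v i) * (2 * T.m (v i)) := by linarith
  exact le_of_mul_le_mul_left h3 (T.w_pos (v i))

/-- Table of lower bounds from a list of edges `(p, q, c, d)`. -/
def tbl (E : List (Fin k × Fin k × ℤ × ℤ)) (i j : Fin k) : ℤ :=
  match E.find? (fun e => decide (e.1 = i ∧ e.2.1 = j)) with
  | some e => e.2.2.1
  | none => match E.find? (fun e => decide (e.1 = j ∧ e.2.1 = i)) with
    | some e => e.2.2.2
    | none => 0

theorem no_config_list (hk : k < n) (v : Fin k ↪ Fin n) (hv : ∀ j, T.IsMinusTwo (v j))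
    (E : List (Fin k × Fin k × ℤ × ℤ))
    (hE : ∀ e ∈ E, e.2.2.1 * T.w (v e.1) ≤ T.a (v e.1) (v e.2.1) ∧
      e.2.2.2 * T.w (v e.2.1) ≤ T.a (v e.1) (v e.2.1))
    (x : Fin k → ℤ) (hx : ∀ i, 0 ≤ x i) (hne : ∃ i, 0 < x i)
    (hcx : ∀ i, 2 * x i ≤ ∑ j ∈ univ.erase i, tbl E i j * x j) : False := by
  refine no_config T hk v hv (tbl E) ?_ x hx hne hcx
  intro i j hij
  unfold tbl
  split
  · rename_i e he
    have h1 := List.mem_of_find?_eq_some he
    have h2 := List.find?_some he
    simp only [decide_eq_true_eq] at h2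
    have := (hE e h1).1
    rwa [h2.1, h2.2] at this
  · split
    · rename_i e he
      have h1 := List.mem_of_find?_eq_some he
      have h2 := List.find?_some he
      simp only [decide_eq_true_eq] at h2
      have := (hE e h1).2
      rw [h2.1, h2.2] at this
      rwa [a_symm T (v i) (v j)]
    · have := T.offDiag_nonneg (v i) (v j) (v.injective.ne hij)
      simpa using this

end sub

theorem row_ge_finset (i : Fin n) (s : Finset (Fin n)) (hi : i ∈ s) :
    ∑ p ∈ s, T.a i p * T.m p ≤ 0 := by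
  rw [← row_sum T i]
  apply Finset.sum_le_sum_of_subset_of_nonneg (Finset.subset_univ _)
  intro p _ hp
  exact mul_nonneg (T.offDiag_nonneg i p (fun h => hp (h ▸ hi))) (T.m_pos p).le

theorem row1 {i j : Fin n} (hij : i ≠ j) (hi : T.IsMinusTwo i) (c : ℤ) (h : c * T.w i ≤ T.a i j) :
    c * T.m j ≤ 2 * T.m i := by
  have h0 := row_ge_finset T i {i, j} (by simp)
  rw [Finset.sum_insert (by simpa using hij), Finset.sum_singleton, hi.2] at h0
  have h1 := mul_le_mul_of_nonneg_right h (T.m_pos j).le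
  have h2 : T.w i * (c * T.m j) ≤ T.w i * (2 * T.m i) := by linarith
  exact le_of_mul_le_mul_left h2 (T.w_pos i)

theorem row2 {i j k : Fin n} (hij : i ≠ j) (hik : i ≠ k) (hjk : j ≠ k) (hi : T.IsMinusTwo i) (c d : ℤ)
    (h : c * T.w i ≤ T.a i j) (h' : d * T.w i ≤ T.a i k) :
    c * T.m j + d * T.m k ≤ 2 * T.m i := by
  have h0 := row_ge_finset T i {i, j, k} (by simp)
  rw [Finset.sum_insert (by simp [hij, hik]), Finset.sum_insert (by simpa using hjk),
    Finset.sum_singleton, hi.2] at h0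
  have h1 := mul_le_mul_of_nonneg_right h (T.m_pos j).le
  have h1' := mul_le_mul_of_nonneg_right h' (T.m_pos k).le
  have h2 : T.w i * (c * T.m j + d * T.m k) ≤ T.w i * (2 * T.m i) := by linarith
  exact le_of_mul_le_mul_left h2 (T.w_pos i)

/-- An edge as a pair of lower bounds. -/
theorem edge {i j : Fin n} (hij : i ≠ j) (h : T.a i j ≠ 0) :
    1 * T.w i ≤ T.a i j ∧ 1 * T.w j ≤ T.a i j := by
  have h1 := pos_of_ne T hij h
  refine ⟨by simpa using le_of_pos T h1, ?_⟩
  rw [a_symm T i j] at h1 ⊢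
  simpa using le_of_pos T h1

/-- An edge is single, or at least double in one of the two directions. -/
theorem edge_cases {i j : Fin n} (hij : i ≠ j) (h : T.a i j ≠ 0) :
    (T.a i j = T.w i ∧ T.a i j = T.w j) ∨ (2 * T.w i ≤ T.a i j ∧ 1 * T.w j ≤ T.a i j) ∨
      (1 * T.w i ≤ T.a i j ∧ 2 * T.w j ≤ T.a i j) := by
  have h1 := pos_of_ne T hij h
  obtain ⟨c, hc⟩ := T.w_dvd i j
  obtain ⟨d, hd⟩ := T.w_dvd j i
  rw [a_symm T j i] at hd
  have hwi := T.w_pos i
  have hwj := T.w_pos j
  have hc1 : 1 ≤ c := by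
    by_contra hcon
    have : T.w i * c ≤ 0 := mul_nonpos_of_nonneg_of_nonpos hwi.le (by omega)
    omega
  have hd1 : 1 ≤ d := by
    by_contra hcon
    have : T.w j * d ≤ 0 := mul_nonpos_of_nonneg_of_nonpos hwj.le (by omega)
    omega
  obtain ⟨e1, e2⟩ := edge T hij h
  by_cases hc2 : 2 ≤ c
  · right; left
    refine ⟨?_, e2⟩
    rw [hc]; nlinarith
  · by_cases hd2 : 2 ≤ d
    · right; right
      refine ⟨e1, ?_⟩
      rw [hd]; nlinarith
    · left
      have hc' : c = 1 := by omega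
      have hd' : d = 1 := by omega
      subst hc'; subst hd'
      constructor <;> omega

/-- Local condition at `i` used for the exclusion principle. -/
def Good {k : ℕ} (v : Fin k ↪ Fin n) (x : Fin k → ℤ) (i : Fin k) : Prop :=
  ∃ (N : Finset (Fin k)) (c : Fin k → ℤ), i ∉ N ∧ (∀ j ∈ N, c j * T.w (v i) ≤ T.a (v i) (v j)) ∧
    2 * x i ≤ ∑ j ∈ N, c j * x j

theorem no_config_pt {k : ℕ} (hk : k < n) (v : Fin k ↪ Fin n) (hv : ∀ j, T.IsMinusTwo (v j))
    (x : Fin k → ℤ) (hx : ∀ i, 0 ≤ x i) (hne : ∃ i, 0 < x i)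
    (H : ∀ i, 0 < x i → Good T v x i) : False := by
  obtain ⟨i, hi, hneg⟩ := exists_neg_sub T hk v x hx hne
  obtain ⟨N, c, hN, hc, hcx⟩ := H i hi
  rw [← Finset.add_sum_erase univ _ (mem_univ i), (hv i).2] at hneg
  have h0 : ∑ j ∈ N, T.a (v i) (v j) * x j ≤ ∑ j ∈ univ.erase i, T.a (v i) (v j) * x j := by
    apply Finset.sum_le_sum_of_subset_of_nonneg
    · intro j hj
      rw [Finset.mem_erase]
      exact ⟨fun h => hN (h ▸ hj), mem_univ _⟩
    · intro j hj _
      exact mul_nonneg (T.offDiag_nonneg _ _ (v.injective.ne (Finset.ne_of_mem_erase hj).symm)) (hx j)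
  have h1 : T.w (v i) * ∑ j ∈ N, c j * x j ≤ ∑ j ∈ N, T.a (v i) (v j) * x j := by
    rw [Finset.mul_sum]
    apply Finset.sum_le_sum
    intro j hj
    have := mul_le_mul_of_nonneg_right (hc j hj) (hx j)
    linarith
  have h2 := mul_le_mul_of_nonneg_left hcx (T.w_pos (v i)).le
  linarith

theorem good1 {k : ℕ} {v : Fin k ↪ Fin n} {x : Fin k → ℤ} {i : Fin k} (j : Fin k) (c : ℤ) (hij : i ≠ j)
    (h : c * T.w (v i) ≤ T.a (v i) (v j)) (hx : 2 * x i ≤ c * x j) : Good T v x i :=
  ⟨{j}, fun _ => c, by simpa using hij, by intro l hl; rw [Finset.mem_singleton.1 hl]; exact h,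
    by rw [Finset.sum_singleton]; exact hx⟩

theorem good2 {k : ℕ} {v : Fin k ↪ Fin n} {x : Fin k → ℤ} {i : Fin k} (j l : Fin k) (c d : ℤ) (hij : i ≠ j)
    (hil : i ≠ l) (hjl : j ≠ l)
    (h : c * T.w (v i) ≤ T.a (v i) (v j)) (h' : d * T.w (v i) ≤ T.a (v i) (v l))
    (hx : 2 * x i ≤ c * x j + d * x l) : Good T v x i :=
  ⟨{j, l}, fun p => if p = j then c else d, by simp [hij, hil],
    by
      intro p hp
      simp only [Finset.mem_insert, Finset.mem_singleton] at hp
      rcases hp with rfl | rfl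
      · simpa using h
      · simpa [hjl.symm] using h',
    by
      rw [Finset.sum_insert (by simpa using hjl), Finset.sum_singleton]
      simpa [hjl.symm] using hx⟩

theorem good3 {k : ℕ} {v : Fin k ↪ Fin n} {x : Fin k → ℤ} {i : Fin k} (j l p : Fin k) (c d e : ℤ) (hij : i ≠ j)
    (hil : i ≠ l) (hip : i ≠ p) (hjl : j ≠ l) (hjp : j ≠ p) (hlp : l ≠ p)
    (h : c * T.w (v i) ≤ T.a (v i) (v j)) (h' : d * T.w (v i) ≤ T.a (v i) (v l))
    (h'' : e * T.w (v i) ≤ T.a (v i) (v p))
    (hx : 2 * x i ≤ c * x j + d * x l + e * x p) : Good T v x i :=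
  ⟨{j, l, p}, fun q => if q = j then c else if q = l then d else e, by simp [hij, hil, hip],
    by
      intro q hq
      simp only [Finset.mem_insert, Finset.mem_singleton] at hq
      rcases hq with rfl | rfl | rfl
      · simpa using h
      · simpa [hjl.symm] using h'
      · simpa [hjp.symm, hlp.symm] using h'',
    by
      rw [Finset.sum_insert (by simp [hjl, hjp]), Finset.sum_insert (by simpa using hlp),
        Finset.sum_singleton]
      simpa [hjl.symm, hjp.symm, hlp.symm, add_assoc] using hx⟩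

theorem diag_neg (hn : 1 < n) (i : Fin n) : T.a i i < 0 := by
  have hex : ∃ p : Fin n, p ≠ i := by
    by_contra hcon
    push Not at hcon
    have h := Fintype.card_le_one_iff_subsingleton.2 (⟨fun a b => (hcon a).trans (hcon b).symm⟩ : Subsingleton (Fin n))
    simp at h
    omega
  obtain ⟨p, hp⟩ := hex
  obtain ⟨q, hq, hneg⟩ := exists_neg T (fun j => if j = i then 1 else 0)
    (fun j => by split_ifs <;> simp) ⟨i, by simp⟩ ⟨p, by simp [hp]⟩
  have hqi : q = i := by
    by_contra h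
    simp [h] at hq
  subst hqi
  simpa using hneg

/-- Trichotomy once triple and doubly-double edges are excluded. -/
theorem edge_tri {i j : Fin n} (hij : i ≠ j) (h : T.a i j ≠ 0)
    (h3 : ¬ (3 * T.w i ≤ T.a i j ∧ 1 * T.w j ≤ T.a i j)) (h3' : ¬ (1 * T.w i ≤ T.a i j ∧ 3 * T.w j ≤ T.a i j))
    (h22 : ¬ (2 * T.w i ≤ T.a i j ∧ 2 * T.w j ≤ T.a i j)) :
    (T.a i j = T.w i ∧ T.a i j = T.w j) ∨ (T.a i j = 2 * T.w i ∧ T.a i j = T.w j) ∨
      (T.a i j = T.w i ∧ T.a i j = 2 * T.w j) := by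
  obtain ⟨e1, e2⟩ := edge T hij h
  have h1 := pos_of_ne T hij h
  obtain ⟨c, hc⟩ := T.w_dvd i j
  obtain ⟨d, hd⟩ := T.w_dvd j i
  rw [a_symm T j i] at hd
  have hwi := T.w_pos i
  have hwj := T.w_pos j
  have hc1 : 1 ≤ c := by
    by_contra hcon
    have : T.w i * c ≤ 0 := mul_nonpos_of_nonneg_of_nonpos hwi.le (by omega)
    omega
  have hd1 : 1 ≤ d := by
    by_contra hcon
    have : T.w j * d ≤ 0 := mul_nonpos_of_nonneg_of_nonpos hwj.le (by omega)
    omega
  have hc3 : c < 3 := by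
    by_contra hcon
    exact h3 ⟨by rw [hc]; nlinarith, e2⟩
  have hd3 : d < 3 := by
    by_contra hcon
    exact h3' ⟨e1, by rw [hd]; nlinarith⟩
  have hcd : ¬ (c = 2 ∧ d = 2) := by
    rintro ⟨rfl, rfl⟩
    exact h22 ⟨by omega, by omega⟩
  have hc' : c = 1 ∨ c = 2 := by omega
  have hd' : d = 1 ∨ d = 2 := by omega
  rcases hc' with rfl | rfl <;> rcases hd' with rfl | rfl
  · left; constructor <;> omega
  · right; right; constructor <;> omega
  · right; left; constructor <;> omega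
  · exact absurd ⟨rfl, rfl⟩ hcd

end Groth.Agent.H11NT
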