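import Groth.Agent.Lib.Helper11_NumType
set_option autoImplicit false
namespace Groth.Agent.H11NT
open Finset Models
variable {n : ℕ} (T : Models.NumericalType n)

theorem tri3 (hn : 3 < n) (v : Fin 3 ↪ Fin n) (hv : ∀ j, T.IsMinusTwo (v j))
    (h01 : T.a (v 0) (v 1) ≠ 0) (h12 : T.a (v 1) (v 2) ≠ 0) :
    ((T.a (v 0) (v 1) = T.w (v 0) ∧ T.a (v 0) (v 1) = T.w (v 1)) ∨ (T.a (v 0) (v 1) = 2 * T.w (v 0) ∧ T.a (v 0) (v 1) = T.w (v 1)) ∨
      (T.a (v 0) (v 1) = T.w (v 0) ∧ T.a (v 0) (v 1) = 2 * T.w (v 1))) ∧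
    ((T.a (v 1) (v 2) = T.w (v 1) ∧ T.a (v 1) (v 2) = T.w (v 2)) ∨ (T.a (v 1) (v 2) = 2 * T.w (v 1) ∧ T.a (v 1) (v 2) = T.w (v 2)) ∨
      (T.a (v 1) (v 2) = T.w (v 1) ∧ T.a (v 1) (v 2) = 2 * T.w (v 2))) := by
  have n01 := edge T (v.injective.ne (by decide : (0 : Fin 3) ≠ 1)) h01
  have n12 := edge T (v.injective.ne (by decide : (1 : Fin 3) ≠ 2)) h12
  have t0 := edge_tri T (v.injective.ne (by decide : (0 : Fin 3) ≠ 1)) h01 (fun h => no_config_list T (by omega) v hv [(0, 1, 3, 1), (1, 2, 1, 1)] (List.forall_mem_cons.2 ⟨h, (List.forall_mem_cons.2 ⟨n12, (List.forall_mem_nil _)⟩)⟩) ![3, 2, 1] (by decide) ⟨0, by decide⟩ (by decide)) (fun h => no_config_list T (by omega) v hv [(0, 1, 1, 3), (1, 2, 1, 1)] (List.forall_mem_cons.2 ⟨h, (List.forall_mem_cons.2 ⟨n12, (List.forall_mem_nil _)⟩)⟩) ![1, 2, 1] (by decide) ⟨0, by decide⟩ (by decide)) (fun h => no_config_list T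 (by omega) v hv [(0, 1, 2, 2), (1, 2, 1, 1)] (List.forall_mem_cons.2 ⟨h, (List.forall_mem_cons.2 ⟨n12, (List.forall_mem_nil _)⟩)⟩) ![1, 1, 0] (by decide) ⟨0, by decide⟩ (by decide))
  have t1 := edge_tri T (v.injective.ne (by decide : (1 : Fin 3) ≠ 2)) h12 (fun h => no_config_list T (by omega) v hv [(0, 1, 1, 1), (1, 2, 3, 1)] (List.forall_mem_cons.2 ⟨n01, (List.forall_mem_cons.2 ⟨h, (List.forall_mem_nil _)⟩)⟩) ![1, 2, 1] (by decide) ⟨0, by decide⟩ (by decide)) (fun h => no_config_list T (by omega) v hv [(0, 1, 1, 1), (1, 2, 1, 3)] (List.forall_mem_cons.2 ⟨n01, (List.forall_mem_cons.2 ⟨h, (List.forall_mem_nil _)⟩)⟩) ![1, 2, 3] (by decide) ⟨0, by decide⟩ (by decide)) (fun h => no_config_list T (by omega) v hv [(0, 1, 1, 1), (1, 2, 2, 2)] (List.forall_mem_cons.2 ⟨n01, (List.forall_mem_cons.2 ⟨h, (List.forall_mem_nil _)⟩)⟩) ![0, 1, 1] (by decide) ⟨1, by decide⟩ (by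 decide))
  exact ⟨t0, t1⟩

theorem mid_single (hn : 5 < n) (v : Fin 5 ↪ Fin n) (hv : ∀ j, T.IsMinusTwo (v j))
    (h01 : T.a (v 0) (v 1) ≠ 0) (h12 : T.a (v 1) (v 2) ≠ 0) (h23 : T.a (v 2) (v 3) ≠ 0) (h34 : T.a (v 3) (v 4) ≠ 0) :
    (T.a (v 1) (v 2) = T.w (v 1) ∧ T.a (v 1) (v 2) = T.w (v 2)) ∧ (T.a (v 2) (v 3) = T.w (v 2) ∧ T.a (v 2) (v 3) = T.w (v 3)) := by
  have n01 := edge T (v.injective.ne (by decide : (0 : Fin 5) ≠ 1)) h01
  have n12 := edge T (v.injective.ne (by decide : (1 : Fin 5) ≠ 2)) h12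
  have n23 := edge T (v.injective.ne (by decide : (2 : Fin 5) ≠ 3)) h23
  have n34 := edge T (v.injective.ne (by decide : (3 : Fin 5) ≠ 4)) h34
  have t1 := edge_cases T (v.injective.ne (by decide : (1 : Fin 5) ≠ 2)) h12
  have t1 : T.a (v 1) (v 2) = T.w (v 1) ∧ T.a (v 1) (v 2) = T.w (v 2) := by
    rcases t1 with h | h | h
    · exact h
    · exact (no_config_list T (by omega) v hv [(0, 1, 1, 1), (1, 2, 2, 1), (2, 3, 1, 1), (3, 4, 1, 1)] (List.forall_mem_cons.2 ⟨n01, (List.forall_mem_cons.2 ⟨h, (List.forall_mem_cons.2 ⟨n23, (List.forall_mem_cons.2 ⟨n34, (List.forall_mem_nil _)⟩)⟩)⟩)⟩) ![2, 4, 3, 2, 1] (by decide) ⟨0, by decide⟩ (by decide)).elim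
    · exact (no_config_list T (by omega) v hv [(0, 1, 1, 1), (1, 2, 1, 2), (2, 3, 1, 1), (3, 4, 1, 1)] (List.forall_mem_cons.2 ⟨n01, (List.forall_mem_cons.2 ⟨h, (List.forall_mem_cons.2 ⟨n23, (List.forall_mem_cons.2 ⟨n34, (List.forall_mem_nil _)⟩)⟩)⟩)⟩) ![1, 2, 3, 2, 1] (by decide) ⟨0, by decide⟩ (by decide)).elim
  have t2 := edge_cases T (v.injective.ne (by decide : (2 : Fin 5) ≠ 3)) h23
  have t2 : T.a (v 2) (v 3) = T.w (v 2) ∧ T.a (v 2) (v 3) = T.w (v 3) := by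
    rcases t2 with h | h | h
    · exact h
    · exact (no_config_list T (by omega) v hv [(0, 1, 1, 1), (1, 2, 1, 1), (2, 3, 2, 1), (3, 4, 1, 1)] (List.forall_mem_cons.2 ⟨n01, (List.forall_mem_cons.2 ⟨n12, (List.forall_mem_cons.2 ⟨h, (List.forall_mem_cons.2 ⟨n34, (List.forall_mem_nil _)⟩)⟩)⟩)⟩) ![1, 2, 3, 2, 1] (by decide) ⟨0, by decide⟩ (by decide)).elim
    · exact (no_config_list T (by omega) v hv [(0, 1, 1, 1), (1, 2, 1, 1), (2, 3, 1, 2), (3, 4, 1, 1)] (List.forall_mem_cons.2 ⟨n01, (List.forall_mem_cons.2 ⟨n12, (List.forall_mem_cons.2 ⟨h, (List.forall_mem_cons.2 ⟨n34, (List.forall_mem_nil _)⟩)⟩)⟩)⟩) ![1, 2, 3, 4, 2] (by decide) ⟨0, by decide⟩ (by decide)).elim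
  exact ⟨t1, t2⟩


section
variable {k : ℕ}

/-- No chord in a chain. -/
theorem chain_zero (hk : k < n) (v : Fin k ↪ Fin n) (hv : ∀ j, T.IsMinusTwo (v j)) (p q : ℕ) (hpq : p + 1 < q) (hq : q < k)
    (hch : ∀ (i : ℕ) (hi : i < k) (hi' : i + 1 < k), p ≤ i → i < q → T.a (v ⟨i, hi⟩) (v ⟨i + 1, hi'⟩) ≠ 0) :
    T.a (v ⟨p, by omega⟩) (v ⟨q, hq⟩) = 0 := by
  by_contra hcon
  have hne : ∀ (p q : ℕ) (hp : p < k) (hq : q < k), p ≠ q → (⟨p, hp⟩ : Fin k) ≠ ⟨q, hq⟩ := by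
    intro p q hp hq h; simpa [Fin.ext_iff] using h
  have hA : ∀ (i : ℕ) (hi : i < k) (hi' : i + 1 < k), p ≤ i → i < q →
      1 * T.w (v ⟨i, hi⟩) ≤ T.a (v ⟨i, hi⟩) (v ⟨i + 1, hi'⟩) ∧ 1 * T.w (v ⟨i + 1, hi'⟩) ≤ T.a (v ⟨i, hi⟩) (v ⟨i + 1, hi'⟩) := by
    intro i hi hi' h1 h2
    exact edge T (v.injective.ne (hne _ _ _ _ (by omega))) (hch i hi hi' h1 h2)
  have hL : ∀ (i : ℕ) (hi : i < k) (hi' : i - 1 < k), p + 1 ≤ i → i ≤ q →
      1 * T.w (v ⟨i, hi⟩) ≤ T.a (v ⟨i, hi⟩) (v ⟨i - 1, hi'⟩) := by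
    intro i hi hi' h1 h2
    obtain ⟨j, rfl⟩ : ∃ j, i = j + 1 := ⟨i - 1, by omega⟩
    have := (hA j hi' hi (by omega) (by omega)).2
    rw [a_symm T (v ⟨j + 1, hi⟩)]
    exact this
  have hE := edge T (v.injective.ne (hne p q (by omega) hq (by omega))) hcon
  set x : Fin k → ℤ := fun i => if p ≤ i.val ∧ i.val ≤ q then 1 else 0 with hx
  have hx1 : ∀ (i : ℕ) (hi : i < k), (p ≤ i ∧ i ≤ q) → x ⟨i, hi⟩ = 1 := by
    intro i hi h; simp only [hx]; rw [if_pos h]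
  refine no_config_pt T hk v hv x (fun i => ?_) ⟨⟨p, by omega⟩, ?_⟩ (fun i hi => ?_)
  · simp only [hx]; split_ifs <;> norm_num
  · rw [hx1 p (by omega) (by omega)]; norm_num
  · obtain ⟨i, hik⟩ := i
    have hi' : p ≤ i ∧ i ≤ q := by
      by_contra hc
      simp only [hx] at hi
      rw [if_neg hc] at hi
      exact lt_irrefl _ hi
    by_cases c0 : i = p
    · subst c0
      refine good2 T ⟨i + 1, by omega⟩ ⟨q, hq⟩ 1 1 (hne _ _ _ _ (by omega)) (hne _ _ _ _ (by omega)) (hne _ _ _ _ (by omega))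
        (hA i (by omega) (by omega) (by omega) (by omega)).1 hE.1 ?_
      rw [hx1 i (by omega) (by omega), hx1 (i + 1) (by omega) (by omega), hx1 q (by omega) (by omega)]; norm_num
    by_cases c1 : i = q
    · subst c1
      refine good2 T ⟨i - 1, by omega⟩ ⟨p, by omega⟩ 1 1 (hne _ _ _ _ (by omega)) (hne _ _ _ _ (by omega)) (hne _ _ _ _ (by omega))
        (hL i (by omega) (by omega) (by omega) (by omega)) (by rw [a_symm T]; exact hE.2) ?_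
      rw [hx1 i (by omega) (by omega), hx1 (i - 1) (by omega) (by omega), hx1 p (by omega) (by omega)]; norm_num
    · refine good2 T ⟨i - 1, by omega⟩ ⟨i + 1, by omega⟩ 1 1 (hne _ _ _ _ (by omega)) (hne _ _ _ _ (by omega)) (hne _ _ _ _ (by omega))
        (hL i (by omega) (by omega) (by omega) (by omega)) (hA i (by omega) (by omega) (by omega) (by omega)).1 ?_
      rw [hx1 i (by omega) (by omega), hx1 (i + 1) (by omega) (by omega), hx1 (i - 1) (by omega) (by omega)]; norm_num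

/-- A chain cannot have double edges at both ends. -/
theorem chain_ends (hk : k < n) (v : Fin k ↪ Fin n) (hv : ∀ j, T.IsMinusTwo (v j)) (hk3 : 3 ≤ k)
    (hch : ∀ (i : ℕ) (hi : i < k) (hi' : i + 1 < k), T.a (v ⟨i, hi⟩) (v ⟨i + 1, hi'⟩) ≠ 0)
    (h0 : 2 * T.w (v ⟨0, by omega⟩) ≤ T.a (v ⟨0, by omega⟩) (v ⟨1, by omega⟩) ∨
      2 * T.w (v ⟨1, by omega⟩) ≤ T.a (v ⟨0, by omega⟩) (v ⟨1, by omega⟩))
    (h1 : 2 * T.w (v ⟨k - 2, by omega⟩) ≤ T.a (v ⟨k - 2, by omega⟩) (v ⟨k - 1, by omega⟩) ∨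
      2 * T.w (v ⟨k - 1, by omega⟩) ≤ T.a (v ⟨k - 2, by omega⟩) (v ⟨k - 1, by omega⟩)) : False := by
  have hne : ∀ (p q : ℕ) (hp : p < k) (hq : q < k), p ≠ q → (⟨p, hp⟩ : Fin k) ≠ ⟨q, hq⟩ := by
    intro p q hp hq h; simpa [Fin.ext_iff] using h
  have hA : ∀ (i : ℕ) (hi : i < k) (hi' : i + 1 < k),
      1 * T.w (v ⟨i, hi⟩) ≤ T.a (v ⟨i, hi⟩) (v ⟨i + 1, hi'⟩) ∧ 1 * T.w (v ⟨i + 1, hi'⟩) ≤ T.a (v ⟨i, hi⟩) (v ⟨i + 1, hi'⟩) := by
    intro i hi hi'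
    exact edge T (v.injective.ne (hne _ _ _ _ (by omega))) (hch i hi hi')
  have hL : ∀ (i : ℕ) (hi : i < k) (hi' : i - 1 < k), 1 ≤ i →
      1 * T.w (v ⟨i, hi⟩) ≤ T.a (v ⟨i, hi⟩) (v ⟨i - 1, hi'⟩) := by
    intro i hi hi' h1
    obtain ⟨j, rfl⟩ : ∃ j, i = j + 1 := ⟨i - 1, by omega⟩
    have := (hA j hi' hi).2
    rw [a_symm T (v ⟨j + 1, hi⟩)]
    exact this
  -- coefficients at the ends
  obtain ⟨α, α', hα, hα', hαα⟩ : ∃ α α' : ℤ, α * T.w (v ⟨0, by omega⟩) ≤ T.a (v ⟨0, by omega⟩) (v ⟨1, by omega⟩) ∧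
      α' * T.w (v ⟨1, by omega⟩) ≤ T.a (v ⟨0, by omega⟩) (v ⟨1, by omega⟩) ∧ ((α = 2 ∧ α' = 1) ∨ (α = 1 ∧ α' = 2)) := by
    rcases h0 with h | h
    · exact ⟨2, 1, h, (hA 0 (by omega) (by omega)).2, Or.inl ⟨rfl, rfl⟩⟩
    · exact ⟨1, 2, (hA 0 (by omega) (by omega)).1, h, Or.inr ⟨rfl, rfl⟩⟩
  have hlast := hA (k - 2) (by omega) (by omega)
  have hkk : k - 2 + 1 = k - 1 := by omega
  simp only [hkk] at hlast
  obtain ⟨β, β', hβ, hβ', hββ⟩ : ∃ β β' : ℤ, β * T.w (v ⟨k - 2, by omega⟩) ≤ T.a (v ⟨k - 2, by omega⟩) (v ⟨k - 1, by omega⟩) ∧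
      β' * T.w (v ⟨k - 1, by omega⟩) ≤ T.a (v ⟨k - 2, by omega⟩) (v ⟨k - 1, by omega⟩) ∧ ((β = 2 ∧ β' = 1) ∨ (β = 1 ∧ β' = 2)) := by
    rcases h1 with h | h
    · exact ⟨2, 1, h, hlast.2, Or.inl ⟨rfl, rfl⟩⟩
    · exact ⟨1, 2, hlast.1, h, Or.inr ⟨rfl, rfl⟩⟩
  set x : Fin k → ℤ := fun i => if i.val = 0 then α else if i.val = k - 1 then β' else 2 with hx
  have hx0 : x ⟨0, by omega⟩ = α := by simp [hx]
  have hxl : x ⟨k - 1, by omega⟩ = β' := by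
    show (if k - 1 = 0 then α else if k - 1 = k - 1 then β' else 2) = β'
    rw [if_neg (by omega), if_pos rfl]
  have hx1 : ∀ (i : ℕ) (hi : i < k), i ≠ 0 → i ≠ k - 1 → x ⟨i, hi⟩ = 2 := by
    intro i hi h h'; simp only [hx]; rw [if_neg h, if_neg h']
  have hpos : 1 ≤ α ∧ 1 ≤ β' := by omega
  refine no_config_pt T hk v hv x (fun i => ?_) ⟨⟨0, by omega⟩, ?_⟩ (fun i hi => ?_)
  · simp only [hx]; split_ifs <;> omega
  · rw [hx0]; omega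
  · obtain ⟨i, hik⟩ := i
    by_cases c0 : i = 0
    · subst c0
      refine good1 T ⟨1, by omega⟩ α (hne _ _ _ _ (by omega)) hα ?_
      rw [hx0, hx1 1 (by omega) (by omega) (by omega)]; omega
    by_cases c1 : i = k - 1
    · subst c1
      refine good1 T ⟨k - 2, by omega⟩ β' (hne _ _ _ _ (by omega)) (by rw [a_symm T]; exact hβ') ?_
      rw [hxl, hx1 (k - 2) (by omega) (by omega) (by omega)]; omega
    by_cases c2 : i = 1
    · subst c2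
      by_cases c3 : 1 = k - 2
      · refine good2 T ⟨0, by omega⟩ ⟨k - 1, by omega⟩ α' β (hne _ _ _ _ (by omega)) (hne _ _ _ _ (by omega)) (hne _ _ _ _ (by omega))
          (by rw [a_symm T]; exact hα') ?_ ?_
        · simp only [← c3] at hβ; exact hβ
        · rw [hx0, hxl, hx1 1 (by omega) (by omega) (by omega)]
          rcases hαα with ⟨rfl, rfl⟩ | ⟨rfl, rfl⟩ <;> rcases hββ with ⟨rfl, rfl⟩ | ⟨rfl, rfl⟩ <;> norm_num
      · refine good2 T ⟨0, by omega⟩ ⟨2, by omega⟩ α' 1 (hne _ _ _ _ (by omega)) (hne _ _ _ _ (by omega)) (hne _ _ _ _ (by omega))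
          (by rw [a_symm T]; exact hα') (hA 1 (by omega) (by omega)).1 ?_
        rw [hx0, hx1 1 (by omega) (by omega) (by omega), hx1 2 (by omega) (by omega) (by omega)]
        rcases hαα with ⟨rfl, rfl⟩ | ⟨rfl, rfl⟩ <;> norm_num
    by_cases c3 : i = k - 2
    · subst c3
      refine good2 T ⟨k - 2 - 1, by omega⟩ ⟨k - 1, by omega⟩ 1 β (hne _ _ _ _ (by omega)) (hne _ _ _ _ (by omega)) (hne _ _ _ _ (by omega))
        (hL (k - 2) (by omega) (by omega) (by omega)) hβ ?_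
      rw [hxl, hx1 (k - 2) (by omega) (by omega) (by omega), hx1 (k - 2 - 1) (by omega) (by omega) (by omega)]
      rcases hββ with ⟨rfl, rfl⟩ | ⟨rfl, rfl⟩ <;> norm_num
    · refine good2 T ⟨i - 1, by omega⟩ ⟨i + 1, by omega⟩ 1 1 (hne _ _ _ _ (by omega)) (hne _ _ _ _ (by omega)) (hne _ _ _ _ (by omega))
        (hL i (by omega) (by omega) (by omega)) (hA i (by omega) (by omega)).1 ?_
      rw [hx1 i (by omega) (by omega) (by omega), hx1 (i + 1) (by omega) (by omega) (by omega), hx1 (i - 1) (by omega) (by omega) (by omega)]; norm_num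

end
end Groth.Agent.H11NT
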