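import Groth.Agent.Lib.Helper11_NumType2
import Groth.Agent.S7316
import Groth.Agent.S7317
set_option autoImplicit false
namespace Groth.Agent.H11NT
open Finset Models

theorem all_minusTwo {n : ℕ} (T : Models.NumericalType n) (hn : 1 < n) (hmin : T.IsMinimal) (hg : T.genus = 1) (i : Fin n) :
    T.IsMinusTwo i := by
  have hnn : ∀ j ∈ (univ : Finset (Fin n)), 0 ≤ T.m j * (2 * T.w j * (T.g j - 1) - T.a j j) := by
    intro j _
    by_contra hcon
    exact hmin j (Groth.Agent.S7316.result T hn j (not_le.mp hcon))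
  have hsum : ∑ j, T.m j * (2 * T.w j * (T.g j - 1) - T.a j j) =
      2 * (∑ j, T.m j * T.w j * (T.g j - 1)) - ∑ j, T.m j * T.a j j := by
    rw [Finset.mul_sum, ← Finset.sum_sub_distrib]
    apply Finset.sum_congr rfl
    intro j _
    ring
  unfold Models.NumericalType.genus at hg
  have h0 := Finset.sum_nonneg hnn
  have hz : ∑ j, T.m j * (2 * T.w j * (T.g j - 1) - T.a j j) = 0 := by
    rw [hsum] at h0 ⊢
    omega
  have := (Finset.sum_eq_zero_iff_of_nonneg hnn).1 hz i (mem_univ i)
  exact Groth.Agent.S7317.result T hn i this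

end Groth.Agent.H11NT
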