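import Mathlib.Topology.Spectral.ConstructibleTopology
import Mathlib.Topology.Spectral.Basic
import Mathlib.Topology.Spectral.Hom
import Mathlib.Topology.Connected.TotallyDisconnected
import Mathlib.Topology.Sober
import Mathlib.Topology.QuasiSeparated
import Mathlib.Topology.Maps.OpenQuotient
import Mathlib.Tactic
set_option autoImplicit false
universe u v
namespace Groth.Agent.H11Spec
open TopologicalSpace Topology Set

section
variable {X : Type u} {Y : Type v} [TopologicalSpace X] [TopologicalSpace Y]

theorem cons_open {s : Set X} (h : IsOpen s) (h' : IsCompact s) : IsOpen[constructibleTopology X] s :=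
  IsCompact.isOpen_constructibleTopology_of_isOpen h' h

theorem cons_closed {s : Set X} (h : IsOpen s) (h' : IsCompact s) : IsClosed[constructibleTopology X] s := by
  rw [← @isOpen_compl_iff _ _ (constructibleTopology X)]
  exact IsCompact.isOpen_constructibleTopology_of_isClosed (by rwa [compl_compl]) (isClosed_compl_iff.2 h)

theorem cons_le [PrespectralSpace X] : constructibleTopology X ≤ (inferInstance : TopologicalSpace X) := by
  intro U hU
  have hU' : IsOpen U := hU
  obtain ⟨S, hS, rfl⟩ := (PrespectralSpace.isTopologicalBasis (X := X)).open_eq_sUnion hU'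
  apply @isOpen_sUnion _ (constructibleTopology X)
  intro t ht
  exact cons_open (hS ht).1 (hS ht).2

theorem cons_open_of_open [PrespectralSpace X] {U : Set X} (h : IsOpen U) : IsOpen[constructibleTopology X] U :=
  cons_le U h

theorem cons_closed_of_closed [PrespectralSpace X] {U : Set X} (h : IsClosed U) : IsClosed[constructibleTopology X] U := by
  rw [← @isOpen_compl_iff _ _ (constructibleTopology X)]
  exact cons_open_of_open h.isOpen_compl

theorem cons_continuous {f : X → Y} (hf : IsSpectralMap f) :
    @Continuous X Y (constructibleTopology X) (constructibleTopology Y) f := by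
  refine continuous_generateFrom_iff.2 ?_
  rintro s (⟨h1, h2⟩ | ⟨h1, h2⟩)
  · exact cons_open (h1.preimage hf.continuous) (hf.isCompact_preimage_of_isOpen h1 h2)
  · have := hf.isCompact_preimage_of_isOpen h1.isOpen_compl h2
    exact IsCompact.isOpen_constructibleTopology_of_isClosed this (h1.preimage hf.continuous)

/-- Compactness, expressed through closed families with the finite intersection property. -/
theorem cons_isCompact_univ [SpectralSpace X] : @IsCompact X (constructibleTopology X) univ := by
  have h : CompactSpace (WithConstructibleTopology X) := inferInstance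
  have hc : @Continuous (WithConstructibleTopology X) X _ (constructibleTopology X) WithTopology.ofTopology :=
    continuous_def.2 (fun s hs => WithConstructibleTopology.isOpen_iff.2 hs)
  have := @IsCompact.image (WithConstructibleTopology X) X _ (constructibleTopology X) univ _ h.isCompact_univ hc
  convert this
  ext x
  simp only [mem_univ, image_univ, mem_range, true_iff]
  exact ⟨WithTopology.toTopology _ x, rfl⟩

theorem cons_compact [SpectralSpace X] : @CompactSpace X (constructibleTopology X) :=
  @CompactSpace.mk X (constructibleTopology X) cons_isCompact_univ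

theorem cons_isCompact [SpectralSpace X] {s : Set X} (hs : IsClosed[constructibleTopology X] s) :
    @IsCompact X (constructibleTopology X) s :=
  @IsClosed.isCompact X (constructibleTopology X) s cons_compact hs

theorem isCompact_of_cons_closed [SpectralSpace X] {s : Set X} (hs : IsClosed[constructibleTopology X] s) : IsCompact s := by
  have h := cons_isCompact hs
  have hc : @Continuous X X (constructibleTopology X) _ id := continuous_id_iff_le.2 cons_le
  have := @IsCompact.image X X (constructibleTopology X) _ s _ h hc
  simpa using this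

/-- A family of compact opens separates points of a `T0` prespectral space. -/
theorem exists_separating [T0Space X] [PrespectralSpace X] {x y : X} (hxy : x ≠ y) :
    ∃ U : Set X, IsOpen U ∧ IsCompact U ∧ ((x ∈ U ∧ y ∉ U) ∨ (y ∈ U ∧ x ∉ U)) := by
  obtain ⟨U, hU, hxU⟩ := exists_isOpen_xor_mem hxy
  rcases hxU with ⟨hx, hy⟩ | ⟨hy, hx⟩
  · obtain ⟨V, ⟨hV1, hV2⟩, hxV, hVU⟩ := (PrespectralSpace.isTopologicalBasis (X := X)).exists_subset_of_mem_open hx hU
    exact ⟨V, hV1, hV2, Or.inl ⟨hxV, fun h => hy (hVU h)⟩⟩
  · obtain ⟨V, ⟨hV1, hV2⟩, hyV, hVU⟩ := (PrespectralSpace.isTopologicalBasis (X := X)).exists_subset_of_mem_open hy hU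
    exact ⟨V, hV1, hV2, Or.inr ⟨hyV, fun h => hx (hVU h)⟩⟩

theorem cons_t2 [SpectralSpace X] : @T2Space X (constructibleTopology X) := by
  refine @T2Space.mk X (constructibleTopology X) ?_
  intro x y hxy
  obtain ⟨U, hU1, hU2, h | h⟩ := exists_separating hxy
  · exact ⟨U, Uᶜ, cons_open hU1 hU2, (@isOpen_compl_iff _ _ (constructibleTopology X)).2 (cons_closed hU1 hU2), h.1, h.2, disjoint_compl_right⟩
  · exact ⟨Uᶜ, U, (@isOpen_compl_iff _ _ (constructibleTopology X)).2 (cons_closed hU1 hU2), cons_open hU1 hU2, h.2, h.1, disjoint_compl_left⟩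

/-- Hochster-style criterion. -/
theorem spectral_criterion {X : Type u} (t' : TopologicalSpace X) [t : TopologicalSpace X] [T0Space X]
    (hc : @IsCompact X t' univ) (B : Set (Set X)) (hB : IsTopologicalBasis B)
    (hopen : ∀ U ∈ B, IsOpen[t'] U) (hclosed : ∀ U ∈ B, IsClosed[t'] U) : SpectralSpace X := by
  have hle : t' ≤ t := by
    intro U hU
    obtain ⟨S, hS, rfl⟩ := hB.open_eq_sUnion hU
    exact @isOpen_sUnion _ t' _ (fun s hs => hopen s (hS hs))
  have hcl : ∀ {s : Set X}, IsClosed[t'] s → @IsCompact X t' s := fun {s} hs =>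
    @IsClosed.isCompact X t' s (@CompactSpace.mk X t' hc) hs
  have hcomp : ∀ {s : Set X}, IsClosed[t'] s → IsCompact s := by
    intro s hs
    have hc' : @Continuous X X t' t id := continuous_id_iff_le.2 hle
    have := @IsCompact.image X X t' t s _ (hcl hs) hc'
    simpa using this
  have hclosed' : ∀ {Z : Set X}, IsClosed Z → IsClosed[t'] Z := by
    intro Z hZ
    rw [← @isOpen_compl_iff _ _ t']
    exact hle _ hZ.isOpen_compl
  haveI : CompactSpace X := ⟨hcomp (@isClosed_univ X t')⟩
  haveI : PrespectralSpace X := PrespectralSpace.of_isTopologicalBasis hB (fun U hU => hcomp (hclosed U hU))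
  -- compact opens are t'-closed
  have hco : ∀ U : Set X, IsOpen U → IsCompact U → IsClosed[t'] U := by
    intro U hU hUc
    obtain ⟨S, hS, rfl⟩ := hB.open_eq_sUnion hU
    obtain ⟨T, hcov⟩ := hUc.elim_finite_subcover (fun s : S => s.1) (fun s => hB.isOpen (hS s.2)) (by rw [sUnion_eq_iUnion])
    have : ⋃₀ S = ⋃ i ∈ T, i.1 := by
      apply Subset.antisymm hcov
      intro x hx
      simp only [mem_iUnion] at hx
      obtain ⟨i, -, hx⟩ := hx
      exact ⟨i.1, i.2, hx⟩
    rw [this]
    exact @isClosed_biUnion_finset X _ t' T _ (fun s _ => hclosed s.1 (hS s.2))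
  haveI : QuasiSeparatedSpace X := ⟨fun U V hU hUc hV hVc =>
    hcomp (@IsClosed.inter X _ _ t' (hco U hU hUc) (hco V hV hVc))⟩
  haveI : QuasiSober X := by
    constructor
    intro Z hZ hZc
    -- family of Z ∩ U, with U basic open meeting Z
    have hfin : ∀ F : Finset {U : Set X // U ∈ B ∧ (Z ∩ U).Nonempty}, (univ ∩ ⋂ U ∈ F, (Z ∩ U.1)).Nonempty := by
      intro F
      have key : ∀ F : Finset {U : Set X // U ∈ B ∧ (Z ∩ U).Nonempty}, (Z ∩ ⋂ U ∈ F, U.1).Nonempty := by
        intro F
        have hF := (isIrreducible_iff_sInter.1 hZ) (F.image (fun U => U.1))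
          (by
            intro u hu
            simp only [Finset.mem_image, Subtype.exists, exists_and_right, exists_eq_right] at hu
            obtain ⟨⟨h1, h2⟩, -⟩ := hu
            exact hB.isOpen h1)
          (by
            intro u hu
            simp only [Finset.mem_image, Subtype.exists, exists_and_right, exists_eq_right] at hu
            obtain ⟨⟨h1, h2⟩, -⟩ := hu
            exact h2)
        obtain ⟨x, hx1, hx2⟩ := hF
        refine ⟨x, hx1, ?_⟩
        simp only [mem_iInter]
        intro U hU
        exact hx2 U.1 (by simpa using ⟨U.2, hU⟩)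
      obtain ⟨x, hx1, hx2⟩ := key F
      refine ⟨x, mem_univ _, ?_⟩
      simp only [mem_iInter] at hx2 ⊢
      exact fun U hU => ⟨hx1, hx2 U hU⟩
    obtain ⟨η, -, hη⟩ := @IsCompact.inter_iInter_nonempty X t' univ _ hc (fun U : {U : Set X // U ∈ B ∧ (Z ∩ U).Nonempty} => Z ∩ U.1)
      (fun U => @IsClosed.inter X _ _ t' (hclosed' hZc) (hclosed U.1 U.2.1)) hfin
    simp only [mem_iInter] at hη
    have hηZ : η ∈ Z := by
      obtain ⟨z, hz⟩ := hZ.nonempty
      obtain ⟨V, hV, hzV, -⟩ := hB.exists_subset_of_mem_open (mem_univ z) isOpen_univ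
      exact (hη ⟨V, hV, ⟨z, hz, hzV⟩⟩).1
    refine ⟨η, ?_⟩
    rw [isGenericPoint_def]
    apply Subset.antisymm
    · exact hZc.closure_subset_iff.2 (singleton_subset_iff.2 hηZ)
    · intro z hz
      rw [hB.mem_closure_iff]
      intro U hU hzU
      exact ⟨η, (hη ⟨U, hU, ⟨z, hz, hzU⟩⟩).2, rfl⟩
  exact {}

theorem prespectral_basis [PrespectralSpace X] : IsTopologicalBasis {U : Set X | IsOpen U ∧ IsCompact U} :=
  PrespectralSpace.isTopologicalBasis

/-- A constructibly closed subset is spectral. -/
theorem spectral_of_cons_closed [SpectralSpace X] (E : Set X) (hE : IsClosed[constructibleTopology X] E) :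
    SpectralSpace E := by
  have hcont : @Continuous E X (TopologicalSpace.induced Subtype.val (constructibleTopology X)) (constructibleTopology X) Subtype.val :=
    continuous_induced_dom
  have hc : @IsCompact E (TopologicalSpace.induced Subtype.val (constructibleTopology X)) univ := by
    have hind : @Topology.IsInducing E X (TopologicalSpace.induced Subtype.val (constructibleTopology X)) (constructibleTopology X) Subtype.val :=
      @Topology.IsInducing.mk E X (TopologicalSpace.induced Subtype.val (constructibleTopology X)) (constructibleTopology X) Subtype.val rfl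
    rw [@Topology.IsInducing.isCompact_iff E X (TopologicalSpace.induced Subtype.val (constructibleTopology X)) (constructibleTopology X) univ Subtype.val hind]
    rw [image_univ, Subtype.range_coe]
    exact cons_isCompact hE
  refine spectral_criterion (TopologicalSpace.induced Subtype.val (constructibleTopology X)) hc
    ((preimage Subtype.val) '' {U : Set X | IsOpen U ∧ IsCompact U}) ?_ ?_ ?_
  · exact prespectral_basis.isInducing Topology.IsInducing.subtypeVal
  · rintro _ ⟨U, ⟨h1, h2⟩, rfl⟩
    exact @IsOpen.preimage E X (TopologicalSpace.induced Subtype.val (constructibleTopology X)) (constructibleTopology X) _ hcont _ (cons_open h1 h2)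
  · rintro _ ⟨U, ⟨h1, h2⟩, rfl⟩
    exact @IsClosed.preimage E X (TopologicalSpace.induced Subtype.val (constructibleTopology X)) (constructibleTopology X) _ hcont _ (cons_closed h1 h2)

/-- Points of the closure of a constructibly closed set are specializations of points of the set. -/
theorem exists_specializes [SpectralSpace X] {E : Set X} (hE : IsClosed[constructibleTopology X] E) {x : X} (hx : x ∈ closure E) :
    ∃ e ∈ E, e ⤳ x := by
  have hdir : ∀ F : Finset {U : Set X // (IsOpen U ∧ IsCompact U) ∧ x ∈ U}, (E ∩ ⋂ U ∈ F, U.1).Nonempty := by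
    intro F
    have hopen : IsOpen (⋂ U ∈ F, U.1) := isOpen_biInter_finset (fun U _ => U.2.1.1)
    have hmem : x ∈ ⋂ U ∈ F, U.1 := by
      simp only [mem_iInter]; exact fun U _ => U.2.2
    rw [inter_comm]
    exact mem_closure_iff.1 hx _ hopen hmem
  obtain ⟨e, heE, he⟩ := @IsCompact.inter_iInter_nonempty X (constructibleTopology X) E _ (cons_isCompact hE)
    (fun U : {U : Set X // (IsOpen U ∧ IsCompact U) ∧ x ∈ U} => U.1) (fun U => cons_closed U.2.1.1 U.2.1.2) hdir
  simp only [mem_iInter] at he
  refine ⟨e, heE, ?_⟩
  rw [specializes_iff_forall_open]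
  intro U hU hxU
  obtain ⟨V, hV, hxV, hVU⟩ := prespectral_basis.exists_subset_of_mem_open hxU hU
  exact hVU (he ⟨V, hV, hxV⟩)

end
end Groth.Agent.H11Spec
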