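import Groth.Agent.Lib.Helper11_Spec
import Mathlib.Topology.Category.TopCat.Limits.Cofiltered
import Mathlib.Topology.Category.TopCat.Limits.Konig
import Mathlib.Topology.Constructible
set_option autoImplicit false
universe u v
namespace Groth.Agent.H11Spec
open TopologicalSpace Topology Set CategoryTheory CategoryTheory.Limits

section gen
variable {X : Type u} [TopologicalSpace X] [SpectralSpace X]

/-- The set of generalizations of a compact set is an intersection of compact opens. -/
theorem generalizations_eq {E : Set X} (hE : IsCompact E) :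
    {x : X | ∃ e ∈ E, x ⤳ e} = ⋂₀ {U : Set X | (IsOpen U ∧ IsCompact U) ∧ E ⊆ U} := by
  ext x
  simp only [mem_setOf_eq, mem_sInter]
  constructor
  · rintro ⟨e, he, hxe⟩ U ⟨⟨hU, -⟩, hEU⟩
    exact hxe.mem_open hU (hEU he)
  · intro h
    by_contra hcon
    push Not at hcon
    have h1 : ∀ e : E, ∃ V : Set X, (IsOpen V ∧ IsCompact V) ∧ e.1 ∈ V ∧ x ∉ V := by
      intro e
      have h2 := hcon e.1 e.2
      rw [specializes_iff_forall_open] at h2
      push Not at h2
      obtain ⟨U, hU, heU, hxU⟩ := h2
      obtain ⟨V, hV, heV, hVU⟩ := prespectral_basis.exists_subset_of_mem_open heU hU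
      exact ⟨V, hV, heV, fun h => hxU (hVU h)⟩
    choose V hV heV hxV using h1
    obtain ⟨T, hT⟩ := hE.elim_finite_subcover V (fun e => (hV e).1) (fun e he => mem_iUnion.2 ⟨⟨e, he⟩, heV ⟨e, he⟩⟩)
    have := h (⋃ i ∈ T, V i) ⟨⟨isOpen_biUnion (fun i _ => (hV i).1), T.isCompact_biUnion (fun i _ => (hV i).2)⟩, hT⟩
    simp only [mem_iUnion] at this
    obtain ⟨i, _, hi⟩ := this
    exact hxV i hi

theorem generalizations_cons_closed {E : Set X} (hE : IsCompact E) :
    IsClosed[constructibleTopology X] {x : X | ∃ e ∈ E, x ⤳ e} := by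
  rw [generalizations_eq hE]
  exact @isClosed_sInter X (constructibleTopology X) _ (fun U hU => cons_closed hU.1.1 hU.1.2)

theorem constructible_cons {E : Set X} (hE : Topology.IsConstructible E) :
    IsOpen[constructibleTopology X] E ∧ IsClosed[constructibleTopology X] E := by
  induction hE using Topology.IsConstructible.empty_union_induction with
  | open_retrocompact U hUo hU =>
    have hc : IsCompact U := by
      have := hU isCompact_univ isOpen_univ
      simpa using this
    exact ⟨cons_open hUo hc, cons_closed hUo hc⟩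
  | union s hs t ht hs' ht' =>
    exact ⟨@IsOpen.union X _ _ (constructibleTopology X) hs'.1 ht'.1, @IsClosed.union X _ _ (constructibleTopology X) hs'.2 ht'.2⟩
  | compl s hs hs' =>
    exact ⟨(@isOpen_compl_iff X s (constructibleTopology X)).2 hs'.2, (@isClosed_compl_iff X (constructibleTopology X) s).2 hs'.1⟩

end gen

section lim
variable {J : Type u} [SmallCategory J] (F : J ⥤ TopCat.{u})
    (c : Cone F) (hc : IsLimit c)

include hc in
theorem lim_ext {x y : c.pt} (h : ∀ j, c.π.app j x = c.π.app j y) : x = y := by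
  exact Concrete.isLimit_ext F hc x y h

include hc in
theorem lim_exists (s : ∀ j, F.obj j) (hs : ∀ {i j : J} (a : i ⟶ j), F.map a (s i) = s j) : ∃ x : c.pt, ∀ j, c.π.app j x = s j := by
  have h := isLimitOfPreserves (forget TopCat) hc
  let e := Types.isLimitEquivSections h
  refine ⟨e.symm ⟨s, fun {i j} a => hs a⟩, fun j => ?_⟩
  exact Types.isLimitEquivSections_symm_apply h ⟨s, fun {i j} a => hs a⟩ j

/-- The pullback of finer compact Hausdorff topologies to the limit is compact. -/
theorem lim_compact (t : ∀ j, TopologicalSpace (F.obj j)) (htc : ∀ j, @CompactSpace (F.obj j) (t j)) (ht2 : ∀ j, @T2Space (F.obj j) (t j))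
    (hm : ∀ {i j : J} (a : i ⟶ j), @Continuous _ _ (t i) (t j) (F.map a)) (hc : IsLimit c) :
    @IsCompact c.pt (⨅ j, (t j).induced (c.π.app j)) univ := by
  let Φ : c.pt → ∀ j, F.obj j := fun x j => c.π.app j x
  have hind : @Topology.IsInducing c.pt (∀ j, F.obj j) (⨅ j, (t j).induced (c.π.app j)) (@Pi.topologicalSpace _ _ t) Φ := by
    refine @Topology.IsInducing.mk c.pt (∀ j, F.obj j) (⨅ j, (t j).induced (c.π.app j)) (@Pi.topologicalSpace _ _ t) Φ ?_
    unfold Pi.topologicalSpace
    rw [induced_iInf]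
    congr 1
    funext j
    rw [induced_compose]
    rfl
  rw [@Topology.IsInducing.isCompact_iff c.pt _ (⨅ j, (t j).induced (c.π.app j)) (@Pi.topologicalSpace _ _ t) univ Φ hind]
  have hrange : Φ '' univ = ⋂ (p : Σ (i j : J), (i ⟶ j)), {s | F.map p.2.2 (s p.1) = s p.2.1} := by
    ext s
    simp only [image_univ, mem_range, mem_iInter, mem_setOf_eq]
    constructor
    · rintro ⟨x, rfl⟩ ⟨i, j, a⟩
      have := congrArg (fun f => f x) (c.w a)
      exact this
    · intro h
      obtain ⟨x, hx⟩ := lim_exists F c hc s (fun {i j} a => h ⟨i, j, a⟩)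
      exact ⟨x, funext hx⟩
  rw [hrange]
  have hcpt : @CompactSpace (∀ j, F.obj j) (@Pi.topologicalSpace _ _ t) := @Pi.compactSpace J (fun j => F.obj j) t htc
  apply @IsClosed.isCompact (∀ j, F.obj j) (@Pi.topologicalSpace _ _ t) _ hcpt
  apply @isClosed_iInter _ _ (@Pi.topologicalSpace _ _ t)
  rintro ⟨i, j, a⟩
  have h1 : @Continuous (∀ j, F.obj j) (F.obj j) (@Pi.topologicalSpace _ _ t) (t j) (fun s => F.map a (s i)) :=
    @Continuous.comp _ _ _ (@Pi.topologicalSpace _ _ t) (t i) (t j) _ _ (hm a) (@continuous_apply J (fun j => F.obj j) t i)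
  have h2 : @Continuous (∀ j, F.obj j) (F.obj j) (@Pi.topologicalSpace _ _ t) (t j) (fun s => s j) :=
    @continuous_apply J (fun j => F.obj j) t j
  exact @isClosed_eq (F.obj j) (∀ j, F.obj j) (t j) (@Pi.topologicalSpace _ _ t) (ht2 j) _ _ h1 h2

theorem lim_le (t : ∀ j, TopologicalSpace (F.obj j)) (htl : ∀ j, t j ≤ (F.obj j).str) (hc : IsLimit c) :
    (⨅ j, (t j).induced (c.π.app j)) ≤ c.pt.str := by
  rw [TopCat.induced_of_isLimit c hc]
  exact iInf_mono (fun j => induced_mono (htl j))

theorem lim_cont (t : ∀ j, TopologicalSpace (F.obj j)) (j : J) :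
    @Continuous _ _ (⨅ j, (t j).induced (c.π.app j)) (t j) (c.π.app j) :=
  continuous_iff_le_induced.2 (iInf_le _ j)

theorem lim_t0 (hF : ∀ j, T0Space (F.obj j)) (hc : IsLimit c) : T0Space c.pt := by
  constructor
  intro x y hxy
  apply lim_ext F c hc
  intro j
  exact (hxy.map (c.π.app j).hom.continuous).eq

section spec
variable (hF : ∀ j, SpectralSpace (F.obj j))
    (hFm : ∀ {i j : J} (a : i ⟶ j), IsSpectralMap (F.map a : F.obj i → F.obj j))
include hF hFm

theorem lim_cons_compact (hc : IsLimit c) :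
    @IsCompact c.pt (⨅ j, (constructibleTopology (F.obj j)).induced (c.π.app j)) univ :=
  lim_compact F c (fun j => constructibleTopology (F.obj j)) (fun j => cons_compact) (fun j => cons_t2)
    (fun a => cons_continuous (hFm a)) hc

theorem lim_closed_compact (hc : IsLimit c) {s : Set c.pt}
    (hs : IsClosed[⨅ j, (constructibleTopology (F.obj j)).induced (c.π.app j)] s) : IsCompact s := by
  have h1 := @IsClosed.isCompact c.pt (⨅ j, (constructibleTopology (F.obj j)).induced (c.π.app j)) s
    (@CompactSpace.mk _ (_) (lim_cons_compact F c hF hFm hc)) hs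
  have hc' : @Continuous c.pt c.pt (⨅ j, (constructibleTopology (F.obj j)).induced (c.π.app j)) c.pt.str id :=
    continuous_id_iff_le.2 (lim_le F c (fun j => constructibleTopology (F.obj j)) (fun j => cons_le) hc)
  have := @IsCompact.image c.pt c.pt (⨅ j, (constructibleTopology (F.obj j)).induced (c.π.app j)) c.pt.str s _ h1 hc'
  simpa using this

theorem lim_basis [IsCofiltered J] (hc : IsLimit c) :
    IsTopologicalBasis {U : Set c.pt | ∃ (j : J) (V : Set (F.obj j)), V ∈ {V : Set (F.obj j) | IsOpen V ∧ IsCompact V} ∧ U = c.π.app j ⁻¹' V} :=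
  TopCat.isTopologicalBasis_cofiltered_limit F c hc (fun j => {V : Set (F.obj j) | IsOpen V ∧ IsCompact V})
    (fun j => prespectral_basis) (fun j => ⟨isOpen_univ, isCompact_univ⟩)
    (fun i U V hU hV => ⟨hU.1.inter hV.1, QuasiSeparatedSpace.inter_isCompact U V hU.1 hU.2 hV.1 hV.2⟩)
    (fun i j f V hV => ⟨hV.1.preimage (hFm f).continuous, (hFm f).isCompact_preimage_of_isOpen hV.1 hV.2⟩)

theorem lim_spectral [IsCofiltered J] (hc : IsLimit c) : SpectralSpace c.pt := by
  haveI : T0Space c.pt := lim_t0 F c (fun j => inferInstance) hc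
  refine spectral_criterion (⨅ j, (constructibleTopology (F.obj j)).induced (c.π.app j)) (lim_cons_compact F c hF hFm hc)
    _ (lim_basis F c hF hFm hc) ?_ ?_
  · rintro _ ⟨j, V, hV, rfl⟩
    exact @IsOpen.preimage _ _ (_) (constructibleTopology (F.obj j)) _ (lim_cont F c (fun j => constructibleTopology (F.obj j)) j) _ (cons_open hV.1 hV.2)
  · rintro _ ⟨j, V, hV, rfl⟩
    exact @IsClosed.preimage _ _ (_) (constructibleTopology (F.obj j)) _ (lim_cont F c (fun j => constructibleTopology (F.obj j)) j) _ (cons_closed hV.1 hV.2)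

theorem lim_proj_spectral (hc : IsLimit c) (j : J) : IsSpectralMap (c.π.app j : c.pt → F.obj j) := by
  refine ⟨(c.π.app j).hom.continuous, ?_⟩
  intro U hU hUc
  exact lim_closed_compact F c hF hFm hc (@IsClosed.preimage _ _ (_) (constructibleTopology (F.obj j)) _ (lim_cont F c (fun j => constructibleTopology (F.obj j)) j) _ (cons_closed hU hUc))

end spec
end lim
end Groth.Agent.H11Spec
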