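import Mathlib
set_option autoImplicit false
universe u
open TensorProduct
namespace Groth.Agent.H11Vnr

theorem vnr_flat (R : Type u) [CommRing R] (hR : ∀ a : R, ∃ x, a * x * a = a) (M : Type u) [AddCommGroup M] [Module R M] :
    Module.Flat R M := by
  rw [Module.Flat.iff_rTensor_injective]
  intro I hI
  have hidem : IsIdempotentElem I := by
    apply le_antisymm Ideal.mul_le_right
    intro a ha
    obtain ⟨x, hx⟩ := hR a
    rw [← hx]
    exact Ideal.mul_mem_mul (I.mul_mem_right x ha) ha
  obtain ⟨e, he, hIe⟩ := (Ideal.isIdempotentElem_iff_of_fg I hI).1 hidem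
  have heI : e ∈ I := by rw [hIe]; exact Ideal.mem_span_singleton_self e
  let g : R →ₗ[R] I := LinearMap.toSpanSingleton R I ⟨e, heI⟩
  have hg : g ∘ₗ I.subtype = LinearMap.id := by
    ext ⟨y, hy⟩
    rw [hIe, Ideal.submodule_span_eq, Ideal.mem_span_singleton'] at hy
    obtain ⟨z, rfl⟩ := hy
    show (z * e) • e = z * e
    rw [smul_eq_mul, mul_assoc, he.eq]
  have h2 : (g.rTensor M) ∘ₗ (I.subtype.rTensor M) = LinearMap.id := by
    rw [← LinearMap.rTensor_comp, hg, LinearMap.rTensor_id]
  exact Function.LeftInverse.injective (fun x => LinearMap.congr_fun h2 x)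


theorem vnr_of_flat (R : Type u) [CommRing R] (h : ∀ (M : Type u) [AddCommGroup M] [Module R M], Module.Flat R M) (a : R) :
    ∃ x, a * x * a = a := by
  have hf := h (R ⧸ Ideal.span {a})
  rw [Module.Flat.iff_rTensor_injective] at hf
  have h1 := hf (I := Ideal.span {a}) ⟨{a}, by simp⟩
  have h2 : ((⟨a, Ideal.mem_span_singleton_self a⟩ : Ideal.span {a}) ⊗ₜ[R] (Ideal.Quotient.mk (Ideal.span {a}) 1)) = 0 := by
    apply h1
    rw [map_zero, LinearMap.rTensor_tmul, Submodule.subtype_apply]
    have : (a : R) ⊗ₜ[R] (Ideal.Quotient.mk (Ideal.span {a}) 1) = (1 : R) ⊗ₜ[R] (a • (Ideal.Quotient.mk (Ideal.span {a}) 1)) := by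
      rw [← TensorProduct.smul_tmul, smul_eq_mul, mul_one]
    rw [this]
    have h0 : a • (Ideal.Quotient.mk (Ideal.span {a}) 1) = (0 : R ⧸ Ideal.span {a}) := by
      rw [← Ideal.Quotient.mk_eq_mk, ← Submodule.Quotient.mk_smul, Ideal.Quotient.mk_eq_mk, Ideal.Quotient.eq_zero_iff_mem]
      simpa using Ideal.mem_span_singleton_self a
    rw [h0, TensorProduct.tmul_zero]
  -- I ⊗ R/I ≅ I / I • I
  have h3 := congrArg (TensorProduct.tensorQuotEquivQuotSMul (Ideal.span {a} : Ideal R) (Ideal.span {a})) h2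
  rw [map_zero] at h3
  rw [TensorProduct.tensorQuotEquivQuotSMul_tmul_mk] at h3
  rw [one_smul] at h3
  rw [Submodule.Quotient.mk_eq_zero] at h3
  have h4 : a ∈ (Ideal.span {a} : Ideal R) * Ideal.span {a} := by
    have := Submodule.mem_map_of_mem (f := (Ideal.span {a} : Ideal R).subtype) h3
    rw [Submodule.map_smul''] at this
    simpa using this
  rw [Ideal.span_singleton_mul_span_singleton, Ideal.mem_span_singleton'] at h4
  obtain ⟨x, hx⟩ := h4
  exact ⟨x, by linear_combination hx⟩


theorem flat_alg (A B C : Type u) [CommRing A] [CommRing B] [CommRing C]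
    [Algebra A B] [Algebra A C] [Algebra B C] [IsScalarTower A B C]
    (h : (Algebra.TensorProduct.lmul' A (S := B)).Flat) [Module.Flat A C] : Module.Flat B C := by
  have h1 : (Algebra.TensorProduct.mapOfCompatibleSMul B A B B C).toRingHom.Flat := h.mapOfCompatibleSMul B C
  have h2 : (Algebra.TensorProduct.includeLeftRingHom : B →+* B ⊗[A] C).Flat :=
    (RingHom.flat_algebraMap_iff (R := B) (S := B ⊗[A] C)).2 inferInstance
  have h3 : (Algebra.TensorProduct.lid B C).toRingHom.Flat := RingHom.Flat.of_bijective (Algebra.TensorProduct.lid B C).bijective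
  have h4 := (h2.comp h1).comp h3
  have : ((Algebra.TensorProduct.lid B C).toRingHom.comp ((Algebra.TensorProduct.mapOfCompatibleSMul B A B B C).toRingHom.comp
    (Algebra.TensorProduct.includeLeftRingHom : B →+* B ⊗[A] C))) = algebraMap B C := by
    ext b
    simp [Algebra.smul_def]
  rw [this] at h4
  exact RingHom.flat_algebraMap_iff.1 h4


theorem surj_flat {R S T : Type u} [CommRing R] [CommRing S] [CommRing T] (f : R →+* S) (g : S →+* T) (hf : Function.Surjective f)
    (h : (g.comp f).Flat) : g.Flat := by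
  algebraize [f, g, g.comp f]
  have hfl : Module.Flat R T := RingHom.flat_algebraMap_iff.1 h
  have hf' : Function.Surjective (algebraMap R S) := hf
  have : Module.Flat S (S ⊗[R] T) := inferInstance
  let e : S ⊗[R] T ≃ₗ[S] T := by
    refine LinearEquiv.ofBijective (LinearMap.liftBaseChange S (LinearMap.id : T →ₗ[R] T)) ⟨?_, fun t => ⟨1 ⊗ₜ t, by simp⟩⟩
    intro x y hxy
    have key : ∀ z : S ⊗[R] T, z = 1 ⊗ₜ (LinearMap.liftBaseChange S (LinearMap.id : T →ₗ[R] T) z) := by
      intro z
      induction z with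
      | zero => simp
      | tmul s t =>
        obtain ⟨r, rfl⟩ := hf' s
        simp only [LinearMap.liftBaseChange_tmul, LinearMap.id_apply, algebraMap_smul]
        rw [TensorProduct.tmul_smul, TensorProduct.smul_tmul', Algebra.smul_def, mul_one]
      | add a b ha hb => rw [map_add, TensorProduct.tmul_add, ← ha, ← hb]
    rw [key x, key y, hxy]
  exact RingHom.flat_algebraMap_iff.2 (Module.Flat.of_linearEquiv e.symm)


theorem vnr_weaklyEtale (A B : Type u) [CommRing A] [CommRing B] [Algebra A B]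
    [Algebra.WeaklyEtale A B] (hA : ∀ a : A, ∃ x, a * x * a = a) (M : Type u) [AddCommGroup M] [Module B M] : Module.Flat B M := by
  letI : Module Bᵐᵒᵖ M := Module.compHom M ((RingHom.id B).fromOpposite mul_comm)
  haveI : IsCentralScalar B M := ⟨fun m n => rfl⟩
  letI : Algebra A (TrivSqZeroExt B M) := ((algebraMap B (TrivSqZeroExt B M)).comp (algebraMap A B)).toAlgebra
  haveI : IsScalarTower A B (TrivSqZeroExt B M) := IsScalarTower.of_algebraMap_eq (fun _ => rfl)
  haveI : Module.Flat A (TrivSqZeroExt B M) := vnr_flat A hA _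
  have : Module.Flat B (TrivSqZeroExt B M) := flat_alg A B (TrivSqZeroExt B M) (Algebra.WeaklyEtale.flat_lmul' A B)
  exact Module.Flat.of_retract (TrivSqZeroExt.inrHom B M) (TrivSqZeroExt.sndHom B M) (by ext; simp)


theorem reduced_aux (A B K : Type u) [CommRing A] [CommRing B] [Algebra A B] [CommRing K] [Algebra A K]
    [Algebra.WeaklyEtale A B] (hφ : Function.Injective (algebraMap A K)) (hK : ∀ a : K, ∃ x, a * x * a = a) : IsReduced B := by
  have hKB : ∀ b : K ⊗[A] B, ∃ x, b * x * b = b :=
    vnr_of_flat (K ⊗[A] B) (fun M _ _ => vnr_weaklyEtale K (K ⊗[A] B) hK M)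
  have hinj : Function.Injective (Algebra.TensorProduct.includeRight : B →ₐ[A] K ⊗[A] B) := by
    exact Algebra.TensorProduct.includeRight_injective (B := B) hφ
  constructor
  intro b hb
  apply hinj
  rw [map_zero]
  obtain ⟨n, hn⟩ := hb
  obtain ⟨x, hx⟩ := hKB (Algebra.TensorProduct.includeRight b)
  set a := (Algebra.TensorProduct.includeRight b : K ⊗[A] B) with ha
  have hpow : ∀ k : ℕ, a = (a * x) ^ k * a := by
    intro k
    induction k with
    | zero => simp
    | succ k ih =>
      calc a = (a * x) ^ k * a := ih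
        _ = (a * x) ^ k * (a * x * a) := by rw [hx]
        _ = (a * x) ^ (k + 1) * a := by ring
  have han : a ^ n = 0 := by rw [ha, ← map_pow, hn, map_zero]
  rw [hpow n, mul_pow, han]; ring


theorem vnr_pi {ι : Type u} (K : ι → Type u) [∀ i, Field (K i)] (a : ∀ i, K i) : ∃ x, a * x * a = a := by
  refine ⟨fun i => (a i)⁻¹, ?_⟩
  ext i
  by_cases h : a i = 0
  · simp [h]
  · simp [h]


end Groth.Agent.H11Vnr
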