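import Mathlib

set_option autoImplicit false
universe u v

namespace Groth.Agent.H14

open AdicCompletion

theorem pure_of_flat {R : Type u} [CommRing R] (I : Ideal R) {K M N : Type u} [AddCommGroup K] [Module R K] [AddCommGroup M] [Module R M] [AddCommGroup N] [Module R N] [Module.Flat R N] (i : K →ₗ[R] M) (g : M →ₗ[R] N) (hi : Function.Injective i) (hg : Function.Surjective g) (hig : Function.Exact i g)
    (k : K) (hk : i k ∈ (I • ⊤ : Submodule R M)) : k ∈ (I • ⊤ : Submodule R K) := by
  have htop : (⊤ : Submodule R M) = Submodule.span R (Set.range (id : M → M)) := by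
    rw [Set.range_id, Submodule.span_univ]
  rw [htop, Submodule.mem_ideal_smul_span_iff_exists_sum] at hk
  obtain ⟨a, haI, ha⟩ := hk
  have h1 : ∑ j : a.support, a j • g j = 0 := by
    have h2 : g (i k) = 0 := (hig _).2 ⟨k, rfl⟩
    rw [← ha, Finsupp.sum, map_sum] at h2
    rw [Finset.sum_coe_sort a.support (fun j => a j • g j)]
    simpa using h2
  obtain ⟨l, b, y, hy, hb⟩ := Module.Flat.isTrivialRelation_of_sum_smul_eq_zero h1
  choose y' hy' using fun j => hg (y j)
  have h3 : ∀ j : a.support, ∃ kj : K, i kj = (j : M) - ∑ t, b j t • y' t := by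
    intro j
    have : g ((j : M) - ∑ t, b j t • y' t) = 0 := by
      have hyj : g (j : M) = ∑ t, b j t • y t := hy j
      rw [map_sub, map_sum, hyj, sub_eq_zero]
      refine Finset.sum_congr rfl fun t _ => ?_
      rw [map_smul, hy']
    exact (hig _).1 this
  choose kk hkk using h3
  have h4 : k = ∑ j : a.support, a j • kk j := by
    apply hi
    rw [map_sum, ← ha, Finsupp.sum, ← Finset.sum_coe_sort a.support]
    have h5 : ∑ j : a.support, a (j : M) • (∑ t, b j t • y' t) = 0 := by
      simp_rw [Finset.smul_sum]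
      rw [Finset.sum_comm]
      refine Finset.sum_eq_zero fun t _ => ?_
      simp_rw [smul_smul]
      rw [← Finset.sum_smul, hb t, zero_smul]
    simp_rw [map_smul, hkk, smul_sub]
    rw [Finset.sum_sub_distrib, h5, sub_zero]
    rfl
  rw [h4]
  exact Submodule.sum_mem _ fun j _ => Submodule.smul_mem_smul (haI _) trivial

theorem map_injective_of {R : Type u} [CommRing R] (I : Ideal R) {K M : Type u} [AddCommGroup K] [Module R K] [AddCommGroup M] [Module R M] (i : K →ₗ[R] M) (c : ℕ)
    (hp : ∀ n, ∀ k : K, i k ∈ (I ^ (n + c) • ⊤ : Submodule R M) → k ∈ (I ^ n • ⊤ : Submodule R K)) :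
    Function.Injective (AdicCompletion.map I i) := by
  rw [injective_iff_map_eq_zero]
  intro x hx
  obtain ⟨a, rfl⟩ := mk_surjective I K x
  rw [map_mk] at hx
  ext n
  rw [mk_apply_coe, val_zero]
  have h1 : (AdicCompletion.mk I M (AdicCauchySequence.map I i a)).val (n + c) = 0 := by rw [hx]; rfl
  rw [mk_apply_coe, Submodule.mkQ_apply, Submodule.Quotient.mk_eq_zero] at h1
  have h2 : a (n + c) ∈ (I ^ n • ⊤ : Submodule R K) := hp n _ h1
  have h3 : a n ≡ a (n + c) [SMOD (I ^ n • ⊤ : Submodule R K)] := a.2 (Nat.le_add_right n c)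
  rw [Submodule.mkQ_apply]
  show (Submodule.Quotient.mk (a n) : K ⧸ (I ^ n • ⊤ : Submodule R K)) = 0
  rw [SModEq.def] at h3
  rw [h3]
  exact (Submodule.Quotient.mk_eq_zero _).2 h2

theorem map_exact_of {R : Type u} [CommRing R] (I : Ideal R) {K M N : Type u} [AddCommGroup K] [Module R K] [AddCommGroup M] [Module R M] [AddCommGroup N] [Module R N] (i : K →ₗ[R] M) (g : M →ₗ[R] N) (hg : Function.Surjective g) (hig : Function.Exact i g) (c : ℕ)
    (hp : ∀ n, ∀ k : K, i k ∈ (I ^ (n + c) • ⊤ : Submodule R M) → k ∈ (I ^ n • ⊤ : Submodule R K)) :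
    Function.Exact (AdicCompletion.map I i) (AdicCompletion.map I g) := by
  have hgi : g ∘ₗ i = 0 := by
    ext x
    exact (hig _).2 ⟨x, rfl⟩
  intro y
  constructor
  · intro hy
    obtain ⟨b, rfl⟩ := mk_surjective I M y
    rw [map_mk] at hy
    have h1 : ∀ n, ∃ k : K, b n - i k ∈ (I ^ n • ⊤ : Submodule R M) := by
      intro n
      have h2 : (AdicCompletion.mk I N (AdicCauchySequence.map I g b)).val n = 0 := by rw [hy]; rfl
      rw [mk_apply_coe, Submodule.mkQ_apply, Submodule.Quotient.mk_eq_zero] at h2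
      have h3 : (I ^ n • ⊤ : Submodule R N) = (I ^ n • ⊤ : Submodule R M).map g := by
        rw [Submodule.map_smul'', Submodule.map_top, LinearMap.range_eq_top.2 hg]
      rw [h3] at h2
      obtain ⟨m, hm, hgm⟩ := h2
      have h4 : g (b n - m) = 0 := by
        rw [map_sub, hgm]
        exact sub_self _
      obtain ⟨k, hk⟩ := (hig _).1 h4
      exact ⟨k, by rw [hk]; simpa using hm⟩
    choose k hk using h1
    let a : AdicCauchySequence I K := AdicCauchySequence.mk I K (fun n => k (n + c)) (by
      intro n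
      rw [SModEq.sub_mem]
      apply hp
      rw [map_sub]
      have h5 : b (n + c) - b (n + c + 1) ∈ (I ^ (n + c) • ⊤ : Submodule R M) :=
        SModEq.sub_mem.1 (b.2 (Nat.le_succ _))
      have h6 := hk (n + c)
      have h7 : b (n + c + 1) - i (k (n + c + 1)) ∈ (I ^ (n + c) • ⊤ : Submodule R M) :=
        Submodule.smul_mono_left (Ideal.pow_le_pow_right (Nat.le_succ _)) (hk (n + c + 1))
      have h8 := Submodule.add_mem _ (Submodule.sub_mem _ h5 h6) h7
      have h9 : b (n + c) - b (n + c + 1) - (b (n + c) - i (k (n + c))) + (b (n + c + 1) - i (k (n + c + 1))) = i (k (n + c)) - i (k (n + c + 1)) := by abel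
      rw [h9] at h8
      rw [show n + 1 + c = n + c + 1 by ring]
      exact h8)
    refine ⟨AdicCompletion.mk I K a, ?_⟩
    rw [map_mk]
    ext n
    rw [mk_apply_coe, mk_apply_coe, Submodule.mkQ_apply, Submodule.mkQ_apply]
    show (Submodule.Quotient.mk (i (k (n + c))) : M ⧸ (I ^ n • ⊤ : Submodule R M)) = Submodule.Quotient.mk (b n)
    rw [Submodule.Quotient.eq]
    have h5 : b n - b (n + c) ∈ (I ^ n • ⊤ : Submodule R M) :=
        SModEq.sub_mem.1 (b.2 (Nat.le_add_right n c))
    have h6 : b (n + c) - i (k (n + c)) ∈ (I ^ n • ⊤ : Submodule R M) :=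
        Submodule.smul_mono_left (Ideal.pow_le_pow_right (Nat.le_add_right n c)) (hk (n + c))
    have h7 := Submodule.neg_mem _ (Submodule.add_mem _ h5 h6)
    have h8 : -(b n - b (n + c) + (b (n + c) - i (k (n + c)))) = i (k (n + c)) - b n := by abel
    rwa [h8] at h7
  · rintro ⟨x, rfl⟩
    rw [map_comp_apply, hgi, AdicCompletion.map_zero]
    rfl

end Groth.Agent.H14
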