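import Mathlib
import Groth.Prelude.Def_Found

set_option autoImplicit false
universe u v

namespace Groth.Agent.H14

theorem catenary_of_embedding {A B : Type u} [CommRing A] [CommRing B] (e : PrimeSpectrum B → PrimeSpectrum A)
    (he : ∀ x y, e x ≤ e y ↔ x ≤ y) (hconv : ∀ x y z, e x ≤ z → z ≤ e y → ∃ w, e w = z)
    (hA : CAlg.IsCatenary A) : CAlg.IsCatenary B := by
  have hlt : StrictMono e := by
    intro x y hxy
    exact lt_iff_le_not_ge.2 ⟨(he x y).2 hxy.le, fun h => hxy.not_ge ((he y x).1 h)⟩
  have hlt' : ∀ x y, e x < e y ↔ x < y := by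
    intro x y
    rw [lt_iff_le_not_ge, lt_iff_le_not_ge, he, he]
  have hcov : ∀ x y, x ⋖ y → e x ⋖ e y := by
    rintro x y ⟨h1, h2⟩
    refine ⟨hlt h1, fun z hz1 hz2 => ?_⟩
    obtain ⟨w, rfl⟩ := hconv x y z hz1.le hz2.le
    exact h2 ((hlt' _ _).1 hz1) ((hlt' _ _).1 hz2)
  constructor
  · intro p q hpq
    obtain ⟨n, hn⟩ := hA.1 (e p) (e q) ((he _ _).2 hpq)
    refine ⟨n, fun s hs1 hs2 => ?_⟩
    have := hn (s.map e hlt) (by rw [← hs1]; rfl) (by rw [← hs2]; rfl)
    exact this
  · intro s t h1 h2 hs ht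
    have := hA.2 (s.map e hlt) (t.map e hlt) (congrArg e h1) (congrArg e h2) (fun i => hcov _ _ (hs i)) (fun i => hcov _ _ (ht i))
    exact this

theorem catenary_quotient {A : Type u} [CommRing A] (I : Ideal A) (hA : CAlg.IsCatenary A) : CAlg.IsCatenary (A ⧸ I) := by
  apply catenary_of_embedding (PrimeSpectrum.comap (Ideal.Quotient.mk I)) _ _ hA
  · intro x y
    constructor
    · intro h z hz
      obtain ⟨z, rfl⟩ := Ideal.Quotient.mk_surjective z
      exact h (show z ∈ (PrimeSpectrum.comap (Ideal.Quotient.mk I) x).asIdeal from hz)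
    · intro h z hz
      exact h hz
  · intro x y z h1 h2
    have h3 : z ∈ Set.range (PrimeSpectrum.comap (Ideal.Quotient.mk I)) := by
      rw [_root_.range_comap_of_surjective _ _ Ideal.Quotient.mk_surjective, Ideal.mk_ker]
      intro a ha
      apply h1
      show Ideal.Quotient.mk I a ∈ x.asIdeal
      rw [Ideal.Quotient.eq_zero_iff_mem.2 ha]
      exact x.asIdeal.zero_mem
    exact h3

theorem catenary_localization (A : Type u) [CommRing A] (S : Submonoid A)
    (B : Type u) [CommRing B] [Algebra A B] [IsLocalization S B]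
    (hA : CAlg.IsCatenary A) : CAlg.IsCatenary B := by
  apply catenary_of_embedding (PrimeSpectrum.comap (algebraMap A B)) _ _ hA
  · intro x y
    constructor
    · intro h
      have h1 : (x.asIdeal.comap (algebraMap A B)).map (algebraMap A B) ≤ (y.asIdeal.comap (algebraMap A B)).map (algebraMap A B) := Ideal.map_mono h
      rw [IsLocalization.map_comap S B, IsLocalization.map_comap S B] at h1
      exact h1
    · intro h z hz
      exact h hz
  · intro x y z h1 h2
    have hd : Disjoint (S : Set A) (z.asIdeal : Set A) := by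
      rw [Set.disjoint_left]
      intro s hs hsz
      have h3 : algebraMap A B s ∈ y.asIdeal := h2 hsz
      exact y.2.ne_top (Ideal.eq_top_of_isUnit_mem _ h3 (IsLocalization.map_units B ⟨s, hs⟩))
    have hp := IsLocalization.isPrime_of_isPrime_disjoint S B z.asIdeal z.2 hd
    refine ⟨⟨_, hp⟩, PrimeSpectrum.ext ?_⟩
    exact IsLocalization.comap_map_of_isPrime_disjoint S B z.2 hd

end Groth.Agent.H14
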