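import Mathlib
import Groth.Prelude.Def_FlatCA

set_option autoImplicit false
universe u v

namespace Groth.Agent.H14

theorem exists_notMem_pow {R : Type u} [CommRing R] {I p : Ideal R} (h : p ∈ I.minimalPrimes)
    {x : R} (hx : x ∈ p) : ∃ s, s ∉ p ∧ ∃ n : ℕ, s * x ^ n ∈ I := by
  by_contra hcon
  push_neg at hcon
  have hp : p.IsPrime := h.1.1
  have hdisj : Disjoint (I : Set R) ((p.primeCompl ⊔ Submonoid.powers x : Submonoid R) : Set R) := by
    rw [Set.disjoint_left]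
    rintro a ha hb
    obtain ⟨s, hs, y, hy, rfl⟩ := Submonoid.mem_sup.1 hb
    obtain ⟨n, rfl⟩ := Submonoid.mem_powers_iff _ _ |>.1 hy
    exact hcon s hs n ha
  obtain ⟨q, hq, hIq, hqd⟩ := Ideal.exists_le_prime_disjoint I _ hdisj
  rw [Set.disjoint_left] at hqd
  have hqp : q ≤ p := by
    intro a ha
    by_contra hap
    exact hqd ha (Submonoid.mem_sup_left (show a ∈ p.primeCompl from hap))
  have := h.2 ⟨hq, hIq⟩ hqp
  exact hqd (this hx) (Submonoid.mem_sup_right (Submonoid.mem_powers x))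

theorem mem_ann {R : Type u} [CommRing R] {M : Type v} [AddCommGroup M] [Module R M] {m : M} {r : R} :
    r ∈ (Submodule.span R {m}).annihilator ↔ r • m = 0 :=
  Submodule.mem_annihilator_span_singleton m r

theorem mem_minimalPrimes_ann_iff {R : Type u} [CommRing R] {M : Type v} [AddCommGroup M] [Module R M]
    {p : Ideal R} {m : M} : p ∈ (Submodule.span R {m}).annihilator.minimalPrimes ↔
    p.IsPrime ∧ (∀ a : R, a • m = 0 → a ∈ p) ∧ ∀ a ∈ p, ∃ s, s ∉ p ∧ ∃ n : ℕ, (s * a ^ n) • m = 0 := by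
  constructor
  · intro h
    refine ⟨h.1.1, fun a ha => h.1.2 (mem_ann.2 ha), fun a ha => ?_⟩
    obtain ⟨s, hs, n, hn⟩ := exists_notMem_pow h ha
    exact ⟨s, hs, n, mem_ann.1 hn⟩
  · rintro ⟨hp, h1, h2⟩
    refine ⟨⟨hp, fun a ha => h1 a (mem_ann.1 ha)⟩, ?_⟩
    rintro q ⟨hq, hIq⟩ hqp a ha
    obtain ⟨s, hs, n, hn⟩ := h2 a ha
    have := hIq (mem_ann.2 hn)
    rcases hq.mem_or_mem this with h | h
    · exact absurd (hqp h) hs
    · exact hq.mem_of_pow_mem _ h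

theorem mem_weakAss_iff {R : Type u} [CommRing R] {M : Type v} [AddCommGroup M] [Module R M]
    {p : Ideal R} : p ∈ FlatCA.weakAss R M ↔
    p.IsPrime ∧ ∃ m : M, (∀ a : R, a • m = 0 → a ∈ p) ∧
      ∀ a ∈ p, ∃ s, s ∉ p ∧ ∃ n : ℕ, (s * a ^ n) • m = 0 := by
  constructor
  · rintro ⟨m, hm⟩
    obtain ⟨h1, h2⟩ := mem_minimalPrimes_ann_iff.1 hm
    exact ⟨h1, m, h2⟩
  · rintro ⟨hp, m, h2⟩
    exact ⟨m, mem_minimalPrimes_ann_iff.2 ⟨hp, h2⟩⟩

theorem mem_ass_iff {R : Type u} [CommRing R] {M : Type v} [AddCommGroup M] [Module R M]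
    {p : Ideal R} : p ∈ FlatCA.ass R M ↔
    p.IsPrime ∧ ∃ m : M, ∀ a : R, a ∈ p ↔ a • m = 0 := by
  constructor
  · rintro ⟨hp, m, hm⟩
    exact ⟨hp, m, fun a => by rw [hm, mem_ann]⟩
  · rintro ⟨hp, m, h2⟩
    exact ⟨hp, m, by ext a; rw [h2, mem_ann]⟩

theorem mk_eq_zero_iff {R : Type u} [CommRing R] {S : Submonoid R} {M : Type v} [AddCommGroup M]
    [Module R M] {m : M} {s : S} : LocalizedModule.mk m s = 0 ↔ ∃ u : S, u • m = 0 := by
  rw [← LocalizedModule.zero_mk (1 : S), LocalizedModule.mk_eq]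
  constructor
  · rintro ⟨u, hu⟩
    exact ⟨u, by simpa using hu⟩
  · rintro ⟨u, hu⟩
    exact ⟨u, by simpa using hu⟩

end Groth.Agent.H14
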