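import Mathlib
import Groth.Prelude.Def_FlatCA
import Groth.Agent.Lib.Helper14_WeakAss

set_option autoImplicit false
universe u v

namespace Groth.Agent.H14
open TensorProduct

section
variable {R S : Type u} [CommRing R] [CommRing S] [Algebra R S] (N : Type u) [AddCommGroup N] [Module S N] [Module R N] [IsScalarTower R S N]
    (p : Ideal R) [p.IsPrime]

theorem isLoc_aux : IsLocalizedModule p.primeCompl (IsScalarTower.toAlgHom R (R ⧸ p) p.ResidueField).toLinearMap := by
  rw [isLocalizedModule_iff_isLocalization]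
  have h : Algebra.algebraMapSubmonoid (R ⧸ p) p.primeCompl = nonZeroDivisors (R ⧸ p) := by
    ext x
    rw [mem_nonZeroDivisors_iff_ne_zero]
    constructor
    · rintro ⟨r, hr, rfl⟩ h0
      exact hr (Ideal.Quotient.eq_zero_iff_mem.1 h0)
    · intro hx
      obtain ⟨r, rfl⟩ := Ideal.Quotient.mk_surjective x
      exact ⟨r, fun h => hx (Ideal.Quotient.eq_zero_iff_mem.2 h), rfl⟩
  rw [h]
  infer_instance

attribute [local instance] Algebra.TensorProduct.rightAlgebra in
theorem exists_equiv : ∃ E : FlatCA.fiberMod p S N ≃ₗ[S] N ⊗[R] p.ResidueField, ∀ n, E (FlatCA.toFiberMod p S N n) = n ⊗ₜ 1 := by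
  let e1 : (p.Fiber S) ⊗[S] N ≃ₗ[S] (S ⊗[R] p.ResidueField) ⊗[S] N :=
    TensorProduct.congr (Algebra.TensorProduct.commRight R S p.ResidueField).symm.toLinearEquiv (LinearEquiv.refl S N)
  let e2 : (S ⊗[R] p.ResidueField) ⊗[S] N ≃ₗ[S] N ⊗[S] (S ⊗[R] p.ResidueField) := TensorProduct.comm S _ _
  let e3 : N ⊗[S] (S ⊗[R] p.ResidueField) ≃ₗ[S] N ⊗[R] p.ResidueField := TensorProduct.AlgebraTensorModule.cancelBaseChange R S S N p.ResidueField
  refine ⟨(e1.trans e2).trans e3, fun n => ?_⟩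
  show e3 (e2 (e1 ((1 : p.Fiber S) ⊗ₜ[S] n))) = _
  have h1 : e1 ((1 : p.Fiber S) ⊗ₜ[S] n) = (1 : S ⊗[R] p.ResidueField) ⊗ₜ[S] n := by
    show (Algebra.TensorProduct.commRight R S p.ResidueField).symm 1 ⊗ₜ[S] n = _
    rw [map_one]
  rw [h1]
  show e3 (n ⊗ₜ[S] (1 : S ⊗[R] p.ResidueField)) = _
  rw [Algebra.TensorProduct.one_def]
  simp [e3]

theorem tmul_one_eq_zero_iff (n : N) : (n ⊗ₜ[R] (1 : R ⧸ p) = 0 ↔ n ∈ ((p.map (algebraMap R S)) • (⊤ : Submodule S N))) := by
  have h1 : n ∈ ((p.map (algebraMap R S)) • (⊤ : Submodule S N)) ↔ n ∈ (p • (⊤ : Submodule R N)) := by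
    rw [← Submodule.restrictScalars_mem R, Ideal.smul_restrictScalars, Submodule.restrictScalars_top]
  rw [h1, ← (TensorProduct.tensorQuotEquivQuotSMul N p).map_eq_zero_iff]
  have h2 : TensorProduct.tensorQuotEquivQuotSMul N p (n ⊗ₜ[R] (1 : R ⧸ p)) = Submodule.Quotient.mk n := by
    have := TensorProduct.tensorQuotEquivQuotSMul_tmul_mk p n 1
    rw [one_smul] at this
    exact this
  rw [h2, Submodule.Quotient.mk_eq_zero]

theorem flat_fact [Module.Flat R N] (r : R) (hr : r ∉ p) (n : N)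
    (h : algebraMap R S r • n ∈ ((p.map (algebraMap R S)) • (⊤ : Submodule S N))) :
    n ∈ ((p.map (algebraMap R S)) • (⊤ : Submodule S N)) := by
  rw [← tmul_one_eq_zero_iff] at h ⊢
  have hinj : Function.Injective (LinearMap.lsmul R (R ⧸ p) r) := by
    rw [injective_iff_map_eq_zero]
    intro x hx
    obtain ⟨x, rfl⟩ := Ideal.Quotient.mk_surjective x
    have h1 : Ideal.Quotient.mk p (r * x) = 0 := by rw [map_mul]; exact hx
    rw [Ideal.Quotient.eq_zero_iff_mem] at h1 ⊢
    exact ((inferInstance : p.IsPrime).mem_or_mem h1).resolve_left hr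
  have h2 := Module.Flat.lTensor_preserves_injective_linearMap (M := N) (LinearMap.lsmul R (R ⧸ p) r) hinj
  apply h2
  rw [map_zero, LinearMap.lTensor_tmul]
  show n ⊗ₜ[R] (r • (1 : R ⧸ p)) = 0
  rw [← TensorProduct.smul_tmul, ← algebraMap_smul S r n]
  exact h

theorem mem_ass_quot_iff (q : Ideal S) : q ∈ FlatCA.ass S (N ⧸ (p.map (algebraMap R S)) • (⊤ : Submodule S N)) ↔
    q.IsPrime ∧ ∃ n : N, ∀ a : S, a ∈ q ↔ a • n ∈ ((p.map (algebraMap R S)) • (⊤ : Submodule S N)) := by
  rw [mem_ass_iff]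
  refine and_congr_right fun _ => ?_
  constructor
  · rintro ⟨y, hy⟩
    obtain ⟨n, rfl⟩ := Submodule.Quotient.mk_surjective _ y
    exact ⟨n, fun a => by rw [hy, ← Submodule.Quotient.mk_smul, Submodule.Quotient.mk_eq_zero]⟩
  · rintro ⟨n, hn⟩
    exact ⟨Submodule.Quotient.mk n, fun a => by rw [hn, ← Submodule.Quotient.mk_smul, Submodule.Quotient.mk_eq_zero]⟩

theorem fiberMod_facts :
    (∀ n : N, FlatCA.toFiberMod p S N n = 0 ↔ ∃ r, r ∉ p ∧ algebraMap R S r • n ∈ ((p.map (algebraMap R S)) • (⊤ : Submodule S N))) ∧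
    (∀ x : FlatCA.fiberMod p S N, ∃ r, r ∉ p ∧ ∃ n : N, algebraMap R S r • x = FlatCA.toFiberMod p S N n) ∧
    (∀ r, r ∉ p → ∀ x : FlatCA.fiberMod p S N, algebraMap R S r • x = 0 → x = 0) := by
  obtain ⟨E, hE⟩ := exists_equiv (S := S) N p
  have hloc := isLoc_aux p
  let F := LinearMap.lTensor N (IsScalarTower.toAlgHom R (R ⧸ p) p.ResidueField).toLinearMap
  have hF : IsLocalizedModule p.primeCompl F := by
    have h0 : IsLocalizedModule p.primeCompl (LinearMap.rTensor N (IsScalarTower.toAlgHom R (R ⧸ p) p.ResidueField).toLinearMap) :=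
      IsLocalizedModule.rTensor (R := R) (A := R) (N := N) p.primeCompl (IsScalarTower.toAlgHom R (R ⧸ p) p.ResidueField).toLinearMap
    have h1 : F = (TensorProduct.comm R p.ResidueField N).toLinearMap ∘ₗ ((LinearMap.rTensor N (IsScalarTower.toAlgHom R (R ⧸ p) p.ResidueField).toLinearMap) ∘ₗ (TensorProduct.comm R N (R ⧸ p)).toLinearMap) := by
      apply TensorProduct.ext'
      intro x y
      rfl
    rw [h1]
    have h2 := IsLocalizedModule.of_linearEquiv_right p.primeCompl (LinearMap.rTensor N (IsScalarTower.toAlgHom R (R ⧸ p) p.ResidueField).toLinearMap) (TensorProduct.comm R N (R ⧸ p))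
    exact IsLocalizedModule.of_linearEquiv p.primeCompl _ (TensorProduct.comm R p.ResidueField N)
  have hsurj : ∀ y : N ⊗[R] (R ⧸ p), ∃ n : N, n ⊗ₜ[R] (1 : R ⧸ p) = y := by
    intro y
    induction y using TensorProduct.induction_on with
    | zero => exact ⟨0, by rw [TensorProduct.zero_tmul]⟩
    | tmul n a =>
      obtain ⟨a, rfl⟩ := Ideal.Quotient.mk_surjective a
      refine ⟨a • n, ?_⟩
      rw [TensorProduct.smul_tmul]
      congr 1
      rw [Algebra.smul_def, mul_one]
      rfl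
    | add a b ha hb =>
      obtain ⟨n1, h1⟩ := ha
      obtain ⟨n2, h2⟩ := hb
      exact ⟨n1 + n2, by rw [TensorProduct.add_tmul, h1, h2]⟩
  have hF1 : ∀ n : N, F (n ⊗ₜ 1) = n ⊗ₜ 1 := by
    intro n
    show n ⊗ₜ (algebraMap (R ⧸ p) p.ResidueField 1) = _
    rw [map_one]
  have hker := tmul_one_eq_zero_iff (S := S) N p
  refine ⟨fun n => ?_, fun x => ?_, fun r hr x hx => ?_⟩
  · rw [← E.map_eq_zero_iff, hE, ← hF1, IsLocalizedModule.eq_zero_iff p.primeCompl F]
    constructor
    · rintro ⟨c, hc⟩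
      refine ⟨c, c.2, ?_⟩
      rw [← hker, algebraMap_smul, ← TensorProduct.smul_tmul']
      exact hc
    · rintro ⟨c, hc, h⟩
      refine ⟨⟨c, hc⟩, ?_⟩
      rw [← hker, algebraMap_smul, ← TensorProduct.smul_tmul'] at h
      exact h
  · obtain ⟨⟨y, c⟩, h⟩ := IsLocalizedModule.surj p.primeCompl F (E x)
    obtain ⟨n, rfl⟩ := hsurj y
    refine ⟨c, c.2, n, ?_⟩
    apply E.injective
    rw [map_smul, hE, ← hF1, algebraMap_smul]
    exact h
  · apply E.injective
    rw [map_zero]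
    have h1 : r • E x = 0 := by
      have := congrArg E hx
      rw [map_smul, map_zero, algebraMap_smul] at this
      exact this
    have h2 := IsLocalizedModule.smul_injective F (⟨r, hr⟩ : p.primeCompl)
    apply h2
    show r • E x = r • 0
    rw [h1, smul_zero]
theorem mem_ass_fiberMod_iff (q : Ideal S) : q ∈ FlatCA.ass S (FlatCA.fiberMod p S N) ↔
    q.IsPrime ∧ ∃ n : N, ∀ a : S, a ∈ q ↔ ∃ r, r ∉ p ∧ algebraMap R S r • (a • n) ∈ ((p.map (algebraMap R S)) • (⊤ : Submodule S N)) := by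
  obtain ⟨h1, h2, h3⟩ := fiberMod_facts (S := S) N p
  rw [mem_ass_iff]
  refine and_congr_right fun _ => ?_
  constructor
  · rintro ⟨x, hx⟩
    obtain ⟨r, hr, n, hn⟩ := h2 x
    refine ⟨n, fun a => ?_⟩
    rw [hx, ← h1, map_smul, ← hn, smul_comm]
    constructor
    · intro h; rw [h, smul_zero]
    · intro h; exact h3 r hr _ h
  · rintro ⟨n, hn⟩
    exact ⟨FlatCA.toFiberMod p S N n, fun a => by rw [hn, ← h1, map_smul]⟩

theorem flat_main [Module.Flat R N] : FlatCA.ass S (N ⧸ (p.map (algebraMap R S)) • (⊤ : Submodule S N)) = FlatCA.ass S (FlatCA.fiberMod p S N) ∧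
      ∀ q ∈ FlatCA.ass S (N ⧸ (p.map (algebraMap R S)) • (⊤ : Submodule S N)), q.comap (algebraMap R S) = p := by
  constructor
  · ext q
    rw [mem_ass_quot_iff, mem_ass_fiberMod_iff]
    refine and_congr_right fun _ => exists_congr fun n => forall_congr' fun a => iff_congr Iff.rfl ?_
    constructor
    · intro h
      exact ⟨1, (Ideal.ne_top_iff_one p).1 (Ideal.IsPrime.ne_top inferInstance), by rw [map_one, one_smul]; exact h⟩
    · rintro ⟨r, hr, h⟩
      exact flat_fact N p r hr _ h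
  · intro q hq
    rw [mem_ass_quot_iff] at hq
    obtain ⟨hq, n, hn⟩ := hq
    ext r
    rw [Ideal.mem_comap, hn]
    constructor
    · intro h
      by_contra hr
      have h1 := flat_fact N p r hr n h
      apply hq.ne_top
      rw [Ideal.eq_top_iff_one, hn, one_smul]
      exact h1
    · intro h
      exact Submodule.smul_mem_smul (Ideal.mem_map_of_mem _ h) trivial
end

end Groth.Agent.H14
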