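import Mathlib

set_option autoImplicit false
universe u v

namespace Groth.Agent.H14

theorem exists_idem_of_mem_span {R : Type u} [CommRing R] {A : Ideal R} {x : R}
    (hx : x ∈ Ideal.span {e : R | IsIdempotentElem e ∧ e ∈ A}) :
    ∃ e : R, IsIdempotentElem e ∧ e ∈ A ∧ x * e = x := by
  refine Submodule.span_induction (p := fun x _ => ∃ e : R, IsIdempotentElem e ∧ e ∈ A ∧ x * e = x) ?_ ?_ ?_ ?_ hx
  · rintro x ⟨h1, h2⟩
    exact ⟨x, h1, h2, h1⟩
  · exact ⟨0, IsIdempotentElem.zero, A.zero_mem, by simp⟩
  · rintro x y _ _ ⟨e, he, heA, hxe⟩ ⟨f, hf, hfA, hyf⟩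
    have he' : e * e = e := he
    have hf' : f * f = f := hf
    refine ⟨e + f - e * f, ?_, ?_, ?_⟩
    · show (e + f - e * f) * (e + f - e * f) = e + f - e * f
      linear_combination (1 - f) ^ 2 * he' + (1 - e) * hf'
    · exact A.sub_mem (A.add_mem heA hfA) (A.mul_mem_right _ heA)
    · linear_combination (1 - f) * hxe + (1 - e) * hyf
  · rintro a x _ ⟨e, he, heA, hxe⟩
    refine ⟨e, he, heA, ?_⟩
    rw [smul_eq_mul, mul_assoc, hxe]

theorem connectedComponent_eq {R : Type u} [CommRing R] (p : PrimeSpectrum R) :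
    connectedComponent p = PrimeSpectrum.zeroLocus {e : R | IsIdempotentElem e ∧ e ∈ p.asIdeal} ∧
      ∀ e : R, IsIdempotentElem e → (e ∈ Ideal.span {e : R | IsIdempotentElem e ∧ e ∈ p.asIdeal} ∨ 1 - e ∈ Ideal.span {e : R | IsIdempotentElem e ∧ e ∈ p.asIdeal}) := by
  have h2 : ∀ e : R, IsIdempotentElem e → (e ∈ Ideal.span {e : R | IsIdempotentElem e ∧ e ∈ p.asIdeal} ∨ 1 - e ∈ Ideal.span {e : R | IsIdempotentElem e ∧ e ∈ p.asIdeal}) := by
    intro e he
    have h3 : e * (1 - e) ∈ p.asIdeal := by
      have : e * (1 - e) = 0 := by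
        have he' : e * e = e := he
        linear_combination -he'
      rw [this]; exact p.asIdeal.zero_mem
    rcases p.2.mem_or_mem h3 with h | h
    · left; exact Ideal.subset_span ⟨he, h⟩
    · right; exact Ideal.subset_span ⟨he.one_sub, h⟩
  refine ⟨?_, h2⟩
  apply Set.Subset.antisymm
  · intro q hq e he
    have hcl : IsClopen (PrimeSpectrum.zeroLocus {e}) := PrimeSpectrum.isClopen_iff_zeroLocus.2 ⟨e, he.1, rfl⟩
    have hp : p ∈ PrimeSpectrum.zeroLocus {e} := by
      rw [PrimeSpectrum.mem_zeroLocus, Set.singleton_subset_iff]; exact he.2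
    have := hcl.connectedComponent_subset hp hq
    rw [PrimeSpectrum.mem_zeroLocus, Set.singleton_subset_iff] at this
    exact this
  · set I := Ideal.span {e : R | IsIdempotentElem e ∧ e ∈ p.asIdeal} with hI
    have hpre : PreconnectedSpace (PrimeSpectrum (R ⧸ I)) := by
      rw [preconnectedSpace_iff_clopen]
      intro s hs
      obtain ⟨e', he', rfl⟩ := PrimeSpectrum.isClopen_iff_zeroLocus.1 hs
      obtain ⟨e, rfl⟩ := Ideal.Quotient.mk_surjective e'
      have h3 : e * e - e ∈ I := by
        rw [← Ideal.Quotient.eq_zero_iff_mem, map_sub, map_mul]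
        exact sub_eq_zero.2 he'
      obtain ⟨f, hf, hfp, h4⟩ := exists_idem_of_mem_span h3
      have hf' : f * f = f := hf
      have hfI : f ∈ I := Ideal.subset_span ⟨hf, hfp⟩
      have hg : IsIdempotentElem (e * (1 - f)) := by
        show e * (1 - f) * (e * (1 - f)) = e * (1 - f)
        linear_combination -h4 + e ^ 2 * hf'
      have hmk : Ideal.Quotient.mk I (e * (1 - f)) = Ideal.Quotient.mk I e := by
        rw [map_mul, map_sub, map_one, Ideal.Quotient.eq_zero_iff_mem.2 hfI, sub_zero, mul_one]
      rcases h2 _ hg with h | h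
      · right
        have : Ideal.Quotient.mk I e = 0 := by rw [← hmk]; exact Ideal.Quotient.eq_zero_iff_mem.2 h
        rw [this]
        exact PrimeSpectrum.zeroLocus_singleton_zero
      · left
        have : Ideal.Quotient.mk I e = 1 := by
          rw [← hmk]
          have h5 := Ideal.Quotient.eq_zero_iff_mem.2 h
          rw [map_sub, map_one] at h5
          exact (sub_eq_zero.1 h5).symm
        rw [this]
        exact PrimeSpectrum.zeroLocus_singleton_one
    have hrange : PrimeSpectrum.zeroLocus {e : R | IsIdempotentElem e ∧ e ∈ p.asIdeal} = Set.range (PrimeSpectrum.comap (Ideal.Quotient.mk I)) := by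
      rw [_root_.range_comap_of_surjective _ _ Ideal.Quotient.mk_surjective, Ideal.mk_ker, hI, PrimeSpectrum.zeroLocus_span]
    rw [hrange]
    apply IsPreconnected.subset_connectedComponent
    · exact isPreconnected_range (PrimeSpectrum.continuous_comap _)
    · rw [← hrange]
      intro e he
      exact he.2

end Groth.Agent.H14
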