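import Mathlib
import Groth.Agent.S9277

set_option autoImplicit false
universe u v

namespace Groth.Agent.H14
open CAlgX

theorem lemA {R : Type u} [CommRing R] (hP : (∀ I : Ideal R, I.FG → I ≠ ⊤ → I.annihilator ≠ ⊥)) (n m : ℕ)
    (u : (Fin n → R) →ₗ[R] (Fin m → R)) (hu : Function.Injective u) : ∃ v : (Fin m → R) →ₗ[R] (Fin n → R), v ∘ₗ u = LinearMap.id := by
  classical
  let A : Matrix (Fin m) (Fin n) R := LinearMap.toMatrix' u
  have hA : ∀ x, u x = A.mulVec x := fun x => by
    rw [← Matrix.toLin'_apply, Matrix.toLin'_toMatrix']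
  have hinj : Function.Injective (Matrix.mulVecLin A) := by
    intro x y hxy
    apply hu
    rw [hA, hA]
    exact hxy
  have h1 := Groth.Agent.S9277.mc2 n m A hinj
  have h2 : minorIdeal A n = ⊤ := by
    by_contra hne
    exact hP _ (Submodule.fg_span (Set.finite_range _)) hne h1
  have h3 : (1 : R) ∈ Submodule.span R (Set.range fun fg : (Fin n → Fin m) × (Fin n → Fin n) =>
    Matrix.det (A.submatrix fg.1 fg.2)) := (Ideal.eq_top_iff_one _).1 h2
  obtain ⟨c, hc⟩ := (Submodule.mem_span_range_iff_exists_fun R).1 h3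
  let E : (Fin n → Fin n) → Matrix (Fin n) (Fin n) R := fun g => (1 : Matrix (Fin n) (Fin n) R).submatrix id g
  have hE : ∀ f g, (A.submatrix f g).det = (A.submatrix f id).det * (E g).det := by
    intro f g
    have h4 : A.submatrix f g = (A.submatrix f id) * E g := by
      ext i k
      simp [E, Matrix.mul_apply, Matrix.one_apply]
    rw [h4, Matrix.det_mul]
  refine ⟨∑ fg, (c fg * (E fg.2).det) • ((A.submatrix fg.1 id).adjugate.mulVecLin ∘ₗ LinearMap.funLeft R R fg.1), ?_⟩
  apply LinearMap.ext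
  intro x
  rw [LinearMap.comp_apply, LinearMap.sum_apply, LinearMap.id_apply]
  have h5 : ∀ fg : (Fin n → Fin m) × (Fin n → Fin n), ((c fg * (E fg.2).det) • ((A.submatrix fg.1 id).adjugate.mulVecLin ∘ₗ LinearMap.funLeft R R fg.1)) (u x) = (c fg • (A.submatrix fg.1 fg.2).det) • x := by
    intro fg
    rw [LinearMap.smul_apply, LinearMap.comp_apply, Matrix.mulVecLin_apply]
    have h6 : LinearMap.funLeft R R fg.1 (u x) = (A.submatrix fg.1 id).mulVec x := by
      rw [hA]; rfl
    rw [h6, Matrix.mulVec_mulVec, Matrix.adjugate_mul, Matrix.smul_mulVec, Matrix.one_mulVec, smul_smul, hE fg.1 fg.2, smul_eq_mul]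
    congr 1
    ring
  simp_rw [h5]
  rw [← Finset.sum_smul, hc, one_smul]

noncomputable def inc {R : Type u} [CommRing R] {ι : Type u} (s : Finset ι) : (s → R) →ₗ[R] (ι →₀ R) :=
  ∑ i : s, (Finsupp.lsingle (i : ι)) ∘ₗ (LinearMap.proj i)

noncomputable def prj {R : Type u} [CommRing R] {ι : Type u} (s : Finset ι) : (ι →₀ R) →ₗ[R] (s → R) :=
  LinearMap.pi (fun i => Finsupp.lapply (i : ι))

theorem prj_inc {R : Type u} [CommRing R] {ι : Type u} (s : Finset ι) (x : s → R) : prj s (inc s x) = x := by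
  classical
  funext j
  simp only [prj, inc, LinearMap.pi_apply, LinearMap.sum_apply, LinearMap.comp_apply, LinearMap.proj_apply, Finsupp.lsingle_apply, Finsupp.lapply_apply, Finsupp.finset_sum_apply, Finsupp.single_apply]
  rw [Finset.sum_eq_single j]
  · simp
  · intro b _ hb
    rw [if_neg]
    intro h
    exact hb (Subtype.ext h)
  · intro h; exact absurd (Finset.mem_univ _) h

theorem inc_prj {R : Type u} [CommRing R] {ι : Type u} (s : Finset ι) (f : ι →₀ R) (hf : f.support ⊆ s) : inc s (prj s f) = f := by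
  classical
  simp only [prj, inc, LinearMap.sum_apply, LinearMap.comp_apply, LinearMap.proj_apply, LinearMap.pi_apply, Finsupp.lsingle_apply, Finsupp.lapply_apply]
  rw [Finset.sum_coe_sort s (fun i => Finsupp.single i (f i))]
  conv_rhs => rw [← Finsupp.sum_single f]
  rw [Finsupp.sum_of_support_subset f hf _ (fun i _ => Finsupp.single_zero i)]

theorem lemB {R : Type u} [CommRing R] (hP : (∀ I : Ideal R, I.FG → I ≠ ⊤ → I.annihilator ≠ ⊥)) (n : ℕ) (G : Type u) [AddCommGroup G] [Module R G] [Module.Projective R G]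
    (w : (Fin n → R) →ₗ[R] G) (hw : Function.Injective w) : ∃ v : G →ₗ[R] (Fin n → R), v ∘ₗ w = LinearMap.id := by
  classical
  obtain ⟨j, hj⟩ := Module.projective_def'.1 (inferInstance : Module.Projective R G)
  have hjinj : Function.Injective j := by
    intro x y hxy
    have h1 := LinearMap.congr_fun hj x
    have h2 := LinearMap.congr_fun hj y
    rw [LinearMap.comp_apply] at h1 h2
    rw [hxy, h2] at h1
    exact h1.symm
  let t : Finset G := Finset.univ.biUnion (fun i => (j (w (Pi.single i 1))).support)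
  have h1 : ∀ x, inc t (prj t (j (w x))) = j (w x) := by
    intro x
    have h2 : (inc t ∘ₗ prj t ∘ₗ j ∘ₗ w) = j ∘ₗ w := by
      apply LinearMap.pi_ext'
      intro i
      apply LinearMap.ext_ring
      show inc t (prj t (j (w (Pi.single i 1)))) = j (w (Pi.single i 1))
      apply inc_prj
      exact Finset.subset_biUnion_of_mem (fun i => (j (w (Pi.single i 1))).support) (Finset.mem_univ i)
    exact LinearMap.congr_fun h2 x
  let e : (t → R) ≃ₗ[R] (Fin t.card → R) := LinearEquiv.funCongrLeft R R t.equivFin.symm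
  have hinj : Function.Injective (e.toLinearMap ∘ₗ prj t ∘ₗ j ∘ₗ w) := by
    intro x y hxy
    have h2 : prj t (j (w x)) = prj t (j (w y)) := e.injective hxy
    apply hw
    apply hjinj
    rw [← h1 x, h2, h1 y]
  obtain ⟨v, hv⟩ := lemA hP n t.card _ hinj
  exact ⟨v ∘ₗ e.toLinearMap ∘ₗ prj t ∘ₗ j, hv⟩

theorem aux_inj {R : Type u} [CommRing R] {N M F : Type u} [AddCommGroup N] [Module R N] [AddCommGroup M] [Module R M] [AddCommGroup F] [Module R F]
    (u : N →ₗ[R] M) (hu : Function.Injective u) (i : N →ₗ[R] F) (s : F →ₗ[R] N) (hsi : s ∘ₗ i = LinearMap.id) :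
    Function.Injective (LinearMap.prod (u ∘ₗ s) (LinearMap.id - i ∘ₗ s)) ∧ (LinearMap.prod (u ∘ₗ s) (LinearMap.id - i ∘ₗ s)) ∘ₗ i = LinearMap.inl R M F ∘ₗ u := by
  constructor
  · rw [injective_iff_map_eq_zero]
    intro z hz
    have h1 : u (s z) = 0 := congrArg Prod.fst hz
    have h2 : z - i (s z) = 0 := congrArg Prod.snd hz
    have h3 : s z = 0 := hu (by rw [h1, map_zero])
    rw [h3, map_zero, sub_zero] at h2
    exact h2
  · apply LinearMap.ext
    intro x
    have h4 : s (i x) = x := LinearMap.congr_fun hsi x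
    show (u (s (i x)), i x - i (s (i x))) = (u x, 0)
    rw [h4, sub_self]

theorem lemC {R : Type u} [CommRing R] (hP : (∀ I : Ideal R, I.FG → I ≠ ⊤ → I.annihilator ≠ ⊥))
    (N M : Type u) [AddCommGroup N] [Module R N] [Module.Finite R N] [Module.Projective R N]
    [AddCommGroup M] [Module R M] [Module.Projective R M]
    (u : N →ₗ[R] M) (hu : Function.Injective u) : ∃ r : M →ₗ[R] N, r ∘ₗ u = LinearMap.id := by
  obtain ⟨n, s, hs⟩ := Module.Finite.exists_fin' R N
  obtain ⟨i, hi⟩ := Module.projective_lifting_property s LinearMap.id hs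
  -- lift universe of Fin n → R
  obtain ⟨h1, h2⟩ := aux_inj u hu i s hi
  obtain ⟨v, hv⟩ := lemB hP n (M × (Fin n → R)) _ h1
  refine ⟨s ∘ₗ v ∘ₗ LinearMap.inl R M _, ?_⟩
  calc (s ∘ₗ v ∘ₗ LinearMap.inl R M _) ∘ₗ u = s ∘ₗ (v ∘ₗ (LinearMap.inl R M _ ∘ₗ u)) := rfl
    _ = s ∘ₗ ((v ∘ₗ (LinearMap.prod (u ∘ₗ s) (LinearMap.id - i ∘ₗ s))) ∘ₗ i) := by rw [← h2]; rfl
    _ = LinearMap.id := by rw [hv, LinearMap.id_comp, hi]

end Groth.Agent.H14
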