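import Mathlib.CategoryTheory.Limits.Shapes.Pullback.IsPullback.Basic
import Mathlib.CategoryTheory.Limits.Shapes.Diagonal
import Mathlib.CategoryTheory.Limits.Shapes.BinaryProducts

set_option autoImplicit false
universe v u

open CategoryTheory CategoryTheory.Limits

namespace Groth.Agent.H15Cat

variable {C : Type u} [Category.{v} C]

attribute [local simp] Limits.prod.lift_fst Limits.prod.lift_snd Limits.prod.lift_fst_assoc Limits.prod.lift_snd_assoc
attribute [local simp] pullback.lift_fst pullback.lift_snd pullback.lift_fst_assoc pullback.lift_snd_assoc pullback.map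

section prod
variable [HasBinaryProducts C]

theorem isPullback_prod_map_left {F G : C} (p : F ⟶ G) (Z : C) :
    IsPullback (prod.fst : F ⨯ Z ⟶ F) (prod.map p (𝟙 Z)) p prod.fst := by
  refine ⟨⟨by simp⟩, ⟨PullbackCone.IsLimit.mk _ (fun s => prod.lift s.fst (s.snd ≫ prod.snd)) ?_ ?_ ?_⟩⟩
  · intro s; simp
  · intro s
    apply Limits.prod.hom_ext
    · simpa using s.condition
    · simp
  · intro s m h1 h2
    apply Limits.prod.hom_ext
    · simpa using h1
    · have := congrArg (· ≫ prod.snd) h2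
      simpa using this

theorem isPullback_prod_map_right {F G : C} (p : F ⟶ G) (Z : C) :
    IsPullback (prod.snd : Z ⨯ F ⟶ F) (prod.map (𝟙 Z) p) p prod.snd := by
  refine ⟨⟨by simp⟩, ⟨PullbackCone.IsLimit.mk _ (fun s => prod.lift (s.snd ≫ prod.fst) s.fst) ?_ ?_ ?_⟩⟩
  · intro s; simp
  · intro s
    apply Limits.prod.hom_ext
    · simp
    · simpa using s.condition
  · intro s m h1 h2
    apply Limits.prod.hom_ext
    · have := congrArg (· ≫ prod.fst) h2
      simpa using this
    · simpa using h1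

theorem prod_map_eq {F G F' G' : C} (p : F ⟶ G) (p' : F' ⟶ G') :
    prod.map p p' = prod.map p (𝟙 F') ≫ prod.map (𝟙 G) p' := by simp

theorem isPullback_diag_prod {R U U' X : C} {a : R ⟶ U} {b : R ⟶ U'} {p : U ⟶ X} {p' : U' ⟶ X}
    (sq0 : IsPullback a b p p') :
    IsPullback (a ≫ p) (prod.lift a b) (Limits.diag X) (prod.map p p') := by
  refine ⟨⟨?_⟩, ⟨PullbackCone.IsLimit.mk _ (fun c => sq0.lift (c.snd ≫ prod.fst) (c.snd ≫ prod.snd) ?_) ?_ ?_ ?_⟩⟩
  · apply Limits.prod.hom_ext
    · simp
    · simpa using sq0.w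
  · have h1 := congrArg (· ≫ prod.fst) c.condition
    have h2 := congrArg (· ≫ prod.snd) c.condition
    simp at h1 h2
    rw [Category.assoc, Category.assoc, ← h1, ← h2]
  · intro c
    have h1 := congrArg (· ≫ prod.fst) c.condition
    simp at h1
    rw [← Category.assoc, sq0.lift_fst, Category.assoc, ← h1]
  · intro c
    apply Limits.prod.hom_ext
    · simp
    · simp
  · intro c m h1 h2
    apply sq0.hom_ext
    · rw [sq0.lift_fst, ← h2]; simp
    · rw [sq0.lift_snd, ← h2]; simp

end prod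

section pb
variable [HasPullbacks C]

theorem isPullback_diagonal_rel [HasBinaryProducts C] {X Y : C} (f : X ⟶ Y) :
    IsPullback (𝟙 X) (pullback.diagonal f) (Limits.diag X)
      (prod.lift (pullback.fst f f) (pullback.snd f f)) := by
  have key : ∀ {Z : C} (v : Z ⟶ pullback f f) (u : Z ⟶ X),
      u ≫ Limits.diag X = v ≫ prod.lift (pullback.fst f f) (pullback.snd f f) →
      u = v ≫ pullback.fst f f ∧ u = v ≫ pullback.snd f f := by
    intro Z v u h
    have h1 := congrArg (· ≫ prod.fst) h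
    have h2 := congrArg (· ≫ prod.snd) h
    simp at h1 h2
    exact ⟨h1, h2⟩
  refine ⟨⟨?_⟩, ⟨PullbackCone.IsLimit.mk _ (fun c => c.fst) ?_ ?_ ?_⟩⟩
  · apply Limits.prod.hom_ext <;> simp
  · intro c; simp
  · intro c
    obtain ⟨h1, h2⟩ := key c.snd c.fst c.condition
    apply pullback.hom_ext
    · rw [Category.assoc, pullback.diagonal_fst, Category.comp_id, h1]
    · rw [Category.assoc, pullback.diagonal_snd, Category.comp_id, h2]
  · intro c m h1 _
    rw [Category.comp_id] at h1; exact h1

theorem isPullback_section {X T : C} (f : X ⟶ T) (s : T ⟶ X) (hs : s ≫ f = 𝟙 T)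
    (w : (f ≫ s) ≫ f = 𝟙 X ≫ f) :
    IsPullback s s (pullback.diagonal f) (pullback.lift (f ≫ s) (𝟙 X) w) := by
  have key : ∀ {Z : C} (v u : Z ⟶ X),
      u ≫ pullback.diagonal f = v ≫ pullback.lift (f ≫ s) (𝟙 X) w →
      u = v ≫ f ≫ s ∧ u = v := by
    intro Z v u h
    have h1 := congrArg (· ≫ pullback.fst f f) h
    have h2 := congrArg (· ≫ pullback.snd f f) h
    simp at h1 h2
    exact ⟨h1, h2⟩
  refine ⟨⟨?_⟩, ⟨PullbackCone.IsLimit.mk _ (fun c => c.fst ≫ f) ?_ ?_ ?_⟩⟩
  · apply pullback.hom_ext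
    · simp [reassoc_of% hs]
    · simp
  · intro c
    obtain ⟨h1, h2⟩ := key c.snd c.fst c.condition
    calc (c.fst ≫ f) ≫ s = c.fst ≫ f ≫ s := Category.assoc _ _ _
      _ = c.snd ≫ f ≫ s := by rw [h2]
      _ = c.fst := h1.symm
  · intro c
    obtain ⟨h1, h2⟩ := key c.snd c.fst c.condition
    calc (c.fst ≫ f) ≫ s = c.fst ≫ f ≫ s := Category.assoc _ _ _
      _ = c.snd ≫ f ≫ s := by rw [h2]
      _ = c.fst := h1.symm
      _ = c.snd := h2
  · intro c m h1 _
    calc m = m ≫ 𝟙 T := (Category.comp_id _).symm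
      _ = m ≫ s ≫ f := by rw [hs]
      _ = (m ≫ s) ≫ f := (Category.assoc _ _ _).symm
      _ = c.fst ≫ f := by rw [h1]

/-- graph factorization -/
theorem isPullback_graph {Z Y X : C} (a : Z ⟶ Y) (b : Y ⟶ X) :
    IsPullback a (pullback.lift (𝟙 Z) a (by simp) : Z ⟶ pullback (a ≫ b) b) (pullback.diagonal b)
      (pullback.map (a ≫ b) b b b a (𝟙 Y) (𝟙 X) (by simp) (by simp)) := by
  have key : ∀ {W : C} (v : W ⟶ pullback (a ≫ b) b) (u : W ⟶ Y),
      u ≫ pullback.diagonal b = v ≫ pullback.map (a ≫ b) b b b a (𝟙 Y) (𝟙 X) (by simp) (by simp) →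
      u = v ≫ pullback.fst _ _ ≫ a ∧ u = v ≫ pullback.snd _ _ := by
    intro W v u h
    have h1 := congrArg (· ≫ pullback.fst b b) h
    have h2 := congrArg (· ≫ pullback.snd b b) h
    simp at h1 h2
    exact ⟨h1, h2⟩
  refine ⟨⟨?_⟩, ⟨PullbackCone.IsLimit.mk _ (fun c => c.snd ≫ pullback.fst _ _) ?_ ?_ ?_⟩⟩
  · apply pullback.hom_ext
    · simp
    · simp
  · intro c
    obtain ⟨h1, h2⟩ := key c.snd c.fst c.condition
    exact (Category.assoc _ _ _).trans h1.symm
  · intro c
    obtain ⟨h1, h2⟩ := key c.snd c.fst c.condition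
    apply pullback.hom_ext
    · simp
    · simp only [Category.assoc, pullback.lift_snd]
      exact h1.symm.trans h2
  · intro c m _ h2
    rw [← h2]; simp

/-- base change of diagonal -/
theorem isPullback_diagonal_baseChange {X Y V P : C} {f : X ⟶ Y} {p : V ⟶ Y} {fst : P ⟶ X} {snd : P ⟶ V}
    (sq : IsPullback fst snd f p) :
    IsPullback fst (pullback.diagonal snd) (pullback.diagonal f)
      (pullback.map snd snd f f fst fst p sq.w.symm sq.w.symm) := by
  have key : ∀ {W : C} (v : W ⟶ pullback snd snd) (u : W ⟶ X),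
      u ≫ pullback.diagonal f = v ≫ pullback.map snd snd f f fst fst p sq.w.symm sq.w.symm →
      u = (v ≫ pullback.fst _ _) ≫ fst ∧ u = (v ≫ pullback.snd _ _) ≫ fst := by
    intro W v u h
    have h1 := congrArg (· ≫ pullback.fst f f) h
    have h2 := congrArg (· ≫ pullback.snd f f) h
    simp at h1 h2
    exact ⟨by simpa using h1, by simpa using h2⟩
  refine ⟨⟨?_⟩, ⟨PullbackCone.IsLimit.mk _ (fun c => c.snd ≫ pullback.fst _ _) ?_ ?_ ?_⟩⟩
  · apply pullback.hom_ext
    · simp
    · simp
  · intro c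
    obtain ⟨h1, h2⟩ := key c.snd c.fst c.condition
    exact h1.symm
  · intro c
    obtain ⟨h1, h2⟩ := key c.snd c.fst c.condition
    have h3 : c.snd ≫ pullback.fst snd snd = c.snd ≫ pullback.snd snd snd := by
      apply sq.hom_ext
      · rw [← h1, h2]
      · simp [pullback.condition]
    apply pullback.hom_ext
    · simp
    · simp [h3]
  · intro c m _ h2
    rw [← h2]; simp

theorem isPullback_map_baseChange {X Y V P : C} {f : X ⟶ Y} {p : V ⟶ Y} {fst : P ⟶ X} {snd : P ⟶ V}
    (sq : IsPullback fst snd f p) :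
    IsPullback (pullback.map snd snd f f fst fst p sq.w.symm sq.w.symm) (pullback.fst snd snd ≫ snd)
      (pullback.fst f f ≫ f) p := by
  refine ⟨⟨?_⟩, ⟨PullbackCone.IsLimit.mk _ (fun c => pullback.lift
    (sq.lift (c.fst ≫ pullback.fst f f) c.snd (by simpa using c.condition))
    (sq.lift (c.fst ≫ pullback.snd f f) c.snd (by
      have h0 : c.fst ≫ pullback.fst f f ≫ f = c.snd ≫ p := c.condition
      have h1 : c.fst ≫ pullback.snd f f ≫ f = c.snd ≫ p := by rw [← pullback.condition]; exact h0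
      simpa using h1)) (by simp)) ?_ ?_ ?_⟩⟩
  · simp [sq.w]
  · intro c
    apply pullback.hom_ext
    · simp
    · simp
  · intro c
    simp
  · intro c m h1 h2
    apply pullback.hom_ext
    · apply sq.hom_ext
      · have := congrArg (· ≫ pullback.fst f f) h1
        simpa using this
      · simpa using h2
    · apply sq.hom_ext
      · have := congrArg (· ≫ pullback.snd f f) h1
        simpa using this
      · have h3 : m ≫ pullback.snd snd snd ≫ snd = c.snd := by
          rw [← pullback.condition]; exact h2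
        simpa using h3

theorem isIso_diagonal_of_mono {X Y : C} (f : X ⟶ Y) [Mono f] : IsIso (pullback.diagonal f) := inferInstance

theorem mono_of_isPullback {A B D E : C} {fst : A ⟶ B} {snd : A ⟶ D} {f : B ⟶ E} {g : D ⟶ E}
    (sq : IsPullback fst snd f g) [Mono f] : Mono snd := by
  constructor
  intro Z a b h
  apply sq.hom_ext
  · rw [← cancel_mono f, Category.assoc, Category.assoc, sq.w, ← Category.assoc, ← Category.assoc, h]
  · exact h

end pb

end Groth.Agent.H15Cat
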