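import Groth.Prelude.Def_AlgSp3
import Mathlib.AlgebraicGeometry.Morphisms.LocalFlatDescent
import Mathlib.AlgebraicGeometry.Morphisms.QuasiFinite
import Mathlib.AlgebraicGeometry.Sites.Fpqc
import Mathlib.AlgebraicGeometry.ZariskisMainTheorem
import Groth.Agent.Lib.Helper15Cat

set_option autoImplicit false
universe u

open CategoryTheory CategoryTheory.Limits AlgebraicGeometry Opposite AlgSp

namespace Groth.Agent.H15AS

variable {S : Scheme.{u}}

/-- surjective flat locally of finite presentation -/
abbrev Fppf : MorphismProperty Scheme.{u} := @Surjective ⊓ @Flat ⊓ @LocallyOfFinitePresentation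

theorem repWith_imp {P Q : MorphismProperty Scheme.{u}} (h : ∀ {X Y : Scheme.{u}} (f : X ⟶ Y), P f → Q f)
    {F G : Sp S} {f : F ⟶ G} (hf : RepWith P f) : RepWith Q f :=
  ⟨hf.1, fun _ _ g fst snd sq => h _ (hf.2 g fst snd sq)⟩

theorem repWith_inf {P Q : MorphismProperty Scheme.{u}} {F G : Sp S} {f : F ⟶ G} (h1 : RepWith P f)
    (h2 : RepWith Q f) : RepWith (P ⊓ Q) f :=
  ⟨h1.1, fun _ _ g fst snd sq => ⟨h1.2 g fst snd sq, h2.2 g fst snd sq⟩⟩

theorem repWith_fppf {F G : Sp S} {q : F ⟶ G} (he : RepWith @Etale q) (hs : RepWith @Surjective q) :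
    RepWith Fppf q :=
  repWith_inf (repWith_inf hs (repWith_imp (Q := @Flat) (fun f hf => by have : Etale f := hf; infer_instance) he))
    (repWith_imp (Q := @LocallyOfFinitePresentation) (fun f hf => by have : Etale f := hf; infer_instance) he)

/-- descent of a property along a representable cover -/
theorem descend {P Q : MorphismProperty Scheme.{u}}
    (hd : ∀ {A X Y Z : Scheme.{u}} {fst : A ⟶ X} {snd : A ⟶ Y} {f : X ⟶ Z} {g : Y ⟶ Z},
      IsPullback fst snd f g → Q f → P fst → P g)
    {F G H K : Sp S} {a : F ⟶ G} (ha : Representable a) {b : H ⟶ G} (hb : RepWith Q b)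
    {b' : K ⟶ F} {a' : K ⟶ H} (sq : IsPullback b' a' a b) (h : RepWith P a') : RepWith P a := by
  refine ⟨ha, fun W E w fst snd sq1 => ?_⟩
  obtain ⟨W', s, r, sq2⟩ := hb.1 w
  have hs : Q s.left := hb.2 w r s sq2
  have sqE : IsPullback (pullback.fst snd s) (pullback.snd snd s) snd s := IsPullback.of_hasPullback _ _
  have sqE' := sqE.map (yon S)
  have sq3 := sqE'.paste_horiz sq1
  rw [← sq2.w] at sq3
  let l : (yon S).obj (pullback snd s) ⟶ K :=
    sq.lift ((yon S).map (pullback.fst snd s) ≫ fst) ((yon S).map (pullback.snd snd s) ≫ r) (by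
      rw [sq3.w, Category.assoc])
  have hl1 : l ≫ b' = (yon S).map (pullback.fst snd s) ≫ fst := sq.lift_fst _ _ _
  have hl2 : l ≫ a' = (yon S).map (pullback.snd snd s) ≫ r := sq.lift_snd _ _ _
  have sq4 : IsPullback l ((yon S).map (pullback.snd snd s)) a' r := by
    refine IsPullback.of_right ?_ hl2 sq
    rw [hl1]; exact sq3
  have hP := h.2 r l _ sq4
  exact hd ((sqE.flip).map (Over.forget S)) hs hP

theorem descend_fppf (P : MorphismProperty Scheme.{u}) [P.DescendsAlong Fppf]
    {F G H K : Sp S} {a : F ⟶ G} (ha : Representable a) {b : H ⟶ G} (hb : RepWith Fppf b)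
    {b' : K ⟶ F} {a' : K ⟶ H} (sq : IsPullback b' a' a b) (h : RepWith P a') : RepWith P a :=
  descend (fun sq' hQ hP => P.of_isPullback_of_descendsAlong sq' hQ hP) ha hb sq h

theorem repWith_prod_map {P : MorphismProperty Scheme.{u}} [P.IsStableUnderBaseChange] [P.IsMultiplicative]
    {F G F' G' : Sp S} {p : F ⟶ G} {p' : F' ⟶ G'} (hp : RepWith P p) (hp' : RepWith P p') :
    RepWith P (prod.map p p') := by
  rw [H15Cat.prod_map_eq]
  exact (RepWith P).comp_mem _ _ ((RepWith P).of_isPullback (H15Cat.isPullback_prod_map_left p F') hp)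
    ((RepWith P).of_isPullback (H15Cat.isPullback_prod_map_right p' G) hp')

/-- RepWith P for a mono is mono -/
theorem repWith_mono {F G : Sp S} {f : F ⟶ G} [Mono f] (hf : Representable f) :
    RepWith (MorphismProperty.monomorphisms Scheme.{u}) f := by
  refine ⟨hf, fun W E w fst snd sq => ?_⟩
  have h1 : Mono ((yon S).map snd) := by
    have := (MorphismProperty.monomorphisms (Sp S)).of_isPullback sq.flip.flip (by
      exact (MorphismProperty.monomorphisms.iff f).2 inferInstance)
    exact (MorphismProperty.monomorphisms.iff _).1 this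
  have h2 : Mono snd := (yon S).mono_of_mono_map h1
  have h3 : Mono ((Over.forget S).map snd) := inferInstance
  exact h3

theorem sep_of_mono {F G : Sp S} {f : F ⟶ G} (h : RepWith (MorphismProperty.monomorphisms Scheme.{u}) f) :
    RepWith @IsSeparated f :=
  repWith_imp (Q := @IsSeparated) (fun g hg => by have : Mono g := hg; infer_instance) h

theorem lqf_of_mono {F G : Sp S} {f : F ⟶ G} (h : RepWith (MorphismProperty.monomorphisms Scheme.{u}) f)
    (h2 : RepWith @LocallyOfFiniteType f) : RepWith @LocallyQuasiFinite f :=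
  ⟨h.1, fun _ _ g fst snd sq => by
    have h3 : Mono snd.left := h.2 g fst snd sq
    have h4 : LocallyOfFiniteType snd.left := h2.2 g fst snd sq
    change LocallyQuasiFinite snd.left
    infer_instance⟩

/-- the diagonal of an algebraic space is locally of finite type -/
theorem diag_lft {X : Sp S} (hX : IsAlgSpace X) : RepWith @LocallyOfFiniteType (Limits.diag X) := by
  obtain ⟨U, p, he, hs⟩ := hX.atlas
  have hpp : RepWith Fppf (prod.map p p) :=
    repWith_fppf (repWith_prod_map he he) (repWith_prod_map hs hs)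
  obtain ⟨R, t, s', sq0⟩ := he.1 p
  obtain ⟨s, rfl⟩ := (yon S).map_surjective s'
  have sq := H15Cat.isPullback_diag_prod sq0
  have e : prod.lift ((yon S).map s) ((yon S).map t) = (yon S).map (prod.lift s t) ≫ prodComparison (yon S) U U := by
    apply Limits.prod.hom_ext
    · rw [prod.lift_fst, Category.assoc, prodComparison_fst, ← Functor.map_comp, prod.lift_fst]
    · rw [prod.lift_snd, Category.assoc, prodComparison_snd, ← Functor.map_comp, prod.lift_snd]
  have hR : RepWith @LocallyOfFiniteType (prod.lift ((yon S).map s) ((yon S).map t)) := by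
    rw [e]
    refine ((RepWith @LocallyOfFiniteType).cancel_right_of_respectsIso _ _).2 ?_
    rw [repWith_yon_map_iff]
    have hse : Etale t.left := he.2 p _ t sq0
    have : (prod.lift s t).left ≫ (prod.snd : U ⨯ U ⟶ U).left = t.left := by
      rw [← Over.comp_left, prod.lift_snd]
    have h5 : LocallyOfFiniteType ((prod.lift s t).left ≫ (prod.snd : U ⨯ U ⟶ U).left) := by
      rw [this]; infer_instance
    exact locallyOfFiniteType_of_comp _ (prod.snd : U ⨯ U ⟶ U).left
  exact descend_fppf @LocallyOfFiniteType hX.diag hpp sq hR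

theorem diag_mono {X : Sp S} (hX : IsAlgSpace X) :
    RepWith (MorphismProperty.monomorphisms Scheme.{u}) (Limits.diag X) :=
  repWith_mono hX.diag

theorem diagonal_rep {X Y : Sp S} (hX : IsAlgSpace X) (f : X ⟶ Y) : Representable (pullback.diagonal f) :=
  Representable.of_isPullback (H15Cat.isPullback_diagonal_rel f) hX.diag

theorem diagonal_repWith {P : MorphismProperty Scheme.{u}} {X Y : Sp S} (hX : RepWith P (Limits.diag X)) (f : X ⟶ Y) :
    RepWith P (pullback.diagonal f) :=
  (RepWith P).of_isPullback (H15Cat.isPullback_diagonal_rel f) hX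

/-- the five properties of a (relative) diagonal -/
structure DP {F G : Sp S} (f : F ⟶ G) : Prop where
  rep : Representable f
  lft : RepWith @LocallyOfFiniteType f
  mono : RepWith (MorphismProperty.monomorphisms Scheme.{u}) f

theorem DP.sep {F G : Sp S} {f : F ⟶ G} (h : DP f) : RepWith @IsSeparated f := sep_of_mono h.mono
theorem DP.lqf {F G : Sp S} {f : F ⟶ G} (h : DP f) : RepWith (@LocallyQuasiFinite ⊓ @LocallyOfFiniteType) f :=
  repWith_inf (lqf_of_mono h.mono h.lft) h.lft

theorem dp_diagonal {X Y : Sp S} (hX : IsAlgSpace X) (f : X ⟶ Y) : DP (pullback.diagonal f) :=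
  ⟨diagonal_rep hX f, diagonal_repWith (diag_lft hX) f, diagonal_repWith (diag_mono hX) f⟩

theorem DP.of_isPullback {A B C D : Sp S} {fst : A ⟶ B} {snd : A ⟶ C} {f : B ⟶ D} {g : C ⟶ D}
    (sq : IsPullback fst snd f g) (h : DP f) : DP snd :=
  ⟨Representable.of_isPullback sq h.rep, (RepWith _).of_isPullback sq h.lft, (RepWith _).of_isPullback sq h.mono⟩

theorem DP.comp {A B C : Sp S} {f : A ⟶ B} {g : B ⟶ C} (h : DP f) (h' : DP g) : DP (f ≫ g) :=
  ⟨Representable.comp_mem _ _ h.rep h'.rep, (RepWith _).comp_mem _ _ h.lft h'.lft,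
    (RepWith _).comp_mem _ _ h.mono h'.mono⟩

theorem dp_of_section {X T : Sp S} (hX : IsAlgSpace X) (f : X ⟶ T) (s : T ⟶ X) (hs : s ≫ f = 𝟙 T) : DP s :=
  DP.of_isPullback (H15Cat.isPullback_section f s hs (by rw [Category.assoc, hs, Category.comp_id, Category.id_comp]))
    (dp_diagonal hX f)

theorem repWith_section {P : MorphismProperty Scheme.{u}} {X T : Sp S} (f : X ⟶ T) (s : T ⟶ X) (hs : s ≫ f = 𝟙 T)
    (h : RepWith P (pullback.diagonal f)) : RepWith P s :=
  (RepWith P).of_isPullback (H15Cat.isPullback_section f s hs (by rw [Category.assoc, hs, Category.comp_id, Category.id_comp])) h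

theorem repWith_of_comp {P : MorphismProperty Scheme.{u}} [P.IsStableUnderBaseChange] [P.IsMultiplicative]
    {Z Y X : Sp S} (a : Z ⟶ Y) (b : Y ⟶ X) (h : RepWith P (a ≫ b)) (hb : RepWith P (pullback.diagonal b)) :
    RepWith P a := by
  have e : a = (pullback.lift (𝟙 Z) a (by simp) : Z ⟶ pullback (a ≫ b) b) ≫ pullback.snd _ _ := by
    rw [pullback.lift_snd]
  rw [e]
  exact (RepWith P).comp_mem _ _ ((RepWith P).of_isPullback (H15Cat.isPullback_graph a b) hb)
    ((RepWith P).of_isPullback (IsPullback.of_hasPullback (a ≫ b) b) h)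

theorem rep_of_comp {Z Y X : Sp S} (a : Z ⟶ Y) (b : Y ⟶ X) (h : Representable (a ≫ b))
    (hb : Representable (pullback.diagonal b)) : Representable a := by
  have e : a = (pullback.lift (𝟙 Z) a (by simp) : Z ⟶ pullback (a ≫ b) b) ≫ pullback.snd _ _ := by
    rw [pullback.lift_snd]
  rw [e]
  exact Representable.comp_mem _ _ (Representable.of_isPullback (H15Cat.isPullback_graph a b) hb)
    (Representable.of_isPullback (IsPullback.of_hasPullback (a ≫ b) b) h)

theorem dp_of_comp {Z Y X : Sp S} (a : Z ⟶ Y) (b : Y ⟶ X) (h : DP (a ≫ b)) (hb : DP (pullback.diagonal b)) : DP a :=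
  ⟨rep_of_comp a b h.rep hb.rep, repWith_of_comp a b h.lft hb.lft, repWith_of_comp a b h.mono hb.mono⟩

/-- a representable map whose base changes are monos of schemes is a mono of sheaves -/
theorem mono_of_repWith {F G : Sp S} {f : F ⟶ G} (h : RepWith (MorphismProperty.monomorphisms Scheme.{u}) f) :
    Mono f := by
  have h1 : ∀ (T : Over S) (a b : (yon S).obj T ⟶ F), a ≫ f = b ≫ f → a = b := by
    intro T a b hab
    obtain ⟨V, snd, fst, sq⟩ := h.1 (a ≫ f)
    have hm : Mono snd.left := h.2 _ fst snd sq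
    have hm' : Mono snd := (Over.forget S).mono_of_mono_map hm
    have hm2 : Mono ((yon S).map snd) := inferInstance
    let la := sq.lift a (𝟙 _) (by simp)
    let lb := sq.lift b (𝟙 _) (by simp [hab])
    have : la = lb := by
      rw [← cancel_mono ((yon S).map snd), sq.lift_snd, sq.lift_snd]
    calc a = la ≫ fst := (sq.lift_fst _ _ _).symm
      _ = lb ≫ fst := by rw [this]
      _ = b := sq.lift_fst _ _ _
  constructor
  intro Z a b hab
  apply Sheaf.hom_ext
  ext T x
  have key := h1 T.unop ((J S).uliftYonedaEquiv.symm x ≫ a) ((J S).uliftYonedaEquiv.symm x ≫ b) (by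
    rw [Category.assoc, Category.assoc, hab])
  rw [GrothendieckTopology.uliftYonedaEquiv_symm_naturality_right,
    GrothendieckTopology.uliftYonedaEquiv_symm_naturality_right] at key
  exact (J S).uliftYonedaEquiv.symm.injective key

theorem mono_of_immersion {F G : Sp S} {f : F ⟶ G} (h : RepWith @IsImmersion f) : Mono f :=
  mono_of_repWith (repWith_imp (Q := MorphismProperty.monomorphisms Scheme.{u}) (fun g hg => by
    have : IsImmersion g := hg
    exact (MorphismProperty.monomorphisms.iff g).2 inferInstance) h)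

theorem repWith_of_mono_base {P : MorphismProperty Scheme.{u}} {F F₁ F₂ : Sp S}
    (f₁ : F₁ ⟶ F) (f₂ : F₂ ⟶ F) [Mono f₂] (h₁ : RepWith P f₁) (g : F₁ ⟶ F₂) (w : g ≫ f₂ = f₁) :
    RepWith P g := by
  have sq : IsPullback (𝟙 F₁) g f₁ f₂ := by
    refine ⟨⟨by simp [w]⟩, ⟨PullbackCone.IsLimit.mk _ (fun c => c.fst) ?_ ?_ ?_⟩⟩
    · intro c; simp
    · intro c
      have h := c.condition
      rw [← cancel_mono f₂, Category.assoc, w]; exact h
    · intro c m h1 _
      simpa using h1
  exact (RepWith P).of_isPullback sq h₁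

theorem repWith_of_affine (P : MorphismProperty Scheme.{u}) [IsZariskiLocalAtTarget P] {F G : Sp S} {a : F ⟶ G}
    (ha : Representable a)
    (h : ∀ (W E : Over S) (w : (yon S).obj W ⟶ G) (fst : (yon S).obj E ⟶ F) (snd : E ⟶ W), IsAffine W.left →
      IsPullback fst ((yon S).map snd) a w → P snd.left) : RepWith P a := by
  refine ⟨ha, fun W E w fst snd sq1 => ?_⟩
  rw [MorphismProperty.inverseImage_iff]
  change P snd.left
  rw [IsZariskiLocalAtTarget.iff_of_openCover (P := P) W.left.affineCover]
  intro i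
  let Wi : Over S := Over.mk (W.left.affineCover.f i ≫ W.hom)
  let ι : Wi ⟶ W := Over.homMk (W.left.affineCover.f i) rfl
  have sqE : IsPullback (pullback.fst snd ι) (pullback.snd snd ι) snd ι := IsPullback.of_hasPullback _ _
  have sq3 := (sqE.map (yon S)).paste_horiz sq1
  have hP := h Wi _ _ _ _ (show IsAffine (W.left.affineCover.X i) from inferInstance) sq3
  have sq4 := sqE.map (Over.forget S)
  have e : pullback.snd snd.left (W.left.affineCover.f i) = sq4.isoPullback.inv ≫ (pullback.snd snd ι).left :=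
    (sq4.isoPullback_inv_snd).symm
  change P (pullback.snd snd.left (W.left.affineCover.f i))
  rw [e]
  exact MorphismProperty.RespectsIso.precomp P _ _ hP

theorem diag_test {P : MorphismProperty Scheme.{u}} {X Y : Sp S} {f : X ⟶ Y} {W E : Over S}
    {w : (yon S).obj W ⟶ pullback f f} {fst : (yon S).obj E ⟶ X} {snd : E ⟶ W}
    (sq1 : IsPullback fst ((yon S).map snd) (pullback.diagonal f) w)
    {K : Sp S} {k1 : K ⟶ X} {k2 : K ⟶ (yon S).obj W} (sqK : IsPullback k1 k2 f (w ≫ pullback.fst f f ≫ f))
    (hK : RepWith P (pullback.diagonal k2)) : P snd.left := by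
  let l : (yon S).obj W ⟶ pullback k2 k2 := pullback.lift (sqK.lift (w ≫ pullback.fst f f) (𝟙 _) (by simp))
    (sqK.lift (w ≫ pullback.snd f f) (𝟙 _) (by rw [Category.assoc, ← pullback.condition, Category.id_comp]))
    (by rw [sqK.lift_snd, sqK.lift_snd])
  have sqD := H15Cat.isPullback_diagonal_baseChange sqK
  have hl : l ≫ pullback.map k2 k2 f f k1 k1 _ sqK.w.symm sqK.w.symm = w := by
    apply pullback.hom_ext
    · simp only [pullback.map, Category.assoc, pullback.lift_fst, l]
      rw [pullback.lift_fst_assoc, sqK.lift_fst]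
    · simp only [pullback.map, Category.assoc, pullback.lift_snd, l]
      rw [pullback.lift_snd_assoc, sqK.lift_fst]
  let t : (yon S).obj E ⟶ K := sqD.lift fst ((yon S).map snd ≫ l) (by rw [Category.assoc, hl, sq1.w])
  have sq2 : IsPullback t ((yon S).map snd) (pullback.diagonal k2) l := by
    refine IsPullback.of_right ?_ (sqD.lift_snd _ _ _) sqD
    rw [sqD.lift_fst, hl]
    exact sq1
  exact hK.2 l t snd sq2

theorem diag_baseChange {P : MorphismProperty Scheme.{u}} {X Y V K : Sp S} {f : X ⟶ Y} {p : V ⟶ Y} {fst : K ⟶ X}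
    {snd : K ⟶ V} (sq : IsPullback fst snd f p) (h : RepWith P (pullback.diagonal f)) :
    RepWith P (pullback.diagonal snd) :=
  (RepWith P).of_isPullback (H15Cat.isPullback_diagonal_baseChange sq) h

theorem diag_of_affine (P : MorphismProperty Scheme.{u}) [IsZariskiLocalAtTarget P] {X Y : Sp S} {f : X ⟶ Y}
    (hf : Representable (pullback.diagonal f))
    (h : ∀ (Z : Over S), IsAffine Z.left → ∀ (g : (yon S).obj Z ⟶ Y) (K : Sp S)
        (fst : K ⟶ X) (snd : K ⟶ (yon S).obj Z), IsPullback fst snd f g → RepWith P (pullback.diagonal snd)) :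
    RepWith P (pullback.diagonal f) :=
  repWith_of_affine P hf fun W _ w _ _ hW sq =>
    diag_test sq (IsPullback.of_hasPullback f (w ≫ pullback.fst f f ≫ f)) (h W hW _ _ _ _ (IsPullback.of_hasPullback _ _))

instance qc_desc : MorphismProperty.DescendsAlong @QuasiCompact (@Surjective ⊓ @Flat ⊓ @QuasiCompact : MorphismProperty Scheme.{u}) := by
  apply MorphismProperty.DescendsAlong.mk'
  intro X Y Z f g _ hf hg
  have hs : Surjective f := hf.1.1
  have hq : QuasiCompact f := hf.2
  have hg' : QuasiCompact (pullback.fst f g) := hg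
  refine ⟨fun V hV hVc => ?_⟩
  have h1 : IsCompact (f ⁻¹' V) := QuasiCompact.isCompact_preimage V hV hVc
  have h2 : IsCompact ((pullback.fst f g) ⁻¹' (f ⁻¹' V)) :=
    QuasiCompact.isCompact_preimage _ (hV.preimage f.continuous) h1
  have h3 : (pullback.snd f g) '' ((pullback.fst f g) ⁻¹' (f ⁻¹' V)) = g ⁻¹' V := by
    ext y
    constructor
    · rintro ⟨x, hx, rfl⟩
      have : f (pullback.fst f g x) = g (pullback.snd f g x) := by
        rw [← Scheme.Hom.comp_apply, ← Scheme.Hom.comp_apply, pullback.condition]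
      change g (pullback.snd f g x) ∈ V
      rw [← this]; exact hx
    · intro hy
      obtain ⟨x, rfl⟩ := (pullback.snd f g).surjective y
      refine ⟨x, ?_, rfl⟩
      have : f (pullback.fst f g x) = g (pullback.snd f g x) := by
        rw [← Scheme.Hom.comp_apply, ← Scheme.Hom.comp_apply, pullback.condition]
      change f (pullback.fst f g x) ∈ V
      rw [this]; exact hy
  change IsCompact (g ⁻¹' V)
  rw [← h3]
  exact h2.image (pullback.snd f g).continuous

theorem closed_of_univClosed {F G : Sp S} {f : F ⟶ G} (h : RepWith @UniversallyClosed f) (hd : DP f) :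
    RepWith @IsClosedImmersion f :=
  ⟨h.1, fun _ _ g fst snd sq => by
    have h1 : UniversallyClosed snd.left := h.2 g fst snd sq
    have h2 : LocallyOfFiniteType snd.left := hd.lft.2 g fst snd sq
    have h3 : Mono snd.left := hd.mono.2 g fst snd sq
    have h4 : IsProper snd.left := {}
    exact (IsClosedImmersion.iff_isProper_and_mono _).2 ⟨h4, h3⟩⟩

theorem univClosed_of_closed {F G : Sp S} {f : F ⟶ G} (h : RepWith @IsClosedImmersion f) :
    RepWith @UniversallyClosed f :=
  repWith_imp (Q := @UniversallyClosed) (fun g hg => by have : IsClosedImmersion g := hg; infer_instance) h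

theorem diag_descend (P : MorphismProperty Scheme.{u}) [P.DescendsAlong Fppf] {X Y V K : Sp S} (hX : IsAlgSpace X)
    {f : X ⟶ Y} {p : V ⟶ Y} (hp : RepWith Fppf p) {fst : K ⟶ X}
    {snd : K ⟶ V} (sq : IsPullback fst snd f p) (h : RepWith P (pullback.diagonal snd)) :
    RepWith P (pullback.diagonal f) := by
  have hb : RepWith Fppf (pullback.map snd snd f f fst fst p sq.w.symm sq.w.symm) :=
    (RepWith Fppf).of_isPullback (H15Cat.isPullback_map_baseChange sq).flip hp
  exact descend_fppf P (diagonal_rep hX f) hb (H15Cat.isPullback_diagonal_baseChange sq) h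

theorem sep_descend {X Y V K : Sp S} (hX : IsAlgSpace X)
    {f : X ⟶ Y} {p : V ⟶ Y} (hp : RepWith Fppf p) {fst : K ⟶ X}
    {snd : K ⟶ V} (sq : IsPullback fst snd f p) (h : IsSeparatedMor snd) : IsSeparatedMor f :=
  closed_of_univClosed (diag_descend @UniversallyClosed hX hp sq (univClosed_of_closed h)) (dp_diagonal hX f)

theorem qsep_descend {X Y V K : Sp S} (hX : IsAlgSpace X)
    {f : X ⟶ Y} {p : V ⟶ Y} (hp : RepWith Fppf p) {fst : K ⟶ X}
    {snd : K ⟶ V} (sq : IsPullback fst snd f p) (h : IsQuasiSeparatedMor snd) : IsQuasiSeparatedMor f :=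
  diag_descend @QuasiCompact hX hp sq h

end Groth.Agent.H15AS
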