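import Groth.Prelude.Def_W4stk3formalspacesTaut
import Mathlib.Topology.Algebra.Nonarchimedean.Completion
import Mathlib.Topology.Algebra.InfiniteSum.Nonarchimedean
import Mathlib.Topology.Algebra.UniformRing
import Mathlib.Topology.Algebra.OpenSubgroup
import Mathlib.Tactic

set_option autoImplicit false
universe u v w

namespace Groth.Agent.H15LT
open Topology Filter LinTop

section module
variable {R : Type u} [Ring R] {M : Type v} [AddCommGroup M] [Module R M] [TopologicalSpace M]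
    [IsTopologicalAddGroup M] {ι : Type w}

theorem closure_eq (B : ι → Submodule R M)
    (hB : (nhds (0 : M)).HasBasis (fun _ => True) (fun i => (B i : Set M)))
    (N : Submodule R M) :
    closure (N : Set M) = ⋂ i, ((N ⊔ B i : Submodule R M) : Set M) := by
  ext x
  rw [mem_closure_iff_nhds_basis (hB.nhds_of_zero x)]
  simp only [true_implies, Set.mem_iInter, SetLike.mem_coe, Set.mem_ofPred_eq]
  refine forall_congr' fun i => ?_
  constructor
  · rintro ⟨y, hy, h⟩
    have : x = y + -(y - x) := by abel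
    rw [this]
    exact Submodule.add_mem_sup hy (Submodule.neg_mem _ h)
  · intro h
    obtain ⟨y, hy, z, hz, rfl⟩ := Submodule.mem_sup.1 h
    refine ⟨y, hy, ?_⟩
    have : y - (y + z) = -z := by abel
    rw [this]; exact Submodule.neg_mem _ hz

end module

section ring
variable {A : Type u} [CommRing A] [TopologicalSpace A] [IsTopologicalRing A]

theorem isOpen_mono {I J : Ideal A} (hI : IsOpen (I : Set A)) (h : I ≤ J) :
    IsOpen (J : Set A) :=
  AddSubgroup.isOpen_mono (H₁ := I.toAddSubgroup) (H₂ := J.toAddSubgroup) h hI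

theorem isClosed_of_isOpen {I : Ideal A} (hI : IsOpen (I : Set A)) :
    IsClosed (I : Set A) :=
  AddSubgroup.isClosed_of_isOpen I.toAddSubgroup hI

theorem isOpen_of_mem_nhds {I : Ideal A} (hI : (I : Set A) ∈ nhds (0 : A)) :
    IsOpen (I : Set A) :=
  AddSubgroup.isOpen_of_mem_nhds I.toAddSubgroup (g := 0) hI

theorem mem_nhds_of_isOpen {I : Ideal A} (hI : IsOpen (I : Set A)) :
    (I : Set A) ∈ nhds (0 : A) := hI.mem_nhds I.zero_mem

theorem exists_open_ideal [IsLinearTopology A A] {U : Set A} (hU : U ∈ nhds (0 : A)) :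
    ∃ J : Ideal A, IsOpen (J : Set A) ∧ (J : Set A) ⊆ U :=
  (IsLinearTopology.hasBasis_open_ideal (R := A)).mem_iff.1 hU

theorem mem_closure_iff' [IsLinearTopology A A] (I : Ideal A) (x : A) :
    x ∈ closure (I : Set A) ↔ ∀ J : Ideal A, IsOpen (J : Set A) → x ∈ I ⊔ J := by
  have hb : (nhds (0 : A)).HasBasis (fun _ => True)
      (fun i : {J : Ideal A // IsOpen (J : Set A)} => ((i : Ideal A) : Set A)) := by
    refine ⟨fun U => ?_⟩
    rw [(IsLinearTopology.hasBasis_open_ideal (R := A)).mem_iff]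
    constructor
    · rintro ⟨J, hJ, h⟩; exact ⟨⟨J, hJ⟩, trivial, h⟩
    · rintro ⟨⟨J, hJ⟩, _, h⟩; exact ⟨J, hJ, h⟩
  rw [closure_eq _ hb]
  simp only [Set.mem_iInter, SetLike.mem_coe, Subtype.forall]

theorem closure_le_sup {I J : Ideal A} (hJ : IsOpen (J : Set A)) : I.closure ≤ I ⊔ J := by
  have h1 : IsClosed ((I ⊔ J : Ideal A) : Set A) := isClosed_of_isOpen (isOpen_mono hJ le_sup_right)
  exact closure_minimal (show (I : Set A) ⊆ ((I ⊔ J : Ideal A) : Set A) from fun x hx => (le_sup_left : I ≤ I ⊔ J) hx) h1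

theorem le_closure (I : Ideal A) : I ≤ I.closure := fun _ hx => subset_closure hx

theorem closure_mono' {I J : Ideal A} (h : I ≤ J) : I.closure ≤ J.closure :=
  closure_mono (show (I : Set A) ⊆ J from h)

theorem closure_le {I J : Ideal A} (h : I ≤ J) (hJ : IsClosed (J : Set A)) : I.closure ≤ J :=
  closure_minimal h hJ

theorem closure_closure' (I : Ideal A) : I.closure.closure = I.closure := by
  apply SetLike.coe_injective
  simp [Ideal.coe_closure]

/-- `I ≤ J + K` gives `I ^ n ≤ J ^ n + K`. -/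
theorem pow_le_sup {I J K : Ideal A} (h : I ≤ J ⊔ K) (n : ℕ) : I ^ n ≤ J ^ n ⊔ K := by
  induction n with
  | zero => simp
  | succ n ih =>
    rw [pow_succ, pow_succ]
    refine (Ideal.mul_mono ih h).trans ?_
    rw [Ideal.sup_mul, Ideal.mul_sup]
    refine sup_le (sup_le le_sup_left ?_) ?_
    · exact le_sup_of_le_right Ideal.mul_le_right
    · exact le_sup_of_le_right Ideal.mul_le_left

theorem closure_pow_le (I : Ideal A) (n : ℕ) [IsLinearTopology A A] : I.closure ^ n ≤ (I ^ n).closure := by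
  intro x hx
  refine (mem_closure_iff' _ _).2 fun J hJ => ?_
  exact pow_le_sup (closure_le_sup hJ) n hx

theorem map_closure_le {B : Type v} [CommRing B] [TopologicalSpace B] [IsTopologicalRing B]
    {φ : A →+* B} (hφ : Continuous φ) (I : Ideal A) : (I.closure).map φ ≤ (I.map φ).closure := by
  rw [Ideal.map_le_iff_le_comap]
  intro x hx
  have hx' : x ∈ closure (I : Set A) := hx
  have : φ x ∈ closure ((I.map φ : Ideal B) : Set B) :=
    map_mem_closure hφ hx' (fun y hy => Ideal.mem_map_of_mem φ hy)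
  exact this

theorem isOpen_comap {B : Type v} [CommRing B] [TopologicalSpace B] {φ : A →+* B} (hφ : Continuous φ) {J : Ideal B} (hJ : IsOpen (J : Set B)) :
    IsOpen ((J.comap φ : Ideal A) : Set A) := hJ.preimage hφ

theorem continuous_of_zero {B : Type v} [CommRing B] [TopologicalSpace B] [IsTopologicalRing B] {φ : A →+* B}
    (h : ∀ U ∈ nhds (0 : B), φ ⁻¹' U ∈ nhds (0 : A)) : Continuous φ := by
  refine continuous_of_continuousAt_zero φ ?_
  intro U hU
  rw [map_zero] at hU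
  exact h U hU

theorem tn_iff [IsLinearTopology A A] {a : A} :
    IsTopologicallyNilpotent a ↔ ∀ J : Ideal A, IsOpen (J : Set A) → ∃ n : ℕ, a ^ n ∈ J := by
  unfold IsTopologicallyNilpotent
  rw [(IsLinearTopology.hasBasis_open_ideal (R := A)).tendsto_right_iff]
  refine forall_congr' fun J => forall_congr' fun hJ => ?_
  rw [Filter.eventually_atTop]
  constructor
  · rintro ⟨n, h⟩; exact ⟨n, h n le_rfl⟩
  · rintro ⟨n, h⟩; exact ⟨n, fun m hm => Ideal.pow_mem_of_pow_mem _ h hm⟩

end ring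

section tn
variable {B : Type v} [CommRing B] [TopologicalSpace B] [IsTopologicalRing B]

theorem isClosed_tn [IsLinearTopology B B] : IsClosed ((topologicalNilradical B : Ideal B) : Set B) := by
  rw [← closure_subset_iff_isClosed]
  intro x hx
  rw [SetLike.mem_coe, IsTopologicallyNilpotent.mem_topologicalNilradical_iff, tn_iff]
  intro J hJ
  have := (mem_closure_iff' _ x).1 hx J hJ
  obtain ⟨y, hy, z, hz, rfl⟩ := Submodule.mem_sup.1 this
  rw [IsTopologicallyNilpotent.mem_topologicalNilradical_iff, tn_iff] at hy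
  obtain ⟨n, hn⟩ := hy J hJ
  refine ⟨n, ?_⟩
  have h1 : Ideal.Quotient.mk J (y + z) = Ideal.Quotient.mk J y := by
    rw [Ideal.Quotient.eq]; simpa using hz
  rw [← Ideal.Quotient.eq_zero_iff_mem, map_pow, h1, ← map_pow, Ideal.Quotient.eq_zero_iff_mem]
  exact hn

variable {A : Type u} [CommRing A] [TopologicalSpace A] [IsTopologicalRing A] [IsLinearTopology A A]

theorem closure_map_tn [IsLinearTopology B B] (φ : A →+* B) (hφ : Continuous φ) (I : Ideal A)
    (hI : ∀ f ∈ I, IsTopologicallyNilpotent f) (g : B) (hg : g ∈ (I.map φ).closure) :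
    IsTopologicallyNilpotent g := by
  have h1 : I.map φ ≤ topologicalNilradical B := by
    rw [Ideal.map_le_iff_le_comap]
    intro x hx
    rw [Ideal.mem_comap, IsTopologicallyNilpotent.mem_topologicalNilradical_iff]
    exact (hI x hx).map hφ
  exact closure_le h1 isClosed_tn hg

theorem isOpen_closure_of {I J : Ideal A} (h : IsOpen (closure (I : Set A))) (hIJ : I ≤ J) :
    IsOpen (closure (J : Set A)) := by
  have := isOpen_mono (I := I.closure) (J := J.closure) h (closure_mono' hIJ)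
  exact this

theorem taut_comp {C : Type w} [CommRing C] [TopologicalSpace C] [IsTopologicalRing C]
    (φ : A →+* B) (ψ : B →+* C) (hφ : Continuous φ) (hψ : Continuous ψ)
    (h : IsTaut (ψ.comp φ)) : IsTaut ψ := by
  refine ⟨hψ, fun J hJ => ?_, fun U hU => ?_⟩
  · have h1 := h.2.1 (J.comap φ) (isOpen_comap hφ hJ)
    have h2 : (J.comap φ).map (ψ.comp φ) ≤ J.map ψ := by
      rw [← Ideal.map_map]
      exact Ideal.map_mono Ideal.map_comap_le
    exact isOpen_mono (I := ((J.comap φ).map (ψ.comp φ)).closure) (J := (J.map ψ).closure) h1 (closure_mono' h2)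
  · obtain ⟨I, hI, hIU⟩ := h.2.2 U hU
    have hK := h.2.1 I hI
    refine ⟨((I.map (ψ.comp φ)).closure).comap ψ, hK.preimage hψ, ?_⟩
    refine subset_trans ?_ hIU
    refine closure_minimal (Ideal.map_comap_le) isClosed_closure

theorem taut_cg {φ : A →+* B} (hφ : IsTaut φ) (hA : (nhds (0 : A)).IsCountablyGenerated) :
    (nhds (0 : B)).IsCountablyGenerated := by
  obtain ⟨x, hx, hb⟩ := (IsLinearTopology.hasBasis_open_ideal (R := A)).exists_antitone_subbasis
  have : (nhds (0 : B)).HasBasis (fun _ : ℕ => True) (fun n => closure (((x n).map φ : Ideal B) : Set B)) := by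
    refine ⟨fun U => ⟨fun hU => ?_, ?_⟩⟩
    · obtain ⟨I, hI, hIU⟩ := hφ.2.2 U hU
      obtain ⟨n, _, hn⟩ := hb.1.mem_iff.1 (mem_nhds_of_isOpen hI)
      exact ⟨n, trivial, (closure_mono (Ideal.map_mono hn)).trans hIU⟩
    · rintro ⟨n, _, hn⟩
      exact mem_of_superset ((hφ.2.1 _ (hx n)).mem_nhds (subset_closure (Ideal.zero_mem _))) hn
  exact this.isCountablyGenerated

theorem wpa_of_taut [IsLinearTopology B B] {φ : A →+* B} (hφ : IsTaut φ) (hA : IsWeaklyPreadmissible A) :
    IsWeaklyPreadmissible B := by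
  obtain ⟨_, I, hI, hn⟩ := hA
  exact ⟨inferInstance, (I.map φ).closure, hφ.2.1 I hI, fun f hf => closure_map_tn φ hφ.1 I hn f hf⟩

theorem idd_of_taut [IsLinearTopology B B] {φ : A →+* B} (hφ : IsTaut φ) {I : Ideal A}
    (hI : IsIdealOfDefinition A I) : IsIdealOfDefinition B (I.map φ).closure := by
  refine ⟨hφ.2.1 I hI.1, fun U hU => ?_⟩
  obtain ⟨V, hV, hVU⟩ := exists_open_ideal hU
  obtain ⟨J, hJ, hJV⟩ := hφ.2.2 V (mem_nhds_of_isOpen hV)
  obtain ⟨n, hn, hIJ⟩ := hI.2 J (mem_nhds_of_isOpen hJ)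
  refine ⟨n, hn, subset_trans ?_ hVU⟩
  have h1 : (I.map φ).closure ^ n ≤ ((I.map φ) ^ n).closure := closure_pow_le _ _
  have h2 : ((I.map φ) ^ n).closure ≤ (J.map φ).closure := by
    rw [← Ideal.map_pow]; exact closure_mono' (Ideal.map_mono hIJ)
  exact (h1.trans h2).trans hJV

theorem pa_of_taut [IsLinearTopology B B] {φ : A →+* B} (hφ : IsTaut φ) (hA : IsPreadmissible A) :
    IsPreadmissible B := by
  obtain ⟨_, I, hI⟩ := hA
  exact ⟨inferInstance, _, idd_of_taut hφ hI⟩

theorem taut_iff_wid [IsLinearTopology B B] (hA : IsWeaklyPreadmissible A)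
    (φ : A →+* B) (hφ : Continuous φ) :
    IsTaut φ ↔
      ((∀ I : Ideal A, IsWeakIdealOfDefinition A I →
          IsWeakIdealOfDefinition B (I.map φ).closure) ∧
        ∀ U ∈ nhds (0 : B), ∃ I : Ideal A, IsWeakIdealOfDefinition A I ∧
          ((I.map φ).closure : Set B) ⊆ U) := by
  obtain ⟨_, I0, hI0, hn0⟩ := hA
  have hinf : ∀ I : Ideal A, IsOpen (I : Set A) → IsWeakIdealOfDefinition A (I ⊓ I0) := fun I hI =>
    ⟨by simpa using hI.inter hI0, fun f hf => hn0 f hf.2⟩
  constructor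
  · intro h
    refine ⟨fun I hI => ⟨h.2.1 I hI.1, fun f hf => closure_map_tn φ hφ I hI.2 f hf⟩, fun U hU => ?_⟩
    obtain ⟨I, hI, hIU⟩ := h.2.2 U hU
    exact ⟨I ⊓ I0, hinf I hI, subset_trans (closure_mono (Ideal.map_mono inf_le_left)) hIU⟩
  · rintro ⟨h1, h2⟩
    refine ⟨hφ, fun I hI => ?_, fun U hU => ?_⟩
    · exact isOpen_mono (I := ((I ⊓ I0).map φ).closure) (J := (I.map φ).closure) (h1 _ (hinf I hI)).1
        (closure_mono' (Ideal.map_mono inf_le_left))
    · obtain ⟨I, hI, hIU⟩ := h2 U hU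
      exact ⟨I, hI.1, hIU⟩

end tn

section wp
variable {A : Type u} [CommRing A] [τ : TopologicalSpace A] [IsTopologicalRing A]
variable {B : Type v} [CommRing B] [TopologicalSpace B] [IsTopologicalRing B]

theorem isLinearTopology_of_isAdic {I : Ideal A} (h : IsAdic I) : IsLinearTopology A A := by
  have hb := h.hasBasis_nhds_zero
  refine IsLinearTopology.mk_of_hasBasis A hb

theorem isLinear_of_preadic (h : IsPreadic A) : IsLinearTopology A A := by
  obtain ⟨I, hI⟩ := h; exact isLinearTopology_of_isAdic hI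

theorem preadic_wp (h : IsPreadic A) : IsWeaklyPreadic A := by
  obtain ⟨I, hI⟩ := h
  have hI' := isAdic_iff.1 hI
  refine ⟨isLinearTopology_of_isAdic hI, I, fun n => ?_, fun U hU => ?_⟩
  · rw [(isClosed_of_isOpen (hI'.1 n)).closure_eq]; exact hI'.1 n
  · obtain ⟨n, hn⟩ := hI'.2 U hU
    exact ⟨n, by rwa [(isClosed_of_isOpen (hI'.1 n)).closure_eq]⟩

theorem wp_of_taut [IsLinearTopology A A] [IsLinearTopology B B] {φ : A →+* B} (hφ : IsTaut φ)
    (hA : IsWeaklyPreadic A) : IsWeaklyPreadic B := by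
  obtain ⟨_, I, hI, hb⟩ := hA
  refine ⟨inferInstance, I.map φ, fun n => ?_, fun U hU => ?_⟩
  · rw [← Ideal.map_pow]
    have h1 := hφ.2.1 (I ^ n).closure (hI n)
    have h2 : ((I ^ n).closure).map φ ≤ ((I ^ n).map φ).closure := map_closure_le hφ.1 _
    have h3 : (((I ^ n).closure).map φ).closure ≤ ((I ^ n).map φ).closure := by
      have := closure_mono' h2
      rwa [closure_closure'] at this
    exact isOpen_mono (I := (((I ^ n).closure).map φ).closure) (J := ((I ^ n).map φ).closure) h1 h3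
  · obtain ⟨J, hJ, hJU⟩ := hφ.2.2 U hU
    obtain ⟨n, hn⟩ := hb J (mem_nhds_of_isOpen hJ)
    refine ⟨n, subset_trans ?_ hJU⟩
    rw [← Ideal.map_pow]
    exact closure_mono (Ideal.map_mono (subset_closure.trans hn))

theorem wp_imp4 (hA : IsWeaklyPreadic A) : IsPreadmissible A ∧
    ∀ I : Ideal A, IsIdealOfDefinition A I → ∀ n : ℕ, IsOpen (closure ((I ^ n : Ideal A) : Set A)) := by
  obtain ⟨_, I0, hI0, hb⟩ := hA
  refine ⟨⟨inferInstance, I0.closure, by simpa using hI0 1, fun U hU => ?_⟩, fun I hI n => ?_⟩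
  · obtain ⟨n, hn⟩ := hb U hU
    refine ⟨n + 1, Nat.succ_pos n, subset_trans ?_ hn⟩
    exact (Ideal.pow_le_pow_right (Nat.le_succ n)).trans (closure_pow_le I0 n)
  · obtain ⟨k, hk⟩ := hb I (mem_nhds_of_isOpen hI.1)
    have h1 : (I0 ^ k) ^ n ≤ I ^ n := Ideal.pow_right_mono (subset_closure.trans hk) n
    rw [← pow_mul] at h1
    exact isOpen_mono (I := (I0 ^ (k * n)).closure) (J := (I ^ n).closure) (hI0 _) (closure_mono' h1)

theorem wp_of3 [IsLinearTopology A A] (I : Ideal A) (hI : IsIdealOfDefinition A I)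
    (h : ∀ n : ℕ, 0 < n → IsOpen (closure ((I ^ n : Ideal A) : Set A))) : IsWeaklyPreadic A := by
  refine ⟨inferInstance, I, fun n => ?_, fun U hU => ?_⟩
  · rcases Nat.eq_zero_or_pos n with rfl | hn
    · simp
    · exact h n hn
  · obtain ⟨J, hJ, hJU⟩ := exists_open_ideal hU
    obtain ⟨n, hn, hIJ⟩ := hI.2 J (mem_nhds_of_isOpen hJ)
    refine ⟨n, subset_trans ?_ hJU⟩
    exact closure_minimal hIJ (isClosed_of_isOpen hJ)

theorem wp_cg (hA : IsWeaklyPreadic A) : (nhds (0 : A)).IsCountablyGenerated := by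
  obtain ⟨_, I, hI, hb⟩ := hA
  have : (nhds (0 : A)).HasBasis (fun _ : ℕ => True) (fun n => closure ((I ^ n : Ideal A) : Set A)) := by
    refine ⟨fun U => ⟨fun hU => ?_, ?_⟩⟩
    · obtain ⟨n, hn⟩ := hb U hU
      exact ⟨n, trivial, hn⟩
    · rintro ⟨n, _, hn⟩
      exact mem_of_superset ((hI n).mem_nhds (subset_closure (Ideal.zero_mem _))) hn
  exact this.isCountablyGenerated

theorem taut_of_wp_id [IsLinearTopology A A] (hA : IsWeaklyPreadic A) :
    ∃ (A' : Type u) (_ : CommRing A') (_ : TopologicalSpace A') (_ : IsTopologicalRing A')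
        (φ : A' →+* A), IsPreadic A' ∧ IsTaut φ := by
  obtain ⟨_, I, hI, hb⟩ := hA
  have key : ∀ U : Set A, U ∈ @nhds A I.adicTopology 0 ↔ ∃ n : ℕ, ((I ^ n : Ideal A) : Set A) ⊆ U := by
    intro U
    have := (I.hasBasis_nhds_zero_adic).mem_iff (t := U)
    simpa using this
  refine ⟨A, inferInstance, I.adicTopology, ?_, RingHom.id A, ⟨I, rfl⟩, ?_, ?_, ?_⟩
  · letI := I.adicTopology
    have := I.nonarchimedean
    infer_instance
  · have hna := I.nonarchimedean
    refine @continuous_of_zero A _ I.adicTopology inferInstance A _ τ inferInstance (RingHom.id A) ?_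
    intro U hU
    obtain ⟨n, hn⟩ := hb U hU
    exact (key _).2 ⟨n, subset_closure.trans hn⟩
  · intro J hJ
    have h1 : (J : Set A) ∈ @nhds A I.adicTopology 0 := by
      have hna := I.nonarchimedean
      exact @mem_nhds_of_isOpen A _ I.adicTopology inferInstance J hJ
    obtain ⟨n, hn⟩ := (key _).1 h1
    rw [Ideal.map_id]
    exact isOpen_mono (I := (I ^ n).closure) (J := J.closure) (hI n) (closure_mono' hn)
  · intro U hU
    obtain ⟨n, hn⟩ := hb U hU
    refine ⟨I ^ n, ?_, ?_⟩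
    · letI τ' := I.adicTopology
      have hn := I.nonarchimedean
      exact isOpen_of_mem_nhds ((key _).2 ⟨n, subset_rfl⟩)
    · rw [Ideal.map_id]; exact hn

theorem isOpen_pow_of_idd (hA : IsPreadic A) {I : Ideal A} (hI : IsIdealOfDefinition A I) (n : ℕ) :
    IsOpen ((I ^ n : Ideal A) : Set A) := by
  obtain ⟨J, hJ⟩ := hA
  have hJ' := isAdic_iff.1 hJ
  obtain ⟨m, hm⟩ := hJ'.2 I (mem_nhds_of_isOpen hI.1)
  have : J ^ (m * n) ≤ I ^ n := by rw [pow_mul]; exact Ideal.pow_right_mono hm n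
  exact isOpen_mono (hJ'.1 _) this

theorem taut_of_adic (hA : IsPreadic A) (hB : IsPreadic B) (φ : A →+* B) (hφ : Continuous φ)
    (h : IsAdicHom φ) : IsTaut φ := by
  obtain ⟨I, hI, hIB⟩ := h
  have hIB' := isAdic_iff.1 hIB
  refine ⟨hφ, fun J hJ => ?_, fun U hU => ?_⟩
  · obtain ⟨n, hn, hIJ⟩ := hI.2 J (mem_nhds_of_isOpen hJ)
    have h1 : (I.map φ) ^ n ≤ J.map φ := by rw [← Ideal.map_pow]; exact Ideal.map_mono hIJ
    have h2 := isOpen_mono (hIB'.1 n) h1
    rwa [(isClosed_of_isOpen h2).closure_eq]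
  · obtain ⟨n, hn⟩ := hIB'.2 U hU
    refine ⟨I ^ n, isOpen_pow_of_idd hA hI n, ?_⟩
    rw [Ideal.map_pow, (isClosed_of_isOpen (hIB'.1 n)).closure_eq]
    exact hn

theorem adic_comp {C : Type w} [CommRing C] [TopologicalSpace C] [IsTopologicalRing C]
    (hB : IsPreadic B) (φ : A →+* B) (ψ : B →+* C) (hφ : Continuous φ) (hψ : Continuous ψ)
    (h : IsAdicHom (ψ.comp φ)) : IsAdicHom ψ := by
  obtain ⟨I, hI, hIC⟩ := h
  obtain ⟨J, hJ⟩ := hB
  have hJ' := isAdic_iff.1 hJ
  have hIC' := isAdic_iff.1 hIC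
  have hJo : IsOpen (J : Set B) := by simpa using hJ'.1 1
  obtain ⟨n, hn0, hn⟩ := hI.2 (J.comap φ) (mem_nhds_of_isOpen (isOpen_comap hφ hJo))
  have hK : (I.map φ ⊔ J) ^ n ≤ J := by
    refine (pow_le_sup (I := I.map φ ⊔ J) (J := I.map φ) (K := J) le_rfl n).trans (sup_le ?_ le_rfl)
    rw [← Ideal.map_pow, Ideal.map_le_iff_le_comap]
    exact hn
  refine ⟨I.map φ ⊔ J, ⟨isOpen_mono hJo le_sup_right, fun U hU => ?_⟩, ?_⟩
  · obtain ⟨m, hm⟩ := hJ'.2 U hU
    refine ⟨n * (m + 1), Nat.mul_pos hn0 (Nat.succ_pos m), subset_trans ?_ hm⟩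
    rw [pow_mul]
    exact (Ideal.pow_right_mono hK (m + 1)).trans (Ideal.pow_le_pow_right (Nat.le_succ m))
  · have hle : I.map (ψ.comp φ) ≤ (I.map φ ⊔ J).map ψ := by
      rw [← Ideal.map_map]; exact Ideal.map_mono le_sup_left
    rw [isAdic_iff]
    refine ⟨fun k => isOpen_mono (hIC'.1 k) (Ideal.pow_right_mono hle k), fun U hU => ?_⟩
    obtain ⟨m, hm⟩ := hIC'.2 U hU
    have hICo : IsOpen ((I.map (ψ.comp φ) : Ideal C) : Set C) := by simpa using hIC'.1 1
    obtain ⟨r, hr⟩ := hJ'.2 ((I.map (ψ.comp φ)).comap ψ) (mem_nhds_of_isOpen (isOpen_comap hψ hICo))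
    have h1 : ((I.map φ ⊔ J).map ψ) ^ (n * r) ≤ I.map (ψ.comp φ) := by
      rw [← Ideal.map_pow, Ideal.map_le_iff_le_comap, pow_mul]
      exact (Ideal.pow_right_mono hK r).trans hr
    refine ⟨n * r * m, subset_trans ?_ hm⟩
    rw [pow_mul]
    exact Ideal.pow_right_mono h1 m

end wp

section ff
variable {A : Type u} [CommRing A] [TopologicalSpace A] [IsTopologicalRing A] [IsLinearTopology A A]
variable {B : Type v} [CommRing B] [TopologicalSpace B] [IsTopologicalRing B]

theorem comap_closure_map_open {φ : A →+* B} (h : IsTautFFlat φ) {I : Ideal A} (hI : IsOpen (I : Set A)) :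
    ((I.map φ).closure).comap φ = I := by
  have hinj : Function.Injective (descentMap φ I) := (h.2 I hI).injective
  apply le_antisymm
  · intro x hx
    rw [← Ideal.Quotient.eq_zero_iff_mem]
    apply hinj
    rw [map_zero]
    change Ideal.Quotient.mk _ (φ x) = 0
    exact Ideal.Quotient.eq_zero_iff_mem.2 hx
  · exact Ideal.le_comap_map.trans (Ideal.comap_mono (le_closure _))

theorem ff_cg [IsLinearTopology B B] {φ : A →+* B} (h : IsTautFFlat φ) (hB : (nhds (0 : B)).IsCountablyGenerated) :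
    (nhds (0 : A)).IsCountablyGenerated := by
  obtain ⟨x, hx, hb⟩ := (IsLinearTopology.hasBasis_open_ideal (R := B)).exists_antitone_subbasis
  have : (nhds (0 : A)).HasBasis (fun _ : ℕ => True) (fun n => (((x n).comap φ : Ideal A) : Set A)) := by
    refine ⟨fun U => ⟨fun hU => ?_, ?_⟩⟩
    · obtain ⟨I, hI, hIU⟩ := exists_open_ideal hU
      obtain ⟨n, _, hn⟩ := hb.1.mem_iff.1 (mem_nhds_of_isOpen (I := (I.map φ).closure) (h.1.2.1 I hI))
      refine ⟨n, trivial, subset_trans ?_ hIU⟩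
      have := Ideal.comap_mono (f := φ) hn
      rwa [comap_closure_map_open h hI] at this
    · rintro ⟨n, _, hn⟩
      exact mem_of_superset (mem_nhds_of_isOpen (isOpen_comap h.1.1 (hx n))) hn
  exact this.isCountablyGenerated

theorem ff_wpa {φ : A →+* B} (h : IsTautFFlat φ) (hB : IsWeaklyPreadmissible B) :
    IsWeaklyPreadmissible A := by
  obtain ⟨_, J, hJ, hn⟩ := hB
  refine ⟨inferInstance, J.comap φ, isOpen_comap h.1.1 hJ, fun f hf => ?_⟩
  rw [tn_iff]
  intro I hI
  obtain ⟨n, hn⟩ := tn_iff.1 (hn _ hf) (I.map φ).closure (h.1.2.1 I hI)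
  refine ⟨n, ?_⟩
  rw [← comap_closure_map_open h hI, Ideal.mem_comap, map_pow]
  exact hn

theorem ff_pa {φ : A →+* B} (h : IsTautFFlat φ) (hB : IsPreadmissible B) :
    IsPreadmissible A := by
  obtain ⟨_, J, hJ, hn⟩ := hB
  refine ⟨inferInstance, J.comap φ, isOpen_comap h.1.1 hJ, fun U hU => ?_⟩
  obtain ⟨I, hI, hIU⟩ := exists_open_ideal hU
  obtain ⟨n, hn0, hn⟩ := hn (I.map φ).closure (mem_nhds_of_isOpen (I := (I.map φ).closure) (h.1.2.1 I hI))
  refine ⟨n, hn0, subset_trans ?_ hIU⟩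
  have h2 : (J.comap φ) ^ n ≤ (J ^ n).comap φ := Ideal.le_comap_pow φ n
  have h3 := h2.trans (Ideal.comap_mono hn)
  rwa [comap_closure_map_open h hI] at h3

theorem comap_closure_map {φ : A →+* B} (h : IsTautFFlat φ) (I : Ideal A) :
    ((I.map φ).closure).comap φ ≤ I.closure := by
  intro x hx
  refine (mem_closure_iff' _ _).2 fun J hJ => ?_
  set K := (J.map φ).closure with hK
  have hKo : IsOpen (K : Set B) := h.1.2.1 J hJ
  have h1 : φ x ∈ I.map φ ⊔ K := closure_le_sup hKo hx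
  -- pass to quotient
  have hff := h.2 J hJ
  have h2 : descentMap φ J (Ideal.Quotient.mk J x) ∈ (I.map (Ideal.Quotient.mk J)).map (descentMap φ J) := by
    rw [Ideal.map_map]
    have : (descentMap φ J).comp (Ideal.Quotient.mk J) = (Ideal.Quotient.mk K).comp φ := by
      ext a; rfl
    rw [this, ← Ideal.map_map]
    change Ideal.Quotient.mk K (φ x) ∈ _
    obtain ⟨y, hy, z, hz, hyz⟩ := Submodule.mem_sup.1 h1
    rw [← hyz, map_add, Ideal.Quotient.eq_zero_iff_mem.2 hz, add_zero]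
    exact Ideal.mem_map_of_mem _ hy
  have h3 : ((I.map (Ideal.Quotient.mk J)).map (descentMap φ J)).comap (descentMap φ J) =
      I.map (Ideal.Quotient.mk J) := by
    letI := (descentMap φ J).toAlgebra
    haveI : Module.FaithfullyFlat (A ⧸ J) (B ⧸ (J.map φ).closure) := hff
    exact Ideal.comap_map_eq_self_of_faithfullyFlat (B := B ⧸ (J.map φ).closure) _
  have h4 : Ideal.Quotient.mk J x ∈ I.map (Ideal.Quotient.mk J) := by
    rw [← h3]; exact h2
  obtain ⟨y, hy, hxy⟩ := (Ideal.mem_map_iff_of_surjective _ Ideal.Quotient.mk_surjective).1 h4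
  rw [Ideal.Quotient.eq] at hxy
  have : x = y + -(y - x) := by abel
  rw [this]
  exact Submodule.add_mem_sup hy (J.neg_mem hxy)

theorem ff_isOpen_closure {φ : A →+* B} (h : IsTautFFlat φ) (I : Ideal A)
    (hI : IsOpen (closure ((I.map φ : Ideal B) : Set B))) : IsOpen (closure (I : Set A)) :=
  isOpen_mono (I := ((I.map φ).closure).comap φ) (J := I.closure) (hI.preimage h.1.1) (comap_closure_map h I)

theorem ff_wp {φ : A →+* B} (h : IsTautFFlat φ) (hB : IsWeaklyPreadic B) :
    IsWeaklyPreadic A := by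
  obtain ⟨hl, _⟩ := id hB
  obtain ⟨hB1, hB2⟩ := wp_imp4 hB
  obtain ⟨_, I, hI⟩ := ff_pa h hB1
  refine wp_of3 I hI fun n hn => ff_isOpen_closure h _ ?_
  have hJ := idd_of_taut h.1 hI
  have h1 := hB2 _ hJ n
  rw [Ideal.map_pow]
  refine isOpen_mono (I := ((I.map φ).closure ^ n).closure) (J := ((I.map φ) ^ n).closure) h1 ?_
  have := closure_mono' (closure_pow_le (I.map φ) n)
  rwa [closure_closure'] at this

end ff

end Groth.Agent.H15LT
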