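import Groth.Agent.Lib.Helper15LT
import Mathlib.RingTheory.Nakayama

set_option autoImplicit false
universe u v w

namespace Groth.Agent.H15LT
open Topology Filter LinTop

section cpl
variable {A : Type u} [CommRing A] [UniformSpace A] [IsUniformAddGroup A] [IsTopologicalRing A]
  [IsLinearTopology A A]

theorem nonarch : NonarchimedeanAddGroup A where
  is_nonarchimedean U hU := by
    obtain ⟨J, hJ, hJU⟩ := exists_open_ideal hU
    exact ⟨⟨J.toAddSubgroup, hJ⟩, hJU⟩

theorem closure_pow_le_self [T2Space A] [CompleteSpace A] (I : Ideal A) (hfg : I.FG)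
    (hopen : ∀ n : ℕ, IsOpen (closure ((I ^ n : Ideal A) : Set A)))
    (hbasis : ∀ U ∈ nhds (0 : A), ∃ n : ℕ, closure ((I ^ n : Ideal A) : Set A) ⊆ U) (n : ℕ) :
    (I ^ n).closure ≤ I ^ n := by
  intro x hx
  obtain ⟨m, g, hg⟩ := Submodule.fg_iff_exists_fin_generating_family.1 (hfg.pow (n := n))
  have step : ∀ k (r : A), r ∈ (I ^ (n + k)).closure →
      ∃ r', r' ∈ (I ^ (n + (k + 1))).closure ∧ r - r' ∈ I ^ (n + k) := by
    intro k r hr
    have := closure_le_sup (I := I ^ (n + k)) (J := (I ^ (n + (k + 1))).closure) (hopen _) hr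
    obtain ⟨y, hy, z, hz, rfl⟩ := Submodule.mem_sup.1 this
    exact ⟨z, hz, by simpa using hy⟩
  choose! f hf using step
  let r : ℕ → A := fun k => Nat.rec x (fun k r => f k r) k
  have hr : ∀ k, r k ∈ (I ^ (n + k)).closure := by
    intro k
    induction k with
    | zero => exact hx
    | succ k ih => exact (hf k _ ih).1
  have hy : ∀ k, r k - r (k + 1) ∈ I ^ (n + k) := fun k => (hf k _ (hr k)).2
  have hc : ∀ k, ∃ a : Fin m → A, (∀ j, a j ∈ I ^ k) ∧ ∑ j, a j * g j = r k - r (k + 1) := by
    intro k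
    have h1 : r k - r (k + 1) ∈ I ^ k • Submodule.span A (Set.range g) := by
      rw [hg, smul_eq_mul, ← pow_add, add_comm]; exact hy k
    obtain ⟨a, ha, hs⟩ := (Submodule.mem_ideal_smul_span_iff_exists_sum _ _ _).1 h1
    refine ⟨a, ha, ?_⟩
    rw [← hs, Finsupp.sum_fintype _ _ (by simp)]
    simp
  choose a ha hs using hc
  have hna : NonarchimedeanAddGroup A := nonarch
  have htend : ∀ (b : ℕ → A), (∀ k, b k ∈ (I ^ k).closure) → Tendsto b atTop (nhds 0) := by
    intro b hb U hU
    obtain ⟨N, hN⟩ := hbasis U hU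
    rw [Filter.mem_map]
    filter_upwards [eventually_ge_atTop N] with k hk
    exact hN (closure_mono' (Ideal.pow_le_pow_right hk) (hb k))
  have hsum : ∀ j, Summable (fun k => a k j) := fun j =>
    NonarchimedeanAddGroup.summable_of_tendsto_cofinite_zero (by
      rw [Nat.cofinite_eq_atTop]; exact htend _ fun k => le_closure _ (ha k j))
  have h1 : HasSum (fun k => ∑ j, a k j * g j) (∑ j, (∑' k, a k j) * g j) :=
    hasSum_sum fun j _ => (hsum j).hasSum.mul_right (g j)
  have h2 := h1.tendsto_sum_nat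
  have h3 : ∀ N, ∑ k ∈ Finset.range N, ∑ j, a k j * g j = x - r N := by
    intro N
    simp_rw [hs]
    rw [Finset.sum_range_sub']
    rfl
  have h4 : Tendsto r atTop (nhds 0) :=
    htend r (fun k => closure_mono' (Ideal.pow_le_pow_right (Nat.le_add_left _ _)) (hr k))
  have h5 : Tendsto (fun N => x - r N) atTop (nhds x) := by
    simpa using tendsto_const_nhds.sub h4
  simp_rw [h3] at h2
  have := tendsto_nhds_unique h5 h2
  rw [this, ← hg]
  exact Submodule.sum_mem _ fun j _ => Ideal.mul_mem_left _ _ (Submodule.subset_span ⟨j, rfl⟩)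

theorem isAdic_of_fg [T2Space A] [CompleteSpace A] (I : Ideal A) (hfg : I.FG)
    (hopen : ∀ n : ℕ, IsOpen (closure ((I ^ n : Ideal A) : Set A)))
    (hbasis : ∀ U ∈ nhds (0 : A), ∃ n : ℕ, closure ((I ^ n : Ideal A) : Set A) ⊆ U) : IsAdic I := by
  have h : ∀ n, (I ^ n).closure = I ^ n := fun n =>
    le_antisymm (closure_pow_le_self I hfg hopen hbasis n) (le_closure _)
  rw [isAdic_iff]
  refine ⟨fun n => ?_, fun U hU => ?_⟩
  · have := hopen n
    rw [← Ideal.coe_closure, h] at this
    exact this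
  · obtain ⟨n, hn⟩ := hbasis U hU
    exact ⟨n, subset_closure.trans hn⟩

theorem closure_mul_le (I J : Ideal A) : I.closure * J.closure ≤ (I * J).closure := by
  intro x hx
  refine (mem_closure_iff' _ _).2 fun K hK => ?_
  have h1 : I.closure * J.closure ≤ (I ⊔ K) * (J ⊔ K) := Ideal.mul_mono (closure_le_sup hK) (closure_le_sup hK)
  have h2 : (I ⊔ K) * (J ⊔ K) ≤ I * J ⊔ K := by
    rw [Ideal.sup_mul, Ideal.mul_sup]
    refine sup_le (sup_le le_sup_left ?_) ?_
    · exact le_sup_of_le_right Ideal.mul_le_right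
    · exact le_sup_of_le_right Ideal.mul_le_left
  exact h2 (h1 hx)

theorem adic_of_cotangent [T2Space A] [CompleteSpace A] (hA : IsWeaklyPreadic A)
    (I : Ideal A) (hI : IsIdealOfDefinition A I)
    (hfg : (I.map (Ideal.Quotient.mk ((I ^ 2).closure))).FG) :
    ∃ J : Ideal A, IsAdic J ∧ IsIdealOfDefinition A J ∧ J.FG := by
  have hopenI := (wp_imp4 hA).2 I hI
  have hbasisI : ∀ U ∈ nhds (0 : A), ∃ n : ℕ, closure ((I ^ n : Ideal A) : Set A) ⊆ U := by
    intro U hU
    obtain ⟨J, hJ, hJU⟩ := exists_open_ideal hU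
    obtain ⟨n, hn, hIJ⟩ := hI.2 J (mem_nhds_of_isOpen hJ)
    exact ⟨n, subset_trans (closure_minimal hIJ (isClosed_of_isOpen hJ)) hJU⟩
  obtain ⟨t, ht⟩ := hfg
  set π := Ideal.Quotient.mk ((I ^ 2).closure) with hπ
  have hl : ∀ y ∈ I.map π, ∃ x, x ∈ I ∧ π x = y := fun y hy =>
    (Ideal.mem_map_iff_of_surjective _ Ideal.Quotient.mk_surjective).1 hy
  choose! g hg using hl
  have htI : ∀ y ∈ t, y ∈ I.map π := fun y hy => by rw [← ht]; exact Submodule.subset_span hy
  let J : Ideal A := Ideal.span (g '' (t : Set _))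
  have hJfg : J.FG := ⟨(t.finite_toSet.image g).toFinset, by simp [J]⟩
  have hJI : J ≤ I := by
    rw [Ideal.span_le]
    rintro _ ⟨y, hy, rfl⟩
    exact (hg y (htI y hy)).1
  have hmap : J.map π = I.map π := by
    refine le_antisymm (Ideal.map_mono hJI) ?_
    rw [← ht]
    refine Submodule.span_le.2 fun y hy => ?_
    have := Ideal.mem_map_of_mem π (Ideal.subset_span (s := g '' (t : Set _)) ⟨y, hy, rfl⟩)
    rwa [(hg y (htI y hy)).2] at this
  have hIJ : I ≤ J ⊔ (I ^ 2).closure := by
    have h1 : I ≤ (J.map π).comap π := by rw [hmap]; exact Ideal.le_comap_map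
    rw [Ideal.comap_map_of_surjective' _ Ideal.Quotient.mk_surjective, Ideal.mk_ker] at h1
    exact h1
  have key : ∀ n, I ^ n ≤ J ^ n ⊔ (I ^ (n + 1)).closure := by
    intro n
    induction n with
    | zero => simp
    | succ n ih =>
      rw [pow_succ, pow_succ]
      refine (Ideal.mul_mono ih hIJ).trans ?_
      rw [Ideal.sup_mul, Ideal.mul_sup]
      refine sup_le (sup_le le_sup_left ?_) ?_
      · refine le_sup_of_le_right ?_
        have h1 : J ^ n * (I ^ 2).closure ≤ (I ^ n).closure * (I ^ 2).closure :=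
          Ideal.mul_mono ((Ideal.pow_right_mono hJI n).trans (le_closure _)) le_rfl
        refine (h1.trans (closure_mul_le _ _)).trans ?_
        rw [← pow_add]
      · refine le_sup_of_le_right ?_
        have h1 : (I ^ (n + 1)).closure * (J ⊔ (I ^ 2).closure) ≤ (I ^ (n + 1)).closure * I.closure := by
          refine Ideal.mul_mono le_rfl (sup_le (hJI.trans (le_closure _)) (closure_mono' ?_))
          exact Ideal.pow_le_self two_ne_zero
        refine (h1.trans (closure_mul_le _ _)).trans ?_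
        rw [← pow_succ]
  have key2 : ∀ n k, (I ^ n).closure ≤ J ^ n ⊔ (I ^ (n + k)).closure := by
    intro n k
    induction k with
    | zero => exact le_sup_right
    | succ k ih =>
      refine ih.trans (sup_le le_sup_left ?_)
      have h1 : (I ^ (n + k)).closure ≤ J ^ (n + k) ⊔ (I ^ (n + k + 1)).closure :=
        closure_le (key _) (isClosed_of_isOpen (isOpen_mono (I := (I ^ (n + k + 1)).closure) (hopenI _) le_sup_right))
      refine h1.trans (sup_le_sup_right (Ideal.pow_le_pow_right (Nat.le_add_right _ _)) _)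
  have key3 : ∀ n, (I ^ n).closure ≤ (J ^ n).closure := by
    intro n x hx
    refine (mem_closure_iff' _ _).2 fun K hK => ?_
    obtain ⟨m, hm⟩ := hbasisI K (mem_nhds_of_isOpen hK)
    have h1 : (I ^ (n + m)).closure ≤ K := le_trans (closure_mono' (Ideal.pow_le_pow_right (Nat.le_add_left _ _))) hm
    exact sup_le_sup_left h1 _ (key2 n m hx)
  have hJo : ∀ n : ℕ, IsOpen (closure ((J ^ n : Ideal A) : Set A)) := fun n =>
    isOpen_mono (I := (I ^ n).closure) (J := (J ^ n).closure) (hopenI n) (key3 n)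
  have hJb : ∀ U ∈ nhds (0 : A), ∃ n : ℕ, closure ((J ^ n : Ideal A) : Set A) ⊆ U := by
    intro U hU
    obtain ⟨n, hn⟩ := hbasisI U hU
    exact ⟨n, subset_trans (closure_mono (Ideal.pow_right_mono hJI n)) hn⟩
  have hJad := isAdic_of_fg J hJfg hJo hJb
  have hJad' := isAdic_iff.1 hJad
  refine ⟨J, hJad, ⟨by simpa using hJad'.1 1, fun U hU => ?_⟩, hJfg⟩
  obtain ⟨n, hn⟩ := hJad'.2 U hU
  exact ⟨n + 1, Nat.succ_pos n, subset_trans (Ideal.pow_le_pow_right (Nat.le_succ n)) hn⟩

end cpl

section cpl2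
variable {A : Type u} [CommRing A] [TopologicalSpace A] [IsTopologicalRing A]
variable {B : Type v} [CommRing B] [UniformSpace B] [IsUniformAddGroup B] [IsTopologicalRing B]

theorem adic_map_of_taut [IsLinearTopology B B] [T2Space B] [CompleteSpace B] (hA : IsPreadic A)
    (I : Ideal A) (hI : IsIdealOfDefinition A I) (hfg : I.FG)
    (φ : A →+* B) (hφ : IsTaut φ) : IsAdic (I.map φ) := by
  refine isAdic_of_fg _ (hfg.map φ) (fun n => ?_) (fun U hU => ?_)
  · rw [← Ideal.map_pow]; exact hφ.2.1 _ (isOpen_pow_of_idd hA hI n)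
  · obtain ⟨J, hJ, hJU⟩ := hφ.2.2 U hU
    obtain ⟨n, hn, hIJ⟩ := hI.2 J (mem_nhds_of_isOpen hJ)
    refine ⟨n, subset_trans ?_ hJU⟩
    rw [← Ideal.map_pow]
    exact closure_mono (Ideal.map_mono hIJ)

end cpl2

section ff2

theorem exists_fg_le_mem_map {A : Type u} [CommRing A] {B : Type v} [CommRing B] (φ : A →+* B) (I : Ideal A)
    (x : B) (hx : x ∈ I.map φ) : ∃ I0 : Ideal A, I0.FG ∧ I0 ≤ I ∧ x ∈ I0.map φ := by
  refine Submodule.span_induction (p := fun x _ => ∃ I0 : Ideal A, I0.FG ∧ I0 ≤ I ∧ x ∈ I0.map φ)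
    ?_ ?_ ?_ ?_ hx
  · rintro _ ⟨c, hc, rfl⟩
    exact ⟨Ideal.span {c}, ⟨{c}, by simp⟩, by rw [Ideal.span_singleton_le_iff_mem]; exact hc,
      Ideal.mem_map_of_mem _ (Ideal.mem_span_singleton_self c)⟩
  · exact ⟨⊥, Submodule.fg_bot, bot_le, Ideal.zero_mem _⟩
  · rintro x y _ _ ⟨I1, h1, h1', h1''⟩ ⟨I2, h2, h2', h2''⟩
    exact ⟨I1 ⊔ I2, Submodule.FG.sup h1 h2, sup_le h1' h2', Ideal.add_mem _ (Ideal.map_mono le_sup_left h1'')
      (Ideal.map_mono le_sup_right h2'')⟩
  · rintro a x _ ⟨I1, h1, h1', h1''⟩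
    exact ⟨I1, h1, h1', Ideal.mul_mem_left _ _ h1''⟩

variable {A : Type u} [CommRing A] [UniformSpace A] [IsUniformAddGroup A] [IsTopologicalRing A]
    [IsLinearTopology A A] [T2Space A] [CompleteSpace A]
variable {B : Type v} [CommRing B] [TopologicalSpace B] [IsTopologicalRing B]

theorem ff_adic (hB : IsPreadic B) (hJ : ∃ J : Ideal B, IsIdealOfDefinition B J ∧ J.FG)
    (φ : A →+* B) (h : IsTautFFlat φ) :
    ∃ I : Ideal A, IsAdic I ∧ IsIdealOfDefinition A I ∧ I.FG := by
  haveI := isLinear_of_preadic hB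
  obtain ⟨J, hJ, hJfg⟩ := hJ
  have hJo := isOpen_pow_of_idd hB hJ
  obtain ⟨I, hIo, hIJ⟩ := h.1.2.2 J (mem_nhds_of_isOpen hJ.1)
  obtain ⟨m, hm0, hm⟩ := hJ.2 (I.map φ).closure (mem_nhds_of_isOpen (I := (I.map φ).closure) (h.1.2.1 I hIo))
  have h1 : J ^ m ≤ I.map φ ⊔ J ^ (m + 1) := le_trans hm (closure_le_sup (hJo _))
  obtain ⟨s, hs⟩ := hJfg.pow (n := m)
  have h2 : ∀ x ∈ s, ∃ I0 : Ideal A, I0.FG ∧ I0 ≤ I ∧ x ∈ I0.map φ ⊔ J ^ (m + 1) := by
    intro x hx
    have hx' : x ∈ J ^ m := by rw [← hs]; exact Submodule.subset_span hx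
    obtain ⟨y, hy, z, hz, rfl⟩ := Submodule.mem_sup.1 (h1 hx')
    obtain ⟨I0, ha, hb, hc⟩ := exists_fg_le_mem_map φ I y hy
    exact ⟨I0, ha, hb, Submodule.add_mem_sup hc hz⟩
  choose! F hF using h2
  let I0 : Ideal A := s.sup F
  have hI0fg : I0.FG := Finset.sup_induction (p := fun I : Ideal A => I.FG) Submodule.fg_bot (fun _ h _ h' => Submodule.FG.sup h h') (fun x hx => (hF x hx).1)
  have hI0I : I0 ≤ I := Finset.sup_le fun x hx => (hF x hx).2.1
  have h3 : J ^ m ≤ I0.map φ ⊔ J ^ (m + 1) := by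
    rw [← hs, Submodule.span_le]
    intro x hx
    have hle : (F x).map φ ⊔ J ^ (m + 1) ≤ I0.map φ ⊔ J ^ (m + 1) :=
      sup_le_sup_right (Ideal.map_mono (Finset.le_sup (f := F) hx)) _
    exact hle (hF x hx).2.2
  have h4 : ∀ k, J ^ m ≤ I0.map φ ⊔ J ^ (m + k) := by
    intro k
    induction k with
    | zero => exact le_sup_right
    | succ k ih =>
      refine ih.trans (sup_le le_sup_left ?_)
      rw [add_comm m k, pow_add]
      refine (Ideal.mul_mono le_rfl h3).trans ?_
      rw [Ideal.mul_sup]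
      refine sup_le (le_sup_of_le_left Ideal.mul_le_right) (le_sup_of_le_right ?_)
      rw [← pow_add]
      exact Ideal.pow_le_pow_right (by omega)
  have h5 : J ^ m ≤ (I0.map φ).closure := by
    intro x hx
    refine (mem_closure_iff' _ _).2 fun K hK => ?_
    obtain ⟨k, _, hk⟩ := hJ.2 K (mem_nhds_of_isOpen hK)
    have hle : I0.map φ ⊔ J ^ (m + k) ≤ I0.map φ ⊔ K :=
      sup_le_sup_left ((Ideal.pow_le_pow_right (Nat.le_add_left _ _)).trans hk) _
    exact hle (h4 k hx)
  have hopen : ∀ n : ℕ, IsOpen (closure ((I0 ^ n : Ideal A) : Set A)) := by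
    intro n
    refine ff_isOpen_closure h _ ?_
    refine isOpen_mono (I := J ^ (m * n)) (J := ((I0 ^ n).map φ).closure) (hJo _) ?_
    rw [pow_mul, Ideal.map_pow]
    exact (Ideal.pow_right_mono h5 n).trans (closure_pow_le _ _)
  have hbasis : ∀ U ∈ nhds (0 : A), ∃ n : ℕ, closure ((I0 ^ n : Ideal A) : Set A) ⊆ U := by
    intro U hU
    obtain ⟨I', hI', hI'U⟩ := exists_open_ideal hU
    obtain ⟨k, _, hk⟩ := hJ.2 (I'.map φ).closure (mem_nhds_of_isOpen (I := (I'.map φ).closure) (h.1.2.1 I' hI'))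
    refine ⟨k, subset_trans (closure_minimal ?_ (isClosed_of_isOpen hI')) hI'U⟩
    have h6 : I0 ^ k ≤ ((I'.map φ).closure).comap φ := by
      rw [← Ideal.map_le_iff_le_comap, Ideal.map_pow]
      refine (Ideal.pow_right_mono ?_ k).trans hk
      exact (Ideal.map_mono hI0I).trans ((le_closure _).trans hIJ)
    rw [comap_closure_map_open h hI'] at h6
    exact h6
  have had := isAdic_of_fg I0 hI0fg hopen hbasis
  have had' := isAdic_iff.1 had
  refine ⟨I0, had, ⟨by simpa using had'.1 1, fun U hU => ?_⟩, hI0fg⟩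
  obtain ⟨n, hn⟩ := had'.2 U hU
  exact ⟨n + 1, Nat.succ_pos n, subset_trans (Ideal.pow_le_pow_right (Nat.le_succ n)) hn⟩

end ff2

section dense
variable {A : Type u} [CommRing A] [TopologicalSpace A] [IsTopologicalRing A]
variable {B : Type v} [CommRing B] [TopologicalSpace B] [IsTopologicalRing B]

theorem map_le_closure_image (φ : A →+* B) (hd : DenseRange φ) (I : Ideal A) :
    ((I.map φ : Ideal B) : Set B) ⊆ closure (φ '' (I : Set A)) := by
  let K : Ideal B :=
    { carrier := closure (φ '' (I : Set A))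
      add_mem' := fun {a b} ha hb => map_mem_closure₂ continuous_add ha hb (by
        rintro _ ⟨x, hx, rfl⟩ _ ⟨y, hy, rfl⟩
        exact ⟨x + y, I.add_mem hx hy, map_add _ _ _⟩)
      zero_mem' := subset_closure ⟨0, I.zero_mem, map_zero _⟩
      smul_mem' := fun c x hx => map_mem_closure₂ continuous_mul (hd c) hx (by
        rintro _ ⟨x, rfl⟩ _ ⟨y, hy, rfl⟩
        exact ⟨x * y, I.mul_mem_left _ hy, map_mul _ _ _⟩) }
  have : I.map φ ≤ K := by
    rw [Ideal.map_le_iff_le_comap]
    intro x hx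
    exact subset_closure ⟨x, hx, rfl⟩
  exact this

theorem linear_of_taut {φ : A →+* B} (hφ : IsTaut φ) : IsLinearTopology B B := by
  have : (nhds (0 : B)).HasBasis (fun I : Ideal A => IsOpen (I : Set A)) (fun I => (((I.map φ).closure : Ideal B) : Set B)) := by
    refine ⟨fun U => ⟨fun hU => hφ.2.2 U hU, ?_⟩⟩
    rintro ⟨I, hI, hIU⟩
    exact mem_of_superset ((hφ.2.1 I hI).mem_nhds (subset_closure (Ideal.zero_mem _))) hIU
  exact IsLinearTopology.mk_of_hasBasis B this

end dense

section completion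
variable {A : Type u} [CommRing A] [UniformSpace A] [IsUniformAddGroup A] [IsTopologicalRing A] [IsLinearTopology A A]

theorem taut_completion : IsTaut (UniformSpace.Completion.coeRingHom : A →+* UniformSpace.Completion A) := by
  refine ⟨UniformSpace.Completion.continuous_coe A, fun I hI => ?_, fun U hU => ?_⟩
  · have h1 : closure ((↑) '' (I : Set A) : Set (UniformSpace.Completion A)) ∈ nhds ((0 : A) : UniformSpace.Completion A) :=
      UniformSpace.Completion.isDenseInducing_coe.closure_image_mem_nhds (mem_nhds_of_isOpen hI)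
    rw [UniformSpace.Completion.coe_zero] at h1
    refine isOpen_of_mem_nhds (I := (I.map UniformSpace.Completion.coeRingHom).closure) (mem_of_superset h1 (closure_mono ?_))
    rintro _ ⟨x, hx, rfl⟩
    exact Ideal.mem_map_of_mem UniformSpace.Completion.coeRingHom hx
  · obtain ⟨V, hV, hVc, hVU⟩ := exists_mem_nhds_isClosed_subset hU
    have h1 : (UniformSpace.Completion.coeRingHom : A →+* UniformSpace.Completion A) ⁻¹' V ∈ nhds (0 : A) := by
      refine (UniformSpace.Completion.continuous_coe A).continuousAt.preimage_mem_nhds ?_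
      rw [UniformSpace.Completion.coe_zero]; exact hV
    obtain ⟨I, hI, hIV⟩ := exists_open_ideal h1
    refine ⟨I, hI, subset_trans (closure_minimal ?_ hVc) hVU⟩
    refine (map_le_closure_image _ UniformSpace.Completion.denseRange_coe I).trans (closure_minimal ?_ hVc)
    rintro _ ⟨x, hx, rfl⟩
    exact hIV hx

theorem weaklyAdic_completion (hA : IsWeaklyPreadic A) : IsWeaklyAdic (UniformSpace.Completion A) := by
  haveI := linear_of_taut (taut_completion (A := A))
  exact ⟨wp_of_taut taut_completion hA, inferInstance, inferInstance⟩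

end completion

section openmap
variable {A : Type u} [CommRing A] [UniformSpace A] [IsUniformAddGroup A] [IsTopologicalRing A]
    [IsLinearTopology A A] [T2Space A] [CompleteSpace A]
variable {B : Type v} [CommRing B] [UniformSpace B] [IsUniformAddGroup B] [IsTopologicalRing B]
    [IsLinearTopology B B] [T2Space B]

theorem surj_open (hA : (nhds (0 : A)).IsCountablyGenerated)
    (φ : A →+* B) (hφ : IsTaut φ) (hd : DenseRange φ) :
    Function.Surjective φ ∧ IsOpenQuotientMap φ ∧ CompleteSpace B := by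
  obtain ⟨x, hx, hb⟩ := (IsLinearTopology.hasBasis_open_ideal (R := A)).exists_antitone_subbasis
  have hna : NonarchimedeanAddGroup A := nonarch
  have hJo : ∀ n, IsOpen (closure (((x n).map φ : Ideal B) : Set B)) := fun n => hφ.2.1 _ (hx n)
  have hJb : ∀ U ∈ nhds (0 : B), ∃ n, closure (((x n).map φ : Ideal B) : Set B) ⊆ U := by
    intro U hU
    obtain ⟨I, hI, hIU⟩ := hφ.2.2 U hU
    obtain ⟨n, _, hn⟩ := hb.1.mem_iff.1 (mem_nhds_of_isOpen hI)
    exact ⟨n, (closure_mono (Ideal.map_mono hn)).trans hIU⟩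
  have hanti : ∀ m n, m ≤ n → x n ≤ x m := fun m n h => hb.2 h
  have step : ∀ k (r : B), r ∈ ((x k).map φ).closure → ∃ a : A, a ∈ x k ∧ r - φ a ∈ ((x (k + 1)).map φ).closure := by
    intro k r hr
    have h1 : r ∈ closure (φ '' (x k : Set A)) := by
      have : closure (((x k).map φ : Ideal B) : Set B) ⊆ closure (φ '' (x k : Set A)) :=
        closure_minimal (map_le_closure_image φ hd _) isClosed_closure
      exact this hr
    have h2 : {y : B | r - y ∈ ((x (k + 1)).map φ).closure} ∈ nhds r := by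
      have hc : Continuous (fun y : B => r - y) := by fun_prop
      have := hc.continuousAt (x := r) |>.preimage_mem_nhds (t := ((((x (k + 1)).map φ).closure : Ideal B) : Set B))
        (by simpa using (hJo (k + 1)).mem_nhds (subset_closure (Ideal.zero_mem _)))
      exact this
    obtain ⟨y, hy1, hy2⟩ := mem_closure_iff_nhds.1 h1 _ h2
    obtain ⟨a, ha, rfl⟩ := hy2
    exact ⟨a, ha, hy1⟩
  choose! f hf using step
  have claim : ∀ n, ∀ b ∈ ((x n).map φ).closure, ∃ a ∈ x n, φ a = b := by
    intro n b hbn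
    let r : ℕ → B := fun k => Nat.rec b (fun k r => r - φ (f (n + k) r)) k
    have hr : ∀ k, r k ∈ ((x (n + k)).map φ).closure := by
      intro k
      induction k with
      | zero => exact hbn
      | succ k ih => exact (hf _ _ ih).2
    let a : ℕ → A := fun k => f (n + k) (r k)
    have ha : ∀ k, a k ∈ x (n + k) := fun k => (hf _ _ (hr k)).1
    have ha0 : Tendsto a atTop (nhds 0) := by
      intro U hU
      obtain ⟨N, _, hN⟩ := hb.1.mem_iff.1 hU
      rw [Filter.mem_map]
      filter_upwards [eventually_ge_atTop N] with k hk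
      exact hN (hanti N (n + k) (by omega) (ha k))
    have hr0 : Tendsto r atTop (nhds 0) := by
      intro U hU
      obtain ⟨N, hN⟩ := hJb U hU
      rw [Filter.mem_map]
      filter_upwards [eventually_ge_atTop N] with k hk
      exact hN (closure_mono' (Ideal.map_mono (hanti N (n + k) (by omega))) (hr k))
    have hs : Summable a := NonarchimedeanAddGroup.summable_of_tendsto_cofinite_zero (by
      rw [Nat.cofinite_eq_atTop]; exact ha0)
    have ht := hs.hasSum.tendsto_sum_nat
    refine ⟨∑' k, a k, ?_, ?_⟩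
    · refine (isClosed_of_isOpen (hx n)).mem_of_tendsto ht (Eventually.of_forall fun N => ?_)
      exact Submodule.sum_mem _ fun k _ => hanti n (n + k) (by omega) (ha k)
    · have h1 : Tendsto (fun N => φ (∑ k ∈ Finset.range N, a k)) atTop (nhds (φ (∑' k, a k))) :=
        (hφ.1.tendsto _).comp ht
      have h2 : ∀ N, φ (∑ k ∈ Finset.range N, a k) = b - r N := by
        intro N
        induction N with
        | zero => simp [r]
        | succ N ih =>
          rw [Finset.sum_range_succ, map_add, ih]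
          change b - r N + φ (f (n + N) (r N)) = b - (r N - φ (f (n + N) (r N)))
          abel
      have h3 : Tendsto (fun N => b - r N) atTop (nhds b) := by
        simpa using tendsto_const_nhds.sub hr0
      simp_rw [h2] at h1
      exact tendsto_nhds_unique h1 h3
  have hopen : IsOpenMap φ := by
    refine IsTopologicalAddGroup.isOpenMap_iff_nhds_zero (f := φ.toAddMonoidHom).2 ?_
    intro U hU
    rw [Filter.mem_map] at hU
    obtain ⟨n, _, hn⟩ := hb.1.mem_iff.1 hU
    refine mem_of_superset ((hJo n).mem_nhds (subset_closure (Ideal.zero_mem _))) ?_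
    intro b hb'
    obtain ⟨a, ha, rfl⟩ := claim n b hb'
    exact hn ha
  have hsurj : Function.Surjective φ := by
    have h1 : IsOpen (Set.range φ) := hopen.isOpen_range
    have h2 : IsClosed (Set.range φ) := AddSubgroup.isClosed_of_isOpen φ.toAddMonoidHom.range (by simpa using h1)
    rw [← Set.range_eq_univ, ← h2.closure_eq]
    exact hd.closure_eq
  have hq : IsOpenQuotientMap φ := ⟨hsurj, hφ.1, hopen⟩
  refine ⟨hsurj, hq, ?_⟩
  haveI : FirstCountableTopology A := by
    refine ⟨fun a => ?_⟩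
    rw [← map_add_left_nhds_zero a]
    infer_instance
  let e : (A ⧸ φ.toAddMonoidHom.ker) ≃+ B := QuotientAddGroup.quotientKerEquivOfSurjective φ.toAddMonoidHom hsurj
  letI : UniformSpace (A ⧸ φ.toAddMonoidHom.ker) := IsTopologicalAddGroup.rightUniformSpace (A ⧸ φ.toAddMonoidHom.ker)
  haveI hcs : CompleteSpace (A ⧸ φ.toAddMonoidHom.ker) := QuotientAddGroup.completeSpace_right A φ.toAddMonoidHom.ker
  haveI : IsUniformAddGroup (A ⧸ φ.toAddMonoidHom.ker) := isUniformAddGroup_of_addCommGroup
  have he1 : Continuous e := by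
    rw [(QuotientAddGroup.isQuotientMap_mk (N := φ.toAddMonoidHom.ker)).continuous_iff]
    exact hφ.1
  have he2 : Continuous e.symm := by
    rw [hq.isQuotientMap.continuous_iff]
    have : (e.symm : B → _) ∘ φ = (QuotientAddGroup.mk : A → A ⧸ φ.toAddMonoidHom.ker) := by
      ext a
      exact e.symm_apply_eq.2 rfl
    rw [this]
    exact continuous_quotient_mk'
  have u1 : UniformContinuous e := by
    have := uniformContinuous_addMonoidHom_of_continuous (f := e.toAddMonoidHom) he1
    exact this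
  have u2 : UniformContinuous e.symm := by
    have := uniformContinuous_addMonoidHom_of_continuous (f := e.symm.toAddMonoidHom) he2
    exact this
  exact (UniformEquiv.completeSpace_iff ⟨e.toEquiv, u1, u2⟩).1 hcs

end openmap

end Groth.Agent.H15LT
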