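import Groth.Agent.Lib.Helper15LT2
import Mathlib.RingTheory.Henselian
import Mathlib.Topology.Algebra.GroupCompletion
import Mathlib.Topology.Algebra.Polynomial

set_option autoImplicit false
universe u v w

namespace Groth.Agent.H15LT
open Topology Filter LinTop

section hensel
variable {A : Type u} [CommRing A] [UniformSpace A] [IsUniformAddGroup A] [IsTopologicalRing A]
  [IsLinearTopology A A] [T2Space A] [CompleteSpace A]

theorem isUnit_of_tn {z : A} (hz : IsTopologicallyNilpotent z) : IsUnit (1 - z) := by
  have hna : NonarchimedeanAddGroup A := nonarch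
  have hz' : Tendsto (fun n => z ^ n) atTop (nhds 0) := hz
  have hs : Summable (fun n => z ^ n) := NonarchimedeanAddGroup.summable_of_tendsto_cofinite_zero (by
    rw [Nat.cofinite_eq_atTop]; exact hz')
  have h1 := (hs.hasSum.mul_right (1 - z)).tendsto_sum_nat
  have h2 : Tendsto (fun N => (1 : A) - z ^ N) atTop (nhds (1 - 0)) := tendsto_const_nhds.sub hz'
  simp_rw [← Finset.sum_mul, geom_sum_mul_neg] at h1
  have h3 := tendsto_nhds_unique h1 h2
  rw [sub_zero] at h3
  exact IsUnit.of_mul_eq_one (∑' n, z ^ n) (by rw [mul_comm]; exact h3)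

open Polynomial in
open scoped Ring in
theorem hensel (I : Ideal A) (hI : IsWeakIdealOfDefinition A I) : HenselianRing A I where
  jac := by
    intro x hx
    rw [Ideal.mem_jacobson_bot]
    intro y
    have h : IsTopologicallyNilpotent (-(x * y)) :=
      hI.2 _ (I.neg_mem (I.mul_mem_right _ hx))
    have := isUnit_of_tn h
    have e : 1 - -(x * y) = x * y + 1 := by ring
    rwa [e] at this
  is_henselian := by
    intro f _ a₀ h₁ h₂
    have jac : I ≤ Ideal.jacobson ⊥ := by
      intro x hx
      rw [Ideal.mem_jacobson_bot]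
      intro y
      have h : IsTopologicallyNilpotent (-(x * y)) :=
        hI.2 _ (I.neg_mem (I.mul_mem_right _ hx))
      have := isUnit_of_tn h
      have e : 1 - -(x * y) = x * y + 1 := by ring
      rwa [e] at this
    have hloc := isLocalHom_of_le_jacobson_bot I jac
    have hna : NonarchimedeanAddGroup A := nonarch
    set t := f.eval a₀ with ht
    let T : Ideal A := Ideal.span {t}
    have hTI : T ≤ I := by rw [Ideal.span_singleton_le_iff_mem]; exact h₁
    let f' := derivative f
    let c : ℕ → A := fun n => Nat.recOn n a₀ fun _ b => b - f.eval b * (f'.eval b)⁻¹ʳ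
    have hc : ∀ n, c (n + 1) = c n - f.eval (c n) * (f'.eval (c n))⁻¹ʳ := fun n => rfl
    have hmain : ∀ n, c n - a₀ ∈ I ∧ f.eval (c n) ∈ T ^ (n + 1) := by
      intro n
      induction n with
      | zero => exact ⟨by simp [c], by
        rw [zero_add, pow_one]
        exact Ideal.mem_span_singleton_self t⟩
      | succ n ih =>
        have hle : T ^ (n + 1) ≤ I := (Ideal.pow_le_self (Nat.succ_ne_zero n)).trans hTI
        have h3 : c (n + 1) - a₀ ∈ I := by
          rw [hc]
          have : c n - f.eval (c n) * (f'.eval (c n))⁻¹ʳ - a₀ = (c n - a₀) - f.eval (c n) * (f'.eval (c n))⁻¹ʳ := by ring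
          rw [this]
          exact I.sub_mem ih.1 (I.mul_mem_right _ (hle ih.2))
        refine ⟨h3, ?_⟩
        have hu : IsUnit (f'.eval (c n)) := by
          apply IsUnit.of_map (Ideal.Quotient.mk I)
          have : Ideal.Quotient.mk I (f'.eval (c n)) = Ideal.Quotient.mk I (f'.eval a₀) := by
            rw [Ideal.Quotient.eq]
            exact I.mem_of_dvd (sub_dvd_eval_sub _ _ _) ih.1
          rw [this]; exact h₂
        obtain ⟨k, hk⟩ := exists_mul_sq_add_linear_part_eq_eval_add f (c n) (-(f.eval (c n) * (f'.eval (c n))⁻¹ʳ))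
        have h4 : f.eval (c (n + 1)) = k * (f.eval (c n) * (f'.eval (c n))⁻¹ʳ) ^ 2 := by
          rw [hc, sub_eq_add_neg, ← hk]
          have h5 : f'.eval (c n) * (f'.eval (c n))⁻¹ʳ = 1 := Ring.mul_inverse_cancel _ hu
          have h6 : eval (c n) (derivative f) * -(f.eval (c n) * (f'.eval (c n))⁻¹ʳ) = - f.eval (c n) := by
            have : eval (c n) (derivative f) * -(f.eval (c n) * (f'.eval (c n))⁻¹ʳ) = - (f.eval (c n) * (f'.eval (c n) * (f'.eval (c n))⁻¹ʳ)) := by
              simp only [f']; ring
            rw [this, h5, mul_one]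
          rw [h6]; ring
        rw [h4]
        refine Ideal.mul_mem_left _ _ ?_
        rw [mul_pow]
        refine Ideal.mul_mem_right _ _ ?_
        have h7 := Ideal.pow_mem_pow ih.2 2
        rw [← pow_mul] at h7
        exact Ideal.pow_le_pow_right (by omega) h7
    have hT0 : ∀ (b : ℕ → A), (∀ n, b n ∈ T ^ (n + 1)) → Tendsto b atTop (nhds 0) := by
      intro b hb U hU
      obtain ⟨J, hJ, hJU⟩ := exists_open_ideal hU
      obtain ⟨m, hm⟩ := tn_iff.1 (hI.2 t h₁) J hJ
      rw [Filter.mem_map]
      filter_upwards [eventually_ge_atTop m] with n hn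
      apply hJU
      have h1 : T ^ (n + 1) ≤ J := by
        rw [Ideal.span_singleton_pow, Ideal.span_singleton_le_iff_mem]
        exact Ideal.pow_mem_of_pow_mem _ hm (by omega)
      exact h1 (hb n)
    have hd : ∀ n, c (n + 1) - c n ∈ T ^ (n + 1) := by
      intro n
      rw [hc]
      have : c n - f.eval (c n) * (f'.eval (c n))⁻¹ʳ - c n = - (f.eval (c n) * (f'.eval (c n))⁻¹ʳ) := by ring
      rw [this]
      exact Ideal.neg_mem_iff _ |>.2 (Ideal.mul_mem_right _ _ (hmain n).2)
    have hs : Summable (fun n => c (n + 1) - c n) := NonarchimedeanAddGroup.summable_of_tendsto_cofinite_zero (by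
      rw [Nat.cofinite_eq_atTop]; exact hT0 _ hd)
    have h3 := hs.hasSum.tendsto_sum_nat
    simp_rw [Finset.sum_range_sub] at h3
    have h4 : Tendsto c atTop (nhds (a₀ + ∑' n, (c (n + 1) - c n))) := by
      have := h3.const_add a₀
      refine this.congr (fun n => ?_)
      change a₀ + (c n - a₀) = c n
      ring
    refine ⟨a₀ + ∑' n, (c (n + 1) - c n), ?_, ?_⟩
    · have h5 : Tendsto (fun n => f.eval (c n)) atTop (nhds (f.eval (a₀ + ∑' n, (c (n + 1) - c n)))) :=
        (f.continuous.tendsto _).comp h4
      exact tendsto_nhds_unique h5 (hT0 _ fun n => (hmain n).2)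
    · have hcl := isClosed_of_isOpen hI.1
      have h6 : Tendsto (fun n => c n - a₀) atTop (nhds (a₀ + ∑' n, (c (n + 1) - c n) - a₀)) := h4.sub_const a₀
      exact hcl.mem_of_tendsto h6 (Eventually.of_forall fun n => (hmain n).1)

end hensel

section modules
variable {R : Type u} [Ring R] {M : Type v} [AddCommGroup M] [Module R M] [UniformSpace M]
    [IsUniformAddGroup M] [IsLinearTopology R M]

theorem exists_open_subgroup {U : Set M} (hU : U ∈ nhds (0 : M)) :
    ∃ V : Submodule R M, IsOpen (V : Set M) ∧ (V : Set M) ⊆ U :=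
  (IsLinearTopology.hasBasis_open_submodule (R := R) (M := M)).mem_iff.1 hU

/-- closures of images form a basis at 0 of the completion -/
theorem completion_basis {U : Set (UniformSpace.Completion M)} (hU : U ∈ nhds (0 : UniformSpace.Completion M)) :
    ∃ V : Submodule R M, IsOpen (V : Set M) ∧
      closure ((↑) '' (V : Set M) : Set (UniformSpace.Completion M)) ⊆ U := by
  obtain ⟨W, hW, hWc, hWU⟩ := exists_mem_nhds_isClosed_subset hU
  have h1 : ((↑) : M → UniformSpace.Completion M) ⁻¹' W ∈ nhds (0 : M) := by
    refine (UniformSpace.Completion.continuous_coe M).continuousAt.preimage_mem_nhds ?_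
    rw [UniformSpace.Completion.coe_zero]; exact hW
  obtain ⟨V, hV, hVW⟩ := exists_open_subgroup (R := R) h1
  refine ⟨V, hV, subset_trans (closure_minimal ?_ hWc) hWU⟩
  rintro _ ⟨x, hx, rfl⟩
  exact hVW hx

theorem closure_mem_nhds {V : Set M} (hV : V ∈ nhds (0 : M)) :
    closure ((↑) '' V : Set (UniformSpace.Completion M)) ∈ nhds (0 : UniformSpace.Completion M) := by
  have h1 := UniformSpace.Completion.isDenseInducing_coe.closure_image_mem_nhds hV
  rwa [UniformSpace.Completion.coe_zero] at h1

theorem ker_eq (N : Submodule R M) :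
    (@UniformSpace.Completion.map M _ (M ⧸ N.toAddSubgroup)
        (IsTopologicalAddGroup.rightUniformSpace (M ⧸ N.toAddSubgroup))
        (QuotientAddGroup.mk' N.toAddSubgroup)) ⁻¹' {0} =
      closure (Set.range (fun n : N => ((n : M) : UniformSpace.Completion M))) := by
  letI : UniformSpace (M ⧸ N.toAddSubgroup) := IsTopologicalAddGroup.rightUniformSpace (M ⧸ N.toAddSubgroup)
  haveI : IsUniformAddGroup (M ⧸ N.toAddSubgroup) := isUniformAddGroup_of_addCommGroup
  let q : M →+ M ⧸ N.toAddSubgroup := QuotientAddGroup.mk' N.toAddSubgroup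
  have hq : Continuous q := continuous_quotient_mk'
  let h : UniformSpace.Completion M →+ UniformSpace.Completion (M ⧸ N.toAddSubgroup) := q.completion hq
  have hh : Continuous h := q.continuous_completion hq
  change h ⁻¹' {0} = _
  have hcoe : ∀ m : M, h (m : UniformSpace.Completion M) = (q m : UniformSpace.Completion _) := q.completion_coe hq
  apply subset_antisymm
  · intro x hx
    have hx0 : h x = 0 := hx
    rw [mem_closure_iff_nhds]
    intro W hW
    have hW' : {z : UniformSpace.Completion M | x + z ∈ W} ∈ nhds (0 : UniformSpace.Completion M) := by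
      have hc : Continuous (fun z : UniformSpace.Completion M => x + z) := by fun_prop
      exact hc.continuousAt.preimage_mem_nhds (by simpa using hW)
    obtain ⟨V, hV, hVW⟩ := completion_basis (R := R) hW'
    let Vh : AddSubgroup (UniformSpace.Completion M) :=
      (V.toAddSubgroup.map UniformSpace.Completion.toCompl).topologicalClosure
    have hVh : ∀ z, z ∈ Vh ↔ z ∈ closure ((↑) '' (V : Set M) : Set (UniformSpace.Completion M)) := fun z => Iff.rfl
    have h1 : {z : UniformSpace.Completion M | z - x ∈ Vh} ∈ nhds x := by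
      have hc : Continuous (fun z : UniformSpace.Completion M => z - x) := by fun_prop
      refine hc.continuousAt.preimage_mem_nhds ?_
      rw [sub_self]
      exact closure_mem_nhds (hV.mem_nhds V.zero_mem)
    obtain ⟨_, hm, m, rfl⟩ := mem_closure_iff_nhds.1 (UniformSpace.Completion.denseRange_coe x) _ h1
    have h2 : h ((m : UniformSpace.Completion M) - x) ∈ closure ((↑) '' (q '' (V : Set M)) : Set (UniformSpace.Completion _)) := by
      refine map_mem_closure hh hm ?_
      rintro _ ⟨v, hv, rfl⟩
      exact ⟨q v, ⟨v, hv, rfl⟩, (hcoe v).symm⟩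
    rw [map_sub, hx0, sub_zero, hcoe] at h2
    have h3 : q m ∈ closure (q '' (V : Set M)) := by
      rw [(UniformSpace.Completion.isDenseInducing_coe (α := M ⧸ N.toAddSubgroup)).isInducing.closure_eq_preimage_closure_image]
      exact h2
    have h4 : IsOpen (q '' (V : Set M)) := QuotientAddGroup.isOpenMap_coe _ hV
    have h5 : IsClosed (q '' (V : Set M)) :=
      AddSubgroup.isClosed_of_isOpen (V.toAddSubgroup.map q) h4
    rw [h5.closure_eq] at h3
    obtain ⟨v, hv, hvm⟩ := h3
    have h6 : m - v ∈ N := by
      have : q (m - v) = 0 := by rw [map_sub, hvm, sub_self]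
      exact (QuotientAddGroup.eq_zero_iff _).1 this
    refine ⟨((m - v : M) : UniformSpace.Completion M), ?_, ⟨⟨m - v, h6⟩, rfl⟩⟩
    have h7 : ((m - v : M) : UniformSpace.Completion M) - x ∈ Vh := by
      rw [UniformSpace.Completion.coe_sub, sub_right_comm]
      exact Vh.sub_mem hm ((hVh _).2 (subset_closure ⟨v, hv, rfl⟩))
    have := hVW h7
    simpa using this
  · refine closure_minimal ?_ (isClosed_singleton.preimage hh)
    rintro _ ⟨n, rfl⟩
    change h _ = 0
    rw [hcoe]
    have : q (n : M) = 0 := (QuotientAddGroup.eq_zero_iff _).2 n.2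
    rw [this, UniformSpace.Completion.coe_zero]

end modules

section om
variable {G : Type u} [AddCommGroup G] [UniformSpace G] [IsUniformAddGroup G] [CompleteSpace G]
  [NonarchimedeanAddGroup G]
variable {H : Type v} [AddCommGroup H] [TopologicalSpace H] [IsTopologicalAddGroup H] [T2Space H]

theorem om (f : G →+ H) (hf : Continuous f) (x : ℕ → AddSubgroup G) (hx : ∀ n, IsOpen (x n : Set G))
    (hb : (nhds (0 : G)).HasAntitoneBasis (fun n => (x n : Set G)))
    (hJo : ∀ n, IsOpen (closure (f '' (x n : Set G)))) (n : ℕ) :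
    closure (f '' (x n : Set G)) ⊆ f '' (x n : Set G) := by
  have hJb : ∀ U ∈ nhds (0 : H), ∃ n, closure (f '' (x n : Set G)) ⊆ U := by
    intro U hU
    obtain ⟨V, hV, hVc, hVU⟩ := exists_mem_nhds_isClosed_subset hU
    have h1 : f ⁻¹' V ∈ nhds (0 : G) := hf.continuousAt.preimage_mem_nhds (by rwa [map_zero])
    obtain ⟨n, _, hn⟩ := hb.1.mem_iff.1 h1
    exact ⟨n, subset_trans (closure_minimal (Set.image_subset_iff.2 hn) hVc) hVU⟩
  have hanti : ∀ m n, m ≤ n → (x n : Set G) ⊆ x m := fun m n h => hb.2 h
  have step : ∀ k (r : H), r ∈ closure (f '' (x k : Set G)) → ∃ a : G, a ∈ x k ∧ r - f a ∈ closure (f '' (x (k + 1) : Set G)) := by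
    intro k r hr
    have h2 : {y : H | r - y ∈ closure (f '' (x (k + 1) : Set G))} ∈ nhds r := by
      have hc : Continuous (fun y : H => r - y) := by fun_prop
      refine hc.continuousAt.preimage_mem_nhds ?_
      rw [sub_self]
      exact (hJo (k + 1)).mem_nhds (subset_closure ⟨0, (x (k + 1)).zero_mem, map_zero _⟩)
    obtain ⟨y, hy1, hy2⟩ := mem_closure_iff_nhds.1 hr _ h2
    obtain ⟨a, ha, rfl⟩ := hy2
    exact ⟨a, ha, hy1⟩
  choose! g hg using step
  intro b hbn
  let r : ℕ → H := fun k => Nat.rec b (fun k r => r - f (g (n + k) r)) k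
  have hr : ∀ k, r k ∈ closure (f '' (x (n + k) : Set G)) := by
    intro k
    induction k with
    | zero => exact hbn
    | succ k ih => exact (hg _ _ ih).2
  let a : ℕ → G := fun k => g (n + k) (r k)
  have ha : ∀ k, a k ∈ x (n + k) := fun k => (hg _ _ (hr k)).1
  have ha0 : Tendsto a atTop (nhds 0) := by
    intro U hU
    obtain ⟨N, _, hN⟩ := hb.1.mem_iff.1 hU
    rw [Filter.mem_map]
    filter_upwards [eventually_ge_atTop N] with k hk
    exact hN (hanti N (n + k) (by omega) (ha k))
  have hr0 : Tendsto r atTop (nhds 0) := by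
    intro U hU
    obtain ⟨N, hN⟩ := hJb U hU
    rw [Filter.mem_map]
    filter_upwards [eventually_ge_atTop N] with k hk
    exact hN (closure_mono (Set.image_mono (hanti N (n + k) (by omega))) (hr k))
  have hs : Summable a := NonarchimedeanAddGroup.summable_of_tendsto_cofinite_zero (by
    rw [Nat.cofinite_eq_atTop]; exact ha0)
  have ht := hs.hasSum.tendsto_sum_nat
  refine ⟨∑' k, a k, ?_, ?_⟩
  · refine (AddSubgroup.isClosed_of_isOpen (x n) (hx n)).mem_of_tendsto ht (Eventually.of_forall fun N => ?_)
    exact AddSubgroup.sum_mem _ fun k _ => hanti n (n + k) (by omega) (ha k)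
  · have h1 : Tendsto (fun N => f (∑ k ∈ Finset.range N, a k)) atTop (nhds (f (∑' k, a k))) :=
      (hf.tendsto _).comp ht
    have h2 : ∀ N, f (∑ k ∈ Finset.range N, a k) = b - r N := by
      intro N
      induction N with
      | zero => simp [r]
      | succ N ih =>
        rw [Finset.sum_range_succ, map_add, ih]
        change b - r N + f (g (n + N) (r N)) = b - (r N - f (g (n + N) (r N)))
        abel
    have h3 : Tendsto (fun N => b - r N) atTop (nhds b) := by
      simpa using tendsto_const_nhds.sub hr0
    simp_rw [h2] at h1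
    exact tendsto_nhds_unique h1 h3

end om

section modules2
variable {R : Type u} [Ring R] {M : Type v} [AddCommGroup M] [Module R M] [UniformSpace M]
    [IsUniformAddGroup M] [IsLinearTopology R M]

theorem compl_surj_open (hc : (nhds (0 : M)).IsCountablyGenerated) (N : Submodule R M) :
    Function.Surjective (@UniformSpace.Completion.map M _ (M ⧸ N.toAddSubgroup)
        (IsTopologicalAddGroup.rightUniformSpace (M ⧸ N.toAddSubgroup))
        (QuotientAddGroup.mk' N.toAddSubgroup)) ∧
      IsOpenMap (@UniformSpace.Completion.map M _ (M ⧸ N.toAddSubgroup)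
        (IsTopologicalAddGroup.rightUniformSpace (M ⧸ N.toAddSubgroup))
        (QuotientAddGroup.mk' N.toAddSubgroup)) := by
  letI : UniformSpace (M ⧸ N.toAddSubgroup) := IsTopologicalAddGroup.rightUniformSpace (M ⧸ N.toAddSubgroup)
  haveI : IsUniformAddGroup (M ⧸ N.toAddSubgroup) := isUniformAddGroup_of_addCommGroup
  let q : M →+ M ⧸ N.toAddSubgroup := QuotientAddGroup.mk' N.toAddSubgroup
  have hq : Continuous q := continuous_quotient_mk'
  let h : UniformSpace.Completion M →+ UniformSpace.Completion (M ⧸ N.toAddSubgroup) := q.completion hq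
  have hh : Continuous h := q.continuous_completion hq
  change Function.Surjective h ∧ IsOpenMap h
  have hcoe : ∀ m : M, h (m : UniformSpace.Completion M) = (q m : UniformSpace.Completion _) := q.completion_coe hq
  obtain ⟨y, hy, hb⟩ := (IsLinearTopology.hasBasis_open_submodule (R := R) (M := M)).exists_antitone_subbasis
  let x : ℕ → AddSubgroup (UniformSpace.Completion M) := fun n =>
      ((y n).toAddSubgroup.map UniformSpace.Completion.toCompl).topologicalClosure
  have hxc : ∀ n, ((x n : AddSubgroup (UniformSpace.Completion M)) : Set (UniformSpace.Completion M)) =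
      closure ((↑) '' (y n : Set M) : Set (UniformSpace.Completion M)) := fun n => rfl
  have hx : ∀ n, IsOpen (x n : Set (UniformSpace.Completion M)) := fun n =>
    AddSubgroup.isOpen_of_mem_nhds (x n) (g := 0) (by
      rw [hxc]; exact closure_mem_nhds ((hy n).mem_nhds (y n).zero_mem))
  have hbas : (nhds (0 : UniformSpace.Completion M)).HasAntitoneBasis (fun n => (x n : Set (UniformSpace.Completion M))) := by
    refine ⟨⟨fun U => ⟨fun hU => ?_, ?_⟩⟩, fun m n hmn => ?_⟩
    · obtain ⟨V, hV, hVU⟩ := completion_basis (R := R) hU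
      obtain ⟨n, _, hn⟩ := hb.1.mem_iff.1 (hV.mem_nhds V.zero_mem)
      exact ⟨n, trivial, subset_trans (closure_mono (Set.image_mono hn)) hVU⟩
    · rintro ⟨n, _, hn⟩
      exact mem_of_superset ((hx n).mem_nhds (x n).zero_mem) hn
    · exact closure_mono (Set.image_mono (hb.2 hmn))
  haveI : NonarchimedeanAddGroup (UniformSpace.Completion M) :=
    ⟨fun U hU => by
      obtain ⟨n, _, hn⟩ := hbas.1.mem_iff.1 hU
      exact ⟨⟨x n, hx n⟩, hn⟩⟩
  have hJo : ∀ n, IsOpen (closure (h '' (x n : Set (UniformSpace.Completion M)))) := by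
    intro n
    refine AddSubgroup.isOpen_of_mem_nhds ((x n).map h).topologicalClosure (g := 0) ?_
    have h1 : q '' (y n : Set M) ∈ nhds (0 : M ⧸ N.toAddSubgroup) :=
      (QuotientAddGroup.isOpenMap_coe _ (hy n)).mem_nhds ⟨0, (y n).zero_mem, q.map_zero⟩
    refine mem_of_superset (closure_mem_nhds h1) (closure_mono ?_)
    rintro _ ⟨_, ⟨v, hv, rfl⟩, rfl⟩
    exact ⟨(v : UniformSpace.Completion M), subset_closure ⟨v, hv, rfl⟩, hcoe v⟩
  have key := om h hh x hx hbas hJo
  have hopen : IsOpenMap h := by
    refine IsTopologicalAddGroup.isOpenMap_iff_nhds_zero.2 ?_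
    intro U hU
    rw [Filter.mem_map] at hU
    obtain ⟨n, _, hn⟩ := hbas.1.mem_iff.1 hU
    refine mem_of_superset ((hJo n).mem_nhds (subset_closure ⟨0, (x n).zero_mem, map_zero _⟩)) ?_
    intro b hb'
    obtain ⟨a, ha, rfl⟩ := key n hb'
    exact hn ha
  refine ⟨?_, hopen⟩
  have h1 : IsOpen (Set.range h) := hopen.isOpen_range
  have h2 : IsClosed (Set.range h) := AddSubgroup.isClosed_of_isOpen h.range (by simpa using h1)
  have h3 : DenseRange h := by
    refine UniformSpace.Completion.denseRange_coe.mono ?_
    rintro _ ⟨a, rfl⟩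
    obtain ⟨m, rfl⟩ := QuotientAddGroup.mk_surjective a
    exact ⟨(m : UniformSpace.Completion M), hcoe m⟩
  rw [← Set.range_eq_univ, ← h2.closure_eq]
  exact h3.closure_eq

end modules2

end Groth.Agent.H15LT
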