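import Groth.Prelude.Def_AlgSp4
import Groth.Agent.Lib.Helper15AS

set_option autoImplicit false
universe u

open CategoryTheory CategoryTheory.Limits AlgebraicGeometry Opposite AlgSp

namespace Groth.Agent.H15Pt

variable {S : Scheme.{u}}

theorem exists_of_isPullback {P F G H : Sp S} {fst : P ⟶ F} {snd : P ⟶ H} {f : F ⟶ G} {g : H ⟶ G}
    (sq : IsPullback fst snd f g) (x : Points F) (y : Points H) (h : Points.map f x = Points.map g y) :
    ∃ z : Points P, Points.map fst z = x ∧ Points.map snd z = y := by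
  induction x using Points.ind with
  | h p =>
  induction y using Points.ind with
  | h q =>
  rw [Points.map_mk, Points.map_mk, Points.mk_eq_mk_iff] at h
  obtain ⟨Ω, hΩ, w, a, b, heq⟩ := h
  let x' : F.obj.obj (op (Over.mk w)) := F.obj.map a.op p.val
  let y' : H.obj.obj (op (Over.mk w)) := H.obj.map b.op q.val
  let ξ : (yon S).obj (Over.mk w) ⟶ F := (J S).uliftYonedaEquiv.symm x'
  let η : (yon S).obj (Over.mk w) ⟶ H := (J S).uliftYonedaEquiv.symm y'
  have hw : ξ ≫ f = η ≫ g := by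
    apply (J S).uliftYonedaEquiv.injective
    rw [GrothendieckTopology.uliftYonedaEquiv_comp, GrothendieckTopology.uliftYonedaEquiv_comp,
      Equiv.apply_symm_apply, Equiv.apply_symm_apply]
    have h1 : f.hom.app (op (Over.mk w)) x' = G.obj.map a.op (f.hom.app _ p.val) :=
      NatTrans.naturality_apply f.hom a.op p.val
    have h2 : g.hom.app (op (Over.mk w)) y' = G.obj.map b.op (g.hom.app _ q.val) :=
      NatTrans.naturality_apply g.hom b.op q.val
    rw [h1, h2]
    exact heq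
  let l := sq.lift ξ η hw
  have hl1 : fst.hom.app _ ((J S).uliftYonedaEquiv l) = x' := by
    rw [← GrothendieckTopology.uliftYonedaEquiv_comp, sq.lift_fst, Equiv.apply_symm_apply]
  have hl2 : snd.hom.app _ ((J S).uliftYonedaEquiv l) = y' := by
    rw [← GrothendieckTopology.uliftYonedaEquiv_comp, sq.lift_snd, Equiv.apply_symm_apply]
  refine ⟨Points.mk ⟨Ω, w, (J S).uliftYonedaEquiv l⟩, ?_, ?_⟩
  · rw [Points.map_mk, Points.mk_eq_mk_iff]
    refine ⟨Ω, hΩ, w, 𝟙 _, a, ?_⟩
    change F.obj.map (𝟙 (op (Over.mk w))) (fst.hom.app _ ((J S).uliftYonedaEquiv l)) = _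
    rw [hl1, F.obj.map_id]
    rfl
  · rw [Points.map_mk, Points.mk_eq_mk_iff]
    refine ⟨Ω, hΩ, w, 𝟙 _, b, ?_⟩
    change H.obj.map (𝟙 (op (Over.mk w))) (snd.hom.app _ ((J S).uliftYonedaEquiv l)) = _
    rw [hl2, H.obj.map_id]
    rfl

theorem preimage_image {P F G H : Sp S} {fst : P ⟶ F} {snd : P ⟶ H} {f : F ⟶ G} {g : H ⟶ G}
    (sq : IsPullback fst snd f g) (W : Set (Points F)) :
    Points.map g ⁻¹' (Points.map f '' W) = Points.map snd '' (Points.map fst ⁻¹' W) := by
  ext y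
  constructor
  · rintro ⟨x, hx, h⟩
    obtain ⟨z, rfl, rfl⟩ := exists_of_isPullback sq x y h
    exact ⟨z, hx, rfl⟩
  · rintro ⟨z, hz, rfl⟩
    refine ⟨Points.map fst z, hz, ?_⟩
    rw [← Points.map_comp, ← Points.map_comp, sq.w]

theorem surj_of_isPullback {P F G H : Sp S} {fst : P ⟶ F} {snd : P ⟶ H} {f : F ⟶ G} {g : H ⟶ G}
    (sq : IsPullback fst snd f g) (h : Function.Surjective (Points.map f)) : Function.Surjective (Points.map snd) := by
  intro y
  obtain ⟨x, hx⟩ := h (Points.map g y)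
  obtain ⟨z, _, hz⟩ := exists_of_isPullback sq x y hx
  exact ⟨z, hz⟩

theorem ofPt_eq {T : Over S} {F : Sp S} (g : (yon S).obj T ⟶ F) : Points.ofPt g = Points.map g ∘ Points.ofScheme T :=
  funext fun t => Points.ofPt_eq_map_ofScheme g t

theorem ofPt_comp {T T' : Over S} {F : Sp S} (φ : T' ⟶ T) (g : (yon S).obj T ⟶ F) (x : T'.left) :
    Points.ofPt ((yon S).map φ ≫ g) x = Points.ofPt g (φ.left x) := by
  rw [← Points.map_ofPt, Points.ofPt_eq_map_ofScheme g, ← Points.toScheme_ofPt φ x, Points.ofScheme_toScheme]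

/-- openness can be tested on affine test schemes -/
theorem isOpen_of_affine {F : Sp S} {A : Set (Points F)}
    (h : ∀ (T : Over S), IsAffine T.left → ∀ g : (yon S).obj T ⟶ F, IsOpen (Points.map g ⁻¹' A)) : IsOpen A := by
  rw [Points.isOpen_iff]
  intro T g
  rw [isOpen_iff_forall_mem_open]
  intro t ht
  obtain ⟨i, t', rfl⟩ := T.left.affineCover.exists_eq t
  let Ti : Over S := Over.mk (T.left.affineCover.f i ≫ T.hom)
  let φ : Ti ⟶ T := Over.homMk (T.left.affineCover.f i) rfl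
  have h1 := h Ti (show IsAffine (T.left.affineCover.X i) from inferInstance) ((yon S).map φ ≫ g)
  have h2 : IsOpen (Points.ofPt ((yon S).map φ ≫ g) ⁻¹' A) := by
    rw [ofPt_eq, Set.preimage_comp]
    exact h1.preimage (Points.continuous_ofPt _)
  have h3 : IsOpen ((T.left.affineCover.f i) ⁻¹' (Points.ofPt g ⁻¹' A)) := by
    have : (T.left.affineCover.f i) ⁻¹' (Points.ofPt g ⁻¹' A) = Points.ofPt ((yon S).map φ ≫ g) ⁻¹' A := by
      ext x
      simp only [Set.mem_preimage]
      rw [ofPt_comp]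
      rfl
    rw [this]; exact h2
  refine ⟨(T.left.affineCover.f i) '' ((T.left.affineCover.f i) ⁻¹' (Points.ofPt g ⁻¹' A)), Set.image_preimage_subset _ _,
    (T.left.affineCover.f i).isOpenEmbedding.isOpenMap _ h3, ⟨t', ht, rfl⟩⟩

theorem open_of_affine_baseChange {X Y : Sp S} {f : X ⟶ Y}
    (h : ∀ (Z : Over S), IsAffine Z.left → ∀ (g : (yon S).obj Z ⟶ Y) (P : Sp S)
        (fst : P ⟶ X) (snd : P ⟶ (yon S).obj Z), IsPullback fst snd f g → IsOpenMap (Points.map snd))
    {Z Z' : Sp S} (g : Z ⟶ Y) (fst : Z' ⟶ X) (snd : Z' ⟶ Z) (sq : IsPullback fst snd f g) :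
    IsOpenMap (Points.map snd) := by
  intro O hO
  apply isOpen_of_affine
  intro T hT k
  have sq2 := IsPullback.of_hasPullback snd k
  rw [preimage_image sq2]
  exact h T hT _ _ _ _ (sq2.paste_horiz sq) _ (hO.preimage (Points.continuous_map _))

theorem closed_of_affine_baseChange {X Y : Sp S} {f : X ⟶ Y}
    (h : ∀ (Z : Over S), IsAffine Z.left → ∀ (g : (yon S).obj Z ⟶ Y) (P : Sp S)
        (fst : P ⟶ X) (snd : P ⟶ (yon S).obj Z), IsPullback fst snd f g → IsClosedMap (Points.map snd))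
    {Z Z' : Sp S} (g : Z ⟶ Y) (fst : Z' ⟶ X) (snd : Z' ⟶ Z) (sq : IsPullback fst snd f g) :
    IsClosedMap (Points.map snd) := by
  intro O hO
  rw [← isOpen_compl_iff]
  apply isOpen_of_affine
  intro T hT k
  have sq2 := IsPullback.of_hasPullback snd k
  rw [Set.preimage_compl, preimage_image sq2, isOpen_compl_iff]
  exact h T hT _ _ _ _ (sq2.paste_horiz sq) _ (hO.preimage (Points.continuous_map _))

theorem isOpen_of_cover {T T' : Over S} (s : T' ⟶ T) (hs : H15AS.Fppf s.left) {A : Set (Points ((yon S).obj T))}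
    (h : IsOpen (Points.map ((yon S).map s) ⁻¹' A)) : IsOpen A := by
  have h1 : Surjective s.left := hs.1.1
  have h2 : Flat s.left := hs.1.2
  have h3 : LocallyOfFinitePresentation s.left := hs.2
  have h4 : IsOpenMap s.left := s.left.isOpenMap
  have hq : Topology.IsQuotientMap s.left := h4.isQuotientMap s.left.continuous s.left.surjective
  have h5 : IsOpen (Points.ofScheme T ⁻¹' A) := by
    rw [← hq.isOpen_preimage]
    have : s.left ⁻¹' (Points.ofScheme T ⁻¹' A) = Points.ofScheme T' ⁻¹' (Points.map ((yon S).map s) ⁻¹' A) := by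
      ext x
      simp only [Set.mem_preimage]
      have e := ofPt_comp s (𝟙 ((yon S).obj T)) x
      rw [Category.comp_id] at e
      rw [Points.map_ofPt, Category.id_comp]
      change Points.ofPt (𝟙 _) (s.left x) ∈ A ↔ _
      rw [e]
    rw [this]
    exact h.preimage (Points.continuous_ofPt _)
  exact (Points.schemeHomeo T).isOpen_preimage.1 h5

theorem baseChange_to_cover {X Y V P : Sp S} {f : X ⟶ Y} {p : V ⟶ Y} {fst : P ⟶ X} {snd : P ⟶ V}
    (sq : IsPullback fst snd f p) {T T' : Over S} {g : (yon S).obj T ⟶ Y} {s : T' ⟶ T} {r : (yon S).obj T' ⟶ V}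
    (sq3 : IsPullback r ((yon S).map s) p g) {K : Sp S} {k1 : K ⟶ X} {k2 : K ⟶ (yon S).obj T}
    (sqK : IsPullback k1 k2 f g) :
    ∃ l : pullback k2 ((yon S).map s) ⟶ P, IsPullback l (pullback.snd k2 ((yon S).map s)) snd r := by
  have sq2 := IsPullback.of_hasPullback k2 ((yon S).map s)
  have sq4 := sq2.paste_horiz sqK
  rw [← sq3.w] at sq4
  refine ⟨sq.lift (pullback.fst k2 ((yon S).map s) ≫ k1) (pullback.snd k2 ((yon S).map s) ≫ r) (by
    rw [sq4.w, Category.assoc]), ?_⟩
  refine IsPullback.of_right ?_ (sq.lift_snd _ _ _) sq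
  rw [sq.lift_fst]
  exact sq4

theorem univOpen_descend {X Y V P : Sp S} {f : X ⟶ Y} {p : V ⟶ Y} (hp : RepWith H15AS.Fppf p)
    {fst : P ⟶ X} {snd : P ⟶ V} (sq : IsPullback fst snd f p) (h : IsUnivOpenMor snd) : IsUnivOpenMor f := by
  intro Z Z' _ g0 fst0 snd0 sq0
  refine open_of_affine_baseChange ?_ g0 fst0 snd0 sq0
  intro T _ g K k1 k2 sqK O hO
  obtain ⟨T', s, r, sq3⟩ := hp.1 g
  have hs : H15AS.Fppf s.left := hp.2 g r s sq3
  obtain ⟨l, sql⟩ := baseChange_to_cover sq sq3 sqK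
  refine isOpen_of_cover s hs ?_
  rw [preimage_image (IsPullback.of_hasPullback k2 ((yon S).map s))]
  exact h (IsAlgSpace.yon_obj T') r l _ sql _ (hO.preimage (Points.continuous_map _))

theorem univClosed_descend {X Y V P : Sp S} {f : X ⟶ Y} {p : V ⟶ Y} (hp : RepWith H15AS.Fppf p)
    {fst : P ⟶ X} {snd : P ⟶ V} (sq : IsPullback fst snd f p) (h : IsUnivClosedMor snd) : IsUnivClosedMor f := by
  intro Z Z' _ g0 fst0 snd0 sq0
  refine closed_of_affine_baseChange ?_ g0 fst0 snd0 sq0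
  intro T _ g K k1 k2 sqK O hO
  obtain ⟨T', s, r, sq3⟩ := hp.1 g
  have hs : H15AS.Fppf s.left := hp.2 g r s sq3
  obtain ⟨l, sql⟩ := baseChange_to_cover sq sq3 sqK
  rw [← isOpen_compl_iff]
  refine isOpen_of_cover s hs ?_
  rw [Set.preimage_compl, preimage_image (IsPullback.of_hasPullback k2 ((yon S).map s)), isOpen_compl_iff]
  exact h (IsAlgSpace.yon_obj T') r l _ sql _ (hO.preimage (Points.continuous_map _))

end Groth.Agent.H15Pt
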