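import Groth.Agent.Lib.Helper15Pt9

set_option autoImplicit false
universe u

open CategoryTheory CategoryTheory.Limits AlgebraicGeometry Opposite AlgSp

namespace Groth.Agent.H15Pt

variable {S : Scheme.{u}}

theorem exists_affine_cover (U : Scheme.{u}) [CompactSpace U] :
    ∃ (A : Scheme.{u}) (q : A ⟶ U), IsAffine A ∧ Etale q ∧ Surjective q := by
  let 𝒰 := U.affineCover.finiteSubcover
  have : ∀ i, IsAffine (𝒰.X i) := fun i => inferInstanceAs (IsAffine (U.affineCover.X _))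
  refine ⟨∐ fun i : 𝒰.I₀ => 𝒰.X i, Sigma.desc 𝒰.f, inferInstance, ?_, ?_⟩
  · exact IsZariskiLocalAtSource.sigmaDesc (P := @Etale) fun i => inferInstance
  · refine ⟨fun x => ?_⟩
    obtain ⟨i, y, hy⟩ := 𝒰.exists_eq x
    refine ⟨Sigma.ι (fun i : 𝒰.I₀ => 𝒰.X i) i y, ?_⟩
    rw [← Scheme.Hom.comp_apply, Sigma.ι_desc]
    exact hy

theorem qc_of_affine {X Y : Sp S} {f : X ⟶ Y}
    (h : ∀ (Z : Over S), IsAffine Z.left → ∀ (g : (yon S).obj Z ⟶ Y) (P : Sp S)
        (fst : P ⟶ X) (snd : P ⟶ (yon S).obj Z), IsPullback fst snd f g → IsQuasiCompactSp P) :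
    IsQuasiCompactMor f := by
  intro Z P hZ hqc g fst snd sq
  obtain ⟨U, a, ha, hs, hU⟩ := hqc
  have hU' : CompactSpace U.left := hU
  obtain ⟨A, q, hA, hq1, hq2⟩ := exists_affine_cover U.left
  let B : Over S := Over.mk (q ≫ U.hom)
  let j : B ⟶ U := Over.homMk q rfl
  have hj1 : Etale j.left := hq1
  have hj2 : Surjective j.left := hq2
  have hb1 : RepWith @Etale ((yon S).map j ≫ a) := MorphismProperty.comp_mem _ _ _ ((repWith_yon_map_iff _ _).2 hj1) ha
  have hb2 : RepWith @Surjective ((yon S).map j ≫ a) := MorphismProperty.comp_mem _ _ _ ((repWith_yon_map_iff _ _).2 hj2) hs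
  have sqB := IsPullback.of_hasPullback snd ((yon S).map j ≫ a)
  obtain ⟨V, v, hv1, hv2, hV⟩ := h B hA _ _ _ _ (sqB.paste_horiz sq)
  have h1 : RepWith @Etale (pullback.fst snd ((yon S).map j ≫ a)) := MorphismProperty.of_isPullback sqB.flip hb1
  have h2 : RepWith @Surjective (pullback.fst snd ((yon S).map j ≫ a)) := MorphismProperty.of_isPullback sqB.flip hb2
  exact ⟨V, v ≫ pullback.fst snd ((yon S).map j ≫ a), MorphismProperty.comp_mem _ _ _ hv1 h1,
    MorphismProperty.comp_mem _ _ _ hv2 h2, hV⟩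

end Groth.Agent.H15Pt
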