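import Groth.Agent.Lib.Helper15Pt10

set_option autoImplicit false
universe u

open CategoryTheory CategoryTheory.Limits AlgebraicGeometry Opposite AlgSp

namespace Groth.Agent.H15Pt

variable {S : Scheme.{u}}

theorem isAlgSpace_pullback {X Y Z P : Sp S} (hX : IsAlgSpace X) (hY : IsAlgSpace Y) (hZ : IsAlgSpace Z)
    {f : X ⟶ Y} {g : Z ⟶ Y} {fst : P ⟶ X} {snd : P ⟶ Z} (sq : IsPullback fst snd f g) : IsAlgSpace P := by
  constructor
  · apply Functor.relativelyRepresentable.diag_of_map_from_obj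
    intro U a
    exact H15AS.rep_of_comp a fst (hX.representable_from_yon (a ≫ fst))
      (Representable.of_isPullback (H15Cat.isPullback_diagonal_baseChange sq.flip) (H15AS.diagonal_rep hZ g))
  · obtain ⟨U, p, hp1, hp2⟩ := hX.atlas
    obtain ⟨V, q, hq1, hq2⟩ := hZ.atlas
    have sq1 := IsPullback.of_hasPullback fst p
    have sqA := sq1.flip.paste_vert sq
    have sqB := IsPullback.of_hasPullback (pullback.fst fst p ≫ snd) q
    have sqC := sqB.flip.paste_vert sqA.flip
    obtain ⟨W, s, r, sqW⟩ := hY.representable_from_yon (q ≫ g) (p ≫ f)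
    let e := sqW.isoIsPullback _ _ sqC
    have a1 : RepWith @Etale (pullback.fst fst p) := MorphismProperty.of_isPullback sq1.flip hp1
    have a2 : RepWith @Surjective (pullback.fst fst p) := MorphismProperty.of_isPullback sq1.flip hp2
    have b1 : RepWith @Etale (pullback.fst (pullback.fst fst p ≫ snd) q) := MorphismProperty.of_isPullback sqB.flip hq1
    have b2 : RepWith @Surjective (pullback.fst (pullback.fst fst p ≫ snd) q) := MorphismProperty.of_isPullback sqB.flip hq2
    have c1 : RepWith @Etale e.hom := MorphismProperty.of_isIso _ _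
    have c2 : RepWith @Surjective e.hom := MorphismProperty.of_isIso _ _
    exact ⟨W, e.hom ≫ pullback.fst (pullback.fst fst p ≫ snd) q ≫ pullback.fst fst p,
      MorphismProperty.comp_mem _ _ _ c1 (MorphismProperty.comp_mem _ _ _ b1 a1),
      MorphismProperty.comp_mem _ _ _ c2 (MorphismProperty.comp_mem _ _ _ b2 a2)⟩

theorem qc_of_surj {X Y Z : Sp S} (hY : IsAlgSpace Y) (hZ : IsAlgSpace Z) {f : X ⟶ Y} {q : Y ⟶ Z}
    (hf : Function.Surjective (Points.map f)) (hp : IsQuasiCompactMor (f ≫ q)) : IsQuasiCompactMor q := by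
  refine qc_of_affine fun T hT g P fst snd sq => ?_
  have hP := isAlgSpace_pullback hY hZ (IsAlgSpace.yon_obj T) sq
  have sq1 := IsPullback.of_hasPullback f fst
  have hs : Function.Surjective (Points.map (pullback.snd f fst)) := surj_of_isPullback sq1 hf
  have sq3 := sq1.paste_vert sq
  have h1 := compact_points (hp (IsAlgSpace.yon_obj T) (qcSp_yon T inferInstance) g _ _ sq3)
  refine qcSp_of_compact hP ⟨?_⟩
  rw [← hs.range_eq]
  exact isCompact_range (Points.continuous_map _)

theorem qc_descend {X Y Y' X' : Sp S} (hX : IsAlgSpace X) (hY : IsAlgSpace Y) (hY' : IsAlgSpace Y')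
    {f : X ⟶ Y} {g : Y' ⟶ Y} {fst : X' ⟶ X} {f' : X' ⟶ Y'} (sq : IsPullback fst f' f g)
    (hg : IsUnivOpenMor g) (hgs : IsSurjectiveMor g) (hf' : IsQuasiCompactMor f') : IsQuasiCompactMor f := by
  refine qc_of_affine fun T hT t P a b sqP => ?_
  have hP := isAlgSpace_pullback hX hY (IsAlgSpace.yon_obj T) sqP
  -- T' = Y' ×_Y T
  have sqT := IsPullback.of_hasPullback g t
  have hT' := isAlgSpace_pullback hY' hY (IsAlgSpace.yon_obj T) sqT
  have hTo : IsOpenMap (Points.map (pullback.snd g t)) := hg (IsAlgSpace.yon_obj T) _ _ _ sqT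
  have hTs : Function.Surjective (Points.map (pullback.snd g t)) := surj_of_isPullback sqT hgs
  obtain ⟨U, p, he, hs⟩ := hT'.atlas
  have ho := isOpenMap_ofPt (isOpenMap_of_repWith he (fun f hf => by have : Etale f := hf; exact f.isOpenMap))
  have hsur := surj_ofPt (surj_of_repWith hs)
  have hTc : CompactSpace (Points ((yon S).obj T)) := compact_points (qcSp_yon T inferInstance)
  let ι := {W : U.left.Opens // IsCompact (W : Set U.left)}
  have : Nonempty ι := ⟨⟨⊥, by simp⟩⟩
  obtain ⟨⟨W, hWc⟩, hW⟩ := hTc.isCompact_univ.elim_directed_cover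
    (fun W : ι => Points.map (pullback.snd g t) '' (Points.ofPt p '' (W.1 : Set U.left)))
    (fun W => hTo _ (ho _ W.1.isOpen)) (by
      intro x _
      obtain ⟨y, rfl⟩ := hTs x
      obtain ⟨z, rfl⟩ := hsur y
      obtain ⟨W, hW, ht, -⟩ := TopologicalSpace.Opens.isBasis_iff_nbhd.1 U.left.isBasis_affineOpens (U := ⊤) (x := z) trivial
      exact Set.mem_iUnion.2 ⟨⟨W, IsAffineOpen.isCompact hW⟩, _, ⟨z, ht, rfl⟩, rfl⟩) (by
      intro W₁ W₂
      refine ⟨⟨W₁.1 ⊔ W₂.1, ?_⟩, Set.image_mono (Set.image_mono ?_), Set.image_mono (Set.image_mono ?_)⟩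
      · rw [TopologicalSpace.Opens.coe_sup]; exact W₁.2.union W₂.2
      · exact fun x hx => Or.inl hx
      · exact fun x hx => Or.inr hx)
  let U' : Over S := Over.mk (W.ι ≫ U.hom)
  let j : U' ⟶ U := Over.homMk W.ι rfl
  let c : (yon S).obj U' ⟶ pullback g t := (yon S).map j ≫ p
  have hcs : Function.Surjective (Points.map (c ≫ pullback.snd g t)) := by
    intro x
    obtain ⟨y, ⟨w, hw, rfl⟩, rfl⟩ := hW (Set.mem_univ x)
    obtain ⟨w', hw'⟩ : ∃ w' : U'.left, j.left w' = w := ⟨⟨w, hw⟩, rfl⟩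
    refine ⟨Points.ofScheme U' w', ?_⟩
    rw [Points.map_comp, ← Points.ofPt_eq_map_ofScheme c, ofPt_comp, hw']
  -- P_W
  have sqW := IsPullback.of_hasPullback b (c ≫ pullback.snd g t)
  have hs' : Function.Surjective (Points.map (pullback.fst b (c ≫ pullback.snd g t))) := surj_of_isPullback sqW.flip hcs
  have sq2 := sqW.paste_horiz sqP
  have ew : (c ≫ pullback.snd g t) ≫ t = (c ≫ pullback.fst g t) ≫ g :=
    (Category.assoc _ _ _).trans ((congrArg (c ≫ ·) sqT.w.symm).trans (Category.assoc _ _ _).symm)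
  rw [ew] at sq2
  let l := sq.lift (pullback.fst b (c ≫ pullback.snd g t) ≫ a) (pullback.snd b (c ≫ pullback.snd g t) ≫ c ≫ pullback.fst g t)
      (sq2.w.trans (Category.assoc _ _ _).symm)
  have sq3 : IsPullback l (pullback.snd b (c ≫ pullback.snd g t)) f' (c ≫ pullback.fst g t) := by
    refine IsPullback.of_right ?_ (sq.lift_snd _ _ _) sq
    rw [sq.lift_fst]
    exact sq2
  have hU' : CompactSpace U'.left := isCompact_iff_compactSpace.1 hWc
  have h1 := compact_points (hf' (IsAlgSpace.yon_obj U') (qcSp_yon U' hU') _ _ _ sq3)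
  refine qcSp_of_compact hP ⟨?_⟩
  rw [← hs'.range_eq]
  exact isCompact_range (Points.continuous_map _)

end Groth.Agent.H15Pt
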