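import Groth.Agent.Lib.Helper15Pt11

set_option autoImplicit false
universe u

open CategoryTheory CategoryTheory.Limits AlgebraicGeometry Opposite AlgSp

namespace Groth.Agent.H15Pt

variable {S : Scheme.{u}}

theorem exists_compact_chart {X : Sp S} (hX : IsAlgSpace X) {V : Set (Points X)} (hV : IsOpen V) (hVc : IsCompact V) :
    ∃ (U : Over S) (a : (yon S).obj U ⟶ X), CompactSpace U.left ∧ Set.range (Points.map a) = V := by
  obtain ⟨U, p, he, hs⟩ := hX.atlas
  have ho := isOpenMap_ofPt (isOpenMap_of_repWith he (fun f hf => by have : Etale f := hf; exact f.isOpenMap))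
  have hsur := surj_ofPt (surj_of_repWith hs)
  let O : U.left.Opens := ⟨Points.ofPt p ⁻¹' V, hV.preimage (Points.continuous_ofPt p)⟩
  let ι := {W : U.left.Opens // IsCompact (W : Set U.left) ∧ W ≤ O}
  have : Nonempty ι := ⟨⟨⊥, by simp, bot_le⟩⟩
  obtain ⟨⟨W, hWc, hWO⟩, hW⟩ := hVc.elim_directed_cover
    (fun W : ι => Points.ofPt p '' (W.1 : Set U.left)) (fun W => ho _ W.1.isOpen) (by
      intro x hx
      obtain ⟨t, rfl⟩ := hsur x
      obtain ⟨W, hW, ht, hWO⟩ := TopologicalSpace.Opens.isBasis_iff_nbhd.1 U.left.isBasis_affineOpens (U := O) (x := t) hx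
      exact Set.mem_iUnion.2 ⟨⟨W, IsAffineOpen.isCompact hW, hWO⟩, t, ht, rfl⟩) (by
      intro W₁ W₂
      refine ⟨⟨W₁.1 ⊔ W₂.1, ?_, sup_le W₁.2.2 W₂.2.2⟩, Set.image_mono ?_, Set.image_mono ?_⟩
      · rw [TopologicalSpace.Opens.coe_sup]; exact W₁.2.1.union W₂.2.1
      · exact fun x hx => Or.inl hx
      · exact fun x hx => Or.inr hx)
  let U' : Over S := Over.mk (W.ι ≫ U.hom)
  let j : U' ⟶ U := Over.homMk W.ι rfl
  refine ⟨U', (yon S).map j ≫ p, isCompact_iff_compactSpace.1 hWc, ?_⟩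
  apply Set.Subset.antisymm
  · rintro _ ⟨y, rfl⟩
    obtain ⟨w', rfl⟩ := (Points.schemeHomeo U').surjective y
    have e : Points.map ((yon S).map j ≫ p) (Points.schemeHomeo U' w') = Points.ofPt p (j.left w') := by
      rw [← ofPt_comp]; exact (Points.ofPt_eq_map_ofScheme _ _).symm
    rw [e]
    exact hWO w'.2
  · intro x hx
    obtain ⟨w, hw, rfl⟩ := hW hx
    obtain ⟨w', hw'⟩ : ∃ w' : U'.left, j.left w' = w := ⟨⟨w, hw⟩, rfl⟩
    refine ⟨Points.ofScheme U' w', ?_⟩
    rw [← Points.ofPt_eq_map_ofScheme, ofPt_comp, hw']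

theorem preimage_compact {X Y : Sp S} (hY : IsAlgSpace Y) {f : X ⟶ Y} (hf : IsQuasiCompactMor f)
    {V : Set (Points Y)} (hV : IsOpen V) (hVc : IsCompact V) : IsCompact (Points.map f ⁻¹' V) := by
  obtain ⟨U, a, hU, hr⟩ := exists_compact_chart hY hV hVc
  have sq := IsPullback.of_hasPullback f a
  have h1 := compact_points (hf (IsAlgSpace.yon_obj U) (qcSp_yon U hU) _ _ _ sq)
  have h2 : Points.map f ⁻¹' V = Set.range (Points.map (pullback.fst f a)) := by
    rw [← hr, ← Set.image_univ, preimage_image sq.flip, Set.preimage_univ, Set.image_univ]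
  rw [h2]
  exact isCompact_range (Points.continuous_map _)

theorem qc_baseChange {X Y V K : Sp S} {f : X ⟶ Y} {p : V ⟶ Y} {fst : K ⟶ X}
    {snd : K ⟶ V} (sq : IsPullback fst snd f p) (h : IsQuasiCompactMor f) : IsQuasiCompactMor snd :=
  fun _ _ hZ hq _ _ _ sq' => h hZ hq _ _ _ (sq'.paste_horiz sq)

theorem qc_comp {A B C : Sp S} (hB : IsAlgSpace B) (hC : IsAlgSpace C) {f : A ⟶ B} {g : B ⟶ C}
    (hf : IsQuasiCompactMor f) (hg : IsQuasiCompactMor g) : IsQuasiCompactMor (f ≫ g) := by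
  intro Z P hZ hq t a b sq
  have sq1 := IsPullback.of_hasPullback g t
  have h1 := hg hZ hq _ _ _ sq1
  have h2 := isAlgSpace_pullback hB hC hZ sq1
  let l : P ⟶ pullback g t := sq1.lift (a ≫ f) b (by rw [Category.assoc, sq.w])
  have sq2 : IsPullback a l f (pullback.fst g t) := by
    have hl : l ≫ pullback.snd g t = b := sq1.lift_snd _ _ _
    have hl1 : l ≫ pullback.fst g t = a ≫ f := sq1.lift_fst _ _ _
    rw [← hl] at sq
    exact IsPullback.of_bot sq hl1.symm sq1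
  exact hf h2 h1 _ _ _ sq2

theorem qc_of_comp {X Y Z : Sp S} (hX : IsAlgSpace X) (hY : IsAlgSpace Y) (hZ : IsAlgSpace Z) {f : X ⟶ Y} {g : Y ⟶ Z}
    (h : IsQuasiCompactMor (f ≫ g)) (hg : RepWith @QuasiCompact (pullback.diagonal g)) : IsQuasiCompactMor f := by
  have e : f = (pullback.lift (𝟙 X) f (by simp) : X ⟶ pullback (f ≫ g) g) ≫ pullback.snd _ _ := by
    rw [pullback.lift_snd]
  rw [e]
  refine qc_comp (isAlgSpace_pullback hX hZ hY (IsPullback.of_hasPullback _ _)) hY ?_ ?_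
  · exact qc_of_repWith ((RepWith @QuasiCompact).of_isPullback (H15Cat.isPullback_graph f g) hg)
  · exact qc_baseChange (IsPullback.of_hasPullback (f ≫ g) g) h

theorem qc_descend_etale {X Y Y' X' : Sp S} (hX : IsAlgSpace X) (hY : IsAlgSpace Y) (hY' : IsAlgSpace Y')
    {f : X ⟶ Y} {g : Y' ⟶ Y} {fst : X' ⟶ X} {f' : X' ⟶ Y'} (sq : IsPullback fst f' f g)
    (hg : IsEtaleMor g) (hgs : IsSurjectiveMor g) (hf' : IsQuasiCompactMor f') : IsQuasiCompactMor f := by
  obtain ⟨U, p, he, hs⟩ := hY'.atlas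
  have h1 := hg p he
  have sq1 := IsPullback.of_hasPullback f' p
  refine qc_descend hX hY (IsAlgSpace.yon_obj U) (sq1.paste_horiz sq) (univOpen_of_repWith
    (H15AS.repWith_imp (fun f hf => by have : Etale f := hf; exact (inferInstance : UniversallyOpen f)) h1)) ?_ (qc_baseChange sq1 hf')
  intro y
  obtain ⟨z, rfl⟩ := hgs y
  obtain ⟨w, rfl⟩ := surj_of_repWith hs z
  exact ⟨w, by rw [Points.map_comp]⟩

end Groth.Agent.H15Pt
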