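import Groth.Agent.Lib.Helper15Pt12

set_option autoImplicit false
universe u

open CategoryTheory CategoryTheory.Limits AlgebraicGeometry Opposite AlgSp

namespace Groth.Agent.H15Pt

variable {S : Scheme.{u}}

theorem qs_comp {X Y : Sp S} {f : X ⟶ Y} (hf : IsQuasiSeparatedMor f) (hY : IsQuasiSeparatedSp Y) :
    IsQuasiSeparatedSp X := by
  have sq := H15Cat.isPullback_diag_prod (IsPullback.of_hasPullback f f)
  have h1 : RepWith @QuasiCompact (prod.lift (pullback.fst f f) (pullback.snd f f)) :=
    MorphismProperty.of_isPullback sq hY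
  have e : Limits.diag X = pullback.diagonal f ≫ prod.lift (pullback.fst f f) (pullback.snd f f) := by
    apply Limits.prod.hom_ext
    · exact (prod.lift_fst _ _).trans (((Category.assoc _ _ _).trans ((congrArg (pullback.diagonal f ≫ ·)
        (prod.lift_fst _ _)).trans (pullback.diagonal_fst f))).symm)
    · exact (prod.lift_snd _ _).trans (((Category.assoc _ _ _).trans ((congrArg (pullback.diagonal f ≫ ·)
        (prod.lift_snd _ _)).trans (pullback.diagonal_snd f))).symm)
  change RepWith @QuasiCompact (Limits.diag X)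
  rw [e]
  exact MorphismProperty.comp_mem _ _ _ hf h1

theorem qcSp_of_mor {X Y : Sp S} {f : X ⟶ Y} (hY : IsAlgSpace Y) (hf : IsQuasiCompactMor f) (h : IsQuasiCompactSp Y) :
    IsQuasiCompactSp X :=
  hf hY h (𝟙 Y) (𝟙 X) f (IsPullback.of_horiz_isIso ⟨by simp⟩)

theorem compact_prod [QuasiSeparatedSpace S] (U T : Over S) [CompactSpace U.left] [CompactSpace T.left] :
    CompactSpace (U ⨯ T : Over S).left := by
  have h1 : QuasiCompact U.hom := inferInstance
  have h2 : CompactSpace (pullback U.hom T.hom : Scheme.{u}) :=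
    QuasiCompact.compactSpace_of_compactSpace (pullback.snd U.hom T.hom)
  exact (Scheme.homeoOfIso (Over.prodLeftIsoPullback U T)).symm.compactSpace

theorem qc_of_qs [QuasiSeparatedSpace S] {X Y : Sp S} (hYa : IsAlgSpace Y) {f : X ⟶ Y} (hX : IsQuasiCompactSp X)
    (hY : IsQuasiSeparatedSp Y) : IsQuasiCompactMor f := by
  refine qc_of_affine fun T hT t P a b sq => ?_
  obtain ⟨U, v, hv1, hv2, hU⟩ := hX
  have hU' : CompactSpace U.left := hU
  have sq1 := IsPullback.of_hasPullback a v
  have sq2 := sq1.flip.paste_vert sq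
  obtain ⟨W, s, r, sqW⟩ := hYa.representable_from_yon (v ≫ f) t
  obtain ⟨r, rfl⟩ := (yon S).map_surjective r
  let e := sqW.isoIsPullback _ _ sq2
  have a1 : RepWith @Etale (pullback.fst a v) := MorphismProperty.of_isPullback sq1.flip hv1
  have a2 : RepWith @Surjective (pullback.fst a v) := MorphismProperty.of_isPullback sq1.flip hv2
  have c1 : RepWith @Etale e.hom := MorphismProperty.of_isIso _ _
  have c2 : RepWith @Surjective e.hom := MorphismProperty.of_isIso _ _
  refine ⟨W, e.hom ≫ pullback.fst a v, MorphismProperty.comp_mem _ _ _ c1 a1, MorphismProperty.comp_mem _ _ _ c2 a2, ?_⟩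
  have sqD := H15Cat.isPullback_diag_prod sqW
  have h1 : RepWith @QuasiCompact (prod.lift ((yon S).map r) ((yon S).map s)) := MorphismProperty.of_isPullback sqD hY
  have e1 : prod.lift ((yon S).map r) ((yon S).map s) = (yon S).map (prod.lift r s) ≫ prodComparison (yon S) U T := by
    apply Limits.prod.hom_ext
    · rw [prod.lift_fst, Category.assoc, prodComparison_fst, ← Functor.map_comp, prod.lift_fst]
    · rw [prod.lift_snd, Category.assoc, prodComparison_snd, ← Functor.map_comp, prod.lift_snd]
  rw [e1] at h1
  have h2 := ((RepWith @QuasiCompact).cancel_right_of_respectsIso _ _).1 h1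
  rw [repWith_yon_map_iff] at h2
  have h3 : QuasiCompact (prod.lift r s).left := h2
  have := compact_prod U T
  exact QuasiCompact.compactSpace_of_compactSpace (prod.lift r s).left

end Groth.Agent.H15Pt
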