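import Groth.Agent.Lib.Helper15Pt13

set_option autoImplicit false
universe u

open CategoryTheory CategoryTheory.Limits AlgebraicGeometry Opposite AlgSp

namespace Groth.Agent.H15Pt

variable {S : Scheme.{u}}

theorem ui_iff {X Y : Scheme.{u}} (f : X ⟶ Y) : UniversallyInjective f ↔
    ∀ (K : Type u) [Field K], Function.Injective (fun g : Spec (.of K) ⟶ X ↦ g ≫ f) :=
  (tfae_universallyInjective f).out 0 1

theorem univInj_iff {X Y : Sp S} {f : X ⟶ Y} (hf : Representable f) :
    RepWith @UniversallyInjective f ↔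
      ∀ (K : Type u) [Field K] (str : Spec (CommRingCat.of K) ⟶ S),
        Function.Injective (fun a : (yon S).obj (Over.mk str) ⟶ X => a ≫ f) := by
  constructor
  · intro h K _ str a b hab
    obtain ⟨V, s, r, sq⟩ := h.1 (a ≫ f)
    have hs : UniversallyInjective s.left := h.2 _ _ _ sq
    have hab' : b ≫ f = a ≫ f := hab.symm
    obtain ⟨x, hx⟩ := (yon S).map_surjective (sq.lift a (𝟙 _) (by simp))
    obtain ⟨y, hy⟩ := (yon S).map_surjective (sq.lift b (𝟙 _) (by simp [hab']))
    have h1 : x ≫ s = 𝟙 _ := (yon S).map_injective (by rw [Functor.map_comp, hx, sq.lift_snd, CategoryTheory.Functor.map_id])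
    have h2 : y ≫ s = 𝟙 _ := (yon S).map_injective (by rw [Functor.map_comp, hy, sq.lift_snd, CategoryTheory.Functor.map_id])
    have h3 : x.left = y.left := (ui_iff s.left).1 hs K (by
      change x.left ≫ s.left = y.left ≫ s.left
      rw [← Over.comp_left, ← Over.comp_left, h1, h2])
    have h4 : x = y := Over.OverMorphism.ext h3
    rw [← sq.lift_fst a (𝟙 _) (by simp), ← sq.lift_fst b (𝟙 _) (by simp [hab']), ← hx, ← hy, h4]
  · intro h
    refine ⟨hf, fun {T V} g r s sq => ?_⟩
    refine (ui_iff s.left).2 fun K _ x y hxy => ?_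
    have hxy' : x ≫ s.left = y ≫ s.left := hxy
    let x' : Over.mk (x ≫ V.hom) ⟶ V := Over.homMk x rfl
    let y' : Over.mk (x ≫ V.hom) ⟶ V := Over.homMk y (by
      change y ≫ V.hom = x ≫ V.hom
      rw [← Over.w s, ← Category.assoc, ← hxy', Category.assoc])
    have e : x' ≫ s = y' ≫ s := Over.OverMorphism.ext hxy'
    have e2 : (yon S).map x' ≫ r = (yon S).map y' ≫ r := by
      apply h K (x ≫ V.hom)
      change ((yon S).map x' ≫ r) ≫ f = ((yon S).map y' ≫ r) ≫ f
      rw [Category.assoc, Category.assoc, sq.w, ← Category.assoc, ← Category.assoc, ← Functor.map_comp,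
        ← Functor.map_comp, e]
    have e3 : (yon S).map x' = (yon S).map y' := sq.hom_ext e2 (by
      rw [← Functor.map_comp, ← Functor.map_comp, e])
    have e4 : x' = y' := (yon S).map_injective e3
    exact congrArg (fun z => z.left) e4

end Groth.Agent.H15Pt
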