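import Groth.Agent.Lib.Helper15Pt14
import Mathlib.AlgebraicGeometry.Morphisms.FlatMono

set_option autoImplicit false
universe u

open CategoryTheory CategoryTheory.Limits AlgebraicGeometry Opposite AlgSp

namespace Groth.Agent.H15Pt

variable {S : Scheme.{u}}

theorem isIso_field {E : Scheme.{u}} {K : Type u} [Field K] (s : E ⟶ Spec (CommRingCat.of K)) [LocallyOfFiniteType s]
    [Mono s] [Surjective s] : IsIso s := by
  have h1 : Flat s := inferInstance
  have h3 : LocallyOfFinitePresentation s := inferInstance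
  have h2 : IsOpenImmersion s := IsOpenImmersion.of_flat_of_mono s
  exact (isIso_iff_isOpenImmersion_and_surjective s).2 ⟨h2, inferInstance⟩

theorem inj_of_diag_surj {X Y : Sp S} (hX : IsAlgSpace X) {f : X ⟶ Y}
    (h : Function.Surjective (Points.map (pullback.diagonal f))) (K : Type u) [Field K] (str : Spec (CommRingCat.of K) ⟶ S) :
    Function.Injective (fun a : (yon S).obj (Over.mk str) ⟶ X => a ≫ f) := by
  intro a b hab
  let z : (yon S).obj (Over.mk str) ⟶ pullback f f := pullback.lift a b hab
  have hd := H15AS.dp_diagonal hX f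
  obtain ⟨E, s, r, sq⟩ := hd.rep z
  have h1 : LocallyOfFiniteType s.left := hd.lft.2 _ _ _ sq
  have h2 : Mono s.left := hd.mono.2 _ _ _ sq
  have h3 : Surjective s.left := (repWith_of_surj hd.rep h).2 _ _ _ sq
  have h4 : IsIso ((Over.forget S).map s) := isIso_field (K := K) s.left
  have h5 : IsIso s := isIso_of_reflects_iso s (Over.forget S)
  have e : z = (yon S).map (inv s) ≫ r ≫ pullback.diagonal f := by
    rw [sq.w, ← Category.assoc, ← Functor.map_comp, IsIso.inv_hom_id, CategoryTheory.Functor.map_id, Category.id_comp]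
  have ea : a = (yon S).map (inv s) ≫ r := by
    have := congrArg (· ≫ pullback.fst f f) e
    simp only [Category.assoc, pullback.diagonal_fst, Category.comp_id] at this
    rw [← this]; exact (pullback.lift_fst _ _ _).symm
  have eb : b = (yon S).map (inv s) ≫ r := by
    have := congrArg (· ≫ pullback.snd f f) e
    simp only [Category.assoc, pullback.diagonal_snd, Category.comp_id] at this
    rw [← this]; exact (pullback.lift_snd _ _ _).symm
  rw [ea, eb]

theorem univInj_of_inj {X Y : Sp S} {f : X ⟶ Y}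
    (h : ∀ (K : Type u) [Field K] (str : Spec (CommRingCat.of K) ⟶ S),
      Function.Injective (fun a : (yon S).obj (Over.mk str) ⟶ X => a ≫ f)) : IsUnivInjectiveMor f := by
  intro Z P _ g fst snd sq
  intro x y hxy
  induction x using Points.ind with
  | h p =>
  induction y using Points.ind with
  | h q =>
  rw [Points.map_mk, Points.map_mk, Points.mk_eq_mk_iff] at hxy
  obtain ⟨Ω, hΩ, w, α, β, heq⟩ := hxy
  let p' : (yon S).obj (Over.mk w) ⟶ P := (GrothendieckTopology.uliftYonedaEquiv.{u+1} (J S)).symm (P.obj.map α.op p.val)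
  let q' : (yon S).obj (Over.mk w) ⟶ P := (GrothendieckTopology.uliftYonedaEquiv.{u+1} (J S)).symm (P.obj.map β.op q.val)
  have e1 : p' ≫ snd = q' ≫ snd := by
    apply (GrothendieckTopology.uliftYonedaEquiv.{u+1} (J S)).injective
    rw [GrothendieckTopology.uliftYonedaEquiv_comp, GrothendieckTopology.uliftYonedaEquiv_comp,
      Equiv.apply_symm_apply, Equiv.apply_symm_apply]
    have h1 : snd.hom.app (op (Over.mk w)) (P.obj.map α.op p.val) = Z.obj.map α.op (snd.hom.app _ p.val) :=
      NatTrans.naturality_apply snd.hom α.op p.val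
    have h2 : snd.hom.app (op (Over.mk w)) (P.obj.map β.op q.val) = Z.obj.map β.op (snd.hom.app _ q.val) :=
      NatTrans.naturality_apply snd.hom β.op q.val
    rw [h1, h2]
    exact heq
  have e2 : p' ≫ fst = q' ≫ fst := by
    apply h Ω w
    change (p' ≫ fst) ≫ f = (q' ≫ fst) ≫ f
    rw [Category.assoc, Category.assoc, sq.w, ← Category.assoc, ← Category.assoc, e1]
  have e3 : p' = q' := sq.hom_ext e2 e1
  rw [Points.mk_eq_mk_iff]
  exact ⟨Ω, hΩ, w, α, β, (GrothendieckTopology.uliftYonedaEquiv.{u+1} (J S)).symm.injective e3⟩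

theorem mk_exists_field {F : Sp S} (y : Points F) :
    ∃ (K : Type u) (_ : Field K) (str : Spec (CommRingCat.of K) ⟶ S) (η : (yon S).obj (Over.mk str) ⟶ F),
      Points.ofPt η (IsLocalRing.closedPoint K) = y ∧
      Points.mk (⟨K, str, (GrothendieckTopology.uliftYonedaEquiv.{u+1} (J S)) η⟩ : FieldPt F) = y := by
  induction y using Points.ind with
  | h q =>
  refine ⟨q.K, q.field, q.str, (GrothendieckTopology.uliftYonedaEquiv.{u+1} (J S)).symm q.val, ?_, ?_⟩
  · rw [Points.ofPt_eq_map_ofScheme]
    have h2 := Points.ofScheme_apply_eq_mk (Over.mk q.str) (K := q.K) (str := q.str) (𝟙 _) (Category.id_comp _)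
    have h2' : Points.ofScheme (Over.mk q.str) (IsLocalRing.closedPoint q.K) = _ := h2
    rw [h2', Points.map_mk]
    have h3 : ((GrothendieckTopology.uliftYonedaEquiv.{u+1} (J S)).symm q.val).hom.app _
        (ULift.up (𝟙 (Over.mk q.str))) = q.val := by
      have := (GrothendieckTopology.uliftYonedaEquiv.{u+1} (J S)).apply_symm_apply q.val
      rw [GrothendieckTopology.uliftYonedaEquiv_apply] at this
      exact this
    exact congrArg (fun v => Points.mk (⟨q.K, q.str, v⟩ : FieldPt F)) h3
  · rw [Equiv.apply_symm_apply]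

theorem diag_surj_of_univInj {X Y : Sp S} {f : X ⟶ Y} (h : IsUnivInjectiveMor f) :
    Function.Surjective (Points.map (pullback.diagonal f)) := by
  intro z
  obtain ⟨K, hK, str, η, hη, -⟩ := mk_exists_field z
  have hab : (η ≫ pullback.snd f f) ≫ f = (η ≫ pullback.fst f f) ≫ f := by
    rw [Category.assoc, Category.assoc, pullback.condition]
  have sq := IsPullback.of_hasPullback f ((η ≫ pullback.fst f f) ≫ f)
  let σa := sq.lift (η ≫ pullback.fst f f) (𝟙 _) (by simp)
  let σb := sq.lift (η ≫ pullback.snd f f) (𝟙 _) (by rw [hab, Category.id_comp])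
  have e1 : σa ≫ pullback.snd f ((η ≫ pullback.fst f f) ≫ f) = 𝟙 _ := sq.lift_snd _ _ _
  have e2 : σb ≫ pullback.snd f ((η ≫ pullback.fst f f) ≫ f) = 𝟙 _ := sq.lift_snd _ _ _
  have e3 : σa ≫ pullback.fst f ((η ≫ pullback.fst f f) ≫ f) = η ≫ pullback.fst f f := sq.lift_fst _ _ _
  have e4 : σb ≫ pullback.fst f ((η ≫ pullback.fst f f) ≫ f) = η ≫ pullback.snd f f := sq.lift_fst _ _ _
  have hinj := h (IsAlgSpace.yon_obj _) _ _ _ sq
  have key : Points.mk (⟨K, str, (GrothendieckTopology.uliftYonedaEquiv.{u+1} (J S)) σa⟩ : FieldPt _) =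
      Points.mk (⟨K, str, (GrothendieckTopology.uliftYonedaEquiv.{u+1} (J S)) σb⟩ : FieldPt _) := by
    apply hinj
    rw [Points.map_mk, Points.map_mk]
    refine congrArg (fun v => Points.mk (⟨K, str, v⟩ : FieldPt _)) ?_
    change (pullback.snd f ((η ≫ pullback.fst f f) ≫ f)).hom.app _ _ = (pullback.snd f ((η ≫ pullback.fst f f) ≫ f)).hom.app _ _
    rw [← GrothendieckTopology.uliftYonedaEquiv_comp, ← GrothendieckTopology.uliftYonedaEquiv_comp, e1, e2]
  rw [Points.mk_eq_mk_iff] at key
  obtain ⟨Ω, hΩ, w, α, β, heq⟩ := key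
  have k1 : (yon S).map α ≫ σa = (yon S).map β ≫ σb := by
    apply (GrothendieckTopology.uliftYonedaEquiv.{u+1} (J S)).injective
    have n1 := GrothendieckTopology.uliftYonedaEquiv_naturality.{u+1} (J S) σa α
    have n2 := GrothendieckTopology.uliftYonedaEquiv_naturality.{u+1} (J S) σb β
    exact n1.symm.trans (Eq.trans heq n2)
  have k2 : (yon S).map α = (yon S).map β := by
    have := congrArg (· ≫ pullback.snd f ((η ≫ pullback.fst f f) ≫ f)) k1
    simp only [Category.assoc, e1, e2, Category.comp_id] at this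
    exact this
  have k3 : (yon S).map α ≫ η ≫ pullback.fst f f = (yon S).map α ≫ η ≫ pullback.snd f f := by
    have := congrArg (· ≫ pullback.fst f ((η ≫ pullback.fst f f) ≫ f)) k1
    simp only [Category.assoc, e3, e4] at this
    rw [← k2] at this
    exact this
  have k4 : (yon S).map α ≫ η = ((yon S).map α ≫ η ≫ pullback.fst f f) ≫ pullback.diagonal f := by
    apply pullback.hom_ext
    · simp only [Category.assoc, pullback.diagonal_fst, Category.comp_id]
    · simp only [Category.assoc, pullback.diagonal_snd, Category.comp_id, k3]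
  refine ⟨Points.ofPt ((yon S).map α ≫ η ≫ pullback.fst f f) (IsLocalRing.closedPoint Ω), ?_⟩
  rw [Points.map_ofPt, ← k4, ofPt_comp, ← hη]
  congr 1
  exact Subsingleton.elim (α := (Spec (CommRingCat.of K) : Scheme.{u})) _ _

end Groth.Agent.H15Pt
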