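import Groth.Agent.Lib.Helper15AS

set_option autoImplicit false
universe u

open CategoryTheory CategoryTheory.Limits AlgebraicGeometry Opposite AlgSp

namespace Groth.Agent.H15Pt

variable {S : Scheme.{u}}

theorem fppf_local (P : MorphismProperty Scheme.{u}) [P.IsStableUnderBaseChange] [P.IsLocalAtTarget Scheme.fppfPrecoverage]
    {A X Y Z : Scheme.{u}} {fst : A ⟶ X} {snd : A ⟶ Y} {f : X ⟶ Z} {g : Y ⟶ Z}
    (sq : IsPullback fst snd f g) (hf : H15AS.Fppf f) (h : P fst) : P g := by
  have : Surjective f := hf.1.1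
  let 𝒰 : Scheme.Cover.{u, u} (Scheme.precoverage (@Flat ⊓ @LocallyOfFinitePresentation)) Z :=
    f.cover ⟨hf.1.2, hf.2⟩
  refine MorphismProperty.IsLocalAtTarget.of_zeroHypercover (P := P) (K := Scheme.fppfPrecoverage) (f := g) 𝒰 fun i => ?_
  change P (pullback.snd g f)
  have e : pullback.snd g f = (sq.flip.isoPullback).inv ≫ fst := by rw [IsPullback.isoPullback_inv_snd]
  rw [e]
  exact (P.cancel_left_of_respectsIso _ _).2 h

end Groth.Agent.H15Pt
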