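import Groth.Agent.Lib.Helper15AS

set_option autoImplicit false
universe u

open CategoryTheory CategoryTheory.Limits AlgebraicGeometry Opposite AlgSp

namespace Groth.Agent.H15Pt

variable {S : Scheme.{u}}

theorem aff_baseChange {X Y V K : Sp S} {f : X ⟶ Y} {p : V ⟶ Y} {fst : K ⟶ X}
    {snd : K ⟶ V} (sq : IsPullback fst snd f p) (h : IsAffineMor f) : IsAffineMor snd := by
  intro Z hZ g
  obtain ⟨W, i, a, sq', hW⟩ := h hZ (g ≫ p)
  refine ⟨W, i, sq.lift a ((yon S).map i ≫ g) (by rw [sq'.w, Category.assoc]), ?_, hW⟩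
  refine IsPullback.of_right ?_ (sq.lift_snd _ _ _) sq
  rw [sq.lift_fst]
  exact sq'

theorem aff_comp {A B C : Sp S} {f : A ⟶ B} {g : B ⟶ C} (hf : IsAffineMor f) (hg : IsAffineMor g) :
    IsAffineMor (f ≫ g) := by
  intro Z hZ z
  obtain ⟨W1, i1, a1, sq1, hW1⟩ := hg hZ z
  obtain ⟨W2, i2, a2, sq2, hW2⟩ := hf hW1 a1
  refine ⟨W2, i2 ≫ i1, a2, ?_, hW2⟩
  rw [Functor.map_comp]
  exact sq2.paste_vert sq1

theorem aff_closed {A B : Sp S} {f : A ⟶ B} (h : RepWith @IsClosedImmersion f) : IsAffineMor f := by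
  intro Z hZ z
  obtain ⟨V, s, r, sq⟩ := h.1 z
  have hs : IsClosedImmersion s.left := h.2 _ _ _ sq
  exact ⟨V, s, r, sq, isAffine_of_isAffineHom s.left⟩

theorem aff_of_comp {X Y Z : Sp S} {f : X ⟶ Y} {g : Y ⟶ Z}
    (h : IsAffineMor (f ≫ g)) (hg : IsAffineMor (pullback.diagonal g)) : IsAffineMor f := by
  have e : f = (pullback.lift (𝟙 X) f (by simp) : X ⟶ pullback (f ≫ g) g) ≫ pullback.snd _ _ := by
    rw [pullback.lift_snd]
  rw [e]
  exact aff_comp (aff_baseChange (H15Cat.isPullback_graph f g) hg) (aff_baseChange (IsPullback.of_hasPullback (f ≫ g) g) h)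

end Groth.Agent.H15Pt
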