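import Groth.Agent.Lib.Helper15Pt

set_option autoImplicit false
universe u

open CategoryTheory CategoryTheory.Limits AlgebraicGeometry Opposite AlgSp

namespace Groth.Agent.H15Pt

variable {S : Scheme.{u}}

theorem preimage_ofPt_image {F G : Sp S} {f : F ⟶ G} {T V : Over S} {g : (yon S).obj T ⟶ G}
    {r : (yon S).obj V ⟶ F} {s : V ⟶ T} (sq : IsPullback r ((yon S).map s) f g) (W : Set (Points F)) :
    Points.ofPt g ⁻¹' (Points.map f '' W) = s.left '' (Points.ofPt r ⁻¹' W) := by
  ext t
  constructor
  · rintro ⟨x, hx, h⟩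
    rw [Points.ofPt_eq_map_ofScheme] at h
    obtain ⟨z, h1, h2⟩ := exists_of_isPullback sq x _ h
    refine ⟨Points.toScheme V z, ?_, ?_⟩
    · change Points.ofPt r _ ∈ W
      rw [Points.ofPt_eq_map_ofScheme, Points.ofScheme_toScheme, h1]
      exact hx
    · rw [← Points.toScheme_ofPt s, Points.ofPt_eq_map_ofScheme, Points.ofScheme_toScheme, h2,
        Points.toScheme_ofScheme]
  · rintro ⟨v, hv, rfl⟩
    refine ⟨Points.ofPt r v, hv, ?_⟩
    rw [Points.map_ofPt, sq.w, ofPt_comp]

theorem mk_exists {F : Sp S} (y : Points F) :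
    ∃ (T : Over S) (η : (yon S).obj T ⟶ F) (t : T.left), Points.ofPt η t = y := by
  induction y using Points.ind with
  | h q =>
  refine ⟨Over.mk q.str, (GrothendieckTopology.uliftYonedaEquiv.{u+1} (J S)).symm q.val, IsLocalRing.closedPoint q.K, ?_⟩
  rw [Points.ofPt_eq_map_ofScheme]
  have h2 := Points.ofScheme_apply_eq_mk (Over.mk q.str) (K := q.K) (str := q.str) (𝟙 _) (Category.id_comp _)
  have h2' : Points.ofScheme (Over.mk q.str) (IsLocalRing.closedPoint q.K) = _ := h2
  rw [h2', Points.map_mk]
  have h3 : ((GrothendieckTopology.uliftYonedaEquiv.{u+1} (J S)).symm q.val).hom.app _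
      (ULift.up (𝟙 (Over.mk q.str))) = q.val := by
    have := (GrothendieckTopology.uliftYonedaEquiv.{u+1} (J S)).apply_symm_apply q.val
    rw [GrothendieckTopology.uliftYonedaEquiv_apply] at this
    exact this
  exact congrArg (fun v => Points.mk (⟨q.K, q.str, v⟩ : FieldPt F)) h3

theorem surj_of_repWith {F G : Sp S} {f : F ⟶ G} (h : RepWith @Surjective f) : Function.Surjective (Points.map f) := by
  intro y
  obtain ⟨T, η, t, rfl⟩ := mk_exists y
  obtain ⟨V, s, r, sq⟩ := h.1 η
  have hs : Surjective s.left := h.2 η r s sq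
  have := preimage_ofPt_image sq Set.univ
  rw [Set.preimage_univ, Set.image_univ, Set.image_univ, s.left.surjective.range_eq] at this
  have ht : t ∈ Points.ofPt η ⁻¹' Set.range (Points.map f) := by rw [this]; exact Set.mem_univ _
  exact ht

theorem repWith_of_surj {F G : Sp S} {f : F ⟶ G} (hf : Representable f)
    (h : Function.Surjective (Points.map f)) : RepWith @Surjective f := by
  refine ⟨hf, ?_⟩
  intro T V g r s sq
  have := preimage_ofPt_image sq Set.univ
  rw [Set.preimage_univ, Set.image_univ, Set.image_univ, h.range_eq, Set.preimage_univ] at this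
  exact ⟨Set.range_eq_univ.1 this.symm⟩

theorem isOpenMap_of_repWith {F G : Sp S} {f : F ⟶ G} {P : MorphismProperty Scheme.{u}} (h : RepWith P f)
    (hP : ∀ {X Y : Scheme.{u}} (f : X ⟶ Y), P f → IsOpenMap f) : IsOpenMap (Points.map f) := by
  intro W hW
  rw [Points.isOpen_iff]
  intro T g
  obtain ⟨V, s, r, sq⟩ := h.1 g
  rw [preimage_ofPt_image sq]
  exact hP _ (h.2 g r s sq) _ (hW.preimage (Points.continuous_ofPt _))

theorem isClosedMap_of_repWith {F G : Sp S} {f : F ⟶ G} {P : MorphismProperty Scheme.{u}} (h : RepWith P f)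
    (hP : ∀ {X Y : Scheme.{u}} (f : X ⟶ Y), P f → IsClosedMap f) : IsClosedMap (Points.map f) := by
  intro W hW
  rw [← isOpen_compl_iff, Points.isOpen_iff]
  intro T g
  obtain ⟨V, s, r, sq⟩ := h.1 g
  rw [Set.preimage_compl, preimage_ofPt_image sq, isOpen_compl_iff]
  exact hP _ (h.2 g r s sq) _ (hW.preimage (Points.continuous_ofPt _))

theorem isOpenMap_ofPt {X : Sp S} {U : Over S} {a : (yon S).obj U ⟶ X} (h : IsOpenMap (Points.map a)) :
    IsOpenMap (Points.ofPt a) := by
  have : Points.ofPt a = Points.map a ∘ Points.schemeHomeo U := funext fun t => Points.ofPt_eq_map_ofScheme a t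
  rw [this]
  exact h.comp (Points.schemeHomeo U).isOpenMap

theorem surj_ofPt {X : Sp S} {U : Over S} {a : (yon S).obj U ⟶ X} (h : Function.Surjective (Points.map a)) :
    Function.Surjective (Points.ofPt a) := by
  have : Points.ofPt a = Points.map a ∘ Points.schemeHomeo U := funext fun t => Points.ofPt_eq_map_ofScheme a t
  rw [this]
  exact h.comp (Points.schemeHomeo U).surjective

theorem yon_map_conj {T T' : Over S} (φ : T ⟶ T') :
    (φ.left : T.left → T'.left) = (Points.schemeHomeo T').symm ∘ Points.map ((yon S).map φ) ∘ Points.schemeHomeo T := by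
  funext t
  rw [Function.comp_apply, Function.comp_apply, Points.map_yon_map_apply, Homeomorph.symm_apply_apply]

end Groth.Agent.H15Pt
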