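import Groth.Agent.Lib.Helper15Pt2

set_option autoImplicit false
universe u

open CategoryTheory CategoryTheory.Limits AlgebraicGeometry Opposite AlgSp

namespace Groth.Agent.H15Pt

variable {S : Scheme.{u}}

/-- a pullback square of schemes over `T.left` gives one in `Over S` -/
theorem over_isPullback {V T : Over S} (s : V ⟶ T) {A B : Scheme.{u}} {i₁ : A ⟶ V.left} {i₂ : B ⟶ T.left}
    {f' : A ⟶ B} (sq : IsPullback i₁ f' s.left i₂) :
    ∃ (A' B' : Over S) (j₁ : A' ⟶ V) (j₂ : B' ⟶ T) (g' : A' ⟶ B') (eA : A'.left = A) (eB : B'.left = B),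
      IsPullback j₁ g' s j₂ ∧ g'.left = eqToHom eA ≫ f' ≫ eqToHom eB.symm := by
  let B' : Over S := Over.mk (i₂ ≫ T.hom)
  let A' : Over S := Over.mk (f' ≫ i₂ ≫ T.hom)
  let j₂ : B' ⟶ T := Over.homMk i₂ rfl
  let g' : A' ⟶ B' := Over.homMk f' rfl
  let j₁ : A' ⟶ V := Over.homMk i₁ (by
    change i₁ ≫ V.hom = f' ≫ i₂ ≫ T.hom
    rw [← Over.w s, ← Category.assoc, sq.w, Category.assoc])
  refine ⟨A', B', j₁, j₂, g', rfl, rfl, ?_, by simp [g']⟩
  exact IsPullback.of_map (Over.forget S) (Over.OverMorphism.ext sq.w) sq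

theorem univOpen_of_repWith {X Y : Sp S} {f : X ⟶ Y} (h : RepWith @UniversallyOpen f) : IsUnivOpenMor f := by
  intro Z Z' _ g fst snd sq
  have h1 : RepWith @UniversallyOpen snd := MorphismProperty.of_isPullback sq h
  exact isOpenMap_of_repWith h1 (fun f hf => by have : UniversallyOpen f := hf; exact f.isOpenMap)

theorem univClosed_of_repWith {X Y : Sp S} {f : X ⟶ Y} (h : RepWith @UniversallyClosed f) : IsUnivClosedMor f := by
  intro Z Z' _ g fst snd sq
  have h1 : RepWith @UniversallyClosed snd := MorphismProperty.of_isPullback sq h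
  exact isClosedMap_of_repWith h1 (fun f hf => by have : UniversallyClosed f := hf; exact f.isClosedMap)

theorem repWith_of_univOpen {X Y : Sp S} {f : X ⟶ Y} (hf : Representable f) (h : IsUnivOpenMor f) :
    RepWith @UniversallyOpen f := by
  refine ⟨hf, ?_⟩
  intro T V g r s sq
  refine ⟨?_⟩
  intro A B i₁ i₂ f' sq1
  obtain ⟨A', B', j₁, j₂, g', eA, eB, sq2, e⟩ := over_isPullback s sq1.flip
  subst eA eB
  simp only [eqToHom_refl, Category.comp_id, Category.id_comp] at e
  subst e
  have sq3 := (sq2.map (yon S)).paste_horiz sq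
  have h4 := h (IsAlgSpace.yon_obj B') _ _ _ sq3
  have h5 : IsOpenMap (Points.map ((yon S).map g')) := h4
  change IsOpenMap (g'.left : A'.left → B'.left)
  rw [yon_map_conj]
  exact ((Points.schemeHomeo B').symm.isOpenMap.comp h5).comp (Points.schemeHomeo A').isOpenMap

theorem repWith_of_univClosed {X Y : Sp S} {f : X ⟶ Y} (hf : Representable f) (h : IsUnivClosedMor f) :
    RepWith @UniversallyClosed f := by
  refine ⟨hf, ?_⟩
  intro T V g r s sq
  refine ⟨?_⟩
  intro A B i₁ i₂ f' sq1
  obtain ⟨A', B', j₁, j₂, g', eA, eB, sq2, e⟩ := over_isPullback s sq1.flip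
  subst eA eB
  simp only [eqToHom_refl, Category.comp_id, Category.id_comp] at e
  subst e
  have sq3 := (sq2.map (yon S)).paste_horiz sq
  have h4 := h (IsAlgSpace.yon_obj B') _ _ _ sq3
  have h5 : IsClosedMap (Points.map ((yon S).map g')) := h4
  change IsClosedMap (g'.left : A'.left → B'.left)
  rw [yon_map_conj]
  exact ((Points.schemeHomeo B').symm.isClosedMap.comp h5).comp (Points.schemeHomeo A').isClosedMap

end Groth.Agent.H15Pt
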