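import Groth.Agent.Lib.Helper15Pt3

set_option autoImplicit false
universe u

open CategoryTheory CategoryTheory.Limits AlgebraicGeometry Opposite AlgSp

namespace Groth.Agent.H15Pt

variable {S : Scheme.{u}}

theorem closedImm_iff {Z X : Sp S} (i : Z ⟶ X) (hi : RepWith @IsImmersion i) :
    RepWith @IsClosedImmersion i ↔ IsClosed (Set.range (Points.map i)) := by
  constructor
  · intro h
    exact (isClosedMap_of_repWith h (fun f hf => by have : IsClosedImmersion f := hf; exact f.isClosedEmbedding.isClosedMap)).isClosed_range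
  · intro h
    refine ⟨hi.1, ?_⟩
    intro T V g r s sq
    have h1 : IsImmersion s.left := hi.2 g r s sq
    have h2 := preimage_ofPt_image sq Set.univ
    rw [Set.image_univ, Set.preimage_univ, Set.image_univ] at h2
    have h3 : IsClosed (Set.range s.left) := by
      rw [← h2]
      exact h.preimage (Points.continuous_ofPt _)
    exact IsClosedImmersion.of_isPreimmersion s.left h3

theorem univInj_descend {X Y V P : Sp S} {f : X ⟶ Y} {g : V ⟶ Y} (hg : Function.Surjective (Points.map g))
    {fst : P ⟶ X} {snd : P ⟶ V} (sq : IsPullback fst snd f g) (h : IsUnivInjectiveMor snd) :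
    IsUnivInjectiveMor f := by
  intro T Q _ t q1 q2 sqQ
  intro x y hxy
  have sqT := IsPullback.of_hasPullback t g
  obtain ⟨w0, hw0⟩ := surj_of_isPullback sqT.flip hg (Points.map q2 x)
  obtain ⟨W, η, w, rfl⟩ := mk_exists w0
  -- base change of snd to W
  have sq1 := IsPullback.of_hasPullback q2 (η ≫ pullback.fst t g)
  have sq2 := sq1.paste_horiz sqQ
  have ew : (η ≫ pullback.fst t g) ≫ t = (η ≫ pullback.snd t g) ≫ g := by
    rw [Category.assoc, sqT.w, Category.assoc]
  rw [ew] at sq2
  have sq3 : IsPullback (sq.lift (pullback.fst q2 (η ≫ pullback.fst t g) ≫ q1) (pullback.snd q2 (η ≫ pullback.fst t g) ≫ η ≫ pullback.snd t g)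
      (by rw [sq2.w]; simp only [Category.assoc])) (pullback.snd q2 (η ≫ pullback.fst t g)) snd (η ≫ pullback.snd t g) := by
    refine IsPullback.of_right ?_ (sq.lift_snd _ _ _) sq
    rw [sq.lift_fst]
    exact sq2
  have hinj := h (IsAlgSpace.yon_obj W) _ _ _ sq3
  have e1 : Points.map (η ≫ pullback.fst t g) (Points.ofScheme W w) = Points.map q2 x := by
    rw [← hw0, Points.ofPt_eq_map_ofScheme, Points.map_comp]
  obtain ⟨x', hx1, hx2⟩ := exists_of_isPullback sq1 x (Points.ofScheme W w) e1.symm
  obtain ⟨y', hy1, hy2⟩ := exists_of_isPullback sq1 y (Points.ofScheme W w) (hxy.symm.trans e1.symm)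
  have : x' = y' := hinj (hx2.trans hy2.symm)
  rw [← hx1, ← hy1, this]

theorem closedImm_sep {X Y : Sp S} {f : X ⟶ Y} (hf : Mono f) (P : MorphismProperty Scheme.{u}) [P.IsMultiplicative]
    [P.IsStableUnderBaseChange] : RepWith P (pullback.diagonal f) := by
  have : IsIso (pullback.diagonal f) := inferInstance
  exact MorphismProperty.of_isIso _ _

theorem qc_of_repWith {X Y : Sp S} {f : X ⟶ Y} (h : RepWith @QuasiCompact f) : IsQuasiCompactMor f := by
  intro Z Z' _ hZ g fst snd sq
  obtain ⟨U, a, ha, hs, hU⟩ := hZ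
  have h1 : RepWith @QuasiCompact snd := MorphismProperty.of_isPullback sq h
  obtain ⟨V, s, r, sq1⟩ := h1.1 a
  have h2 : QuasiCompact s.left := h1.2 a r s sq1
  refine ⟨V, r, MorphismProperty.of_isPullback sq1.flip ha, MorphismProperty.of_isPullback sq1.flip hs, ?_⟩
  have : CompactSpace U.left := hU
  exact QuasiCompact.compactSpace_of_compactSpace s.left

end Groth.Agent.H15Pt
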