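import Groth.Agent.Lib.Helper15Pt4
import Groth.Prelude.Def_SGA1

set_option autoImplicit false
universe u

open CategoryTheory CategoryTheory.Limits AlgebraicGeometry Opposite AlgSp

namespace Groth.Agent.H15Pt

variable {S : Scheme.{u}}

/-- refinement of charts -/
theorem exists_chart {X Y : Sp S} (hX : IsAlgSpace X) (f : X ⟶ Y) {V : Over S}
    (q : (yon S).obj V ⟶ Y) (hqe : RepWith @Etale q) (hqs : RepWith @Surjective q) :
    ∃ (U : Over S) (p : (yon S).obj U ⟶ X) (α : U ⟶ V),
      RepWith @Etale p ∧ RepWith @Surjective p ∧ p ≫ f = (yon S).map α ≫ q := by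
  obtain ⟨U₀, p₀, he, hs⟩ := hX.atlas
  obtain ⟨U, s, r, sq⟩ := hqe.1 (p₀ ≫ f)
  obtain ⟨α, rfl⟩ := (yon S).map_surjective r
  have h1 : RepWith @Etale ((yon S).map s) := MorphismProperty.of_isPullback sq hqe
  have h2 : RepWith @Surjective ((yon S).map s) := MorphismProperty.of_isPullback sq hqs
  exact ⟨U, (yon S).map s ≫ p₀, α, MorphismProperty.comp_mem _ _ _ h1 he, MorphismProperty.comp_mem _ _ _ h2 hs,
    by rw [Category.assoc, sq.w]⟩

theorem univSubm_of_repWith {X Y : Sp S} {f : X ⟶ Y} (h : RepWith SGA1.UnivSubmersive f) : IsUnivSubmersiveMor f := by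
  intro Z Z' _ g fst snd sq
  have : SGA1.UnivSubmersive.{u}.IsStableUnderBaseChange := by
    unfold SGA1.UnivSubmersive; infer_instance
  have h1 : RepWith SGA1.UnivSubmersive snd := MorphismProperty.of_isPullback sq h
  have hq : ∀ {A B : Scheme.{u}} (f : A ⟶ B), SGA1.UnivSubmersive f → Topology.IsQuotientMap f :=
    fun f hf => hf (𝟙 _) (𝟙 _) f (IsPullback.of_vert_isIso ⟨by simp⟩)
  have h2 : RepWith @Surjective snd := H15AS.repWith_imp (fun f hf => ⟨(hq f hf).surjective⟩) h1
  have hsurj := surj_of_repWith h2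
  change Topology.IsQuotientMap (Points.map snd)
  rw [Topology.isQuotientMap_iff, Topology.isCoinducing_iff]
  refine ⟨fun A => ⟨fun hA => ?_, fun hA => hA.preimage (Points.continuous_map _)⟩, hsurj⟩
  rw [Points.isOpen_iff]
  intro T t
  obtain ⟨V, s, r, sq1⟩ := h1.1 t
  have h3 : Topology.IsQuotientMap s.left := hq _ (h1.2 t r s sq1)
  rw [← h3.isOpen_preimage]
  have h4 := hA.preimage (Points.continuous_ofPt r)
  have : s.left ⁻¹' (Points.ofPt t ⁻¹' A) = Points.ofPt r ⁻¹' (Points.map snd ⁻¹' A) := by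
    ext v
    simp only [Set.mem_preimage]
    rw [Points.map_ofPt, sq1.w, ofPt_comp]
  rw [this]
  exact h4

theorem repWith_of_univSubm {X Y : Sp S} {f : X ⟶ Y} (hf : Representable f) (h : IsUnivSubmersiveMor f) :
    RepWith SGA1.UnivSubmersive f := by
  refine ⟨hf, ?_⟩
  intro T V g r s sq
  intro A B i₁ i₂ f' sq1
  obtain ⟨A', B', j₁, j₂, g', eA, eB, sq2, e⟩ := over_isPullback s sq1.flip
  subst eA eB
  simp only [eqToHom_refl, Category.comp_id, Category.id_comp] at e
  subst e
  have sq3 := (sq2.map (yon S)).paste_horiz sq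
  have h4 := h (IsAlgSpace.yon_obj B') _ _ _ sq3
  have h5 : Topology.IsQuotientMap (Points.map ((yon S).map g')) := h4
  change Topology.IsQuotientMap (g'.left : A'.left → B'.left)
  rw [yon_map_conj]
  exact (Points.schemeHomeo B').symm.isQuotientMap.comp (h5.comp (Points.schemeHomeo A').isQuotientMap)

theorem compact_of_qcSp {T : Over S} (h : IsQuasiCompactSp ((yon S).obj T)) : CompactSpace T.left := by
  obtain ⟨U, a, ha, hs, hU⟩ := h
  have : CompactSpace U.left := hU
  have h1 := surj_ofPt (surj_of_repWith hs)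
  have h2 : Continuous (Points.ofPt a) := Points.continuous_ofPt a
  have h3 : CompactSpace (Points ((yon S).obj T)) := by
    refine ⟨?_⟩
    rw [← h1.range_eq]
    exact isCompact_range h2
  exact (Points.schemeHomeo T).symm.compactSpace

end Groth.Agent.H15Pt
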