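import Groth.Agent.Lib.Helper15Pt5

set_option autoImplicit false
universe u

open CategoryTheory CategoryTheory.Limits AlgebraicGeometry Opposite AlgSp

namespace Groth.Agent.H15Pt

variable {S : Scheme.{u}}

theorem etale_of_comp {X : Sp S} {U V : Over S} (a : (yon S).obj V ⟶ X) (b : U ⟶ V) (ha : RepWith @Etale a)
    (hba : RepWith @Etale ((yon S).map b ≫ a)) : Etale b.left := by
  obtain ⟨W, s, r, sq⟩ := ha.1 ((yon S).map b ≫ a)
  obtain ⟨r, rfl⟩ := (yon S).map_surjective r
  have hs : Etale s.left := ha.2 _ _ _ sq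
  have hr : Etale r.left := hba.2 _ _ _ sq.flip
  obtain ⟨σ, hσ⟩ := (yon S).map_surjective (sq.lift ((yon S).map b) (𝟙 _) (by simp))
  have h1 : σ ≫ r = b := (yon S).map_injective (by rw [Functor.map_comp, hσ, sq.lift_fst])
  have h2 : σ ≫ s = 𝟙 _ := (yon S).map_injective (by rw [Functor.map_comp, hσ, sq.lift_snd, CategoryTheory.Functor.map_id])
  have h3 : Etale (σ.left ≫ s.left) := by
    rw [← Over.comp_left, h2]
    change Etale (𝟙 U.left)
    infer_instance
  have h4 : Etale σ.left := Etale.of_comp σ.left s.left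
  rw [← h1, Over.comp_left]
  infer_instance

theorem locP_of_repWith {P : MorphismProperty Scheme.{u}} [P.IsStableUnderBaseChange]
    (hcomp : ∀ {A B C : Scheme.{u}} (f : A ⟶ B) (g : B ⟶ C), Etale f → P g → P (f ≫ g)) {X Y : Sp S} {f : X ⟶ Y}
    (hf : RepWith P f) : LocP P f := by
  intro U V a b h ha hb comm
  obtain ⟨W, s, r, sq⟩ := hf.1 b
  have h1 : P s.left := hf.2 _ _ _ sq
  have h2 : RepWith @Etale r := MorphismProperty.of_isPullback sq.flip hb
  obtain ⟨l, hl⟩ := (yon S).map_surjective (sq.lift a ((yon S).map h) comm)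
  have h3 : l ≫ s = h := (yon S).map_injective (by rw [Functor.map_comp, hl, sq.lift_snd])
  have h4 : (yon S).map l ≫ r = a := by rw [hl, sq.lift_fst]
  have h5 : Etale l.left := etale_of_comp r l h2 (by rw [h4]; exact ha)
  rw [← h3, Over.comp_left]
  exact hcomp _ _ h5 h1

theorem repWith_of_locP {P : MorphismProperty Scheme.{u}} [P.IsStableUnderBaseChange] [P.DescendsAlong H15AS.Fppf]
    {X Y : Sp S} (hY : IsAlgSpace Y) {f : X ⟶ Y}
    (hf : Representable f) (h : LocP P f) : RepWith P f := by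
  obtain ⟨W, w, he, hs⟩ := hY.atlas
  obtain ⟨K, s, r, sq⟩ := hf w
  have h1 : RepWith @Etale r := MorphismProperty.of_isPullback sq.flip he
  have h2 : P s.left := h r w s h1 he sq.w
  exact H15AS.descend_fppf P hf (H15AS.repWith_fppf he hs) sq ((repWith_yon_map_iff P s).2 h2)

/-- refine charts over an atlas of a third space -/
theorem locP_aux {P : MorphismProperty Scheme.{u}} [P.IsStableUnderBaseChange] [P.DescendsAlong H15AS.Fppf]
    {X Y Z : Sp S} {f : X ⟶ Y} {g : Y ⟶ Z} {W₀ : Over S} {w : (yon S).obj W₀ ⟶ Z}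
    (hwe : RepWith @Etale w) (hws : RepWith @Surjective w)
    (H : ∀ {U V : Over S} (a : (yon S).obj U ⟶ X) (b : (yon S).obj V ⟶ Y) (h : U ⟶ V) (k : V ⟶ W₀),
      RepWith @Etale a → RepWith @Etale b → a ≫ f = (yon S).map h ≫ b → b ≫ g = (yon S).map k ≫ w → P h.left) :
    LocP P f := by
  intro U V a b h ha hb comm
  obtain ⟨V', v, r, sq⟩ := hwe.1 (b ≫ g)
  obtain ⟨r, rfl⟩ := (yon S).map_surjective r
  have hv1 : Etale v.left := hwe.2 _ _ _ sq
  have hv2 : Surjective v.left := hws.2 _ _ _ sq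
  have sqU : IsPullback (pullback.fst h v) (pullback.snd h v) h v := IsPullback.of_hasPullback _ _
  have sqU' := sqU.map (Over.forget S)
  have h1 : Etale (pullback.fst h v).left :=
    MorphismProperty.of_isPullback (P := @Etale) sqU'.flip hv1
  have h2 : P (pullback.snd h v).left := by
    refine H ((yon S).map (pullback.fst h v) ≫ a) ((yon S).map v ≫ b) (pullback.snd h v) r ?_ ?_ ?_ ?_
    · exact MorphismProperty.comp_mem _ _ _ ((repWith_yon_map_iff _ _).2 h1) ha
    · exact MorphismProperty.comp_mem _ _ _ ((repWith_yon_map_iff _ _).2 hv1) hb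
    · rw [Category.assoc, comm, ← Category.assoc, ← Functor.map_comp, sqU.w, Functor.map_comp, Category.assoc]
    · rw [Category.assoc, ← sq.w]
  exact P.of_isPullback_of_descendsAlong (Q := H15AS.Fppf) sqU'.flip ⟨⟨hv2, inferInstanceAs (Flat v.left)⟩, inferInstanceAs (LocallyOfFinitePresentation v.left)⟩ h2

end Groth.Agent.H15Pt
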