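import Groth.Agent.Lib.Helper15Pt6

set_option autoImplicit false
universe u

open CategoryTheory CategoryTheory.Limits AlgebraicGeometry Opposite AlgSp

namespace Groth.Agent.H15Pt

variable {S : Scheme.{u}}

theorem diag_iff {P Q : MorphismProperty Scheme.{u}} [P.IsStableUnderBaseChange] {X Y : Sp S} (hX : IsAlgSpace X) {f : X ⟶ Y}
    (hf : Representable f)
    (H : ∀ {U V : Over S} (g : U ⟶ V), RepWith P (pullback.diagonal ((yon S).map g)) ↔ Q g.left) :
    RepWith P (pullback.diagonal f) ↔ RepWith Q f := by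
  constructor
  · intro h
    refine ⟨hf, fun {T V} g r s sq => ?_⟩
    exact (H s).1 (H15AS.diag_baseChange sq h)
  · intro h
    refine ⟨H15AS.diagonal_rep hX f, fun {W E} w fst snd sq => ?_⟩
    obtain ⟨V, s, r, sqV⟩ := h.1 (w ≫ pullback.fst f f ≫ f)
    exact H15AS.diag_test sq sqV ((H s).2 (h.2 _ _ _ sqV))

theorem univOpen_of_cover {U X Y : Sp S} {e : U ⟶ X} {f : X ⟶ Y} (he : RepWith @Surjective e)
    (h : IsUnivOpenMor (e ≫ f)) : IsUnivOpenMor f := by
  intro Z P hZ g fst snd sq O hO
  have sq1 := IsPullback.of_hasPullback e fst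
  have h1 : RepWith @Surjective (pullback.snd e fst) := MorphismProperty.of_isPullback sq1 he
  have h2 := surj_of_repWith h1
  have sq2 := sq1.flip.paste_horiz sq.flip
  have sq3 : IsPullback (pullback.fst e fst) (pullback.snd e fst ≫ snd) (e ≫ f) g := by
    exact sq1.paste_vert sq
  have h3 := h hZ g _ _ sq3
  have h4 : Points.map snd '' O = Points.map (pullback.snd e fst ≫ snd) '' (Points.map (pullback.snd e fst) ⁻¹' O) := by
    ext z
    constructor
    · rintro ⟨x, hx, rfl⟩
      obtain ⟨y, rfl⟩ := h2 x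
      exact ⟨y, hx, by rw [Points.map_comp]⟩
    · rintro ⟨y, hy, rfl⟩
      exact ⟨_, hy, by rw [Points.map_comp]⟩
  rw [h4]
  exact h3 _ (hO.preimage (Points.continuous_map _))

end Groth.Agent.H15Pt
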