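import Groth.Agent.Lib.Helper15Pt7

set_option autoImplicit false
universe u

open CategoryTheory CategoryTheory.Limits AlgebraicGeometry Opposite AlgSp

namespace Groth.Agent.H15Pt

variable {S : Scheme.{u}}

theorem isIso_of_repWith {F G : Sp S} {f : F ⟶ G} (h : RepWith (MorphismProperty.isomorphisms Scheme.{u}) f) :
    IsIso f := by
  have hm : Mono f := H15AS.mono_of_repWith (H15AS.repWith_imp (fun g hg => by
    have : IsIso g := hg
    exact (inferInstance : Mono g)) h)
  have h1 : ∀ (T : Over S), Function.Bijective (f.hom.app (op T)) := by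
    intro T
    constructor
    · intro x y hxy
      apply (GrothendieckTopology.uliftYonedaEquiv.{u+1} (J S)).symm.injective
      rw [← cancel_mono f]
      apply (GrothendieckTopology.uliftYonedaEquiv.{u+1} (J S)).injective
      rw [GrothendieckTopology.uliftYonedaEquiv_comp, GrothendieckTopology.uliftYonedaEquiv_comp,
        Equiv.apply_symm_apply, Equiv.apply_symm_apply]
      exact hxy
    · intro y
      obtain ⟨V, s, r, sq⟩ := h.1 ((GrothendieckTopology.uliftYonedaEquiv.{u+1} (J S)).symm y)
      have hs : IsIso ((Over.forget S).map s) := h.2 _ _ _ sq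
      have hs' : IsIso s := isIso_of_reflects_iso s (Over.forget S)
      refine ⟨(GrothendieckTopology.uliftYonedaEquiv.{u+1} (J S)) ((yon S).map (inv s) ≫ r), ?_⟩
      rw [← GrothendieckTopology.uliftYonedaEquiv_comp, Category.assoc, sq.w, ← Category.assoc, ← Functor.map_comp,
        IsIso.inv_hom_id, CategoryTheory.Functor.map_id, Category.id_comp, Equiv.apply_symm_apply]
  have h2 : IsIso ((sheafToPresheaf (J S) (Type (u+1))).map f) := by
    change IsIso f.hom
    rw [NatTrans.isIso_iff_isIso_app]
    intro T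
    rw [isIso_iff_bijective]
    exact h1 T.unop
  exact isIso_of_reflects_iso f (sheafToPresheaf (J S) (Type (u+1)))

theorem mono_descend {X Y V K : Sp S} (hX : IsAlgSpace X)
    {f : X ⟶ Y} {p : V ⟶ Y} (hp : RepWith H15AS.Fppf p) {fst : K ⟶ X}
    {snd : K ⟶ V} (sq : IsPullback fst snd f p) (h : Mono snd) : Mono f := by
  have h1 : IsIso (pullback.diagonal snd) := inferInstance
  have h2 : RepWith (MorphismProperty.isomorphisms Scheme.{u}) (pullback.diagonal snd) :=
    MorphismProperty.of_isIso _ _
  have h3 := H15AS.diag_descend (MorphismProperty.isomorphisms Scheme.{u}) hX hp sq h2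
  have h4 := isIso_of_repWith h3
  exact pullback.isIso_diagonal_iff _ |>.1 h4

theorem locP_descend {P : MorphismProperty Scheme.{u}} [P.IsStableUnderBaseChange] [P.DescendsAlong H15AS.Fppf]
    {X Y Q : Sp S} {f : X ⟶ Y} {V : Over S} {p : (yon S).obj V ⟶ Y} (hpe : RepWith @Etale p) (hps : RepWith @Surjective p)
    {fst : Q ⟶ X} {snd : Q ⟶ (yon S).obj V} (sq : IsPullback fst snd f p) (hl : LocP P snd) : LocP P f := by
  intro U W a b h ha hb comm
  obtain ⟨V', v2, v1, sqV⟩ := hpe.1 b
  obtain ⟨v1, rfl⟩ := (yon S).map_surjective v1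
  have e2 : Etale v2.left := hpe.2 _ _ _ sqV
  have s2 : Surjective v2.left := hps.2 _ _ _ sqV
  have e1 : Etale v1.left := hb.2 _ _ _ sqV.flip
  have sqU : IsPullback (pullback.fst h v2) (pullback.snd h v2) h v2 := IsPullback.of_hasPullback _ _
  have sqU' := sqU.map (Over.forget S)
  have sqUy := sqU.map (yon S)
  have sq4 := sqUy.paste_vert sqV.flip
  rw [← comm] at sq4
  let l := sq.lift ((yon S).map (pullback.fst h v2) ≫ a) ((yon S).map (pullback.snd h v2) ≫ (yon S).map v1)
    (by rw [Category.assoc, sq4.w])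
  have hl1 : l ≫ fst = (yon S).map (pullback.fst h v2) ≫ a := sq.lift_fst _ _ _
  have hl2 : l ≫ snd = (yon S).map (pullback.snd h v2) ≫ (yon S).map v1 := sq.lift_snd _ _ _
  rw [← hl2] at sq4
  have sq5 : IsPullback ((yon S).map (pullback.fst h v2)) l a fst := IsPullback.of_bot sq4 hl1.symm sq
  have hle : RepWith @Etale l := MorphismProperty.of_isPullback sq5 ha
  have h2 : P (pullback.snd h v2).left :=
    hl l ((yon S).map v1) (pullback.snd h v2) hle ((repWith_yon_map_iff _ _).2 e1) hl2
  exact P.of_isPullback_of_descendsAlong (Q := H15AS.Fppf) sqU'.flip ⟨⟨s2, inferInstanceAs (Flat v2.left)⟩,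
    inferInstanceAs (LocallyOfFinitePresentation v2.left)⟩ h2

end Groth.Agent.H15Pt
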