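import Groth.Agent.Lib.Helper15Pt8

set_option autoImplicit false
universe u

open CategoryTheory CategoryTheory.Limits AlgebraicGeometry Opposite AlgSp

namespace Groth.Agent.H15Pt

variable {S : Scheme.{u}}

theorem compact_points {F : Sp S} (h : IsQuasiCompactSp F) : CompactSpace (Points F) := by
  obtain ⟨U, a, ha, hs, hU⟩ := h
  have : CompactSpace U.left := hU
  have h1 := surj_ofPt (surj_of_repWith hs)
  refine ⟨?_⟩
  rw [← h1.range_eq]
  exact isCompact_range (Points.continuous_ofPt a)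

theorem qcSp_of_compact {X : Sp S} (hX : IsAlgSpace X) (h : CompactSpace (Points X)) : IsQuasiCompactSp X := by
  obtain ⟨U, p, he, hs⟩ := hX.atlas
  have ho := isOpenMap_ofPt (isOpenMap_of_repWith he (fun f hf => by have : Etale f := hf; exact f.isOpenMap))
  have hsur := surj_ofPt (surj_of_repWith hs)
  let ι := {W : U.left.Opens // IsCompact (W : Set U.left)}
  have : Nonempty ι := ⟨⟨⊥, by simp⟩⟩
  obtain ⟨⟨W, hWc⟩, hW⟩ := h.isCompact_univ.elim_directed_cover
    (fun W : ι => Points.ofPt p '' (W.1 : Set U.left)) (fun W => ho _ W.1.isOpen) (by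
      intro x _
      obtain ⟨t, rfl⟩ := hsur x
      obtain ⟨W, hW, ht, -⟩ := TopologicalSpace.Opens.isBasis_iff_nbhd.1 U.left.isBasis_affineOpens (U := ⊤) (x := t) trivial
      exact Set.mem_iUnion.2 ⟨⟨W, IsAffineOpen.isCompact hW⟩, t, ht, rfl⟩) (by
      intro W₁ W₂
      refine ⟨⟨W₁.1 ⊔ W₂.1, ?_⟩, Set.image_mono ?_, Set.image_mono ?_⟩
      · rw [TopologicalSpace.Opens.coe_sup]; exact W₁.2.union W₂.2
      · exact fun x hx => Or.inl hx
      · exact fun x hx => Or.inr hx)
  let U' : Over S := Over.mk (W.ι ≫ U.hom)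
  let j : U' ⟶ U := Over.homMk W.ι rfl
  have hj : Etale j.left := inferInstanceAs (Etale W.ι)
  have h1 : RepWith @Etale ((yon S).map j ≫ p) := MorphismProperty.comp_mem _ _ _ ((repWith_yon_map_iff _ _).2 hj) he
  refine ⟨U', (yon S).map j ≫ p, h1, repWith_of_surj h1.1 ?_, isCompact_iff_compactSpace.1 hWc⟩
  intro x
  obtain ⟨w, hw, rfl⟩ := hW (Set.mem_univ x)
  obtain ⟨w', hw'⟩ : ∃ w' : U'.left, j.left w' = w := ⟨⟨w, hw⟩, rfl⟩
  refine ⟨Points.ofScheme U' w', ?_⟩
  rw [← Points.ofPt_eq_map_ofScheme, ofPt_comp, hw']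

theorem qcSp_yon (T : Over S) (h : CompactSpace T.left) : IsQuasiCompactSp ((yon S).obj T) :=
  ⟨T, 𝟙 _, repWith_id _ T, repWith_id _ T, h⟩

theorem repWith_of_qc {X Y : Sp S} {f : X ⟶ Y} (hf : Representable f) (h : IsQuasiCompactMor f) :
    RepWith @QuasiCompact f := by
  refine ⟨hf, ?_⟩
  intro T V g r s sq
  change QuasiCompact s.left
  rw [quasiCompact_iff_forall_isAffineOpen]
  intro W hW
  have sq1 := isPullback_morphismRestrict s.left W
  obtain ⟨A', B', j₁, j₂, g', eA, eB, sq2, e⟩ := over_isPullback s sq1.flip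
  have hc : CompactSpace B'.left := by
    rw [eB]; exact isCompact_iff_compactSpace.1 hW.isCompact
  have sq3 := (sq2.map (yon S)).paste_horiz sq
  have h4 := compact_of_qcSp (h (IsAlgSpace.yon_obj B') (qcSp_yon B' hc) _ _ _ sq3)
  rw [eA] at h4
  exact isCompact_iff_compactSpace.2 h4

end Groth.Agent.H15Pt
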