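import Mathlib
import Groth.Prelude.Def_W4c1bouilletffgsL3

set_option autoImplicit false
set_option maxSynthPendingDepth 10

namespace Groth.Agent.H19Lie3

open Polynomial

section General

variable {R : Type*} [CommRing R]

/-- leading coefficients of linear elements of `J` -/
def lin (J : Ideal R[X]) : Ideal R where
  carrier := {x | ∃ s, C x * X + C s ∈ J}
  add_mem' := by
    rintro x y ⟨s, hs⟩ ⟨t, ht⟩
    refine ⟨s + t, ?_⟩
    have := J.add_mem hs ht
    convert this using 1
    simp only [map_add]; ring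
  zero_mem' := ⟨0, by simp⟩
  smul_mem' := by
    rintro c x ⟨s, hs⟩
    refine ⟨c * s, ?_⟩
    have := J.mul_mem_left (C c) hs
    convert this using 1
    simp only [smul_eq_mul, map_mul]; ring

lemma mem_lin {J : Ideal R[X]} {x : R} (s : R) (h : C x * X + C s ∈ J) : x ∈ lin J := ⟨s, h⟩

lemma mem_lin_of_C {J : Ideal R[X]} {x : R} (h : C x ∈ J) : x ∈ lin J :=
  ⟨0, by simpa using J.mul_mem_right X h⟩

theorem kerLemma {K : Type*} [Field K] (φ : R →+* K) (L α : R) (θ : K) (hθ : φ L * θ = φ α)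
    (J : Ideal R[X]) (h0 : J ≤ RingHom.ker (eval₂RingHom φ θ)) (h1 : ∀ x, φ x = 0 → C x ∈ J)
    (h2 : ∀ (x : R) (n : ℕ), x * α ^ n ∈ Ideal.span {L} ⊔ RingHom.ker φ → x ∈ lin J) :
    RingHom.ker (eval₂RingHom φ θ) = J := by
  apply le_antisymm _ h0
  have main : ∀ n : ℕ, ∀ P : R[X], P.natDegree = n → eval₂ φ θ P = 0 → P ∈ J := by
    intro n
    induction n using Nat.strong_induction_on with
    | _ n ih =>
    intro P hn hP
    rcases Nat.eq_zero_or_pos n with h | h
    · subst h
      rw [Polynomial.eq_C_of_natDegree_eq_zero hn] at hP ⊢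
      apply h1; simpa using hP
    · obtain ⟨m, rfl⟩ : ∃ m, n = m + 1 := ⟨n - 1, by omega⟩
      set x := P.coeff (m + 1) with hx
      have hxm : x * α ^ (m + 1) ∈ Ideal.span {L} ⊔ RingHom.ker φ := by
        have hsum : eval₂ φ θ P = ∑ j ∈ Finset.range (m + 1 + 1), φ (P.coeff j) * θ ^ j := by
          rw [eval₂_eq_sum_range, hn]
        rw [hP, Finset.sum_range_succ] at hsum
        set S := ∑ j ∈ Finset.range (m + 1), P.coeff j * α ^ j * L ^ (m - j) with hS
        have key : φ (x * α ^ (m + 1) + L * S) = 0 := by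
          have e1 : φ (L * S) = φ L ^ (m + 1) * ∑ j ∈ Finset.range (m + 1), φ (P.coeff j) * θ ^ j := by
            rw [map_mul, hS, map_sum, Finset.mul_sum, Finset.mul_sum]
            apply Finset.sum_congr rfl
            intro j hj
            rw [Finset.mem_range] at hj
            rw [map_mul, map_mul, map_pow, map_pow, ← hθ, mul_pow]
            have : φ L ^ (m + 1) = φ L * (φ L ^ j * φ L ^ (m - j)) := by
              rw [← pow_add, ← pow_succ']; congr 1; omega
            rw [this]; ring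
          have e2 : φ (x * α ^ (m + 1)) = φ L ^ (m + 1) * (φ x * θ ^ (m + 1)) := by
            rw [map_mul, map_pow, ← hθ, mul_pow]; ring
          rw [map_add, e1, e2, hx]
          linear_combination (-(φ L ^ (m + 1))) * hsum
        have h3 : x * α ^ (m + 1) = (-S) * L + (x * α ^ (m + 1) + L * S) := by ring
        rw [h3]
        exact Submodule.add_mem_sup (Ideal.mul_mem_left _ _ (Ideal.mem_span_singleton_self _)) key
      obtain ⟨s, hs⟩ := h2 x (m + 1) hxm
      have hmem : (C x * X + C s) * X ^ m ∈ J := J.mul_mem_right _ hs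
      have hP' : eval₂ φ θ (P - (C x * X + C s) * X ^ m) = 0 := by
        rw [eval₂_sub, hP, zero_sub, neg_eq_zero]
        exact h0 hmem
      have hco : (P - (C x * X + C s) * X ^ m).coeff (m + 1) = 0 := by
        rw [coeff_sub, add_comm m 1, coeff_mul_X_pow]
        simp [hx, add_comm]
      have hle : (P - (C x * X + C s) * X ^ m).natDegree ≤ m + 1 := by
        apply (natDegree_sub_le _ _).trans
        apply max_le hn.le
        apply natDegree_mul_le.trans
        have a1 : (C x * X + C s).natDegree ≤ 1 := natDegree_linear_le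
        have a2 : (X ^ m : R[X]).natDegree ≤ m := natDegree_X_pow_le m
        omega
      have hlt : (P - (C x * X + C s) * X ^ m).natDegree < m + 1 := by
        rcases hle.lt_or_eq with h | h
        · exact h
        · have : (P - (C x * X + C s) * X ^ m) = 0 := by
            rw [← leadingCoeff_eq_zero, leadingCoeff, h, hco]
          rw [this]; simp
      have h5 := J.add_mem (ih _ hlt _ rfl hP') hmem
      simpa using h5
  intro P hP
  exact main _ P rfl hP

end General

section Mv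

variable {A : Type*} [CommRing A]

/-- set the variables in `S` to zero -/
noncomputable def rho (S : Finset (Fin 6)) : MvPolynomial (Fin 6) A →+* MvPolynomial (Fin 6) A :=
  (MvPolynomial.aeval (R := A) (fun j => if j ∈ S then (0 : MvPolynomial (Fin 6) A) else MvPolynomial.X j)).toRingHom

lemma rho_X (S : Finset (Fin 6)) (j : Fin 6) :
    rho (A := A) S (MvPolynomial.X j) = if j ∈ S then 0 else MvPolynomial.X j := by
  simp [rho]

lemma rho_mem_of (S : Finset (Fin 6)) (I : Ideal (MvPolynomial (Fin 6) A)) (hI : ∀ j ∈ S, MvPolynomial.X j ∈ I)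
    (x : MvPolynomial (Fin 6) A) (hx : rho S x = 0) : x ∈ I := by
  have : (Ideal.Quotient.mk I).comp (rho S) = Ideal.Quotient.mk I := by
    apply MvPolynomial.ringHom_ext
    · intro a; simp [rho]
    · intro j
      rw [RingHom.comp_apply, rho_X]
      split_ifs with h
      · rw [map_zero]; exact (Ideal.Quotient.eq_zero_iff_mem.mpr (hI j h)).symm
      · rfl
  have h2 := DFunLike.congr_fun this x
  rw [RingHom.comp_apply, hx, map_zero] at h2
  exact Ideal.Quotient.eq_zero_iff_mem.mp h2.symm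

lemma rho_trans (S T : Finset (Fin 6)) (hST : S ⊆ T) (x : MvPolynomial (Fin 6) A) (hx : rho S x = 0) :
    rho T x = 0 := by
  have : x ∈ RingHom.ker (rho (A := A) T) := rho_mem_of S _ (fun j hj => by
    rw [RingHom.mem_ker, rho_X, if_pos (hST hj)]) x hx
  exact this

end Mv

section Main

variable (A : Type*) [CommRing A] [IsDomain A]

noncomputable abbrev R0 := MvPolynomial (Fin 6) A
noncomputable abbrev K0 := FractionRing (R0 A)

noncomputable abbrev p : R0 A := MvPolynomial.X 0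
noncomputable abbrev q : R0 A := MvPolynomial.X 1
noncomputable abbrev r : R0 A := MvPolynomial.X 2
noncomputable abbrev b : R0 A := MvPolynomial.X 3
noncomputable abbrev h : R0 A := MvPolynomial.X 4
noncomputable abbrev i : R0 A := MvPolynomial.X 5

noncomputable def αc : R0 A := (q A - b A) * p A + i A * q A
noncomputable def αe : R0 A := b A * r A - h A * q A
noncomputable def αg : R0 A := h A * p A + i A * r A

noncomputable abbrev ι : R0 A →+* K0 A := algebraMap (R0 A) (K0 A)

lemma ι_inj : Function.Injective (ι A) := IsFractionRing.injective (R0 A) (K0 A)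

lemma ιX_ne (j : Fin 6) : ι A (MvPolynomial.X j) ≠ 0 := by
  rw [Ne, map_eq_zero_iff _ (ι_inj A)]; exact MvPolynomial.X_ne_zero j

/-- base step: kernel of `R0[X] → K`, `X ↦ ρ_S αc / r`. -/
lemma base (S : Finset (Fin 6)) (hS : (2 : Fin 6) ∉ S) (hne : rho (insert 2 S) (αc A) ≠ 0)
    (J : Ideal (R0 A)[X]) (h0 : J ≤ RingHom.ker (eval₂RingHom ((ι A).comp (rho S)) (ι A (rho S (αc A)) / ι A (r A))))
    (hJS : ∀ j ∈ S, C (MvPolynomial.X j) ∈ J) (hJ : C (r A) * X - C (αc A) ∈ J) :
    RingHom.ker (eval₂RingHom ((ι A).comp (rho S)) (ι A (rho S (αc A)) / ι A (r A))) = J := by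
  have hker : ∀ x, ((ι A).comp (rho S)) x = 0 → rho S x = 0 := by
    intro x hx
    rw [RingHom.comp_apply, map_eq_zero_iff _ (ι_inj A)] at hx
    exact hx
  apply kerLemma _ (r A) (αc A) _ _ J h0
  · intro x hx
    have : x ∈ J.comap (C : R0 A →+* (R0 A)[X]) := rho_mem_of S _ hJS x (hker x hx)
    exact this
  · intro x n hx
    have hle : Ideal.span {r A} ⊔ RingHom.ker ((ι A).comp (rho S)) ≤ RingHom.ker (rho (A := A) (insert 2 S)) := by
      rw [sup_le_iff]
      constructor
      · rw [Ideal.span_le, Set.singleton_subset_iff]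
        show rho _ (MvPolynomial.X 2) = 0
        rw [rho_X, if_pos (Finset.mem_insert_self _ _)]
      · intro y hy
        exact rho_trans S _ (Finset.subset_insert _ _) y (hker y hy)
    have h3 := hle hx
    rw [RingHom.mem_ker, map_mul, map_pow] at h3
    have h4 : rho (insert 2 S) x = 0 := (mul_eq_zero.mp h3).resolve_right (pow_ne_zero _ hne)
    apply rho_mem_of (insert 2 S) _ _ x h4
    intro j hj
    rw [Finset.mem_insert] at hj
    rcases hj with rfl | hj
    · refine mem_lin (-(αc A)) ?_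
      rw [map_neg, ← sub_eq_add_neg]; exact hJ
    · exact mem_lin_of_C (hJS j hj)
  · rw [RingHom.comp_apply, RingHom.comp_apply]
    rw [rho_X, if_neg hS, mul_div_cancel₀]
    exact ιX_ne A 2

omit [IsDomain A] in
lemma rho_empty (x : R0 A) : rho (∅ : Finset (Fin 6)) x = x := by
  have : rho (A := A) (∅ : Finset (Fin 6)) = RingHom.id _ := by
    apply MvPolynomial.ringHom_ext
    · intro a; simp [rho]
    · intro j; simp [rho_X]
  rw [this]; rfl

/-- evaluation helper to show non-vanishing -/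
lemma ne_of_eval (v : Fin 6 → A) (x : R0 A) (h : MvPolynomial.eval v x ≠ 0) : x ≠ 0 := by
  rintro rfl; simp at h

noncomputable def θc (S : Finset (Fin 6)) : K0 A := ι A (rho S (αc A)) / ι A (r A)
noncomputable def θe (S : Finset (Fin 6)) : K0 A := ι A (rho S (αe A)) / ι A (p A)

/-- first level map -/
noncomputable def φ1 (S : Finset (Fin 6)) : (R0 A)[X] →+* K0 A := eval₂RingHom ((ι A).comp (rho S)) (θc A S)
noncomputable def φ2 (S : Finset (Fin 6)) : (R0 A)[X][X] →+* K0 A := eval₂RingHom (φ1 A S) (θe A S)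

noncomputable def Pc : (R0 A)[X] := C (r A) * X - C (αc A)
noncomputable def Pe : (R0 A)[X][X] := C (C (p A)) * X - C (C (αe A))
noncomputable def Pg : (R0 A)[X][X][X] := C (C (C (q A))) * X - C (C (C (αg A)))

lemma φ1_C (S : Finset (Fin 6)) (x : R0 A) : φ1 A S (C x) = ι A (rho S x) := by simp [φ1]
lemma φ1_X (S : Finset (Fin 6)) : φ1 A S X = θc A S := by simp [φ1]
lemma φ2_C (S : Finset (Fin 6)) (x : (R0 A)[X]) : φ2 A S (C x) = φ1 A S x := by simp [φ2]
lemma φ2_X (S : Finset (Fin 6)) : φ2 A S X = θe A S := by simp [φ2]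

lemma φ1_Pc (S : Finset (Fin 6)) (hS : (2 : Fin 6) ∉ S) : φ1 A S (Pc A) = 0 := by
  rw [Pc, map_sub, map_mul, φ1_C, φ1_C, φ1_X, θc]
  rw [show rho S (r A) = r A by rw [rho_X, if_neg hS]]
  rw [mul_div_cancel₀ _ (ιX_ne A 2), sub_self]

lemma φ2_Pe (S : Finset (Fin 6)) (hS : (0 : Fin 6) ∉ S) : φ2 A S (Pe A) = 0 := by
  rw [Pe, map_sub, map_mul, φ2_C, φ2_C, φ2_X, φ1_C, φ1_C, θe]
  rw [show rho S (p A) = p A by rw [rho_X, if_neg hS]]
  rw [mul_div_cancel₀ _ (ιX_ne A 0), sub_self]

lemma ker1 : RingHom.ker (φ1 A ∅) = Ideal.span {Pc A} := by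
  apply base A ∅ (by simp)
  · apply ne_of_eval A ![1, 1, 0, 0, 0, 0]
    simp [αc, rho_X]
  · rw [Ideal.span_le, Set.singleton_subset_iff]
    exact φ1_Pc A ∅ (by simp)
  · simp
  · exact Ideal.subset_span rfl

lemma ker1p : RingHom.ker (φ1 A {0}) = Ideal.span {C (p A), Pc A} := by
  apply base A {0} (by simp)
  · apply ne_of_eval A ![1, 1, 0, 0, 0, 1]
    simp [αc, rho_X]
  · rw [Ideal.span_le]
    rintro x (rfl | rfl)
    · show φ1 A {0} _ = 0
      rw [φ1_C, rho_X]; simp
    · exact φ1_Pc A {0} (by simp)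
  · intro j hj
    rw [Finset.mem_singleton] at hj; subst hj
    exact Ideal.subset_span (Or.inl rfl)
  · exact Ideal.subset_span (Or.inr rfl)

lemma ker1q : RingHom.ker (φ1 A {1}) = Ideal.span {C (q A), Pc A} := by
  apply base A {1} (by simp)
  · apply ne_of_eval A ![1, 1, 0, 1, 0, 1]
    simp [αc, rho_X]
  · rw [Ideal.span_le]
    rintro x (rfl | rfl)
    · show φ1 A {1} _ = 0
      rw [φ1_C, rho_X]; simp
    · exact φ1_Pc A {1} (by simp)
  · intro j hj
    rw [Finset.mem_singleton] at hj; subst hj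
    exact Ideal.subset_span (Or.inl rfl)
  · exact Ideal.subset_span (Or.inr rfl)

lemma ker2 : RingHom.ker (φ2 A ∅) = Ideal.span {Pe A, C (Pc A)} := by
  apply kerLemma _ (C (p A)) (C (αe A))
  · rw [φ1_C, φ1_C, θe, rho_X, if_neg (by simp), mul_div_cancel₀ _ (ιX_ne A 0)]
  · rw [Ideal.span_le]
    rintro x (rfl | rfl)
    · exact φ2_Pe A ∅ (by simp)
    · show φ2 A ∅ _ = 0
      rw [φ2_C]; exact φ1_Pc A ∅ (by simp)
  · intro x hx
    have h1 : x ∈ RingHom.ker (φ1 A ∅) := hx
    rw [ker1] at h1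
    have h2 : Ideal.span {Pc A} ≤ (Ideal.span {Pe A, C (Pc A)}).comap (C : (R0 A)[X] →+* (R0 A)[X][X]) := by
      rw [Ideal.span_le, Set.singleton_subset_iff]
      exact Ideal.subset_span (Or.inr rfl)
    exact h2 h1
  · intro x n hx
    have hle : Ideal.span {C (p A)} ⊔ RingHom.ker (φ1 A ∅) ≤ RingHom.ker (φ1 A {0}) := by
      rw [ker1, ker1p, sup_le_iff, Ideal.span_le, Ideal.span_le, Set.singleton_subset_iff, Set.singleton_subset_iff]
      exact ⟨Ideal.subset_span (Or.inl rfl), Ideal.subset_span (Or.inr rfl)⟩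
    have h3 := hle hx
    rw [RingHom.mem_ker, map_mul, map_pow] at h3
    have hne : φ1 A {0} (C (αe A)) ≠ 0 := by
      rw [φ1_C, Ne, map_eq_zero_iff _ (ι_inj A)]
      apply ne_of_eval A ![0, 0, 1, 1, 0, 0]
      simp [αe, rho_X]
    have h4 : x ∈ RingHom.ker (φ1 A {0}) := (mul_eq_zero.mp h3).resolve_right (pow_ne_zero _ hne)
    rw [ker1p] at h4
    have h5 : Ideal.span {C (p A), Pc A} ≤ lin (Ideal.span {Pe A, C (Pc A)}) := by
      rw [Ideal.span_le]
      rintro x (rfl | rfl)
      · refine mem_lin (-(C (αe A))) ?_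
        rw [map_neg, ← sub_eq_add_neg]
        exact Ideal.subset_span (Or.inl rfl)
      · exact mem_lin_of_C (Ideal.subset_span (Or.inr rfl))
    exact h5 h4

noncomputable def δ : (R0 A)[X][X] := C (C (b A * (q A - b A))) - C X * X

lemma φ2_δ : φ2 A {1} (δ A) = 0 := by
  have hp := ιX_ne A 0
  have hr := ιX_ne A 2
  simp only [δ, map_sub, map_mul, φ2_C, φ2_X, φ1_C, φ1_X, θe, θc]
  simp only [αc, αe, map_sub, map_add, map_mul, rho_X]
  simp
  field_simp
  ring

lemma ker2q : RingHom.ker (φ2 A {1}) = Ideal.span {C (C (q A)), Pe A, C (Pc A), δ A} := by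
  apply kerLemma _ (C (p A)) (C (αe A))
  · rw [φ1_C, φ1_C, θe, rho_X, if_neg (by simp), mul_div_cancel₀ _ (ιX_ne A 0)]
  · rw [Ideal.span_le]
    rintro x (rfl | rfl | rfl | rfl)
    · show φ2 A {1} _ = 0
      rw [φ2_C, φ1_C, rho_X]; simp
    · exact φ2_Pe A {1} (by simp)
    · show φ2 A {1} _ = 0
      rw [φ2_C]; exact φ1_Pc A {1} (by simp)
    · exact φ2_δ A
  · intro x hx
    have h1 : x ∈ RingHom.ker (φ1 A {1}) := hx
    rw [ker1q] at h1
    have h2 : Ideal.span {C (q A), Pc A} ≤ (Ideal.span {C (C (q A)), Pe A, C (Pc A), δ A}).comap (C : (R0 A)[X] →+* (R0 A)[X][X]) := by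
      rw [Ideal.span_le]
      rintro x (rfl | rfl)
      · exact Ideal.subset_span (Or.inl rfl)
      · exact Ideal.subset_span (Or.inr (Or.inr (Or.inl rfl)))
    exact h2 h1
  · intro x n hx
    let ρ' : (R0 A)[X] →+* R0 A := eval₂RingHom (rho {0, 1}) 0
    have hle : Ideal.span {C (p A)} ⊔ RingHom.ker (φ1 A {1}) ≤ RingHom.ker ρ' := by
      rw [ker1q, sup_le_iff, Ideal.span_le, Ideal.span_le, Set.singleton_subset_iff]
      constructor
      · show ρ' _ = 0
        simp [ρ', rho_X]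
      · rintro x (rfl | rfl)
        · show ρ' _ = 0
          simp [ρ', rho_X]
        · show ρ' _ = 0
          simp [ρ', Pc, αc, rho_X]
    have h3 := hle hx
    rw [RingHom.mem_ker, map_mul, map_pow] at h3
    have hne : ρ' (C (αe A)) ≠ 0 := by
      simp only [ρ', coe_eval₂RingHom, eval₂_C]
      apply ne_of_eval A ![0, 0, 1, 1, 0, 0]
      simp [αe, rho_X]
    have h4 : ρ' x = 0 := (mul_eq_zero.mp h3).resolve_right (pow_ne_zero _ hne)
    -- x = C (x.coeff 0) + X * _
    have h5 : x = C (x.coeff 0) + X * x.divX := by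
      rw [add_comm]; exact (X_mul_divX_add x).symm
    have h6 : rho {0, 1} (x.coeff 0) = 0 := by
      rw [h5] at h4
      simpa [ρ'] using h4
    set L := lin (Ideal.span {C (C (q A)), Pe A, C (Pc A), δ A}) with hL
    have hpL : C (p A) ∈ L := by
      refine mem_lin (-(C (αe A))) ?_
      rw [map_neg, ← sub_eq_add_neg]
      exact Ideal.subset_span (Or.inr (Or.inl rfl))
    have hqL : C (q A) ∈ L := mem_lin_of_C (Ideal.subset_span (Or.inl rfl))
    have hXL : (X : (R0 A)[X]) ∈ L := by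
      refine mem_lin (-(C (b A * (q A - b A)))) ?_
      have h7 : δ A ∈ Ideal.span {C (C (q A)), Pe A, C (Pc A), δ A} := Ideal.subset_span (Or.inr (Or.inr (Or.inr rfl)))
      have h8 := neg_mem h7
      rw [δ, neg_sub] at h8
      rw [map_neg, ← sub_eq_add_neg]
      exact h8
    have h9 : x.coeff 0 ∈ L.comap (C : R0 A →+* (R0 A)[X]) := by
      apply rho_mem_of {0, 1} _ _ _ h6
      intro j hj
      simp only [Finset.mem_insert, Finset.mem_singleton] at hj
      rcases hj with rfl | rfl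
      · exact hpL
      · exact hqL
    rw [h5]
    exact L.add_mem h9 (L.mul_mem_right _ hXL)

noncomputable def θg : K0 A := ι A (αg A) / ι A (q A)
noncomputable def φ3 : (R0 A)[X][X][X] →+* K0 A := eval₂RingHom (φ2 A ∅) (θg A)

/-- the determinant -/
noncomputable def κ : (R0 A)[X][X] :=
  -(C X * (C (C (h A)) * C (C (h A)))) + X * (C (C (i A)) * C (C (i A))) + C (C (h A * b A * i A)) - C (C (i A * h A * (q A - b A)))
noncomputable def Pd : (R0 A)[X][X][X] := C (δ A) * X + C (κ A)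

lemma φ3_C (x : (R0 A)[X][X]) : φ3 A (C x) = φ2 A ∅ x := by simp [φ3]
lemma φ3_X : φ3 A X = θg A := by simp [φ3]

lemma φ3_Pg : φ3 A (Pg A) = 0 := by
  rw [Pg, map_sub, map_mul, φ3_C, φ3_C, φ3_X, φ2_C, φ2_C, φ1_C, φ1_C, rho_empty, rho_empty, θg,
    mul_div_cancel₀ _ (ιX_ne A 1), sub_self]

lemma φ3_Pd : φ3 A (Pd A) = 0 := by
  have hp := ιX_ne A 0
  have hr := ιX_ne A 2
  have hq := ιX_ne A 1
  rw [Pd, δ, κ]
  simp only [map_sub, map_add, map_mul, map_neg, map_pow, φ3_C, φ3_X, φ2_C, φ2_X, φ1_C, φ1_X, θe, θc, θg, rho_empty, αc, αe, αg]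
  field_simp
  ring

lemma ker3 : RingHom.ker (φ3 A) = Ideal.span {Pg A, C (Pe A), C (C (Pc A)), Pd A} := by
  apply kerLemma _ (C (C (q A))) (C (C (αg A)))
  · rw [φ2_C, φ2_C, φ1_C, φ1_C, rho_empty, rho_empty, θg, mul_div_cancel₀ _ (ιX_ne A 1)]
  · rw [Ideal.span_le]
    rintro x (rfl | rfl | rfl | rfl)
    · exact φ3_Pg A
    · show φ3 A _ = 0
      rw [φ3_C]; exact φ2_Pe A ∅ (by simp)
    · show φ3 A _ = 0
      rw [φ3_C, φ2_C]; exact φ1_Pc A ∅ (by simp)
    · exact φ3_Pd A
  · intro x hx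
    have h1 : x ∈ RingHom.ker (φ2 A ∅) := hx
    rw [ker2] at h1
    have h2 : Ideal.span {Pe A, C (Pc A)} ≤ (Ideal.span {Pg A, C (Pe A), C (C (Pc A)), Pd A}).comap (C : (R0 A)[X][X] →+* (R0 A)[X][X][X]) := by
      rw [Ideal.span_le]
      rintro x (rfl | rfl)
      · exact Ideal.subset_span (Or.inr (Or.inl rfl))
      · exact Ideal.subset_span (Or.inr (Or.inr (Or.inl rfl)))
    exact h2 h1
  · intro x n hx
    have hle : Ideal.span {C (C (q A))} ⊔ RingHom.ker (φ2 A ∅) ≤ RingHom.ker (φ2 A {1}) := by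
      rw [ker2, ker2q, sup_le_iff, Ideal.span_le, Ideal.span_le, Set.singleton_subset_iff]
      refine ⟨Ideal.subset_span (Or.inl rfl), ?_⟩
      rintro x (rfl | rfl)
      · exact Ideal.subset_span (Or.inr (Or.inl rfl))
      · exact Ideal.subset_span (Or.inr (Or.inr (Or.inl rfl)))
    have h3 := hle hx
    rw [RingHom.mem_ker, map_mul, map_pow] at h3
    have hne : φ2 A {1} (C (C (αg A))) ≠ 0 := by
      rw [φ2_C, φ1_C, Ne, map_eq_zero_iff _ (ι_inj A)]
      apply ne_of_eval A ![1, 0, 0, 0, 1, 0]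
      simp [αg, rho_X]
    have h4 : x ∈ RingHom.ker (φ2 A {1}) := (mul_eq_zero.mp h3).resolve_right (pow_ne_zero _ hne)
    rw [ker2q] at h4
    have h5 : Ideal.span {C (C (q A)), Pe A, C (Pc A), δ A} ≤ lin (Ideal.span {Pg A, C (Pe A), C (C (Pc A)), Pd A}) := by
      rw [Ideal.span_le]
      rintro x (rfl | rfl | rfl | rfl)
      · refine mem_lin (-(C (C (αg A)))) ?_
        rw [map_neg, ← sub_eq_add_neg]
        exact Ideal.subset_span (Or.inl rfl)
      · exact mem_lin_of_C (Ideal.subset_span (Or.inr (Or.inl rfl)))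
      · exact mem_lin_of_C (Ideal.subset_span (Or.inr (Or.inr (Or.inl rfl))))
      · exact mem_lin (κ A) (Ideal.subset_span (Or.inr (Or.inr (Or.inr rfl))))
    exact h5 h4

open Lie3Mod

noncomputable def Φ : D A →+* (R0 A)[X][X][X] :=
  MvPolynomial.eval₂Hom (((C.comp C).comp C).comp MvPolynomial.C)
    ![C (C (C (p A + i A))), C (C (C (b A))), C (C X), C (C (C (r A - h A))), C X, C (C (C (q A - b A))), X,
      C (C (C (h A))), C (C (C (i A)))]

noncomputable def Ψ0 : R0 A →+* D A :=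
  MvPolynomial.eval₂Hom MvPolynomial.C ![L1 A, L2 A, L3 A, vb, vh, vi]

noncomputable def Ψ : (R0 A)[X][X][X] →+* D A :=
  eval₂RingHom (eval₂RingHom (eval₂RingHom (Ψ0 A) vc) ve) vg

omit [IsDomain A] in
lemma ΨΦ (x : D A) : Ψ A (Φ A x) = x := by
  have : (Ψ A).comp (Φ A) = RingHom.id _ := by
    apply MvPolynomial.ringHom_ext
    · intro a; simp [Ψ, Φ, Ψ0]
    · intro j
      fin_cases j <;> simp [Ψ, Φ, Ψ0, L1, L2, L3]
  exact DFunLike.congr_fun this x

noncomputable def χ : D A →+* K0 A := (φ3 A).comp (Φ A)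

lemma ker_χ : RingHom.ker (χ A) = idJ A := by
  apply le_antisymm
  · intro x hx
    have h1 : Φ A x ∈ RingHom.ker (φ3 A) := hx
    rw [ker3] at h1
    have h2 : Ideal.span {Pg A, C (Pe A), C (C (Pc A)), Pd A} ≤ (idJ A).comap (Ψ A) := by
      rw [Ideal.span_le]
      rintro x (rfl | rfl | rfl | rfl)
      · have : Ψ A (Pg A) = - Q1 A := by
          simp [Ψ, Ψ0, Pg, αg, L1, L2, L3, Q1]; ring
        show Ψ A _ ∈ idJ A
        rw [this]; exact neg_mem (Ideal.subset_span (Or.inl rfl))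
      · have : Ψ A (C (Pe A)) = - Q2 A := by
          simp [Ψ, Ψ0, Pe, αe, L1, L2, L3, Q2]; ring
        show Ψ A _ ∈ idJ A
        rw [this]; exact neg_mem (Ideal.subset_span (Or.inr (Or.inl rfl)))
      · have : Ψ A (C (C (Pc A))) = Q3 A := by
          simp [Ψ, Ψ0, Pc, αc, L1, L2, L3, Q3]; ring
        show Ψ A _ ∈ idJ A
        rw [this]; exact (Ideal.subset_span (Or.inr (Or.inr (Or.inl rfl))))
      · have : Ψ A (Pd A) = detM A := by
          simp [Ψ, Ψ0, Pd, δ, κ, L1, L2, L3, detM]; ring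
        show Ψ A _ ∈ idJ A
        rw [this]; exact (Ideal.subset_span (Or.inr (Or.inr (Or.inr rfl))))
    have h3 := h2 h1
    rw [Ideal.mem_comap, ΨΦ] at h3
    exact h3
  · have hker : ∀ y ∈ Ideal.span {Pg A, C (Pe A), C (C (Pc A)), Pd A}, φ3 A y = 0 := by
      intro y hy; rw [← ker3] at hy; exact hy
    rw [idJ, Ideal.span_le]
    rintro x (rfl | rfl | rfl | rfl)
    · have : Φ A (Q1 A) = - Pg A := by
        simp [Φ, Q1, Pg, αg]; ring
      show φ3 A (Φ A _) = 0
      rw [this, map_neg, φ3_Pg, neg_zero]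
    · have : Φ A (Q2 A) = - C (Pe A) := by
        simp [Φ, Q2, Pe, αe]; ring
      show φ3 A (Φ A _) = 0
      rw [this, map_neg, hker _ (Ideal.subset_span (Or.inr (Or.inl rfl))), neg_zero]
    · have : Φ A (Q3 A) = C (C (Pc A)) := by
        simp [Φ, Q3, Pc, αc]; ring
      show φ3 A (Φ A _) = 0
      rw [this]; exact hker _ (Ideal.subset_span (Or.inr (Or.inr (Or.inl rfl))))
    · have : Φ A (detM A) = Pd A := by
        simp [Φ, detM, Pd, δ, κ]; ring
      show φ3 A (Φ A _) = 0
      rw [this, φ3_Pd]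

theorem idJ_isPrime : (idJ A).IsPrime := by
  rw [← ker_χ]; exact RingHom.ker_isPrime _

end Main

end Groth.Agent.H19Lie3
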