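import Mathlib
import Groth.Agent.Lib.Helper19Lie3
import Groth.Prelude.Def_W4c1bouilletffgsL3

set_option autoImplicit false
set_option maxSynthPendingDepth 10

namespace Groth.Agent.H19Lie3
open Lie3Mod

section Any
variable (A : Type*) [CommRing A]

lemma eqQ1 : Q1 A = vh * L1 A - vg * L2 A + vi * L3 A := by simp only [Q1, L1, L2, L3]; ring
lemma eqQ2 : Q2 A = -ve * L1 A - vh * L2 A + vb * L3 A := by simp only [Q2, L1, L2, L3]; ring
lemma eqQ3 : Q3 A = -vf * L1 A - vi * L2 A + vc * L3 A := by simp only [Q3, L1, L2, L3]; ring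

lemma I_le_L : idI A ≤ idL A := by
  have h1 : L1 A ∈ idL A := Ideal.subset_span (Or.inl rfl)
  have h2 : L2 A ∈ idL A := Ideal.subset_span (Or.inr (Or.inl rfl))
  have h3 : L3 A ∈ idL A := Ideal.subset_span (Or.inr (Or.inr rfl))
  rw [idI, Ideal.span_le]
  rintro x (rfl | rfl | rfl)
  · show _ ∈ idL A
    rw [eqQ1]
    exact add_mem (sub_mem (Ideal.mul_mem_left _ _ h1) (Ideal.mul_mem_left _ _ h2)) (Ideal.mul_mem_left _ _ h3)
  · show _ ∈ idL A
    rw [eqQ2]
    exact add_mem (sub_mem (Ideal.mul_mem_left _ _ h1) (Ideal.mul_mem_left _ _ h2)) (Ideal.mul_mem_left _ _ h3)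
  · show _ ∈ idL A
    rw [eqQ3]
    exact add_mem (sub_mem (Ideal.mul_mem_left _ _ h1) (Ideal.mul_mem_left _ _ h2)) (Ideal.mul_mem_left _ _ h3)

lemma I_le_J : idI A ≤ idJ A := by
  rw [idI, Ideal.span_le]
  rintro x (rfl | rfl | rfl)
  · exact Ideal.subset_span (Or.inl rfl)
  · exact Ideal.subset_span (Or.inr (Or.inl rfl))
  · exact Ideal.subset_span (Or.inr (Or.inr (Or.inl rfl)))

lemma det_mem_J : detM A ∈ idJ A := Ideal.subset_span (Or.inr (Or.inr (Or.inr rfl)))

lemma cr1 : ∃ x y z : D A, detM A * L1 A = x * Q1 A + y * Q2 A + z * Q3 A := by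
  refine ⟨-(vh * vc) + vi * vb, vg * vc - vi * vi, -(vg * vb) + vi * vh, ?_⟩
  simp only [Q1, Q2, Q3, detM, L1]; ring
lemma cr2 : ∃ x y z : D A, detM A * L2 A = x * Q1 A + y * Q2 A + z * Q3 A := by
  refine ⟨ve * vc - vb * vf, vh * vc + vi * vf, -(vh * vb + vi * ve), ?_⟩
  simp only [Q1, Q2, Q3, detM, L2]; ring
lemma cr3 : ∃ x y z : D A, detM A * L3 A = x * Q1 A + y * Q2 A + z * Q3 A := by
  refine ⟨ve * vi - vh * vf, vh * vi + vg * vf, -(vh * vh + vg * ve), ?_⟩
  simp only [Q1, Q2, Q3, detM, L3]; ring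

lemma mem_I (x y z : D A) : x * Q1 A + y * Q2 A + z * Q3 A ∈ idI A := by
  have h1 : Q1 A ∈ idI A := Ideal.subset_span (Or.inl rfl)
  have h2 : Q2 A ∈ idI A := Ideal.subset_span (Or.inr (Or.inl rfl))
  have h3 : Q3 A ∈ idI A := Ideal.subset_span (Or.inr (Or.inr rfl))
  exact add_mem (add_mem (Ideal.mul_mem_left _ _ h1) (Ideal.mul_mem_left _ _ h2)) (Ideal.mul_mem_left _ _ h3)

lemma det_mul_L {y : D A} (hy : y ∈ idL A) : detM A * y ∈ idI A := by
  have hc : idL A ≤ Submodule.comap (LinearMap.mulLeft (D A) (detM A)) (idI A) := by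
    rw [idL, Ideal.span_le]
    rintro x (rfl | rfl | rfl)
    · show detM A * L1 A ∈ idI A
      obtain ⟨x, y, z, h⟩ := cr1 A
      rw [h]; exact mem_I A _ _ _
    · show detM A * L2 A ∈ idI A
      obtain ⟨x, y, z, h⟩ := cr2 A
      rw [h]; exact mem_I A _ _ _
    · show detM A * L3 A ∈ idI A
      obtain ⟨x, y, z, h⟩ := cr3 A
      rw [h]; exact mem_I A _ _ _
  exact hc hy

lemma idJ_eq : idJ A = idI A ⊔ Ideal.span {detM A} := by
  rw [idJ, idI, ← Ideal.span_union]
  congr 1
  ext y; simp only [Set.mem_insert_iff, Set.mem_singleton_iff, Set.mem_union]; tauto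

lemma mem_J {x : D A} (hx : x ∈ idJ A) : ∃ y ∈ idI A, ∃ r, x = y + r * detM A := by
  rw [idJ_eq, Submodule.mem_sup] at hx
  obtain ⟨y, hy, z, hz, rfl⟩ := hx
  obtain ⟨r, rfl⟩ := Ideal.mem_span_singleton'.mp hz
  exact ⟨y, hy, r, rfl⟩

/-- projection modulo `L` -/
noncomputable def τ : D A →+* D A :=
  (MvPolynomial.aeval (R := A) ![(va : D A), vb, vc, -vh, ve, -vb, vg, vh, va]).toRingHom

lemma τ_ker : RingHom.ker (τ A) = idL A := by
  apply le_antisymm
  · intro x hx
    have : (Ideal.Quotient.mk (idL A)).comp (τ A) = Ideal.Quotient.mk (idL A) := by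
      apply MvPolynomial.ringHom_ext
      · intro a; simp [τ]
      · intro j
        have e1 : Ideal.Quotient.mk (idL A) (va : D A) = Ideal.Quotient.mk (idL A) vi := by
          rw [Ideal.Quotient.mk_eq_mk_iff_sub_mem]
          exact Ideal.subset_span (Or.inl rfl)
        have e2 : Ideal.Quotient.mk (idL A) (-vb : D A) = Ideal.Quotient.mk (idL A) vf := by
          rw [eq_comm, Ideal.Quotient.mk_eq_mk_iff_sub_mem]
          have : vf - -vb = L2 A := by simp only [L2]; ring
          rw [this]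
          exact Ideal.subset_span (Or.inr (Or.inl rfl))
        have e3 : Ideal.Quotient.mk (idL A) (-vh : D A) = Ideal.Quotient.mk (idL A) vd := by
          rw [eq_comm, Ideal.Quotient.mk_eq_mk_iff_sub_mem]
          have : vd - -vh = L3 A := by simp only [L3]; ring
          rw [this]
          exact Ideal.subset_span (Or.inr (Or.inr rfl))
        fin_cases j
        · simp [τ]
        · simp [τ]
        · simp [τ]
        · simpa [τ] using e3
        · simp [τ]
        · simpa [τ] using e2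
        · simp [τ]
        · simp [τ]
        · simpa [τ] using e1
    have h2 := DFunLike.congr_fun this x
    rw [RingHom.mem_ker] at hx
    rw [RingHom.comp_apply, hx, map_zero] at h2
    exact Ideal.Quotient.eq_zero_iff_mem.mp h2.symm
  · rw [idL, Ideal.span_le]
    rintro x (rfl | rfl | rfl)
    · show τ A _ = 0
      simp [τ, L1]
    · show τ A _ = 0
      simp [τ, L2]
    · show τ A _ = 0
      simp [τ, L3]

lemma L_isPrime [IsDomain A] : (idL A).IsPrime := by
  rw [← τ_ker]; exact RingHom.ker_isPrime _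

lemma det_notMem_L [Nontrivial A] : detM A ∉ idL A := by
  rw [← τ_ker, RingHom.mem_ker]
  intro h0
  have h1 := congrArg (MvPolynomial.eval (![0, 0, 1, 0, 1, 0, 1, 0, 0] : Fin 9 → A)) h0
  simp [τ, detM] at h1

lemma L1_notMem_J [IsDomain A] : L1 A ∉ idJ A := by
  intro h0
  have : idJ A ≤ RingHom.ker (MvPolynomial.eval (![1, 0, 0, 0, 0, 0, 0, 0, 0] : Fin 9 → A)) := by
    rw [idJ, Ideal.span_le]
    rintro x (rfl | rfl | rfl | rfl)
    · show MvPolynomial.eval _ _ = 0
      simp [Q1]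
    · show MvPolynomial.eval _ _ = 0
      simp [Q2]
    · show MvPolynomial.eval _ _ = 0
      simp [Q3]
    · show MvPolynomial.eval _ _ = 0
      simp [detM]
  have h1 := this h0
  rw [RingHom.mem_ker] at h1
  simp [L1] at h1

lemma I_eq_of_nzd (hnzd : ∀ y, detM A * y ∈ idL A → y ∈ idL A) : idI A = idJ A ⊓ idL A := by
  apply le_antisymm (le_inf (I_le_J A) (I_le_L A))
  rintro x ⟨hJ, hL⟩
  obtain ⟨y, hy, r, rfl⟩ := mem_J A hJ
  have h1 : r * detM A ∈ idL A := by
    have := sub_mem hL (I_le_L A hy)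
    simpa using this
  have h2 : r ∈ idL A := hnzd r (by rwa [mul_comm])
  have h3 := det_mul_L A h2
  rw [mul_comm] at h3
  exact add_mem hy h3

lemma colon_J_of_nzd (hnzd : ∀ y, detM A * y ∈ idL A → y ∈ idL A) :
    (idI A).colon (idJ A : Set (D A)) = idL A := by
  ext x
  rw [Submodule.mem_colon]
  constructor
  · intro h
    apply hnzd
    have := h _ (det_mem_J A)
    rw [smul_eq_mul, mul_comm] at this
    exact I_le_L A this
  · intro hx s hs
    obtain ⟨y, hy, r, rfl⟩ := mem_J A hs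
    rw [smul_eq_mul, mul_add]
    refine add_mem (Ideal.mul_mem_left _ _ hy) ?_
    have : x * (r * detM A) = r * (detM A * x) := by ring
    rw [this]
    exact Ideal.mul_mem_left _ _ (det_mul_L A hx)

lemma nzd_domain [IsDomain A] (y : D A) (hy : detM A * y ∈ idL A) : y ∈ idL A :=
  ((L_isPrime A).mem_or_mem hy).resolve_left (det_notMem_L A)

lemma nzd_any (y : D A) (hy : detM A * y ∈ idL A) : y ∈ idL A := by
  rw [← τ_ker, RingHom.mem_ker] at hy ⊢
  rw [map_mul] at hy
  by_contra hne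
  have hnt : Nontrivial A := by
    by_contra hA
    rw [not_nontrivial_iff_subsingleton] at hA
    exact hne (Subsingleton.elim _ _)
  let e := MvPolynomial.finSuccEquiv A 8
  have he : e (τ A (detM A)) = Polynomial.C (MvPolynomial.X 3) * Polynomial.X ^ 2 +
      Polynomial.C (2 * MvPolynomial.X 6 * MvPolynomial.X 0) * Polynomial.X +
      Polynomial.C (-(MvPolynomial.X 1 * MvPolynomial.X 6 ^ 2) - MvPolynomial.X 5 * MvPolynomial.X 0 ^ 2 - MvPolynomial.X 5 * MvPolynomial.X 3 * MvPolynomial.X 1) := by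
    have e1 : e (MvPolynomial.X 1) = Polynomial.C (MvPolynomial.X 0) := MvPolynomial.finSuccEquiv_X_succ (R := A) (n := 8) (j := 0)
    have e2 : e (MvPolynomial.X 2) = Polynomial.C (MvPolynomial.X 1) := MvPolynomial.finSuccEquiv_X_succ (R := A) (n := 8) (j := 1)
    have e4 : e (MvPolynomial.X 4) = Polynomial.C (MvPolynomial.X 3) := MvPolynomial.finSuccEquiv_X_succ (R := A) (n := 8) (j := 3)
    have e6 : e (MvPolynomial.X 6) = Polynomial.C (MvPolynomial.X 5) := MvPolynomial.finSuccEquiv_X_succ (R := A) (n := 8) (j := 5)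
    have e7 : e (MvPolynomial.X 7) = Polynomial.C (MvPolynomial.X 6) := MvPolynomial.finSuccEquiv_X_succ (R := A) (n := 8) (j := 6)
    have e0 : e (MvPolynomial.X 0) = Polynomial.X := MvPolynomial.finSuccEquiv_X_zero
    have hτ : τ A (detM A) = -(vc * (vh * vh)) + vg * vb * (-vb) + ve * (va * va) - vg * ve * vc + vh * vb * va - va * vh * (-vb) := by
      simp [τ, detM]; ring
    rw [hτ]
    simp only [map_add, map_sub, map_mul, map_neg, e0, e1, e2, e4, e6, e7, map_pow, map_ofNat]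
    ring
  have hG : e (τ A y) ≠ 0 := by
    rwa [Ne, map_eq_zero_iff _ e.injective]
  have hmul : e (τ A (detM A)) * e (τ A y) = 0 := by rw [← map_mul, hy, map_zero]
  have hX3 : (MvPolynomial.X 3 : MvPolynomial (Fin 8) A) ≠ 0 := MvPolynomial.X_ne_zero 3
  have hlc := Polynomial.coeff_mul_degree_add_degree (e (τ A (detM A))) (e (τ A y))
  rw [hmul, Polynomial.coeff_zero, he, Polynomial.leadingCoeff_quadratic hX3] at hlc
  have h0 : (e (τ A y)).leadingCoeff = 0 := by
    ext m
    have h5 := congrArg (MvPolynomial.coeff (m + Finsupp.single 3 1)) hlc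
    rw [mul_comm, MvPolynomial.coeff_mul_X, MvPolynomial.coeff_zero] at h5
    rw [← h5, MvPolynomial.coeff_zero]
  exact hG (Polynomial.leadingCoeff_eq_zero.mp h0)

end Any

section Dom
variable (A : Type*) [CommRing A] [IsDomain A]

theorem L_minimal : idL A ∈ (idI A).minimalPrimes := by
  refine ⟨⟨L_isPrime A, I_le_L A⟩, ?_⟩
  rintro P ⟨hP, hIP⟩ hPL y hy
  have h1 := hIP (det_mul_L A hy)
  exact (hP.mem_or_mem h1).resolve_left (fun h => det_notMem_L A (hPL h))

theorem J_minimal : idJ A ∈ (idI A).minimalPrimes := by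
  refine ⟨⟨idJ_isPrime A, I_le_J A⟩, ?_⟩
  rintro P ⟨hP, hIP⟩ hPJ
  rw [idJ_eq, sup_le_iff]
  refine ⟨hIP, ?_⟩
  rw [Ideal.span_le, Set.singleton_subset_iff]
  have h1 := hIP (det_mul_L A (Ideal.subset_span (Or.inl rfl) : L1 A ∈ idL A))
  exact (hP.mem_or_mem h1).resolve_right (fun h => L1_notMem_J A (hPJ h))

theorem colon_L : (idI A).colon (idL A : Set (D A)) = idJ A := by
  ext x
  rw [Submodule.mem_colon]
  constructor
  · intro h
    have h1 := I_le_J A (h _ (Ideal.subset_span (Or.inl rfl) : L1 A ∈ idL A))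
    exact ((idJ_isPrime A).mem_or_mem h1).resolve_right (L1_notMem_J A)
  · intro hx s hs
    obtain ⟨y, hy, r, rfl⟩ := mem_J A hx
    rw [smul_eq_mul, add_mul]
    refine add_mem (Ideal.mul_mem_right _ _ hy) ?_
    rw [mul_assoc]
    exact Ideal.mul_mem_left _ _ (det_mul_L A hs)

theorem I_radical : (idI A).IsRadical := by
  rw [I_eq_of_nzd A (nzd_domain A)]
  exact ((idJ_isPrime A).isRadical).inf ((L_isPrime A).isRadical)

end Dom

lemma const_notMem_of_le {P : Ideal (D ℤ)} (hP : P ≤ RingHom.ker (MvPolynomial.eval (0 : Fin 9 → ℤ))) (n : ℤ) (hn : n ≠ 0) :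
    (algebraMap ℤ (D ℤ) n) ∉ P := by
  intro h
  have := hP h
  rw [RingHom.mem_ker] at this
  simp at this
  exact hn this

lemma J_le_ker : idJ ℤ ≤ RingHom.ker (MvPolynomial.eval (0 : Fin 9 → ℤ)) := by
  rw [idJ, Ideal.span_le]
  rintro x (rfl | rfl | rfl | rfl)
  · show MvPolynomial.eval _ _ = 0
    simp [Q1]
  · show MvPolynomial.eval _ _ = 0
    simp [Q2]
  · show MvPolynomial.eval _ _ = 0
    simp [Q3]
  · show MvPolynomial.eval _ _ = 0
    simp [detM]

lemma L_le_ker : idL ℤ ≤ RingHom.ker (MvPolynomial.eval (0 : Fin 9 → ℤ)) := by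
  rw [idL, Ideal.span_le]
  rintro x (rfl | rfl | rfl)
  · show MvPolynomial.eval _ _ = 0
    simp [L1]
  · show MvPolynomial.eval _ _ = 0
    simp [L2]
  · show MvPolynomial.eval _ _ = 0
    simp [L3]

lemma flat_of {P : Ideal (D ℤ)} (h : ∀ (n : ℤ) (x : D ℤ), n ≠ 0 → algebraMap ℤ (D ℤ) n * x ∈ P → x ∈ P) :
    Module.Flat ℤ (D ℤ ⧸ P) := by
  haveI : Module.IsTorsionFree ℤ (D ℤ ⧸ P) := by
    rw [Module.isTorsionFree_iff_smul_eq_zero]
    intro n x hx
    rw [or_iff_not_imp_left]; intro hn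
    obtain ⟨y, rfl⟩ := Ideal.Quotient.mk_surjective x
    rw [Ideal.Quotient.eq_zero_iff_mem]
    apply h n y hn
    rw [← Ideal.Quotient.eq_zero_iff_mem, map_mul]
    rw [zsmul_eq_mul] at hx
    simpa using hx
  infer_instance

end Groth.Agent.H19Lie3
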