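import Mathlib
set_option autoImplicit false
namespace Groth.Agent.H26AltSum
variable {A : Type*} [CommRing A]

def U (n k : ℕ) (x y : A) : A := ∑ j ∈ Finset.range (n + 1), (-1) ^ (n - j) * (n.choose j : A) * (x + (j : A) * y) ^ k

theorem U_rec (n k : ℕ) (x y : A) : U (n + 1) (k + 1) x y = x * U (n + 1) k x y + (n + 1) * y * U n k (x + y) y := by
  unfold U
  rw [Finset.mul_sum]
  have h1 : ∀ j ∈ Finset.range (n + 1 + 1), (-1 : A) ^ (n + 1 - j) * ((n + 1).choose j : A) * (x + (j : A) * y) ^ (k + 1) =
      x * ((-1) ^ (n + 1 - j) * ((n + 1).choose j : A) * (x + (j : A) * y) ^ k) + (-1) ^ (n + 1 - j) * (((n + 1).choose j : A) * (j : A)) * y * (x + (j : A) * y) ^ k := by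
    intro j _; ring
  rw [Finset.sum_congr rfl h1, Finset.sum_add_distrib]
  congr 1
  rw [Finset.sum_range_succ', Nat.cast_zero, mul_zero, mul_zero, zero_mul, zero_mul, add_zero, Finset.mul_sum]
  apply Finset.sum_congr rfl
  intro i hi
  have h2 : (((n + 1).choose (i + 1) : ℕ) : A) * ((i + 1 : ℕ) : A) = (n + 1) * (n.choose i : A) := by
    have := Nat.add_one_mul_choose_eq n i
    exact_mod_cast congrArg (fun q : ℕ => (q : A)) this.symm
  have h3 : n + 1 - (i + 1) = n - i := by omega
  rw [h3, h2]
  push_cast
  have h4 : x + ((i : A) + 1) * y = x + y + i * y := by ring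
  rw [h4]
  ring

theorem U_zero (n : ℕ) (x y : A) : U n 0 x y = 0 ^ n := by
  unfold U
  have h := add_pow (1 : A) (-1) n
  rw [add_neg_cancel] at h
  rw [h]
  apply Finset.sum_congr rfl
  intro j _
  rw [pow_zero, one_pow]; ring

theorem U_main (k : ℕ) : ∀ (n : ℕ) (x y : A), k ≤ n + 1 → U n k x y =
    if k = n + 1 then (n.factorial : A) * ((((n + 1).choose 2 : ℕ) : A) * y ^ (n + 1) + (n + 1) * x * y ^ n)
      else if k = n then (n.factorial : A) * y ^ n else 0 := by
  induction k with
  | zero =>
    intro n x y _
    rw [U_zero]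
    rcases n with _ | n
    · simp
    · simp
  | succ k ih =>
    intro n x y hk
    rcases n with _ | n
    · have hk0 : k = 0 := by omega
      subst hk0
      simp [U]
    · rw [U_rec]
      rcases Nat.lt_or_ge k (n + 1) with h1 | h1
      · have a1 : U (n + 1) k x y = 0 := by
          rw [ih (n + 1) x y (by omega), if_neg (by omega), if_neg (by omega)]
        by_cases h2 : k = n
        · have a2 : U n k (x + y) y = (n.factorial : A) * y ^ n := by
            rw [ih n (x + y) y (by omega), if_neg (by omega), if_pos h2]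
          rw [a1, a2, if_neg (by omega), if_pos (by omega), Nat.factorial_succ]
          push_cast; ring
        · have a2 : U n k (x + y) y = 0 := by
            rw [ih n (x + y) y (by omega), if_neg (by omega), if_neg h2]
          rw [a1, a2, if_neg (by omega), if_neg (by omega)]; ring
      · have h2 : k = n + 1 := by omega
        subst h2
        rw [ih (n + 1) x y (by omega), ih n (x + y) y (by omega)]
        rw [if_neg (by omega), if_pos rfl, if_pos rfl, if_pos rfl, Nat.factorial_succ]
        have h3 : (n + 1 + 1).choose 2 = (n + 1) + (n + 1).choose 2 := by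
          rw [Nat.choose_succ_succ' (n + 1) 1, Nat.choose_one_right]
        rw [h3]
        push_cast; ring
end Groth.Agent.H26AltSum
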