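import Mathlib

set_option autoImplicit false
open PowerSeries Finset

namespace Groth.Agent.H26Todd

noncomputable section

abbrev BB : PowerSeries ℚ := bernoulli'PowerSeries ℚ

lemma coeff_BB (n : ℕ) : coeff n BB = bernoulli' n / (n.factorial : ℚ) := by
  simp [BB, bernoulli'PowerSeries]

lemma key : rescale (-1 : ℚ) BB * exp ℚ = BB := by
  have h1 := bernoulli'PowerSeries_mul_exp_sub_one ℚ
  have h2 := congrArg (rescale (-1 : ℚ)) h1
  rw [map_mul, map_sub, map_one, map_mul, rescale_X] at h2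
  have hE : rescale (-1 : ℚ) (exp ℚ) * exp ℚ = 1 := by
    have := exp_mul_exp_eq_exp_add (A := ℚ) (-1) 1
    rw [rescale_one] at this
    simp at this
    simpa using this
  have hne : (exp ℚ - 1 : PowerSeries ℚ) ≠ 0 := by
    intro h
    have := congrArg (coeff 1) h
    simp [coeff_exp] at this
  apply mul_right_cancel₀ hne
  change rescale (-1 : ℚ) BB * exp ℚ * (exp ℚ - 1) = BB * (exp ℚ - 1)
  have h3 : rescale (-1 : ℚ) BB * (1 - exp ℚ) = C (-1 : ℚ) * X := by
    have h4 : (rescale (-1 : ℚ) BB * (rescale (-1 : ℚ) (exp ℚ) - 1)) * exp ℚ =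
        (C (-1 : ℚ) * X * rescale (-1 : ℚ) (exp ℚ)) * exp ℚ := by rw [h2]
    rw [mul_assoc, mul_assoc, sub_mul, one_mul, hE, mul_one] at h4
    exact h4
  have h5 : rescale (-1 : ℚ) BB * (exp ℚ - 1) = X := by
    have : rescale (-1 : ℚ) BB * (exp ℚ - 1) = - (rescale (-1 : ℚ) BB * (1 - exp ℚ)) := by ring
    rw [this, h3]
    simp
  change _ = bernoulli'PowerSeries ℚ * (exp ℚ - 1)
  rw [h1]
  calc rescale (-1 : ℚ) BB * exp ℚ * (exp ℚ - 1) = (rescale (-1 : ℚ) BB * (exp ℚ - 1)) * exp ℚ := by ring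
    _ = _ := by rw [h5]

lemma key' (y : ℚ) : rescale (-y) BB * rescale y (exp ℚ) = rescale y BB := by
  have h := congrArg (rescale y) key
  rw [map_mul, rescale_rescale] at h
  simpa using h

/-- the `p`-independent factor -/
def Q (n d : ℕ) (s : ℚ) : PowerSeries ℚ :=
  (rescale (-(d : ℚ)) BB)⁻¹ * BB ^ (n + 1) * rescale (s - d - n - 1) (exp ℚ)

lemma prod_eq (n d : ℕ) (s : ℚ) (t : ℚ) :
    (rescale (-(d : ℚ)) BB)⁻¹ * rescale (-t) BB * BB ^ (n + 1) *
      rescale (t - d - n - 1 + s) (exp ℚ) = rescale t BB * Q n d s := by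
  have h1 : rescale (t - d - n - 1 + s) (exp ℚ) = rescale t (exp ℚ) * rescale (s - d - n - 1) (exp ℚ) := by
    rw [exp_mul_exp_eq_exp_add]
    congr 2
    ring
  rw [h1, Q, ← key' t]
  ring

lemma constCoeff_BB (t : ℚ) : constantCoeff (rescale t BB) = 1 := by
  rw [← coeff_zero_eq_constantCoeff_apply, coeff_rescale, coeff_BB]
  simp

lemma Q0 (n d : ℕ) (s : ℚ) : coeff 0 (Q n d s) = 1 := by
  have h : constantCoeff BB = 1 := by
    rw [← coeff_zero_eq_constantCoeff_apply, coeff_BB]; simp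
  rw [coeff_zero_eq_constantCoeff_apply, Q, map_mul, map_mul, map_pow, constantCoeff_inv, constCoeff_BB, h]
  rw [← coeff_zero_eq_constantCoeff_apply, coeff_rescale, coeff_exp]
  simp

lemma coeff_one_mul' (f g : PowerSeries ℚ) : coeff 1 (f * g) = coeff 0 f * coeff 1 g + coeff 1 f * coeff 0 g := by
  rw [coeff_mul, Finset.Nat.antidiagonal_succ]
  simp

lemma coeff_one_pow' (f : PowerSeries ℚ) (h : coeff 0 f = 1) (m : ℕ) : coeff 0 (f ^ m) = 1 ∧ coeff 1 (f ^ m) = m * coeff 1 f := by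
  induction m with
  | zero => simp [coeff_one]
  | succ m ih =>
    rw [pow_succ, coeff_one_mul', ih.1, ih.2, h]
    constructor
    · rw [coeff_zero_eq_constantCoeff_apply, map_mul, ← coeff_zero_eq_constantCoeff_apply, ← coeff_zero_eq_constantCoeff_apply, ih.1, h, one_mul]
    · push_cast; ring

lemma Q1 (n d : ℕ) (s : ℚ) : coeff 1 (Q n d s) = (2 * s - d - n - 1) / 2 := by
  have hB0 : coeff 0 BB = 1 := by rw [coeff_BB]; simp
  have hB1 : coeff 1 BB = 1 / 2 := by rw [coeff_BB]; simp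
  have hne : constantCoeff (rescale (-(d : ℚ)) BB) ≠ 0 := by rw [constCoeff_BB]; exact one_ne_zero
  have hI := PowerSeries.mul_inv_cancel _ hne
  have hI0 : coeff 0 (rescale (-(d : ℚ)) BB)⁻¹ = 1 := by
    rw [coeff_zero_eq_constantCoeff_apply, constantCoeff_inv, constCoeff_BB]; simp
  have hI1 : coeff 1 (rescale (-(d : ℚ)) BB)⁻¹ = d / 2 := by
    have h := congrArg (coeff 1) hI
    rw [coeff_one_mul', coeff_rescale, coeff_rescale, hB0, hB1, hI0, coeff_one] at h
    simp at h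
    linarith
  obtain ⟨hP0, hP1⟩ := coeff_one_pow' BB hB0 (n + 1)
  rw [Q, coeff_one_mul', coeff_one_mul', coeff_rescale, coeff_rescale, hI0, hI1, hP1, hB1, hP0, coeff_exp, coeff_exp]
  have h00 : coeff 0 ((rescale (-(d : ℚ)) BB)⁻¹ * BB ^ (n + 1)) = 1 := by
    rw [coeff_zero_eq_constantCoeff_apply, map_mul, ← coeff_zero_eq_constantCoeff_apply, ← coeff_zero_eq_constantCoeff_apply, hI0, hP0, one_mul]
  rw [h00]
  simp
  ring

/-- The polynomial expansion. -/
theorem leading (n d : ℕ) (s : ℚ) (hn : 2 ≤ n) :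
    ∃ P : Polynomial ℚ, P.natDegree ≤ n - 2 ∧ ∀ p : ℕ,
      coeff n ((rescale (-(d : ℚ)) BB)⁻¹ * rescale (-((d : ℚ) * p)) BB * BB ^ (n + 1) *
        rescale ((d : ℚ) * p - d - n - 1 + s) (exp ℚ)) =
        bernoulli' n * ((d : ℚ) * p) ^ n / (Nat.factorial n : ℚ) +
          (2 * s - d - n - 1) / 2 * bernoulli' (n - 1) * ((d : ℚ) * p) ^ (n - 1) / (Nat.factorial (n - 1) : ℚ) +
          P.eval (p : ℚ) := by
  obtain ⟨m, rfl⟩ : ∃ m, n = m + 2 := ⟨n - 2, by omega⟩
  let q := fun j => coeff j (Q (m + 2) d s)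
  refine ⟨∑ i ∈ range (m + 1), Polynomial.C (d ^ i * (bernoulli' i / (i.factorial : ℚ)) * q (m + 2 - i)) * Polynomial.X ^ i, ?_, ?_⟩
  · refine Polynomial.natDegree_sum_le_of_forall_le _ _ (fun i hi => ?_)
    refine (Polynomial.natDegree_C_mul_X_pow_le _ _).trans ?_
    have := mem_range.mp hi
    omega
  · intro p
    have h := prod_eq (m + 2) d s ((d : ℚ) * p)
    rw [h, coeff_mul, Finset.Nat.sum_antidiagonal_eq_sum_range_succ_mk, Finset.sum_range_succ, Finset.sum_range_succ,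
      Polynomial.eval_finset_sum]
    have e1 : m + 2 - (m + 2) = 0 := by omega
    have e2 : m + 2 - (m + 1) = 1 := by omega
    simp only [coeff_rescale, coeff_BB]
    rw [e1, e2, Q0, Q1]
    have e3 : m + 2 - 1 = m + 1 := by omega
    rw [e3]
    have e4 : ∑ x ∈ range (m + 1), ((d : ℚ) * p) ^ x * (bernoulli' x / (x.factorial : ℚ)) * coeff (m + 2 - x) (Q (m + 2) d s) =
        ∑ x ∈ range (m + 1), Polynomial.eval (p : ℚ) (Polynomial.C (d ^ x * (bernoulli' x / (x.factorial : ℚ)) * q (m + 2 - x)) * Polynomial.X ^ x) := by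
      refine Finset.sum_congr rfl (fun x _ => ?_)
      simp only [Polynomial.eval_mul, Polynomial.eval_C, Polynomial.eval_pow, Polynomial.eval_X, q]
      rw [mul_pow]
      ring
    rw [e4]
    ring

/-- sign of the Bernoulli numbers -/
lemma bernoulli_sign (k : ℕ) (hk : k ≠ 0) : 0 < (-1 : ℚ) ^ (k + 1) * bernoulli' (2 * k) := by
  have h := hasSum_zeta_nat hk
  have hpos : 0 < ((-1 : ℝ) ^ (k + 1) * (2 : ℝ) ^ (2 * k - 1) * Real.pi ^ (2 * k) *
        bernoulli (2 * k) / ((2 * k).factorial : ℝ)) := by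
    rw [← h.tsum_eq]
    refine Summable.tsum_pos h.summable (fun i => by positivity) 1 (by simp)
  have h2 : ((-1 : ℝ) ^ (k + 1) * (2 : ℝ) ^ (2 * k - 1) * Real.pi ^ (2 * k) *
        bernoulli (2 * k) / ((2 * k).factorial : ℝ)) = ((-1 : ℝ) ^ (k + 1) * bernoulli (2 * k)) *
        ((2 : ℝ) ^ (2 * k - 1) * Real.pi ^ (2 * k) / ((2 * k).factorial : ℝ)) := by ring
  rw [h2] at hpos
  have h3 : 0 < ((2 : ℝ) ^ (2 * k - 1) * Real.pi ^ (2 * k) / ((2 * k).factorial : ℝ)) := by positivity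
  have h4 := (pos_iff_pos_of_mul_pos hpos).mpr h3
  rw [← bernoulli_eq_bernoulli'_of_ne_one (by omega)]
  exact_mod_cast h4

lemma bern_neg (n : ℕ) (h : n % 4 = 0) (hn : 2 ≤ n) : bernoulli' n < 0 := by
  obtain ⟨k, rfl⟩ : ∃ k, n = 2 * (2 * k) := ⟨n / 4, by omega⟩
  have := bernoulli_sign (2 * k) (by omega)
  rw [pow_succ, pow_mul] at this
  simp at this
  exact this

lemma bern_pos (n : ℕ) (h : n % 4 = 2) : 0 < bernoulli' n := by
  obtain ⟨k, rfl⟩ : ∃ k, n = 2 * (2 * k + 1) := ⟨n / 4, by omega⟩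
  have := bernoulli_sign (2 * k + 1) (by omega)
  rw [pow_succ, pow_succ, pow_mul] at this
  simpa using this

lemma eventually_neg (N : ℕ) (hN : 1 ≤ N) (c : ℚ) (hc : c < 0) (P : Polynomial ℚ) (hP : P.natDegree < N) :
    ∃ P₀ : ℕ, ∀ p : ℕ, P₀ ≤ p → c * (p : ℚ) ^ N + P.eval (p : ℚ) < 0 := by
  let R : Polynomial ℚ := Polynomial.C c * Polynomial.X ^ N + P
  have hdeg : P.degree < (Polynomial.C c * Polynomial.X ^ N).degree := by
    rw [Polynomial.degree_C_mul_X_pow N hc.ne]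
    exact (Polynomial.degree_le_natDegree).trans_lt (by exact_mod_cast hP)
  have hlead : R.leadingCoeff = c := by
    rw [Polynomial.leadingCoeff_add_of_degree_lt' hdeg, Polynomial.leadingCoeff_C_mul_X_pow]
  have hRdeg : 0 < R.degree := by
    rw [Polynomial.degree_add_eq_left_of_degree_lt hdeg, Polynomial.degree_C_mul_X_pow N hc.ne]
    exact_mod_cast hN
  have ht := Polynomial.tendsto_atBot_of_leadingCoeff_nonpos R hRdeg (by rw [hlead]; exact hc.le)
  have ht2 := ht.comp (tendsto_natCast_atTop_atTop (R := ℚ))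
  have h3 := ht2.eventually (Filter.eventually_lt_atBot 0)
  rw [Filter.eventually_atTop] at h3
  obtain ⟨P₀, h4⟩ := h3
  refine ⟨P₀, fun p hp => ?_⟩
  have h5 := h4 p hp
  simpa [R] using h5

end

end Groth.Agent.H26Todd
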