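import Mathlib

set_option autoImplicit false

namespace Groth.Agent.H27Circ

universe u

theorem hgeom {K : Type u} [Field K] {N : ℕ} {ζ : K} (hζ : IsPrimitiveRoot ζ N) (j : ℕ) (hj : ¬ N ∣ j) :
    ∑ i ∈ Finset.range N, ζ ^ (i * j) = 0 := by
  have h1 : ζ ^ j ≠ 1 := fun h => hj ((hζ.pow_eq_one_iff_dvd j).1 h)
  have : (∑ i ∈ Finset.range N, (ζ ^ j) ^ i) * (ζ ^ j - 1) = 0 := by
    rw [geom_sum_mul, ← pow_mul, mul_comm j N, pow_mul, hζ.pow_eq_one, one_pow, sub_self]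
  have h4 := (mul_eq_zero.1 this).resolve_right (sub_ne_zero.2 h1)
  rw [← h4]
  exact Finset.sum_congr rfl fun i _ => by rw [← pow_mul, mul_comm]

theorem sum_Ioo {K : Type u} [Field K] {N : ℕ} (hN : 0 < N) (f : ℕ → K) :
    ∑ i ∈ Finset.range N, f i = f 0 + ∑ i ∈ Finset.Ioo 0 N, f i := by
  have : Finset.range N = insert 0 (Finset.Ioo 0 N) := by
    ext i; simp only [Finset.mem_range, Finset.mem_insert, Finset.mem_Ioo]; omega
  rw [this, Finset.sum_insert (by simp)]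

theorem circ_sum {K : Type u} [Field K] (h6 : (6 : K) ≠ 0)
    (N j : ℕ) (hj : j < N) (ζ : K) (hζ : IsPrimitiveRoot ζ N) :
    ∑ i ∈ Finset.Ioo 0 N, ζ ^ (i * j) / (2 - ζ ^ i - (ζ ^ i)⁻¹) =
      (j : K) * ((j : K) - (N : K)) / 2 + ((N : K) ^ 2 - 1) / 12 := by
  have hN : 0 < N := by omega
  have h2 : (2 : K) ≠ 0 := fun h => h6 (by linear_combination 3 * h)
  have h3 : (3 : K) ≠ 0 := fun h => h6 (by linear_combination 2 * h)
  have h12 : (12 : K) ≠ 0 := by
    have : (12 : K) = 2 * 6 := by norm_num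
    rw [this]; exact mul_ne_zero h2 h6
  have hNK : (N : K) ≠ 0 := by
    have : NeZero N := ⟨hN.ne'⟩
    exact (hζ.neZero').out
  have hζ0 : ζ ≠ 0 := hζ.ne_zero hN.ne'
  have hden : ∀ i ∈ Finset.Ioo 0 N, (2 - ζ ^ i - (ζ ^ i)⁻¹) ≠ 0 := by
    intro i hi
    rw [Finset.mem_Ioo] at hi
    have h1 : ζ ^ i ≠ 1 := hζ.pow_ne_one_of_pos_of_lt hi.1.ne' hi.2
    have h0 : ζ ^ i ≠ 0 := pow_ne_zero _ hζ0
    intro h
    apply h1
    have : (ζ ^ i - 1) ^ 2 = 0 := by
      have h4 : (2 - ζ ^ i - (ζ ^ i)⁻¹) * ζ ^ i = 0 := by rw [h, zero_mul]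
      rw [sub_mul, sub_mul, inv_mul_cancel₀ h0] at h4
      linear_combination -h4
    exact sub_eq_zero.1 (pow_eq_zero_iff (by norm_num) |>.1 this)
  set S : ℕ → K := fun j => ∑ i ∈ Finset.Ioo 0 N, ζ ^ (i * j) / (2 - ζ ^ i - (ζ ^ i)⁻¹) with hS
  have hsec : ∀ j, j + 1 < N → S (j + 2) - 2 * S (j + 1) + S j = 1 := by
    intro j hj
    have hnd : ¬ N ∣ j + 1 := fun h => by
      have := Nat.le_of_dvd (by omega) h
      omega
    have hg := hgeom hζ (j + 1) hnd
    rw [sum_Ioo hN] at hg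
    simp only [zero_mul, pow_zero] at hg
    have : S (j + 2) - 2 * S (j + 1) + S j = - ∑ i ∈ Finset.Ioo 0 N, ζ ^ (i * (j + 1)) := by
      simp only [hS]
      rw [Finset.mul_sum, ← Finset.sum_sub_distrib, ← Finset.sum_add_distrib, ← Finset.sum_neg_distrib]
      refine Finset.sum_congr rfl fun i hi => ?_
      have hd := hden i hi
      have h0 : ζ ^ i ≠ 0 := pow_ne_zero _ hζ0
      have e1 : ζ ^ (i * (j + 2)) = ζ ^ (i * j) * ζ ^ i * ζ ^ i := by rw [← pow_add, ← pow_add]; ring_nf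
      have e2 : ζ ^ (i * (j + 1)) = ζ ^ (i * j) * ζ ^ i := by rw [← pow_add, mul_add, mul_one]
      rw [e1, e2]
      rw [mul_div_assoc', ← sub_div, ← add_div, div_eq_iff hd]
      have h5 : (ζ ^ i) * (ζ ^ i)⁻¹ = 1 := mul_inv_cancel₀ h0
      linear_combination (-(ζ ^ (i * j))) * h5
    rw [this]
    linear_combination -hg
  have hSN : S N = S 0 := by
    simp only [hS]
    refine Finset.sum_congr rfl fun i _ => ?_
    rw [mul_comm i N, pow_mul, hζ.pow_eq_one]; simp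
  have hdel : ∀ j, j < N → S (j + 1) - S j = (S 1 - S 0) + j := by
    intro j
    induction j with
    | zero => intro _; simp
    | succ j ih =>
      intro hj
      have h1 := ih (by omega)
      have h4 := hsec j hj
      push_cast
      linear_combination h1 + h4
  have hsum1 : ∀ m : ℕ, 2 * ∑ j ∈ Finset.range m, (j : K) = m * (m - 1) := by
    intro m
    induction m with
    | zero => simp
    | succ m ih => rw [Finset.sum_range_succ]; push_cast; linear_combination ih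
  have hsum2 : ∀ m : ℕ, 6 * ∑ j ∈ Finset.range m, ((j : K) * (j - 1) / 2) = m * (m - 1) * (m - 2) := by
    intro m
    induction m with
    | zero => simp
    | succ m ih =>
      rw [Finset.sum_range_succ]; push_cast
      have : (6 : K) * ((m : K) * (m - 1) / 2) = 3 * (m * (m - 1)) := by field_simp; ring
      linear_combination ih + this
  have hD0 : 2 * (S 1 - S 0) = -((N : K) - 1) := by
    have h1 : ∑ j ∈ Finset.range N, (S (j + 1) - S j) = 0 := by
      rw [Finset.sum_range_sub, hSN, sub_self]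
    rw [Finset.sum_congr rfl (fun j hj => hdel j (Finset.mem_range.1 hj)), Finset.sum_add_distrib, Finset.sum_const,
      Finset.card_range, nsmul_eq_mul] at h1
    have h4 := hsum1 N
    have : (N : K) * (2 * (S 1 - S 0) + (N - 1)) = 0 := by linear_combination 2 * h1 - h4
    linear_combination (mul_eq_zero.1 this).resolve_left hNK
  have hform : ∀ j, j ≤ N → S j = S 0 + j * (S 1 - S 0) + (j : K) * (j - 1) / 2 := by
    intro j
    induction j with
    | zero => intro _; simp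
    | succ j ih =>
      intro hj
      have h1 := ih (by omega)
      have h4 := hdel j (by omega)
      have h5 : ((j : K) + 1) * ((j : K) + 1 - 1) / 2 = (j : K) * (j - 1) / 2 + j := by field_simp; ring
      push_cast
      rw [h5]
      linear_combination h1 + h4
  have hS0 : 12 * S 0 = (N : K) ^ 2 - 1 := by
    have h1 : ∑ j ∈ Finset.range N, S j = 0 := by
      simp only [hS]
      rw [Finset.sum_comm]
      refine Finset.sum_eq_zero fun i hi => ?_
      rw [← Finset.sum_div]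
      have hi' := Finset.mem_Ioo.1 hi
      have hnd : ¬ N ∣ i := fun h => by
        have := Nat.le_of_dvd hi'.1 h
        omega
      have := hgeom hζ i hnd
      rw [Finset.sum_congr rfl (fun j _ => by rw [mul_comm i j]), this, zero_div]
    rw [Finset.sum_congr rfl (fun j hj => hform j (Finset.mem_range.1 hj).le), Finset.sum_add_distrib, Finset.sum_add_distrib,
      Finset.sum_const, Finset.card_range, nsmul_eq_mul, ← Finset.sum_mul] at h1
    have h4 := hsum1 N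
    have h5 := hsum2 N
    have : (N : K) * (12 * S 0 - ((N : K) ^ 2 - 1)) = 0 := by
      linear_combination 12 * h1 - 6 * (S 1 - S 0) * h4 - 2 * h5 - 3 * (N : K) * (N - 1) * hD0
    linear_combination (mul_eq_zero.1 this).resolve_left hNK
  have h7 := hform j hj.le
  change S j = _
  rw [h7]
  have h8 : S 1 - S 0 = -((N : K) - 1) / 2 := by rw [eq_div_iff h2]; linear_combination hD0
  have h9 : S 0 = ((N : K) ^ 2 - 1) / 12 := by rw [eq_div_iff h12]; linear_combination hS0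
  rw [h8, h9]
  field_simp
  ring


open ComplexConjugate

theorem conj_pow {N : ℕ} (hN : N ≠ 0) {ζ : ℂ} (hζ : IsPrimitiveRoot ζ N) (l : ℕ) : (ζ ^ l)⁻¹ = conj (ζ ^ l) := by
  apply Complex.inv_eq_conj
  rw [norm_pow, hζ.norm'_eq_one hN, one_pow]

theorem d_eq {N : ℕ} (hN : N ≠ 0) {ζ : ℂ} (hζ : IsPrimitiveRoot ζ N) (l : ℕ) :
    2 - ζ ^ l - (ζ ^ l)⁻¹ = ((2 - 2 * (ζ ^ l).re : ℝ) : ℂ) := by
  rw [conj_pow hN hζ, sub_sub, Complex.add_conj]
  push_cast; ring

theorem D_nonneg {N : ℕ} (hN : N ≠ 0) {ζ : ℂ} (hζ : IsPrimitiveRoot ζ N) (l : ℕ) : 0 ≤ 2 - 2 * (ζ ^ l).re := by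
  have h1 := Complex.re_le_norm (ζ ^ l)
  rw [norm_pow, hζ.norm'_eq_one hN, one_pow] at h1
  linarith

theorem circ_re {N : ℕ} {ζ : ℂ} (hζ : IsPrimitiveRoot ζ N) (j : ℕ) (hj : j < N) :
    ∑ l ∈ Finset.Ioo 0 N, (ζ ^ (l * j)).re / (2 - 2 * (ζ ^ l).re) = (j : ℝ) * ((j : ℝ) - (N : ℝ)) / 2 + ((N : ℝ) ^ 2 - 1) / 12 := by
  have h1 := circ_sum (K := ℂ) (by norm_num) N j hj ζ hζ
  have h2 := congrArg Complex.re h1
  have h3 : ((j : ℂ) * ((j : ℂ) - (N : ℂ)) / 2 + ((N : ℂ) ^ 2 - 1) / 12) = (((j : ℝ) * ((j : ℝ) - (N : ℝ)) / 2 + ((N : ℝ) ^ 2 - 1) / 12 : ℝ) : ℂ) := by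
    push_cast; ring
  rw [h3, Complex.ofReal_re, Complex.re_sum] at h2
  rw [← h2]
  refine Finset.sum_congr rfl fun l _ => ?_
  rw [d_eq (by omega) hζ, Complex.div_ofReal_re]

theorem circ_eig {N : ℕ} (hN : 0 < N) {ζ : ℂ} (hζ : IsPrimitiveRoot ζ N) (m : ℕ) :
    (∑ i ∈ Finset.range N,
        ((i : ℂ) * ((i : ℂ) - (N : ℂ)) / 2 + ((N : ℂ) ^ 2 - 1) / 12) / (N : ℂ) * ζ ^ (m * i)) =
      ((∑ l ∈ Finset.Ioo 0 N, if N ∣ l + m then (1 : ℝ) / (2 - 2 * (ζ ^ l).re) else 0 : ℝ) : ℂ) := by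
  have hNC : (N : ℂ) ≠ 0 := by exact_mod_cast hN.ne'
  have h1 : ∀ i ∈ Finset.range N, ((i : ℂ) * ((i : ℂ) - (N : ℂ)) / 2 + ((N : ℂ) ^ 2 - 1) / 12) / (N : ℂ) * ζ ^ (m * i)
      = ∑ l ∈ Finset.Ioo 0 N, (1 / ((N : ℂ) * (2 - ζ ^ l - (ζ ^ l)⁻¹))) * ζ ^ (i * (l + m)) := by
    intro i hi
    rw [← circ_sum (K := ℂ) (by norm_num) N i (Finset.mem_range.1 hi) ζ hζ, Finset.sum_div, Finset.sum_mul]
    refine Finset.sum_congr rfl fun l _ => ?_
    have : ζ ^ (i * (l + m)) = ζ ^ (l * i) * ζ ^ (m * i) := by rw [← pow_add]; congr 1; ring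
    rw [this, div_div, mul_comm (2 - ζ ^ l - (ζ ^ l)⁻¹) (N : ℂ)]
    ring
  rw [Finset.sum_congr rfl h1, Finset.sum_comm]
  push_cast
  refine Finset.sum_congr rfl fun l _ => ?_
  rw [← Finset.mul_sum]
  by_cases hd : N ∣ l + m
  · rw [if_pos hd]
    obtain ⟨c, hc⟩ := hd
    have h2 : ∀ i ∈ Finset.range N, ζ ^ (i * (l + m)) = 1 := by
      intro i _
      rw [hc, show i * (N * c) = N * (i * c) by ring, pow_mul, hζ.pow_eq_one, one_pow]
    rw [Finset.sum_congr rfl h2, Finset.sum_const, Finset.card_range, nsmul_eq_mul, mul_one, d_eq hN.ne' hζ]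
    push_cast
    rw [one_div, mul_inv, mul_comm ((N : ℂ))⁻¹, mul_assoc, inv_mul_cancel₀ hNC, mul_one, one_div]
  · rw [if_neg hd, hgeom hζ _ hd, mul_zero]
    simp

end Groth.Agent.H27Circ
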