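import Mathlib

set_option autoImplicit false

namespace Groth.Agent.H27Witt

open MvPolynomial

theorem homog_aeval {σ τ : Type*} {R : Type*} [CommRing R] (w : σ → ℕ) (w' : τ → ℕ) (g : σ → MvPolynomial τ R)
    (hg : ∀ i, IsWeightedHomogeneous w' (g i) (w i)) {φ : MvPolynomial σ R} {m : ℕ} (hφ : IsWeightedHomogeneous w φ m) :
    IsWeightedHomogeneous w' (aeval g φ) m := by
  rw [aeval_def, eval₂_eq]
  refine IsWeightedHomogeneous.sum _ _ _ fun d hd => ?_
  rw [algebraMap_eq]
  refine IsWeightedHomogeneous.C_mul ?_ _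
  have h1 := IsWeightedHomogeneous.prod d.support (fun i => g i ^ d i) (fun i => d i • w i) (w := w')
    (fun i _ => (hg i).pow (d i))
  have h2 : ∑ i ∈ d.support, d i • w i = m := by
    have := hφ (mem_support_iff.1 hd)
    rw [← this, Finsupp.weight_apply]
    rfl
  rwa [h2] at h1

theorem rename_eq {σ τ : Type*} {R : Type*} [CommRing R] (f : σ → τ) (φ : MvPolynomial σ R) :
    rename f φ = aeval (fun j => (X (f j) : MvPolynomial τ R)) φ := by
  have : (rename f : MvPolynomial σ R →ₐ[R] MvPolynomial τ R) = aeval (fun j => (X (f j) : MvPolynomial τ R)) := by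
    ext; simp
  rw [this]

theorem witt_homog (p : ℕ) (k : ℕ) :
    IsWeightedHomogeneous (fun i : ℕ => p ^ i) (wittPolynomial p ℚ k) (p ^ k) := by
  rw [wittPolynomial_eq_sum_C_mul_X_pow]
  refine IsWeightedHomogeneous.sum _ _ _ fun i hi => ?_
  refine IsWeightedHomogeneous.C_mul ?_ _
  have := (isWeightedHomogeneous_X ℚ (fun i : ℕ => p ^ i) i).pow (p ^ (k - i))
  rw [Finset.mem_range] at hi
  have h2 : p ^ (k - i) • p ^ i = p ^ k := by
    rw [smul_eq_mul, ← pow_add]; congr 1; omega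
  rwa [h2] at this

theorem xInTermsOfW_homog (p : ℕ) [Fact p.Prime] (n : ℕ) :
    IsWeightedHomogeneous (fun i : ℕ => p ^ i) (xInTermsOfW p ℚ n) (p ^ n) := by
  induction n using Nat.strong_induction_on with
  | _ n ih =>
    rw [xInTermsOfW_eq, mul_comm]
    refine IsWeightedHomogeneous.C_mul (IsWeightedHomogeneous.sub (isWeightedHomogeneous_X _ _ n) ?_) _
    refine IsWeightedHomogeneous.sum _ _ _ fun i hi => ?_
    refine IsWeightedHomogeneous.C_mul ?_ _
    rw [Finset.mem_range] at hi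
    have := (ih i hi).pow (p ^ (n - i))
    have h2 : p ^ (n - i) • p ^ i = p ^ n := by
      rw [smul_eq_mul, ← pow_add]; congr 1; omega
    rwa [h2] at this

theorem structure_homog (p : ℕ) [Fact p.Prime] (n : ℕ) {idx : Type} (Φ : MvPolynomial idx ℤ) (w : idx × ℕ → ℕ)
    (hΦ : ∀ k, IsWeightedHomogeneous w (aeval (fun i => rename (Prod.mk i) (wittPolynomial p ℚ k)) (map (Int.castRingHom ℚ) Φ)) (p ^ k)) :
    IsWeightedHomogeneous w (wittStructureInt p Φ n) (p ^ n) := by
  have h1 : IsWeightedHomogeneous w (wittStructureRat p (map (Int.castRingHom ℚ) Φ) n) (p ^ n) :=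
    homog_aeval (fun i : ℕ => p ^ i) w _ (fun k => hΦ k) (xInTermsOfW_homog p n)
  rw [← map_wittStructureInt] at h1
  intro d hd
  apply h1
  rw [coeff_map]
  simpa using hd

theorem wittAdd_homog (p : ℕ) [Fact p.Prime] (n : ℕ) :
    IsWeightedHomogeneous (fun i : Fin 2 × ℕ => p ^ i.2) (WittVector.wittAdd p n) (p ^ n) := by
  apply structure_homog
  intro k
  simp only [map_add, map_X, aeval_X]
  have h : ∀ i : Fin 2, IsWeightedHomogeneous (fun i : Fin 2 × ℕ => p ^ i.2) (rename (Prod.mk i) (wittPolynomial p ℚ k)) (p ^ k) := by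
    intro i
    rw [rename_eq]
    exact homog_aeval (fun i : ℕ => p ^ i) _ _ (fun j => isWeightedHomogeneous_X ℚ (fun i : Fin 2 × ℕ => p ^ i.2) (i, j)) (witt_homog p k)
  exact (h 0).add (h 1)

theorem wittMul_homog (p : ℕ) [Fact p.Prime] (n : ℕ) :
    IsWeightedHomogeneous (fun i : Fin 2 × ℕ => if i.1 = 0 then 0 else p ^ i.2) (WittVector.wittMul p n) (p ^ n) := by
  apply structure_homog
  intro k
  simp only [map_mul, map_X, aeval_X]
  have h0 : IsWeightedHomogeneous (fun i : Fin 2 × ℕ => if i.1 = 0 then 0 else p ^ i.2) (rename (Prod.mk (0 : Fin 2)) (wittPolynomial p ℚ k)) 0 := by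
    rw [rename_eq]
    refine homog_aeval (fun i : ℕ => 0) _ _ (fun j => isWeightedHomogeneous_X ℚ (fun i : Fin 2 × ℕ => if i.1 = 0 then 0 else p ^ i.2) (0, j)) ?_
    intro d _
    simp [Finsupp.weight_apply]
  have h1 : IsWeightedHomogeneous (fun i : Fin 2 × ℕ => if i.1 = 0 then 0 else p ^ i.2) (rename (Prod.mk (1 : Fin 2)) (wittPolynomial p ℚ k)) (p ^ k) := by
    rw [rename_eq]
    exact homog_aeval (fun i : ℕ => p ^ i) _ _ (fun j => isWeightedHomogeneous_X ℚ (fun i : Fin 2 × ℕ => if i.1 = 0 then 0 else p ^ i.2) (1, j)) (witt_homog p k)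
  have := h0.mul h1
  rwa [zero_add] at this

section
variable {A K : Type*} [CommRing A] [CommRing K] [Algebra A K] (M : ℕ → Submodule A K)

def Good (m : ℕ) (y : K) : Prop := (m = 0 ∧ y ∈ (algebraMap A K).range) ∨ (0 < m ∧ y ∈ M m)

theorem Good.mul (hmul : ∀ (i j : ℕ) (a b : K), a ∈ M i → b ∈ M j → a * b ∈ M (i + j)) {m m' : ℕ} {y y' : K}
    (h : Good M m y) (h' : Good M m' y') : Good M (m + m') (y * y') := by
  rcases h with ⟨rfl, a, rfl⟩ | ⟨hm, hy⟩ <;> rcases h' with ⟨rfl, b, rfl⟩ | ⟨hm', hy'⟩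
  · exact Or.inl ⟨rfl, a * b, map_mul _ _ _⟩
  · refine Or.inr ⟨by omega, ?_⟩
    rw [zero_add, ← Algebra.smul_def]
    exact Submodule.smul_mem _ _ hy'
  · refine Or.inr ⟨by omega, ?_⟩
    rw [add_zero, mul_comm, ← Algebra.smul_def]
    exact Submodule.smul_mem _ _ hy
  · exact Or.inr ⟨by omega, hmul _ _ _ _ hy hy'⟩

theorem Good.one : Good M 0 (1 : K) := Or.inl ⟨rfl, 1, map_one _⟩

theorem Good.pow (hmul : ∀ (i j : ℕ) (a b : K), a ∈ M i → b ∈ M j → a * b ∈ M (i + j)) {m : ℕ} {y : K}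
    (h : Good M m y) (n : ℕ) : Good M (n • m) (y ^ n) := by
  induction n with
  | zero => rw [zero_smul, pow_zero]; exact Good.one M
  | succ n ih => rw [succ_nsmul, pow_succ]; exact ih.mul M hmul h

theorem Good.prod (hmul : ∀ (i j : ℕ) (a b : K), a ∈ M i → b ∈ M j → a * b ∈ M (i + j)) {σ : Type*} (s : Finset σ)
    (m : σ → ℕ) (y : σ → K) (h : ∀ i ∈ s, Good M (m i) (y i)) : Good M (∑ i ∈ s, m i) (∏ i ∈ s, y i) := by
  classical
  induction s using Finset.induction_on with
  | empty => simpa using Good.one M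
  | insert a s ha ih =>
    rw [Finset.sum_insert ha, Finset.prod_insert ha]
    exact (h a (Finset.mem_insert_self _ _)).mul M hmul (ih (fun i hi => h i (Finset.mem_insert_of_mem hi)))

theorem aeval_mem (hmul : ∀ (i j : ℕ) (a b : K), a ∈ M i → b ∈ M j → a * b ∈ M (i + j)) {σ : Type*}
    (w : σ → ℕ) (a : σ → K) (ha : ∀ i, Good M (w i) (a i)) {P : MvPolynomial σ ℤ} {m : ℕ} (hm : 0 < m)
    (hP : IsWeightedHomogeneous w P m) : aeval a P ∈ M m := by
  rw [aeval_def, eval₂_eq]
  refine Submodule.sum_mem _ fun d hd => ?_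
  have h1 := Good.prod M hmul d.support (fun i => d i • w i) (fun i => a i ^ d i) (fun i _ => (ha i).pow M hmul (d i))
  have h2 : ∑ i ∈ d.support, d i • w i = m := by
    have := hP (mem_support_iff.1 hd)
    rw [← this, Finsupp.weight_apply]
    rfl
  rw [h2] at h1
  rcases h1 with ⟨h, -⟩ | ⟨-, h⟩
  · omega
  · have : (algebraMap ℤ K) (coeff d P) * ∏ i ∈ d.support, a i ^ d i = (coeff d P) • ∏ i ∈ d.support, a i ^ d i := by
      rw [Algebra.smul_def]
    rw [this]
    exact zsmul_mem h _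
end

end Groth.Agent.H27Witt
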