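import Mathlib.Topology.Separation.Profinite
import Mathlib.Topology.Algebra.OpenSubgroup
import Mathlib.Algebra.Module.CharacterModule
import Mathlib.GroupTheory.FiniteAbelian.Basic
import Mathlib.Topology.Instances.AddCircle.Defs
import Mathlib.Topology.Algebra.Group.Quotient
import Mathlib.Tactic
import Groth.Prelude.Def_W4c61motalbdualityCompl

set_option autoImplicit false
set_option linter.style.haveILetI false
universe u v

namespace Groth.Agent.H28ProC

open Topology Pointwise

theorem vanDantzig {B : Type u} [AddCommGroup B] [TopologicalSpace B] [IsTopologicalAddGroup B]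
    [T2Space B] [LocallyCompactSpace B] [TotallyDisconnectedSpace B] (U : Set B) (hU : U ∈ 𝓝 (0 : B)) :
    ∃ V : AddSubgroup B, IsOpen (V : Set B) ∧ (V : Set B) ⊆ U := by
  obtain ⟨K, hKU, hK0, hK⟩ : ∃ K : Set B, K ⊆ U ∧ K ∈ 𝓝 (0:B) ∧ IsCompact K := by
    obtain ⟨K, hK, hKU, hKc⟩ := local_compact_nhds hU
    exact ⟨K, hKU, hK, hKc⟩
  obtain ⟨W, hW, h0W, hWK⟩ := (loc_compact_Haus_tot_disc_of_zero_dim (H := B)).mem_nhds_iff.1 hK0
  have hWcl : IsClopen W := hW
  have hWc : IsCompact W := hK.of_isClosed_subset hWcl.isClosed hWK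
  obtain ⟨u, v, hu, hv, hWu, h0v, huv⟩ := generalized_tube_lemma hWc (isCompact_singleton (x := (0:B)))
    (n := (fun p : B × B => p.1 + p.2) ⁻¹' W) (hWcl.isOpen.preimage continuous_add) (by
      rintro ⟨a, b⟩ ⟨ha, hb⟩
      have hb' : b = 0 := hb
      simp only [Set.mem_preimage, hb', add_zero]
      exact ha)
  have h0v' : (0:B) ∈ v := h0v rfl
  let T : Set B := v ∩ -v
  have hT0 : (0:B) ∈ T := ⟨h0v', by simpa using h0v'⟩
  have hTo : IsOpen T := hv.inter hv.neg
  have hWT : ∀ w ∈ W, ∀ t ∈ v, w + t ∈ W := fun w hw t ht => huv (Set.mk_mem_prod (hWu hw) ht)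
  let V := AddSubgroup.closure T
  have hVW : ∀ x ∈ V, ∀ w ∈ W, w + x ∈ W := by
    intro x hx
    induction hx using AddSubgroup.closure_induction'' with
    | mem x hx => intro w hw; exact hWT w hw x hx.1
    | neg_mem x hx => intro w hw; exact hWT w hw (-x) hx.2
    | zero => intro w hw; simpa using hw
    | add x y _ _ hx hy => intro w hw; rw [← add_assoc]; exact hy _ (hx w hw)
  refine ⟨V, ?_, ?_⟩
  · exact AddSubgroup.isOpen_of_mem_nhds V (g := 0) (Filter.mem_of_superset (hTo.mem_nhds hT0) AddSubgroup.subset_closure)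
  · intro x hx
    apply hKU
    apply hWK
    have := hVW x hx 0 h0W
    simpa using this

/-- Baer -/
theorem ext_char {A : Type u} {B : Type v} [AddCommGroup A] [AddCommGroup B] (i : A →+ B) (hi : Function.Injective i)
    (χ : A →+ ℚ ⧸ AddSubgroup.zmultiples (1 : ℚ)) : ∃ ψ : B →+ ℚ ⧸ AddSubgroup.zmultiples (1 : ℚ), ψ.comp i = χ := by
  letI : DivisibleBy (AddCircle (1:ℚ)) ℤ := inferInstance
  have hB : Module.Baer ℤ (AddCircle (1:ℚ)) := Module.Baer.of_divisible (AddCircle (1:ℚ))
  exact hB.extension_property_addMonoidHom i hi χ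

theorem finIdx {B : Type u} [AddCommGroup B] [TopologicalSpace B] [IsTopologicalAddGroup B]
    (hcg : ∃ K : Set B, IsCompact K ∧ AddSubgroup.closure K = ⊤)
    (χ : B →+ ℚ ⧸ AddSubgroup.zmultiples (1 : ℚ)) (hχ : IsOpen (χ.ker : Set B)) : χ.ker.FiniteIndex := by
  obtain ⟨K, hK, hKt⟩ := hcg
  have hop : ∀ q : ℚ ⧸ AddSubgroup.zmultiples (1 : ℚ), IsOpen (χ ⁻¹' {q}) := by
    intro q
    by_cases h : ∃ b, χ b = q
    · obtain ⟨b, rfl⟩ := h
      have : χ ⁻¹' {χ b} = (fun x => x - b) ⁻¹' (χ.ker : Set B) := by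
        ext x
        simp [AddMonoidHom.mem_ker, sub_eq_zero]
      rw [this]
      exact hχ.preimage (continuous_id.sub continuous_const)
    · have : χ ⁻¹' {q} = ∅ := by
        ext x
        simp only [Set.mem_preimage, Set.mem_singleton_iff, Set.mem_empty_iff_false, iff_false]
        intro hx; exact h ⟨x, hx⟩
      rw [this]; exact isOpen_empty
  obtain ⟨t, ht⟩ := hK.elim_finite_subcover (fun q : ℚ ⧸ AddSubgroup.zmultiples (1 : ℚ) => χ ⁻¹' {q}) hop (by
    intro x _; simp)
  let S := AddSubgroup.closure (t : Set (ℚ ⧸ AddSubgroup.zmultiples (1 : ℚ)))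
  have hrange : χ.range ≤ S := by
    rw [AddMonoidHom.range_eq_map, ← hKt, AddMonoidHom.map_closure, AddSubgroup.closure_le]
    rintro _ ⟨x, hx, rfl⟩
    have := ht hx
    simp only [Set.mem_iUnion, Set.mem_preimage, Set.mem_singleton_iff, exists_prop] at this
    obtain ⟨q, hq, hxq⟩ := this
    rw [hxq]
    exact AddSubgroup.subset_closure hq
  have htor : ∀ q : ℚ ⧸ AddSubgroup.zmultiples (1 : ℚ), IsOfFinAddOrder q := by
    intro q
    obtain ⟨x, rfl⟩ := QuotientAddGroup.mk_surjective q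
    rw [isOfFinAddOrder_iff_nsmul_eq_zero]
    refine ⟨x.den, x.den_pos, ?_⟩
    rw [← QuotientAddGroup.mk_nsmul, QuotientAddGroup.eq_zero_iff]
    refine ⟨x.num, ?_⟩
    simp only [zsmul_eq_mul, mul_one, nsmul_eq_mul]
    rw [mul_comm, Rat.mul_den_eq_num]
  haveI hS : Finite S := by
    have hfg : AddGroup.FG S := (AddGroup.fg_iff_addSubgroup_fg _).2 ⟨t, rfl⟩
    apply AddCommGroup.finite_of_fg_isAddTorsion
    intro x
    have := htor (x : ℚ ⧸ AddSubgroup.zmultiples (1 : ℚ))
    rw [isOfFinAddOrder_iff_nsmul_eq_zero] at this ⊢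
    obtain ⟨n, hn, hn'⟩ := this
    exact ⟨n, hn, Subtype.ext hn'⟩
  haveI : Finite χ.range := Finite.of_injective (AddSubgroup.inclusion hrange) (AddSubgroup.inclusion_injective hrange)
  refine ⟨?_⟩
  rw [AddSubgroup.index_ker]
  exact Nat.card_ne_zero.2 ⟨inferInstance, inferInstance⟩

theorem ext_closed {A : Type u} {B : Type v} [AddCommGroup A] [TopologicalSpace A] [IsTopologicalAddGroup A]
    [AddCommGroup B] [TopologicalSpace B] [IsTopologicalAddGroup B]
    [T2Space B] [LocallyCompactSpace B] [TotallyDisconnectedSpace B]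
    (i : A →+ B) (hind : IsInducing i)
    (χ : A →+ ℚ ⧸ AddSubgroup.zmultiples (1 : ℚ)) (hχ : IsOpen (χ.ker : Set A)) :
    ∃ ψ : B →+ ℚ ⧸ AddSubgroup.zmultiples (1 : ℚ), IsOpen (ψ.ker : Set B) ∧ ψ.comp i = χ := by
  obtain ⟨U, hU, hUχ⟩ := hind.isOpen_iff.1 hχ
  have h0 : (0 : B) ∈ U := by
    have : (0 : A) ∈ i ⁻¹' U := by rw [hUχ]; exact χ.ker.zero_mem
    simpa using this
  obtain ⟨V, hV, hVU⟩ := vanDantzig U (hU.mem_nhds h0)
  have hle : V.comap i ≤ χ.ker := by
    intro a ha
    have : a ∈ i ⁻¹' U := hVU ha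
    rw [hUχ] at this
    exact this
  let χ' : A ⧸ V.comap i →+ ℚ ⧸ AddSubgroup.zmultiples (1 : ℚ) := QuotientAddGroup.lift _ χ hle
  let j : A ⧸ V.comap i →+ B ⧸ V := QuotientAddGroup.map _ _ i le_rfl
  have hj : Function.Injective j := by
    rw [injective_iff_map_eq_zero]
    intro q
    obtain ⟨a, rfl⟩ := QuotientAddGroup.mk_surjective q
    intro h
    rw [QuotientAddGroup.map_mk, QuotientAddGroup.eq_zero_iff] at h
    rw [QuotientAddGroup.eq_zero_iff]
    exact h
  obtain ⟨ψ', hψ'⟩ := ext_char j hj χ'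
  refine ⟨ψ'.comp (QuotientAddGroup.mk' V), ?_, ?_⟩
  · refine AddSubgroup.isOpen_mono (H₁ := V) ?_ hV
    intro x hx
    rw [AddMonoidHom.mem_ker, AddMonoidHom.comp_apply, QuotientAddGroup.mk'_apply, (QuotientAddGroup.eq_zero_iff x).2 hx, map_zero]
  · ext a
    exact DFunLike.congr_fun hψ' (QuotientAddGroup.mk a)

theorem exists_fin {B : Type u} [AddCommGroup B] [TopologicalSpace B] [IsTopologicalAddGroup B]
    [T2Space B] [LocallyCompactSpace B] [TotallyDisconnectedSpace B]
    (hcg : ∃ K : Set B, IsCompact K ∧ AddSubgroup.closure K = ⊤) (b : B) (hb : b ≠ 0) :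
    ∃ B' : AddSubgroup B, IsOpen (B' : Set B) ∧ B'.FiniteIndex ∧ b ∉ B' := by
  obtain ⟨V, hV, hVb⟩ := vanDantzig ({b}ᶜ) (isOpen_compl_singleton.mem_nhds (by simpa using hb.symm))
  have hbV : (QuotientAddGroup.mk b : B ⧸ V) ≠ 0 := by
    rw [Ne, QuotientAddGroup.eq_zero_iff]
    intro h
    exact hVb h rfl
  obtain ⟨c, hc⟩ := CharacterModule.exists_character_apply_ne_zero_of_ne_zero hbV
  let c' : B ⧸ V →+ ℚ ⧸ AddSubgroup.zmultiples (1 : ℚ) := c
  let χ : B →+ ℚ ⧸ AddSubgroup.zmultiples (1 : ℚ) := c'.comp (QuotientAddGroup.mk' V)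
  have hχ : IsOpen (χ.ker : Set B) := by
    refine AddSubgroup.isOpen_mono (H₁ := V) ?_ hV
    intro x hx
    rw [AddMonoidHom.mem_ker, AddMonoidHom.comp_apply, QuotientAddGroup.mk'_apply, (QuotientAddGroup.eq_zero_iff x).2 hx, map_zero]
  exact ⟨χ.ker, hχ, finIdx hcg χ hχ, fun h => hc h⟩

open W4c61motalbduality

theorem compl_inj {A : Type u} {B : Type v} [AddCommGroup A] [TopologicalSpace A] [IsTopologicalAddGroup A]
    [AddCommGroup B] [TopologicalSpace B] [IsTopologicalAddGroup B]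
    [T2Space B] [LocallyCompactSpace B] [TotallyDisconnectedSpace B]
    (hcg : ∃ K : Set B, IsCompact K ∧ AddSubgroup.closure K = ⊤)
    (i : A →+ B) (hi : Continuous i) (hind : IsInducing i) :
    Function.Injective (FICompl.map i hi) := by
  rw [injective_iff_map_eq_zero]
  intro x hx
  apply Subtype.ext
  funext U
  haveI := U.finiteIndex'
  haveI : Finite (A ⧸ U.toAddSubgroup) := inferInstance
  have hV : ∃ V : OpenFI B, V.toAddSubgroup.comap i ≤ U.toAddSubgroup := by
    have h1 : ∀ q : A ⧸ U.toAddSubgroup, ∃ V : AddSubgroup B, IsOpen (V : Set B) ∧ V.FiniteIndex ∧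
        ∀ a : A, (QuotientAddGroup.mk a : A ⧸ U.toAddSubgroup) = q → i a ∈ V → q = 0 := by
      intro q
      by_cases hq : q = 0
      · exact ⟨⊤, by simp, inferInstance, fun _ _ _ => hq⟩
      · obtain ⟨c, hc⟩ := CharacterModule.exists_character_apply_ne_zero_of_ne_zero hq
        let c' : A ⧸ U.toAddSubgroup →+ ℚ ⧸ AddSubgroup.zmultiples (1 : ℚ) := c
        let χ : A →+ ℚ ⧸ AddSubgroup.zmultiples (1 : ℚ) := c'.comp (QuotientAddGroup.mk' U.toAddSubgroup)
        have hχ : IsOpen (χ.ker : Set A) := by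
          refine AddSubgroup.isOpen_mono (H₁ := U.toAddSubgroup) ?_ U.isOpen'
          intro x hx
          rw [AddMonoidHom.mem_ker, AddMonoidHom.comp_apply, QuotientAddGroup.mk'_apply, (QuotientAddGroup.eq_zero_iff x).2 hx, map_zero]
        obtain ⟨ψ, hψ, hψi⟩ := ext_closed i hind χ hχ
        refine ⟨ψ.ker, hψ, finIdx hcg ψ hψ, ?_⟩
        intro a ha hia
        exfalso
        apply hc
        have h2 : ψ (i a) = χ a := DFunLike.congr_fun hψi a
        rw [AddMonoidHom.mem_ker] at hia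
        rw [hia] at h2
        rw [← ha]
        exact h2.symm
    choose V hVo hVf hVa using h1
    refine ⟨⟨⨅ q, V q, ?_, ?_⟩, ?_⟩
    · rw [AddSubgroup.coe_iInf]
      exact isOpen_iInter_of_finite hVo
    · exact AddSubgroup.finiteIndex_iInf hVf
    · intro a ha
      rw [AddSubgroup.mem_comap, AddSubgroup.mem_iInf] at ha
      have := hVa (QuotientAddGroup.mk a) a rfl (ha _)
      exact (QuotientAddGroup.eq_zero_iff a).1 this
  obtain ⟨V, hV⟩ := hV
  have h1 : (FICompl.map i hi x).1 V = 0 := by rw [hx]; rfl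
  have h2 : x.1 (V.comap i hi) = 0 := by
    obtain ⟨a, ha⟩ := QuotientAddGroup.mk_surjective (x.1 (V.comap i hi))
    change QuotientAddGroup.map (V.comap i hi).toAddSubgroup V.toAddSubgroup i (V.comap_le i) (x.1 (V.comap i hi)) = 0 at h1
    rw [← ha, QuotientAddGroup.map_mk, QuotientAddGroup.eq_zero_iff] at h1
    rw [← ha, QuotientAddGroup.eq_zero_iff]
    exact h1
  have h3 := x.2 (V.comap i hi) U hV
  rw [h2, map_zero] at h3
  exact h3.symm

/-- surjectivity lemma by compactness -/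
theorem mem_range {A : Type u} {B : Type v} [AddCommGroup A] [TopologicalSpace A] [IsTopologicalAddGroup A]
    [AddCommGroup B] [TopologicalSpace B] [IsTopologicalAddGroup B]
    (f : A →+ B) (hf : Continuous f) (y : FICompl B)
    (h : ∀ V : OpenFI B, ∃ a : A, (QuotientAddGroup.mk (f a) : B ⧸ V.toAddSubgroup) = y.1 V) :
    y ∈ (FICompl.map f hf).range := by
  haveI hfinA : ∀ U : OpenFI A, Finite (A ⧸ U.toAddSubgroup) := fun U => by
    haveI := U.finiteIndex'
    infer_instance
  haveI hdA : ∀ U : OpenFI A, DiscreteTopology (A ⧸ U.toAddSubgroup) := fun U =>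
    QuotientAddGroup.discreteTopology U.isOpen'
  haveI hdB : ∀ U : OpenFI B, DiscreteTopology (B ⧸ U.toAddSubgroup) := fun U =>
    QuotientAddGroup.discreteTopology U.isOpen'
  haveI : Nonempty (OpenFI B) := ⟨⟨⊤, by simp, inferInstance⟩⟩
  let Z : OpenFI B → Set ((U : OpenFI A) → A ⧸ U.toAddSubgroup) := fun V =>
    {x | x ∈ FICompl A ∧ QuotientAddGroup.map (V.comap f hf).toAddSubgroup V.toAddSubgroup f
      (V.comap_le f) (x (V.comap f hf)) = y.1 V}
  have hcl : IsClosed {x : (U : OpenFI A) → A ⧸ U.toAddSubgroup | x ∈ FICompl A} := by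
    have : {x : (U : OpenFI A) → A ⧸ U.toAddSubgroup | x ∈ FICompl A} =
      ⋂ (U : OpenFI A), ⋂ (V : OpenFI A), ⋂ (h : U.toAddSubgroup ≤ V.toAddSubgroup),
        {x | QuotientAddGroup.map U.toAddSubgroup V.toAddSubgroup (AddMonoidHom.id A) h (x U) = x V} := by
      ext x
      simp only [Set.mem_iInter]
      rfl
    rw [this]
    refine isClosed_iInter fun U => isClosed_iInter fun V => isClosed_iInter fun h => ?_
    exact isClosed_eq ((continuous_of_discreteTopology).comp (continuous_apply U)) (continuous_apply V)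
  have hZcl : ∀ V, IsClosed (Z V) := fun V => hcl.inter
    (isClosed_eq ((continuous_of_discreteTopology).comp (continuous_apply (V.comap f hf))) continuous_const)
  obtain ⟨x, hx⟩ := IsCompact.nonempty_iInter_of_directed_nonempty_isCompact_isClosed Z (by
    intro V W
    haveI := V.finiteIndex'
    haveI := W.finiteIndex'
    refine ⟨⟨V.toAddSubgroup ⊓ W.toAddSubgroup, V.isOpen'.inter W.isOpen', inferInstance⟩, ?_, ?_⟩
    · rintro x ⟨hx1, hx2⟩
      refine ⟨hx1, ?_⟩
      set VW : OpenFI B := ⟨V.toAddSubgroup ⊓ W.toAddSubgroup, V.isOpen'.inter W.isOpen', inferInstance⟩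
      have hle : VW.toAddSubgroup ≤ V.toAddSubgroup := inf_le_left
      obtain ⟨a, ha⟩ := QuotientAddGroup.mk_surjective (x (VW.comap f hf))
      have h3 := hx1 (VW.comap f hf) (V.comap f hf) (OpenFI.comap_mono f hf hle)
      have h4 := y.2 VW V hle
      rw [← ha] at hx2 h3
      rw [← h3, ← h4, ← hx2]
      rfl
    · rintro x ⟨hx1, hx2⟩
      refine ⟨hx1, ?_⟩
      set VW : OpenFI B := ⟨V.toAddSubgroup ⊓ W.toAddSubgroup, V.isOpen'.inter W.isOpen', inferInstance⟩
      have hle : VW.toAddSubgroup ≤ W.toAddSubgroup := inf_le_right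
      obtain ⟨a, ha⟩ := QuotientAddGroup.mk_surjective (x (VW.comap f hf))
      have h3 := hx1 (VW.comap f hf) (W.comap f hf) (OpenFI.comap_mono f hf hle)
      have h4 := y.2 VW W hle
      rw [← ha] at hx2 h3
      rw [← h3, ← h4, ← hx2]
      rfl) (by
    intro V
    obtain ⟨a, ha⟩ := h V
    exact ⟨(toFICompl A a).1, (toFICompl A a).2, ha⟩) (fun V => (hZcl V).isCompact) hZcl
  rw [Set.mem_iInter] at hx
  obtain ⟨V₀⟩ := ‹Nonempty (OpenFI B)›
  refine ⟨⟨x, (hx V₀).1⟩, ?_⟩
  apply Subtype.ext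
  funext V
  exact (hx V).2

theorem right_exact {A : Type u} {B : Type v} {C : Type*}
    [AddCommGroup A] [TopologicalSpace A] [IsTopologicalAddGroup A]
    [AddCommGroup B] [TopologicalSpace B] [IsTopologicalAddGroup B]
    [AddCommGroup C] [TopologicalSpace C] [IsTopologicalAddGroup C]
    (i : A →+ B) (hi : Continuous i) (p : B →+ C) (hp : Continuous p)
    (hpo : IsOpenMap p) (hps : Function.Surjective p) (hex : p.ker = i.range) :
    Function.Surjective (FICompl.map p hp) ∧ (FICompl.map p hp).ker = (FICompl.map i hi).range := by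
  constructor
  · intro y
    apply mem_range p hp y
    intro V
    obtain ⟨c, hc⟩ := QuotientAddGroup.mk_surjective (y.1 V)
    obtain ⟨b, rfl⟩ := hps c
    exact ⟨b, hc⟩
  · apply le_antisymm
    · intro x hx
      apply mem_range i hi x
      intro V
      haveI := V.finiteIndex'
      let W : OpenFI C := ⟨V.toAddSubgroup.map p, hpo _ V.isOpen', by
        refine ⟨fun h0 => ?_⟩
        have := AddSubgroup.index_map_dvd V.toAddSubgroup hps
        rw [h0, zero_dvd_iff] at this
        exact V.finiteIndex'.index_ne_zero this⟩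
      have h1 : (FICompl.map p hp x).1 W = 0 := by
        rw [AddMonoidHom.mem_ker] at hx
        rw [hx]; rfl
      have hle : V.toAddSubgroup ≤ (W.comap p hp).toAddSubgroup := fun v hv => ⟨v, hv, rfl⟩
      have h2 := x.2 V (W.comap p hp) hle
      obtain ⟨b, hb⟩ := QuotientAddGroup.mk_surjective (x.1 V)
      change QuotientAddGroup.map (W.comap p hp).toAddSubgroup W.toAddSubgroup p (W.comap_le p) (x.1 (W.comap p hp)) = 0 at h1
      rw [← h2, ← hb, QuotientAddGroup.map_mk, QuotientAddGroup.map_mk, QuotientAddGroup.eq_zero_iff] at h1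
      obtain ⟨v, hv, hvb⟩ := h1
      have h3 : b - v ∈ p.ker := by
        rw [AddMonoidHom.mem_ker, map_sub, hvb]
        simp
      rw [hex] at h3
      obtain ⟨a, ha⟩ := h3
      refine ⟨a, ?_⟩
      rw [ha, ← hb, QuotientAddGroup.eq]
      have : -(b - v) + b = v := by abel
      rw [this]; exact hv
    · rintro _ ⟨x, rfl⟩
      rw [AddMonoidHom.mem_ker]
      apply Subtype.ext
      funext V
      obtain ⟨a, ha⟩ := QuotientAddGroup.mk_surjective (x.1 ((V.comap p hp).comap i hi))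
      change QuotientAddGroup.map _ _ p _ (QuotientAddGroup.map _ _ i _ (x.1 ((V.comap p hp).comap i hi))) = 0
      rw [← ha, QuotientAddGroup.map_mk, QuotientAddGroup.map_mk]
      have : i a ∈ p.ker := by rw [hex]; exact ⟨a, rfl⟩
      rw [AddMonoidHom.mem_ker] at this
      rw [this]; rfl

end Groth.Agent.H28ProC
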