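import Groth.Agent.Lib.Helper2_Hocolim
import Mathlib.CategoryTheory.Triangulated.Opposite.Pretriangulated
import Mathlib.CategoryTheory.Triangulated.HomologicalFunctor
import Mathlib.Algebra.Category.Grp.Basic
import Mathlib.Algebra.Category.Grp.Abelian
import Mathlib.Algebra.Category.Grp.Limits
import Mathlib.Algebra.Homology.ShortComplex.Ab
import Mathlib.CategoryTheory.Limits.Shapes.Opposites.Products
import Mathlib.CategoryTheory.Limits.Types.Limits

set_option autoImplicit false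
universe v u u' w

namespace Groth.Agent.H2.Brown

open CategoryTheory CategoryTheory.Limits CategoryTheory.Pretriangulated CohDer Groth.Agent.H2.Cpt
  Groth.Agent.H2.Hoc Opposite
open scoped ZeroObject
open CategoryTheory.Pretriangulated.Opposite

section
variable {D : Type u} [Category.{v} D] [Preadditive D] [Limits.HasZeroObject D] [HasShift D ℤ]
    [∀ n : ℤ, (shiftFunctor D n).Additive] [Pretriangulated D]
    (H : Dᵒᵖ ⥤ AddCommGrpCat.{v}) [H.IsHomological]

/-- pullback of an element along a morphism -/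
def pb {X Y : D} (f : X ⟶ Y) : H.obj (op Y) →+ H.obj (op X) := (H.map f.op).hom

lemma pb_id {X : D} (x : H.obj (op X)) : pb H (𝟙 X) x = x := by
  simp [pb]

lemma pb_comp {X Y Z : D} (f : X ⟶ Y) (g : Y ⟶ Z) (z : H.obj (op Z)) :
    pb H (f ≫ g) z = pb H f (pb H g z) := by
  simp [pb]

lemma pb_add {X Y : D} (f g : X ⟶ Y) (y : H.obj (op Y)) :
    pb H (f + g) y = pb H f y + pb H g y := by
  simp [pb, op_add, Functor.map_add]

lemma pb_zero {X Y : D} (y : H.obj (op Y)) : pb H (0 : X ⟶ Y) y = 0 := by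
  have : H.map (0 : X ⟶ Y).op = 0 := by rw [op_zero, H.map_zero]
  simp [pb, this]

lemma pb_sub {X Y : D} (f g : X ⟶ Y) (y : H.obj (op Y)) :
    pb H (f - g) y = pb H f y - pb H g y := by
  have := pb_add H (f - g) g y
  rw [sub_add_cancel] at this
  rw [this, add_sub_cancel_right]

lemma pb_exact {X Y Z : D} {f : X ⟶ Y} {g : Y ⟶ Z} {h : Z ⟶ (shiftFunctor D (1 : ℤ)).obj X}
    (hT : Triangle.mk f g h ∈ Pretriangulated.distinguishedTriangles) (y : H.obj (op Y)) (hy : pb H f y = 0) :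
    ∃ z, pb H g z = y := by
  have := H.map_distinguished_op_exact _ hT
  rw [ShortComplex.ab_exact_iff] at this
  exact this y hy

end

section
variable {D : Type u} [Category.{v} D] (H : Dᵒᵖ ⥤ AddCommGrpCat.{v})
    [∀ (κ : Type v), PreservesLimitsOfShape (Discrete κ) H]

lemma coprod_exists {κ : Type v} (X : κ → D) [HasCoproduct X] (x : ∀ k, H.obj (op (X k))) :
    ∃ y : H.obj (op (∐ X)), ∀ k, (H.map (Sigma.ι X k).op).hom y = x k := by
  let c : Cofan X := Cofan.mk (∐ X) (Sigma.ι X)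
  have hc : IsColimit c := coproductIsCoproduct X
  let hl := isLimitOfPreserves (H ⋙ forget AddCommGrpCat.{v}) (Cofan.IsColimit.op hc)
  let s : (Discrete.functor (fun k => op (X k)) ⋙ (H ⋙ forget AddCommGrpCat.{v})).sections :=
    ⟨fun j => x j.as, by
      rintro ⟨i⟩ ⟨j⟩ ⟨⟨h⟩⟩
      dsimp at h
      subst h
      simp⟩
  refine ⟨(Types.isLimitEquivSections hl).symm s, fun k => ?_⟩
  exact Types.isLimitEquivSections_symm_apply hl s ⟨k⟩

lemma coprod_ext {κ : Type v} (X : κ → D) [HasCoproduct X] (y y' : H.obj (op (∐ X)))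
    (h : ∀ k, (H.map (Sigma.ι X k).op).hom y = (H.map (Sigma.ι X k).op).hom y') : y = y' := by
  let c : Cofan X := Cofan.mk (∐ X) (Sigma.ι X)
  have hc : IsColimit c := coproductIsCoproduct X
  let hl := isLimitOfPreserves (H ⋙ forget AddCommGrpCat.{v}) (Cofan.IsColimit.op hc)
  apply (Types.isLimitEquivSections hl).injective
  apply Subtype.ext
  funext j
  exact h j.as

end

section
variable {D : Type u} [Category.{v} D] [Preadditive D] [Limits.HasZeroObject D] [HasShift D ℤ]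
    [∀ n : ℤ, (shiftFunctor D n).Additive] [Pretriangulated D] [HasCoproducts.{v} D]
    (H : Dᵒᵖ ⥤ AddCommGrpCat.{v}) [H.IsHomological]
    [∀ (κ : Type v), PreservesLimitsOfShape (Discrete κ) H]

lemma pb_coprod_exists {κ : Type v} (X : κ → D) (x : ∀ k, H.obj (op (X k))) :
    ∃ y : H.obj (op (∐ X)), ∀ k, pb H (Sigma.ι X k) y = x k := coprod_exists H X x

lemma pb_coprod_ext {κ : Type v} (X : κ → D) (y y' : H.obj (op (∐ X)))
    (h : ∀ k, pb H (Sigma.ι X k) y = pb H (Sigma.ι X k) y') : y = y' := coprod_ext H X y y' h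

lemma pb_coprod_exists_nat [HasColimitsOfShape (Discrete ℕ) D] (X : ℕ → D) (x : ∀ k, H.obj (op (X k))) :
    ∃ y : H.obj (op (∐ X)), ∀ k, pb H (Sigma.ι X k) y = x k := by
  obtain ⟨y, hy⟩ := pb_coprod_exists H (fun i : ULift.{v} ℕ => X i.down) (fun i => x i.down)
  refine ⟨pb H (liftIso X).inv y, fun k => ?_⟩
  rw [← pb_comp, ← hy ⟨k⟩]
  congr 1
  simp [liftIso]

lemma pb_coprod_ext_nat [HasColimitsOfShape (Discrete ℕ) D] (X : ℕ → D) (y y' : H.obj (op (∐ X)))
    (h : ∀ k, pb H (Sigma.ι X k) y = pb H (Sigma.ι X k) y') : y = y' := by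
  have : pb H (liftIso X).hom y = pb H (liftIso X).hom y' := by
    apply pb_coprod_ext
    intro k
    rw [← pb_comp, ← pb_comp]
    have : Sigma.ι (fun i : ULift.{v} ℕ => X i.down) k ≫ (liftIso X).hom = Sigma.ι X k.down := by
      simp [liftIso]
    rw [this, h]
  have h2 := congrArg (pb H (liftIso X).inv) this
  rw [← pb_comp, ← pb_comp, Iso.inv_hom_id, pb_id, pb_id] at h2
  exact h2

lemma step {ι : Type v} (E : ι → D) (K : D) (k : H.obj (op K)) :
    ∃ (K' : D) (k' : H.obj (op K')) (f : K ⟶ K'), pb H f k' = k ∧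
      ∀ (i : ι) (m : ℤ) (h : (shiftFunctor D m).obj (E i) ⟶ K), pb H h k = 0 → h ≫ f = 0 := by
  let κ : Type v := Σ (i : ι) (m : ℤ), {h : (shiftFunctor D m).obj (E i) ⟶ K // pb H h k = 0}
  let y : (∐ fun k : κ => (shiftFunctor D k.2.1).obj (E k.1)) ⟶ K := Sigma.desc (fun k => k.2.2.1)
  obtain ⟨K', f, z, hT⟩ := distinguished_cocone_triangle y
  have hyp : pb H y k = 0 := by
    apply pb_coprod_ext
    intro j
    rw [← pb_comp, map_zero]
    have : Sigma.ι (fun k : κ => (shiftFunctor D k.2.1).obj (E k.1)) j ≫ y = j.2.2.1 := by simp [y]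
    rw [this]
    exact j.2.2.2
  obtain ⟨k', hk'⟩ := pb_exact H hT k hyp
  refine ⟨K', k', f, hk', fun i n h hh => ?_⟩
  have hyf : y ≫ f = 0 := comp_distTriang_mor_zero₁₂ _ hT
  have : h = Sigma.ι (fun k : κ => (shiftFunctor D k.2.1).obj (E k.1)) (⟨i, n, h, hh⟩ : κ) ≫ y := by
    simp [y]
  rw [this, Category.assoc, hyf, comp_zero]

lemma start {ι : Type v} (E : ι → D) (Z : D) (z : H.obj (op Z)) :
    ∃ (K : D) (k : H.obj (op K)) (g : Z ⟶ K), pb H g k = z ∧
      ∀ (i : ι) (m : ℤ) (x : H.obj (op ((shiftFunctor D m).obj (E i)))),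
        ∃ h : (shiftFunctor D m).obj (E i) ⟶ K, pb H h k = x := by
  let κ : Type v := Option (Σ (i : ι) (m : ℤ), H.obj (op ((shiftFunctor D m).obj (E i))))
  let X : κ → D := fun k => Option.elim k Z (fun s => (shiftFunctor D s.2.1).obj (E s.1))
  obtain ⟨y, hy⟩ := pb_coprod_exists H X (fun k => match k with
    | none => z
    | some s => s.2.2)
  exact ⟨∐ X, y, Sigma.ι X none, hy none, fun i m x => ⟨Sigma.ι X (some ⟨i, m, x⟩), hy (some ⟨i, m, x⟩)⟩⟩

/-- `(L, ξ)` represents `H` on shifts of the generators. -/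
def LocRep {ι : Type v} (E : ι → D) (L : D) (ξ : H.obj (op L)) : Prop :=
  (∀ (i : ι) (m : ℤ) (x : H.obj (op ((shiftFunctor D m).obj (E i)))),
        ∃ h : (shiftFunctor D m).obj (E i) ⟶ L, pb H h ξ = x) ∧
  (∀ (i : ι) (m : ℤ) (h : (shiftFunctor D m).obj (E i) ⟶ L), pb H h ξ = 0 → h = 0)

lemma tower [HasColimitsOfShape (Discrete ℕ) D] {ι : Type v} (E : ι → D) (Z : D) (z : H.obj (op Z)) :
    ∃ (K : ℕ → D) (k : ∀ n, H.obj (op (K n))) (f : ∀ n, K n ⟶ K (n + 1)) (g : Z ⟶ K 0)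
      (L : D) (j : (∐ K) ⟶ L) (c : L ⟶ (shiftFunctor D (1 : ℤ)).obj (∐ K)) (ξ : H.obj (op L)),
      pb H g (k 0) = z ∧
      (∀ (i : ι) (m : ℤ) (x : H.obj (op ((shiftFunctor D m).obj (E i)))),
        ∃ h : (shiftFunctor D m).obj (E i) ⟶ K 0, pb H h (k 0) = x) ∧
      (∀ n, pb H (f n) (k (n + 1)) = k n) ∧
      (∀ n (i : ι) (m : ℤ) (h : (shiftFunctor D m).obj (E i) ⟶ K n), pb H h (k n) = 0 → h ≫ f n = 0) ∧
      Triangle.mk (𝟙 (∐ K) - DerLim.shiftMap K f) j c ∈ Pretriangulated.distinguishedTriangles ∧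
      ∀ n, pb H (Sigma.ι K n ≫ j) ξ = k n := by
  obtain ⟨K₀, k₀, g, hg, hs₀⟩ := start H E Z z
  choose nK nk nf hcomp hkill using fun (s : Σ K : D, H.obj (op K)) => step H E s.1 s.2
  let seq : ℕ → Σ K : D, H.obj (op K) := fun n => Nat.rec ⟨K₀, k₀⟩ (fun _ s => ⟨nK s, nk s⟩) n
  let K : ℕ → D := fun n => (seq n).1
  let k : ∀ n, H.obj (op (K n)) := fun n => (seq n).2
  let f : ∀ n, K n ⟶ K (n + 1) := fun n => nf (seq n)
  have hfp : ∀ n, pb H (f n) (k (n + 1)) = k n := fun n => hcomp (seq n)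
  have hkill' : ∀ n (i : ι) (m : ℤ) (h : (shiftFunctor D m).obj (E i) ⟶ K n), pb H h (k n) = 0 → h ≫ f n = 0 :=
    fun n => hkill (seq n)
  obtain ⟨L, j, c, hT⟩ := distinguished_cocone_triangle (𝟙 (∐ K) - DerLim.shiftMap K f)
  obtain ⟨y, hy⟩ := pb_coprod_exists_nat H K k
  have h0 : pb H (𝟙 (∐ K) - DerLim.shiftMap K f) y = 0 := by
    apply pb_coprod_ext_nat
    intro n
    rw [map_zero, ← pb_comp, Preadditive.comp_sub, Category.comp_id, pb_sub, hy]
    have : Sigma.ι K n ≫ DerLim.shiftMap K f = f n ≫ Sigma.ι K (n + 1) := by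
      simp [DerLim.shiftMap]
    rw [this, pb_comp, hy, hfp, sub_self]
  obtain ⟨ξ, hξ⟩ := pb_exact H hT y h0
  exact ⟨K, k, f, g, L, j, c, ξ, hg, hs₀, hfp, hkill', hT, fun n => by rw [pb_comp, hξ, hy]⟩

lemma isIso_of_locRep {ι : Type v} {E : ι → D} (hg : Generates E) {L L' : D} {ξ : H.obj (op L)}
    {ξ' : H.obj (op L')} (h : LocRep H E L ξ) (h' : LocRep H E L' ξ') (p : L ⟶ L')
    (hp : pb H p ξ' = ξ) : IsIso p := by
  apply isIso_of_generates hg
  · intro i m x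
    obtain ⟨y, hy⟩ := h.1 i m (pb H x ξ')
    refine ⟨y, ?_⟩
    rw [← sub_eq_zero]
    apply h'.2 i m
    rw [pb_sub, pb_comp, hp, hy, sub_self]
  · intro i m x hx
    apply h.2 i m
    rw [← hp, ← pb_comp, hx, pb_zero]

/-- Brown's argument: local representability implies representability. -/
lemma representable_of_local {ι : Type v} (E : ι → D) (hg : Generates E)
    (hloc : ∀ (Z : D) (z : H.obj (op Z)), ∃ (L : D) (ξ : H.obj (op L)) (g : Z ⟶ L),
      pb H g ξ = z ∧ LocRep H E L ξ) :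
    (H ⋙ forget AddCommGrpCat.{v}).IsRepresentable := by
  obtain ⟨L, ξ, -, -, hL⟩ := hloc 0 0
  have hex : ∀ (Z : D) (z : H.obj (op Z)), ∃ a : Z ⟶ L, pb H a ξ = z := by
    intro Z z
    obtain ⟨L', ξ', g, hg', hL'⟩ := hloc (Z ⊞ L) (pb H biprod.fst z + pb H biprod.snd ξ)
    have h1 : pb H (biprod.inr ≫ g) ξ' = ξ := by
      rw [pb_comp, hg', map_add, ← pb_comp, ← pb_comp, biprod.inr_fst, biprod.inr_snd, pb_zero,
        pb_id, zero_add]
    have : IsIso ((biprod.inr : L ⟶ Z ⊞ L) ≫ g) := isIso_of_locRep H hg hL hL' _ h1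
    refine ⟨(biprod.inl ≫ g) ≫ inv ((biprod.inr : L ⟶ Z ⊞ L) ≫ g), ?_⟩
    have h2 : pb H (inv ((biprod.inr : L ⟶ Z ⊞ L) ≫ g)) ξ = ξ' := by
      rw [← h1, ← pb_comp, IsIso.inv_hom_id, pb_id]
    rw [pb_comp, h2, pb_comp, hg', map_add, ← pb_comp, ← pb_comp, biprod.inl_fst, biprod.inl_snd,
      pb_zero, pb_id, add_zero]
  have huniq : ∀ (Z : D) (g : Z ⟶ L), pb H g ξ = 0 → g = 0 := by
    intro Z g h0
    obtain ⟨C, u, c, hT⟩ := distinguished_cocone_triangle g
    obtain ⟨ζ, hζ⟩ := pb_exact H hT ξ h0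
    obtain ⟨b, hb⟩ := hex C ζ
    have : IsIso (u ≫ b) := isIso_of_locRep H hg hL hL _ (by rw [pb_comp, hb, hζ])
    have h3 : g ≫ u = 0 := comp_distTriang_mor_zero₁₂ _ hT
    rw [← cancel_mono (u ≫ b), ← Category.assoc, h3, zero_comp, zero_comp]
  refine ⟨L, ⟨{ homEquiv := fun {X} => Equiv.ofBijective (fun g : X ⟶ L => pb H g ξ) ⟨?_, ?_⟩, homEquiv_comp := ?_ }⟩⟩
  · intro g g' h
    rw [← sub_eq_zero]
    apply huniq
    rw [pb_sub, sub_eq_zero]
    exact h
  · intro z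
    exact hex X z
  · intro X X' f g
    exact pb_comp H f g ξ

/-- Local representability for compact generators. -/
lemma locRep_compact [HasColimitsOfShape (Discrete ℕ) D] {ι : Type v} (E : ι → D)
    (hc : ∀ i, IsCompactObject (E i)) (Z : D) (z : H.obj (op Z)) :
    ∃ (L : D) (ξ : H.obj (op L)) (g : Z ⟶ L), pb H g ξ = z ∧ LocRep H E L ξ := by
  obtain ⟨K, k, f, g, L, j, c, ξ, hg, hs, hf, hkill, hT, hξ⟩ := tower H E Z z
  have hj : Sigma.desc (fun n => Sigma.ι K n ≫ j) = j := by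
    apply Sigma.hom_ext; intro n; simp
  have hL : DerLim.IsHocolim K f L (fun n => Sigma.ι K n ≫ j) := ⟨c, by rw [hj]; exact hT⟩
  refine ⟨L, ξ, g ≫ Sigma.ι K 0 ≫ j, by rw [pb_comp, hξ, hg], fun i m x => ?_, fun i m h hh => ?_⟩
  · obtain ⟨h, hx⟩ := hs i m x
    exact ⟨h ≫ Sigma.ι K 0 ≫ j, by rw [pb_comp, hξ, hx]⟩
  · obtain ⟨N, h', e⟩ := hocolim_factors hL (compact_shift m (hc i)) h
    have h1 : pb H h' (k N) = 0 := by rw [← hξ, ← pb_comp, e, hh]
    rw [← e, ← hocolim_comp hL N, ← Category.assoc, hkill N i m h' h1, zero_comp]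

theorem brown_compact [HasColimitsOfShape (Discrete ℕ) D] (hD : IsCompactlyGenerated D) :
    (H ⋙ forget AddCommGrpCat.{v}).IsRepresentable := by
  obtain ⟨ι, E, hc, hg⟩ := hD
  exact representable_of_local H E hg (locRep_compact H E hc)

end

end Groth.Agent.H2.Brown
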