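import Groth.Agent.Lib.Helper2_Brown
import Mathlib.CategoryTheory.Triangulated.Opposite.Functor
import Mathlib.CategoryTheory.Triangulated.Yoneda
import Mathlib.CategoryTheory.Preadditive.Yoneda.Limits
import Mathlib.CategoryTheory.Adjunction.PartialAdjoint
import Mathlib.CategoryTheory.Limits.Preserves.Opposites

set_option autoImplicit false
universe v u u' w

namespace Groth.Agent.H2.Brown

open CategoryTheory CategoryTheory.Limits CategoryTheory.Pretriangulated CohDer Opposite
open CategoryTheory.Pretriangulated.Opposite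

section
variable {D : Type u} [Category.{v} D] [Preadditive D] [Limits.HasZeroObject D] [HasShift D ℤ]
    [∀ n : ℤ, (shiftFunctor D n).Additive] [Pretriangulated D] [HasCoproducts.{v} D]

variable (D) in
lemma hasCoproducts_nat : HasColimitsOfShape (Discrete ℕ) D :=
  hasColimitsOfShape_of_equivalence (Discrete.equivalence (Equiv.ulift.{v, 0} : ULift.{v} ℕ ≃ ℕ))

lemma isLeftAdjoint_of_brown
    {D' : Type u'} [Category.{v} D'] [Preadditive D'] [Limits.HasZeroObject D'] [HasShift D' ℤ]
    [∀ n : ℤ, (shiftFunctor D' n).Additive] [Pretriangulated D']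
    (hrep : ∀ (H : Dᵒᵖ ⥤ AddCommGrpCat.{v}) [H.IsHomological]
      [∀ (κ : Type v), PreservesLimitsOfShape (Discrete κ) H],
      (H ⋙ forget AddCommGrpCat.{v}).IsRepresentable)
    (F : D ⥤ D') [F.CommShift ℤ] [F.IsTriangulated]
    [∀ (κ : Type v), PreservesColimitsOfShape (Discrete κ) F] : F.IsLeftAdjoint := by
  apply Functor.isLeftAdjoint_of_rightAdjointObjIsDefined_eq_top
  ext Y
  simp only [Pi.top_apply, Prop.top_eq_true, iff_true]
  have h1 : ∀ (κ : Type v), PreservesLimitsOfShape (Discrete κ) F.op := fun κ => by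
    have : PreservesColimitsOfShape (Discrete κ)ᵒᵖ F :=
      preservesColimitsOfShape_of_equiv (Discrete.opposite κ).symm F
    exact preservesLimitsOfShape_op _ F
  have h3 : ∀ (κ : Type v), PreservesLimitsOfShape (Discrete κ) (preadditiveYoneda.obj Y) := fun κ =>
    inferInstance
  have h2 : ∀ (κ : Type v), PreservesLimitsOfShape (Discrete κ) (F.op ⋙ preadditiveYoneda.obj Y) :=
    fun κ => inferInstance
  exact hrep (F.op ⋙ preadditiveYoneda.obj Y)

end

end Groth.Agent.H2.Brown
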