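import Groth.Agent.Lib.Helper2_Brown

set_option autoImplicit false
universe v u u' w

namespace Groth.Agent.H2.Brown

open CategoryTheory CategoryTheory.Limits CategoryTheory.Pretriangulated CohDer Groth.Agent.H2.Cpt
  Groth.Agent.H2.Hoc Opposite
open scoped ZeroObject
open CategoryTheory.Pretriangulated.Opposite

section
variable {D : Type u} [Category.{v} D] [Preadditive D] [Limits.HasZeroObject D]
  [HasColimitsOfShape (Discrete ℕ) D]

/-- the family shifted by one, with a zero object in degree `0` -/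
noncomputable def prevObj (S : ℕ → D) : ℕ → D
  | 0 => 0
  | n + 1 => S n

noncomputable def prevHom {S K : ℕ → D} (b : ∀ n, S n ⟶ K (n + 1)) : ∀ n, prevObj S n ⟶ K n
  | 0 => 0
  | n + 1 => b n

/-- transition maps from degree `0` -/
noncomputable def tr {K : ℕ → D} (f : ∀ n, K n ⟶ K (n + 1)) : ∀ n, K 0 ⟶ K n
  | 0 => 𝟙 _
  | n + 1 => tr f n ≫ f n

/-- transition maps from degree `1` -/
noncomputable def tr1 {K : ℕ → D} (f : ∀ n, K n ⟶ K (n + 1)) : ∀ n, K 1 ⟶ K (n + 1)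
  | 0 => 𝟙 _
  | n + 1 => tr1 f n ≫ f (n + 1)

lemma tr_succ_eq {K : ℕ → D} (f : ∀ n, K n ⟶ K (n + 1)) (n : ℕ) : tr f (n + 1) = f 0 ≫ tr1 f n := by
  induction n with
  | zero => simp [tr, tr1]
  | succ n ih =>
    have h1 : tr f (n + 1 + 1) = tr f (n + 1) ≫ f (n + 1) := rfl
    have h2 : tr1 f (n + 1) = tr1 f n ≫ f (n + 1) := rfl
    rw [h1, h2, ih, Category.assoc]

/-- index shift on a constant coproduct -/
noncomputable def sg (A : D) : (∐ fun _ : ℕ => A) ⟶ ∐ fun _ : ℕ => A :=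
  Sigma.desc (fun n => Sigma.ι (fun _ : ℕ => A) (n + 1))

lemma sg_split (A : D) : ∃ ρ, (𝟙 (∐ fun _ : ℕ => A) - sg A) ≫ ρ = 𝟙 _ := by
  refine ⟨Sigma.desc (fun n => - ∑ k ∈ Finset.range n, Sigma.ι (fun _ : ℕ => A) k), ?_⟩
  apply Sigma.hom_ext
  intro n
  simp only [Preadditive.sub_comp, Preadditive.comp_sub, Category.id_comp, sg, Sigma.ι_desc,
    Sigma.ι_desc_assoc, Category.comp_id, Finset.sum_range_succ]
  abel

lemma ι_shiftMap (K : ℕ → D) (f : ∀ n, K n ⟶ K (n + 1)) (n : ℕ) :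
    Sigma.ι K n ≫ DerLim.shiftMap K f = f n ≫ Sigma.ι K (n + 1) := by
  simp [DerLim.shiftMap]

end

section
variable {D : Type u} [Category.{v} D] [Preadditive D] [Limits.HasZeroObject D] [HasShift D ℤ]
    [∀ n : ℤ, (shiftFunctor D n).Additive] [Pretriangulated D] [HasCoproducts.{v} D]
    (H : Dᵒᵖ ⥤ AddCommGrpCat.{v}) [H.IsHomological]
    [∀ (κ : Type v), PreservesLimitsOfShape (Discrete κ) H]
    [HasColimitsOfShape (Discrete ℕ) D]

lemma pb_biprod_ext {A B : D} (x y : H.obj (op (A ⊞ B))) (h1 : pb H biprod.inl x = pb H biprod.inl y)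
    (h2 : pb H biprod.inr x = pb H biprod.inr y) : x = y := by
  have h : ∀ z : H.obj (op (A ⊞ B)),
      z = pb H biprod.fst (pb H biprod.inl z) + pb H biprod.snd (pb H biprod.inr z) := by
    intro z
    rw [← pb_comp, ← pb_comp, ← pb_add, biprod.total, pb_id]
  rw [h x, h y, h1, h2]

/-- exactness of countable coproducts of triangles, in the form needed -/
lemma coprod_exact {F S X : ℕ → D} (u : ∀ n, F n ⟶ S n) (β : ∀ n, S n ⟶ X n)
    (w : ∀ n, X n ⟶ (shiftFunctor D (1 : ℤ)).obj (F n))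
    (hT : ∀ n, Triangle.mk (u n) (β n) (w n) ∈ Pretriangulated.distinguishedTriangles)
    {T : D} (g : T ⟶ ∐ S) (hg : g ≫ Limits.Sigma.map β = 0) :
    ∃ l : T ⟶ ∐ F, g = l ≫ Limits.Sigma.map u := by
  obtain ⟨C, v, c, hC⟩ := distinguished_cocone_triangle (Limits.Sigma.map u)
  have h1 : ∀ n, ∃ t : X n ⟶ C, β n ≫ t = Sigma.ι S n ≫ v := by
    intro n
    obtain ⟨t, ht, -⟩ := complete_distinguished_triangle_morphism _ _ (hT n) hC
      (Sigma.ι F n) (Sigma.ι S n)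
      (show u n ≫ Sigma.ι S n = Sigma.ι F n ≫ Limits.Sigma.map u by rw [Sigma.ι_map])
    exact ⟨t, ht⟩
  choose t ht using h1
  have h2 : Limits.Sigma.map β ≫ Sigma.desc t = v := by
    apply Sigma.hom_ext
    intro n
    simp [ht]
  have h3 : g ≫ v = 0 := by
    rw [← h2, ← Category.assoc, hg, zero_comp]
  exact Triangle.coyoneda_exact₂ _ hC g h3

variable (𝒯 : D → Prop)
  (h2 : ∀ (T : D), 𝒯 T → ∀ (X : ℕ → D) (α : T ⟶ ∐ X), ∃ (S : ℕ → D) (β : ∀ n, S n ⟶ X n)
    (γ : T ⟶ ∐ S), (∀ n, 𝒯 (S n)) ∧ γ ≫ Limits.Sigma.map β = α)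
  {K : ℕ → D} {k : ∀ n, H.obj (op (K n))} {f : ∀ n, K n ⟶ K (n + 1)}
  (hf : ∀ n, pb H (f n) (k (n + 1)) = k n)
  (hlift : ∀ T, 𝒯 T → ∀ x : H.obj (op T), ∃ h : T ⟶ K 0, pb H h (k 0) = x)
  (hkill : ∀ T, 𝒯 T → ∀ n (h : T ⟶ K n), pb H h (k n) = 0 → h ≫ f n = 0)

include hf in
lemma pb_tr (n : ℕ) : pb H (tr f n) (k n) = k 0 := by
  induction n with
  | zero => simp [tr, pb_id]
  | succ n ih =>
    have h1 : tr f (n + 1) = tr f n ≫ f n := rfl
    rw [h1, pb_comp, hf, ih]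

include hf hlift hkill in
lemma exists_b (S : ℕ → D) (hS : ∀ n, 𝒯 (S n)) (β : ∀ n, S n ⟶ K n) :
    ∃ b : ∀ n, S n ⟶ K 0, (∀ n, pb H (b n) (k 0) = pb H (β n) (k n)) ∧
      ∀ n, β n ≫ f n = b n ≫ tr f (n + 1) := by
  choose b hb using fun n => hlift (S n) (hS n) (pb H (β n) (k n))
  refine ⟨b, hb, fun n => ?_⟩
  have h1 : (β n - b n ≫ tr f n) ≫ f n = 0 := by
    apply hkill _ (hS n)
    rw [pb_sub, pb_comp, pb_tr H hf, hb, sub_self]
  rw [Preadditive.sub_comp, sub_eq_zero, Category.assoc] at h1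
  exact h1

include h2 hf hlift hkill in
/-- `1 - shift` is injective on maps from objects of the class. -/
lemma shift_inj_bis (T : D) (hT : 𝒯 T) (ψ : T ⟶ ∐ K)
    (hψ : ψ ≫ (𝟙 (∐ K) - DerLim.shiftMap K f) = 0) : ψ = 0 := by
  obtain ⟨S, β, γ, hS, rfl⟩ := h2 T hT K ψ
  obtain ⟨b, hb, hbf⟩ := exists_b H 𝒯 hf hlift hkill S hS β
  -- diagonalisation
  let S'' : ℕ → D := fun n => S n ⊞ prevObj S n
  let β'' : ∀ n, S'' n ⟶ K n := fun n => biprod.desc (β n) (prevHom (fun n => b n ≫ tr f (n + 1)) n)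
  let N : (∐ S) ⟶ ∐ S'' := Sigma.desc (fun n => biprod.inl ≫ Sigma.ι S'' n -
    (show S n ⟶ S'' (n + 1) from (biprod.inr : prevObj S (n + 1) ⟶ S'' (n + 1))) ≫ Sigma.ι S'' (n + 1))
  have hN : N ≫ Limits.Sigma.map β'' = Limits.Sigma.map β ≫ (𝟙 (∐ K) - DerLim.shiftMap K f) := by
    apply Sigma.hom_ext
    intro n
    simp only [N, Sigma.ι_desc_assoc, Preadditive.sub_comp, Category.assoc, Sigma.ι_map,
      Preadditive.comp_sub, Category.comp_id, Sigma.ι_map_assoc, ι_shiftMap]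
    congr 1
    · rw [← Category.assoc, biprod.inl_desc]
    · rw [← Category.assoc, ← Category.assoc (β n), hbf]
      congr 1
      exact biprod.inr_desc _ _
  have h0 : (γ ≫ N) ≫ Limits.Sigma.map β'' = 0 := by
    rw [Category.assoc, hN, ← Category.assoc, hψ]
  choose F u w hF using fun n => distinguished_cocone_triangle₁ (β'' n)
  obtain ⟨l, hl⟩ := coprod_exact u β'' w hF (γ ≫ N) h0
  obtain ⟨R, ε, δ, hR, rfl⟩ := h2 T hT F l
  -- the comparison with the constant system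
  let b'' : ∀ n, S'' n ⟶ K 0 := fun n => biprod.desc (b n) (prevHom (K := fun _ => K 0) b n)
  have hb'' : ∀ n, pb H (b'' n) (k 0) = pb H (β'' n) (k n) := by
    intro n
    apply pb_biprod_ext
    · rw [← pb_comp, ← pb_comp]
      simp only [b'', β'', biprod.inl_desc]
      exact hb n
    · rw [← pb_comp, ← pb_comp]
      simp only [b'', β'', biprod.inr_desc]
      cases n with
      | zero => simp only [prevHom, pb_zero]
      | succ n =>
        show pb H (b n) (k 0) = pb H (b n ≫ tr f (n + 1)) (k (n + 1))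
        rw [pb_comp, pb_tr H hf]
  have hz : ∀ n, ε n ≫ u n ≫ b'' n ≫ f 0 = 0 := by
    intro n
    have := hkill (R n) (hR n) 0 (ε n ≫ u n ≫ b'' n) (by
      rw [pb_comp, pb_comp, hb'', ← pb_comp, ← pb_comp]
      have h5 : u n ≫ β'' n = 0 := comp_distTriang_mor_zero₁₂ _ (hF n)
      rw [Category.assoc, h5, comp_zero, pb_zero])
    simpa using this
  have hQ : N ≫ Limits.Sigma.map (f := S'') (g := fun _ => K 1) (fun n => b'' n ≫ f 0) =
      Limits.Sigma.map (f := S) (g := fun _ => K 1) (fun n => b n ≫ f 0) ≫ (𝟙 _ - sg (K 1)) := by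
    apply Sigma.hom_ext
    intro n
    simp only [N, Sigma.ι_desc_assoc, Preadditive.sub_comp, Category.assoc, Sigma.ι_map,
      Preadditive.comp_sub, Category.comp_id, Sigma.ι_map_assoc, sg, Sigma.ι_desc]
    congr 1
    · simp only [b'', biprod.inl_desc_assoc]
    · simp only [← Category.assoc]
      congr 2
      exact biprod.inr_desc _ _
  have hW : γ ≫ Limits.Sigma.map (f := S) (g := fun _ => K 1) (fun n => b n ≫ f 0) = 0 := by
    obtain ⟨ρ, hρ⟩ := sg_split (K 1)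
    have h6 : (γ ≫ Limits.Sigma.map (f := S) (g := fun _ => K 1) (fun n => b n ≫ f 0)) ≫
        (𝟙 _ - sg (K 1)) = 0 := by
      rw [Category.assoc, ← hQ, ← Category.assoc, hl]
      have : Limits.Sigma.map ε ≫ Limits.Sigma.map u ≫
          Limits.Sigma.map (f := S'') (g := fun _ => K 1) (fun n => b'' n ≫ f 0) = 0 := by
        apply Sigma.hom_ext
        intro n
        simp only [Sigma.ι_map_assoc, Sigma.ι_map, comp_zero]
        have := congrArg (fun t => t ≫ Sigma.ι (fun _ : ℕ => K 1) n) (hz n)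
        simpa using this
      rw [Category.assoc, Category.assoc, this, comp_zero]
    have h7 := congrArg (fun t => t ≫ ρ) h6
    simpa only [Category.assoc, hρ, Category.comp_id, zero_comp] using h7
  -- conclusion
  have h8 : γ ≫ Limits.Sigma.map β = (γ ≫ Limits.Sigma.map β) ≫ DerLim.shiftMap K f := by
    rw [Preadditive.comp_sub, Category.comp_id, sub_eq_zero] at hψ
    exact hψ
  have h9 : Limits.Sigma.map β ≫ DerLim.shiftMap K f =
      Limits.Sigma.map (f := S) (g := fun _ => K 1) (fun n => b n ≫ f 0) ≫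
        Sigma.desc (fun n => tr1 f n ≫ Sigma.ι K (n + 1)) := by
    apply Sigma.hom_ext
    intro n
    simp only [Sigma.ι_map_assoc, ι_shiftMap, Category.assoc, Sigma.ι_desc]
    rw [← Category.assoc (β n), hbf, tr_succ_eq]
    simp only [Category.assoc]
  rw [h8, Category.assoc, h9, ← Category.assoc, hW, zero_comp]

include h2 hf hlift hkill in
/-- exactness in the middle. -/
lemma shift_exact_bis (y : H.obj (op (∐ K))) (hy : ∀ n, pb H (Sigma.ι K n) y = k n)
    (T : D) (hT : 𝒯 T) (α : T ⟶ ∐ K) (hα : pb H α y = 0) :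
    ∃ θ : T ⟶ ∐ K, α = θ ≫ (𝟙 (∐ K) - DerLim.shiftMap K f) := by
  obtain ⟨S, β, γ, hS, rfl⟩ := h2 T hT K α
  obtain ⟨b, hb, hbf⟩ := exists_b H 𝒯 hf hlift hkill S hS β
  have key : ∀ (A : D) (a : A ⟶ K 0) (n : ℕ), ∃ θ : A ⟶ ∐ K,
      (a ≫ tr f (n + 1)) ≫ Sigma.ι K (n + 1) =
        θ ≫ (𝟙 (∐ K) - DerLim.shiftMap K f) + a ≫ f 0 ≫ Sigma.ι K 1 := by
    intro A a n
    induction n with
    | zero => exact ⟨0, by simp [tr]⟩
    | succ n ih =>
      obtain ⟨θ, hθ⟩ := ih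
      refine ⟨θ - (a ≫ tr f (n + 1)) ≫ Sigma.ι K (n + 1), ?_⟩
      have h1 : tr f (n + 1 + 1) = tr f (n + 1) ≫ f (n + 1) := rfl
      have h3 : (a ≫ tr f (n + 1)) ≫ Sigma.ι K (n + 1) - (a ≫ tr f (n + 1 + 1)) ≫ Sigma.ι K (n + 1 + 1)
          = ((a ≫ tr f (n + 1)) ≫ Sigma.ι K (n + 1)) ≫ (𝟙 (∐ K) - DerLim.shiftMap K f) := by
        rw [Preadditive.comp_sub, Category.comp_id, Category.assoc _ _ (DerLim.shiftMap K f),
          ι_shiftMap, h1]
        simp only [Category.assoc]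
      rw [Preadditive.sub_comp, ← h3, hθ]
      abel
  choose θ hθ using fun n => key (S n) (b n) n
  let Θ : (∐ S) ⟶ ∐ K := Sigma.desc (fun n => β n ≫ Sigma.ι K n + θ n)
  have hΘ : Limits.Sigma.map β = Θ ≫ (𝟙 (∐ K) - DerLim.shiftMap K f) +
      Sigma.desc b ≫ f 0 ≫ Sigma.ι K 1 := by
    apply Sigma.hom_ext
    intro n
    rw [Preadditive.comp_add, ← Category.assoc, ← Category.assoc]
    simp only [Θ, Sigma.ι_desc, Sigma.ι_map, Preadditive.add_comp]
    rw [add_assoc, ← hθ, Preadditive.comp_sub, Category.comp_id, Category.assoc, ι_shiftMap,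
      ← Category.assoc, hbf]
    abel
  have hB : (γ ≫ Sigma.desc b) ≫ f 0 = 0 := by
    apply hkill T hT
    rw [← hα, pb_comp, pb_comp]
    congr 1
    apply pb_coprod_ext_nat
    intro n
    rw [← pb_comp, ← pb_comp, Sigma.ι_desc, Sigma.ι_map, pb_comp, hy, hb]
  refine ⟨γ ≫ Θ, ?_⟩
  rw [hΘ, Preadditive.comp_add, ← Category.assoc γ (Sigma.desc b), ← Category.assoc (γ ≫ Sigma.desc b),
    hB, zero_comp, add_zero, Category.assoc]

end

section
variable {D : Type u} [Category.{v} D] [Preadditive D] [Limits.HasZeroObject D] [HasShift D ℤ]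
    [∀ n : ℤ, (shiftFunctor D n).Additive] [Pretriangulated D] [HasCoproducts.{v} D]
    [HasColimitsOfShape (Discrete ℕ) D]
    {ι : Type v} (E : ι → D)
    (h2 : ∀ (X : ℕ → D) (i : ι) (α : E i ⟶ ∐ X), ∃ (j : ℕ → ι) (β : ∀ n, E (j n) ⟶ X n)
      (γ : E i ⟶ ∐ (fun n => E (j n))), α = γ ≫ Limits.Sigma.map β)

/-- shifts of the generators -/
def IsShiftOf (T : D) : Prop := ∃ (i : ι) (m : ℤ), T = (shiftFunctor D m).obj (E i)

include h2 in
lemma h2_shift (T : D) (hT : IsShiftOf E T) (X : ℕ → D) (α : T ⟶ ∐ X) :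
    ∃ (S : ℕ → D) (β : ∀ n, S n ⟶ X n) (γ : T ⟶ ∐ S), (∀ n, IsShiftOf E (S n)) ∧
      γ ≫ Limits.Sigma.map β = α := by
  obtain ⟨i, m, rfl⟩ := hT
  let F := shiftFunctor D m
  let G := shiftFunctor D (-m)
  let adj : F ⊣ G := (shiftEquiv D m).toAdjunction
  let α₁ : E i ⟶ G.obj (∐ X) := adj.homEquiv _ _ α
  obtain ⟨j, β, γ, hα⟩ := h2 (fun n => G.obj (X n)) i (α₁ ≫ inv (sigmaComparison G X))
  have hα₁ : α₁ = γ ≫ Limits.Sigma.map β ≫ sigmaComparison G X := by
    rw [← Category.assoc, ← hα, Category.assoc, IsIso.inv_hom_id, Category.comp_id]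
  let β' : ∀ n, F.obj (E (j n)) ⟶ X n := fun n => F.map (β n) ≫ adj.counit.app (X n)
  refine ⟨fun n => F.obj (E (j n)), β', F.map γ ≫ inv (sigmaComparison F (fun n => E (j n))),
    fun n => ⟨j n, m, rfl⟩, ?_⟩
  have key : sigmaComparison F (fun n => E (j n)) ≫
      F.map (Limits.Sigma.map β ≫ sigmaComparison G X) ≫ adj.counit.app (∐ X) =
      Limits.Sigma.map β' := by
    apply Sigma.hom_ext
    intro n
    rw [← Category.assoc, ι_comp_sigmaComparison, ← Category.assoc, ← F.map_comp, ← Category.assoc,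
      Sigma.ι_map, Category.assoc, ι_comp_sigmaComparison, Sigma.ι_map, F.map_comp, Category.assoc]
    have := adj.counit.naturality (Sigma.ι X n)
    simp only [Functor.comp_map, Functor.id_map] at this
    rw [this]
    simp only [β', Category.assoc]
  have hα₂ : α = F.map α₁ ≫ adj.counit.app (∐ X) := by
    have : α = (adj.homEquiv _ _).symm (adj.homEquiv _ _ α) := by simp
    rw [this, Adjunction.homEquiv_counit]
  rw [Category.assoc, ← key, IsIso.inv_hom_id_assoc, ← Category.assoc, ← F.map_comp, ← hα₁]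
  exact hα₂.symm

include h2 in
lemma locRep_bis (H : Dᵒᵖ ⥤ AddCommGrpCat.{v}) [H.IsHomological]
    [∀ (κ : Type v), PreservesLimitsOfShape (Discrete κ) H] (Z : D) (z : H.obj (op Z)) :
    ∃ (L : D) (ξ : H.obj (op L)) (g : Z ⟶ L), pb H g ξ = z ∧ LocRep H E L ξ := by
  obtain ⟨K, k, f, g, L, j, c, ξ, hg, hs, hf, hkill, hT, hξ⟩ := tower H E Z z
  have hlift' : ∀ T, IsShiftOf E T → ∀ x : H.obj (op T), ∃ h : T ⟶ K 0, pb H h (k 0) = x := by
    rintro T ⟨i, m, rfl⟩ x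
    exact hs i m x
  have hkill' : ∀ T, IsShiftOf E T → ∀ n (h : T ⟶ K n), pb H h (k n) = 0 → h ≫ f n = 0 := by
    rintro T ⟨i, m, rfl⟩ n h hh
    exact hkill n i m h hh
  refine ⟨L, ξ, g ≫ Sigma.ι K 0 ≫ j, by rw [pb_comp, hξ, hg], fun i m x => ?_, fun i m h hh => ?_⟩
  · obtain ⟨h, hx⟩ := hs i m x
    exact ⟨h ≫ Sigma.ι K 0 ≫ j, by rw [pb_comp, hξ, hx]⟩
  · have h1 : h ≫ c = 0 := by
      have hc : c ≫ (shiftFunctor D (1 : ℤ)).map (𝟙 (∐ K) - DerLim.shiftMap K f) = 0 :=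
        comp_distTriang_mor_zero₃₁ _ hT
      let e : (shiftFunctor D m).obj (E i) ≅
          (shiftFunctor D (1 : ℤ)).obj ((shiftFunctor D (m - 1)).obj (E i)) :=
        (shiftFunctorAdd' D (m - 1) 1 m (by ring)).app (E i)
      obtain ⟨q, hq⟩ := (shiftFunctor D (1 : ℤ)).map_surjective (e.inv ≫ h ≫ c)
      have hq0 : q ≫ (𝟙 (∐ K) - DerLim.shiftMap K f) = 0 := by
        apply (shiftFunctor D (1 : ℤ)).map_injective
        rw [Functor.map_comp, hq, Category.assoc, Category.assoc, hc, comp_zero, comp_zero,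
          Functor.map_zero]
      have h0 : q = 0 := shift_inj_bis H (IsShiftOf E) (h2_shift E h2) hf hlift' hkill' _
        ⟨i, m - 1, rfl⟩ q hq0
      rw [h0, Functor.map_zero] at hq
      have := congrArg (fun t => e.hom ≫ t) hq
      simpa using this.symm
    obtain ⟨α, hα⟩ : ∃ α : (shiftFunctor D m).obj (E i) ⟶ ∐ K, h = α ≫ j :=
      Triangle.coyoneda_exact₃ _ hT h h1
    obtain ⟨θ, hθ⟩ := shift_exact_bis H (IsShiftOf E) (h2_shift E h2) hf hlift' hkill' (pb H j ξ)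
      (fun n => by rw [← pb_comp, hξ]) _ ⟨i, m, rfl⟩ α (by rw [← pb_comp, ← hα, hh])
    have h3 : (𝟙 (∐ K) - DerLim.shiftMap K f) ≫ j = 0 := comp_distTriang_mor_zero₁₂ _ hT
    rw [hα, hθ, Category.assoc, h3, comp_zero]

lemma generates_of (h1 : ∀ X : D, ¬ IsZero X → ∃ (i : ι) (f : E i ⟶ X), f ≠ 0) : Generates E := by
  intro X hX
  by_contra hne
  obtain ⟨i, f, hf⟩ := h1 X hne
  apply hf
  have := hX i 0 (f ≫ (shiftFunctorZero D ℤ).inv.app X)
  have h2 := congrArg (fun t => t ≫ (shiftFunctorZero D ℤ).hom.app X) this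
  simpa using h2

include h2 in
theorem brown_bis (h1 : ∀ X : D, ¬ IsZero X → ∃ (i : ι) (f : E i ⟶ X), f ≠ 0)
    (H : Dᵒᵖ ⥤ AddCommGrpCat.{v}) [H.IsHomological]
    [∀ (κ : Type v), PreservesLimitsOfShape (Discrete κ) H] :
    (H ⋙ forget AddCommGrpCat.{v}).IsRepresentable :=
  representable_of_local H E (generates_of E h1) (locRep_bis E h2 H)

end

end Groth.Agent.H2.Brown
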