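import Groth.Agent.Lib.Helper2_Compact
import Groth.Prelude.Def_DerLim

set_option autoImplicit false
universe v u u' w

namespace Groth.Agent.H2.Hoc

open CategoryTheory CategoryTheory.Limits CategoryTheory.Pretriangulated CohDer Groth.Agent.H2.Cpt
open scoped ZeroObject

section
variable {D : Type u} [Category.{v} D] [Preadditive D]

/-- projection from the countable coproduct -/
noncomputable def prN (X : ℕ → D) [HasCoproduct X] (i : ℕ) : ∐ X ⟶ X i :=
  Sigma.desc (fun j => if h : j = i then eqToHom (by rw [h]) else 0)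

lemma ι_prN_self (X : ℕ → D) [HasCoproduct X] (i : ℕ) : Sigma.ι X i ≫ prN X i = 𝟙 _ := by
  simp [prN]

lemma ι_prN_ne (X : ℕ → D) [HasCoproduct X] {i j : ℕ} (h : j ≠ i) :
    Sigma.ι X j ≫ prN X i = 0 := by
  simp [prN, h]

lemma shift_prN_zero (K : ℕ → D) (f : ∀ n, K n ⟶ K (n + 1)) [HasCoproduct K] :
    DerLim.shiftMap K f ≫ prN K 0 = 0 := by
  apply Sigma.hom_ext
  intro m
  simp [DerLim.shiftMap, ι_prN_ne K (Nat.succ_ne_zero m)]

lemma shift_prN_succ (K : ℕ → D) (f : ∀ n, K n ⟶ K (n + 1)) [HasCoproduct K] (n : ℕ) :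
    DerLim.shiftMap K f ≫ prN K (n + 1) = prN K n ≫ f n := by
  apply Sigma.hom_ext
  intro m
  by_cases h : m = n
  · subst h
    rw [← Category.assoc, ← Category.assoc, ι_prN_self]
    simp [DerLim.shiftMap, ι_prN_self]
  · rw [← Category.assoc, ← Category.assoc, ι_prN_ne K h]
    simp [DerLim.shiftMap, ι_prN_ne K (fun h' => h (Nat.succ_injective h'))]

end

section
variable {D : Type u} [Category.{v} D] [Preadditive D] [HasCoproducts.{v} D]
  [HasColimitsOfShape (Discrete ℕ) D]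

/-- reindexing of a countable coproduct -/
noncomputable def liftIso (X : ℕ → D) : (∐ (fun i : ULift.{v} ℕ => X i.down)) ≅ ∐ X where
  hom := Sigma.desc (fun i => Sigma.ι X i.down)
  inv := Sigma.desc (fun n => Sigma.ι (fun i : ULift.{v} ℕ => X i.down) ⟨n⟩)

lemma fac_nat {G : D ⥤ D} [∀ (κ : Type v), PreservesColimitsOfShape (Discrete κ) G] {T : D}
    (hT : IsCompactObject T) (X : ℕ → D) (φ : T ⟶ G.obj (∐ X)) :
    ∃ (s : Finset ℕ) (g : ∀ i, T ⟶ G.obj (X i)), φ = ∑ i ∈ s, g i ≫ G.map (Sigma.ι X i) := by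
  classical
  obtain ⟨s, g, h⟩ := fac_map hT (fun i : ULift.{v} ℕ => X i.down) (φ ≫ G.map (liftIso X).inv)
  refine ⟨s.map Equiv.ulift.toEmbedding, fun n => g ⟨n⟩, ?_⟩
  rw [Finset.sum_map]
  have h2 := congrArg (fun t => t ≫ G.map (liftIso X).hom) h
  simp only [Category.assoc, ← G.map_comp, Iso.inv_hom_id, Preadditive.sum_comp] at h2
  rw [G.map_id, Category.comp_id] at h2
  rw [h2]
  refine Finset.sum_congr rfl fun i _ => ?_
  simp only [liftIso, Sigma.ι_desc]
  rfl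

/-- `1 - shift` is injective on maps out of a compact object. -/
lemma shift_injective {G : D ⥤ D} [G.Additive] [∀ (κ : Type v), PreservesColimitsOfShape (Discrete κ) G]
    {T : D} (hT : IsCompactObject T) (K : ℕ → D) (f : ∀ n, K n ⟶ K (n + 1))
    (ψ : T ⟶ G.obj (∐ K)) (h : ψ ≫ G.map (𝟙 (∐ K) - DerLim.shiftMap K f) = 0) : ψ = 0 := by
  classical
  have hc : ∀ n, ψ ≫ G.map (prN K n) = 0 := by
    intro n
    induction n with
    | zero =>
      have := congrArg (fun t => t ≫ G.map (prN K 0)) h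
      simp only [Category.assoc, ← G.map_comp, Preadditive.sub_comp, Category.id_comp,
        shift_prN_zero, sub_zero, zero_comp] at this
      exact this
    | succ n ih =>
      have := congrArg (fun t => t ≫ G.map (prN K (n + 1))) h
      simp only [Category.assoc, ← G.map_comp, Preadditive.sub_comp, Category.id_comp,
        shift_prN_succ, zero_comp] at this
      rw [G.map_sub, Preadditive.comp_sub, G.map_comp, ← Category.assoc ψ, ih, zero_comp, sub_zero] at this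
      exact this
  obtain ⟨s, g, hg⟩ := fac_nat hT K ψ
  rw [hg]
  refine Finset.sum_eq_zero fun i hi => ?_
  have : g i = 0 := by
    rw [← hc i, hg, Preadditive.sum_comp, Finset.sum_eq_single i]
    · rw [Category.assoc, ← G.map_comp, ι_prN_self, G.map_id, Category.comp_id]
    · intro j _ hj
      rw [Category.assoc, ← G.map_comp, ι_prN_ne K hj, G.map_zero, comp_zero]
    · intro h; exact absurd hi h
  rw [this, zero_comp]

end

section Tri
variable {D : Type u} [Category.{v} D] [Preadditive D] [Limits.HasZeroObject D] [HasShift D ℤ]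
    [∀ n : ℤ, (shiftFunctor D n).Additive] [Pretriangulated D] [HasCoproducts.{v} D]
    [HasColimitsOfShape (Discrete ℕ) D]

/-- transition maps -/
lemma exists_stage {K : ℕ → D} {f : ∀ n, K n ⟶ K (n + 1)} {L : D} {i : ∀ n, K n ⟶ L}
    (hi : ∀ n, f n ≫ i (n + 1) = i n) {T : D} (s : Finset ℕ) (g : ∀ n, T ⟶ K n) :
    ∃ (N : ℕ) (h : T ⟶ K N), h ≫ i N = ∑ n ∈ s, g n ≫ i n := by
  classical
  have up : ∀ (n k : ℕ) (h : T ⟶ K n), ∃ h' : T ⟶ K (n + k), h' ≫ i (n + k) = h ≫ i n := by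
    intro n k h
    induction k with
    | zero => exact ⟨h, rfl⟩
    | succ k ih =>
      obtain ⟨h', e⟩ := ih
      exact ⟨h' ≫ f (n + k), by rw [Category.assoc]; erw [hi (n + k)]; exact e⟩
  induction s using Finset.induction_on with
  | empty => exact ⟨0, 0, by simp⟩
  | insert a s ha ih =>
    obtain ⟨N, h, e⟩ := ih
    obtain ⟨h₁, e₁⟩ := up N a h
    obtain ⟨h₂, e₂⟩ := up a N (g a)
    have e₃ : ∃ h₃ : T ⟶ K (N + a), h₃ ≫ i (N + a) = g a ≫ i a := by
      have : a + N = N + a := Nat.add_comm a N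
      rw [← this]; exact ⟨h₂, e₂⟩
    obtain ⟨h₃, e₃⟩ := e₃
    refine ⟨N + a, h₃ + h₁, ?_⟩
    rw [Finset.sum_insert ha, Preadditive.add_comp, e₁, e₃, e]

lemma hocolim_comp {K : ℕ → D} {f : ∀ n, K n ⟶ K (n + 1)} {L : D} {i : ∀ n, K n ⟶ L}
    (hL : DerLim.IsHocolim K f L i) (n : ℕ) : f n ≫ i (n + 1) = i n := by
  obtain ⟨c, hc⟩ := hL
  have this : (𝟙 (∐ K) - DerLim.shiftMap K f) ≫ Sigma.desc i = 0 :=
    comp_distTriang_mor_zero₁₂ _ hc
  have h2 := congrArg (fun t => Sigma.ι K n ≫ t) this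
  simp only [Preadditive.sub_comp, Category.id_comp, Preadditive.comp_sub, comp_zero] at h2
  rw [sub_eq_zero] at h2
  simp only [DerLim.shiftMap, Sigma.ι_desc, Sigma.ι_desc_assoc, Category.assoc] at h2
  exact h2.symm

lemma hocolim_factors {K : ℕ → D} {f : ∀ n, K n ⟶ K (n + 1)} {L : D} {i : ∀ n, K n ⟶ L}
    (hL : DerLim.IsHocolim K f L i) {T : D} (hT : IsCompactObject T) (φ : T ⟶ L) :
    ∃ (N : ℕ) (h : T ⟶ K N), h ≫ i N = φ := by
  have hi := hocolim_comp hL
  obtain ⟨c, hc⟩ := hL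
  have h1 : φ ≫ c = 0 := by
    apply shift_injective (G := shiftFunctor D (1 : ℤ)) hT K f
    have this : c ≫ (shiftFunctor D (1 : ℤ)).map (𝟙 (∐ K) - DerLim.shiftMap K f) = 0 :=
      comp_distTriang_mor_zero₃₁ _ hc
    rw [Category.assoc, this, comp_zero]
  obtain ⟨ψ, hψ⟩ : ∃ ψ : T ⟶ ∐ K, φ = ψ ≫ Sigma.desc i := Triangle.coyoneda_exact₃ _ hc φ h1
  obtain ⟨s, g, hg⟩ := fac_nat (G := 𝟭 D) hT K ψ
  obtain ⟨N, h, e⟩ := exists_stage hi s g
  refine ⟨N, h, ?_⟩
  rw [e, hψ]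
  have hg' : ψ = ∑ i ∈ s, g i ≫ Sigma.ι K i := hg
  rw [hg', Preadditive.sum_comp]
  refine Finset.sum_congr rfl fun n _ => ?_
  simp


/-- A coproduct of shifts of members of the family. -/
def IsSumOfShifts {ι : Type v} (E : ι → D) (Y : D) : Prop :=
  ∃ (κ : Type v) (a : κ → ι) (m : κ → ℤ), Nonempty (Y ≅ ∐ (fun k => (shiftFunctor D (m k)).obj (E (a k))))

lemma exists_step {ι : Type v} (E : ι → D) {X : D} (K : D) (p : K ⟶ X) :
    ∃ (K' : D) (p' : K' ⟶ X) (f : K ⟶ K'), f ≫ p' = p ∧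
      (∃ (κ : Type v) (a : κ → ι) (m : κ → ℤ) (y : (∐ fun k => (shiftFunctor D (m k)).obj (E (a k))) ⟶ K)
        (z : K' ⟶ (shiftFunctor D (1 : ℤ)).obj (∐ fun k => (shiftFunctor D (m k)).obj (E (a k)))),
        Triangle.mk y f z ∈ distinguishedTriangles) ∧
      ∀ (i : ι) (m : ℤ) (h : (shiftFunctor D m).obj (E i) ⟶ K), h ≫ p = 0 → h ≫ f = 0 := by
  let κ : Type v := Σ (i : ι) (m : ℤ), {h : (shiftFunctor D m).obj (E i) ⟶ K // h ≫ p = 0}
  let a : κ → ι := fun k => k.1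
  let m : κ → ℤ := fun k => k.2.1
  let y : (∐ fun k => (shiftFunctor D (m k)).obj (E (a k))) ⟶ K := Sigma.desc (fun k => k.2.2.1)
  obtain ⟨K', f, z, hT⟩ := distinguished_cocone_triangle y
  have hyp : y ≫ p = 0 := by
    apply Sigma.hom_ext
    intro k
    simp only [y, Sigma.ι_desc_assoc, comp_zero]
    exact k.2.2.2
  obtain ⟨p', hp'⟩ : ∃ p' : K' ⟶ X, p = f ≫ p' := Triangle.yoneda_exact₂ _ hT p hyp
  refine ⟨K', p', f, hp'.symm, ⟨κ, a, m, y, z, hT⟩, fun i n h hh => ?_⟩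
  have hyf : y ≫ f = 0 := comp_distTriang_mor_zero₁₂ _ hT
  have : h = Sigma.ι (fun k => (shiftFunctor D (m k)).obj (E (a k))) (⟨i, n, h, hh⟩ : κ) ≫ y := by
    simp [y]
  rw [this, Category.assoc, hyf, comp_zero]

lemma exists_zero {ι : Type v} (E : ι → D) (X : D) :
    ∃ (K : D) (p : K ⟶ X), IsSumOfShifts E K ∧
      ∀ (i : ι) (m : ℤ) (h : (shiftFunctor D m).obj (E i) ⟶ X), ∃ h', h' ≫ p = h := by
  let κ : Type v := Σ (i : ι) (m : ℤ), ((shiftFunctor D m).obj (E i) ⟶ X)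
  refine ⟨∐ (fun k : κ => (shiftFunctor D k.2.1).obj (E k.1)), Sigma.desc (fun k => k.2.2),
    ⟨κ, fun k => k.1, fun k => k.2.1, ⟨Iso.refl _⟩⟩, fun i m h =>
      ⟨Sigma.ι (fun k : κ => (shiftFunctor D k.2.1).obj (E k.1)) ⟨i, m, h⟩, by simp⟩⟩

omit [HasColimitsOfShape (Discrete ℕ) D] in
/-- If a triangle's first map induces bijections on maps from all shifts of generators, it is
an isomorphism. -/
lemma isIso_of_generates {ι : Type v} {E : ι → D} (hg : Generates E) {L X : D} (p : L ⟶ X)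
    (hs : ∀ (i : ι) (m : ℤ) (h : (shiftFunctor D m).obj (E i) ⟶ X), ∃ h', h' ≫ p = h)
    (hi : ∀ (i : ι) (m : ℤ) (h : (shiftFunctor D m).obj (E i) ⟶ L), h ≫ p = 0 → h = 0) :
    IsIso p := by
  obtain ⟨C, g, c, hT⟩ := distinguished_cocone_triangle p
  -- maps from shifts of generators into C vanish
  have key : ∀ (i : ι) (m : ℤ) (h : (shiftFunctor D m).obj (E i) ⟶ C), h = 0 := by
    intro i m h
    have h1 : h ≫ c = 0 := by
      have hc : c ≫ (shiftFunctor D (1 : ℤ)).map p = 0 := comp_distTriang_mor_zero₃₁ _ hT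
      let e : (shiftFunctor D m).obj (E i) ≅ (shiftFunctor D (1 : ℤ)).obj ((shiftFunctor D (m - 1)).obj (E i)) :=
        (shiftFunctorAdd' D (m - 1) 1 m (by ring)).app (E i)
      obtain ⟨q, hq⟩ := (shiftFunctor D (1 : ℤ)).map_surjective (e.inv ≫ h ≫ c)
      have hq0 : q ≫ p = 0 := by
        apply (shiftFunctor D (1 : ℤ)).map_injective
        rw [Functor.map_comp, hq, Category.assoc, Category.assoc, hc, comp_zero, comp_zero,
          Functor.map_zero]
      have : q = 0 := hi i (m - 1) q hq0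
      rw [this, Functor.map_zero] at hq
      have := congrArg (fun t => e.hom ≫ t) hq
      simpa using this.symm
    obtain ⟨k, hk⟩ : ∃ k : (shiftFunctor D m).obj (E i) ⟶ X, h = k ≫ g := Triangle.coyoneda_exact₃ _ hT h h1
    obtain ⟨k', hk'⟩ := hs i m k
    have : p ≫ g = 0 := comp_distTriang_mor_zero₁₂ _ hT
    rw [hk, ← hk', Category.assoc, this, comp_zero]
  have hC : IsZero C := by
    apply hg
    intro i n f
    -- f : E i ⟶ C⟦n⟧
    let adj := (shiftEquiv D n).symm.toAdjunction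
    have h0 : (adj.homEquiv (E i) C).symm f = 0 := key i (-n) _
    have := congrArg (adj.homEquiv (E i) C) h0
    rw [Equiv.apply_symm_apply] at this
    rw [this, Adjunction.homEquiv_unit]
    erw [Functor.map_zero, comp_zero]
    rfl
  exact (Triangle.isZero₃_iff_isIso₁ _ hT).mp hC

lemma presentation {ι : Type v} (E : ι → D) (hc : ∀ i, CohDer.IsCompactObject (E i))
    (hg : CohDer.Generates E) (X : D) :
    ∃ (K : ℕ → D) (f : ∀ n, K n ⟶ K (n + 1)) (i : ∀ n, K n ⟶ X),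
      DerLim.IsHocolim K f X i ∧
      (∃ (κ : Type v) (a : κ → ι) (m : κ → ℤ), Nonempty (K 0 ≅ ∐ (fun k => (shiftFunctor D (m k)).obj (E (a k))))) ∧
      ∀ n, ∃ (κ : Type v) (a : κ → ι) (m : κ → ℤ) (y : (∐ fun k => (shiftFunctor D (m k)).obj (E (a k))) ⟶ K n)
        (z : K (n + 1) ⟶ (shiftFunctor D (1 : ℤ)).obj (∐ fun k => (shiftFunctor D (m k)).obj (E (a k)))),
        Triangle.mk y (f n) z ∈ distinguishedTriangles := by
  obtain ⟨K₀, p₀, h₀, hs₀⟩ := exists_zero E X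
  choose nK np nf hcomp htri hkill using fun (s : Σ K : D, (K ⟶ X)) => exists_step E s.1 s.2
  let seq : ℕ → Σ K : D, (K ⟶ X) := fun n => Nat.rec ⟨K₀, p₀⟩ (fun _ s => ⟨nK s, np s⟩) n
  let K : ℕ → D := fun n => (seq n).1
  let p : ∀ n, K n ⟶ X := fun n => (seq n).2
  let f : ∀ n, K n ⟶ K (n + 1) := fun n => nf (seq n)
  have hfp : ∀ n, f n ≫ p (n + 1) = p n := fun n => hcomp (seq n)
  have hkill' : ∀ n (i : ι) (m : ℤ) (h : (shiftFunctor D m).obj (E i) ⟶ K n), h ≫ p n = 0 → h ≫ f n = 0 :=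
    fun n => hkill (seq n)
  have htri' : ∀ n, ∃ (κ : Type v) (a : κ → ι) (m : κ → ℤ) (y : (∐ fun k => (shiftFunctor D (m k)).obj (E (a k))) ⟶ K n)
        (z : K (n + 1) ⟶ (shiftFunctor D (1 : ℤ)).obj (∐ fun k => (shiftFunctor D (m k)).obj (E (a k)))),
        Triangle.mk y (f n) z ∈ distinguishedTriangles := fun n => htri (seq n)
  obtain ⟨L, j, c, hT⟩ := distinguished_cocone_triangle (𝟙 (∐ K) - DerLim.shiftMap K f)
  have hj : Sigma.desc (fun n => Sigma.ι K n ≫ j) = j := by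
    apply Sigma.hom_ext; intro n; simp
  have hL : DerLim.IsHocolim K f L (fun n => Sigma.ι K n ≫ j) := ⟨c, by rw [hj]; exact hT⟩
  have hz : (𝟙 (∐ K) - DerLim.shiftMap K f) ≫ Sigma.desc p = 0 := by
    apply Sigma.hom_ext
    intro n
    simp only [Preadditive.sub_comp, Preadditive.comp_sub, Category.id_comp, DerLim.shiftMap,
      Sigma.ι_desc, Sigma.ι_desc_assoc, Category.assoc, comp_zero, hfp, sub_self]
  obtain ⟨q, hq⟩ : ∃ q : L ⟶ X, Sigma.desc p = j ≫ q := Triangle.yoneda_exact₂ _ hT _ hz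
  have hjq : ∀ n, (Sigma.ι K n ≫ j) ≫ q = p n := by
    intro n; rw [Category.assoc, ← hq]; simp
  have hiso : IsIso q := by
    apply isIso_of_generates hg
    · intro i m h
      obtain ⟨h', e⟩ := hs₀ i m h
      refine ⟨h' ≫ Sigma.ι K 0 ≫ j, ?_⟩
      rw [Category.assoc, hjq]; exact e
    · intro i m h hh
      obtain ⟨N, h', e⟩ := hocolim_factors hL (compact_shift m (hc i)) h
      have h1 : h' ≫ p N = 0 := by rw [← hjq, ← Category.assoc, e, hh]
      have h2 := hkill' N i m h' h1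
      rw [← e, ← hocolim_comp hL N, ← Category.assoc, h2, zero_comp]
  refine ⟨K, f, p, ⟨inv q ≫ c, ?_⟩, h₀, htri'⟩
  refine isomorphic_distinguished _ hT _ (Triangle.isoMk _ _ (Iso.refl _) (Iso.refl _) (asIso q).symm ?_ ?_ ?_)
  · show (𝟙 (∐ K) - DerLim.shiftMap K f) ≫ 𝟙 (∐ K) = 𝟙 (∐ K) ≫ (𝟙 (∐ K) - DerLim.shiftMap K f)
    rw [Category.comp_id, Category.id_comp]
  · show Sigma.desc p ≫ inv q = 𝟙 (∐ K) ≫ j
    rw [hq, Category.assoc, IsIso.hom_inv_id, Category.comp_id, Category.id_comp]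
  · show (inv q ≫ c) ≫ (shiftFunctor D (1 : ℤ)).map (𝟙 (∐ K)) = inv q ≫ c
    rw [CategoryTheory.Functor.map_id, Category.comp_id]

end Tri

end Groth.Agent.H2.Hoc
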