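import Groth.Prelude.Def_ClSub2
import Mathlib.AlgebraicGeometry.Morphisms.Proper
import Mathlib.AlgebraicGeometry.Morphisms.Finite
import Mathlib.AlgebraicGeometry.Morphisms.Immersion
import Mathlib.AlgebraicGeometry.IdealSheaf.Subscheme
import Mathlib.AlgebraicGeometry.PullbackCarrier
import Mathlib.AlgebraicGeometry.Limits

set_option autoImplicit false
set_option backward.isDefEq.respectTransparency false
universe u

namespace Groth.Agent.H2

open AlgebraicGeometry CategoryTheory Limits

variable {R T S X Y : Scheme.{u}}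

lemma isSeparated_of_isClosed_range (g : T ⟶ S)
    (h : IsClosed (Set.range (pullback.diagonal g))) : IsSeparated g :=
  ⟨.of_isPreimmersion _ h⟩

lemma isSeparated_of_comp_surjective (j : R ⟶ T) (g : T ⟶ S) [Surjective j]
    [UniversallyClosed j] [IsSeparated (j ≫ g)] : IsSeparated g := by
  apply isSeparated_of_isClosed_range
  let m : pullback (j ≫ g) (j ≫ g) ⟶ pullback g g :=
    pullback.map _ _ _ _ j j (𝟙 _) (by simp) (by simp)
  have hm : UniversallyClosed m := by
    exact MorphismProperty.pullbackMap (P := @UniversallyClosed) (f := j ≫ g) (g := j ≫ g) 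
      (f' := g) (g' := g) (i₁ := j) (i₂ := j) inferInstance inferInstance rfl rfl
  have e : pullback.diagonal (j ≫ g) ≫ m = j ≫ pullback.diagonal g := by
    apply pullback.hom_ext <;> simp [m]
  have : Set.range (pullback.diagonal g) = m '' Set.range (pullback.diagonal (j≫g)) := by
    ext x
    constructor
    · rintro ⟨y, rfl⟩
      obtain ⟨z, rfl⟩ := j.surjective y
      exact ⟨_, ⟨z, rfl⟩, by rw [← Scheme.Hom.comp_apply, e, Scheme.Hom.comp_apply]⟩
    · rintro ⟨_, ⟨z, rfl⟩, rfl⟩
      exact ⟨j z, by rw [← Scheme.Hom.comp_apply, ← e, Scheme.Hom.comp_apply]⟩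
  rw [this]
  exact m.isClosedMap _ (pullback.diagonal (j ≫ g)).isClosedEmbedding.isClosed_range

lemma isProper_of_comp_surjective (j : R ⟶ T) (g : T ⟶ S) [Surjective j]
    [UniversallyClosed j] [LocallyOfFiniteType g] [IsProper (j ≫ g)] : IsProper g := by
  have := isSeparated_of_comp_surjective j g
  have := UniversallyClosed.of_comp_surjective j g
  exact { }

/-- A closed immersion from a reduced closed subscheme factors through any closed immersion with the
same range. -/
lemma exists_lift_vanishingIdeal {Z : Set X} (h : IsClosed Z) (i : T ⟶ X) [IsClosedImmersion i]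
    (hi : Set.range i = Z) :
    ∃ j : (Scheme.IdealSheafData.vanishingIdeal ⟨Z, h⟩).subscheme ⟶ T,
      j ≫ i = (Scheme.IdealSheafData.vanishingIdeal ⟨Z, h⟩).subschemeι ∧
        IsClosedImmersion j ∧ Surjective j := by
  have hk : i.ker ≤ ((Scheme.IdealSheafData.vanishingIdeal ⟨Z, h⟩).subschemeι).ker := by
    rw [Scheme.IdealSheafData.ker_subschemeι, ← Scheme.IdealSheafData.le_support_iff_le_vanishingIdeal]
    intro x hx
    change x ∈ (i.ker.support : Set X)
    rw [Scheme.Hom.support_ker]
    change x ∈ Z at hx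
    rw [← hi] at hx
    exact subset_closure hx
  refine ⟨IsClosedImmersion.lift i _ hk, IsClosedImmersion.lift_fac _ _ _, ?_, ?_⟩
  · have : IsClosedImmersion (IsClosedImmersion.lift i _ hk ≫ i) := by
      rw [IsClosedImmersion.lift_fac]; infer_instance
    exact IsClosedImmersion.of_comp _ i
  · refine ⟨fun t => ?_⟩
    have : i t ∈ Set.range ((Scheme.IdealSheafData.vanishingIdeal ⟨Z, h⟩).subschemeι) := by
      rw [Scheme.IdealSheafData.range_subschemeι]
      rw [Scheme.IdealSheafData.coe_support_vanishingIdeal]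
      change i t ∈ Z
      rw [← hi]; exact ⟨_, rfl⟩
    obtain ⟨y, hy⟩ := this
    refine ⟨y, i.isClosedEmbedding.injective ?_⟩
    rw [← Scheme.Hom.comp_apply, IsClosedImmersion.lift_fac, hy]

lemma isProperOver_iff (f : X ⟶ S) [LocallyOfFiniteType f] {Z : Set X} (i : T ⟶ X)
    [IsClosedImmersion i] (hi : Set.range i = Z) :
    ClSub.IsProperOver f Z ↔ IsProper (i ≫ f) := by
  have h : IsClosed Z := hi ▸ i.isClosedEmbedding.isClosed_range
  obtain ⟨j, hj, _, _⟩ := exists_lift_vanishingIdeal h i hi
  constructor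
  · rintro ⟨h', hp⟩
    have : IsProper (j ≫ i ≫ f) := by
      rw [← Category.assoc, hj]; exact hp
    exact isProper_of_comp_surjective j (i ≫ f)
  · intro hp
    refine ⟨h, ?_⟩
    rw [← hj, Category.assoc]
    infer_instance

lemma isProperOver_range (a : T ⟶ Y) (q : Y ⟶ S) [LocallyOfFiniteType q] [UniversallyClosed a]
    [IsProper (a ≫ q)] : ClSub.IsProperOver q (Set.range a) := by
  have hr : Set.range a.imageι = Set.range a := by
    rw [Scheme.IdealSheafData.range_subschemeι, Scheme.Hom.support_ker]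
    exact a.isClosedMap.isClosed_range.closure_eq
  rw [isProperOver_iff q a.imageι hr]
  have : Surjective a.toImage := inferInstance
  have : IsProper (a.toImage ≫ a.imageι ≫ q) := by
    rw [← Category.assoc, a.toImage_imageι]; infer_instance
  exact isProper_of_comp_surjective a.toImage _

lemma exists_of_isProperOver (f : X ⟶ S) {Z : Set X} (h : ClSub.IsProperOver f Z) :
    ∃ (T : Scheme.{u}) (i : T ⟶ X), IsClosedImmersion i ∧ Set.range i = Z ∧ IsProper (i ≫ f) := by
  obtain ⟨h, hp⟩ := h
  refine ⟨_, (Scheme.IdealSheafData.vanishingIdeal ⟨Z, h⟩).subschemeι, inferInstance, ?_, hp⟩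
  rw [Scheme.IdealSheafData.range_subschemeι, Scheme.IdealSheafData.coe_support_vanishingIdeal]
  rfl

lemma isProperOver_image_of_isSeparated (p : X ⟶ S) (q : Y ⟶ S) [LocallyOfFiniteType q]
    [IsSeparated q] (f : X ⟶ Y) (w : f ≫ q = p) (Z : Set X) (hZ : ClSub.IsProperOver p Z) :
    ClSub.IsProperOver q (⇑f '' Z) := by
  obtain ⟨T, i, _, rfl, hi⟩ := exists_of_isProperOver p hZ
  have h1 : IsProper ((i ≫ f) ≫ q) := by rw [Category.assoc, w]; exact hi
  have h2 : IsProper (i ≫ f) := IsProper.of_comp _ q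
  have := isProperOver_range (i ≫ f) q
  rwa [Scheme.Hom.comp_base, TopCat.coe_comp, Set.range_comp] at this

lemma isProperOver_image_of_universallyClosed (p : X ⟶ S) (q : Y ⟶ S) [LocallyOfFiniteType q]
    (f : X ⟶ Y) [UniversallyClosed f] (w : f ≫ q = p) (Z : Set X) (hZ : ClSub.IsProperOver p Z) :
    ClSub.IsProperOver q (⇑f '' Z) := by
  obtain ⟨T, i, _, rfl, hi⟩ := exists_of_isProperOver p hZ
  have h1 : IsProper ((i ≫ f) ≫ q) := by rw [Category.assoc, w]; exact hi
  have := isProperOver_range (i ≫ f) q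
  rwa [Scheme.Hom.comp_base, TopCat.coe_comp, Set.range_comp] at this

lemma isProperOver_preimage_of_isProper (p : X ⟶ S) (q : Y ⟶ S) [LocallyOfFiniteType p]
    [LocallyOfFiniteType q] (f : X ⟶ Y) [IsProper f] (w : f ≫ q = p) (Z : Set Y)
    (hZ : ClSub.IsProperOver q Z) : ClSub.IsProperOver p (⇑f ⁻¹' Z) := by
  obtain ⟨T, i, _, rfl, hi⟩ := exists_of_isProperOver q hZ
  rw [isProperOver_iff p (pullback.fst f i) (Scheme.Pullback.range_fst ..)]
  have : pullback.fst f i ≫ p = pullback.snd f i ≫ i ≫ q := by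
    rw [← w, ← Category.assoc, pullback.condition, Category.assoc]
  rw [this]
  infer_instance

lemma isProperOver_preimage_of_isPullback {X' S' : Scheme.{u}} (f : X ⟶ S)
    [LocallyOfFiniteType f] (g : S' ⟶ S)
    (g' : X' ⟶ X) (f' : X' ⟶ S') (sq : IsPullback g' f' f g) (Z : Set X)
    (hZ : ClSub.IsProperOver f Z) : ClSub.IsProperOver f' (⇑g' ⁻¹' Z) := by
  obtain ⟨T, i, _, rfl, hi⟩ := exists_of_isProperOver f hZ
  have : LocallyOfFiniteType f' := MorphismProperty.of_isPullback sq ‹_›
  rw [isProperOver_iff f' (pullback.fst g' i) (Scheme.Pullback.range_fst ..)]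
  exact MorphismProperty.of_isPullback ((IsPullback.of_hasPullback g' i).flip.paste_vert sq) hi

end Groth.Agent.H2
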