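import Groth.Prelude.Def_DerLim
import Mathlib.CategoryTheory.Abelian.GrothendieckAxioms.Basic
import Mathlib.CategoryTheory.Functor.OfSequence
import Mathlib.CategoryTheory.Abelian.Exact
import Mathlib.Algebra.Homology.ShortComplex.ShortExact

set_option autoImplicit false
universe v u w

namespace Groth.Agent.H2.Tele

open CategoryTheory CategoryTheory.Limits
open scoped ZeroObject

section
variable {A : Type u} [Category.{v} A] [Preadditive A]

/-- projections -/
noncomputable def pr (X : ℕ → A) [HasCoproduct X] (i : ℕ) : ∐ X ⟶ X i :=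
  Sigma.desc (fun j => if h : j = i then eqToHom (by rw [h]) else 0)

lemma ι_pr_self (X : ℕ → A) [HasCoproduct X] (i : ℕ) : Sigma.ι X i ≫ pr X i = 𝟙 _ := by
  simp [pr]

lemma ι_pr_ne (X : ℕ → A) [HasCoproduct X] {i j : ℕ} (h : j ≠ i) :
    Sigma.ι X j ≫ pr X i = 0 := by
  simp [pr, h]

variable (F : ℕ ⥤ A) [HasCoproduct F.obj]

noncomputable abbrev sh : (∐ F.obj) ⟶ ∐ F.obj :=
  DerLim.shiftMap F.obj (fun n => F.map (homOfLE (Nat.le_succ n)))

lemma ι_sh (n : ℕ) : Sigma.ι F.obj n ≫ sh F = F.map (homOfLE (Nat.le_succ n)) ≫ Sigma.ι F.obj (n + 1) := by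
  simp [sh, DerLim.shiftMap]

/-- push everything below `n` to `n` and kill the rest -/
noncomputable def tau (n : ℕ) : (∐ F.obj) ⟶ F.obj n :=
  Sigma.desc (fun i => if h : i ≤ n then F.map (homOfLE h) else 0)

lemma ι_tau_le {i n : ℕ} (h : i ≤ n) : Sigma.ι F.obj i ≫ tau F n = F.map (homOfLE h) := by
  simp [tau, h]

lemma ι_tau_gt {i n : ℕ} (h : ¬ i ≤ n) : Sigma.ι F.obj i ≫ tau F n = 0 := by
  simp [tau, h]

lemma one_sub_sh_tau (n : ℕ) : (𝟙 (∐ F.obj) - sh F) ≫ tau F n = pr F.obj n := by
  apply Sigma.hom_ext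
  intro i
  rw [Preadditive.sub_comp, Preadditive.comp_sub, Category.id_comp, ← Category.assoc, ι_sh,
    Category.assoc]
  rcases lt_trichotomy i n with h | h | h
  · rw [ι_tau_le F h.le, ι_tau_le F (Nat.succ_le_of_lt h), ι_pr_ne _ h.ne, ← F.map_comp]
    exact sub_self _
  · subst h
    rw [ι_tau_le F le_rfl, ι_tau_gt F (by omega), comp_zero, sub_zero, ι_pr_self]
    exact F.map_id i
  · rw [ι_tau_gt F (by omega), ι_tau_gt F (by omega), comp_zero, sub_zero, ι_pr_ne _ h.ne']

end

section
variable {A : Type u} [Category.{v} A] [Abelian A] [HasColimitsOfShape ℕ A] [HasExactColimitsOfShape ℕ A]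

/-- tail projection -/
noncomputable def tail (X : ℕ → A) [HasCoproduct X] (n : ℕ) : (∐ X) ⟶ ∐ X :=
  Sigma.desc (fun i => if i < n then 0 else Sigma.ι X i)

lemma ι_tail_lt (X : ℕ → A) [HasCoproduct X] {i n : ℕ} (h : i < n) : Sigma.ι X i ≫ tail X n = 0 := by
  simp [tail, h]

lemma ι_tail_ge (X : ℕ → A) [HasCoproduct X] {i n : ℕ} (h : ¬ i < n) :
    Sigma.ι X i ≫ tail X n = Sigma.ι X i := by
  simp [tail, h]

lemma tail_add (X : ℕ → A) [HasCoproduct X] (n : ℕ) :
    tail X n = 𝟙 _ - ∑ i ∈ Finset.range n, pr X i ≫ Sigma.ι X i := by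
  apply Sigma.hom_ext
  intro j
  rw [Preadditive.comp_sub, Preadditive.comp_sum, Category.comp_id]
  by_cases h : j < n
  · rw [ι_tail_lt X h, Finset.sum_eq_single j]
    · rw [← Category.assoc, ι_pr_self, Category.id_comp, sub_self]
    · intro i _ hi
      rw [← Category.assoc, ι_pr_ne X hi.symm, zero_comp]
    · intro h'; exact absurd (Finset.mem_range.mpr h) h'
  · rw [ι_tail_ge X h, Finset.sum_eq_zero, sub_zero]
    intro i hi
    rw [← Category.assoc, ι_pr_ne X (by have := Finset.mem_range.mp hi; omega), zero_comp]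

/-- maps into a countable coproduct are determined by their coordinates. -/
lemma eq_zero_of_pr (X : ℕ → A) [HasCoproduct X] {T : A} (x : T ⟶ ∐ X) (hx : ∀ n, x ≫ pr X n = 0) :
    x = 0 := by
  -- reduce to a monomorphism
  suffices H : ∀ {T : A} (x : T ⟶ ∐ X) [Mono x], (∀ n, x ≫ pr X n = 0) → x = 0 by
    have h1 : image.ι x = 0 := by
      apply H
      intro n
      rw [← cancel_epi (factorThruImage x), ← Category.assoc, image.fac, hx n, comp_zero]
    rw [← image.fac x, h1, comp_zero]
  intro T x _ hx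
  have hxt : ∀ n, x ≫ tail X n = x := by
    intro n
    rw [tail_add, Preadditive.comp_sub, Category.comp_id, Preadditive.comp_sum]
    simp only [← Category.assoc, hx, zero_comp, Finset.sum_const_zero, sub_zero]
  let G : ℕ ⥤ A := Functor.ofSequence (X := fun _ => ∐ X) (fun n => tail X (n + 1))
  let φ : (Functor.const ℕ).obj T ⟶ G := NatTrans.ofSequence (fun n => x) (by
    intro n
    simp only [Functor.const_obj_map, G, Functor.ofSequence_map_homOfLE_succ]
    exact (Category.id_comp _).trans (hxt (n + 1)).symm)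
  have hφ : Mono φ := by
    have : ∀ n, Mono (φ.app n) := fun n => (show Mono x from inferInstance)
    exact NatTrans.mono_of_mono_app φ
  have hm : Mono (colim.map φ) := inferInstance
  have hG : IsZero (colimit G) := by
    rw [IsZero.iff_id_eq_zero]
    apply colimit.hom_ext
    intro n
    rw [Category.comp_id, comp_zero]
    apply Sigma.hom_ext
    intro i
    -- move far enough
    have key : ∀ k, ∃ g : (∐ X) ⟶ (∐ X), (colimit.ι G n : (∐ X) ⟶ _) = g ≫ tail X (n + k + 1) ≫
        (colimit.ι G (n + k + 1) : (∐ X) ⟶ _) ∧ ∀ i, (∃ c : X i ⟶ X i, Sigma.ι X i ≫ g = c ≫ Sigma.ι X i) := by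
      intro k
      induction k with
      | zero =>
        refine ⟨𝟙 _, ?_, fun i => ⟨𝟙 _, by simp⟩⟩
        have := colimit.w G (homOfLE (Nat.le_succ n))
        simp only [G, Functor.ofSequence_map_homOfLE_succ] at this
        rw [Category.id_comp]
        exact this.symm
      | succ k ih =>
        obtain ⟨g, hg, hg'⟩ := ih
        have := colimit.w G (homOfLE (Nat.le_succ (n + k + 1)))
        simp only [G, Functor.ofSequence_map_homOfLE_succ] at this
        refine ⟨g ≫ tail X (n + k + 1), ?_, fun i => ?_⟩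
        · rw [hg, Category.assoc]
          congr 2
          exact this.symm
        · obtain ⟨c, hc⟩ := hg' i
          by_cases h : i < n + k + 1
          · exact ⟨0, by rw [← Category.assoc, hc, Category.assoc, ι_tail_lt X h, comp_zero, zero_comp]⟩
          · exact ⟨c, by rw [← Category.assoc, hc, Category.assoc, ι_tail_ge X h]⟩
    obtain ⟨g, hg, hg'⟩ := key i
    obtain ⟨c, hc⟩ := hg' i
    have : Sigma.ι X i ≫ (colimit.ι G n : (∐ X) ⟶ _) = 0 := by
      rw [hg, ← Category.assoc, hc, Category.assoc, ← Category.assoc (Sigma.ι X i),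
        ι_tail_lt X (by omega), zero_comp, comp_zero]
    exact this.trans comp_zero.symm
  have hT : IsZero (colimit ((Functor.const ℕ).obj T)) := by
    rw [IsZero.iff_id_eq_zero, ← cancel_mono (colim.map φ)]
    exact hG.eq_of_tgt _ _
  have hT' : 𝟙 T = 0 := by
    have h1 : colimit.ι ((Functor.const ℕ).obj T) 0 ≫
        colimit.desc ((Functor.const ℕ).obj T) { pt := T, ι := { app := fun _ => 𝟙 T } } = 𝟙 T := by
      rw [colimit.ι_desc]
    rw [← h1, hT.eq_of_tgt (colimit.ι ((Functor.const ℕ).obj T) 0) 0, zero_comp]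
  rw [← Category.id_comp x, hT', zero_comp]

lemma mono_one_sub (F : ℕ ⥤ A) [HasCoproduct F.obj] : Mono (𝟙 (∐ F.obj) - sh F) := by
  rw [Preadditive.mono_iff_cancel_zero]
  intro T x hx
  apply eq_zero_of_pr
  intro n
  rw [← one_sub_sh_tau, ← Category.assoc, hx, zero_comp]

lemma w_zero (F : ℕ ⥤ A) [HasCoproduct F.obj] :
    (𝟙 (∐ F.obj) - sh F) ≫ Sigma.desc (fun n => colimit.ι F n) = 0 := by
  apply Sigma.hom_ext
  intro n
  rw [comp_zero, Preadditive.sub_comp, Preadditive.comp_sub, Category.id_comp, ← Category.assoc, ι_sh,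
    Category.assoc, Sigma.ι_desc, Sigma.ι_desc, colimit.w, sub_self]

lemma shortExact (F : ℕ ⥤ A) [HasCoproduct F.obj] :
    (ShortComplex.mk _ _ (w_zero F)).ShortExact := by
  have hk : ∀ {Z : A} (k : (∐ F.obj) ⟶ Z), (𝟙 (∐ F.obj) - sh F) ≫ k = 0 →
      ∀ i j (h : i ≤ j), F.map (homOfLE h) ≫ Sigma.ι F.obj j ≫ k = Sigma.ι F.obj i ≫ k := by
    intro Z k hk i j h
    induction j, h using Nat.le_induction with
    | base => rw [show homOfLE (le_refl i) = 𝟙 i from rfl, F.map_id, Category.id_comp]
    | succ j hij ih =>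
      rw [← ih]
      have h1 := congrArg (fun t => Sigma.ι F.obj j ≫ t) hk
      simp only [Preadditive.sub_comp, Preadditive.comp_sub, Category.id_comp, comp_zero] at h1
      rw [sub_eq_zero, ← Category.assoc _ (sh F), ι_sh, Category.assoc] at h1
      rw [h1]
      have e : F.map (homOfLE (hij.trans (Nat.le_succ j))) =
          F.map (homOfLE hij) ≫ F.map (homOfLE (Nat.le_succ j)) := by
        rw [← F.map_comp]; rfl
      exact (congrArg (fun t => t ≫ Sigma.ι F.obj (j + 1) ≫ k) e).trans (Category.assoc _ _ _)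
  have hcok : IsColimit (CokernelCofork.ofπ (Sigma.desc (fun n => colimit.ι F n)) (w_zero F)) := by
    refine CokernelCofork.IsColimit.ofπ _ _ (fun {Z} k hk' => colimit.desc F
      { pt := Z, ι := { app := fun n => Sigma.ι F.obj n ≫ k, naturality := ?_ } }) ?_ ?_
    · intro i j f
      have := hk k hk' i j (leOfHom f)
      simp only [Functor.const_obj_map, Category.comp_id, Functor.const_obj_obj]
      exact this
    · intro Z k hk'
      apply Sigma.hom_ext
      intro n
      simp
    · intro Z k hk' m hm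
      apply colimit.hom_ext
      intro n
      simp [← hm]
  have : Mono (𝟙 (∐ F.obj) - sh F) := mono_one_sub F
  have : Epi (Sigma.desc (fun n => colimit.ι F n)) := ⟨fun a b hab =>
    Cofork.IsColimit.hom_ext hcok hab⟩
  exact { exact := ShortComplex.exact_of_g_is_cokernel _ hcok, mono_f := ‹_›, epi_g := ‹_› }

end

end Groth.Agent.H2.Tele
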