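import Groth.Prelude.Def_MoreMor
import Groth.Agent.Lib.Helper2_Proper
import Mathlib.AlgebraicGeometry.Morphisms.Proper
import Mathlib.AlgebraicGeometry.Morphisms.Finite
import Mathlib.AlgebraicGeometry.Morphisms.QuasiFinite
import Mathlib.AlgebraicGeometry.Morphisms.UniversallyOpen
import Mathlib.AlgebraicGeometry.Morphisms.UniversallyInjective
import Mathlib.AlgebraicGeometry.ZariskisMainTheorem

set_option autoImplicit false
set_option backward.isDefEq.respectTransparency false
universe u

namespace Groth.Agent.H2

open AlgebraicGeometry CategoryTheory Limits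

variable {R T S X Y Z : Scheme.{u}}

lemma quasiCompact_of_comp_surjective (j : R ⟶ T) (g : T ⟶ S) [Surjective j]
    [QuasiCompact (j ≫ g)] : QuasiCompact g := by
  refine ⟨fun U hU hc => ?_⟩
  have h1 : IsCompact ((j ≫ g) ⁻¹' U) := QuasiCompact.isCompact_preimage U hU hc
  have h2 := h1.image j.continuous
  rwa [Scheme.Hom.comp_base, TopCat.coe_comp, Set.preimage_comp,
    Set.image_preimage_eq _ j.surjective] at h2

lemma quasiSeparated_of_comp_surjective (j : R ⟶ T) (g : T ⟶ S) [Surjective j]
    [QuasiCompact j] [QuasiSeparated (j ≫ g)] : QuasiSeparated g := by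
  let m : pullback (j ≫ g) (j ≫ g) ⟶ pullback g g :=
    pullback.map _ _ _ _ j j (𝟙 _) (by simp) (by simp)
  have hm : QuasiCompact m := by
    exact MorphismProperty.pullbackMap (P := @QuasiCompact) (f := j ≫ g) (g := j ≫ g) 
      (f' := g) (g' := g) (i₁ := j) (i₂ := j) inferInstance inferInstance rfl rfl
  have e : pullback.diagonal (j ≫ g) ≫ m = j ≫ pullback.diagonal g := by
    apply pullback.hom_ext <;> simp [m]
  have : QuasiCompact (j ≫ pullback.diagonal g) := by rw [← e]; infer_instance
  exact ⟨quasiCompact_of_comp_surjective j _⟩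

lemma universallyOpen_of_comp_surjective (f : X ⟶ Y) (g : Y ⟶ Z)
    [UniversallyOpen (f ≫ g)] [Surjective f] : UniversallyOpen g := by
  constructor
  intro X' Y' i₁ i₂ f' H
  have := UniversallyOpen.universally_isOpenMap _ _ _
    ((IsPullback.of_hasPullback i₁ f).paste_horiz H)
  intro U hU
  have h1 : Function.Surjective (pullback.fst i₁ f) :=
    (MorphismProperty.pullback_fst (P := @Surjective) _ _ ‹_›).1
  have h2 := this _ (hU.preimage (pullback.fst i₁ f).continuous)
  rwa [Scheme.Hom.comp_base, TopCat.coe_comp, Set.image_comp, Set.image_preimage_eq _ h1] at h2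

lemma universallyInjective_of_comp_surjective (j : R ⟶ T) (g : T ⟶ S) [Surjective j]
    [UniversallyInjective (j ≫ g)] : UniversallyInjective g := by
  rw [UniversallyInjective.iff_diagonal]
  let m : pullback (j ≫ g) (j ≫ g) ⟶ pullback g g :=
    pullback.map _ _ _ _ j j (𝟙 _) (by simp) (by simp)
  have hm : Surjective m := by
    exact MorphismProperty.pullbackMap (P := @Surjective) (f := j ≫ g) (g := j ≫ g) 
      (f' := g) (g' := g) (i₁ := j) (i₂ := j) inferInstance inferInstance rfl rfl
  have e : pullback.diagonal (j ≫ g) ≫ m = j ≫ pullback.diagonal g := by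
    apply pullback.hom_ext <;> simp [m]
  have : Surjective (pullback.diagonal (j ≫ g)) := by
    rw [← UniversallyInjective.iff_diagonal]; infer_instance
  have : Surjective (j ≫ pullback.diagonal g) := by rw [← e]; infer_instance
  exact Surjective.of_comp j _

lemma isHomeomorph_of_thick (i : X ⟶ Y) (h : MoreMor.IsThickening i) : IsHomeomorph i := by
  obtain ⟨h1, h2⟩ := h
  exact isHomeomorph_iff_isEmbedding_surjective.mpr ⟨i.isEmbedding, i.surjective⟩

lemma thick_of_isPullback {g' : X ⟶ Y} {f' : X ⟶ S} {f : Y ⟶ T} {g : S ⟶ T}
    (h : IsPullback f' g' g f) (hg : MoreMor.IsThickening g) : MoreMor.IsThickening g' :=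
  ⟨MorphismProperty.of_isPullback h hg.1, MorphismProperty.of_isPullback h hg.2⟩

lemma universallyOpen_of_thick (i : X ⟶ Y) (h : MoreMor.IsThickening i) : UniversallyOpen i := by
  constructor
  intro X' Y' i₁ i₂ f' H
  exact (isHomeomorph_of_thick _ (thick_of_isPullback H.flip h)).isOpenMap

section
variable {X X' S S' : Scheme.{u}} (iX : X ⟶ X') (iS : S ⟶ S') (f : X ⟶ S)
    (f' : X' ⟶ S') (hX : MoreMor.IsThickening iX) (hS : MoreMor.IsThickening iS) (w : iX ≫ f' = f ≫ iS)
include hX hS w

lemma thick_quasiCompact_iff : QuasiCompact f ↔ QuasiCompact f' := by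
  have := hX.1; have := hX.2; have := hS.1; have := hS.2
  constructor
  · intro h
    have : QuasiCompact (iX ≫ f') := by rw [w]; infer_instance
    exact quasiCompact_of_comp_surjective iX f'
  · intro h
    have : QuasiCompact (f ≫ iS) := by rw [← w]; infer_instance
    exact QuasiCompact.of_comp f iS

lemma thick_universallyClosed_iff : UniversallyClosed f ↔ UniversallyClosed f' := by
  have := hX.1; have := hX.2; have := hS.1; have := hS.2
  constructor
  · intro h
    have : UniversallyClosed (iX ≫ f') := by rw [w]; infer_instance
    exact UniversallyClosed.of_comp_surjective iX f'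
  · intro h
    have : UniversallyClosed (f ≫ iS) := by rw [← w]; infer_instance
    exact UniversallyClosed.of_comp_of_isSeparated f iS

lemma thick_quasiSeparated_iff : QuasiSeparated f ↔ QuasiSeparated f' := by
  have := hX.1; have := hX.2; have := hS.1; have := hS.2
  constructor
  · intro h
    have : QuasiSeparated (iX ≫ f') := by rw [w]; infer_instance
    exact quasiSeparated_of_comp_surjective iX f'
  · intro h
    have : QuasiSeparated (f ≫ iS) := by rw [← w]; infer_instance
    exact QuasiSeparated.of_comp f iS

lemma thick_isSeparated_iff : IsSeparated f ↔ IsSeparated f' := by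
  have := hX.1; have := hX.2; have := hS.1; have := hS.2
  constructor
  · intro h
    have : IsSeparated (iX ≫ f') := by rw [w]; infer_instance
    exact isSeparated_of_comp_surjective iX f'
  · intro h
    have : IsSeparated (f ≫ iS) := by rw [← w]; infer_instance
    exact IsSeparated.of_comp f iS

lemma thick_universallyInjective_iff : UniversallyInjective f ↔ UniversallyInjective f' := by
  have := hX.1; have := hX.2; have := hS.1; have := hS.2
  constructor
  · intro h
    have : UniversallyInjective (iX ≫ f') := by rw [w]; exact MorphismProperty.comp_mem _ _ _ h inferInstance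
    exact universallyInjective_of_comp_surjective iX f'
  · intro h
    have h1 : UniversallyInjective (f ≫ iS) := by rw [← w]; exact MorphismProperty.comp_mem _ _ _ inferInstance h
    exact MorphismProperty.of_postcomp (W := @UniversallyInjective) (W' := .monomorphisms _) f iS inferInstance h1

lemma thick_universallyOpen_iff : UniversallyOpen f ↔ UniversallyOpen f' := by
  have := hX.1; have := hX.2; have := hS.1; have := hS.2
  have := universallyOpen_of_thick iX hX; have := universallyOpen_of_thick iS hS
  constructor
  · intro h
    have : UniversallyOpen (iX ≫ f') := by rw [w]; infer_instance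
    exact universallyOpen_of_comp_surjective iX f'
  · intro h
    have h1 : UniversallyOpen (f ≫ iS) := by rw [← w]; infer_instance
    exact MorphismProperty.of_postcomp (W := @UniversallyOpen) (W' := .monomorphisms _) f iS 
      (inferInstanceAs (Mono iS)) h1

lemma thick_surjective_iff : Surjective f ↔ Surjective f' := by
  have := hX.1; have := hX.2; have := hS.1; have := hS.2
  constructor
  · intro h
    have : Surjective (iX ≫ f') := by rw [w]; infer_instance
    exact Surjective.of_comp iX f'
  · intro h
    have h1 : Surjective (f ≫ iS) := by rw [← w]; infer_instance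
    refine ⟨fun s => ?_⟩
    obtain ⟨x, hx⟩ := (f ≫ iS).surjective (iS s)
    exact ⟨x, iS.isClosedEmbedding.injective (by rw [← hx, Scheme.Hom.comp_apply])⟩

lemma thick_locallyQuasiFinite_iff [LocallyOfFiniteType f] [LocallyOfFiniteType f'] :
    LocallyQuasiFinite f ↔ LocallyQuasiFinite f' := by
  have := hX.1; have := hX.2; have := hS.1; have := hS.2
  rw [locallyQuasiFinite_iff_isDiscrete_preimage_singleton, 
    locallyQuasiFinite_iff_isDiscrete_preimage_singleton]
  have e : ∀ s : S, f ⁻¹' {s} = iX ⁻¹' (f' ⁻¹' {iS s}) := by
    intro s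
    ext x
    simp only [Set.mem_preimage, Set.mem_singleton_iff]
    rw [← Scheme.Hom.comp_apply, w, Scheme.Hom.comp_apply]
    exact (iS.isClosedEmbedding.injective.eq_iff).symm
  have hh := isHomeomorph_of_thick iX hX
  constructor
  · intro h y
    obtain ⟨s, rfl⟩ := iS.surjective y
    have h1 := h s
    rw [e s] at h1
    have h2 := h1.image hh.isEmbedding.isInducing
    rwa [Set.image_preimage_eq _ iX.surjective] at h2
  · intro h s
    rw [e s]
    exact (h (iS s)).preimage hh.continuous.continuousOn hh.injective

end

end Groth.Agent.H2
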