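import Groth.Agent.Lib.Helper2_Tri

set_option autoImplicit false
universe v u w

namespace Groth.Agent.H2.Tri

open CategoryTheory CategoryTheory.Limits CategoryTheory.Pretriangulated ObjectProperty
open scoped ZeroObject

variable {D : Type u} [Category.{v} D] [Preadditive D] [HasZeroObject D] [HasShift D ℤ]
    [∀ n : ℤ, (shiftFunctor D n).Additive] [Pretriangulated D]

lemma extensionProduct_swap (P Q : ObjectProperty D) [Q.IsStableUnderShift ℤ]
    (h : ∀ A B, P A → Q B → ∀ f : A ⟶ B, f = 0) :
    extensionProduct Q P ≤ extensionProduct P Q := by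
  rintro X ⟨B, A, f, g, w, hT, hB, hA⟩
  have hw : w = 0 := h _ _ hA (Q.le_shift (1 : ℤ) _ hB) w
  obtain ⟨e, -, -⟩ := exists_iso_binaryBiproduct_of_distTriang _ hT hw
  have h1 : extensionProduct P Q (A ⊞ B) :=
    ⟨A, B, _, _, _, binaryBiproductTriangle_distinguished A B, hA, hB⟩
  exact (extensionProduct P Q).prop_of_iso ((biprod.braiding A B) ≪≫ e.symm) h1

lemma isTriangulated_extensionProduct [IsTriangulated D] (P Q : ObjectProperty D) [P.IsTriangulated]
    [Q.IsTriangulated] (h : ∀ A B, P A → Q B → ∀ f : A ⟶ B, f = 0) :
    (extensionProduct P Q).IsTriangulated := by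
  have hPP : extensionProduct P P ≤ P.isoClosure :=
    fun X ⟨Y, Z, f, g, w, hT, hY, hZ⟩ => P.ext_of_isTriangulatedClosed₂' _ hT hY hZ
  have hQQ : extensionProduct Q Q ≤ Q.isoClosure :=
    fun X ⟨Y, Z, f, g, w, hT, hY, hZ⟩ => Q.ext_of_isTriangulatedClosed₂' _ hT hY hZ
  have key : extensionProduct (extensionProduct P Q) (extensionProduct P Q) ≤ extensionProduct P Q := by
    calc extensionProduct (extensionProduct P Q) (extensionProduct P Q)
        = extensionProduct P (extensionProduct (extensionProduct Q P) Q) := by
          rw [extensionProduct_assoc, ← extensionProduct_assoc Q P Q]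
      _ ≤ extensionProduct P (extensionProduct (extensionProduct P Q) Q) :=
          monotone_extensionProduct_right _ (monotone_extensionProduct_left _ (extensionProduct_swap P Q h))
      _ = extensionProduct (extensionProduct P P) (extensionProduct Q Q) := by
          rw [extensionProduct_assoc P Q Q, ← extensionProduct_assoc P P]
      _ ≤ extensionProduct P.isoClosure Q.isoClosure :=
          (monotone_extensionProduct_left _ hPP).trans (monotone_extensionProduct_right _ hQQ)
      _ = extensionProduct P Q := by
          rw [extensionProduct_isoClosure_left, extensionProduct_isoClosure_right]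
  have h0 : (extensionProduct P Q).ContainsZero := by
    obtain ⟨Z, hZ, hP⟩ := P.exists_prop_of_containsZero
    exact ⟨Z, hZ, le_extensionProduct_left (P := P) Q _ hP⟩
  have h2 : (extensionProduct P Q).IsTriangulatedClosed₂ :=
    .mk' fun T hT h1 h3 => key _ ⟨_, _, _, _, _, hT, h1, h3⟩
  exact { }

end Groth.Agent.H2.Tri
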