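import Mathlib
import Groth.Agent.Lib.Lead_Spread6

set_option autoImplicit false
universe u
open AlgebraicGeometry CategoryTheory TopologicalSpace Opposite

namespace Groth.Agent.LeadSpread

variable {X Y S : Scheme.{u}}

lemma eq_of_specializes_generic {y y' : Y} (hy : closure {y} ∈ irreducibleComponents (Y : Type u))
    (h : y' ⤳ y) : y' = y := by
  have h1 : closure ({y} : Set Y) ⊆ closure {y'} := h.closure_subset
  have h2 : closure ({y'} : Set Y) ⊆ closure {y} := hy.2 isIrreducible_singleton.closure h1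
  exact (inseparable_iff_closure_eq.2 (Set.Subset.antisymm h2 h1)).eq

lemma generic_fiber (f : X ⟶ Y)
    (hiso : ∀ x : X, closure {x} ∈ irreducibleComponents ↥X → IsIso (f.stalkMap x))
    {p : X} (hp : closure {f p} ∈ irreducibleComponents ↥Y) :
    closure {p} ∈ irreducibleComponents ↥X := by
  obtain ⟨x, hx, hpx⟩ := exists_generic p
  have hsp : x ⤳ p := specializes_iff_mem_closure.2 hpx
  have hfsp : f x ⤳ f p := hsp.map f.continuous
  have hfx : f x = f p := eq_of_specializes_generic hp hfsp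
  have hst : Y.presheaf.stalkSpecializes hfsp ≫ f.stalkMap x =
      f.stalkMap p ≫ X.presheaf.stalkSpecializes hsp := f.stalkSpecializes_stalkMap x p hsp
  have hiY : IsIso (Y.presheaf.stalkSpecializes hfsp) := by
    refine ⟨Y.presheaf.stalkSpecializes (Inseparable.of_eq hfx.symm).specializes, ?_, ?_⟩
    · rw [TopCat.Presheaf.stalkSpecializes_comp, TopCat.Presheaf.stalkSpecializes_refl]
    · rw [TopCat.Presheaf.stalkSpecializes_comp, TopCat.Presheaf.stalkSpecializes_refl]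
  have hix := hiso x hx
  have hsurj : Function.Surjective (X.presheaf.stalkSpecializes hsp).hom := by
    have h1 : IsIso (f.stalkMap p ≫ X.presheaf.stalkSpecializes hsp) := by
      rw [← hst]; infer_instance
    have h2 := (ConcreteCategory.isIso_iff_bijective
      (f.stalkMap p ≫ X.presheaf.stalkSpecializes hsp)).1 h1
    intro a
    obtain ⟨b, hb⟩ := h2.2 a
    exact ⟨f.stalkMap p b, hb⟩
  have hloc : IsLocalHom (X.presheaf.stalkSpecializes hsp).hom := IsLocalHom.of_surjective _ hsurj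
  have h3 := Scheme.SpecMap_stalkSpecializes_fromSpecStalk (X := X) hsp
  have h4 := congr($h3 (IsLocalRing.closedPoint (X.presheaf.stalk x)))
  rw [Scheme.Hom.comp_apply, Scheme.fromSpecStalk_closedPoint] at h4
  have h5 : (Spec.map (X.presheaf.stalkSpecializes hsp))
      (IsLocalRing.closedPoint (X.presheaf.stalk x)) =
      IsLocalRing.closedPoint (X.presheaf.stalk p) :=
    IsLocalRing.comap_closedPoint (X.presheaf.stalkSpecializes hsp).hom
  rw [h5, Scheme.fromSpecStalk_closedPoint] at h4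
  rw [h4]
  exact hx

lemma mem_image_of_generic (f : X ⟶ Y) [QuasiCompact f] (Z : Set X) (hZ : IsClosed Z) (y : Y)
    (hy : closure {y} ∈ irreducibleComponents ↥Y) (hyZ : y ∈ closure (f '' Z)) : y ∈ f '' Z := by
  obtain ⟨_, ⟨V : Y.Opens, hV, rfl⟩, hyV, -⟩ :=
    Y.isBasis_affineOpens.exists_subset_of_mem_open (Set.mem_univ y) isOpen_univ
  have hVa : IsAffine V := hV
  have hcpt : CompactSpace (f ⁻¹ᵁ V) := by
    exact isCompact_iff_compactSpace.1
      (QuasiCompact.isCompact_preimage (f := f) V V.2 hV.isCompact)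
  obtain ⟨R, g, hg⟩ := compactSpace_iff_exists.mp hcpt
  let h : Spec R ⟶ Spec Γ(V, ⊤) := g ≫ (f ∣_ V) ≫ V.toScheme.isoSpec.hom
  obtain ⟨φ, hφ⟩ : ∃ φ, Spec.map φ = h := Spec.map_surjective h
  let q : Spec R ⟶ X := g ≫ (f ⁻¹ᵁ V).ι
  let y₀ : V := ⟨y, hyV⟩
  let y' : Spec Γ(V, ⊤) := V.toScheme.isoSpec.hom y₀
  have hinv : ∀ v : V, V.toScheme.isoSpec.inv (V.toScheme.isoSpec.hom v) = v := by
    intro v
    rw [← Scheme.Hom.comp_apply, Iso.hom_inv_id]
    rfl
  have hcomp : ∀ r : Spec R, (V.ι (V.toScheme.isoSpec.inv (h r)) : Y) = f (q r) := by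
    intro r
    have : h ≫ V.toScheme.isoSpec.inv ≫ V.ι = q ≫ f := by
      simp only [h, q, Category.assoc, Iso.hom_inv_id_assoc, morphismRestrict_ι]
    rw [← Scheme.Hom.comp_apply, ← Scheme.Hom.comp_apply, this, Scheme.Hom.comp_apply]
  let Z' : Set (Spec R) := q ⁻¹' Z
  have hZ' : IsClosed Z' := hZ.preimage q.continuous
  have hy' : y' ∈ closure (h '' Z') := by
    rw [mem_closure_iff]
    intro N hN hyN
    -- open of Y
    let N₁ : Set V := V.toScheme.isoSpec.hom ⁻¹' N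
    have hN₁ : IsOpen N₁ := hN.preimage V.toScheme.isoSpec.hom.continuous
    have hN₂ : IsOpen (V.ι '' N₁) := V.ι.isOpenEmbedding.isOpenMap _ hN₁
    obtain ⟨_, ⟨v, hv, rfl⟩, z, hz, hzv⟩ := mem_closure_iff.1 hyZ _ hN₂ ⟨y₀, hyN, rfl⟩
    have hzV : f z ∈ V := by rw [hzv]; exact v.2
    obtain ⟨r, hr⟩ := hg (⟨z, hzV⟩ : (f ⁻¹ᵁ V).toScheme)
    have hqr : q r = z := by
      show ((g ≫ (f ⁻¹ᵁ V).ι) r : X) = z
      rw [Scheme.Hom.comp_apply, hr]
      rfl
    refine ⟨h r, ?_, ⟨r, ?_, rfl⟩⟩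
    · have h1 : V.toScheme.isoSpec.inv (h r) = v := by
        apply V.ι.injective
        rw [hcomp, hqr, hzv]
      have h2 : V.toScheme.isoSpec.hom (V.toScheme.isoSpec.inv (h r)) = h r := by
        rw [← Scheme.Hom.comp_apply, Iso.inv_hom_id]
        rfl
      rw [← h2, h1]
      exact hv
    · show q r ∈ Z
      rw [hqr]
      exact hz
  obtain ⟨I, hI⟩ := (PrimeSpectrum.isClosed_iff_zeroLocus_ideal Z').1 hZ'
  have hcl : closure (h '' Z') = PrimeSpectrum.zeroLocus (I.comap φ.hom) := by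
    rw [← PrimeSpectrum.closure_image_comap_zeroLocus, ← hI, ← hφ]
    rfl
  have hmin : ∀ w : Spec Γ(V, ⊤), w.asIdeal ≤ y'.asIdeal → w = y' := by
    intro w hw
    have hw' : w ⤳ y' := (PrimeSpectrum.le_iff_specializes w y').1 hw
    have h1 : V.ι (V.toScheme.isoSpec.inv w) ⤳ V.ι (V.toScheme.isoSpec.inv y') :=
      (hw'.map V.toScheme.isoSpec.inv.continuous).map V.ι.continuous
    have h2 : (V.ι (V.toScheme.isoSpec.inv y') : Y) = y := by
      show V.ι (V.toScheme.isoSpec.inv (V.toScheme.isoSpec.hom y₀)) = y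
      rw [hinv]
      rfl
    rw [h2] at h1
    have h3 := eq_of_specializes_generic hy h1
    have h4 : V.toScheme.isoSpec.inv w = V.toScheme.isoSpec.inv y' := by
      apply V.ι.injective
      rw [h3, h2]
    exact V.toScheme.isoSpec.inv.injective h4
  rw [hcl] at hy'
  have hmp : y'.asIdeal ∈ (I.comap φ.hom).minimalPrimes := by
    refine ⟨⟨y'.isPrime, hy'⟩, ?_⟩
    rintro J ⟨hJp, hJ⟩ hJle
    have := hmin ⟨J, hJp⟩ hJle
    rw [← this]
  obtain ⟨P, hP, hIP, hPc⟩ := Ideal.exists_comap_eq_of_mem_minimalPrimes φ.hom _ hmp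
  let r : Spec R := ⟨P, hP⟩
  have hrZ : r ∈ Z' := by
    rw [hI]
    exact hIP
  have hhr : h r = y' := by
    rw [← hφ]
    exact PrimeSpectrum.ext hPc
  refine ⟨q r, hrZ, ?_⟩
  rw [← hcomp, hhr]
  show V.ι (V.toScheme.isoSpec.inv (V.toScheme.isoSpec.hom y₀)) = y
  rw [hinv]
  rfl

lemma isIso_restrict_of_le (f : X ⟶ Y) (U : X.Opens) [IsOpenImmersion (U.ι ≫ f)] (V : Y.Opens)
    (h1 : f ⁻¹ᵁ V ≤ U) (h2 : V ≤ (U.ι ≫ f).opensRange) : IsIso (f ∣_ V) := by
  have e1 : (f ∣_ V) ≫ V.ι = X.homOfLE h1 ≫ U.ι ≫ f := by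
    rw [morphismRestrict_ι, Scheme.homOfLE_ι_assoc]
  have e2 : IsOpenImmersion ((f ∣_ V) ≫ V.ι) := by rw [e1]; infer_instance
  have e3 : IsOpenImmersion (f ∣_ V) := IsOpenImmersion.of_comp _ V.ι
  have e4 : Function.Surjective (f ∣_ V) := by
    intro v
    obtain ⟨u, hu⟩ := h2 v.2
    have hu' : f u.1 = v.1 := hu
    have hmem : u.1 ∈ f ⁻¹ᵁ V := by
      show f u.1 ∈ V
      rw [hu']; exact v.2
    refine ⟨⟨u.1, hmem⟩, ?_⟩
    apply V.ι.injective
    rw [← Scheme.Hom.comp_apply, morphismRestrict_ι]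
    exact hu'
  rw [isIso_iff_isOpenImmersion_and_epi_base]
  exact ⟨e3, (TopCat.epi_iff_surjective _).2 e4⟩

lemma generic_mem_of_dense (hXfin : (irreducibleComponents ↥X).Finite) (U : X.Opens)
    (hU : Dense (U : Set X)) (x : X) (hx : closure {x} ∈ irreducibleComponents ↥X) : x ∈ U := by
  let C : Set (Set X) := {Z ∈ irreducibleComponents ↥X | Z ≠ closure {x}}
  have hC : C.Finite := hXfin.subset (fun Z hZ => hZ.1)
  have hclosed : IsClosed (⋃ Z ∈ C, Z) :=
    hC.isClosed_biUnion (fun Z hZ => isClosed_of_mem_irreducibleComponents Z hZ.1)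
  have hxC : x ∈ (⋃ Z ∈ C, Z)ᶜ := by
    intro hmem
    obtain ⟨Z, hZ, hyZ⟩ := Set.mem_iUnion₂.1 hmem
    have hle : closure {x} ⊆ Z :=
      closure_minimal (Set.singleton_subset_iff.2 hyZ)
        (isClosed_of_mem_irreducibleComponents Z hZ.1)
    exact hZ.2 (Set.Subset.antisymm (hx.2 hZ.1.1 hle) hle)
  obtain ⟨p, hp, hpU⟩ := hU.inter_open_nonempty _ hclosed.isOpen_compl ⟨x, hxC⟩
  have hpx : irreducibleComponent p = closure {x} := by
    by_contra hne
    exact hp (Set.mem_biUnion (show irreducibleComponent p ∈ C from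
      ⟨irreducibleComponent_mem_irreducibleComponents p, hne⟩) mem_irreducibleComponent)
  have hspec : x ⤳ p := by
    rw [specializes_iff_mem_closure, ← hpx]
    exact mem_irreducibleComponent
  exact hspec.mem_open U.2 hpU

lemma preimage_le_of_separated (f : X ⟶ Y) [IsSeparated f] (U : X.Opens)
    (hUd : Dense (U : Set X)) [IsOpenImmersion (U.ι ≫ f)] (V : Y.Opens)
    (h2 : V ≤ (U.ι ≫ f).opensRange) : f ⁻¹ᵁ V ≤ U := by
  obtain ⟨t, ht, htf⟩ := exists_section (U.ι ≫ f) V h2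
  let W : X.Opens := f ⁻¹ᵁ V
  let s : W.toScheme ⟶ X := W.ι
  let s' : W.toScheme ⟶ X := (f ∣_ V) ≫ t ≫ U.ι
  have hs' : s' ≫ f = W.ι ≫ f := by
    show ((f ∣_ V) ≫ t ≫ U.ι) ≫ f = _
    rw [Category.assoc, Category.assoc, htf, morphismRestrict_ι]
  let e : W.toScheme ⟶ Limits.pullback f f := Limits.pullback.lift s s' hs'.symm
  have he1 : e ≫ Limits.pullback.fst f f = s := Limits.pullback.lift_fst _ _ _
  have he2 : e ≫ Limits.pullback.snd f f = s' := Limits.pullback.lift_snd _ _ _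
  let D : Set (Limits.pullback f f : Scheme.{u}) := Set.range (Limits.pullback.diagonal f)
  have hD : IsClosed D := (Limits.pullback.diagonal f).isClosedEmbedding.isClosed_range
  have hE : IsClosed (e ⁻¹' D) := hD.preimage e.continuous
  let B : W.toScheme.Opens := W.ι ⁻¹ᵁ U
  have hBd : Dense (B : Set W.toScheme) := hUd.preimage W.ι.isOpenEmbedding.isOpenMap
  have hr : Set.range (B.ι ≫ W.ι) ⊆ Set.range U.ι := by
    rintro _ ⟨b, rfl⟩
    rw [Scheme.Opens.range_ι]
    exact b.2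
  let τ : B.toScheme ⟶ U.toScheme := IsOpenImmersion.lift U.ι (B.ι ≫ W.ι) hr
  have hτ : τ ≫ U.ι = B.ι ≫ W.ι := IsOpenImmersion.lift_fac _ _ _
  have hagree : B.ι ≫ s = B.ι ≫ s' := by
    have h1 : τ = B.ι ≫ (f ∣_ V) ≫ t := by
      rw [← cancel_mono (U.ι ≫ f), ← Category.assoc, hτ, Category.assoc, Category.assoc,
        Category.assoc, htf, morphismRestrict_ι]
    show B.ι ≫ W.ι = B.ι ≫ (f ∣_ V) ≫ t ≫ U.ι
    rw [← hτ, h1]
    simp only [Category.assoc]
  have hBE : (B : Set W.toScheme) ⊆ e ⁻¹' D := by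
    intro b hb
    have h1 : B.ι ≫ e = (B.ι ≫ s) ≫ Limits.pullback.diagonal f := by
      refine Limits.pullback.hom_ext ?_ ?_
      · rw [Category.assoc, he1, Category.assoc, Limits.pullback.diagonal_fst, Category.comp_id]
      · rw [Category.assoc, he2, Category.assoc, Limits.pullback.diagonal_snd, Category.comp_id,
          hagree]
    refine ⟨(B.ι ≫ s) ⟨b, hb⟩, ?_⟩
    rw [← Scheme.Hom.comp_apply, ← h1]
    rfl
  have hall : e ⁻¹' D = Set.univ := by
    refine Set.eq_univ_of_univ_subset ?_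
    rw [← hBd.closure_eq]
    exact hE.closure_subset_iff.2 hBE
  intro p hp
  have hmem : (⟨p, hp⟩ : W.toScheme) ∈ e ⁻¹' D := by rw [hall]; trivial
  obtain ⟨z, hz⟩ := hmem
  have h1 : s ⟨p, hp⟩ = z := by
    rw [← he1, Scheme.Hom.comp_apply, ← hz, ← Scheme.Hom.comp_apply,
      Limits.pullback.diagonal_fst]
    rfl
  have h2 : s' ⟨p, hp⟩ = z := by
    rw [← he2, Scheme.Hom.comp_apply, ← hz, ← Scheme.Hom.comp_apply,
      Limits.pullback.diagonal_snd]
    rfl
  have h3 : s ⟨p, hp⟩ = p := rfl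
  have h4 : s' ⟨p, hp⟩ ∈ U := by
    show ((f ∣_ V) ≫ t ≫ U.ι) ⟨p, hp⟩ ∈ U
    rw [← Category.assoc, Scheme.Hom.comp_apply]
    exact (((f ∣_ V) ≫ t) ⟨p, hp⟩).2
  show p ∈ U
  rw [← h3, h1, ← h2]
  exact h4

end Groth.Agent.LeadSpread
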