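import Mathlib
import Groth.Agent.Lib.Lead_Spread7

set_option autoImplicit false
universe u
open AlgebraicGeometry CategoryTheory TopologicalSpace Opposite

namespace Groth.Agent.LeadSpread

variable {X Y S : Scheme.{u}}

lemma flat_fromSpecStalk (x : X) : Flat (X.fromSpecStalk x) := by
  obtain ⟨_, ⟨U : X.Opens, hU, rfl⟩, hxU, -⟩ :=
    X.isBasis_affineOpens.exists_subset_of_mem_open (Set.mem_univ x) isOpen_univ
  have hU' : IsAffineOpen U := hU
  have hfl : Flat (Spec.map (X.presheaf.germ U x hxU)) := by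
    rw [Flat.SpecMap_iff]
    let := (X.presheaf.germ U x hxU).hom.toAlgebra
    have hloc := hU'.isLocalization_stalk ⟨x, hxU⟩
    have : Module.Flat Γ(X, U) (X.presheaf.stalk x) :=
      IsLocalization.flat (X.presheaf.stalk x) (hU'.primeIdealOf ⟨x, hxU⟩).asIdeal.primeCompl
    exact this
  have h2 : X.fromSpecStalk x = Spec.map (X.presheaf.germ U x hxU) ≫ hU'.fromSpec := by
    rw [← hU'.fromSpecStalk_eq_fromSpecStalk hxU]
    rfl
  rw [h2]
  infer_instance

lemma isIso_stalkMap_of_flat (f : X ⟶ Y) [IsPreimmersion f] [Flat f] (x : X) :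
    IsIso (f.stalkMap x) := by
  have hflat := Flat.stalkMap f x
  have hsurj : Function.Surjective (f.stalkMap x) := f.stalkMap_surjective x
  have hinj : Function.Injective (f.stalkMap x) := by
    let := (f.stalkMap x).hom.toAlgebra
    have h1 : Module.Flat (Y.presheaf.stalk (f x)) (X.presheaf.stalk x) := hflat
    have h3 : IsLocalHom (algebraMap (Y.presheaf.stalk (f x)) (X.presheaf.stalk x)) :=
      inferInstanceAs (IsLocalHom (f.stalkMap x).hom)
    have h2 : Module.FaithfullyFlat (Y.presheaf.stalk (f x)) (X.presheaf.stalk x) :=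
      Module.FaithfullyFlat.of_flat_of_isLocalHom
    exact FaithfulSMul.algebraMap_injective (Y.presheaf.stalk (f x)) (X.presheaf.stalk x)
  rw [ConcreteCategory.isIso_iff_bijective]
  exact ⟨hinj, hsurj⟩

lemma isIso_snd_generic (f : X ⟶ Y)
    (hbij : Set.BijOn (fun x : X => f.base x) {x : X | closure {x} ∈ irreducibleComponents ↥X}
      {y : Y | closure {y} ∈ irreducibleComponents ↥Y})
    (hiso : ∀ x : X, closure {x} ∈ irreducibleComponents ↥X → IsIso (f.stalkMap x))
    (y : Y) (hy : closure {y} ∈ irreducibleComponents ↥Y) :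
    IsIso (Limits.pullback.snd f (Y.fromSpecStalk y)) := by
  obtain ⟨x, hx, hxy⟩ := hbij.surjOn hy
  have hxy' : f x = y := hxy
  subst hxy'
  have hix := hiso x hx
  let i : Spec (Y.presheaf.stalk (f x)) ⟶ Y := Y.fromSpecStalk (f x)
  let fst := Limits.pullback.fst f i
  let snd := Limits.pullback.snd f i
  let sI : Spec (X.presheaf.stalk x) ⟶ Spec (Y.presheaf.stalk (f x)) := Spec.map (f.stalkMap x)
  have hsI : IsIso sI := inferInstance
  have hsq : sI ≫ i = X.fromSpecStalk x ≫ f := Scheme.SpecMap_stalkMap_fromSpecStalk _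
  let σ : Spec (Y.presheaf.stalk (f x)) ⟶ Limits.pullback f i :=
    Limits.pullback.lift (inv sI ≫ X.fromSpecStalk x) (𝟙 _)
      (by rw [Category.assoc, ← hsq, IsIso.inv_hom_id_assoc, Category.id_comp])
  have hfi : Flat i := flat_fromSpecStalk (f x)
  have hpi : IsPreimmersion i := inferInstance
  have hfp : IsPreimmersion fst := inferInstance
  have hff : Flat fst := inferInstance
  have hgi : ∀ a, i a = f x := by
    intro a
    have h2 : i a ⤳ f x := by
      have : i a ∈ Set.range (Y.fromSpecStalk (f x)) := ⟨a, rfl⟩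
      rwa [Scheme.range_fromSpecStalk] at this
    exact eq_of_specializes_generic hy h2
  have hpt : ∀ z, fst z = x := by
    intro z
    have h1 : f (fst z) = i (snd z) := by
      rw [← Scheme.Hom.comp_apply, ← Scheme.Hom.comp_apply, Limits.pullback.condition]
    have h4 : f (fst z) = f x := h1.trans (hgi _)
    have h5 := generic_fiber f hiso (p := fst z) (by rw [h4]; exact hy)
    exact hbij.injOn h5 hx h4
  have hsub : Subsingleton (Limits.pullback f i : Scheme.{u}) :=
    ⟨fun a b => fst.isEmbedding.injective ((hpt a).trans (hpt b).symm)⟩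
  have hsub2 : Subsingleton (Spec (Y.presheaf.stalk (f x))) :=
    ⟨fun a b => i.isEmbedding.injective ((hgi a).trans (hgi b).symm)⟩
  have hst : ∀ z, IsIso (snd.stalkMap z) := by
    intro z
    have h1 : IsIso (fst.stalkMap z) := isIso_stalkMap_of_flat fst z
    have h2 : IsIso (f.stalkMap (fst z)) := by rw [hpt z]; exact hix
    have h3 : IsIso (i.stalkMap (snd z)) := isIso_stalkMap_of_flat i (snd z)
    have h4 : IsIso ((fst ≫ f).stalkMap z) := by
      rw [Scheme.Hom.stalkMap_comp]
      exact IsIso.comp_isIso' h2 h1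
    have hc : fst ≫ f = snd ≫ i := Limits.pullback.condition
    have h5 : IsIso ((snd ≫ i).stalkMap z) := by
      rw [← hc]
      exact h4
    rw [Scheme.Hom.stalkMap_comp] at h5
    exact @IsIso.of_isIso_comp_left _ _ _ _ _ (i.stalkMap (snd z)) (snd.stalkMap z) h3 h5
  have hbase : IsIso snd.base := by
    refine ⟨σ.base, ?_, ?_⟩
    · ext z
      exact hsub.elim _ _
    · ext z
      exact hsub2.elim _ _
  rw [isIso_iff_isIso_stalkMap]
  exact ⟨hbase, hst⟩

end Groth.Agent.LeadSpread
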