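import Mathlib
set_option autoImplicit false
universe u v
open AlgebraicGeometry CategoryTheory Limits

namespace Groth.Agent.H7

theorem isReduced_subscheme_of_isRadical {X : Scheme.{u}} (I : X.IdealSheafData)
    (hI : ∀ U, (I.ideal U).IsRadical) : IsReduced I.subscheme := by
  have : ∀ i, IsReduced ((I.subschemeCover.openCover).X i) := by
    intro U
    have : _root_.IsReduced (Γ(X, (U : X.affineOpens).1) ⧸ I.ideal U) :=
      (Ideal.isRadical_iff_quotient_reduced _).mp (hI U)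
    show IsReduced (Spec (CommRingCat.of (Γ(X, (U : X.affineOpens).1) ⧸ I.ideal U)))
    infer_instance
  exact IsReduced.of_openCover _ I.subschemeCover.openCover

theorem flat_fromSpecStalk {Y : Scheme.{u}} (y : Y) : Flat (Y.fromSpecStalk y) := by
  obtain ⟨_, ⟨U, hU, rfl⟩, hxU, -⟩ :=
    Y.isBasis_affineOpens.exists_subset_of_mem_open (Set.mem_univ y) isOpen_univ
  rw [← IsAffineOpen.fromSpecStalk_eq_fromSpecStalk hU hxU]
  have := hU.isLocalization_stalk ⟨y, hxU⟩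
  unfold IsAffineOpen.fromSpecStalk
  have : Flat (Spec.map (Y.presheaf.germ U y hxU)) := by
    rw [HasRingHomProperty.Spec_iff (P := @Flat)]
    exact @IsLocalization.flat _ _ _ _ (TopCat.Presheaf.algebra_section_stalk Y.presheaf (⟨y, hxU⟩ : U)) (hU.primeIdealOf ⟨y, hxU⟩).asIdeal.primeCompl this
  infer_instance

theorem ker_le_of_isReduced {X Y Z : Scheme.{u}} [IsReduced X] (f : X ⟶ Y) (j : Z ⟶ Y) [IsClosedImmersion j]
    (h : Set.range f ⊆ Set.range j) : j.ker ≤ f.ker := by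
  show j.ker ≤ Scheme.IdealSheafData.ofIdeals _
  rw [Scheme.IdealSheafData.le_ofIdeals_iff]
  intro U s hs
  rw [Scheme.Hom.ker_apply, RingHom.mem_ker] at hs
  rw [RingHom.mem_ker]
  apply eq_zero_of_basicOpen_eq_bot
  have h1 : j ⁻¹ᵁ (Y.basicOpen s) = ⊥ := by
    rw [Scheme.preimage_basicOpen]
    have : (j.app U) s = 0 := hs
    rw [this, Scheme.basicOpen_zero]
  have h2 : f ⁻¹ᵁ (Y.basicOpen s) = ⊥ := by
    rw [eq_bot_iff]
    intro x hx
    obtain ⟨z, hz⟩ := h ⟨x, rfl⟩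
    have : z ∈ j ⁻¹ᵁ (Y.basicOpen s) := by
      show j z ∈ Y.basicOpen s
      rw [hz]; exact hx
    rw [h1] at this
    exact this.elim
  rw [Scheme.preimage_basicOpen] at h2
  exact h2

theorem exists_lift_of_isReduced {X Y Z : Scheme.{u}} [IsReduced X] (f : X ⟶ Y) (j : Z ⟶ Y) [IsClosedImmersion j]
    (h : Set.range f ⊆ Set.range j) :
    ∃ g : X ⟶ Z, g ≫ j = f :=
  ⟨IsClosedImmersion.lift j f (ker_le_of_isReduced f j h), IsClosedImmersion.lift_fac _ _ _⟩

theorem noetherianSpace_of_isCompact {X : Type u} [TopologicalSpace X]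
    (hX : ∀ x : X, ∃ U : Set X, IsOpen U ∧ x ∈ U ∧ TopologicalSpace.NoetherianSpace U)
    (K : Set X) (hK : IsCompact K) : TopologicalSpace.NoetherianSpace K := by
  obtain ⟨t, ht⟩ := hK.elim_finite_subcover (fun x : X => ((hX x).choose : Set X))
    (fun x => (hX x).choose_spec.1) (fun x _ => Set.mem_iUnion.mpr ⟨x, (hX x).choose_spec.2.1⟩)
  have h1 : TopologicalSpace.NoetherianSpace (⋃ x : t, ((hX x.1).choose : Set X) : Set X) :=
    TopologicalSpace.NoetherianSpace.iUnion (α := X) (ι := t) (fun x : t => ((hX x.1).choose : Set X))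
      (hf := fun i => (hX i.1).choose_spec.2.2)
  have h2 : K ⊆ (⋃ x : t, ((hX x.1).choose : Set X) : Set X) := by
    refine ht.trans ?_
    intro y hy
    simp only [Set.mem_iUnion] at hy ⊢
    obtain ⟨i, hi, hy⟩ := hy
    exact ⟨⟨i, hi⟩, hy⟩
  exact (Topology.IsEmbedding.inclusion h2).isInducing.noetherianSpace

theorem quasiCompact_of_comp_of_locNoeth
    {X Y Z : Scheme.{u}} (f : X ⟶ Y) (g : Y ⟶ Z) [QuasiCompact (f ≫ g)]
    (hX' : ∀ x : X, ∃ U : Set X, IsOpen U ∧ x ∈ U ∧ TopologicalSpace.NoetherianSpace U) :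
    QuasiCompact f := by
  constructor
  intro V hVo hV
  have h1 : ∀ y ∈ V, ∃ W : Set Y, IsOpen W ∧ y ∈ W ∧ W ⊆ V ∧ IsCompact (f ⁻¹' W) := by
    intro y hy
    obtain ⟨_, ⟨U, hU, rfl⟩, hyU, -⟩ :=
      Z.isBasis_affineOpens.exists_subset_of_mem_open (Set.mem_univ (g y)) isOpen_univ
    refine ⟨V ∩ (g ⁻¹ᵁ U), hVo.inter (g ⁻¹ᵁ U).2, ⟨hy, hyU⟩, Set.inter_subset_left, ?_⟩
    have hc : IsCompact ((f ≫ g) ⁻¹ᵁ U : Set X) := QuasiCompact.isCompact_preimage (f := f ≫ g) _ U.2 hU.isCompact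
    have hn := noetherianSpace_of_isCompact hX' _ hc
    have := @TopologicalSpace.NoetherianSpace.isCompact _ _ hn ((Subtype.val) ⁻¹' (f ⁻¹' (V ∩ (g ⁻¹ᵁ U))))
    have h3 := this.image continuous_subtype_val
    convert h3 using 1
    rw [Subtype.image_preimage_coe]
    ext x
    simp
  obtain ⟨t, ht⟩ := hV.elim_finite_subcover (fun y : V => ((h1 y.1 y.2).choose : Set Y)) (fun y => (h1 y.1 y.2).choose_spec.1) (fun y hy => Set.mem_iUnion.mpr ⟨⟨y, hy⟩, (h1 y hy).choose_spec.2.1⟩)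
  have : f ⁻¹' V = ⋃ y ∈ t, f ⁻¹' (h1 y.1 y.2).choose := by
    apply subset_antisymm
    · intro x hx
      have := ht hx
      simpa using this
    · intro x hx
      simp only [Set.mem_iUnion] at hx
      obtain ⟨i, _, hi⟩ := hx
      exact (h1 i.1 i.2).choose_spec.2.2.1 hi
  rw [this]
  exact t.isCompact_biUnion (fun y _ => (h1 y.1 y.2).choose_spec.2.2.2)

end Groth.Agent.H7
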