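import Mathlib
set_option autoImplicit false
universe u v
open AlgebraicGeometry CategoryTheory Limits

namespace Groth.Agent.H7

theorem geometrically_of_surjective_baseChange (P : ObjectProperty Scheme.{u})
    (hP : ∀ {Z' Z : Scheme.{u}} (q : Z' ⟶ Z) [Surjective q] [Flat q], P Z' → P Z)
    {X Y Y' : Scheme.{u}} (f : X ⟶ Y) (g : Y' ⟶ Y) [Surjective g]
    (h : geometrically P (pullback.snd f g)) : geometrically P f := by
  intro K _ y Z fst snd hpb
  -- a point of pullback y g
  obtain ⟨y', hy'⟩ := g.surjective (y (IsLocalRing.closedPoint K))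
  obtain ⟨w, -, -⟩ := Scheme.Pullback.exists_preimage_pullback (f := y) (g := g) (IsLocalRing.closedPoint K) y' hy'.symm
  let W := pullback y g
  let q : Spec (W.residueField w) ⟶ Spec (.of K) := W.fromSpecResidueField w ≫ pullback.fst y g
  let r : Spec (W.residueField w) ⟶ Y' := W.fromSpecResidueField w ≫ pullback.snd y g
  have hqr : q ≫ y = r ≫ g := by
    simp only [q, r, Category.assoc, pullback.condition]
  have hbig : IsPullback (pullback.fst snd q ≫ fst) (pullback.snd snd q) f (q ≫ y) :=
    (IsPullback.of_hasPullback snd q).paste_horiz hpb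
  have hbig' : IsPullback (pullback.fst snd q ≫ fst) (pullback.snd snd q) f (r ≫ g) := by
    rw [← hqr]; exact hbig
  let fst' : pullback snd q ⟶ pullback f g := pullback.lift (pullback.fst snd q ≫ fst) (pullback.snd snd q ≫ r)
      (hbig'.w.trans (Category.assoc _ _ _).symm)
  have hfst : fst' ≫ pullback.fst f g = pullback.fst snd q ≫ fst := pullback.lift_fst _ _ _
  have hsnd : fst' ≫ pullback.snd f g = pullback.snd snd q ≫ r := pullback.lift_snd _ _ _
  have hsmall : IsPullback fst' (pullback.snd snd q) (pullback.snd f g) r := by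
    have h1 : IsPullback (fst' ≫ pullback.fst f g) (pullback.snd snd q) f (r ≫ g) := by
      rw [hfst]; exact hbig'
    exact IsPullback.of_right h1 hsnd (IsPullback.of_hasPullback f g)
  have hPL : P (pullback snd q) := h r fst' (pullback.snd snd q) hsmall
  have : Surjective q := by
    constructor
    intro x
    exact ⟨IsLocalRing.closedPoint _, Subsingleton.elim _ _⟩
  exact hP (pullback.fst snd q) hPL

theorem geometrically_of_surjective_source (P : ObjectProperty Scheme.{u})
    (hP : ∀ {Z' Z : Scheme.{u}} (q : Z' ⟶ Z) [Surjective q], P Z' → P Z)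
    {X Y S : Scheme.{u}} (f : X ⟶ S) (g : Y ⟶ S) (h : X ⟶ Y) (w : h ≫ g = f) [Surjective h]
    (hf : geometrically P f) : geometrically P g := by
  intro K _ y Z fst snd hpb
  have hbig : IsPullback (pullback.fst h fst) (pullback.snd h fst ≫ snd) f y := by
    rw [← w]
    exact (IsPullback.of_hasPullback h fst).paste_vert hpb
  exact hP (pullback.snd h fst) (hf y _ _ hbig)

theorem irreducibleSpace_of_surjective {Z' Z : Scheme.{u}} (q : Z' ⟶ Z) [Surjective q]
    (h : IrreducibleSpace Z') : IrreducibleSpace Z := by
  have := h
  have : PreirreducibleSpace Z := by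
    constructor
    have h1 := (PreirreducibleSpace.isPreirreducible_univ (X := Z')).image q q.continuous.continuousOn
    rwa [Set.image_univ, q.surjective.range_eq] at h1
  have hne : Nonempty Z := ⟨q (Classical.arbitrary Z')⟩
  exact { toPreirreducibleSpace := this, toNonempty := hne }

theorem connectedSpace_of_surjective {Z' Z : Scheme.{u}} (q : Z' ⟶ Z) [Surjective q]
    (h : ConnectedSpace Z') : ConnectedSpace Z :=
  q.surjective.connectedSpace q.continuous

theorem isReduced_of_flat_surjective {Z' Z : Scheme.{u}} (q : Z' ⟶ Z) [Surjective q] [Flat q]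
    (h : IsReduced Z') : IsReduced Z := by
  have : ∀ z : Z, _root_.IsReduced (Z.presheaf.stalk z) := by
    intro z
    obtain ⟨x, rfl⟩ := q.surjective z
    have h1 : (q.stalkMap x).hom.Flat := Flat.stalkMap _ _
    have h3 : (q.stalkMap x).hom.FaithfullyFlat := by
      algebraize [(q.stalkMap x).hom]
      have : IsLocalHom (algebraMap (Z.presheaf.stalk (q x)) (Z'.presheaf.stalk x)) := by
        show IsLocalHom (q.stalkMap x).hom
        infer_instance
      exact Module.FaithfullyFlat.of_flat_of_isLocalHom
    exact isReduced_of_injective _ h3.injective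
  exact isReduced_of_isReduced_stalk Z

theorem isIntegral_of_flat_surjective {Z' Z : Scheme.{u}} (q : Z' ⟶ Z) [Surjective q] [Flat q]
    (h : IsIntegral Z') : IsIntegral Z := by
  have h1 := isReduced_of_flat_surjective q inferInstance
  have h2 := irreducibleSpace_of_surjective q inferInstance
  exact isIntegral_of_irreducibleSpace_of_isReduced Z

end Groth.Agent.H7
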